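import Cfsg.Statements.S0562
import Cfsg.Agent.H1.Ito

set_option autoImplicit false
open Cfsg

namespace Cfsg.Agent.S0562

/-- Let the finite group G be the product HK of subgroups, A normal in H, B normal in K, and L the normalizer of the subgroup generated by A and B. Then every element of L is a product of an element of L ∩ H and an element of L ∩ K. -/
theorem result {G : Type*} [Group G] [Finite G] (H K A B : Subgroup G) (hHK : ∀ g : G, ∃ h ∈ H, ∃ k ∈ K, g = h * k) (hA : A ≤ H) (hAn : (A.subgroupOf H).Normal) (hB : B ≤ K) (hBn : (B.subgroupOf K).Normal) : ∀ g ∈ Subgroup.normalizer ((A ⊔ B : Subgroup G) : Set G), ∃ h ∈ Subgroup.normalizer ((A ⊔ B : Subgroup G) : Set G) ⊓ H, ∃ k ∈ Subgroup.normalizer ((A ⊔ B : Subgroup G) : Set G) ⊓ K, g = h * k := by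
  open Subgroup Pointwise in
  intro g hg
  obtain ⟨h, hh, k, hk, rfl⟩ := hHK g
  have hAN := (normal_subgroupOf_iff_le_normalizer hA).1 hAn
  have hBN := (normal_subgroupOf_iff_le_normalizer hB).1 hBn
  have h1 := H1.mem_normalizer_iff_conj_smul.1 hg
  have h2 : A ⊔ B ≤ MulAut.conj k • (A ⊔ B) := by
    refine sup_le ?_ ?_
    · rw [← H1.conj_smul_conj_smul, smul_eq_iff_eq_inv_smul] at h1
      rw [h1, subset_pointwise_smul_iff, inv_inv, H1.mem_normalizer_iff_conj_smul.1 (hAN hh)]
      exact le_sup_left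
    · rw [smul_sup, H1.mem_normalizer_iff_conj_smul.1 (hBN hk)]
      exact le_sup_right
  have h3 : k ∈ normalizer ((A ⊔ B : Subgroup G) : Set G) := by
    rw [H1.mem_normalizer_iff_conj_smul]
    refine (H1.eq_of_le_of_card_le h2 (le_of_eq ?_)).symm
    exact (Nat.card_congr (equivSMul (MulAut.conj k) (A ⊔ B)).toEquiv).symm
  exact ⟨h, ⟨(mul_mem_cancel_right h3).1 hg, hh⟩, k, ⟨h3, hk⟩, rfl⟩

end Cfsg.Agent.S0562
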