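import Cfsg.Statements.S5565
import Cfsg.Agent.H83.J4U

set_option autoImplicit false
open Cfsg

namespace Cfsg.Agent.S5565

/-- Let G be a finite non-abelian simple group of Janko-four type (an involution z whose centralizer H has an extraspecial largest normal 2-subgroup E of order 2^13 containing its centralizer in H, a normal subgroup N ≥ E of H with N/E of order 3 and H/N the automorphism group of M₂₂, and a subgroup P ≤ N of order 3 with C_E(P) = ⟨z⟩, N_H(P) ≠ C_H(P) and P ≤ C_H(P)′). Then a Sylow 3-subgroup R of G contained in H is extraspecial of order 27 and exponent 3, its normalizer in G lies in H, and that normalizer has order 864. -/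
theorem result {G : Type*} [Group G] [Finite G] [IsSimpleGroup G] (hG : ¬ IsMulCommutative G) (z : G) (hJ : Cfsg.IsOfJankoFourTypeAt z) (R : Sylow 3 G) (hR : (R : Subgroup G) ≤ Subgroup.centralizer ({z} : Set G)) :
    Cfsg.IsExtraspecial 3 ↥(R : Subgroup G) ∧ Nat.card ↥(R : Subgroup G) = 27 ∧ Monoid.exponent ↥(R : Subgroup G) = 3 ∧
    Subgroup.normalizer ((R : Subgroup G) : Set G) ≤ Subgroup.centralizer ({z} : Set G) ∧ Nat.card ↥(Subgroup.normalizer ((R : Subgroup G) : Set G)) = 864 := by
  obtain ⟨P, h⟩ := hJ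
  obtain ⟨J, rfl, -⟩ := H83.J4.exists_JL hG h
  obtain ⟨g, hg, e⟩ := J.sylIn_R3.exists_conj (H98.sylIn_of_sylow_le R hR)
  have e' : H49.cj J.R3 g = R := e
  have hc : Nat.card (R : Subgroup G) = 27 := by rw [← e', H49.card_cj, J.card_R3]
  have f : J.R3 ≃* (R : Subgroup G) := (H83.J4.cjEquiv _ g).trans (MulEquiv.subgroupCongr e')
  refine ⟨H5.isExtraspecial_of_card_cube hc fun c => J.R3_not_comm ⟨⟨fun a b => f.injective (by
    rw [map_mul, map_mul, c.is_comm.comm])⟩⟩, hc, ?_, ?_, ?_⟩
  · rw [← Monoid.exponent_eq_of_mulEquiv f]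
    refine ((Nat.dvd_prime Nat.prime_three).mp (Monoid.exponent_dvd_of_forall_pow_eq_one fun x =>
      Subtype.ext (J.mem_R3.mp x.2).2)).resolve_left fun h1 => J.ρ_ne ?_
    have := Monoid.pow_exponent_eq_one (⟨_, J.ρ_mem_R3⟩ : J.R3)
    rw [h1, pow_one] at this
    exact congrArg Subtype.val this
  · rw [← e', ← H83.J4.cj_normalizer]; exact H83.J4.cj_le_of_mem J.normalizer_R3 hg
  · rw [← e', ← H83.J4.cj_normalizer, H49.card_cj, J.card_normalizer_R3]

end Cfsg.Agent.S5565
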