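import Cfsg.Statements.S3766
import Cfsg.Agent.H3.Fitting
import Cfsg.Agent.H2.SchurZassenhaus

set_option autoImplicit false
open Cfsg

namespace Cfsg.Agent.S3766

open scoped commutatorElement
open Subgroup

def Chief {G : Type*} [Group G] (U V : Subgroup G) : Prop :=
  U.Normal ∧ V.Normal ∧ V < U ∧ ∀ W : Subgroup G, W.Normal → V ≤ W → W ≤ U → W = V ∨ W = U

theorem centralizes {G : Type*} [Group G] [Finite G] {U V : Subgroup G} (h : Chief U V) {g : G}
    (hg : g ∈ fittingSubgroup G) : ∀ u ∈ U, u * g * u⁻¹ * g⁻¹ ∈ V := by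
  obtain ⟨hU, hV, hVU, hmin⟩ := h
  intro u hu
  have hs := QuotientGroup.mk'_surjective V
  have hn : (U.map (QuotientGroup.mk' V)).Normal := hU.map _ hs
  have h1 := H3.fitting_le_centralizer_minimal_normal (M := U.map (QuotientGroup.mk' V)) (by
    intro K hK hKU
    rcases hmin (K.comap (QuotientGroup.mk' V)) inferInstance
      (by intro x hx; simp [(QuotientGroup.eq_one_iff x).2 hx])
      (by
        refine (comap_mono hKU).trans ?_
        rw [comap_map_eq, QuotientGroup.ker_mk']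
        exact sup_le le_rfl hVU.le) with h | h
    · left
      rw [← map_comap_eq_self_of_surjective hs K, h, Subgroup.map_eq_bot_iff, QuotientGroup.ker_mk']
    · right
      rw [← map_comap_eq_self_of_surjective hs K, h])
  have h2 := h1 (H3.map_fitting_le hs (mem_map_of_mem _ hg)) _ (mem_map_of_mem _ hu)
  rw [← QuotientGroup.eq_one_iff]
  simp only [QuotientGroup.mk'_apply] at h2
  simp only [QuotientGroup.mk_mul, QuotientGroup.mk_inv, h2]
  group

theorem exists_chief {G : Type*} [Group G] [Finite G] {U : Subgroup G} (hU : U.Normal) (h : U ≠ ⊥) :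
    ∃ V, Chief U V := by
  obtain ⟨V, ⟨hV, hVU⟩, hmax⟩ := WellFounded.has_min (wellFounded_gt (α := Subgroup G))
    {V | V.Normal ∧ V < U} ⟨⊥, inferInstance, bot_lt_iff_ne_bot.2 h⟩
  refine ⟨V, hU, hV, hVU, fun W hW h1 h2 => ?_⟩
  by_contra hc
  rw [not_or] at hc
  exact hmax W ⟨hW, lt_of_le_of_ne h2 hc.2⟩ (lt_of_le_of_ne h1 (Ne.symm hc.1))

theorem mem_fitting {G : Type*} [Group G] [Finite G] (hG : Group.IsSolvable G) (N : Subgroup G)
    [hN : N.Normal] (g : G) (hg : g ∈ N)
    (h : ∀ U V : Subgroup G, Chief U V → U ≤ (fittingSubgroup N).map N.subtype →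
      ∀ u ∈ U, u * g * u⁻¹ * g⁻¹ ∈ V) : g ∈ (fittingSubgroup N).map N.subtype := by
  set F := (fittingSubgroup N).map N.subtype with hF
  have hFn : F.Normal := H3.map_fitting_normal N
  let C : Subgroup G :=
    { carrier := {g | g ∈ N ∧ ∀ U V : Subgroup G, Chief U V → U ≤ F → ∀ u ∈ U, ⁅u, g⁆ ∈ V}
      one_mem' := ⟨N.one_mem, fun U V _ _ u _ => by simp⟩
      mul_mem' := by
        rintro a b ⟨ha, ha'⟩ ⟨hb, hb'⟩
        refine ⟨N.mul_mem ha hb, fun U V hc hU u hu => ?_⟩
        have : ⁅u, a * b⁆ = ⁅u, a⁆ * (a * ⁅u, b⁆ * a⁻¹) := by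
          simp only [commutatorElement_def]; group
        rw [this]
        exact V.mul_mem (ha' U V hc hU u hu) (hc.2.1.conj_mem _ (hb' U V hc hU u hu) a)
      inv_mem' := by
        rintro a ⟨ha, ha'⟩
        refine ⟨N.inv_mem ha, fun U V hc hU u hu => ?_⟩
        have : ⁅u, a⁻¹⁆ = a⁻¹ * ⁅u, a⁆⁻¹ * a⁻¹⁻¹ := by
          simp only [commutatorElement_def]; group
        rw [this]
        exact hc.2.1.conj_mem _ (V.inv_mem (ha' U V hc hU u hu)) _ }
  have hCn : C.Normal := ⟨by
    rintro a ⟨ha, ha'⟩ x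
    refine ⟨hN.conj_mem a ha x, fun U V hc hU u hu => ?_⟩
    have : ⁅u, x * a * x⁻¹⁆ = x * ⁅x⁻¹ * u * x⁻¹⁻¹, a⁆ * x⁻¹ := by
      simp only [commutatorElement_def]; group
    rw [this]
    exact hc.2.1.conj_mem _ (ha' U V hc hU _ (hc.1.conj_mem u hu _)) _⟩
  have hFC : F ≤ C := fun x hx =>
    ⟨map_subtype_le _ hx, fun U V hc _ => centralizes hc (H3.map_fitting_le_fitting N hx)⟩
  suffices hCF : C ≤ F from hCF ⟨hg, h⟩
  by_contra hCF
  have hs := QuotientGroup.mk'_surjective F
  have hn : (C.map (QuotientGroup.mk' F)).Normal := hCn.map _ hs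
  obtain ⟨M, hMn, hM0, hMC, hMc, -⟩ := H2.exists_abelian_pgroup_normal_le
    (C.map (QuotientGroup.mk' F)) (by rwa [Ne, Subgroup.map_eq_bot_iff, QuotientGroup.ker_mk']) inferInstance
  set K := M.comap (QuotientGroup.mk' F) with hK
  have hKC : K ≤ C := by
    refine (comap_mono hMC).trans ?_
    rw [comap_map_eq, QuotientGroup.ker_mk']
    exact sup_le le_rfl hFC
  have hKK : ⁅K, K⁆ ≤ F := by
    rw [commutator_le]
    intro a ha b hb
    rw [← QuotientGroup.ker_mk' F, MonoidHom.mem_ker, map_commutatorElement,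
      commutatorElement_eq_one_iff_mul_comm]
    exact congrArg Subtype.val (hMc.is_comm.comm ⟨_, ha⟩ ⟨_, hb⟩)
  have key : ∀ U : Subgroup G, U.Normal → U ≤ F → ∀ n, K.lowerCentralSeries n ≤ U →
      ∃ m, K.lowerCentralSeries m = ⊥ := by
    intro U
    induction U using WellFoundedLT.induction with
    | ind U ih =>
    intro hU hUF n hn
    by_cases h0 : U = ⊥
    · exact ⟨n, le_bot_iff.1 (h0 ▸ hn)⟩
    obtain ⟨V, hV⟩ := exists_chief hU h0
    refine ih V hV.2.2.1 hV.2.1 (hV.2.2.1.le.trans hUF) (n + 1) ?_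
    rw [Subgroup.lowerCentralSeries_succ, commutator_le]
    exact fun a ha b hb => (hKC hb).2 U V hV hUF a (hn ha)
  obtain ⟨m, hm⟩ := key F hFn le_rfl 1 hKK
  have hKF : K ≤ F := H3.le_map_fitting (Subgroup.isNilpotent_of_lowerCentralSeries_eq_bot hm)
    (fun x hx => (hKC hx).1) le_normalizer_of_normal
  apply hM0
  rw [← map_comap_eq_self_of_surjective hs M, Subgroup.map_eq_bot_iff, QuotientGroup.ker_mk']
  exact hKF

/-- Let G be a finite solvable group and N a normal subgroup of G. Call a pair V < U of normal subgroups of G a chief factor of G when no normal subgroup of G lies strictly between them; an element g centralizes the chief factor U/V when u g u⁻¹ g⁻¹ ∈ V for all u ∈ U. Then an element of G lies in the Fitting subgroup F(N) if and only if it lies in N and centralizes every chief factor of G; and also if and only if it lies in N and centralizes every chief factor U/V of G with U ≤ F(N). -/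
theorem result {G : Type*} [Group G] [Finite G] (hG : Group.IsSolvable G) (N : Subgroup G) [N.Normal] (g : G) : (g ∈ (Cfsg.fittingSubgroup ↥N).map N.subtype ↔ g ∈ N ∧ ∀ U V : Subgroup G, (U.Normal ∧ V.Normal ∧ V < U ∧ ∀ W : Subgroup G, W.Normal → V ≤ W → W ≤ U → W = V ∨ W = U) → ∀ u ∈ U, u * g * u⁻¹ * g⁻¹ ∈ V) ∧ (g ∈ (Cfsg.fittingSubgroup ↥N).map N.subtype ↔ g ∈ N ∧ ∀ U V : Subgroup G, (U.Normal ∧ V.Normal ∧ V < U ∧ ∀ W : Subgroup G, W.Normal → V ≤ W → W ≤ U → W = V ∨ W = U) → U ≤ (Cfsg.fittingSubgroup ↥N).map N.subtype → ∀ u ∈ U, u * g * u⁻¹ * g⁻¹ ∈ V) := by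
  refine ⟨⟨fun h => ⟨map_subtype_le _ h, fun U V hc => ?_⟩, fun h => ?_⟩,
    ⟨fun h => ⟨map_subtype_le _ h, fun U V hc _ => ?_⟩, fun h => ?_⟩⟩
  · exact centralizes hc (H3.map_fitting_le_fitting N h)
  · exact mem_fitting hG N g h.1 fun U V hc _ => h.2 U V hc
  · exact centralizes hc (H3.map_fitting_le_fitting N h)
  · exact mem_fitting hG N g h.1 h.2

end Cfsg.Agent.S3766
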