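import Cfsg.Statements.S4709
import Cfsg.Agent.H20.AbFrob2

set_option autoImplicit false
open Cfsg

namespace Cfsg.Agent.S4709

/-- Let p be a prime, M a maximal ideal of the algebraic integers containing p, and G a finite group with a nontrivial abelian Sylow p-subgroup P; put N = N_G(P), C = C_G(P). Suppose N/C is cyclic of order m with 1 < m < #P − 1 (C has index m in N and N is generated by C and one element), and C_G(y) ∩ N = C for every non-identity y ∈ P. Put r = (#P − 1)/m. Then there is s ≤ m such that the principal p-block is the disjoint union of a set X of s characters containing the principal character and a set Y of r characters, with integers a_χ ≠ 0 (χ ∈ X), d and a sign δ = ±1, such that: every χ ∈ X takes the value a_χ at every element whose p-part is a non-identity element of P; there is a map ζ from the non-principal linear characters ψ of P onto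 Y, constant on N-conjugacy classes, with ζ_ψ(z) = d + δ·Σ ψ'(y) for every z whose p-part y is a non-identity element of P, the sum running over the N-conjugates ψ' of ψ; (d − δ)^2 + (r − 1) d^2 + Σ_{χ ∈ X} a_χ^2 = m + 1; all members of Y agree on p-regular elements; and (r d − δ) η(g) + Σ_{χ ∈ X} a_χ χ(g) = 0 for every η ∈ Y and every p-regular g. -/
theorem result {G : Type*} [Group G] [Finite G] (p : ℕ) [Fact p.Prime] (M : Ideal Cfsg.AlgInt) (hM : Cfsg.IsPModular p M) (P : Sylow p G) (hab : IsMulCommutative P) (hP1 : Nat.card P ≠ 1) (m : ℕ) (hm1 : 1 < m) (hm2 : m + 1 < Nat.card P) (hCN : (Subgroup.centralizer ((P : Subgroup G) : Set G)).relIndex (Subgroup.normalizer ((P : Subgroup G) : Set G)) = m) (hcyc : ∃ g : G, g ∈ Subgroup.normalizer ((P : Subgroup G) : Set G) ∧ Subgroup.centralizer ((P : Subgroup G) : Set G) ⊔ Subgroup.zpowers g = Subgroup.normalizer ((P : Subgroup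 G) : Set G)) (hfrob : ∀ y : G, y ∈ (P : Subgroup G) → y ≠ 1 → Subgroup.centralizer ({y} : Set G) ⊓ Subgroup.normalizer ((P : Subgroup G) : Set G) = Subgroup.centralizer ((P : Subgroup G) : Set G)) : ∃ (s : ℕ) (X Y : Set (Cfsg.IrrCharacter G)), s ≤ m ∧ Cfsg.principalBlock M G = X ∪ Y ∧ Disjoint X Y ∧ Nat.card X = s ∧ Nat.card Y = (Nat.card P - 1) / m ∧ (∃ χ₁ ∈ X, (χ₁ : G → ℂ) = fun _ => 1) ∧ ∃ (a : Cfsg.IrrCharacter G → ℤ) (d δ : ℤ) (ζ : (↥(P : Subgroup G) →* ℂˣ) → Cfsg.IrrCharacter G), (δ = 1 ∨ δ = -1) ∧ (∀ χ ∈ X, a χ ≠ 0 ∧ ∀ z y : G, Cfsg.IsPPart p z y → y ∈ (P : Subgroup G) → y ≠ 1 → (χ : G → ℂ) z = (a χ : ℂ)) ∧ (∀ ψ : ↥(P : Subgroup G) →* ℂˣ, ψ ≠ 1 → ζ ψ ∈ Y) ∧ (∀ η ∈ Y, ∃ ψ : ↥(P : Subgroup G) →* ℂˣ, ψ ≠ 1 ∧ ζ ψ = η) ∧ (∀ ψ ψ' : ↥(P : Subgroup G) →* ℂˣ, ψ ≠ 1 → (∃ n : G, n ∈ Subgroup.normalizer ((P : Subgroup G) : Set G) ∧ ∀ w w' : ↥(P : Subgroup G), (w' : G) = n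 * w * n⁻¹ → ψ' w' = ψ w) → ζ ψ' = ζ ψ) ∧ (∀ ψ : ↥(P : Subgroup G) →* ℂˣ, ψ ≠ 1 → ∀ (z : G) (y : ↥(P : Subgroup G)), Cfsg.IsPPart p z (y : G) → (y : G) ≠ 1 → (ζ ψ : G → ℂ) z = (d : ℂ) + (δ : ℂ) * ∑ᶠ ψ' ∈ {ψ' : ↥(P : Subgroup G) →* ℂˣ | ∃ n : G, n ∈ Subgroup.normalizer ((P : Subgroup G) : Set G) ∧ ∀ w w' : ↥(P : Subgroup G), (w' : G) = n * w * n⁻¹ → ψ' w' = ψ w}, ((ψ' y : ℂˣ) : ℂ)) ∧ ((d - δ) ^ 2 + ((Nat.card P - 1) / m - 1 : ℤ) * d ^ 2 + ∑ᶠ χ ∈ X, a χ ^ 2 = (m : ℤ) + 1) ∧ (∀ η ∈ Y, ∀ η' ∈ Y, ∀ g : G, ¬ p ∣ orderOf g → (η : G → ℂ) g = (η' : G → ℂ) g) ∧ (∀ η ∈ Y, ∀ g : G, ¬ p ∣ orderOf g → ((((Nat.card P - 1) / m : ℕ) : ℂ) * d - δ) * (η : G → ℂ) g + ∑ᶠ χ ∈ X, (a χ : ℂ) * (χ : G → ℂ) g = 0) := by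
  haveI := Fintype.ofFinite G
  haveI := Fintype.ofFinite (H20.AE P)
  have h : H20.AF P := ⟨fun a b => hab.1.1 a b, hfrob⟩
  have hm : Nat.card (H20.AE P) = m := (H20.card_AE P).trans hCN
  obtain ⟨ι, q, μ, a, d, δ, D⟩ := h.exists_afd hM (by rw [hm]; exact hm2)
  have hr : (Nat.card P - 1) / m = Nat.card ι := hm ▸ D.card_div
  have hn := D.norm hM h
  have hr' : ((Nat.card P - 1 : ℤ) / m) = Nat.card ι := by
    rw [← hr, Int.natCast_div, Nat.cast_sub Nat.card_pos, Nat.cast_one]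
  refine ⟨Nat.card (H20.afX M μ), H20.afX M μ, Set.range μ, ?_, ?_, Set.disjoint_sdiff_left, rfl,
    by rw [hr, Nat.card_range_of_injective D.inj], ⟨_, D.triv_mem hM, rfl⟩, a, d, δ,
    fun ψ => μ (q ψ), D.sign, fun χ hχ => ⟨D.a_ne_zero hM h hχ, fun z y => D.valX hM h hχ⟩,
    fun ψ _ => ⟨_, rfl⟩, ?_, fun ψ ψ' hψ ho => ?_, fun ψ hψ z y hz hy => ?_, ?_, ?_, ?_⟩
  · have h1 := D.card_afX_le hM h
    have h2 : (2 : ℤ) ≤ Nat.card ι := by exact_mod_cast D.two_le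
    have h3 : 1 ≤ (d - δ) ^ 2 + (Nat.card ι - 1 : ℤ) * d ^ 2 := by
      by_cases hd : d = 0
      · have := D.delta_sq
        rw [hd]; nlinarith
      · have := (one_le_sq_iff_one_le_abs _).2 (Int.one_le_abs hd)
        nlinarith [sq_nonneg (d - δ)]
    rw [hm] at hn
    omega
  · exact (Set.diff_union_of_subset (Set.range_subset_iff.2 D.mem)).symm
  · rintro _ ⟨i, rfl⟩
    obtain ⟨ψ, hψ, rfl⟩ := D.surj i
    exact ⟨ψ, hψ, rfl⟩
  · obtain ⟨e, rfl⟩ := (H20.orbit_iff ψ ψ').1 ho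
    exact congrArg μ ((D.q_eq _ _ (H20.lact_ne_one hψ e) hψ).2 ⟨e, rfl⟩)
  · rw [h.finsum_orbit hψ]
    exact D.valY hM h hψ hz fun e => hy (congrArg Subtype.val e)
  · rw [hr', hn, hm]
  · rintro _ ⟨i, rfl⟩ _ ⟨j, rfl⟩ g hg
    exact D.regY hM i j hg
  · rintro _ ⟨i, rfl⟩ g hg
    rw [hr]
    exact D.reg hM i hg

end Cfsg.Agent.S4709
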