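import Cfsg.Statements.S4565
import Cfsg.Agent.H23.FullRam
import Cfsg.Agent.H23.Good

set_option autoImplicit false
open Cfsg

namespace Cfsg.Agent.S4565

open Subgroup H23

/-- Let χ be an irreducible character of the finite group H that is fully ramified over the normal subgroup Z: the restriction of χ to Z is e times an irreducible character of Z with e ^ 2 equal to the index of Z. If Z ≠ H, then H/Z has no cyclic subgroup that is its own centralizer. -/
theorem result {H : Type*} [Group H] [Finite H] (Z : Subgroup H) [Z.Normal] (χ : Cfsg.IrrCharacter H) (hfr : ∃ (θ : Cfsg.IrrCharacter ↥Z) (e : ℕ), e ^ 2 = Z.index ∧ ∀ z : ↥Z, (χ : H → ℂ) z = (e : ℂ) * (θ : ↥Z → ℂ) z) (hZ : Z ≠ ⊤) (C : Subgroup (H ⧸ Z)) (hC : IsCyclic C) : Subgroup.centralizer (C : Set (H ⧸ Z)) ≠ C := by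
  obtain ⟨θ, e, he, h⟩ := hfr
  obtain ⟨hθ, hm⟩ := fullram_setup he h
  intro hCC
  have hu : ∀ χ', mult le_top χ' θ ≠ 0 → χ' = topIrr χ := fun χ' h' =>
    unique_of_mult_sq_eq le_top le_normalizer' hθ (by rw [hm, he, relIndex_top_right]) h'
  have h1 := card_over_eq_card_good le_top le_normalizer' hθ
    ((QuotientGroup.mk' Z).comp (⊤ : Subgroup H).subtype)
    (fun q => by obtain ⟨g, rfl⟩ := QuotientGroup.mk_surjective q; exact ⟨⟨g, trivial⟩, rfl⟩)
    (fun g => QuotientGroup.eq_one_iff _)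
  haveI : Subsingleton {χ' : IrrCharacter (⊤ : Subgroup H) // mult le_top χ' θ ≠ 0} :=
    ⟨fun a b => Subtype.ext ((hu _ a.2).trans (hu _ b.2).symm)⟩
  have h2 := (Finite.card_le_one_iff_subsingleton.2 this)
  rw [h1, Finite.card_le_one_iff_subsingleton] at h2
  obtain ⟨⟨c', hc'⟩, hc⟩ := hC.exists_generator
  obtain ⟨c, rfl⟩ := QuotientGroup.mk_surjective c'
  have hCc : C = zpowers (c : H ⧸ Z) := le_antisymm
    (fun x hx => by
      obtain ⟨n, hn⟩ := mem_zpowers_iff.1 (hc ⟨x, hx⟩)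
      exact ⟨n, congrArg Subtype.val hn⟩) (zpowers_le_of_mem hc')
  have g1 : Good Z ⊤ θ.1 1 := fun t _ _ => ⟨Z ⊔ zpowers t, le_sup_left, one_mem _,
    mem_sup_zpowers Z t, extends_sup_zpowers (le_normalizer' (mem_top t)) (hθ t (mem_top t))⟩
  have g2 : Good Z ⊤ θ.1 c := fun t _ ht => by
    refine ⟨Z ⊔ zpowers c, le_sup_left, mem_sup_zpowers Z c, ?_,
      extends_sup_zpowers (le_normalizer' (mem_top c)) (hθ c (mem_top c))⟩
    have h3 : (t : H ⧸ Z) ∈ C := by
      rw [← hCC, hCc, zpowers_eq_closure, centralizer_closure,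
        mem_centralizer_singleton_iff, eq_comm, ← mul_inv_eq_one, mul_inv_rev, ← mul_assoc]
      exact (QuotientGroup.eq_one_iff _).2 ht
    rw [hCc] at h3
    obtain ⟨n, hn⟩ := mem_zpowers_iff.1 h3
    have h4 : (c ^ n)⁻¹ * t ∈ Z := QuotientGroup.eq.1 hn
    have := mul_mem (zpow_mem (mem_sup_zpowers Z c) n) (mem_sup_left h4)
    simpa using this
  have h3 := congrArg Subtype.val (h2.elim ⟨_, ⟨1, trivial⟩, rfl, g1⟩ ⟨_, ⟨c, trivial⟩, rfl, g2⟩)
  have h4 : (c : H ⧸ Z) = 1 := isConj_one_right.1 (ConjClasses.mk_eq_mk_iff_isConj.1 h3)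
  refine hZ (eq_top_iff.2 fun x _ => (QuotientGroup.eq_one_iff x).1 ?_)
  rw [← mem_bot, ← zpowers_one_eq_bot, ← h4, ← hCc, ← hCC, hCc, h4, zpowers_one_eq_bot]
  rintro _ rfl
  rw [one_mul, mul_one]

end Cfsg.Agent.S4565
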