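import Cfsg.Statements.S2480
import Cfsg.Agent.H76.ProjClass
import Cfsg.Agent.H26.SLBasic

set_option autoImplicit false
open Cfsg

namespace Cfsg.Agent.S2480

theorem num {q n d : ℕ} (hq : 2 ≤ q) (hn : 4 ≤ n) (hd : d ≤ n) (hd' : d ≤ q - 1) :
    ((d - 1 : ℕ) : ℚ) * (5 / 2 * q ^ (n / 2 - 1)) ≤ 2 * q ^ (n - 2) := by
  have hq' : (2 : ℚ) ≤ q := by exact_mod_cast hq
  rcases hn.eq_or_lt with rfl | hn
  · have h1 : ((d - 1 : ℕ) : ℚ) * 5 ≤ 4 * q := by
      exact_mod_cast (show (d - 1) * 5 ≤ 4 * q by omega)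
    norm_num
    nlinarith
  · have h1 : ((d - 1 : ℕ) : ℚ) ≤ q := by exact_mod_cast (show d - 1 ≤ q by omega)
    have h2 : (q : ℚ) ^ (n / 2 - 1 + 2) ≤ q ^ (n - 2) := pow_le_pow_right₀ (by linarith) (by omega)
    rw [pow_add] at h2
    have h3 : (0 : ℚ) ≤ q ^ (n / 2 - 1) := by positivity
    calc _ ≤ (q : ℚ) * (2 * q * q ^ (n / 2 - 1)) := by gcongr; linarith
      _ ≤ _ := by linarith

/-- The number of conjugacy classes of PSL(n,q): for F a finite field with q elements, n ≥ 2 and d = gcd(n, q − 1), the number k of conjugacy classes of PSL(n,F) satisfies q^(n−1) ≤ d·k ≤ q^(n−1) + 5q^(n−2). -/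
theorem result {F : Type*} [Field F] [Fintype F] (n : ℕ) (hn : 2 ≤ n) :
    Fintype.card F ^ (n - 1) ≤ Nat.gcd n (Fintype.card F - 1) * Nat.card (ConjClasses (Matrix.ProjectiveSpecialLinearGroup (Fin n) F)) ∧
      Nat.gcd n (Fintype.card F - 1) * Nat.card (ConjClasses (Matrix.ProjectiveSpecialLinearGroup (Fin n) F)) ≤ Fintype.card F ^ (n - 1) + 5 * Fintype.card F ^ (n - 2) := by
  classical
  obtain ⟨p, hp⟩ := CharP.exists F
  have := Fact.mk (CharP.char_is_prime F p)
  have : CharP (AlgebraicClosure F) p := charP_of_injective_algebraMap (algebraMap F _).injective p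
  have : NeZero n := ⟨by omega⟩
  have hG := H76.cm_gl (F := F) (AlgebraicClosure F) (Fin n)
  have hg := H76.goodQ_card (F := F) (AlgebraicClosure F)
  have hQ := H76.char_dvd_card F p
  have hq : 2 ≤ Fintype.card F := Fintype.one_lt_card
  rw [Fintype.card_fin] at hG
  have hk := H76.range_toGL_eq_ker_detL (F := F) (AlgebraicClosure F) (Fin n)
  have hι := Matrix.SpecialLinearGroup.toGL_injective (n := Fin n) (R := F)
  have hZ := H26.card_center_sl (ι := Fin n) (F := F)
  rw [Fintype.card_fin, Nat.card_eq_fintype_card (α := F)] at hZ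
  have := Fintype.ofFinite (Subgroup.center (Matrix.SpecialLinearGroup (Fin n) F))
  have h1 := H76.card_mul_card_classes_quot (Subgroup.center (Matrix.SpecialLinearGroup (Fin n) F))
    le_rfl (fun _ => True) fun _ _ _ _ => trivial
  rw [← H76.card_conjClasses_eq_true, hZ] at h1
  set f := fun z : Subgroup.center (Matrix.SpecialLinearGroup (Fin n) F) =>
    Nat.card {C : ConjClasses (Matrix.SpecialLinearGroup (Fin n) F) //
      ∃ y, ConjClasses.mk y = C ∧ (True ∧ IsConj (z * y) y)} with hf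
  have h2 : f 1 = Nat.card (ConjClasses (Matrix.SpecialLinearGroup (Fin n) F)) := by
    rw [H76.card_conjClasses_eq_true]
    simp only [hf, OneMemClass.coe_one, one_mul, IsConj.refl, and_self]
  have h3 : ∀ z, z ≠ 1 → ∃ k, 2 ≤ k ∧ k ∣ n ∧
      ((Fintype.card F - 1 : ℕ) : ℚ) * f z ≤ H76.slBd (Fintype.card F) (Fintype.card F - 1) (n / k) := by
    intro z hz
    obtain ⟨c, hc1, hc2⟩ := Matrix.SpecialLinearGroup.mem_center_iff.1 z.2
    rw [Fintype.card_fin] at hc1
    have hc0 : algebraMap F (AlgebraicClosure F) c ≠ 0 := by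
      rw [map_ne_zero]
      rintro rfl
      rw [zero_pow (by omega)] at hc1
      exact zero_ne_one hc1
    have hb : Units.mk0 _ hc0 ^ n = 1 := Units.ext (by simp [← map_pow, hc1])
    have hb0 : 0 < orderOf (Units.mk0 _ hc0) :=
      (isOfFinOrder_iff_pow_eq_one.2 ⟨n, by omega, hb⟩).orderOf_pos
    have hb1 : orderOf (Units.mk0 _ hc0) ≠ 1 := fun h => hz (by
      have h4 : c = 1 := by simpa [Units.ext_iff] using orderOf_eq_one_iff.1 h
      exact Subtype.ext (Subtype.ext (by rw [← hc2, h4, map_one]; rfl)))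
    refine ⟨_, by omega, orderOf_dvd_of_pow_eq_one hb, ?_⟩
    have h4 := hg.mul_sum_twist_le (by omega) hQ (by omega) hb0 rfl (orderOf_dvd_of_pow_eq_one hb)
      ((Finset.univ.filter fun y : Matrix.SpecialLinearGroup (Fin n) F => IsConj (z * y) y).image
        fun y => H76.ujord (AlgebraicClosure F) (Matrix.SpecialLinearGroup.toGL y)) fun s hs => by
      obtain ⟨y, hy, rfl⟩ := Finset.mem_image.1 hs
      refine ⟨hG.adm _, hG.ddet_eq_one hk y, ?_⟩
      rw [← H76.ujord_of_smul (h := Matrix.SpecialLinearGroup.toGL (z.1 * y)) (c := c) _ rfl]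
      · exact (hG.conj _ _).1 (Matrix.SpecialLinearGroup.toGL.map_isConj (Finset.mem_filter.1 hy).2)
      · change (z.1 : Matrix (Fin n) (Fin n) F) * y = c • (y : Matrix (Fin n) (Fin n) F)
        rw [← hc2, Matrix.scalar_apply, ← Matrix.smul_eq_diagonal_mul]
    rw [H76.natAbs_sub_one (by omega)] at h4
    refine le_trans ?_ h4
    gcongr
    have h5 := hG.card_le_sum hQ (by omega) hι hk (fun y => True ∧ IsConj (z * y) y) _
      fun y hy => Finset.mem_image_of_mem
        (fun y => H76.ujord (AlgebraicClosure F) (Matrix.SpecialLinearGroup.toGL y))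
        (Finset.mem_filter.2 ⟨Finset.mem_univ y, hy.2⟩)
    rw [H76.natAbs_sub_one (by omega)] at h5
    exact_mod_cast h5
  clear_value f
  have h4 := hG.mul_card_le hg (by omega) hQ (by omega) hι hk
  rw [H76.natAbs_sub_one (by omega), ← h2] at h4
  have ha : (0 : ℚ) < ((Fintype.card F - 1 : ℕ) : ℚ) := by
    exact_mod_cast (show 0 < Fintype.card F - 1 by omega)
  have hq' : (2 : ℚ) ≤ Fintype.card F := by exact_mod_cast hq
  refine ⟨?_, ?_⟩
  · refine (hG.lt_card hg (by omega) hQ hn hk).le.trans ?_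
    rw [← h2]
    exact (Finset.single_le_sum (fun _ _ => Nat.zero_le _) (Finset.mem_univ 1)).trans h1.ge
  have h5 : ∀ B : ℚ, (∀ z, z ≠ 1 → (f z : ℚ) ≤ B) →
      ((∑ z, f z : ℕ) : ℚ) ≤ f 1 + (Nat.gcd n (Fintype.card F - 1) - 1 : ℕ) * B := by
    intro B hB
    rw [← Finset.add_sum_erase _ _ (Finset.mem_univ 1), Nat.cast_add, Nat.cast_sum]
    gcongr
    refine (Finset.sum_le_card_nsmul _ _ B fun z hz => hB z (Finset.mem_erase.1 hz).1).trans ?_
    rw [Finset.card_erase_of_mem (Finset.mem_univ _), Finset.card_univ, ← Nat.card_eq_fintype_card,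
      hZ, nsmul_eq_mul]
  have hd : Nat.gcd n (Fintype.card F - 1) ≤ n := Nat.gcd_le_left _ (by omega)
  have hd' : Nat.gcd n (Fintype.card F - 1) ≤ Fintype.card F - 1 := Nat.gcd_le_right _ (by omega)
  change _ * Nat.card (ConjClasses (_ ⧸ _)) ≤ _
  rw [h1, ← Nat.cast_le (α := ℚ)]
  rcases le_or_gt n 3 with hn3 | hn4
  · refine (h5 1 fun z hz => ?_).trans ?_
    · obtain ⟨k, h6, h7, h8⟩ := h3 z hz
      have h9 := Nat.le_of_dvd (by omega) h7
      have h10 := Nat.div_pos h9 (by omega)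
      have h11 : n / k ≤ n / 2 := Nat.div_le_div_left h6 two_pos
      rw [show n / k = 1 by omega, H76.slBd_one] at h8
      exact le_of_mul_le_mul_left (by linarith) ha
    · have h6 : ((Nat.gcd n (Fintype.card F - 1) - 1 : ℕ) : ℚ) ≤ (n - 1 : ℕ) := by
        exact_mod_cast Nat.sub_le_sub_right hd 1
      generalize ((Nat.gcd n (Fintype.card F - 1) - 1 : ℕ) : ℚ) = e at h6 ⊢
      rcases (by omega : n = 2 ∨ n = 3) with rfl | rfl
      · have := (H76.sl_two_le hq h4).1
        norm_num at h6 ⊢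
        linarith
      · have := H76.sl_le hq le_rfl h4
        norm_num at h6 this ⊢
        linarith
  · refine (h5 (5 / 2 * Fintype.card F ^ (n / 2 - 1)) fun z hz => ?_).trans ?_
    · obtain ⟨k, h6, h7, h8⟩ := h3 z hz
      have h9 := Nat.div_pos (Nat.le_of_dvd (by omega) h7) (by omega)
      have h10 : n / k ≤ n / 2 := Nat.div_le_div_left h6 two_pos
      have h11 : (Fintype.card F : ℚ) ^ (n / k - 1) ≤ Fintype.card F ^ (n / 2 - 1) :=
        pow_le_pow_right₀ (by linarith) (by omega)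
      rcases (by omega : n / k = 1 ∨ 2 ≤ n / k) with h12 | h12
      · rw [h12, H76.slBd_one] at h8
        rw [h12, pow_zero] at h11
        have : (f z : ℚ) ≤ 1 := le_of_mul_le_mul_left (by linarith) ha
        linarith
      · have := H76.sl_le' hq h12 h8
        linarith
    · have h6 := num hq hn4 hd hd'
      have := H76.sl_le hq (by omega) h4
      push_cast
      linarith

end Cfsg.Agent.S2480
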