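import Cfsg.Statements.S2481
import Cfsg.Agent.H76.ClassCount
import Cfsg.Agent.H76.ClassNum

set_option autoImplicit false
open Cfsg

namespace Cfsg.Agent.S2481

/-- The number of conjugacy classes of SU(n,q): for n ≥ 2, q a prime power and F the field with q² elements, the number k of conjugacy classes of SU(n,q) (the determinant-one isometries of the standard Hermitian form on F^n) satisfies q^(n−1) ≤ k ≤ 8.26·q^(n−1). -/
theorem result {F : Type*} [Field F] [Fintype F] (n q : ℕ) (hn : 2 ≤ n) (hF : Fintype.card F = q ^ 2) :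
    q ^ (n - 1) ≤ Nat.card (ConjClasses (Cfsg.SU n F q)) ∧ 100 * Nat.card (ConjClasses (Cfsg.SU n F q)) ≤ 826 * q ^ (n - 1) := by
  obtain ⟨p, hp⟩ := CharP.exists F
  have := Fact.mk (CharP.char_is_prime F p)
  have : CharP (AlgebraicClosure F) p := charP_of_injective_algebraMap (algebraMap F _).injective p
  have hG := H76.cm_gu (AlgebraicClosure F) hF n
  have hg := H76.goodQ_neg_q (AlgebraicClosure F) hF
  have hQ := H76.char_dvd_neg_q hF p
  have hq : 2 ≤ q := by
    have : 1 < q ^ 2 := hF ▸ Fintype.one_lt_card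
    exact (Nat.one_lt_pow_iff two_ne_zero).1 this
  have hk := H76.range_suToGU_eq_ker_detL (F := F) (AlgebraicClosure F) (q := q) n
  have h1 := hG.mul_card_le hg (by omega) hQ (by omega) H76.suToGU_injective hk
  rw [H76.natAbs_neg_sub_one] at h1
  exact ⟨(hG.lt_card hg (by omega) hQ hn hk).le, by exact_mod_cast H76.su_le hq hn h1⟩

end Cfsg.Agent.S2481
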