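import Cfsg.Statements.S2580
import Cfsg.Agent.H76.Similar

set_option autoImplicit false
open Cfsg

namespace Cfsg.Agent.S2580

/-- Over a finite field, a square matrix is similar to its transpose: for every n × n matrix A there is an invertible matrix P with P A P⁻¹ = Aᵀ (stated as conjugacy in the monoid of matrices, whose units are the invertible matrices). -/
theorem result {F : Type*} [Field F] [Finite F] {n : ℕ} (A : Matrix (Fin n) (Fin n) F) : IsConj A A.transpose := by
  rw [H76.isConj_iff_rank]
  intro a
  have : Polynomial.aeval A.transpose a = (Polynomial.aeval A a).transpose := by
    induction a using Polynomial.induction_on' with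
    | add p q hp hq => simp [hp, hq]
    | monomial k c =>
      simp [Polynomial.aeval_monomial, Algebra.algebraMap_eq_smul_one, Matrix.transpose_pow]
  rw [this, Matrix.rank_transpose]

end Cfsg.Agent.S2580
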