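import Cfsg.Statements.S2566
import Cfsg.Agent.S0287
import Cfsg.Agent.H28.Transport

set_option autoImplicit false
open Cfsg

namespace Cfsg.Agent.S2566

open scoped Matrix

/-- The two-dimensional representation of `S₃` over `𝔽₂`. -/
def rho (σ : Equiv.Perm (Fin 3)) : Matrix (Fin 2) (Fin 2) (ZMod 2) := fun i j =>
  (if σ j.castSucc = i.castSucc then 1 else 0) + (if σ 2 = i.castSucc then 1 else 0)

/-- Coordinates of a `2 × 2` matrix. -/
def pos : Fin 2 ⊕ Fin 2 → Fin 2 × Fin 2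
  | .inl i => (0, i)
  | .inr i => (1, 1 - i)

/-- The Kronecker product of two representation matrices. -/
def kr (σ τ : Equiv.Perm (Fin 3)) : Matrix (Fin 2 ⊕ Fin 2) (Fin 2 ⊕ Fin 2) (ZMod 2) := fun a b =>
  rho σ (pos a).1 (pos b).1 * rho τ (pos a).2 (pos b).2

theorem kr_mul_left : ∀ σ σ' : Equiv.Perm (Fin 3), kr (σ * σ') 1 = kr σ 1 * kr σ' 1 := by
  decide +kernel

theorem kr_mul_right : ∀ σ σ' : Equiv.Perm (Fin 3), kr 1 (σ * σ') = kr 1 σ * kr 1 σ' := by
  decide +kernel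

theorem kr_comm : ∀ σ τ : Equiv.Perm (Fin 3), kr σ 1 * kr 1 τ = kr 1 τ * kr σ 1 := by
  decide +kernel

theorem kr_one : kr 1 1 = 1 := by decide +kernel

theorem kr_inj : ∀ σ τ : Equiv.Perm (Fin 3), kr σ 1 * kr 1 τ = 1 → σ = 1 ∧ τ = 1 := by
  decide +kernel

theorem kr_isom_left : ∀ (σ : Equiv.Perm (Fin 3)) (v : Fin 2 ⊕ Fin 2 → ZMod 2),
    quadFormPlus 2 (ZMod 2) (kr σ 1 *ᵥ v) = quadFormPlus 2 (ZMod 2) v := by decide +kernel

theorem kr_isom_right : ∀ (σ : Equiv.Perm (Fin 3)) (v : Fin 2 ⊕ Fin 2 → ZMod 2),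
    quadFormPlus 2 (ZMod 2) (kr 1 σ *ᵥ v) = quadFormPlus 2 (ZMod 2) v := by decide +kernel

/-- The transposition of `2 × 2` matrices. -/
def tr : Matrix (Fin 2 ⊕ Fin 2) (Fin 2 ⊕ Fin 2) (ZMod 2) := fun a b =>
  if pos a = (pos b).swap then 1 else 0

theorem tr_mul_tr : tr * tr = 1 := by decide +kernel

theorem tr_isom : ∀ (v : Fin 2 ⊕ Fin 2 → ZMod 2),
    quadFormPlus 2 (ZMod 2) (tr *ᵥ v) = quadFormPlus 2 (ZMod 2) v := by decide +kernel

theorem tr_conj : ∀ σ : Equiv.Perm (Fin 3), tr * kr σ 1 * tr = kr 1 σ := by decide +kernel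

/-- Left factor. -/
def homL : Equiv.Perm (Fin 3) →* isometryGroup (ZMod 2) (quadFormPlus 2 (ZMod 2)) :=
  (MonoidHom.toHomUnits (⟨⟨fun σ => kr σ 1, kr_one⟩, kr_mul_left⟩ : Equiv.Perm (Fin 3) →* _)).codRestrict _
    fun σ => (H28.mem_isometryGroup_iff _).2 (kr_isom_left σ)

/-- Right factor. -/
def homR : Equiv.Perm (Fin 3) →* isometryGroup (ZMod 2) (quadFormPlus 2 (ZMod 2)) :=
  (MonoidHom.toHomUnits (⟨⟨fun σ => kr 1 σ, kr_one⟩, kr_mul_right⟩ : Equiv.Perm (Fin 3) →* _)).codRestrict _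
    fun σ => (H28.mem_isometryGroup_iff _).2 (kr_isom_right σ)

/-- The swap. -/
def trO : isometryGroup (ZMod 2) (quadFormPlus 2 (ZMod 2)) :=
  ⟨⟨tr, tr, tr_mul_tr, tr_mul_tr⟩, (H28.mem_isometryGroup_iff _).2 tr_isom⟩

theorem hom_comm (σ τ : Equiv.Perm (Fin 3)) : Commute (homL σ) (homR τ) :=
  Subtype.ext (Units.ext (kr_comm σ τ))

theorem hom_inj (σ τ : Equiv.Perm (Fin 3)) (h : homL σ * homR τ = 1) : σ = 1 ∧ τ = 1 :=
  kr_inj σ τ (congrArg (fun g : isometryGroup (ZMod 2) (quadFormPlus 2 (ZMod 2)) => g.1.1) h)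

theorem hom_conj (σ : Equiv.Perm (Fin 3)) : trO * homL σ * trO⁻¹ = homR σ :=
  Subtype.ext (Units.ext (tr_conj σ))

/-- The full orthogonal group of the plus-type form x₁y₁ + x₂y₂ in dimension 4 over the field of two elements has order 72 and is isomorphic to the wreath product of the symmetric group of degree 3 by a group of order 2: it has a normal subgroup isomorphic to the direct product of two symmetric groups of degree 3, of index 2, whose two direct factors are interchanged by conjugation by some element. -/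
theorem result :
    Nat.card ↥(Cfsg.isometryGroup (ZMod 2) (Cfsg.quadFormPlus 2 (ZMod 2))) = 72 ∧
    ∃ (A B : Subgroup ↥(Cfsg.isometryGroup (ZMod 2) (Cfsg.quadFormPlus 2 (ZMod 2)))),
      Nonempty (↥A ≃* Equiv.Perm (Fin 3)) ∧ Nonempty (↥B ≃* Equiv.Perm (Fin 3)) ∧ A ⊓ B = ⊥ ∧ (∀ a ∈ A, ∀ b ∈ B, a * b = b * a) ∧
      (A ⊔ B).index = 2 ∧ ∃ g : ↥(Cfsg.isometryGroup (ZMod 2) (Cfsg.quadFormPlus 2 (ZMod 2))), A.map (MulAut.conj g).toMonoidHom = B := by
  have hc : Nat.card ↥(Cfsg.isometryGroup (ZMod 2) (Cfsg.quadFormPlus 2 (ZMod 2))) = 72 := by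
    rw [Cfsg.Agent.S0287.result (F := ZMod 2) (q := 2) (by simp) 2 (by norm_num)]
    decide
  have hL : Function.Injective homL := by
    rw [injective_iff_map_eq_one]
    intro σ h
    exact (hom_inj σ 1 (by rw [h, map_one, mul_one])).1
  have hR : Function.Injective homR := by
    rw [injective_iff_map_eq_one]
    intro σ h
    exact (hom_inj 1 σ (by rw [h, map_one, mul_one])).2
  refine ⟨hc, homL.range, homR.range, ⟨(MonoidHom.ofInjective hL).symm⟩,
    ⟨(MonoidHom.ofInjective hR).symm⟩, ?_, ?_, ?_, trO, ?_⟩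
  · rw [eq_bot_iff]
    rintro g ⟨⟨σ, rfl⟩, τ, h⟩
    have := (hom_inj σ τ⁻¹ (by rw [map_inv, h, mul_inv_cancel])).1
    rw [this, map_one]
    exact Subgroup.one_mem _
  · rintro _ ⟨σ, rfl⟩ _ ⟨τ, rfl⟩
    exact hom_comm σ τ
  · have h1 : homL.range ⊔ homR.range = (homL.noncommCoprod homR hom_comm).range :=
      (MonoidHom.noncommCoprod_range _ _ _).symm
    have h2 : Function.Injective (homL.noncommCoprod homR hom_comm) := by
      rw [injective_iff_map_eq_one]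
      rintro ⟨σ, τ⟩ h
      obtain ⟨rfl, rfl⟩ := hom_inj σ τ h
      rfl
    have h3 : Nat.card (homL.noncommCoprod homR hom_comm).range = 36 := by
      rw [← Nat.card_congr (MonoidHom.ofInjective h2).toEquiv, Nat.card_prod, Nat.card_perm,
        Nat.card_fin]
      decide
    have h4 := (homL.noncommCoprod homR hom_comm).range.index_mul_card
    rw [h3, hc] at h4
    rw [h1]
    omega
  · ext g
    constructor
    · rintro ⟨_, ⟨σ, rfl⟩, rfl⟩
      exact ⟨σ, (hom_conj σ).symm⟩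
    · rintro ⟨σ, rfl⟩
      exact ⟨_, ⟨σ, rfl⟩, hom_conj σ⟩

end Cfsg.Agent.S2566
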