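import Cfsg.Statements.S4959
import Cfsg.Agent.H22.KGVc

set_option autoImplicit false
open Cfsg

namespace Cfsg.Agent.S4959


/-- Let X be a finite group and V a normal subgroup of X in which every element has order dividing the prime p, whose index in X is prime to p and which is its own centralizer in X; so V is an elementary abelian normal Sylow p-subgroup, and any complement G to V in X is a group of order prime to p acting faithfully on the vector space V by conjugation (the coprime linear setting of the k(GV) problem). Let G be a complement to V in X, let v be in V and let H be the centralizer of v in G. Suppose there is a subgroup U of V normalized by H, on which H acts faithfully, and carrying an H-invariant bi-additive pairing β with values in the integers modulo p that is nondegenerate on U (equivalently: the restriction of the module V to H has a faithful self-dual submodule; such a v is called a real vector for G). Then the number of conjugacy classes of X is at most the order of V (the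 real-vector criterion for the k(GV) problem). The pairing is given as a function on X whose relevant values are those on pairs from U. -/
theorem result {X : Type*} [Group X] [Finite X] (p : ℕ) [Fact p.Prime] (V : Subgroup X) [V.Normal] (hVexp : ∀ v ∈ V, v ^ p = 1) (hidx : ¬ p ∣ V.index) (hself : Subgroup.centralizer (V : Set X) = V) (G : Subgroup X) (hGV : Subgroup.IsComplement' V G) (v : X) (hv : v ∈ V) (U : Subgroup X) (hUV : U ≤ V) (hUinv : ∀ h ∈ G, h * v * h⁻¹ = v → ∀ u ∈ U, h * u * h⁻¹ ∈ U) (hUfaith : ∀ h ∈ G, h * v * h⁻¹ = v → (∀ u ∈ U, h * u * h⁻¹ = u) → h = 1) (β : X → X → ZMod p) (hβl : ∀ u ∈ U, ∀ u' ∈ U, ∀ w ∈ U, β (u * u') w = β u w + β u' w) (hβr : ∀ u ∈ U, ∀ w ∈ U, ∀ w' ∈ U, β u (w * w') = β u w + β u w') (hβinv : ∀ h ∈ G, h * v * h⁻¹ = v → ∀ u ∈ U, ∀ w ∈ U, β (h * u * h⁻¹) (h * w * h⁻¹) = β u w) (hβnd : ∀ u ∈ U, (∀ w ∈ U, β u w = 0) → u = 1) : Nat.card (ConjClasses X) ≤ Nat.card V := by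
  classical
  let H := G ⊓ Subgroup.centralizer ({v} : Set X)
  have := Fintype.ofFinite H
  have hH : ∀ h, h ∈ H ↔ h ∈ G ∧ h * v = v * h := fun h => by
    simp [H, Subgroup.mem_centralizer_singleton_iff]
  obtain ⟨h0, N, _, M, d, σ, ι, h1, h2, h3, h4, h5, h6, h7, h8, h9, h10⟩ :=
    H22.KGV.kgv V hVexp hidx hself G hGV hv H hH
  have hv' : ∀ h : H, (h : X) * v * (h : X)⁻¹ = v := fun h =>
    mul_inv_eq_of_eq_mul ((hH h).1 h.2).2
  let ι' : Multiplicative (Fin d → ZMod p) →* X :=
    MonoidHom.mk' (fun w => ι w.toAdd) fun a b => h8 _ _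
  let Y : Submodule (ZMod p) (Fin d → ZMod p) :=
    AddSubgroup.toZModSubmodule p (Subgroup.toAddSubgroup' (U.comap ι'))
  have hY : ∀ w, w ∈ Y ↔ ι w ∈ U := fun w => Iff.rfl
  have hYi : H22.SInv σ Y := fun h w hw => by
    rw [hY, h9]
    exact hUinv _ h.2.1 (hv' h) _ hw
  have al : ∀ a b c : Y, β (ι (a + b : Y)) (ι c) = β (ι a) (ι c) + β (ι b) (ι c) :=
    fun a b c => by rw [Submodule.coe_add, h8]; exact hβl _ a.2 _ b.2 _ c.2
  have ar : ∀ a b c : Y, β (ι a) (ι (b + c : Y)) = β (ι a) (ι b) + β (ι a) (ι c) :=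
    fun a b c => by rw [Submodule.coe_add, h8]; exact hβr _ a.2 _ b.2 _ c.2
  let B : LinearMap.BilinForm (ZMod p) Y := LinearMap.mk₂ (ZMod p) (fun a b => β (ι a) (ι b)) al
    (fun c a b => ZMod.map_smul
      (AddMonoidHom.mk' (fun a : Y => β (ι a) (ι b)) fun x y => al x y b) c a) ar
    (fun c a b => ZMod.map_smul (AddMonoidHom.mk' (fun b : Y => β (ι a) (ι b)) (ar a)) c b)
  refine h10 Y hYi (fun h hh => Subtype.ext (hUfaith _ h.2.1 (hv' h) fun u hu => ?_))
    (H22.KGV.good_of_selfDual h1 h2 h3 h0 (B := B) (fun h x y => ?_)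
      (.ofSeparatingLeft fun x hx => Subtype.ext (h4 ?_)))
  · obtain ⟨w, rfl⟩ := h6 u (hUV hu)
    rw [← h9, hh w hu]
  · show β (ι (σ h x)) (ι (σ h y)) = β (ι x) (ι y)
    rw [h9, h9]
    exact hβinv _ h.2.1 (hv' h) _ x.2 _ y.2
  · refine (hβnd _ x.2 fun u hu => ?_).trans h7.symm
    obtain ⟨w, rfl⟩ := h6 u (hUV hu)
    exact hx ⟨w, hu⟩

end Cfsg.Agent.S4959
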