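import Cfsg.Statements.S5577
import Cfsg.Agent.H33.J4Odd5
import Cfsg.Agent.S5563
import Cfsg.Agent.S5564
import Cfsg.Agent.S5629
import Cfsg.Agent.S5570
import Cfsg.Agent.S5572
import Cfsg.Agent.S5573

set_option autoImplicit false
open Cfsg

namespace Cfsg.Agent.S5577

/-- Let G be a finite non-abelian simple group of Janko-four type (an involution z whose centralizer H has an extraspecial largest normal 2-subgroup E of order 2^13 containing its centralizer in H, a normal subgroup N ≥ E of H with N/E of order 3 and H/N the automorphism group of M₂₂, and a subgroup P ≤ N of order 3 with C_E(P) = ⟨z⟩, N_H(P) ≠ C_H(P) and P ≤ C_H(P)′). Then for p = 23, 29, 31, 37 and 43 every Sylow p-subgroup of G is self-centralizing, with normalizer of order 23·22, 29·28, 31·10, 37·12 and 43·14 respectively. -/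
theorem result {G : Type*} [Group G] [Finite G] [IsSimpleGroup G] (hG : ¬ IsMulCommutative G) (hJ : Cfsg.IsOfJankoFourType G) :
    (∀ U : Sylow 23 G, Subgroup.centralizer ((U : Subgroup G) : Set G) = (U : Subgroup G) ∧ Nat.card ↥(Subgroup.normalizer ((U : Subgroup G) : Set G)) = 23 * 22) ∧
    (∀ U : Sylow 29 G, Subgroup.centralizer ((U : Subgroup G) : Set G) = (U : Subgroup G) ∧ Nat.card ↥(Subgroup.normalizer ((U : Subgroup G) : Set G)) = 29 * 28) ∧
    (∀ U : Sylow 31 G, Subgroup.centralizer ((U : Subgroup G) : Set G) = (U : Subgroup G) ∧ Nat.card ↥(Subgroup.normalizer ((U : Subgroup G) : Set G)) = 31 * 10) ∧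
    (∀ U : Sylow 37 G, Subgroup.centralizer ((U : Subgroup G) : Set G) = (U : Subgroup G) ∧ Nat.card ↥(Subgroup.normalizer ((U : Subgroup G) : Set G)) = 37 * 12) ∧
    (∀ U : Sylow 43 G, Subgroup.centralizer ((U : Subgroup G) : Set G) = (U : Subgroup G) ∧ Nat.card ↥(Subgroup.normalizer ((U : Subgroup G) : Set G)) = 43 * 14) := by
  obtain ⟨z, hz⟩ := hJ
  obtain ⟨h1, h2⟩ := H33.J4O.card_hna hG ⟨z, hz⟩ (S5629.result hG z hz)
  obtain ⟨L, Γ, hL⟩ := H33.J4O.exists_glob hG ⟨z, hz⟩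
    (fun z P h => (S5563.result hG z P h).2.2.2.2) (S5564.result hG ⟨z, hz⟩) h1 h2
  obtain ⟨⟨A, a1, a2, a3⟩, -, h3⟩ := S5570.result hG ⟨z, hz⟩
  obtain ⟨⟨B, -, -, -, ⟨e⟩⟩, -⟩ := h3 A a1 a2 a3
  exact H33.J4O.r5577' Γ (fun Q q1 q2 => (S5572.result hG _ hL Q q1 q2).2.2.2)
    (fun Q q1 q2 => (S5573.result hG _ hL Q q1 q2).2.2.2) e

end Cfsg.Agent.S5577
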