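import Cfsg.Statements.S3762
import Cfsg.Agent.H9.Taussky
import Cfsg.Agent.H9.SelfCent
import Cfsg.Agent.H7.Pairing
import Cfsg.Agent.H7.Critical
import Cfsg.Agent.H89.XSBasic
import Cfsg.Agent.H63.Frob

set_option autoImplicit false
open Cfsg

namespace Cfsg.Agent.S3762

open Subgroup
open scoped commutatorElement

section

variable {G : Type*} [Group G] {p : ℕ} {z : G}

theorem cz (hz : z ∈ center G) {c : G} (hc : c ∈ zpowers z) (g : G) : g * c = c * g :=
  mem_center_iff.1 (zpowers_le.2 hz hc) g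

/-- the preimage of the elements of order `p` in the centre of `G / ⟨z⟩` -/
def W (p : ℕ) (hz : z ∈ center G) (ho : z ^ p = 1) : Subgroup G where
  carrier := {x | x ^ p ∈ zpowers z ∧ ∀ g, ⁅x, g⁆ ∈ zpowers z}
  one_mem' := ⟨by simp, fun g => by simp⟩
  mul_mem' := fun {x y} hx hy => by
    have : (zpowers z).Normal := ⟨fun c hc g => by rwa [cz hz hc, mul_inv_cancel_right]⟩
    have k : ∀ x g : G, ⁅x, g⁆ ∈ zpowers z ↔ Commute (x : G ⧸ zpowers z) g := fun x g => by
      rw [← QuotientGroup.eq_one_iff, ← commutatorElement_eq_one_iff_commute]; rfl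
    refine ⟨?_, fun g => (k _ _).2 (((k _ _).1 (hx.2 g)).mul_left ((k _ _).1 (hy.2 g)))⟩
    rw [← QuotientGroup.eq_one_iff, QuotientGroup.mk_pow, QuotientGroup.mk_mul,
      ((k _ _).1 (hx.2 y)).mul_pow, ← QuotientGroup.mk_pow, ← QuotientGroup.mk_pow,
      (QuotientGroup.eq_one_iff _).2 hx.1, (QuotientGroup.eq_one_iff _).2 hy.1, one_mul]
  inv_mem' := fun {x} hx => ⟨by rw [inv_pow]; exact inv_mem hx.1, fun g => by
    have := inv_mem (hx.2 g)
    rw [show ⁅x⁻¹, g⁆ = x⁻¹ * ⁅x, g⁆⁻¹ * x by simp only [commutatorElement_def]; group,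
      cz hz this, inv_mul_cancel_right]
    exact this⟩

variable [Finite G] [hp : Fact p.Prime]

theorem om (hG : IsPGroup p G) (ho : orderOf z = p) {A : Subgroup G} (hA : IsCyclic A) (hz : z ∈ A)
    {x : G} (hx : x ∈ A) (h : x ^ p = 1) : x ∈ zpowers z := by
  rcases H63.le_total_of_isCyclic_of_isPGroup hp.out hA (hG.to_subgroup A) (zpowers_le.2 hx)
    (zpowers_le.2 hz) with e | e
  · exact zpowers_le.1 e
  · refine (eq_of_le_of_card_ge e ?_).ge (mem_zpowers x)
    rw [Nat.card_zpowers, Nat.card_zpowers, ho]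
    exact Nat.le_of_dvd hp.out.pos (orderOf_dvd_of_pow_eq_one h)

theorem compl (hz : z ∈ center G) (ho : z ^ p = 1) : ∃ E ≤ W p hz ho, z ∈ E ∧
    (∀ e ∈ E, e ∈ centralizer (W p hz ho : Set G) → e ∈ zpowers z) ∧
    centralizer (E : Set G) ⊓ W p hz ho ≤ centralizer (W p hz ho : Set G) := by
  have zW : z ∈ W p hz ho := ⟨by simp [ho], fun g => by
    rw [commutatorElement_eq_one_iff_mul_comm.2 (mem_center_iff.1 hz g).symm]; exact one_mem _⟩
  obtain ⟨E, ⟨h1, h2⟩, h3, h4⟩ := H7.exists_max_ge (fun E : Subgroup G => E ≤ W p hz ho ∧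
    ∀ e ∈ E, e ∈ centralizer (W p hz ho : Set G) → e ∈ zpowers z) (A := zpowers z)
    ⟨zpowers_le.2 zW, fun _ h _ => h⟩
  have nE : E.Normal := ⟨fun e he g => by
    have := mul_mem (inv_mem (h3 ((h1 he).2 g))) he
    rwa [show ⁅e, g⁆⁻¹ * e = g * e * g⁻¹ by simp only [commutatorElement_def]; group] at this⟩
  refine ⟨E, h1, h3 (mem_zpowers z), h2, fun x hx w hw => ?_⟩
  by_contra hn
  have k : ∀ c ∈ E ⊔ centralizer (W p hz ho : Set G), c * x = x * c := fun c hc => by
    obtain ⟨e, he, y, hy, rfl⟩ := mem_sup_of_normal_left.1 hc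
    exact (Commute.mul_left (hx.1 e he) (hy x hx.2).symm).eq
  refine hn (k w (mem_sup_left ((h4 (E ⊔ zpowers w) ⟨sup_le h1 (zpowers_le.2 hw), fun c hc hc' => ?_⟩
    le_sup_left).le (mem_sup_right (mem_zpowers w)))))
  obtain ⟨e, he, _, ⟨n, rfl⟩, rfl⟩ := mem_sup_of_normal_left.1 hc
  by_cases hd : (p : ℤ) ∣ n
  · obtain ⟨m, rfl⟩ := hd
    refine h2 _ (mul_mem he ?_) hc'
    beta_reduce
    rw [zpow_mul, zpow_natCast]
    exact zpow_mem (h3 hw.1) m
  · obtain ⟨a, b, e1⟩ := (Nat.prime_iff_prime_int.1 hp.out).coprime_iff_not_dvd.2 hd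
    refine absurd (k w ?_) hn
    rw [← zpow_one w, ← e1, zpow_add, mul_comm a, mul_comm b, zpow_mul, zpow_mul, zpow_natCast]
    exact mul_mem (zpow_mem (mem_sup_left (h3 hw.1)) a) (zpow_mem
      ((mul_mem_cancel_left (mem_sup_left he)).1 (mem_sup_right hc')) b)

theorem split (hz : z ∈ center G) (ho : orderOf z = p) {E : Subgroup G} (zE : z ∈ E)
    (h1 : ∀ e ∈ E, e ^ p ∈ zpowers z ∧ ∀ g, ⁅e, g⁆ ∈ zpowers z)
    (h2 : ∀ e ∈ E, e ∈ centralizer (E : Set G) → e ∈ zpowers z) :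
    ∃ E' ≤ E, (E' = ⊥ ∨ IsExtraspecial p E') ∧ E' ⊔ centralizer (E : Set G) = ⊤ := by
  by_cases hc : Nat.card E = p
  · refine ⟨⊥, bot_le, .inl rfl, ?_⟩
    rw [bot_sup_eq, ← eq_of_le_of_card_ge (zpowers_le.2 zE) (by rw [hc, Nat.card_zpowers, ho])]
    exact eq_top_iff.2 fun g _ c hc => (cz hz hc g).symm
  have m : ∀ c : E, (c : G) ∈ zpowers z → c ∈ zpowers (⟨z, zE⟩ : E) := fun c ⟨n, e⟩ =>
    ⟨n, Subtype.ext (by simpa using e)⟩
  have hE : IsExtraspecial p E := H89.XS.isExtraspecial (z := ⟨z, zE⟩) ⟨by simpa using ho,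
    le_antisymm (fun c hc => m c (h2 c c.2 fun y hy =>
      congrArg Subtype.val (mem_center_iff.1 hc ⟨y, hy⟩)))
      (zpowers_le.2 (mem_center_iff.2 fun g => Subtype.ext (mem_center_iff.1 hz g))),
    fun a b => m _ ((h1 a a.2).2 b), fun a => m _ (h1 a a.2).1⟩ hc
  refine ⟨E, le_rfl, .inr hE, H7.sup_centralizer_eq_top_of_extraspecial hE
    (commutator_le.2 fun g _ e he => ?_)⟩
  have := inv_mem ((h1 e he).2 g)
  rw [commutatorElement_inv] at this
  exact ⟨zpowers_le.2 zE this, fun y _ => cz hz this y⟩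

end

/-- Let G be a finite p-group of symplectic type: every characteristic abelian subgroup of G is cyclic. Then G = E ∗ R is a central product of subgroups E and R (they commute elementwise and generate G) where E is extraspecial or trivial, and R is cyclic, or p = 2 and R is dihedral, semidihedral or generalized quaternion of order at least 16. -/
theorem result {G : Type*} [Group G] [Finite G] {p : ℕ} [Fact p.Prime] (hG : IsPGroup p G) (hsymp : ∀ A : Subgroup G, A.Characteristic → IsMulCommutative A → IsCyclic A) : ∃ E R : Subgroup G, (∀ e ∈ E, ∀ r ∈ R, e * r = r * e) ∧ E ⊔ R = ⊤ ∧ (E = ⊥ ∨ Cfsg.IsExtraspecial p ↥E) ∧ (IsCyclic R ∨ (p = 2 ∧ 16 ≤ Nat.card R ∧ ((∃ m : ℕ, Nonempty (↥R ≃* DihedralGroup m)) ∨ (∃ m : ℕ, Nonempty (↥R ≃* QuaternionGroup m)) ∨ Cfsg.IsQuasiDihedral ↥R))) := by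
  have hp : p.Prime := Fact.out
  rcases subsingleton_or_nontrivial G with h | h
  · exact ⟨⊥, ⊤, by simp, bot_sup_eq _, .inl rfl, .inl inferInstance⟩
  have := hG.center_nontrivial
  obtain ⟨⟨z, hz⟩, ho⟩ := exists_prime_orderOf_dvd_card' (G := center G) p (by
    obtain ⟨n, hn, e⟩ := (hG.to_subgroup (center G)).nontrivial_iff_card.1 this
    exact e ▸ dvd_pow_self p hn.ne')
  rw [orderOf_mk] at ho
  have zp : z ^ p = 1 := ho ▸ pow_orderOf_eq_one z
  have cZ : (zpowers z).Characteristic := H7.char_of_forall fun φ _ ⟨n, e⟩ => by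
    rw [← e, map_zpow]
    exact zpow_mem (om hG ho (hsymp _ inferInstance inferInstance) hz (H7.mem_of_char φ hz)
      (by rw [← map_pow, zp, map_one])) n
  have cW : (W p hz zp).Characteristic := H7.char_of_forall fun φ x hx =>
    ⟨by rw [← map_pow]; exact H7.mem_of_char φ hx.1, fun g => by
      simpa only [map_commutatorElement, φ.apply_symm_apply] using H7.mem_of_char φ (hx.2 (φ.symm g))⟩
  obtain ⟨E, h1, zE, h2, h3⟩ := compl hz zp
  obtain ⟨E', h4, h5, h6⟩ := split hz ho zE h1 fun e he hc => h2 e he (h3 ⟨hc, h1 he⟩)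
  have zR : z ∈ centralizer (E : Set G) := center_le_centralizer _ hz
  have nR : (centralizer (E : Set G)).Normal := by
    have nE : E.Normal := ⟨fun e he g => by
      have := mul_mem (inv_mem (zpowers_le.2 zE ((h1 he).2 g))) he
      rwa [show ⁅e, g⁆⁻¹ * e = g * e * g⁻¹ by simp only [commutatorElement_def]; group] at this⟩
    infer_instance
  have key : ∀ x : centralizer (E : Set G), x ^ p ∈ zpowers ⟨z, zR⟩ →
      (∀ r, ⁅x, r⁆ ∈ zpowers (⟨z, zR⟩ : centralizer (E : Set G))) →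
      x.1 ∈ W p hz zp ⊓ centralizer (W p hz zp : Set G) := fun x ⟨n, e⟩ hx => by
    have : x.1 ∈ W p hz zp := ⟨⟨n, by simpa using congrArg Subtype.val e⟩, fun g => by
      obtain ⟨e, he, r, hr, rfl⟩ := mem_sup_of_normal_right.1 (h6.ge (mem_top g))
      obtain ⟨m, e2⟩ := hx ⟨r, hr⟩
      have e3 : ⁅x.1, r⁆ ∈ zpowers z := ⟨m, (coe_zpow _ (⟨z, zR⟩ : centralizer (E : Set G)) m).symm.trans
        (congrArg Subtype.val e2)⟩
      rw [show ⁅x.1, e * r⁆ = x * e * (x.1⁻¹ * ⁅x.1, r⁆) * e⁻¹ by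
        simp only [commutatorElement_def]; group, ← x.2 e (h4 he), mul_assoc e, mul_inv_cancel_left,
        cz hz e3, mul_inv_cancel_right]
      exact e3⟩
    exact ⟨this, h3 ⟨x.2, this⟩⟩
  refine ⟨E', centralizer (E : Set G), fun e he r hr => hr e (h4 he), h6, h5, ?_⟩
  have := (hG.to_subgroup (centralizer (E : Set G))).isNilpotent
  rcases H9.isCyclic_or_MC_of_no_normal_sq (hG.to_subgroup (centralizer (E : Set G)))
    (fun U hU _ hc => by
      by_contra hn
      push Not at hn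
      obtain ⟨x, k1, k2, k3⟩ := H7.exists_central_mod_of_nilpotent (M := U) (N := zpowers ⟨z, zR⟩)
        fun hle => by
          have := card_le_of_le hle
          rw [hc, Nat.card_zpowers, orderOf_mk, ho] at this
          nlinarith [hp.one_lt]
      obtain ⟨n, e⟩ := om hG ho (hsymp (W p hz zp ⊓ centralizer (W p hz zp : Set G)) inferInstance
        (H7.isMulCommutative_of_forall
        fun a ha b hb => hb.2 a ha.1)) ⟨h1 zE, center_le_centralizer _ hz⟩
        (key x (hn x k1 ▸ one_mem _) k3) (congrArg Subtype.val (hn x k1))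
      exact k2 ⟨n, Subtype.ext (by simpa using e)⟩) with h | ⟨rfl, a, b, n, h, -⟩
  · exact .inl h
  refine .inr ⟨rfl, ?_, (h.iso_cases).imp (fun e => ⟨_, e⟩) (Or.imp (fun e => ⟨_, e⟩) And.right)⟩
  rw [← card_top, h.card]
  refine Nat.pow_le_pow_right (n := 2) (i := 4) (by norm_num) (?_ : 4 ≤ n + 2)
  by_contra hn
  obtain rfl : n = 1 := by have := h.one_le; omega
  have ez : a ^ 2 ^ 1 = ⟨z, zR⟩ := ((h.central_iff (mem_top _)).1 fun s _ =>
    Subtype.ext (mem_center_iff.1 hz s).symm).resolve_left (fun e => by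
      rw [show z = 1 from congrArg Subtype.val e, orderOf_one] at ho; exact absurd ho (by decide)) |>.symm
  have cj := h.conj.resolve_right fun e => absurd e.1 (by decide)
  have a2 : ∀ i : ℤ, a ^ (2 * i) ∈ zpowers (a ^ 2 ^ 1) := fun i => by
    rw [zpow_mul, zpow_two, ← pow_two]; exact zpow_mem (mem_zpowers _) i
  have bi : ∀ i : ℤ, b * a ^ i * b⁻¹ = a ^ (-i) := fun i => by rw [← conj_zpow, cj]; simp
  have ka := key a (ez ▸ mem_zpowers _) fun r => by
    rw [← ez]
    obtain ⟨i, rfl | rfl⟩ := (h.mem r).1 (mem_top r)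
    · rw [commutatorElement_eq_one_iff_commute.2 ((Commute.refl a).zpow_right i)]; exact one_mem _
    · rw [show ⁅a, a ^ i * b⁆ = a * a ^ i * (b * a ^ (-1 : ℤ) * b⁻¹) * (a ^ i)⁻¹ by
        simp only [commutatorElement_def]; group, bi]
      convert a2 1 using 1; group
  have kb := key b (by
    rw [← ez, pow_two]
    rcases h.sq with e | e <;> rw [e]
    exacts [one_mem _, mem_zpowers _]) fun r => by
    rw [← ez]
    obtain ⟨i, rfl | rfl⟩ := (h.mem r).1 (mem_top r)
    · rw [commutatorElement_def, bi]; convert a2 (-i) using 1; group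
    · rw [show ⁅b, a ^ i * b⁆ = b * a ^ i * b⁻¹ * (a ^ i)⁻¹ by
        simp only [commutatorElement_def]; group, bi]
      convert a2 (-i) using 1; group
  exact h.not_commute (Subtype.ext (ka.2 b kb.1))

end Cfsg.Agent.S3762
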