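import Cfsg.Statements.S4550
import Cfsg.Agent.H19.PowFixed

set_option autoImplicit false
open Cfsg

namespace Cfsg.Agent.S4550


/-- Let G be a finite group of even order and M a maximal ideal of the algebraic integers containing 2. Let k be a natural number with g ^ k = g ^ 3 for every 2-element g and g ^ k = g for every element g of odd order (such k exist); an irreducible character χ is unchanged by g ↦ g ^ k exactly when it is fixed by the field automorphism that cubes the 2-power roots of unity and fixes the roots of unity of odd order. Then the number of members χ of the principal 2-block of odd degree with χ (g ^ k) = χ g for all g is even. -/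
theorem result {G : Type*} [Group G] [Finite G] (M : Ideal Cfsg.AlgInt) (hM : Cfsg.IsPModular 2 M) (hev : Even (Nat.card G)) (k : ℕ) (hk₁ : ∀ g : G, (∃ j : ℕ, orderOf g = 2 ^ j) → g ^ k = g ^ 3) (hk₂ : ∀ g : G, Odd (orderOf g) → g ^ k = g) : Even (Nat.card {χ : Cfsg.IrrCharacter G // χ ∈ Cfsg.principalBlock M G ∧ Odd (Cfsg.charDegree (χ : G → ℂ)) ∧ ∀ g : G, (χ : G → ℂ) (g ^ k) = (χ : G → ℂ) g}) := by
  classical
  letI : Fintype (Cfsg.IrrCharacter G) := Fintype.ofFinite _
  haveI := H19.charP_kk hM
  have hk₂' : ∀ g : G, (orderOf g).Coprime 2 → g ^ k = g := fun g h =>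
    hk₂ g (Nat.coprime_two_right.1 h)
  have hk := H19.coprime_of_parts Nat.prime_two (by norm_num) hk₁ hk₂'
  have hpow := H19.pow_pow_eq_of_parts Nat.prime_two (by norm_num [Nat.ModEq]) hk₁ hk₂'
  have h0 := H19.sum_red_degree_sq hM (H19.isPBlock_principalBlock (G := G)) hev.two_dvd
  rw [Finset.sum_filter, H19.sum_irr_eq_sum_fixed Nat.prime_two hk hpow] at h0
  · rw [Nat.card_eq_fintype_card, Fintype.card_subtype, even_iff_two_dvd,
      ← CharP.cast_eq_zero_iff (H19.kk M) 2, Finset.card_filter, ← h0, Finset.sum_filter]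
    push_cast
    refine Finset.sum_congr rfl fun χ _ => ?_
    by_cases h1 : χ ∈ Cfsg.principalBlock M G
    · by_cases h2 : ∀ g : G, χ.1 (g ^ k) = χ.1 g
      · rcases Nat.even_or_odd (Cfsg.charDegree χ.1) with h3 | h3
        · have : (Cfsg.charDegree χ.1 : H19.kk M) = 0 :=
            (CharP.cast_eq_zero_iff (H19.kk M) 2 _).2 h3.two_dvd
          simp [h1, h2, Nat.not_odd_iff_even.2 h3, this]
        · have : (Cfsg.charDegree χ.1 : H19.kk M) = 1 := by
            obtain ⟨j, hj⟩ := h3
            have h2 : ((2 : ℕ) : H19.kk M) = 0 := CharP.cast_eq_zero _ 2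
            rw [hj, Nat.cast_add, Nat.cast_mul, h2, zero_mul, zero_add, Nat.cast_one]
          simp [h1, h2, h3, this]
      · simp [h2]
    · simp [h1]
  · intro χ
    simp only [H19.powIrr_mem_principalBlock_iff, H19.charDegree_powIrr]
  · intro χ
    rw [nsmul_eq_mul, CharP.cast_eq_zero, zero_mul]

end Cfsg.Agent.S4550
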