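import Cfsg.Statements.S4553
import Cfsg.Agent.H19.DetGal
import Cfsg.Agent.H22.Knorr
import Cfsg.Agent.H8.Residual

set_option autoImplicit false
open Cfsg

namespace Cfsg.Agent.S4553


/-- Let G be a finite group, p a prime, P a Sylow p-subgroup, N the p-residual of G (the subgroup generated by the elements of order prime to p, the smallest normal subgroup with G/N a p-group), and M a maximal ideal of the algebraic integers containing p; suppose G/N is cyclic and nontrivial. Let k be a natural number with g ^ k = g ^ (1 + p) for every p-element g and g ^ k = g for every element g of order prime to p (so that χ (g ^ k) is the image of χ g under the field automorphism that raises p-power roots of unity to the power 1 + p and fixes the roots of unity of order prime to p). Then the number of members χ of the principal block of G of degree prime to p with χ (g ^ k) = χ g for all g equals p times the number of members θ of the principal block of N of degree prime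 to p that are invariant under conjugation by P and satisfy θ (n ^ k) = θ n for all n. -/
theorem result {G : Type*} [Group G] [Finite G] (p : ℕ) [Fact p.Prime] (M : Ideal Cfsg.AlgInt) (hM : Cfsg.IsPModular p M) (P : Sylow p G) (N : Subgroup G) [hN : N.Normal] (hNres : N = Cfsg.pResidual p G) (hcyc : IsCyclic (G ⧸ N)) (hnt : N ≠ ⊤) (k : ℕ) (hk₁ : ∀ g : G, (∃ j : ℕ, orderOf g = p ^ j) → g ^ k = g ^ (1 + p)) (hk₂ : ∀ g : G, Nat.Coprime (orderOf g) p → g ^ k = g) : Nat.card {χ : Cfsg.IrrCharacter G // χ ∈ Cfsg.principalBlock M G ∧ ¬ p ∣ Cfsg.charDegree (χ : G → ℂ) ∧ ∀ g : G, (χ : G → ℂ) (g ^ k) = (χ : G → ℂ) g} = p * Nat.card {θ : Cfsg.IrrCharacter ↥N // θ ∈ Cfsg.principalBlock M ↥N ∧ ¬ p ∣ Cfsg.charDegree (θ : ↥N → ℂ) ∧ (∀ x ∈ (P : Subgroup G), ∀ n : ↥N, (θ : ↥N → ℂ) ⟨x * n * x⁻¹, hN.conj_mem n n.2 x⟩ = (θ : ↥N → ℂ) n) ∧ ∀ n : ↥N, (θ : ↥N → ℂ) (n ^ k) = (θ : ↥N → ℂ) n} := by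
  classical
  have hp : p.Prime := Fact.out
  letI := Fintype.ofFinite G
  letI : Fintype N := Fintype.ofFinite N
  obtain ⟨c, hc⟩ : ∃ c, N.index = p ^ c := hNres ▸ H8.exists_index_pResidual_eq p
  have hpc : p ∣ N.index := by
    rcases c with _ | c
    · exact absurd (Subgroup.index_eq_one.1 (by simpa using hc)) hnt
    · rw [hc]; exact dvd_pow_self p c.succ_ne_zero
  have hNN : Cfsg.pResidual p N = ⊤ := by subst hNres; exact H8.pResidual_pResidual
  have hk : k.Coprime (Nat.card G) := H19.coprime_of_parts hp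
    (by rw [Nat.dvd_add_left dvd_rfl, Nat.dvd_one]; exact hp.ne_one) hk₁ hk₂
  have hB0 : Cfsg.principalBlock M G = H22.above N (Cfsg.principalBlock M N) :=
    H22.Covers.eq_above_of_index hM hc H19.isPBlock_principalBlock H19.isPBlock_principalBlock
      (H22.covers_principal hM.2.1)
  have hlin : ∀ lam : G →* ℂˣ, (∀ n ∈ N, lam n = 1) → ∀ g, lam (g ^ k) = lam g * lam g ^ p := by
    intro lam hlam g
    obtain ⟨u, v, hu, hv, huv, ⟨j, hj⟩, hcop⟩ := H13.exists_p_parts hp g
    have hcomm := H13.commute_of_mem_zpowers hu hv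
    obtain ⟨i, -, hi⟩ := (Nat.dvd_prime_pow hp).1 (orderOf_dvd_iff_pow_eq_one.2 hj)
    have hvN : v ∈ N := hNres ▸ H8.mem_pResidual_of_coprime hcop
    rw [huv, hcomm.mul_pow, hk₁ u ⟨i, hi⟩, hk₂ v hcop, map_mul, map_mul, hlam v hvN, map_pow,
      mul_one, mul_one, pow_add, pow_one]
  set SG := {χ : Cfsg.IrrCharacter G // χ ∈ Cfsg.principalBlock M G ∧
    ¬ p ∣ Cfsg.charDegree (χ : G → ℂ) ∧ ∀ g : G, (χ : G → ℂ) (g ^ k) = (χ : G → ℂ) g}
  set SN := {θ : Cfsg.IrrCharacter ↥N // θ ∈ Cfsg.principalBlock M ↥N ∧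
    ¬ p ∣ Cfsg.charDegree (θ : ↥N → ℂ) ∧ (∀ x ∈ (P : Subgroup G), ∀ n : ↥N,
      (θ : ↥N → ℂ) ⟨x * n * x⁻¹, hN.conj_mem n n.2 x⟩ = (θ : ↥N → ℂ) n) ∧
      ∀ n : ↥N, (θ : ↥N → ℂ) (n ^ k) = (θ : ↥N → ℂ) n}
  let r : SG → SN := fun χ =>
    ⟨⟨fun n : N => χ.1.1 n, H19.isIrr_res_of_not_dvd_of_cyclic hp N hcyc hc χ.1 χ.2.2.1⟩,
      H22.mem_principal_of_over hM.2.1 χ.2.1 (H22.over_of_res_eq fun _ => rfl), χ.2.2.1,
      fun x _ n => H11.isClassFunction_of_irr χ.1.2 n x, fun n => χ.2.2.2 n⟩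
  have hfib : ∀ θ : SN, Nat.card {χ : SG // r χ = θ} = p := by
    rintro ⟨θ, hθB, hθd, hθP, hθk⟩
    have hinv : ∀ (g : G) (n : N), θ.1 ⟨g * n * g⁻¹, hN.conj_mem n n.2 g⟩ = θ.1 n := by
      rw [← H14.inertia_eq_top_iff, eq_top_iff, ← H8.sylow_sup_pResidual P, ← hNres]
      exact sup_le (fun x hx => (H14.mem_inertia' N).2 (hθP x hx))
        (H14.le_inertia N (H11.isClassFunction_of_irr θ.2))
    obtain ⟨η, hη, hηθ, -, hηk⟩ := H19.exists_fixed_ext_of_coprime N θ.2 hinv
      (H19.charDegree_cast_irr θ).symm (by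
        rw [hc]
        refine Nat.Coprime.pow_left c ((Nat.Prime.coprime_iff_not_dvd hp).2 fun h => ?_)
        rcases (Nat.Prime.dvd_mul hp).1 h with h | h
        · exact H19.not_dvd_detOrder_of_pResidual hp hNN (H11.irr_isCharacter θ) h
        · exact hθd h)
    have hηk' := hηk k hk hθk
    have hres : (fun n : N => η n) = θ.1 := funext hηθ
    have hirr : ∀ lam : G →* ℂˣ, Cfsg.IsIrrCharacter G ((fun g => (lam g : ℂ)) * η) := fun lam => by
      rw [mul_comm]
      exact H11.isIrrCharacter_mul_linear hη (H11.isCharacter_monoidHom lam) (by simp)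
    have hker : ∀ lam : G →* ℂˣ, (∀ n ∈ N, lam n = 1) → N ≤ H11.charKer (fun g => (lam g : ℂ)) :=
      fun lam h => by rw [H11.charKer_monoidHom]; exact h
    have hinj : ∀ a b : G →* ℂˣ, (∀ n ∈ N, a n = 1) → (∀ n ∈ N, b n = 1) →
        (fun g => (a g : ℂ)) * η = (fun g => (b g : ℂ)) * η → a = b := by
      intro a b ha hb h
      have := H14.gallagher_inj N hη (hres ▸ θ.2) (H11.isIrrCharacter_monoidHom a)
        (H11.isIrrCharacter_monoidHom b) (hker a ha) (hker b hb) h
      exact MonoidHom.ext fun g => Units.ext (congrFun this g)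
    have hresl : ∀ lam : G →* ℂˣ, (∀ n ∈ N, lam n = 1) → ∀ n : N,
        ((fun g => (lam g : ℂ)) * η) n = θ.1 n := fun lam h n => by
      simp [h n n.2, hηθ]
    conv_rhs => rw [← H19.card_linear_pow_eq_one N hcyc hpc]
    symm
    refine Nat.card_congr (Equiv.ofBijective (fun lam => ⟨⟨⟨_, hirr lam.1⟩, ?_, ?_, fun g => ?_⟩,
      Subtype.ext (Subtype.ext (funext (hresl lam.1 lam.2.1)))⟩) ⟨?_, ?_⟩)
    · rw [hB0]
      exact ⟨θ, hθB, H22.over_of_res_eq (hresl lam.1 lam.2.1)⟩
    · have h1 := hresl lam.1 lam.2.1 1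
      rw [OneMemClass.coe_one] at h1
      have : Cfsg.charDegree ((fun g => (lam.1 g : ℂ)) * η) = Cfsg.charDegree θ.1 := by
        unfold Cfsg.charDegree; rw [h1]
      rwa [this]
    · simp only [Pi.mul_apply]
      rw [hηk', hlin lam.1 lam.2.1, lam.2.2, mul_one]
    · intro a b h
      exact Subtype.ext (hinj _ _ a.2.1 b.2.1 (congrArg (fun x => x.1.1.1) h))
    · rintro ⟨⟨χ, hχB, hχd, hχk⟩, hχ⟩
      have hχθ : ∀ n : N, χ.1 n = η n := fun n => by
        rw [hηθ]; exact congrFun (congrArg (fun x => x.1.1) hχ) n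
      obtain ⟨lam, hlam, hχe⟩ := H14.exists_linear_of_ext_of_ext N hη (hres ▸ θ.2) χ.2 hχθ
      have hlam' : ∀ n ∈ N, lam n = 1 := hlam
      have h2 : lam * lam ^ p = lam := by
        refine hinj _ _ (fun n hn => by simp [hlam' n hn]) hlam' ?_
        funext g
        have := hχk g
        rw [hχe] at this
        simp only [Pi.mul_apply] at this ⊢
        rw [hηk', hlin lam hlam'] at this
        simpa using this
      refine ⟨⟨lam, hlam', fun g => ?_⟩, Subtype.ext (Subtype.ext (Subtype.ext hχe.symm))⟩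
      have := DFunLike.congr_fun h2 g
      simpa using this
  letI : Fintype SN := Fintype.ofFinite SN
  rw [← Nat.card_congr (Equiv.sigmaFiberEquiv r), Nat.card_sigma]
  simp only [hfib, Finset.sum_const, Finset.card_univ, smul_eq_mul, Nat.card_eq_fintype_card,
    mul_comm]

end Cfsg.Agent.S4553
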