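import Cfsg.Statements.S4294
import Cfsg.Agent.H91.FCStruct
import Cfsg.Agent.H91.GaussSq

set_option autoImplicit false
open Cfsg

namespace Cfsg.Agent.S4294

open H91

theorem comm_of_charP {G D : Type*} [Group G] [Finite G] [DivisionRing D] (p : ℕ) [Fact p.Prime]
    [CharP D p] (ρ : G →* D) (a b : G) : ρ a * ρ b = ρ b * ρ a := by
  let _ : Algebra (ZMod p) D := ZMod.algebra D p
  let R := Algebra.adjoin (ZMod p) (Set.range ρ)
  have h1 : Module.Finite (ZMod p) (Subalgebra.toSubmodule R) := by
    rw [Algebra.adjoin_eq_span, ← MonoidHom.coe_mrange, Submonoid.closure_eq]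
    exact Module.Finite.span_of_finite _ (Set.finite_range ρ)
  have : Finite R := Module.finite_of_finite (ZMod p) (M := Subalgebra.toSubmodule R)
  exact congrArg Subtype.val ((Finite.isDomain_to_isField R).mul_comm
    ⟨_, Algebra.subset_adjoin ⟨a, rfl⟩⟩ ⟨_, Algebra.subset_adjoin ⟨b, rfl⟩⟩)

theorem no_odd {D : Type*} [DivisionRing D] [CharZero D] (B : QB D) {s η : D} {p : ℕ}
    (hs : s * s = 5) (hp : p.Prime) (hp2 : p ≠ 2) (hp5 : p ≠ 5) (hη : η ^ p = 1) (hη1 : η ≠ 1)
    (h1 : s ∈ B.E) (h2 : η ∈ B.E) (h3 : s * η = η * s) : False := by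
  let K := Algebra.adjoin ℚ {s, η}
  have hK : K ≤ B.E := Algebra.adjoin_le (by rintro _ (rfl | rfl); exacts [h1, h2])
  let _ : CommRing K := Algebra.adjoinCommRingOfComm ℚ (by
    rintro _ (rfl | rfl) _ (rfl | rfl)
    exacts [rfl, h3, h3.symm, rfl])
  obtain ⟨a, b, c, d, h, ha⟩ := exists_sum_four_sq (K := K)
    (s := ⟨s, Algebra.subset_adjoin (by simp)⟩) (η := ⟨η, Algebra.subset_adjoin (by simp)⟩)
    (Subtype.ext hs) hp hp2 hp5 (Subtype.ext hη) fun e => hη1 (congrArg Subtype.val e)
  let ι := Subalgebra.inclusion hK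
  have h4 : B.q (ι a) (ι b) (ι c) (ι d) * B.q (ι a) (ι (-b)) (ι (-c)) (ι (-d)) =
      B.q (ι 0) (ι 0) (ι 0) (ι 0) := by
    rw [QB.q_mul]
    simp only [← map_mul, ← map_add, ← map_sub]
    congr 2
    · linear_combination h
    all_goals ring
  rw [map_zero, ← QB.coe_eq_q, Subalgebra.coe_zero] at h4
  exact ha (Subalgebra.inclusion_injective hK (((mul_eq_zero.mp h4).elim B.eq_zero_of_q
    B.eq_zero_of_q).trans (map_zero _).symm))

theorem no_eight {D : Type*} [DivisionRing D] [CharZero D] {s U J : D} (hs : s * s = 5)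
    (hU : U * U * (U * U) = -1) (hJ : J * J = -1) (hJU : J * U = -(U * U * U * J))
    (hsU : U * s = -(s * U)) (hsJ : J * s = s * J) : False := by
  have hU0 : U ≠ 0 := fun e => by simp [e] at hU
  have hJ0 : J ≠ 0 := fun e => by simp [e] at hJ
  have h1 : J * (U * U) = -(U * U * J) := by
    linear_combination (norm := ncr) hJU * U - U * U * U * hJU + hU * U * U * J
  have h2 : J * (U - U * U * U) = (U - U * U * U) * J := by
    linear_combination (norm := ncr) hJU - h1 * U + U * U * hJU - hU * U * J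
  have h3 : (U - U * U * U) * (U - U * U * U) = 2 := by
    linear_combination (norm := ncr) hU * U * U - 2 * hU
  have h4 : U * U * s = s * (U * U) := by linear_combination (norm := ncr) U * hsU - hsU * U
  have h5 : (U - U * U * U) * s = -(s * (U - U * U * U)) := by
    linear_combination (norm := ncr) hsU - U * U * hsU + h4 * U
  have h6 : U * U * (U - U * U * U) = (U - U * U * U) * (U * U) := by noncomm_ring
  generalize U - U * U * U = w at h2 h3 h5 h6
  have hI : U * U ≠ 0 := mul_ne_zero hU0 hU0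
  generalize U * U = I at *
  have h7 : I * (w * s) = w * s * I := by linear_combination (norm := ncr) h6 * s + w * h4
  have h8 : J * (w * s) = w * s * J := by linear_combination (norm := ncr) h2 * s + w * hsJ
  have h9 : w * s * (w * s) = -10 := by
    linear_combination (norm := ncr) h5 * w * s - s * h3 * s - 2 * hs
  generalize w * s = t at h7 h8 h9
  have h10 : (t - (I + 3 * J)) * (t + (I + 3 * J)) = 0 := by
    linear_combination (norm := ncr) h9 - h7 - 3 * h8 - hU - 9 * hJ - 3 * h1
  have h11 : (6 : D) * (I * J) = 0 := by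
    rcases mul_eq_zero.mp h10 with h | h
    · linear_combination (norm := ncr) h7 - I * h + h * I + 3 * h1
    · linear_combination (norm := ncr) -h7 + I * h - h * I + 3 * h1
  exact mul_ne_zero (by norm_num) (mul_ne_zero hI hJ0) h11

theorem perm_five : ∀ τ : Equiv.Perm (Fin 5), τ ^ 5 = 1 → τ ≠ 1 →
    ∃ g : Equiv.Perm (Fin 5), Equiv.Perm.sign g = -1 ∧ g * τ * g⁻¹ = τ ^ 2 := by
  decide +kernel

theorem sl25_eight : ∀ g : SL25, g ^ 8 = 1 → g ^ 4 = 1 := by
  decide +kernel

theorem aux {G D : Type*} [Group G] [Finite G] [DivisionRing D] [CharZero D] (ρ : G →* D)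
    (hρ : Function.Injective ρ) (hns : ¬ Group.IsSolvable G) : Nonempty (G ≃* SL25) := by
  have : Nontrivial G := by
    by_contra h
    rw [not_nontrivial_iff_subsingleton] at h
    exact hns inferInstance
  have hG := (isFC_of_domain ρ hρ).hasIntFPF
  have nzd : ∀ g : G, g ≠ 1 → ∀ a : D, (ρ g - 1) * a = 0 → a = 0 := fun g hg a ha =>
    (mul_eq_zero.mp ha).resolve_left fun e => hg (hρ (by rw [map_one]; exact sub_eq_zero.mp e))
  obtain ⟨f, φ, hf, h1, h2, -⟩ := hG.nonsolvable hns
  have hne : ∀ {g : SL25}, g ≠ 1 → f g ≠ 1 := fun h e => h (hf (e.trans (map_one f).symm))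
  have hz : ρ (f (-1)) = -1 :=
    eq_neg_one_of_nzd nzd (hne sl25_neg_one_ne) (by rw [← map_mul]; simp)
  have hneg : ∀ g, ρ (f (-g)) = -ρ (f g) := fun g => by
    rw [← neg_one_mul, map_mul, map_mul, hz, neg_one_mul]
  obtain ⟨y, hy⟩ : ∃ y, y = ρ (f slY) := ⟨_, rfl⟩
  have y5 : y ^ 5 = 1 := by rw [hy, ← map_pow, ← map_pow, slY_pow, map_one, map_one]
  have ys : y ^ 4 + y ^ 3 + y ^ 2 + y + 1 = 0 := nzd _ (hne slY_ne_one) _ (by
    rw [← hy]; linear_combination (norm := ncr) y5)
  obtain ⟨s, hs⟩ : ∃ s, s = 2 * (y + y ^ 4) + 1 := ⟨_, rfl⟩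
  have hss : s * s = 5 := by
    rw [hs]; linear_combination (norm := ncr) 4 * ys + 8 * y5 + 4 * y5 * y ^ 3
  have hsc : ∀ g, ρ (f g) * s = s * ρ (f g) := fun g => by
    have hg : g ∈ Subgroup.closure {slX, slY} := closure_slXY ▸ Subgroup.mem_top g
    induction hg using Subgroup.closure_induction with
    | mem g hg =>
      rcases hg with rfl | rfl
      · have e1 := sq_add_of_nzd nzd (hne slX_ne_one) (by rw [← map_pow, slX_pow, map_one])
        have e2 : y ^ 4 = -(ρ (f slX) * y * ρ (f slX)) := by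
          rw [hy, ← map_mul, ← map_mul, ← map_mul, ← map_mul, ← hneg, ← map_pow, ← map_pow]
          exact congrArg _ (congrArg _ (by decide))
        rw [hs, e2]
        generalize ρ (f slX) = x at e1
        linear_combination (norm := ncr) 2 * x * y * e1 - 2 * e1 * y * x
      · rw [← hy, hs]; noncomm_ring
    | one => simp
    | mul a b _ _ ha hb => rw [map_mul, map_mul, mul_assoc, hb, ← mul_assoc, ha, mul_assoc]
    | inv a _ ha =>
      rw [map_inv, map_inv]
      exact (show Commute _ _ from ha).inv_left₀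
  have hz2 : orderOf (f (-1)) = 2 := by
    rw [orderOf_injective f hf]
    exact orderOf_eq_prime (by simp) sl25_neg_one_ne
  have hN : ∀ n, φ n = 1 → n = 1 ∨ n = f (-1) := fun n hn => by
    have h3 : ¬ 4 ∣ orderOf n := hG.not_four_dvd (i := f slI) (j := f slJ)
      (by rw [orderOf_injective f hf, orderOf_slI])
      (fun e => slI_mul_slJ_ne (hf (by rwa [map_mul, map_mul]))) (h2 _ hn _) (h2 _ hn _)
    rcases (orderOf n).eq_two_pow_or_exists_odd_prime_and_dvd with ⟨_ | _ | k, hk⟩ | ⟨p, hp, hd, ho⟩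
    · exact Or.inl (orderOf_eq_one_iff.mp hk)
    · exact Or.inr (hG.involution_unique hz2 hk)
    · exact absurd ⟨2 ^ k, by rw [hk]; ring⟩ h3
    exfalso
    have h4 := orderOf_pow_orderOf_div (orderOf_pos n).ne' hd
    have h5 := h2 _ (pow_mem hn (orderOf n / p))
    generalize n ^ (orderOf n / p) = m at h4 h5
    by_cases hp5 : p = 5
    · subst hp5
      obtain ⟨k, hk⟩ := hG.mem_zpowers_of_commute hp h4
        (by rw [orderOf_injective f hf, orderOf_eq_prime slY_pow slY_ne_one]) (h5 slY)
      simp only [← map_zpow] at hk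
      subst hk
      rcases mem_center_sl25.mp (Subgroup.mem_center_iff.mpr fun t =>
        hf (by rw [map_mul, map_mul, h5]) : slY ^ k ∈ Subgroup.center _) with h | h
      · rw [h, map_one, orderOf_one] at h4; norm_num at h4
      · rw [h, hz2] at h4; norm_num at h4
    let B : QB D := ⟨ρ (f slI), ρ (f slJ),
      by rw [← map_mul, ← map_mul, ← hz]; exact congrArg _ (congrArg _ (by decide)),
      by rw [← map_mul, ← map_mul, ← hz]; exact congrArg _ (congrArg _ (by decide)),
      by rw [← map_mul, ← map_mul, ← map_mul, ← map_mul, ← hneg]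
         exact congrArg _ (congrArg _ (by decide))⟩
    have h6 : ∀ g, ρ (f g) * ρ m = ρ m * ρ (f g) := fun g => by rw [← map_mul, ← h5, map_mul]
    refine no_odd B (η := ρ m) hss hp (by rintro rfl; exact absurd ho (by decide)) hp5
      (by rw [← map_pow, ← h4, pow_orderOf_eq_one, map_one])
      (fun e => ?_) (B.mem_E (hsc _) (hsc _)) (B.mem_E (h6 _) (h6 _)) ?_
    · rw [hρ (e.trans (map_one ρ).symm), orderOf_one] at h4
      exact hp.one_lt.ne h4
    · have h7 : Commute y (ρ m) := hy ▸ h6 slY
      rw [hs]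
      exact (((Commute.ofNat_left 2 _).mul_left (h7.add_left (h7.pow_left 4))).add_left
        (Commute.one_left _)).eq
  have hS : f.range = (alternatingGroup (Fin 5)).comap φ := by
    refine le_antisymm ?_ fun g hg => ?_
    · rintro _ ⟨g, rfl⟩
      exact (h1 ▸ ⟨g, rfl⟩ : φ (f g) ∈ alternatingGroup (Fin 5))
    · obtain ⟨c, hc⟩ : φ g ∈ (φ.comp f).range := h1 ▸ hg
      rcases hN ((f c)⁻¹ * g) (by rw [map_mul, map_inv, ← hc]; simp) with h | h
      · exact ⟨c, inv_mul_eq_one.mp h⟩
      · exact ⟨c * -1, by rw [map_mul, ← h, mul_inv_cancel_left]⟩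
  have hi : f.range.index ∣ 2 := by
    rw [hS, Subgroup.index_comap, ← alternatingGroup.index_eq_two (α := Fin 5)]
    exact Subgroup.relIndex_dvd_index_of_normal _ _
  rcases (Nat.dvd_prime Nat.prime_two).mp hi with hi | hi
  · exact ⟨(MulEquiv.ofBijective f
      ⟨hf, MonoidHom.range_eq_top.mp (Subgroup.index_eq_one.mp hi)⟩).symm⟩
  exfalso
  have hφ : φ.range = ⊤ := by
    have h3 : alternatingGroup (Fin 5) ≤ φ.range := by
      rw [← h1]; rintro _ ⟨g, rfl⟩; exact ⟨_, rfl⟩
    have h4 := Subgroup.index_dvd_of_le h3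
    rw [alternatingGroup.index_eq_two, Nat.dvd_prime Nat.prime_two] at h4
    refine Subgroup.index_eq_one.mp (h4.resolve_right fun h => ?_)
    rw [hS, ← Equiv.Perm.eq_alternatingGroup_of_index_eq_two h, MonoidHom.comap_range_self,
      Subgroup.index_top] at hi
    norm_num at hi
  obtain ⟨g₀, hg1, hg2⟩ := perm_five (φ (f slY))
    (by rw [← map_pow, ← map_pow, slY_pow, map_one, map_one])
    fun e => (hN _ e).elim (hne slY_ne_one) fun h => absurd (hf h) (by decide)
  obtain ⟨g, rfl⟩ := MonoidHom.range_eq_top.mp hφ g₀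
  have hg3 : g * f slY * g⁻¹ = f slY ^ 2 := by
    rcases hN (g * f slY * g⁻¹ * (f slY ^ 2)⁻¹) (by simp [hg2]) with h | h
    · exact mul_inv_eq_one.mp h
    · have h3 := congrArg (· ^ 5) (mul_inv_eq_iff_eq_mul.mp h)
      simp only [conj_pow, ← map_pow, ← map_mul, slY_pow, map_one, mul_one, mul_inv_cancel] at h3
      exact absurd h3.symm (hne (by decide))
  have hg4 : ρ g * s = -(s * ρ g) := by
    have h3 : ρ g * y = y ^ 2 * ρ g := by
      rw [hy, ← map_pow, ← map_mul, ← map_mul, ← hg3, inv_mul_cancel_right]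
    rw [hs]
    linear_combination (norm := ncr) 2 * h3 + 2 * (h3 * y ^ 3 + y ^ 2 * h3 * y ^ 2 +
      y ^ 4 * h3 * y + y ^ 6 * h3) + 2 * y5 * y ^ 3 * ρ g + 2 * ys * ρ g
  let P : Sylow 2 G := default
  obtain ⟨-, n, ⟨e⟩⟩ := ((hG.subgroup P).isCyclic_or_quaternion P.isPGroup').resolve_left fun h => by
    have := hG.isZGroup fun Q => isCyclic_of_surjective _ (Sylow.equiv P Q).surjective
    exact hns inferInstance
  obtain rfl : n = 2 := by
    have h3 := f.range.card_mul_index
    rw [hi, ← Nat.card_congr (MonoidHom.ofInjective hf).toEquiv, card_sl25] at h3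
    have h4 := P.card_eq_multiplicity
    rw [Nat.card_congr e.toEquiv, H9.nat_card_quaternion, ← h3, show 120 * 2 = 2 ^ 4 * 15 from rfl,
      Nat.factorization_mul (by norm_num) (by norm_num), Finsupp.add_apply,
      Nat.Prime.factorization_pow Nat.prime_two,
      Nat.factorization_eq_zero_of_not_dvd (by norm_num), Finsupp.single_eq_same] at h4
    exact Nat.pow_right_injective le_rfl (by omega : 2 ^ n = 2 ^ 2)
  let θ : QuaternionGroup (2 ^ 2) →* G := (P : Subgroup G).subtype.comp e.symm.toMonoidHom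
  have hθ : Function.Injective θ := Subtype.val_injective.comp e.symm.injective
  have hu : θ (QuaternionGroup.a 1) ∉ f.range := by
    rintro ⟨c, hc⟩
    have h3 := sl25_eight c (hf (by
      rw [map_pow, hc, ← map_pow, map_one, ← map_one θ]; exact congrArg _ (by decide)))
    have h4 := congrArg f h3
    rw [map_pow, hc, ← map_pow, map_one, ← map_one θ] at h4
    exact absurd (hθ h4) (by decide)
  obtain ⟨k, j, hj⟩ : ∃ k, θ (QuaternionGroup.xa k) ∈ f.range := by
    by_contra h
    push Not at h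
    exact h _ (by
      have := (Subgroup.mul_mem_iff_of_index_two hi).mpr (iff_of_false (h 0) hu)
      rwa [← map_mul] at this)
  have h4 : ρ (θ (QuaternionGroup.a 4)) = -1 := eq_neg_one_of_nzd nzd
    (fun e => absurd (hθ (e.trans (map_one θ).symm)) (by decide))
    (by rw [← map_mul, ← map_one θ]; exact congrArg _ (by decide))
  obtain ⟨c, hc⟩ : θ (QuaternionGroup.a 1) * g⁻¹ ∈ f.range :=
    (Subgroup.mul_mem_iff_of_index_two hi).mpr (iff_of_false hu (by
      rw [inv_mem_iff, hS, Subgroup.mem_comap, Equiv.Perm.mem_alternatingGroup, hg1]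
      decide))
  refine no_eight (U := ρ (θ (QuaternionGroup.a 1))) (J := ρ (θ (QuaternionGroup.xa k))) hss
    ?_ ?_ ?_ ?_ (hj ▸ hsc j)
  · simp only [← map_mul, ← h4]
    exact congrArg _ (congrArg _ (by decide))
  · simp only [← map_mul, ← h4]
    exact congrArg _ (congrArg _ (by clear hj; revert k; decide))
  · rw [← neg_one_mul, ← h4]
    simp only [← map_mul]
    exact congrArg _ (congrArg _ (by clear hj; revert k; decide))
  · rw [← inv_mul_cancel_right (θ _) g, ← hc, map_mul, mul_assoc, hg4, mul_neg, ← mul_assoc, hsc,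
      mul_assoc]

/-- A finite non-solvable subgroup of the multiplicative group of a division ring is isomorphic to the binary icosahedral group SL(2,5). -/
theorem result {D : Type*} [DivisionRing D] (H : Subgroup Dˣ) [Finite H] (hH : ¬ Group.IsSolvable H) :
    Nonempty (H ≃* Matrix.SpecialLinearGroup (Fin 2) (ZMod 5)) := by
  let ρ : H →* D := (Units.coeHom D).comp H.subtype
  have hρ : Function.Injective ρ := Units.val_injective.comp Subtype.val_injective
  obtain ⟨p, hp⟩ := CharP.exists D
  rcases CharP.char_is_prime_or_zero D p with h | rfl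
  · have := Fact.mk h
    exact absurd (Group.isSolvable_of_comm fun a b =>
      hρ (by rw [map_mul, map_mul, comm_of_charP p ρ])) hH
  · have := CharP.charP_to_charZero D
    exact aux ρ hρ hH

end Cfsg.Agent.S4294
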