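import Cfsg.Statements.S2559
import Cfsg.Agent.H76.C2Low

set_option autoImplicit false
open Cfsg

namespace Cfsg.Agent.S2559

theorem card_congr {G H : Type*} [Group G] [Group H] (e : G ≃* H) :
    Nat.card (ConjClasses G) = Nat.card (ConjClasses H) :=
  Nat.card_congr (Quotient.congr e.toEquiv fun _ _ => ⟨e.toMonoidHom.map_isConj, fun h => by
    exact isConj_iff.2 (by simpa using e.symm.toMonoidHom.map_isConj h)⟩)

/-- The number of conjugacy classes of the full orthogonal groups O⁺(2n,q) and O⁻(2n,q), q even, 2n ≥ 4: for F a finite field of even order q and n ≥ 2, the number k of conjugacy classes of the isometry group of the hyperbolic quadratic form Σ xᵢyᵢ on F^{2n}, and likewise of the elliptic form Σ xᵢyᵢ + (z₁² + a z₁z₂ + b z₂²) with anisotropic binary part, satisfies q^n/2 ≤ k ≤ 15·q^n. -/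
theorem result {F : Type*} [Field F] [Fintype F] (heven : Even (Fintype.card F)) (n : ℕ) (hn : 2 ≤ n) (a b : F) (hab : ∀ z₁ z₂ : F, z₁ ^ 2 + a * z₁ * z₂ + b * z₂ ^ 2 = 0 → z₁ = 0 ∧ z₂ = 0) :
    (Fintype.card F ^ n ≤ 2 * Nat.card (ConjClasses ↥(Cfsg.isometryGroup F (Cfsg.quadFormPlus n F))) ∧
      Nat.card (ConjClasses ↥(Cfsg.isometryGroup F (Cfsg.quadFormPlus n F))) ≤ 15 * Fintype.card F ^ n) ∧
    (Fintype.card F ^ n ≤ 2 * Nat.card (ConjClasses ↥(Cfsg.isometryGroup F (Cfsg.quadFormMinus (n - 1) F a b))) ∧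
      Nat.card (ConjClasses ↥(Cfsg.isometryGroup F (Cfsg.quadFormMinus (n - 1) F a b))) ≤ 15 * Fintype.card F ^ n) := by
  have h2 : (2 : F) = 0 := by_contra fun h =>
    Nat.not_even_iff_odd.2 (H30.two_ne_zero_iff_odd_card.1 h) heven
  have h3 : Module.finrank F (Fin n ⊕ Fin n → F) = 2 * n := by simp [two_mul]
  have h4 : Module.finrank F ((Fin (n - 1) ⊕ Fin (n - 1)) ⊕ Fin 2 → F) = 2 * n := by simp; omega
  rw [← H30.coe_qPlus, ← H30.coe_qMinus, card_congr (H30.isoEquiv _), card_congr (H30.isoEquiv _)]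
  exact ⟨⟨H76.le_card_o_two h2 (H30.qPlus_nondegenerate n) hn h3,
    H76.card_o_two_le h2 (H30.qPlus_nondegenerate n) h3⟩,
    H76.le_card_o_two h2 (H30.qMinus_nondegenerate (n - 1) hab) hn h4,
    H76.card_o_two_le h2 (H30.qMinus_nondegenerate (n - 1) hab) h4⟩

end Cfsg.Agent.S2559
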