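import Cfsg.Statements.S3915
import Cfsg.Agent.H52.Quasisimple
import Cfsg.Agent.H89.MaxCent
import Cfsg.Agent.H89.OddHall

set_option autoImplicit false
open Cfsg

namespace Cfsg.Agent.S3915

open Subgroup

theorem exists_two_elt {G : Type*} [Group G] [Finite G] {L : Subgroup G} (h : IsComponent L) :
    ∃ x ∈ L, x ∉ centralizer (L : Set G) ∧ ∃ k, orderOf x = 2 ^ k := by
  have h2 : 2 ∣ (center L).index := by
    by_contra h3
    exact H52.IsQuasisimple.not_isSolvable h.2
      (H89.isSolvable_of_quotient_center (H89.isSolvable_of_not_two_dvd h3))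
  obtain ⟨x, hx, k, hk⟩ := H89.exists_pElement_not_mem Nat.prime_two h2
  refine ⟨x, x.2, fun h1 => hx ?_, k, by rw [orderOf_coe, hk]⟩
  rwa [← H52.centralizer_subgroupOf_self, mem_subgroupOf]

theorem aux {G : Type*} [Group G] [Finite G] (hP : ∀ A B : Subgroup G, IsCyclic ↥A → IsCyclic ↥B →
    IsPGroup 2 ↥A → Nat.card ↥A = Nat.card ↥B → ∃ g : G, B = A.map (MulAut.conj g).toMonoidHom)
    {L K : Subgroup G} (hL : IsComponent L) (hK : IsComponent K) (hne : L ≠ K) {x y : G}
    (hx : x ∈ L) (hy : y ∈ K) (hx' : x ∉ centralizer (L : Set G))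
    (hy' : y ∉ centralizer (K : Set G)) {a b : ℕ} (ha : orderOf x = 2 ^ a)
    (hb : orderOf y = 2 ^ b) (hab : b ≤ a) : False := by
  have hc := H52.commutator_eq_bot_iff_forall.1 (H52.IsComponent.commutator_eq_bot_of_ne hL hK hne)
  have h1 : orderOf (x * y) ∣ orderOf x := by
    rw [orderOf_dvd_iff_pow_eq_one, Commute.mul_pow (hc x hx y hy), pow_orderOf_eq_one, one_mul,
      ← orderOf_dvd_iff_pow_eq_one, ha, hb]
    exact pow_dvd_pow 2 hab
  have h2 : orderOf (x ^ (orderOf x / orderOf (x * y))) = orderOf (x * y) :=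
    orderOf_pow_orderOf_div (orderOf_pos x).ne' h1
  obtain ⟨c, -, hc'⟩ := (Nat.dvd_prime_pow Nat.prime_two).1 (ha ▸ h1)
  obtain ⟨g, hg⟩ := hP (zpowers (x ^ (orderOf x / orderOf (x * y)))) (zpowers (x * y))
    inferInstance inferInstance (IsPGroup.of_card (n := c) (by rw [Nat.card_zpowers, h2, hc']))
    (by rw [Nat.card_zpowers, Nat.card_zpowers, h2])
  have h3 : x * y ∈ L.map (MulAut.conj g).toMonoidHom :=
    map_mono (zpowers_le.2 (pow_mem hx _)) (hg ▸ mem_zpowers _)
  have hM := H52.IsComponent.conj hL g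
  by_cases h4 : L = L.map (MulAut.conj g).toMonoidHom
  · rw [← h4] at h3
    have h5 : y ∈ L := by simpa using mul_mem (inv_mem hx) h3
    exact hy' fun z hz => (hc y h5 z hz).symm
  · have h5 := H52.commutator_eq_bot_iff_forall.1
      (H52.IsComponent.commutator_eq_bot_of_ne hL hM h4)
    refine hx' fun z hz => ?_
    have h6 := h5 z hz _ h3
    rw [mul_assoc, ← hc z hz y hy, ← mul_assoc, ← mul_assoc] at h6
    exact mul_right_cancel h6

/-- Let G be a finite group in which, for every prime p, any two cyclic p-subgroups of the same order are conjugate. If the layer E(G), the subgroup generated by the components of G, is non-trivial, then E(G)/Z(E(G)) is a non-abelian simple group. -/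
theorem result {G : Type*} [Group G] [Finite G] (hP : ∀ (p : ℕ), p.Prime → ∀ A B : Subgroup G, IsCyclic ↥A → IsCyclic ↥B → IsPGroup p ↥A → Nat.card ↥A = Nat.card ↥B → ∃ g : G, B = A.map (MulAut.conj g).toMonoidHom) (hE : Cfsg.layer G ≠ ⊥) :
    IsSimpleGroup (↥(Cfsg.layer G) ⧸ Subgroup.center ↥(Cfsg.layer G)) ∧ ¬ IsMulCommutative (↥(Cfsg.layer G) ⧸ Subgroup.center ↥(Cfsg.layer G)) := by
  obtain ⟨L, hL⟩ := H52.layer_ne_bot_iff.1 hE
  have h1 : layer G = L := by
    refine le_antisymm (sSup_le fun K hK => ?_) (H52.IsComponent.le_layer hL)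
    by_contra h
    have hne : L ≠ K := by rintro rfl; exact h le_rfl
    obtain ⟨x, hx, hx', a, ha⟩ := exists_two_elt hL
    obtain ⟨y, hy, hy', b, hb⟩ := exists_two_elt hK
    rcases le_total b a with hab | hab
    · exact aux (hP 2 Nat.prime_two) hL hK hne hx hy hx' hy' ha hb hab
    · exact aux (hP 2 Nat.prime_two) hK hL hne.symm hy hx hy' hx' hb ha hab
  rw [h1]
  exact ⟨hL.2.2, H52.IsQuasisimple.not_isMulCommutative_quotient hL.2⟩

end Cfsg.Agent.S3915
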