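import Cfsg.Statements.S1904
import Cfsg.Agent.H2.OddA

set_option autoImplicit false
open Cfsg

namespace Cfsg.Agent.S1904

theorem card_invol {X : Type*} [Group X] [Finite X] :
    Nat.card {x : X // orderOf x = 2} + 1 = Nat.card {x : X // x * x = 1} := by
  have e : {x : X | x * x = 1} = insert 1 {x : X | orderOf x = 2} := by
    ext x
    by_cases h : x = 1 <;> simp [h, H9.orderOf_eq_two_iff]
  have := Set.ncard_insert_of_notMem (a := 1) (s := {x : X | orderOf x = 2}) (by simp)
  rw [← e] at this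
  exact this.symm

theorem sp_four {X : Type*} [Group X] [Finite X] (h : H2.Sp2 (Subgroup.center X))
    (h4 : Nat.card (Subgroup.center X) = 4) (k : ∀ x : X, x * x = 1 → x ∈ Subgroup.center X) :
    Nat.card {x : X // orderOf x = 2} = 3 ∧ ∀ x : X, orderOf x = 2 → x ∈ Subgroup.center X := by
  refine ⟨?_, fun x hx => k x (H9.orderOf_eq_two_iff.1 hx).2⟩
  have := card_invol (X := X)
  rw [Nat.card_congr (Equiv.subtypeEquivRight (q := (· ∈ Subgroup.center X))
    fun x => ⟨k x, h.exp x⟩), h4] at this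
  omega



open scoped commutatorElement in
/-- Let X be a finite nonabelian 2-group with no normal abelian subgroup that is self-centralizing and contains an elementary abelian subgroup of order 8. Suppose a group A of automorphisms of X of odd order satisfies [X, A] = X. Then X is the quaternion group of order 8, or X is special of order 64 with exactly three involutions, all central, or X is extraspecial of order 32 with exactly eleven involutions (the central product of a quaternion group and a dihedral group of order 8). -/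
theorem result {X : Type*} [Group X] [Finite X] (hX : IsPGroup 2 X) (hna : ¬ IsMulCommutative X)
    (hscn : ¬ ∃ A : Subgroup X, A.Normal ∧ Subgroup.centralizer (A : Set X) = A ∧
      ∃ E : Subgroup X, E ≤ A ∧ Cfsg.IsElementaryAbelian 2 E ∧ Nat.card E = 8)
    (A : Subgroup (MulAut X)) (hA : Odd (Nat.card A))
    (hXA : Subgroup.closure {g : X | ∃ φ ∈ A, ∃ x : X, g = x⁻¹ * φ x} = ⊤) :
    Nonempty (X ≃* QuaternionGroup 2) ∨
      (Cfsg.IsSpecial 2 X ∧ Nat.card X = 64 ∧ Nat.card {x : X // orderOf x = 2} = 3 ∧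
        ∀ x : X, orderOf x = 2 → x ∈ Subgroup.center X) ∨
      (Cfsg.IsExtraspecial 2 X ∧ Nat.card X = 32 ∧ Nat.card {x : X // orderOf x = 2} = 11) := by
  classical
  have hE : H2.NoE8 X := by
    by_contra n
    obtain ⟨E, e1, e2, e3⟩ := H2.exists_normal_E8 hX n
    have c : IsMulCommutative E := H7.isMulCommutative_of_forall fun a ha b hb =>
      (H2.comm_of_exp2 e2 a ha b hb).eq
    obtain ⟨B, b1, -, b3, b4⟩ := H7.exists_scn_ge hX c
    exact hscn ⟨B, b1, b4, E, b3, ⟨c, fun a ha => by rw [sq, e2 a ha]⟩, e3⟩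
  have hA' : (Nat.card A).Coprime 2 := Nat.coprime_two_right.2 hA
  have na : ∃ x y : X, ¬ Commute x y := by
    by_contra n
    push Not at n
    exact hna ⟨⟨n⟩⟩
  by_cases c : ∃ φ ∈ A, ∃ z u, H2.C1 φ z u
  · obtain ⟨φ, -, z, u, h⟩ := c
    rcases (h.three_of_gen hX hE A hA' hXA).cases hX h.h1 h.h2 with ⟨n, k⟩ | k
    · exact absurd ⟨⟨k.comm⟩⟩ hna
    · exact Or.inr (Or.inl ⟨⟨hX, le_antisymm (H7.frattini_le hX k.commutator_eq.le
        fun x => sq x ▸ k.sp2.sq x) (k.commutator_eq ▸ H7.commutator_le_frattini hX),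
        k.commutator_eq⟩, k.card, sp_four k.sp2 k.cardZ fun x => (k.sq_eq_one_iff x).1⟩)
  have hs := H7.special_of_coprime_aut hX A hA' (by rw [← hXA]; congr 1; ext; simp only [Set.mem_ofPred_eq]; tauto)
    fun H hH hc a ha => (H2.dich hX hE (hA'.coprime_dvd_left (A.orderOf_dvd_natCard ha))
      inferInstance (fun _ hx _ hy => H7.commute_of_mem hc hx hy)
      fun _ => H7.mem_of_char a).resolve_left fun k => c ⟨a, ha, k⟩
  have sc := H2.Spc.of_special hA' hs
  have sp := sc.sp
  obtain ⟨x₀, y₀, n₀⟩ := na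
  have : Nontrivial X := ⟨x₀, 1, by rintro rfl; exact n₀ (Commute.one_left _)⟩
  have cm : ∀ x g : X, ⁅x, g⁆ ∈ Subgroup.center X := fun x g =>
    sc.der.le (Subgroup.commutator_mem_commutator trivial trivial)
  rcases sc.card hX (hE _ inferInstance inferInstance fun a ha => by rw [sq, sp.exp a ha])
    (H2.Sec.of_injective (H2.sec_of_noE8 hX hE) (MonoidHom.id X) (fun _ _ h => h) _ sp.sq) with
    ⟨h2, h8 | h32⟩ | ⟨h4, h64⟩
  · refine Or.inl ((H2.d8_or_q8 h8 ⟨x₀, y₀, n₀⟩).resolve_left fun ⟨e⟩ => ?_)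
    have k1 : ∀ y : DihedralGroup 4, y * y ≠ 1 → ∀ g,
        g * ((DihedralGroup.r 1)⁻¹ * y) = (DihedralGroup.r 1)⁻¹ * y * g := by decide
    have k2 := sc.fpf (e.symm (.r 1)) fun a _ => Subgroup.mem_center_iff.2 fun g =>
      e.injective (by
        simpa using k1 (e (a (e.symm (.r 1)))) (by
          rw [← map_mul, ← map_mul, ← map_mul, Ne, MulEquiv.map_eq_one_iff,
            MulEquiv.map_eq_one_iff, MulEquiv.map_eq_one_iff]; decide) (e g))
    have := congrArg e (Subgroup.mem_center_iff.1 k2 (e.symm (.sr 0)))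
    simp only [map_mul, MulEquiv.apply_symm_apply] at this
    exact absurd this (by decide)
  · refine Or.inr (Or.inr ⟨⟨hs.1, h2⟩, h32, ?_⟩)
    obtain ⟨s, ss, sZ⟩ : ∃ s : X, s * s = 1 ∧ s ∉ Subgroup.center X := by
      by_contra n
      push Not at n
      have := sp.card_le n
      rw [h2, h32] at this; omega
    obtain ⟨U1, U2, U3, U4⟩ := H2.exists_sup_invol (U := Subgroup.center X) sp.exp sZ
      (fun a ha => (sp.cen a ha s).symm) (sp.sq s) (cm s)
    set U := Subgroup.center X ⊔ Subgroup.zpowers s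
    have Ue : ∀ a ∈ U, a * a = 1 ∧ Commute a s := fun a ha => by
      rcases (U4 a).1 ha with k | k
      · exact ⟨sp.exp a k, sp.cen a k s⟩
      · obtain ⟨c, rfl⟩ : ∃ c, a = c * s := ⟨a * s⁻¹, by group⟩
        rw [mul_inv_cancel_right] at k
        exact ⟨by rw [(sp.cen c k s).symm.mul_mul_mul_comm, sp.exp c k, ss, one_mul],
          (sp.cen c k s).mul_left (Commute.refl s)⟩
    set C := Subgroup.centralizer ({s} : Set X) with hC
    have mC : ∀ {x}, x ∈ C ↔ Commute x s := Subgroup.mem_centralizer_singleton_iff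
    have c16 : Nat.card C = 16 := by
      have k1 := H7.relIndex_centralizer_le (H := ⊤) (x := s) fun g _ => cm g s
      rw [Subgroup.relIndex_top_right, h2, ← hC] at k1
      have k2 : C.index ≠ 1 := fun e => sZ (Subgroup.mem_center_iff.2 fun g =>
        mC.1 (Subgroup.index_eq_one.1 e ▸ Subgroup.mem_top g))
      have k3 := C.card_mul_index
      have k4 := C.index_ne_zero_of_finite
      rw [show C.index = 2 by omega] at k3
      omega
    have i1 : {x : X | x * x = 1} ∩ C = U := by
      ext x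
      refine ⟨fun ⟨xx, hx⟩ => by_contra fun n => hE.false (U := U) (fun a ha => (Ue a ha).1)
        (by rw [U3, h2]) n (fun a ha => ?_) xx fun g => Subgroup.mem_sup_left (cm x g),
        fun hx => ⟨(Ue x hx).1, mC.2 (Ue x hx).2⟩⟩
      rcases (U4 a).1 ha with k | k
      · exact (sp.cen a k x).symm
      · simpa using (sp.cen _ k x).symm.mul_right (mC.1 hx)
    have two : ∀ c ∈ Subgroup.center X, ∀ d ∈ Subgroup.center X, c ≠ 1 → d ≠ 1 → c = d :=
      fun c hc d hd c1 d1 => by
        obtain ⟨y, -, hy⟩ := (Nat.card_eq_two_iff' (1 : Subgroup.center X)).1 h2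
        exact congrArg Subtype.val ((hy ⟨c, hc⟩ fun e => c1 (congrArg Subtype.val e)).trans
          (hy ⟨d, hd⟩ fun e => d1 (congrArg Subtype.val e)).symm)
    have sw : ∀ x ∉ C, (x * s * (x * s) = 1 ↔ ¬ x * x = 1) := fun x hx => by
      have n : s⁻¹ * x⁻¹ * s * x ≠ 1 := fun e => hx (mC.2 (H2.cm_eq_one_iff.1 e).symm)
      rw [sp.sq_mul, ss, mul_one]
      refine ⟨fun e e' => n (by rwa [e', one_mul] at e), fun e => ?_⟩
      rw [two _ (sp.sq x) _ (sp.cm_mem s x) e n, sp.exp _ (sp.cm_mem s x)]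
    have sC : ∀ x, x * s ∈ C ↔ x ∈ C := fun x => Subgroup.mul_mem_cancel_right _ (mC.2 rfl)
    have i2 : ({x : X | x * x = 1} \ C).ncard = ((C : Set X)ᶜ \ {x : X | x * x = 1}).ncard :=
      Set.ncard_congr (fun x _ => x * s) (fun x hx => ⟨fun k => hx.2 ((sC x).1 k),
        fun k => (sw x hx.2).1 k hx.1⟩) (fun _ _ _ _ e => mul_right_cancel e) fun y hy =>
        ⟨y * s, ⟨(sw y hy.1).2 hy.2, fun k => hy.1 ((sC y).1 k)⟩, by rw [mul_assoc, ss, mul_one]⟩
    have i3 := Set.ncard_inter_add_ncard_sdiff_eq_ncard {x : X | x * x = 1} (C : Set X)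
    have i4 := Set.ncard_inter_add_ncard_sdiff_eq_ncard (C : Set X)ᶜ {x : X | x * x = 1}
    have i5 := Set.ncard_add_ncard_compl (C : Set X)
    have i6 := card_invol (X := X)
    rw [Set.inter_comm, ← Set.sdiff_eq] at i4
    rw [i1] at i3
    change Nat.card U + _ = Nat.card {x : X // x * x = 1} at i3
    change Nat.card C + _ = _ at i5
    omega
  · exact Or.inr (Or.inl ⟨hs.1, h64, sp_four sp h4 fun x xx => by_contra fun n =>
      hE.false sp.exp h4 n (fun a ha => (sp.cen a ha x).symm) xx (cm x)⟩)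


end Cfsg.Agent.S1904
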