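import Cfsg.Statements.S0662
import Cfsg.Agent.H89.PBasic
import Cfsg.Agent.H9.Taussky

set_option autoImplicit false
open Cfsg

namespace Cfsg.Agent.S0662

/-- In a p-group of maximal class of order at least p³ the normal subgroups of index at least p² are exactly the terms of the lower central series, and there are exactly p + 1 normal subgroups of index p. -/
theorem result {G : Type*} [Group G] [Finite G] {p : ℕ} [Fact p.Prime] (n : ℕ) (hG : Nat.card G = p ^ n) (hcl : Group.nilpotencyClass G = n - 1) (hn : 3 ≤ n) : (∀ (N : Subgroup G) [N.Normal] (r : ℕ), 2 ≤ r → N.index = p ^ r → N = (⊤ : Subgroup G).lowerCentralSeries (r - 1)) ∧ Nat.card {N : Subgroup G // N.Normal ∧ N.index = p} = p + 1 := by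
    classical
    have hp : p.Prime := Fact.out
    have hGp : IsPGroup p G := IsPGroup.of_card hG
    constructor
    · intro N _ r hr hN
      obtain ⟨i, rfl⟩ : ∃ i, r = i + 2 := ⟨r - 2, by omega⟩
      have hle : i + 2 ≤ n := by
        have h1 : N.index ∣ Nat.card G := N.index_dvd_card
        rw [hN, hG] at h1
        exact (Nat.pow_dvd_pow_iff_le_right hp.one_lt).1 h1
      obtain ⟨j, rfl⟩ : ∃ j, n = i + j + 2 := ⟨n - (i + 2), by omega⟩
      have h1 := Cfsg.Agent.H9.card_lowerCentralSeries_of_maxClass (i := i) (j := j) hG
        (by rw [hcl]; omega)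
      have h2 : (⊤ : Subgroup (G ⧸ N)).lowerCentralSeries (i + 1) = ⊥ :=
        Cfsg.Agent.H9.lowerCentralSeries_eq_bot_of_card (p := p) (n := i) hN
      have h3 : (⊤ : Subgroup G).lowerCentralSeries (i + 1) ≤ N := by
        have h4 := Subgroup.map_lowerCentralSeries (⊤ : Subgroup G) (QuotientGroup.mk' N) (i + 1)
        rw [Subgroup.map_top_of_surjective _ (QuotientGroup.mk'_surjective N), h2,
          Subgroup.map_eq_bot_iff, QuotientGroup.ker_mk'] at h4
        exact h4
      have h5 : Nat.card N = p ^ j := by
        have h6 := N.card_mul_index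
        rw [hN, hG, show i + j + 2 = j + (i + 2) by ring, pow_add p j] at h6
        exact Nat.eq_of_mul_eq_mul_right (pow_pos hp.pos _) h6
      show N = (⊤ : Subgroup G).lowerCentralSeries (i + 1)
      exact (Subgroup.eq_of_le_of_card_ge h3 (by rw [h1, h5])).symm
    · obtain ⟨m, rfl⟩ : ∃ m, n = m + 2 := ⟨n - 2, by omega⟩
      have hQ : Nat.card (G ⧸ commutator G) = p ^ 2 :=
        Cfsg.Agent.H9.index_commutator_of_maxClass hG (by rw [hcl]; omega)
      have hnc : ¬ IsCyclic (G ⧸ commutator G) := by
        intro h
        have h1 := Cfsg.Agent.H9.isCyclic_of_isCyclic_quotient_commutator hGp h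
        letI := IsCyclic.commGroup (α := G)
        have h2 : Group.nilpotencyClass G ≤ 1 := CommGroup.nilpotencyClass_le_one
        omega
      have hord : ∀ g : G ⧸ commutator G, g ≠ 1 → orderOf g = p := by
        intro g hg
        have h1 : orderOf g ∣ p ^ 2 := hQ ▸ orderOf_dvd_natCard g
        obtain ⟨k, hk, hk'⟩ := (Nat.dvd_prime_pow hp).1 h1
        interval_cases k
        · exact absurd (orderOf_eq_one_iff.1 (by simpa using hk')) hg
        · simpa using hk'
        · exact absurd (isCyclic_of_orderOf_eq_card g (by rw [hk', hQ])) hnc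
      have hcnt : Nat.card {g : G ⧸ commutator G // orderOf g = p} = p ^ 2 - 1 := by
        have e : {g : G ⧸ commutator G // orderOf g = p} ≃ {g : G ⧸ commutator G // g ≠ 1} :=
          Equiv.subtypeEquivRight fun g => ⟨fun h h1 => by
            rw [h1, orderOf_one] at h; exact hp.one_lt.ne h, hord g⟩
        rw [Nat.card_congr e, ← hQ]
        letI := Fintype.ofFinite (G ⧸ commutator G)
        rw [Nat.card_eq_fintype_card, Nat.card_eq_fintype_card]
        simp [Fintype.card_subtype_compl]
      have hs := Cfsg.Agent.H89.card_subgroups_prime_mul (G := G ⧸ commutator G) (p := p)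
      rw [hcnt] at hs
      have hs2 : Nat.card {H : Subgroup (G ⧸ commutator G) // Nat.card H = p} = p + 1 := by
        have h1 : p ^ 2 - 1 = (p + 1) * (p - 1) := by
          have := Nat.sq_sub_sq p 1
          simpa using this
        rw [h1] at hs
        exact Nat.eq_of_mul_eq_mul_right (by have := hp.one_lt; omega) hs
      rw [← hs2]
      have hidx : ∀ H : Subgroup (G ⧸ commutator G), H.index = p ↔ Nat.card H = p := by
        intro H
        have h1 := H.card_mul_index
        rw [hQ, sq] at h1
        constructor
        · intro h; rw [h] at h1; exact Nat.eq_of_mul_eq_mul_right hp.pos h1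
        · intro h; rw [h] at h1; exact Nat.eq_of_mul_eq_mul_left hp.pos h1
      have hcomm : ∀ N : Subgroup G, N.Normal → N.index = p → commutator G ≤ N := by
        intro N hN hi
        haveI : IsCyclic (G ⧸ N) := isCyclic_of_prime_card (p := p) hi
        rw [← Subgroup.Normal.quotient_commutative_iff_commutator_le]
        infer_instance
      symm
      refine Nat.card_congr (Equiv.ofBijective (fun H => ⟨H.1.comap (QuotientGroup.mk' _), ?_, ?_⟩)
        ⟨?_, ?_⟩)
      · haveI : H.1.Normal := by
          haveI : IsMulCommutative (G ⧸ commutator G) :=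
            (Subgroup.Normal.quotient_commutative_iff_commutator_le).2 le_rfl
          infer_instance
        infer_instance
      · rw [Subgroup.index_comap_of_surjective _ (QuotientGroup.mk'_surjective _)]
        exact (hidx _).2 H.2
      · intro H H' h
        exact Subtype.ext (Subgroup.comap_injective (QuotientGroup.mk'_surjective _)
          (congrArg Subtype.val h))
      · rintro ⟨N, hN, hi⟩
        have h1 : (N.map (QuotientGroup.mk' (commutator G))).comap (QuotientGroup.mk' _) = N := by
          rw [Subgroup.comap_map_eq, QuotientGroup.ker_mk', sup_eq_left]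
          exact hcomm N hN hi
        refine ⟨⟨N.map (QuotientGroup.mk' _), (hidx _).1 ?_⟩, Subtype.ext h1⟩
        rw [← Subgroup.index_comap_of_surjective _ (QuotientGroup.mk'_surjective _), h1, hi]

end Cfsg.Agent.S0662
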