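import Cfsg.Statements.S2425
import Cfsg.Agent.H61.StA
import Cfsg.Agent.H61.StB
import Cfsg.Agent.H75.Flags

set_option autoImplicit false
open scoped MatrixGroups
open Cfsg

namespace Cfsg.Agent.S2425

open Module Polynomial Submodule H61.St H75 UniqueFactorizationMonoid

section
variable {F V : Type*} [Field F] [AddCommGroup V] [Module F V] [FiniteDimensional F V]

theorem step {U A B : Submodule F V} (hA : U ≤ A) (hB : U ≤ B) (h : finrank F A = finrank F B) :
    ∃ e : V ≃ₗ[F] V, (∀ u ∈ U, e u = u) ∧ A.map (e : V →ₗ[F] V) = B := by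
  let t := LinearEquiv.ofFinrankEq A B h
  obtain ⟨g, hg⟩ := exists_linearEquiv_restrict_eq ((t.submoduleMap _).symm ≪≫ₗ
    comapSubtypeEquivOfLe hA ≪≫ₗ (comapSubtypeEquivOfLe hB).symm)
  obtain ⟨e, he⟩ := exists_linearEquiv_restrict_eq (t ≪≫ₗ g)
  refine ⟨e, fun u hu => ?_, eq_of_le_of_finrank_eq ?_ (by rw [LinearEquiv.finrank_map_eq, h])⟩
  · have := congrArg Subtype.val (hg (t.submoduleMap _ ⟨⟨u, hA hu⟩, mem_comap.2 hu⟩))
    rw [LinearEquiv.trans_apply, LinearEquiv.trans_apply, LinearEquiv.symm_apply_apply] at this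
    exact (he ⟨u, hA hu⟩).symm.trans this.symm
  · rintro _ ⟨a, ha, rfl⟩
    exact he ⟨a, ha⟩ ▸ Subtype.prop _

theorem trans (k : ℕ) : ∀ A B : Fin k → Submodule F V, Monotone A → Monotone B →
    (∀ i, finrank F (A i) = finrank F (B i)) → ∃ e : V ≃ₗ[F] V, ∀ i, (A i).map (e : V →ₗ[F] V) = B i := by
  induction k with
  | zero => exact fun _ _ _ _ _ => ⟨1, fun i => i.elim0⟩
  | succ k ih =>
    intro A B hA hB h
    obtain ⟨e, he⟩ := ih (fun i => A i.castSucc) (fun i => B i.castSucc)
      (hA.comp Fin.strictMono_castSucc.monotone) (hB.comp Fin.strictMono_castSucc.monotone) fun i => h _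
    obtain ⟨e', h1, h2⟩ := step (U := ⨆ i : Fin k, B i.castSucc)
      (A := (A (Fin.last k)).map (e : V →ₗ[F] V)) (B := B (Fin.last k))
      (iSup_le fun i => he i ▸ map_mono (hA (Fin.le_last _))) (iSup_le fun i => hB (Fin.le_last _))
      (by rw [LinearEquiv.finrank_map_eq, h])
    refine ⟨e ≪≫ₗ e', fun i => ?_⟩
    rw [LinearEquiv.coe_trans, Submodule.map_comp]
    cases i using Fin.lastCases with
    | last => exact h2
    | cast i =>
      rw [he]
      have : ∀ u ∈ B i.castSucc, e' u = u := fun u hu => h1 u (mem_iSup_of_mem i hu)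
      ext u
      exact ⟨by rintro ⟨v, hv, rfl⟩; exact (this v hv).symm ▸ hv, fun hu => ⟨u, hu, this u hu⟩⟩

end

variable {F : Type*} [Field F] {n : ℕ}

/-- the natural action -/
noncomputable def ρ : GL (Fin n) F ≃* ((Fin n → F) ≃ₗ[F] (Fin n → F)) :=
  Matrix.GeneralLinearGroup.toLin.trans (LinearMap.GeneralLinearGroup.generalLinearEquiv F _)

theorem ρ_apply (a : GL (Fin n) F) (v : Fin n → F) : ρ a v = a.val.mulVec v := rfl

/-- the standard flag -/
noncomputable def E (F : Type*) [Field F] (μ : Fin n → ℕ) (s : Fin (n + 1)) : Submodule F (Fin n → F) :=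
  Pi.spanSubset F {i | i.val < psum μ s}

theorem mem_E {μ : Fin n → ℕ} {s : Fin (n + 1)} {v : Fin n → F} :
    v ∈ E F μ s ↔ ∀ i : Fin n, psum μ s ≤ i.val → v i = 0 := by simp [E, Pi.mem_spanSubset_iff]

theorem finrank_E {μ : Fin n → ℕ} (hμ : ∑ i, μ i = n) (s : Fin (n + 1)) :
    finrank F (E F μ s) = psum μ s := by
  have h : psum μ s ≤ n := (psum_mono μ s.is_le).trans_eq ((psum_of_le μ le_rfl).trans hμ)
  rw [E, Pi.dim_spanSubset, ← Set.ncard_image_of_injective _ Fin.val_injective]
  refine Eq.trans ?_ (Set.ncard_Iio_nat _)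
  congr 1
  ext i
  exact ⟨by rintro ⟨j, hj, rfl⟩; exact hj, fun hi => ⟨⟨i, hi.trans_le h⟩, hi, rfl⟩⟩

theorem mem_P {μ : Fin n → ℕ} {a : GL (Fin n) F} :
    a ∈ parabolicGL n F μ ↔ ∀ s, ∀ v ∈ E F μ s, ρ a v ∈ E F μ s := by
  refine ⟨fun h s v hv => mem_E.2 fun i hi => show ∑ j, a.val i j * v j = 0 from
    Finset.sum_eq_zero fun j _ => ?_, fun h i j hij => ?_⟩
  · by_cases c : psum μ s ≤ j.val
    · rw [mem_E.1 hv j c, mul_zero]
    · rw [← le_compLabel_iff μ _ s.is_le] at c hi
      exact mul_eq_zero_of_left (h ((not_le.1 c).trans_le hi)) _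
  · have := mem_E.1 (h ⟨compLabel μ i, Nat.lt_succ_of_le (compLabel_le μ i)⟩ (Pi.single j 1)
      (mem_E.2 fun k hk => Pi.single_eq_of_ne (by
        rintro rfl
        exact hij.not_ge ((le_compLabel_iff μ _ (compLabel_le μ i)).2 hk)) _)) i
      ((le_compLabel_iff μ _ (compLabel_le μ i)).1 le_rfl)
    simpa [ρ_apply] using this

theorem card_fixed (x : GL (Fin n) F) {μ : Fin n → ℕ} (hμ : ∑ i, μ i = n) :
    Nat.card (MulAction.fixedBy (GL (Fin n) F ⧸ parabolicGL n F μ) x) =
      Nat.card (Ch (fun Y : Submodule F[X] (AEval' (Matrix.toLin' x.val)) => finrank F Y) μ ⊥) := by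
  let m := AEval.mapSubmodule F (Fin n → F) (Matrix.toLin' x.val)
  have dm : ∀ p, finrank F (m p) = finrank F p.1 := fun p =>
    (AEval.equiv_mapSubmodule _ p.1 p.2).finrank_eq.symm
  have fx : ∀ {a : GL (Fin n) F}, (a : _ ⧸ parabolicGL n F μ) ∈ MulAction.fixedBy _ x ↔
      a⁻¹ * x * a ∈ parabolicGL n F μ := fun {a} => by
    rw [MulAction.mem_fixedBy, eq_comm, mul_assoc]; exact QuotientGroup.eq
  have mm : ∀ {a : GL (Fin n) F} {s v}, v ∈ (E F μ s).map (ρ a : _ →ₗ[F] _) ↔ ρ a⁻¹ v ∈ E F μ s :=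
    fun {a s v} => by rw [mem_map_equiv, map_inv]; rfl
  have ml : ∀ (a b : GL (Fin n) F) v, ρ a (ρ b v) = ρ (a * b) v := fun a b v => by rw [map_mul]; rfl
  have inv : ∀ (c : MulAction.fixedBy (GL (Fin n) F ⧸ parabolicGL n F μ) x) s,
      (E F μ s).map (ρ c.1.out : _ →ₗ[F] _) ∈
        (Algebra.lsmul F F (Fin n → F) (Matrix.toLin' x.val)).invtSubmodule := fun c s v hv => by
    have := mem_P.1 (fx.1 (c.1.out_eq'.symm ▸ c.2)) s _ (mm.1 hv)
    rw [ml, mul_inv_cancel_right, ← ml] at this
    exact mm.2 this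
  have Em : Monotone (E F μ) := fun s t h v hv =>
    mem_E.2 fun i hi => mem_E.1 hv i ((psum_mono μ h).trans hi)
  refine Nat.card_eq_of_bijective (fun c => ⟨fun s => m ⟨_, inv c s⟩, ?_, ?_, fun i =>
    ⟨m.monotone (map_mono (Em (Fin.castSucc_le_succ i))), ?_⟩⟩) ⟨fun c c' h => ?_, fun W => ?_⟩
  · rw [← m.map_bot, m.injective.eq_iff, Subtype.ext_iff]
    refine finrank_eq_zero.1 ?_
    rw [LinearEquiv.finrank_map_eq, finrank_E hμ]
    exact psum_zero μ
  · rw [← m.map_top, m.injective.eq_iff, Subtype.ext_iff]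
    refine eq_top_of_finrank_eq ?_
    rw [LinearEquiv.finrank_map_eq, finrank_E hμ, finrank_fin_fun]
    exact (psum_of_le μ le_rfl).trans hμ
  · simp only [dm, LinearEquiv.finrank_map_eq, finrank_E hμ]
    exact psum_succ μ i
  · refine Subtype.ext (c.1.out_eq'.symm.trans (Eq.trans (QuotientGroup.eq.2 (mem_P.2 fun s v hv => ?_))
      c'.1.out_eq'))
    have e := congrArg Subtype.val (m.injective (congrFun (congrArg Subtype.val h) s))
    rw [← ml, ← mm]
    exact e.ge ⟨v, hv, rfl⟩
  · obtain ⟨W, w0, w1, w2⟩ := W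
    have dW : ∀ s, finrank F (W s) = psum μ s := fun s => by
      induction s using Fin.induction with
      | zero => rw [w0, Fin.val_zero, psum_zero]; exact finrank_zero_of_subsingleton
      | succ s ih => exact (w2 s).2.trans ((congrArg (· + μ s) ih).trans (psum_succ μ s).symm)
    obtain ⟨e, he⟩ := trans _ (E F μ) (fun s => (m.symm (W s)).1) Em
      (fun s t h => m.symm.monotone (Fin.monotone_iff_le_succ.2 (fun i => (w2 i).1) h))
      fun s => by rw [← dm, m.apply_symm_apply, dW, finrank_E hμ]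
    obtain ⟨a, rfl⟩ := ρ.surjective e
    refine ⟨⟨a, fx.2 (mem_P.2 fun s v hv => ?_)⟩, Subtype.ext (funext fun s => ?_)⟩
    · rw [← ml, ← ml, ← mm, he]
      exact (m.symm (W s)).2 (he s ▸ ⟨v, hv, rfl⟩ : ρ a v ∈ (m.symm (W s)).1)
    · refine m.eq_symm_apply.1 (Subtype.ext ?_)
      obtain ⟨p, hp⟩ := QuotientGroup.mk_out_eq_mul (parabolicGL n F μ) a
      show (E F μ s).map (ρ (a : _ ⧸ parabolicGL n F μ).out).toLinearMap = _
      rw [← he, hp]
      refine eq_of_le_of_finrank_eq ?_ (by simp only [LinearEquiv.finrank_map_eq])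
      rintro _ ⟨v, hv, rfl⟩
      exact ⟨_, mem_P.1 p.2 s v hv, ml _ _ _⟩


/-- Values of the Steinberg character of `GL_n(q)` (the partition-indexed character for `ν = (1,…,1)`, of degree `q^(n(n−1)/2)`) at elements of order prime to the characteristic: if the characteristic polynomial of such an element is `∏ f^(m_f)` over distinct monic irreducible `f`, the value is `∏_f (−1)^((deg f − 1) m_f) q^(deg f · m_f (m_f − 1)/2)`. (At elements of order divisible by the characteristic the value is 0; that is not part of this statement.) -/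
theorem result {F : Type*} [Field F] [Fintype F] [DecidableEq F] {q : ℕ} (hq : Fintype.card F = q) (p : ℕ) [Fact p.Prime] [CharP F p]
    {n : ℕ} (x : GL (Fin n) F) (hx : (orderOf x).Coprime p) :
    Cfsg.unipotentCharacterGL n F (fun _ => 1) x =
      ∏ f ∈ (UniqueFactorizationMonoid.normalizedFactors (x : Matrix (Fin n) (Fin n) F).charpoly).toFinset,
        (-1 : ℂ) ^ ((f.natDegree - 1) * (UniqueFactorizationMonoid.normalizedFactors (x : Matrix (Fin n) (Fin n) F).charpoly).count f) *
          (q : ℂ) ^ (f.natDegree * (UniqueFactorizationMonoid.normalizedFactors (x : Matrix (Fin n) (Fin n) F).charpoly).count f *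
            ((UniqueFactorizationMonoid.normalizedFactors (x : Matrix (Fin n) (Fin n) F).charpoly).count f - 1) / 2) := by
  classical
  let g := Matrix.toLin' x.val
  have : Finite (AEval' g) := Finite.of_equiv _ (AEval'.of g).toEquiv
  have : IsSemisimpleModule F[X] (AEval' g) := by
    refine End.isSemisimple_of_squarefree_aeval_eq_zero (p := X ^ orderOf x - 1)
      (X_pow_sub_one_separable_iff.2 fun h => ?_).squarefree ?_
    · exact (Fact.out : p.Prime).one_lt.ne' (Nat.eq_one_of_dvd_coprimes hx ((CharP.cast_eq_zero_iff F p _).1 h) dvd_rfl)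
    · rw [map_sub, map_pow, aeval_X, map_one, ← Matrix.toLin'_pow, ← Units.val_pow_eq_pow_val,
        pow_orderOf_eq_one, Units.val_one, Matrix.toLin'_one, sub_eq_zero]
      rfl
  have := Fintype.ofFinite (Submodule F[X] (AEval' g))
  let d := fun Y : Submodule F[X] (AEval' g) => finrank F Y
  have dt : d ⊤ = n := by
    exact ((topEquiv.restrictScalars F).trans (AEval'.of g).symm).finrank_eq.trans (finrank_fin_fun F)
  have h := D_apply d (fun Y Z h => finrank_strictMono (K := F) (a := Y.restrictScalars F)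
    (b := Z.restrictScalars F) h) finrank_zero_of_subsingleton _ (sum_Ψ (F := F))
  have ch : chp F (⊤ : Submodule F[X] (AEval' g)) = x.val.charpoly := by
    rw [chp_congr topEquiv, ← Matrix.charpoly_toLin']
    exact (H76.Sim.charpoly_eq ⟨AEval'.of g, fun v => (AEval'.X_smul_of g v).symm⟩).symm
  rw [dt, ch] at h
  refine Eq.trans ?_ (h.trans ?_)
  · simp only [unipotentCharacterGL, D, LinearMap.sum_apply, Finset.sum_apply]
    refine Finset.sum_congr rfl fun κ _ => ?_
    split_ifs with hκ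
    · have : ∑ i : Fin n, (1 + i.val - (κ i).val) = n := by
        rw [Finset.sum_tsub_distrib _ fun i _ => hκ i, Finset.sum_add_distrib, Equiv.sum_comp κ Fin.val]
        simp
      rw [fixedPointCharacter, card_fixed x this, card_Ch]
      simp [d]
      congr!
    · rfl
  have hn : n = ∑ f ∈ (normalizedFactors x.val.charpoly).toFinset,
      (normalizedFactors x.val.charpoly).count f * f.natDegree := by
    have h1 := natDegree_eq_of_degree_eq (degree_eq_degree_of_associated
      (prod_normalizedFactors x.val.charpoly_monic.ne_zero))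
    rw [natDegree_multiset_prod _ (zero_notMem_normalizedFactors _), Finset.sum_multiset_map_count,
      Matrix.charpoly_natDegree_eq_dim, Fintype.card_fin] at h1
    exact h1.symm
  rw [Ψ, Nat.card_eq_fintype_card, hq]
  conv_lhs => enter [1]; rw [hn]
  rw [← Finset.prod_pow_eq_pow_sum, ← Finset.prod_mul_distrib]
  refine Finset.prod_congr rfl fun f hf => ?_
  obtain ⟨k, hk⟩ := Nat.exists_eq_succ_of_ne_zero (irreducible_of_normalized_factor f
    (Multiset.mem_toFinset.1 hf)).natDegree_pos.ne'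
  rw [← mul_assoc, ← pow_add, hk]
  congr 1
  rw [Nat.succ_sub_one, Nat.mul_succ, add_assoc, ← two_mul, pow_add, pow_mul (-1) 2, mul_comm k]
  simp

end Cfsg.Agent.S2425
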