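import Cfsg.Statements.S4221
import Cfsg.Agent.H60.Hall4
import Cfsg.Agent.H60.Sharp4Deg

set_option autoImplicit false
open Cfsg

namespace Cfsg.Agent.S4221

/-- Let `G` be a `4`-fold transitive permutation group on a finite set of `n` points in which the pointwise stabilizer of some four distinct points has odd order. Then `n = 4` or `n = 5` with `G` the full symmetric group, or `n = 6` or `n = 7` with `G` the alternating group, or `n = 11` and `G` has order `7920`. -/
theorem result {α : Type*} [Fintype α] [DecidableEq α] (G : Subgroup (Equiv.Perm α)) (hG : MulAction.IsMultiplyPretransitive G α 4) (x : Fin 4 ↪ α) (hodd : Odd (Nat.card (MulAction.stabilizer G x))) : ((Fintype.card α = 4 ∨ Fintype.card α = 5) ∧ G = ⊤) ∨ ((Fintype.card α = 6 ∨ Fintype.card α = 7) ∧ G = alternatingGroup α) ∨ (Fintype.card α = 11 ∧ Nat.card G = 7920) := by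
  have hc : Nat.card α = Fintype.card α := Nat.card_eq_fintype_card
  have hs : (Set.range x).ncard = 4 := by rw [Set.ncard_range_of_injective x.injective]; simp
  have hst : MulAction.stabilizer G x = fixingSubgroup G (Set.range x) := by
    ext k
    rw [mem_fixingSubgroup_iff, Set.forall_mem_range, MulAction.mem_stabilizer_iff,
      Function.Embedding.ext_iff]
    rfl
  rw [hst] at hodd
  have h4 : 4 ≤ Nat.card α := hs ▸ Set.ncard_le_card _
  have hcard := H60.card_eq_descFactorial_mul hG hs
  have hdvd := H60.card_fixingSubgroup_dvd_factorial (G := G) (Set.range x)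
  have hidx := G.index_mul_card
  rw [hs] at hdvd
  rw [Nat.card_perm] at hidx
  rw [← hc]
  rcases H60.hall_degree hG hs hodd with h | ⟨h, h'⟩
  · have hn : Nat.card α = 4 ∨ Nat.card α = 5 ∨ Nat.card α = 6 ∨ Nat.card α = 7 := by omega
    rw [Nat.odd_iff] at hodd
    have hle := Nat.le_of_dvd (Nat.factorial_pos _) hdvd
    rcases hn with hn | hn | hn | hn
    · exact Or.inl ⟨Or.inl hn, Equiv.Perm.eq_top_of_isMultiplyPretransitive
        (MulAction.isMultiplyPretransitive_of_le (n := 4) (by omega) h4)⟩
    · exact Or.inl ⟨Or.inr hn, Equiv.Perm.eq_top_of_isMultiplyPretransitive (by rw [hn]; exact hG)⟩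
    · refine Or.inr (Or.inl ⟨Or.inl hn, Equiv.Perm.eq_alternatingGroup_of_index_eq_two ?_⟩)
      rw [hcard] at hidx
      rw [hn] at hidx hle
      generalize Nat.card (fixingSubgroup G (Set.range x)) = m at hodd hidx hle
      norm_num [Nat.factorial, Nat.descFactorial] at hidx hle
      obtain rfl : m = 1 := by omega
      omega
    · refine Or.inr (Or.inl ⟨Or.inr hn, Equiv.Perm.eq_alternatingGroup_of_index_eq_two ?_⟩)
      have h1 : Nat.card (fixingSubgroup G (Set.range x)) ≠ 1 := fun h1 => by
        have := H60.sharp_four_degree hG h4 fun g s hs' hg => by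
          rw [H60.card_fixingSubgroup_eq hG hs (t := s) (by rw [Set.ncard_coe_finset, hs']),
            Subgroup.card_eq_one] at h1
          exact Subgroup.mem_bot.1 (h1 ▸ (mem_fixingSubgroup_iff G).2 hg)
        omega
      rw [hcard] at hidx
      rw [hn] at hidx hle hdvd
      generalize Nat.card (fixingSubgroup G (Set.range x)) = m at hodd hidx hle hdvd h1
      norm_num [Nat.factorial, Nat.descFactorial] at hidx hle hdvd
      obtain rfl : m = 3 := by interval_cases m <;> omega
      omega
  · refine Or.inr (Or.inr ⟨h, ?_⟩)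
    rw [hcard, h' inferInstance, h, Subgroup.card_bot]
    rfl

end Cfsg.Agent.S4221
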