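import Cfsg.Statements.S2739
import Cfsg.Agent.H61.L34Rec
import Cfsg.Agent.H28.Act
import Cfsg.Agent.H28.Transport

set_option autoImplicit false
open scoped Pointwise
open Cfsg

namespace Cfsg.Agent.S2739

open Cfsg.Agent.H28 Matrix
open scoped Pointwise

def w : F4 := ⟨0, 1⟩

abbrev SL4 := SpecialLinearGroup (Fin 3) F4

abbrev PS4 := ProjectiveSpecialLinearGroup (Fin 3) F4

def sl (M : Matrix (Fin 3) (Fin 3) F4) (h : M 0 0 * M 1 1 * M 2 2 - M 0 0 * M 1 2 * M 2 1 -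
    M 0 1 * M 1 0 * M 2 2 + M 0 1 * M 1 2 * M 2 0 + M 0 2 * M 1 0 * M 2 1 -
      M 0 2 * M 1 1 * M 2 0 = 1 := by decide +kernel) : SL4 :=
  ⟨M, by rw [det_fin_three, h]⟩

def A : SL4 := sl !![1, 0, 0; 0, w, 0; 0, 0, w + 1]

def B : SL4 := sl !![0, 1, 0; 0, 0, 1; 1, 0, 0]

theorem mk_eq_iff (x y : SL4) : (x : PS4) = y ↔ ∃ r : F4, (y : Matrix (Fin 3) (Fin 3) F4) = r • (x : Matrix (Fin 3) (Fin 3) F4) := by
  rw [QuotientGroup.eq, Matrix.SpecialLinearGroup.mem_center_iff]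
  constructor
  · rintro ⟨r, -, h⟩
    refine ⟨r, ?_⟩
    rw [← mul_inv_cancel_left x y, Matrix.SpecialLinearGroup.coe_mul, ← h, scalar_apply,
      ← smul_eq_mul_diagonal]
  · rintro ⟨r, h⟩
    have h1 : scalar (Fin 3) r = (x⁻¹ * y : SL4) := by
      rw [Matrix.SpecialLinearGroup.coe_mul, h, Matrix.mul_smul, ← Matrix.SpecialLinearGroup.coe_mul,
        inv_mul_cancel, scalar_apply, Matrix.SpecialLinearGroup.coe_one, smul_one_eq_diagonal]
    refine ⟨r, ?_, h1⟩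
    have := (x⁻¹ * y).2
    rw [← h1] at this
    simpa using this

theorem conj_of (x g : SL4) (h : ∃ r : F4, (g * A).1 = r • (x * g).1) :
    IsConj (A : PS4) (x : PS4) :=
  isConj_iff.mpr ⟨g, by
    rw [mul_inv_eq_iff_eq_mul, ← QuotientGroup.mk_mul, ← QuotientGroup.mk_mul, eq_comm, mk_eq_iff]
    exact h⟩

theorem conj_A (x : PS4) (hx : orderOf x = 3) : IsConj (A : PS4) x := by
  have : Fact (Nat.Prime 3) := ⟨Nat.prime_three⟩
  have hc : Commute (A : PS4) (B : PS4) := by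
    change ((A * B : SL4) : PS4) = (B * A : SL4)
    rw [mk_eq_iff]
    decide +kernel
  have hA : (A : PS4) ^ 3 = 1 := by
    rw [← QuotientGroup.mk_pow, show A ^ 3 = 1 by decide +kernel, QuotientGroup.mk_one]
  have hB : (B : PS4) ^ 3 = 1 := by
    rw [← QuotientGroup.mk_pow, show B ^ 3 = 1 by decide +kernel, QuotientGroup.mk_one]
  have h3 : ∀ i j : ℕ, ((A : PS4) ^ i * (B : PS4) ^ j) ^ 3 = 1 := fun i j => by
    rw [(hc.pow_pow i j).mul_pow, ← pow_mul, ← pow_mul, mul_comm i, mul_comm j, pow_mul, pow_mul,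
      hA, hB, one_pow, one_pow, one_mul]
  have hm : ∀ i j k l : ℕ, (A : PS4) ^ i * (B : PS4) ^ j * ((A : PS4) ^ k * (B : PS4) ^ l) =
      (A : PS4) ^ (i + k) * (B : PS4) ^ (j + l) := fun i j k l => by
    rw [pow_add, pow_add, (hc.pow_pow k j).symm.mul_mul_mul_comm]
  let P : Subgroup PS4 :=
    { carrier := {x | ∃ i j : ℕ, x = (A : PS4) ^ i * (B : PS4) ^ j}
      one_mem' := ⟨0, 0, by simp⟩
      mul_mem' := by
        rintro _ _ ⟨i, j, rfl⟩ ⟨k, l, rfl⟩
        exact ⟨_, _, hm i j k l⟩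
      inv_mem' := by
        rintro _ ⟨i, j, rfl⟩
        exact ⟨_, _, (inv_eq_of_mul_eq_one_left (by rw [← pow_three', h3])).trans (hm i j i j)⟩ }
  have hP : IsPGroup 3 P := fun ⟨_, i, j, rfl⟩ => ⟨1, Subtype.ext (h3 i j)⟩
  obtain ⟨Q, hQ⟩ := hP.exists_le_sylow
  have hX : IsPGroup 3 (Subgroup.zpowers x) := IsPGroup.of_card (n := 1) (by rw [Nat.card_zpowers, hx, pow_one])
  obtain ⟨R, hR⟩ := hX.exists_le_sylow
  obtain ⟨g, hg⟩ := MulAction.exists_smul_eq PS4 R Q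
  have hy : g * x * g⁻¹ ∈ Q := by
    rw [← hg]
    exact Subgroup.smul_mem_pointwise_smul _ (MulAut.conj g) _ (hR (Subgroup.mem_zpowers x))
  have hcard : Nat.card Q = 9 := by
    rw [Q.card_eq_multiplicity, H61.card_PSL34 card_F4, Nat.factorization_def _ Nat.prime_three,
      show 20160 = 3 ^ 2 * 2240 by norm_num, padicValNat.mul (by norm_num) (by norm_num),
      padicValNat.prime_pow, padicValNat.eq_zero_of_not_dvd (by norm_num)]
    rfl
  have hb : Function.Bijective fun p : Fin 3 × Fin 3 =>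
      (⟨(A : PS4) ^ p.1.1 * (B : PS4) ^ p.2.1, hQ ⟨_, _, rfl⟩⟩ : (Q : Subgroup PS4)) := by
    rw [Nat.bijective_iff_injective_and_card, hcard]
    refine ⟨fun p q h => ?_, by simp⟩
    replace h : ((A ^ p.1.1 * B ^ p.2.1 : SL4) : PS4) = (A ^ q.1.1 * B ^ q.2.1 : SL4) :=
      congrArg Subtype.val h
    rw [mk_eq_iff] at h
    revert p q
    decide +kernel
  obtain ⟨⟨i, j⟩, h⟩ := hb.2 ⟨_, hy⟩
  have h : ((A ^ i.1 * B ^ j.1 : SL4) : PS4) = g * x * g⁻¹ := congrArg Subtype.val h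
  refine IsConj.trans ?_ (isConj_iff.mpr ⟨g, h.symm⟩).symm
  fin_cases i <;> fin_cases j
  · simp only [pow_zero, mul_one, QuotientGroup.mk_one] at h
    rw [conj_eq_one_iff.mp h.symm, orderOf_one] at hx
    omega
  · exact conj_of _ (sl !![1, 1, 1; 1, w, w + 1; 1, w + 1, w]) (by decide +kernel)
  · exact conj_of _ (sl !![1, 1, 1; 1, w + 1, w; 1, w, w + 1]) (by decide +kernel)
  · exact conj_of _ (sl !![0, 0, 1; 1, 0, 0; 0, 1, 0]) (by decide +kernel)
  · exact conj_of _ (sl !![1, 1, w; 1, w, 1; w + 1, w, w]) (by decide +kernel)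
  · exact conj_of _ (sl !![1, 1, w + 1; 1, w + 1, 1; w, w + 1, w + 1]) (by decide +kernel)
  · exact conj_of _ (sl !![0, 0, 1; 0, 1, 0; 1, 0, 0]) (by decide +kernel)
  · exact conj_of _ (sl !![1, 1, w + 1; 1, w, w; w, 1, w]) (by decide +kernel)
  · exact conj_of _ (sl !![1, 1, w; 1, w + 1, w + 1; w + 1, 1, w + 1]) (by decide +kernel)

theorem isConj_of_orderOf {F : Type*} [Field F] [Fintype F] (hF : Fintype.card F = 4)
    (x y : ProjectiveSpecialLinearGroup (Fin 3) F) (hx : orderOf x = 3) (hy : orderOf y = 3) :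
    IsConj x y := by
  let e := pslEquiv (equivF4 hF) (Fin 3)
  have := e.symm.toMonoidHom.map_isConj ((conj_A (e x) (by rw [e.orderOf_eq, hx])).symm.trans
    (conj_A (e y) (by rw [e.orderOf_eq, hy])))
  simpa using this

/-- In the projective special linear group PSL(3, 4) all subgroups of order 3 are conjugate. -/
theorem result (F : Type*) [Field F] [Fintype F] (hF : Fintype.card F = 4) (X Y : Subgroup (Matrix.ProjectiveSpecialLinearGroup (Fin 3) F)) (hX : Nat.card ↥X = 3) (hY : Nat.card ↥Y = 3) : ∃ g : Matrix.ProjectiveSpecialLinearGroup (Fin 3) F, MulAut.conj g • X = Y := by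
  have : Fact (Nat.Prime 3) := ⟨Nat.prime_three⟩
  have key : ∀ Z : Subgroup (Matrix.ProjectiveSpecialLinearGroup (Fin 3) F), Nat.card Z = 3 →
      ∃ z, orderOf z = 3 ∧ Subgroup.zpowers z = Z := fun Z hZ => by
    obtain ⟨z, hz⟩ := (Subgroup.isCyclic_iff_exists_zpowers_eq_top Z).mp
      (isCyclic_of_prime_card hZ)
    exact ⟨z, by rw [← Nat.card_zpowers, hz, hZ], hz⟩
  obtain ⟨x, hx, rfl⟩ := key X hX
  obtain ⟨y, hy, rfl⟩ := key Y hY
  obtain ⟨g, rfl⟩ := isConj_iff.mp (isConj_of_orderOf hF x y hx hy)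
  exact ⟨g, MonoidHom.map_zpowers _ x⟩

end Cfsg.Agent.S2739
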