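import Cfsg.Statements.S4508
import Cfsg.Agent.H58.SelfElem
import Cfsg.Agent.H58.BrSing

set_option autoImplicit false
open Cfsg

namespace Cfsg.Agent.S4508

open MulAction H58 in
theorem fixDim_notMem' {G : Type*} [Group G] [Fintype G] {p : ℕ} [hp : Fact p.Prime]
    (h : H58.SelfCent p G) {P : Sylow p G} {e t : ℕ} (D : H58.BrPre G p P e t)
    {ψ : IrrCharacter G} (hX : ψ ∉ D.X) (hY : ψ ∉ D.Y) : p * fixDim P ψ.1 = charDegree ψ.1 := by
  classical
  have hB : ψ ∉ principalBlock D.M G := by rw [D.mem]; tauto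
  have h1 := H21.regSum_eq_zero_of_notMem D.hM hB
  have h2 := H11.sum_irr_eq_zero ψ.2 (fun e => hB (by
    rw [show ψ = H21.triv G from Subtype.ext e]; exact H21.triv_mem_principal D.hM.2.1))
  let f : G → ℂ := fun g => if p ∣ orderOf g then ψ.1 g else 0
  have hf : IsClassFunction G f := fun g a => by
    simp only [f, H21.orderOf_conj, H11.isClassFunction_of_irr ψ.2 g a]
  have h3 : ∑ g, f g = 0 := by
    rw [H21.regSum_def] at h1
    rw [← h2, ← add_zero (∑ g, f g), ← h1, ← Finset.sum_add_distrib]
    refine Finset.sum_congr rfl fun g _ => ?_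
    rw [H21.preg_apply]
    simp only [f]
    split_ifs <;> simp
  have h4 := sum_fix_mul P hf
  have h5 : ∑ g, (Nat.card (fixedBy (Sylow p G) g) : ℂ) * f g = ∑ g, f g := by
    refine Finset.sum_congr rfl fun g _ => ?_
    simp only [f]
    split_ifs with hg
    · rw [Nat.card_coe_set_eq, ncard_fixedBy_sylow_of_card_prime P (h.card P) (h.orderOf_eq hg)]
      simp
    · simp
  rw [h5, h3, eq_comm, mul_eq_zero, Sylow.stabilizer_eq_normalizer] at h4
  have h6 := h4.resolve_left (by exact_mod_cast Nat.card_pos.ne')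
  have h7 : sumOn (Subgroup.normalizer (P : Set G)) f = sumOn P f := by
    unfold sumOn
    symm
    refine Finset.sum_subset (fun g hg => ?_) fun g hg hg' => ?_
    · simp only [Finset.mem_filter, Finset.mem_univ, true_and] at hg ⊢
      exact Subgroup.le_normalizer hg
    · simp only [Finset.mem_filter, Finset.mem_univ, true_and] at hg hg'
      simp only [f]
      rw [if_neg]
      exact fun hd => hg' (mem_sylow_of_mem_normalizer P
        (isPGroup_zpowers_of_orderOf_eq (h.orderOf_eq hd)) hg)
  have h8 : sumOn P ψ.1 = sumOn P (fun x => f x + if x = 1 then ψ.1 1 else 0) := by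
    refine sumOn_congr fun x hx => ?_
    simp only [f]
    by_cases hx1 : x = 1
    · rw [hx1, if_neg not_dvd_orderOf_one]; simp
    · rw [if_pos (by rw [orderOf_eq_of_mem_of_card_prime hp.out (h.card P) hx hx1]), if_neg hx1,
        add_zero]
  rw [sumOn_add, ← h7, h6, zero_add, sumOn_of_const (c := 0) fun x _ hx => if_neg hx,
    ← card_mul_fixDim _ (H11.irr_isCharacter ψ), if_pos rfl, mul_zero, add_zero,
    ← H21.cast_deg, show Nat.card (P : Subgroup G) = p from h.card P] at h8
  exact_mod_cast h8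

theorem prod_eq_neg_one {n e t : ℕ} (μ : Fin n → ℂ) (he : Even e) (he0 : 0 < e) (ht : Odd t)
    (hμ : ∀ i, μ i ^ e = 1) (hn : n = e * t)
    (h0 : ∀ k, 0 < k → k < e → ∑ i, μ i ^ k = 0) : ∏ i, μ i = -1 := by
  classical
  have hω := Complex.isPrimitiveRoot_exp e he0.ne'
  set ω := Complex.exp (2 * Real.pi * Complex.I / e)
  have : NeZero e := ⟨he0.ne'⟩
  choose a ha haω using fun i => hω.eq_pow_of_pow_eq_one (hμ i)
  have hcount : ∀ j < e, (Finset.univ.filter fun i => a i = j).card = t := by
    intro j hj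
    have e1 : ∑ k ∈ Finset.range e, (∑ i, μ i ^ k) * ((ω ^ j)⁻¹) ^ k = n := by
      rw [Finset.sum_eq_single_of_mem 0 (Finset.mem_range.2 he0) fun k hk hk0 => by
        rw [h0 k (Nat.pos_of_ne_zero hk0) (Finset.mem_range.1 hk), zero_mul]]
      simp
    simp_rw [Finset.sum_mul, ← mul_pow] at e1
    rw [Finset.sum_comm, Finset.sum_congr rfl fun i _ => show
      ∑ k ∈ Finset.range e, (μ i * (ω ^ j)⁻¹) ^ k = if a i = j then (e : ℂ) else 0 by
        have hω0 : ω ^ j ≠ 0 := pow_ne_zero _ (hω.ne_zero he0.ne')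
        split_ifs with hij
        · rw [← haω, hij, mul_inv_cancel₀ hω0]; simp
        · have h1 : μ i * (ω ^ j)⁻¹ ≠ 1 := fun h => hij (hω.pow_inj (ha i) hj (by
            rw [haω]; exact (mul_inv_eq_one₀ hω0).1 h))
          have h2 := mul_geom_sum (μ i * (ω ^ j)⁻¹) e
          rw [mul_pow, hμ, inv_pow, ← pow_mul, mul_comm j, pow_mul, hω.pow_eq_one, one_pow,
            inv_one, mul_one, sub_self, mul_eq_zero] at h2
          exact h2.resolve_left (sub_ne_zero.2 h1), ← Finset.sum_filter, Finset.sum_const,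
      nsmul_eq_mul] at e1
    have e2 : (Finset.univ.filter fun i => a i = j).card * e = n := by exact_mod_cast e1
    exact Nat.eq_of_mul_eq_mul_left he0 (by rw [← hn, mul_comm]; exact e2)
  rw [← Finset.prod_fiberwise_of_maps_to (t := Finset.range e) (g := a)
    fun i _ => Finset.mem_range.2 (ha i), Finset.prod_congr rfl fun j hj => show
      ∏ i ∈ Finset.univ.filter fun i => a i = j, μ i = (ω ^ j) ^ t by
        rw [Finset.prod_congr rfl fun i hi => show μ i = ω ^ j by
          rw [← haω, (Finset.mem_filter.1 hi).2], Finset.prod_const,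
          hcount j (Finset.mem_range.1 hj)], Finset.prod_pow, Finset.prod_pow_eq_pow_sum]
  obtain ⟨m, rfl⟩ := he
  have h1 : ∑ j ∈ Finset.range (m + m), j = m * (m + m - 1) := by
    have := Finset.sum_range_id_mul_two (m + m)
    apply Nat.eq_of_mul_eq_mul_right two_pos
    rw [this]; ring
  have h2 : ω ^ m = -1 := (hω.pow he0 (show m + m = m * 2 by ring)).eq_neg_one_of_two_right
  rw [h1, pow_mul, h2, Odd.neg_one_pow ⟨m - 1, by omega⟩, ht.neg_one_pow]

/-- Let the finite group G contain an element x of prime order p with C_G(x) = ⟨x⟩, and let t be the number of conjugacy classes of elements of order p. If G has an irreducible character of degree p − 1, then t is even or the commutator subgroup has even index. -/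
theorem result {G : Type*} [Group G] [Finite G] (p : ℕ) (hp : p.Prime) (x : G) (hx : orderOf x = p) (hC : Subgroup.centralizer ({x} : Set G) = Subgroup.zpowers x) (t : ℕ) (ht : Nat.card {C : ConjClasses G // ∃ g ∈ C.carrier, orderOf g = p} = t) (χ : Cfsg.IrrCharacter G) (hχ : Cfsg.charDegree (χ : G → ℂ) + 1 = p) : Even t ∨ Even (commutator G).index := by
  classical
  have : Fact p.Prime := ⟨hp⟩
  have := Fintype.ofFinite G
  have h := H58.selfCent_of_elem hx hC
  obtain ⟨P⟩ : Nonempty (Sylow p G) := inferInstance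
  have hP : Nat.card (P : Subgroup G) = p := h.card P
  obtain ⟨e, he⟩ := h.exists_card_normalizer P
  have het := h.mul_card_classes P he
  rw [ht] at het
  have hp2 := hp.two_le
  by_contra hcon
  rw [not_or, Nat.not_even_iff_odd, Nat.not_even_iff_odd] at hcon
  obtain ⟨hto, hio⟩ := hcon
  by_cases hp2' : p = 2
  · subst hp2'
    obtain rfl : e = 1 := Nat.eq_one_of_mul_eq_one_right het
    rw [(h.index_commutator_of_eq_one P he).1] at hio
    exact absurd hio (by decide)
  have hpo := hp.odd_of_ne_two hp2'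
  have hee : Even e := by
    by_contra h1
    have := (Nat.not_even_iff_odd.1 h1).mul hto
    rw [het] at this
    exact absurd (Nat.Odd.sub_odd hpo odd_one) (Nat.not_even_iff_odd.2 this)
  have he0 : 0 < e := Nat.pos_of_ne_zero (by rintro rfl; omega)
  have he2 : 2 ≤ e := Nat.le_of_dvd he0 hee.two_dvd
  have ht0 : 0 < t := hto.pos
  have hrel : (Subgroup.centralizer ((P : Subgroup G) : Set G)).relIndex
      (Subgroup.normalizer ((P : Subgroup G) : Set G)) = e := by
    have := H58.relIndex_mul_card_centralizer (P : Subgroup G)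
    rw [he, show Nat.card (Subgroup.centralizer ((P : Subgroup G) : Set G)) = p by
      rw [h.cent P, hP], mul_comm] at this
    exact Nat.eq_of_mul_eq_mul_left hp.pos this
  obtain ⟨D⟩ := H58.nonempty_brPre hp2' P hP hrel het
  have hdeg : (Cfsg.charDegree χ.1 : ℤ) = p - 1 := by omega
  have hfix : H58.fixDim P χ.1 = 0 := by
    by_cases hX : χ ∈ D.X
    · have h1 := D.fixDim_X hP hX
      rw [hdeg] at h1
      rcases D.sg_pm χ hX with h2 | h2 <;> rw [h2] at h1
      · have h3 : (p : ℤ) ∣ 2 := by
          have : (2 : ℤ) = p * (2 - H58.fixDim P χ.1) := by linarith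
          exact ⟨_, this⟩
        have := Int.le_of_dvd two_pos h3
        omega
      · have h3 : (p : ℤ) * H58.fixDim P χ.1 = 0 := by linarith
        rcases mul_eq_zero.1 h3 with h4 | h4 <;> omega
    by_cases hY : χ ∈ D.Y
    · have h1 := D.fixDim_Θ hP
      rw [← D.degY χ hY, hdeg] at h1
      have h3 : (p : ℤ) ∣ (p - 1) * (t - D.ε) := ⟨_, by rw [h1]; ring⟩
      have h4 : (p : ℤ) ∣ t - D.ε := IsCoprime.dvd_of_dvd_mul_left ⟨1, -1, by ring⟩ h3
      have h6 : 2 * t ≤ p - 1 := het ▸ Nat.mul_le_mul_right t he2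
      have h5 : t - D.ε = 0 := Int.eq_zero_of_dvd_of_nonneg_of_lt
        (by rcases D.eps_pm with h | h <;> omega) (by rcases D.eps_pm with h | h <;> omega) h4
      have h7 : (p : ℤ) * H58.fixDim P D.Θ = 0 := by rw [h1]; linear_combination (p - 1) * h5
      have h8 : H58.fixDim P D.Θ = 0 := by rcases mul_eq_zero.1 h7 with h4 | h4 <;> omega
      rw [D.fixDim_Θ_eq_sum, Finset.sum_eq_zero_iff] at h8
      exact h8 χ hY
    · have h1 := fixDim_notMem' h D hX hY
      have := Nat.le_of_dvd (by omega) (Dvd.intro _ h1)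
      omega
  -- a cyclic complement in the normaliser
  set N := Subgroup.normalizer ((P : Subgroup G) : Set G) with hN
  have hPN : Nat.card ((P : Subgroup G).subgroupOf N) = p := by
    rw [Nat.card_congr (Subgroup.subgroupOfEquivOfLe
      (Subgroup.le_normalizer (H := (P : Subgroup G)))).toEquiv, hP]
  have hidx : ((P : Subgroup G).subgroupOf N).index = e := by
    have := ((P : Subgroup G).subgroupOf N).card_mul_index
    rw [hPN, he] at this
    exact Nat.eq_of_mul_eq_mul_left hp.pos this
  obtain ⟨E, hE⟩ := Subgroup.exists_right_complement'_of_coprime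
    (N := (P : Subgroup G).subgroupOf N) (by
      rw [hPN, hidx, hp.coprime_iff_not_dvd]
      intro hd
      have := Nat.le_of_dvd he0 hd
      have : e ≤ p - 1 := het ▸ Nat.le_mul_of_pos_right e ht0
      omega)
  have hd : ∀ y ∈ E.map N.subtype, y ∈ (P : Subgroup G) → y = 1 := by
    rintro _ ⟨y, hy, rfl⟩ hyP
    have : y = 1 := Subgroup.disjoint_def.1 hE.disjoint hyP hy
    simp [this]
  have hcyc := h.isCyclic_of_disjoint P (E := E.map N.subtype) (Subgroup.map_subtype_le E) hd
  obtain ⟨c, hc⟩ := IsCyclic.exists_generator (α := E.map N.subtype)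
  have hco : orderOf (c : G) = e := by
    rw [Subgroup.orderOf_coe, orderOf_eq_card_of_forall_mem_zpowers hc, H3.card_map_subtype,
      ← hE.symm.index_eq_card, hidx]
  have hvan : ∀ k, 0 < k → k < e → χ.1 ((c : G) ^ k) = 0 := by
    intro k hk0 hk
    have hy1 : (c : G) ^ k ≠ 1 := pow_ne_one_of_lt_orderOf hk0.ne' (hco ▸ hk)
    have hyE : (c : G) ^ k ∈ E.map N.subtype := pow_mem c.2 k
    have hyN : (c : G) ^ k ∈ N := Subgroup.map_subtype_le E hyE
    set y := (c : G) ^ k
    let f : ↥(P : Subgroup G) → ↥(P : Subgroup G) := fun u => ⟨u * (y * (u : G)⁻¹ * y⁻¹),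
      mul_mem u.2 ((Subgroup.mem_normalizer_iff.1 hyN _).1 (inv_mem u.2))⟩
    have hf : Function.Injective f := by
      intro u v huv
      have e1 : (u : G) * (y * (u : G)⁻¹ * y⁻¹) = v * (y * (v : G)⁻¹ * y⁻¹) :=
        congrArg Subtype.val huv
      by_contra hne
      refine hy1 (hd y hyE (h.mem_of_commute P (mul_mem (inv_mem v.2) u.2)
        (fun e => hne (Subtype.ext (inv_mul_eq_one.1 e).symm)) ?_))
      calc (v : G)⁻¹ * u * y = (v : G)⁻¹ * (u * (y * (u : G)⁻¹ * y⁻¹)) * y * u := by group
        _ = _ := by rw [e1]; group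
    have h1 := H58.sumOn_mul_eq_zero (H11.irr_isCharacter χ) hfix y
    rw [H58.sumOn_congr (f' := fun _ => χ.1 y) fun u hu => by
      obtain ⟨w, hw⟩ := Finite.surjective_of_injective hf ⟨u, hu⟩
      have e1 : (w : G) * (y * (w : G)⁻¹ * y⁻¹) = u := congrArg Subtype.val hw
      rw [← e1, ← H11.isClassFunction_of_irr χ.2 y w]
      congr 1; group, H58.sumOn_const, hP, mul_eq_zero] at h1
    exact h1.resolve_left (by exact_mod_cast hp.ne_zero)
  obtain ⟨n, ρ, hρ⟩ := H11.irr_isCharacter χ
  replace hρ := hρ.symm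
  obtain ⟨b, μ, hb, hμ⟩ := H12.exists_eigenbasis_rep ρ (c : G)
  have hprod := prod_eq_neg_one μ hee he0 hto (hco ▸ hμ) (by
    have h1 := H21.cast_deg χ
    rw [hρ, Representation.char_one] at h1
    have h2 : Cfsg.charDegree ρ.character = Module.finrank ℂ (Fin n → ℂ) := by exact_mod_cast h1
    rw [← h2, ← hρ]; omega) (fun k hk0 hk => by
      rw [← hvan k hk0 hk, hρ, Representation.character, map_pow,
        H12.trace_eq_sum_of_eigenbasis b _ _ (H12.pow_apply_of_eigenbasis b _ μ hb k)])
  have hdet : LinearMap.det (ρ (c : G)) = -1 := by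
    rw [← hprod, ← LinearMap.det_toMatrix b, show LinearMap.toMatrix b b (ρ (c : G)) =
      Matrix.diagonal μ by
        ext i j
        rw [LinearMap.toMatrix_apply, hb, Matrix.diagonal_apply]
        by_cases hij : i = j
        · simp [hij]
        · simp [hij], Matrix.det_diagonal]
  let δ : G →* ℂˣ := (LinearMap.det.comp ρ).toHomUnits
  have h1 : δ ((c : G) ^ (commutator G).index) = 1 :=
    Abelianization.commutator_subset_ker δ ((commutator G).pow_index_mem _)
  have h2 := congrArg Units.val h1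
  rw [map_pow, Units.val_pow_eq_pow_val, show ((δ c : ℂˣ) : ℂ) = -1 from hdet,
    hio.neg_one_pow, Units.val_one] at h2
  norm_num at h2

end Cfsg.Agent.S4508
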