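import Cfsg.Statements.S0927
import Cfsg.Agent.H20.Sections
import Cfsg.Agent.H17.Numeric

set_option autoImplicit false
open Cfsg

namespace Cfsg.Agent.S0927

/-- Let B be a block of the finite group G relative to a maximal ideal M of the algebraic integers containing p, let y represent a defect class of B and let P be a Sylow p-subgroup of the centralizer of y. (a) If x ∈ P and χ ∈ B has height zero, then χ (x * y) is not in the local ideal at M. (b) If x lies in the centre of P, then for every χ ∈ B the central character of χ at x * y is not in the local ideal at M. -/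
theorem result {G : Type*} [Group G] [Finite G] (p : ℕ) [Fact p.Prime] (M : Ideal Cfsg.AlgInt) (hM : Cfsg.IsPModular p M) (B : Set (Cfsg.IrrCharacter G)) (hB : Cfsg.IsPBlock M B) (y : G) (hy : Cfsg.IsDefectClass M B y) (P : Sylow p (Subgroup.centralizer ({y} : Set G))) (x : Subgroup.centralizer ({y} : Set G)) (hx : x ∈ (P : Subgroup (Subgroup.centralizer ({y} : Set G)))) : (∀ χ ∈ B, Cfsg.blockHeight p B (χ : G → ℂ) = 0 → ¬ Cfsg.MemLocalIdeal M ((χ : G → ℂ) ((x : G) * y))) ∧ ((∀ w ∈ (P : Subgroup (Subgroup.centralizer ({y} : Set G))), x * w = w * x) → ∀ χ ∈ B, ¬ Cfsg.MemLocalIdeal M (Cfsg.centralChar (χ : G → ℂ) ((x : G) * y))) := by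
  obtain ⟨k, hk⟩ := H20.pow_eq_one_of_isPElt (H20.isPElt_of_mem P.isPGroup' hx)
  have hk' : (x : G) ^ p ^ k = 1 := by rw [← Subgroup.coe_pow, hk, Subgroup.coe_one]
  have hd := H17.factorization_Cg_of_isDefectClass hM hB hy
  have hmin := H21.minNu_add_defect hM (H17.block_nonempty hM.2.1 hB)
  have hp0 : ∀ n : ℕ, H19.val M (p : ℂ) ^ n ≠ 0 := fun n => pow_ne_zero n (H19.val_p_ne_zero hM)
  have h1 : ∀ χ ∈ B, Cfsg.blockHeight p B (χ : G → ℂ) = 0 → H19.val M (χ.1 (x * y)) = 1 := by
    intro χ hχ h0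
    rw [← H19.red_ne_zero_iff (H17.irr_mem_Vr χ _),
      H19.red_char_mul hM (H11.irr_isCharacter χ) hk' (H17.mem_Cg.1 x.2),
      H19.red_ne_zero_iff (H17.irr_mem_Vr χ _)]
    have h2 := H20.val_centralChar hM χ y
    rw [H20.val_centralChar_of_defectClass hM hy hχ, hd, (H21.height_eq_zero_iff hχ).1 h0,
      add_comm, hmin] at h2
    exact (mul_right_cancel₀ (hp0 _) h2).symm
  refine ⟨fun χ hχ h0 h => ?_, fun hw χ hχ h => ?_⟩
  · have := H19.mli_val_lt_one hM.2.1 h
    rw [h1 χ hχ h0] at this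
    exact lt_irrefl _ this
  · obtain ⟨ψ, hψ, h0⟩ := H21.exists_height_zero (p := p) ⟨χ, hχ⟩
    rw [← H17.lam_classSum_eq_zero_iff hM.2.1, H17.block_lam_eq hM.2.1 hB hχ hψ,
      H17.lam_classSum_eq_zero_iff hM.2.1] at h
    have h2 := H19.mli_val_lt_one hM.2.1 h
    have h3 := H20.val_centralChar hM ψ (x * y)
    rw [h1 ψ hψ h0, one_mul, (H21.height_eq_zero_iff hψ).1 h0] at h3
    have h4 : blockDefect p B ≤ (Nat.card (H17.Cg ((x : G) * y))).factorization p := by
      have hle : (P : Subgroup (H17.Cg y)).map (H17.Cg y).subtype ≤ H17.Cg ((x : G) * y) := by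
        rintro _ ⟨w, hw', rfl⟩
        have e1 : (x : G) * w = w * x := congrArg Subtype.val (hw w hw')
        have e2 : (w : G) * y = y * w := H17.mem_Cg.1 w.2
        rw [H17.mem_Cg]
        change (w : G) * (x * y) = x * y * w
        rw [← mul_assoc, ← e1, mul_assoc, e2, mul_assoc]
      have h5 := Subgroup.card_dvd_of_le hle
      rw [Subgroup.card_map_of_injective (H17.Cg y).subtype_injective, P.card_eq_multiplicity,
        hd] at h5
      exact (hM.1.pow_dvd_iff_le_factorization Nat.card_pos.ne').1 h5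
    have h6 : H19.val M (p : ℂ) ^ ((Nat.card (H17.Cg ((x : G) * y))).factorization p +
        H21.minNu p B) ≤ H19.val M (p : ℂ) ^ (Nat.card G).factorization p := by
      rw [H19.val_p_pow_le_iff hM]; omega
    have h7 := mul_lt_mul_of_pos_right h2 (zero_lt_iff.2 (hp0
      ((Nat.card (H17.Cg ((x : G) * y))).factorization p + H21.minNu p B)))
    rw [h3, one_mul] at h7
    exact absurd h6 (not_le.2 h7)

end Cfsg.Agent.S0927
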