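import Cfsg.Statements.S1337
import Cfsg.Agent.H55.Graph
import Cfsg.Agent.H71.PRel
import Cfsg.Agent.H9.SelfCent
import Cfsg.Agent.H7.Rank

set_option autoImplicit false
open Cfsg

namespace Cfsg.Agent.S1337

theorem comm_of_ea {P : Type*} [Group P] {p : ℕ} {E : Subgroup P} (hE : Cfsg.IsElementaryAbelian p E) :
    ∀ a ∈ E, ∀ b ∈ E, a * b = b * a := fun a ha b hb =>
  congrArg Subtype.val (hE.1.is_comm.comm (⟨a, ha⟩ : E) ⟨b, hb⟩)

theorem exists_normal {P : Type*} [Group P] [Finite P] (p : ℕ) [hp : Fact p.Prime]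
    (hP : IsPGroup p P) (hrk : ¬ Cfsg.PRankLE p 2 P) :
    ∃ U : Subgroup P, U.Normal ∧ Cfsg.IsElementaryAbelian p U ∧ Nat.card ↥U = p ^ 2 := by
  obtain ⟨E, hE, hE3⟩ := H55.not_pRankLE_top_iff.mp hrk
  by_cases h2 : p = 2
  · subst h2
    obtain ⟨U, hU, hK⟩ := H9.exists_normal_four_of_rank hP (E := E) (by omega)
      (fun e he => by rw [← sq]; exact hE.2 e he)
    refine ⟨U, hU, ⟨⟨⟨fun a b => ?_⟩⟩, fun a ha => ?_⟩, hK.card_four⟩
    · exact mul_comm_of_exponent_two hK.exponent_two a b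
    · have := Monoid.pow_exponent_eq_one (⟨a, ha⟩ : U)
      rw [hK.exponent_two] at this
      exact congrArg Subtype.val this
  · refine H7.exists_normal_sq hP h2 fun hc => ?_
    have h1 : Nat.card E ∣ p := by
      rw [← IsCyclic.exponent_eq_card]
      exact Monoid.exponent_dvd_of_forall_pow_eq_one fun a => Subtype.ext (hE.2 a a.2)
    have h3 := (hE3.trans (Nat.le_of_dvd hp.out.pos h1))
    have h4 : p ^ 1 < p ^ (2 + 1) := Nat.pow_lt_pow_right hp.out.one_lt (by omega)
    rw [pow_one] at h4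
    omega

theorem sq_le_card_inf {P : Type*} [Group P] [Finite P] {p : ℕ} [hp : Fact p.Prime]
    (hP : IsPGroup p P) {U E : Subgroup P} [U.Normal] (hU : Nat.card U = p ^ 2)
    (hE : p ^ (2 + 1) ≤ Nat.card E) :
    p ^ 2 ≤ Nat.card (Subgroup.centralizer (U : Set P) ⊓ E : Subgroup P) := by
  have h1 := H71.relIndex_cent_le_prime (hP.to_subgroup E) (hP.to_subgroup U)
    Subgroup.le_normalizer_of_normal hU.le
  have h2 := H3.card_inf_mul_relIndex (Subgroup.centralizer (U : Set P)) E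
  rw [← h2, pow_succ] at hE
  exact Nat.le_of_mul_le_mul_right (hE.trans (Nat.mul_le_mul_left _ h1)) hp.out.pos


/-- Let P be a finite p-group of p-rank greater than 2. Then P has a normal elementary abelian subgroup U of order p², and for every elementary abelian X ≤ P with |X| ≥ p²: X is joined to U by a chain of pairwise commuting elementary abelian subgroups of order ≥ p² if and only if C_P(X) has p-rank greater than 2. -/
theorem result {P : Type*} [Group P] [Finite P] (p : ℕ) [Fact p.Prime] (hP : IsPGroup p P) (hrk : ¬ Cfsg.PRankLE p 2 P) : ∃ U : Subgroup P, U.Normal ∧ Cfsg.IsElementaryAbelian p U ∧ Nat.card ↥U = p ^ 2 ∧ ∀ X : Subgroup P, Cfsg.IsElementaryAbelian p X → p ^ 2 ≤ Nat.card ↥X → (Relation.ReflTransGen (fun A B : Subgroup P => Cfsg.IsElementaryAbelian p A ∧ p ^ 2 ≤ Nat.card ↥A ∧ Cfsg.IsElementaryAbelian p B ∧ p ^ 2 ≤ Nat.card ↥B ∧ ∀ a ∈ A, ∀ b ∈ B, a * b = b * a) X U ↔ ¬ Cfsg.PRankLE p 2 ↥(Subgroup.centralizer (X : Set P))) := by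
  obtain ⟨U, hUn, hU, hU2⟩ := exists_normal p hP hrk
  refine ⟨U, hUn, hU, hU2, fun X hX hX2 => ⟨fun h hr => ?_, fun h => ?_⟩⟩
  · have hst : ∀ B : Subgroup P, Cfsg.IsElementaryAbelian p B → (∀ a ∈ X, ∀ b ∈ B, a * b = b * a) →
        B ≤ X := by
      intro B hB hc
      have h1 : Nat.card (X ⊔ B : Subgroup P) ≤ p ^ 2 := by
        by_contra hlt
        refine H55.not_pRankLE_iff.mpr ⟨X ⊔ B, sup_le (fun a ha => ?_) (fun b hb => ?_),
          H55.ea_sup hX hB hc, H55.pow_succ_le_card_of_lt (hP.to_subgroup _) (not_le.mp hlt)⟩ hr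
        · exact Subgroup.mem_centralizer_iff.mpr fun b hb => comm_of_ea hX b hb a ha
        · exact Subgroup.mem_centralizer_iff.mpr fun a ha => hc a ha b hb
      have := Subgroup.eq_of_le_of_card_ge (le_sup_left : X ≤ X ⊔ B) (h1.trans hX2)
      exact this ▸ le_sup_right
    have hXc : Nat.card X ≤ p ^ 2 := by
      by_contra hlt
      exact H55.not_pRankLE_iff.mpr ⟨X, fun a ha => Subgroup.mem_centralizer_iff.mpr
        fun b hb => comm_of_ea hX b hb a ha, hX,
        H55.pow_succ_le_card_of_lt (hP.to_subgroup _) (not_le.mp hlt)⟩ hr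
    have hXU : U = X := by
      clear hU2 hU hUn
      induction h with
      | refl => rfl
      | tail _ hab ih =>
        subst ih
        exact Subgroup.eq_of_le_of_card_ge (hst _ hab.2.2.1 hab.2.2.2.2) (hXc.trans hab.2.2.2.1)
    subst hXU
    obtain ⟨E, hE, hE3⟩ := H55.not_pRankLE_top_iff.mp hrk
    have h1 := sq_le_card_inf hP hU2 hE3
    have h2 := hst _ (H55.ea_mono hE (inf_le_right : Subgroup.centralizer (U : Set P) ⊓ E ≤ E))
      fun a ha b hb => Subgroup.mem_centralizer_iff.mp hb.1 a ha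
    have h3 := Subgroup.eq_of_le_of_card_ge h2 (hU2 ▸ h1)
    have h4 : U ≤ E := h3 ▸ inf_le_right
    exact H55.not_pRankLE_iff.mpr ⟨E, fun a ha => Subgroup.mem_centralizer_iff.mpr
      fun b hb => comm_of_ea hE b (h4 hb) a ha, hE, hE3⟩ hr
  · obtain ⟨E, hEX, hE, hE3⟩ := H55.not_pRankLE_iff.mp h
    have h1 := sq_le_card_inf hP hU2 hE3
    have h2 := H55.ea_mono hE (inf_le_right : Subgroup.centralizer (U : Set P) ⊓ E ≤ E)
    refine Relation.ReflTransGen.head (b := Subgroup.centralizer (U : Set P) ⊓ E)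
      ⟨hX, hX2, h2, h1, fun a ha b hb => Subgroup.mem_centralizer_iff.mp (hEX hb.2) a ha⟩ ?_
    exact Relation.ReflTransGen.single ⟨h2, h1, hU, hU2.ge,
      fun a ha b hb => (Subgroup.mem_centralizer_iff.mp ha.1 b hb).symm⟩

end Cfsg.Agent.S1337
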