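import Cfsg.Statements.S3681
import Cfsg.Agent.H60.Jordan

set_option autoImplicit false
open Cfsg

namespace Cfsg.Agent.S3681

/-- Bochert's bound for primitive groups. Let a finite group G act faithfully and primitively on a finite set Ω with n elements, and suppose the image of G in the symmetric group of Ω does not contain the alternating group of Ω. Then |G| · ⌊(n + 1)/2⌋! ≤ n!, that is, the index of G in the symmetric group is at least ⌊(n + 1)/2⌋!. -/
theorem result {G Ω : Type*} [Group G] [Finite G] [MulAction G Ω] [FaithfulSMul G Ω] [Fintype Ω] [DecidableEq Ω]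
    (hprim : MulAction.IsPreprimitive G Ω) (hA : ¬ alternatingGroup Ω ≤ (MulAction.toPermHom G Ω).range) :
    Nat.card G * Nat.factorial ((Fintype.card Ω + 1) / 2) ≤ Nat.factorial (Fintype.card Ω) := by
  classical
  -- a base of least size
  obtain ⟨B, hB, hmin⟩ := Finset.exists_min_image
    (Finset.univ.filter fun B : Finset Ω => ∀ g : G, (∀ x ∈ B, g • x = x) → g = 1) Finset.card
    ⟨Finset.univ, Finset.mem_filter.2 ⟨Finset.mem_univ _, fun g hg =>
      eq_of_smul_eq_smul (α := Ω) fun x => by rw [hg x (Finset.mem_univ x), one_smul]⟩⟩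
  have hB' := (Finset.mem_filter.1 hB).2
  have hnot : ∀ C : Finset Ω, C.card < B.card → ∃ g : G, (∀ x ∈ C, g • x = x) ∧ g ≠ 1 := by
    intro C hC
    by_contra hcon
    push Not at hcon
    exact absurd (hmin C (Finset.mem_filter.2 ⟨Finset.mem_univ _, hcon⟩)) (by omega)
  have hle : B.card ≤ Fintype.card Ω := Finset.card_le_univ B
  have hsmall : 2 * B.card ≤ Fintype.card Ω := by
    by_contra hcon
    obtain ⟨g, hg, hg1⟩ := hnot Bᶜ (by rw [Finset.card_compl]; omega)
    obtain ⟨a, ha⟩ : ∃ a : Ω, g • a ≠ a := by
      by_contra h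
      push Not at h
      exact hg1 (hB' g fun x _ => h x)
    have haB : a ∈ B := by
      by_contra h
      exact ha (hg a (Finset.mem_compl.2 h))
    obtain ⟨h, hh, hh1⟩ := hnot (B.erase a) (Finset.card_erase_lt_of_mem haB)
    have ha' : h • a ≠ a := fun h' => hh1 (hB' h fun x hx => by
      by_cases hxa : x = a
      · rw [hxa, h']
      · exact hh x (Finset.mem_erase.2 ⟨hxa, hx⟩))
    refine hA (H60.alternatingGroup_le_range_of_inter hprim ha ha' fun y hy => ?_)
    by_cases hyB : y ∈ B
    · exact Or.inr (hh y (Finset.mem_erase.2 ⟨hy, hyB⟩))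
    · exact Or.inl (hg y (Finset.mem_compl.2 hyB))
  have hcard : Nat.card G ≤ (Fintype.card Ω).descFactorial B.card := by
    let f : G → (B ↪ Ω) := fun g => ⟨fun x => g • (x : Ω), fun x y h =>
      Subtype.ext (MulAction.injective g h)⟩
    have hf : Function.Injective f := by
      intro g g' h
      have := hB' (g'⁻¹ * g) fun x hx => by
        rw [mul_smul, inv_smul_eq_iff]
        exact congrArg (fun e : B ↪ Ω => e ⟨x, hx⟩) h
      rw [inv_mul_eq_one] at this
      exact this.symm
    have := Nat.card_le_card_of_injective f hf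
    rwa [Nat.card_eq_fintype_card (α := B ↪ Ω), Fintype.card_embedding_eq, Fintype.card_coe] at this
  rw [← Nat.factorial_mul_descFactorial hle, mul_comm]
  exact Nat.mul_le_mul (Nat.factorial_le (by omega)) hcard

end Cfsg.Agent.S3681
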