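import Cfsg.Statements.S3947
import Cfsg.Agent.H94.Flavell

set_option autoImplicit false
open Cfsg

namespace Cfsg.Agent.S3947

open Subgroup

theorem nc_trans {G : Type*} [Group G] {A B H : Subgroup G} (_hAB : A ≤ B) (hBH : B ≤ H)
    (h1 : normalClosure ((A.subgroupOf B : Subgroup B) : Set B) = ⊤)
    (h2 : normalClosure ((B.subgroupOf H : Subgroup H) : Set H) = ⊤) :
    normalClosure ((A.subgroupOf H : Subgroup H) : Set H) = ⊤ := by
  rw [eq_top_iff, ← h2]
  apply normalClosure_le_normal
  intro x hx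
  have h3 : normalClosure ((A.subgroupOf B : Subgroup B) : Set B) ≤
      (normalClosure ((A.subgroupOf H : Subgroup H) : Set H)).comap (inclusion hBH) := by
    apply normalClosure_le_normal
    intro y hy
    exact subset_normalClosure hy
  rw [h1] at h3
  exact h3 (mem_top (⟨x, hx⟩ : B))

theorem aux {G : Type*} [Group G] [Finite G] (A : Subgroup G) :
    normalClosure (A : Set G) = ⊤ → ∀ M : Subgroup G, IsCoatom M → A ≤ M →
    sSup {H : Subgroup G | A ≤ H ∧ H ≠ ⊤ ∧
      normalClosure ((A.subgroupOf H : Subgroup ↥H) : Set ↥H) = ⊤} ≤ M →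
      ∀ M' : Subgroup G, IsCoatom M' → A ≤ M' → M' = M := by
  induction A using WellFoundedGT.induction with
  | ind A ih =>
  intro hA M hM hAM hY M' hM' hAM'
  by_contra hne
  obtain ⟨M₁, M₂, h12, hb₁, hb₂⟩ := H94.flavell A hA M' M hM' hM hne hAM' hAM
  have key : ∀ N, H94.BadMax A N → N = M := by
    intro N hN
    obtain ⟨K, hAK, hK, hKc⟩ := H94.exists_subnormal_closure hN.2.1
    have hlt : A < K := lt_of_le_of_ne hAK fun h => hN.2.2 (h ▸ hK)
    have hKtop : K ≠ ⊤ := fun h => hN.1.1 (top_le_iff.1 (h ▸ hK.le))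
    refine ih K hlt ?_ M hM (le_trans (le_sSup (by exact ⟨hAK, hKtop, hKc⟩)) hY) ?_ N hN.1 hK.le
    · rw [eq_top_iff, ← hA]
      exact normalClosure_mono hAK
    · refine le_trans (sSup_le_sSup ?_) hY
      rintro H ⟨h1, h2, h3⟩
      exact ⟨hAK.trans h1, h2, nc_trans hAK h1 hKc h3⟩
  exact h12 ((key _ hb₁).trans (key _ hb₂).symm)

/-- Let G be a finite group and A a proper subgroup of G whose normal closure is G. Let Y be the join of all proper subgroups H of G that contain A and are generated by their own conjugates of A (the normal closure of A in H is H). Then either Y = G, or A is contained in exactly one maximal subgroup of G. -/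
theorem result {G : Type*} [Group G] [Finite G] (A : Subgroup G) (hA : Subgroup.normalClosure (A : Set G) = ⊤) (hAG : A ≠ ⊤) :
    sSup {H : Subgroup G | A ≤ H ∧ H ≠ ⊤ ∧ Subgroup.normalClosure ((A.subgroupOf H : Subgroup ↥H) : Set ↥H) = ⊤} = ⊤ ∨
      ∃! M : Subgroup G, IsCoatom M ∧ A ≤ M := by
  rw [or_iff_not_imp_left]
  intro hY
  obtain ⟨M, hM, hYM⟩ := (eq_top_or_exists_le_coatom _).resolve_left hY
  have hAM : A ≤ M := by
    refine le_trans (le_sSup ?_) hYM
    refine ⟨le_rfl, hAG, ?_⟩
    rw [Subgroup.subgroupOf_self, eq_top_iff]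
    exact Subgroup.le_normalClosure
  exact ⟨M, ⟨hM, hAM⟩, fun M' hM' => aux A hA M hM hAM hYM M' hM'.1 hM'.2⟩

end Cfsg.Agent.S3947
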