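import Cfsg.Statements.S4708
import Cfsg.Agent.H22.Knorr
import Cfsg.Agent.H19.GaloisBlock

set_option autoImplicit false
open Cfsg

namespace Cfsg.Agent.S4708


open Cfsg Cfsg.Agent.H22

open Classical in
theorem finsum_eq {G : Type*} [Group G] [Fintype (IrrCharacter G)] {A : Type*} [AddCommMonoid A]
    (B : Set (IrrCharacter G)) (f : IrrCharacter G → A) :
    ∑ᶠ χ ∈ B, f χ = ∑ χ ∈ Finset.univ.filter (· ∈ B), f χ := by
  rw [← finsum_mem_coe_finset]
  congr 1
  ext χ
  simp

theorem cast_lam {G : Type*} [Group G] [Finite G] (B : Set (IrrCharacter G)) :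
    ((∑ᶠ χ ∈ B, charDegree (χ : G → ℂ) ^ 2 : ℕ) : ℂ) = Nat.card G * blockCoeff B 1 := by
  classical
  have := Fintype.ofFinite (IrrCharacter G)
  unfold blockCoeff
  rw [← mul_assoc, mul_inv_cancel₀ (H11.card_ne_zero G), one_mul, finsum_eq, finsum_eq,
    Nat.cast_sum]
  refine Finset.sum_congr rfl fun χ _ => ?_
  rw [H11.conj_apply_one (H11.irr_isCharacter χ), Nat.cast_pow, H19.charDegree_cast_irr, sq]

open Classical in
theorem sum_under_le {G : Type*} [Group G] [Finite G] (H : Subgroup G) [Fintype (IrrCharacter H)]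
    (χ : IrrCharacter G) :
    ∑ θ ∈ Finset.univ.filter (fun θ : IrrCharacter H => Over H χ.1 θ.1), charDegree θ.1 ^ 2
      ≤ charDegree χ.1 ^ 2 := by
  have := Fintype.ofFinite H
  obtain ⟨m, hm, he⟩ := H11.exists_eq_sum_nat (H11.isCharacter_restrict (H11.irr_isCharacter χ) H)
  have h1 : charDegree χ.1 = ∑ θ : IrrCharacter H, m θ * charDegree θ.1 := by
    have := congrFun he 1
    simp only [Finset.sum_apply, Pi.smul_apply, smul_eq_mul, OneMemClass.coe_one] at this
    have h2 : (charDegree χ.1 : ℂ) = ((∑ θ : IrrCharacter H, m θ * charDegree θ.1 : ℕ) : ℂ) := by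
      rw [H19.charDegree_cast_irr, this]
      push_cast
      exact Finset.sum_congr rfl fun θ _ => by rw [H19.charDegree_cast_irr]
    exact_mod_cast h2
  calc _ ≤ (∑ θ ∈ Finset.univ.filter (fun θ : IrrCharacter H => Over H χ.1 θ.1),
        charDegree θ.1) ^ 2 := Finset.sum_sq_le_sq_sum_of_nonneg fun _ _ => Nat.zero_le _
    _ ≤ _ := by
      refine Nat.pow_le_pow_left ?_ 2
      rw [h1]
      refine le_trans (Finset.sum_le_sum fun θ hθ => ?_)
        (Finset.sum_le_sum_of_subset (Finset.filter_subset _ _))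
      have h3 := (over_iff H χ.1 θ.1).1 (Finset.mem_filter.1 hθ).2
      rw [hm] at h3
      exact Nat.le_mul_of_pos_left _ (Nat.pos_of_ne_zero (by exact_mod_cast h3))

/-- Let p be a prime, M a maximal ideal of the algebraic integers containing p, G a finite group and H a normal subgroup. Write λ(X) for the sum of the squares of the degrees of the irreducible characters in the principal p-block of a group X. Then λ(H) ≤ λ(G) ≤ [G : H]·λ(H). -/
theorem result {G : Type*} [Group G] [Finite G] (p : ℕ) [Fact p.Prime] (M : Ideal Cfsg.AlgInt) (hM : Cfsg.IsPModular p M) (H : Subgroup G) [H.Normal] : (∑ᶠ θ ∈ Cfsg.principalBlock M H, Cfsg.charDegree (θ : H → ℂ) ^ 2) ≤ (∑ᶠ χ ∈ Cfsg.principalBlock M G, Cfsg.charDegree (χ : G → ℂ) ^ 2) ∧ (∑ᶠ χ ∈ Cfsg.principalBlock M G, Cfsg.charDegree (χ : G → ℂ) ^ 2) ≤ H.index * ∑ᶠ θ ∈ Cfsg.principalBlock M H, Cfsg.charDegree (θ : H → ℂ) ^ 2 := by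
  classical
  have := Fintype.ofFinite (IrrCharacter G)
  have := Fintype.ofFinite (IrrCharacter H)
  have hmax := hM.2.1
  have hc := covers_principal (N := H) (M := M) hmax
  constructor
  · rw [finsum_eq, finsum_eq]
    refine le_trans ?_ (Finset.sum_le_sum fun χ _ => sum_under_le H χ)
    simp only [Finset.sum_filter]
    rw [show (∑ a : IrrCharacter G, if a ∈ principalBlock M G then
        ∑ θ : IrrCharacter H, if Over H a.1 θ.1 then charDegree θ.1 ^ 2 else 0 else 0) =
        ∑ a : IrrCharacter G, ∑ θ : IrrCharacter H, if a ∈ principalBlock M G ∧ Over H a.1 θ.1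
          then charDegree θ.1 ^ 2 else 0 from Finset.sum_congr rfl fun a _ => by
            by_cases h : a ∈ principalBlock M G <;> simp [h], Finset.sum_comm]
    refine Finset.sum_le_sum fun θ _ => ?_
    split_ifs with hθ
    · obtain ⟨χ, hχ, ho⟩ := hc.exists_over hmax H17.isPBlock_principalBlock
        H17.isPBlock_principalBlock hθ
      refine le_trans ?_ (Finset.single_le_sum (f := fun a : IrrCharacter G =>
        if a ∈ principalBlock M G ∧ Over H a.1 θ.1 then charDegree θ.1 ^ 2 else 0)
        (fun _ _ => Nat.zero_le _) (Finset.mem_univ χ))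
      simp [hχ, ho]
    · exact Nat.zero_le _
  · have hsub := hc.subset hmax H17.isPBlock_principalBlock H17.isPBlock_principalBlock
    have h1 : (∑ᶠ χ ∈ above H (principalBlock M H), charDegree (χ : G → ℂ) ^ 2) =
        H.index * ∑ᶠ θ ∈ principalBlock M H, charDegree (θ : H → ℂ) ^ 2 := by
      have h2 := blockCoeff_above_coe H (principalBlock M H) (fun g => mem_stab_principal g) 1
      have h3 : ((∑ᶠ χ ∈ above H (principalBlock M H), charDegree (χ : G → ℂ) ^ 2 : ℕ) : ℂ) =
          ((H.index * ∑ᶠ θ ∈ principalBlock M H, charDegree (θ : H → ℂ) ^ 2 : ℕ) : ℂ) := by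
        rw [Nat.cast_mul, cast_lam, cast_lam, ← h2, ← H.index_mul_card]
        push_cast
        ring
      exact_mod_cast h3
    rw [← h1, finsum_eq, finsum_eq]
    refine Finset.sum_le_sum_of_subset fun χ hχ => ?_
    simp only [Finset.mem_filter, Finset.mem_univ, true_and] at hχ ⊢
    exact hsub hχ

end Cfsg.Agent.S4708
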