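import Cfsg.Statements.S4735
import Cfsg.Agent.S4708
import Cfsg.Agent.H22.Quot
import Cfsg.Agent.H3.Cores

set_option autoImplicit false
open Cfsg

namespace Cfsg.Agent.S4735


open Cfsg Cfsg.Agent.H22
open scoped ComplexConjugate

theorem finsum_infl {G H : Type*} [Group G] [Group H] {f : G →* H} (hf : Function.Surjective f)
    {A : Type*} [AddCommMonoid A] (b : Set (IrrCharacter H)) (F : IrrCharacter G → A) :
    ∑ᶠ χ ∈ infl hf '' b, F χ = ∑ᶠ ψ ∈ b, F (infl hf ψ) :=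
  finsum_mem_image ((infl_injective hf).injOn)

theorem exists_nat {G : Type*} [Group G] [Finite G] {M : Ideal AlgInt} (hM : M.IsMaximal) (x : G) :
    ∃ n : ℕ, 0 < n ∧ ∑ᶠ χ ∈ principalBlock M G, Complex.normSq ((χ : G → ℂ) x) = n := by
  classical
  have := Fintype.ofFinite (IrrCharacter G)
  rw [S4708.finsum_eq]
  set s := Finset.univ.filter (· ∈ principalBlock M G) with hs
  have h1 : ((∑ χ ∈ s, Complex.normSq ((χ : G → ℂ) x) : ℝ) : ℂ) =
      ∑ χ ∈ s, (χ : G → ℂ) x * (χ : G → ℂ) x⁻¹ := by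
    push_cast
    refine Finset.sum_congr rfl fun χ _ => ?_
    rw [← H11.conj_apply (H11.irr_isCharacter χ), Complex.mul_conj]
  obtain ⟨z, hz⟩ := H12.exists_int_of_forall_ringEquiv
    (x := ∑ χ ∈ s, (χ : G → ℂ) x * (χ : G → ℂ) x⁻¹)
    (IsIntegral.sum _ fun χ _ => (H19.irr_isIntegral χ x).mul (H19.irr_isIntegral χ x⁻¹))
    (fun σ => by
      rw [map_sum]
      refine Finset.sum_bijective (H19.galEquiv σ) (H19.galEquiv σ).bijective (fun χ => ?_)
        (fun χ _ => ?_)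
      · simp only [hs, Finset.mem_filter, Finset.mem_univ, true_and]
        exact (H19.galIrr_mem_principalBlock_iff σ).symm
      · rw [map_mul]; rfl)
  rw [← h1] at hz
  have hz' : (∑ χ ∈ s, Complex.normSq ((χ : G → ℂ) x) : ℝ) = z := by exact_mod_cast hz
  have hpos : (1 : ℝ) ≤ ∑ χ ∈ s, Complex.normSq ((χ : G → ℂ) x) := by
    refine le_trans ?_ (Finset.single_le_sum (f := fun χ : IrrCharacter G =>
      Complex.normSq ((χ : G → ℂ) x)) (fun _ _ => Complex.normSq_nonneg _)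
      (show H19.oneIrr G ∈ s from Finset.mem_filter.2
        ⟨Finset.mem_univ _, H19.oneIrr_mem_principalBlock hM⟩))
    simp [H19.oneIrr_coe]
  rw [hz'] at hpos ⊢
  have h2 : (1 : ℤ) ≤ z := by exact_mod_cast hpos
  refine ⟨z.toNat, by omega, ?_⟩
  have : ((z.toNat : ℤ) : ℝ) = z := by rw [Int.toNat_of_nonneg (by omega)]
  exact_mod_cast this.symm

theorem le_card {G : Type*} [Group G] [Finite G] (B : Set (IrrCharacter G)) (x : G) :
    ∑ᶠ χ ∈ B, Complex.normSq ((χ : G → ℂ) x) ≤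
      (Nat.card ↥(Subgroup.centralizer ({x} : Set G)) : ℝ) := by
  classical
  have := Fintype.ofFinite (IrrCharacter G)
  rw [S4708.finsum_eq, ← H11.sum_norm_sq_apply]
  simp only [Complex.normSq_eq_norm_sq]
  exact Finset.sum_le_sum_of_subset_of_nonneg (Finset.filter_subset _ _)
    fun _ _ _ => sq_nonneg _

theorem eq_card_iff {G : Type*} [Group G] [Finite G] (B : Set (IrrCharacter G)) :
    (∑ᶠ χ ∈ B, charDegree (χ : G → ℂ) ^ 2) = Nat.card G ↔ B = Set.univ := by
  classical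
  have := Fintype.ofFinite (IrrCharacter G)
  have := Fintype.ofFinite G
  have h1 : ∑ χ : IrrCharacter G, charDegree (χ : G → ℂ) ^ 2 = Nat.card G := by
    have h := H11.sum_degree_sq (G := G)
    have h2 : ((∑ χ : IrrCharacter G, charDegree (χ : G → ℂ) ^ 2 : ℕ) : ℂ) = Nat.card G := by
      rw [← h]
      push_cast
      exact Finset.sum_congr rfl fun χ _ => by rw [H19.charDegree_cast_irr]
    exact_mod_cast h2
  rw [S4708.finsum_eq, ← h1]
  constructor
  · intro h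
    by_contra hne
    obtain ⟨χ, hχ⟩ := (Set.ne_univ_iff_exists_notMem B).1 hne
    refine absurd h (ne_of_lt ?_)
    refine Finset.sum_lt_sum_of_subset (Finset.filter_subset _ _) (Finset.mem_univ χ)
      (by simp [hχ]) (pow_pos (H19.charDegree_pos χ) 2) fun _ _ _ => Nat.zero_le _
  · rintro rfl
    simp

/-- Let p be a prime, M a maximal ideal of the algebraic integers containing p, G a finite group, H = O_p'(G) and Ḡ = G/H. For x ∈ G write λ(G, x) for the sum of |χ(x)|^2 over the irreducible characters χ in the principal p-block of G. Then λ(G, x) is a positive integer, λ(G, x) = λ(Ḡ, x̄) where x̄ is the image of x, and λ(G, x) ≤ #C_Ḡ(x̄). Moreover λ(G, 1) = [G : H] if and only if the principal block is the only p-block of Ḡ. -/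
theorem result {G : Type*} [Group G] [Finite G] (p : ℕ) [Fact p.Prime] (M : Ideal Cfsg.AlgInt) (hM : Cfsg.IsPModular p M) (x : G) : (∃ n : ℕ, 0 < n ∧ ∑ᶠ χ ∈ Cfsg.principalBlock M G, Complex.normSq ((χ : G → ℂ) x) = n) ∧ ∑ᶠ χ ∈ Cfsg.principalBlock M G, Complex.normSq ((χ : G → ℂ) x) = ∑ᶠ ψ ∈ Cfsg.principalBlock M (G ⧸ Cfsg.pPrimeCore p G), Complex.normSq ((ψ : G ⧸ Cfsg.pPrimeCore p G → ℂ) (QuotientGroup.mk x)) ∧ ∑ᶠ χ ∈ Cfsg.principalBlock M G, Complex.normSq ((χ : G → ℂ) x) ≤ (Nat.card ↥(Subgroup.centralizer ({(QuotientGroup.mk x : G ⧸ Cfsg.pPrimeCore p G)} : Set (G ⧸ Cfsg.pPrimeCore p G))) : ℝ) ∧ ((∑ᶠ χ ∈ Cfsg.principalBlock M G, Cfsg.charDegree (χ : G → ℂ) ^ 2) = (Cfsg.pPrimeCore p G).index ↔ ∀ B : Set (Cfsg.IrrCharacter (G ⧸ Cfsg.pPrimeCore p G)), Cfsg.IsPBlock M B → B = Cfsg.principalBlock M (G ⧸ Cfsg.pPrimeCore p G)) := by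
  have hmax := hM.2.1
  have hf := QuotientGroup.mk'_surjective (pPrimeCore p G)
  have hk : ¬ p ∣ Nat.card (QuotientGroup.mk' (pPrimeCore p G)).ker := by
    rw [QuotientGroup.ker_mk']
    exact H3.not_dvd_card_pPrimeCore p G
  have he := principal_eq_image_of_not_dvd hf hM hk
  have h2 : ∑ᶠ χ ∈ Cfsg.principalBlock M G, Complex.normSq ((χ : G → ℂ) x) = ∑ᶠ ψ ∈ Cfsg.principalBlock M (G ⧸ Cfsg.pPrimeCore p G), Complex.normSq ((ψ : G ⧸ Cfsg.pPrimeCore p G → ℂ) (QuotientGroup.mk x)) := by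
    rw [he, finsum_infl]
    rfl
  refine ⟨exists_nat hmax x, h2, h2 ▸ le_card _ _, ?_⟩
  rw [he, finsum_infl]
  simp only [charDegree_infl]
  rw [Subgroup.index_eq_card, eq_card_iff]
  constructor
  · intro h B hB
    obtain ⟨χ, hχ⟩ := H19.block_nonempty hmax hB
    exact H19.block_eq_of_mem hmax hB H19.isPBlock_principalBlock hχ (h ▸ Set.mem_univ χ)
  · intro h
    refine Set.eq_univ_of_forall fun χ => ?_
    rw [← h _ (H19.isPBlock_blockOf χ)]
    exact H19.mem_blockOf_self hmax χ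

end Cfsg.Agent.S4735
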