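import Cfsg.Statements.S3816
import Cfsg.Agent.H36.Flav3
import Cfsg.Agent.H4.CoprimeExt

set_option autoImplicit false
open Cfsg

namespace Cfsg.Agent.S3816

/-- Let p be an odd prime, H a finite solvable group of order prime to p, and x an automorphism of H of order p (so P = ⟨x⟩ has prime order p > 2 and acts coprimely on H). For h ∈ H let [h, P] be the subgroup generated by the commutators h⁻¹·xⁱ(h), and let [H, P] be the subgroup generated by all of these. Then the fixed points of x in [H, P] are generated by the fixed points of x in the subgroups [h, P], h ∈ H. -/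
theorem result {H : Type*} [Group H] [Finite H]
    [Group.IsSolvable H] {p : ℕ} [Fact p.Prime] (hp : p ≠ 2) (hcop : (Nat.card H).Coprime p)
    (x : MulAut H) (hx : orderOf x = p) :
    Subgroup.closure {c : H | ∃ h : H, ∃ i : ℕ, c = h⁻¹ * (x ^ i) h} ⊓ (x : H →* H).eqLocus (MonoidHom.id H) =
      ⨆ h : H, Subgroup.closure {c : H | ∃ i : ℕ, c = h⁻¹ * (x ^ i) h} ⊓ (x : H →* H).eqLocus (MonoidHom.id H) := by
-----
  classical
  have hp' : p.Prime := Fact.out
  let φ : Subgroup.zpowers x →* MulAut H := (Subgroup.zpowers x).subtype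
  haveI := H4.Ext.finite_semidirect φ
  have hy : H36.Flav.Hyp p (H4.Ext.R φ ⊤) (H4.Ext.L φ ⊤) :=
    ⟨by rw [H4.Ext.card_R, Subgroup.card_top, Nat.card_zpowers, hx], (H4.Ext.inv_iff φ).mp (H4.Ext.inv_top φ),
      by rw [H4.Ext.card_L, Subgroup.card_top]; exact hcop,
      H4.Ext.isSolvable_map_of_isSolvable _ inferInstance⟩
  have hT := H36.Flav.main hp' hp _ _ _ _ rfl hy
  have hfix : H4.Ext.fix φ = (x : H →* H).eqLocus (MonoidHom.id H) := by
    ext k
    refine ⟨fun h => h ⟨x, Subgroup.mem_zpowers x⟩, fun h a => ?_⟩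
    have : Subgroup.zpowers x ≤ MulAction.stabilizer (MulAut H) k := Subgroup.zpowers_le.mpr h
    exact this a.2
  apply le_antisymm
  · rw [← H4.Ext.L_le_L φ, ← hfix, ← H4.Ext.L_inf_centralizer]
    refine le_trans (inf_le_inf_right _ ?_) (hT.trans (H36.Flav.D_le.mpr ?_))
    · rw [H4.Ext.commutator_L_R, H4.Ext.L_le_L, Subgroup.closure_le]
      rintro _ ⟨h, i, rfl⟩
      exact H4.Ext.mem_comm φ (Subgroup.mem_top h) ⟨x ^ i, pow_mem (Subgroup.mem_zpowers x) i⟩
    · rintro _ ⟨k, -, rfl⟩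
      refine le_trans ?_ ((H4.Ext.L_le_L φ).mpr (le_iSup _ k⁻¹))
      rw [← H4.Ext.L_inf_centralizer]
      refine inf_le_inf_right _ (H36.Flav.L_le.mpr ?_)
      rintro _ ⟨a, -, rfl⟩
      rw [H4.Ext.commutatorElement_inl_inr, H4.Ext.inl_mem_L]
      obtain ⟨i, hi⟩ := mem_powers_iff_mem_zpowers.mpr a.2
      exact Subgroup.subset_closure ⟨i, by rw [inv_inv]; exact congrArg (fun t : MulAut H => k * t k⁻¹) hi.symm⟩
  · refine iSup_le fun h => inf_le_inf_right _ (Subgroup.closure_mono ?_)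
    rintro _ ⟨i, rfl⟩
    exact ⟨h, i, rfl⟩

end Cfsg.Agent.S3816
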