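import Cfsg.Statements.S0019
import Cfsg.Agent.H1.Ito

set_option autoImplicit false
open Cfsg

namespace Cfsg.Agent.S0019

open Subgroup

theorem aux (G : Type*) [Group G] [Finite G] : ∀ H₁ H₂ H₃ : Subgroup G,
    Group.IsSolvable H₁ → Group.IsSolvable H₂ → Group.IsSolvable H₃ → H1.Fac H₁ H₂ →
    H1.Fac H₁ H₃ → H₂.index.Coprime H₃.index → Group.IsSolvable G := by
  refine H1.card_induction (P := fun G _ _ => ∀ H₁ H₂ H₃ : Subgroup G,
    Group.IsSolvable H₁ → Group.IsSolvable H₂ → Group.IsSolvable H₃ → H1.Fac H₁ H₂ →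
    H1.Fac H₁ H₃ → H₂.index.Coprime H₃.index → Group.IsSolvable G) (fun G _ _ ih => ?_) G
  intro H₁ H₂ H₃ h₁ h₂ h₃ h12 h13 hcop
  by_cases h0 : H₁ = ⊥
  · have := h12.sup_eq_top
    rw [h0, bot_sup_eq] at this
    subst this
    exact Group.isSolvable_of_surjective (f := (⊤ : Subgroup G).subtype)
      fun g => ⟨⟨g, trivial⟩, rfl⟩
  obtain ⟨p, P, hp, hP, -, hP0, hPH, hPN⟩ := H1.exists_pGroup_of_isSolvable h0
  have : Fact p.Prime := ⟨hp⟩
  have key : ∀ H : Subgroup G, Group.IsSolvable H → H1.Fac H₁ H → ¬ p ∣ H.index →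
      Group.IsSolvable (normalClosure (P : Set G)) := by
    intro H hH hf hdvd
    obtain ⟨g, hg⟩ := H1.exists_conj_le_of_not_dvd_index hP hdvd
    obtain ⟨b, hb, a, ha, rfl⟩ := hf.symm g
    rw [← H1.conj_smul_conj_smul, H1.mem_normalizer_iff_conj_smul.1 (hPN (le_normalizer ha)),
      pointwise_smul_subset_iff, ← map_inv, conj_smul_eq_self_of_mem (H.inv_mem hb)] at hg
    exact H1.isSolvable_of_le (hf.normalClosure_le (le_normalizer.trans hPN) hg)
  have hN : Group.IsSolvable (normalClosure (P : Set G)) := by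
    by_cases hd : p ∣ H₂.index
    · exact key H₃ h₃ h13 fun hd' => hp.one_lt.ne' (Nat.eq_one_of_dvd_coprimes hcop hd hd')
    · exact key H₂ h₂ h12 hd
  set N := normalClosure (P : Set G)
  have hN0 : N ≠ ⊥ := fun e => hP0 (le_bot_iff.1 (e ▸ le_normalClosure))
  have hs := QuotientGroup.mk'_surjective N
  have : Group.IsSolvable (G ⧸ N) := ih _ (H1.card_quotient_lt hN0) _ _ _
    (H1.isSolvable_map _ H₁) (H1.isSolvable_map _ H₂) (H1.isSolvable_map _ H₃)
    (h12.map hs) (h13.map hs)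
    (Nat.Coprime.coprime_dvd_left (index_map_dvd _ hs)
      (Nat.Coprime.coprime_dvd_right (index_map_dvd _ hs) hcop))
  exact H1.isSolvable_of_normal_of_quotient N

/-- A finite group that factorises as H₁H₂ and as H₁H₃ with all three subgroups solvable and the indices of H₂ and H₃ coprime is solvable. -/
theorem result {G : Type*} [Group G] [Finite G] (H₁ H₂ H₃ : Subgroup G)
    (h₁ : Group.IsSolvable H₁) (h₂ : Group.IsSolvable H₂) (h₃ : Group.IsSolvable H₃)
    (h12 : ∀ g : G, ∃ x ∈ H₁, ∃ y ∈ H₂, g = x * y) (h13 : ∀ g : G, ∃ x ∈ H₁, ∃ y ∈ H₃, g = x * y)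
    (hcop : H₂.index.Coprime H₃.index) : Group.IsSolvable G := by
  exact aux G H₁ H₂ H₃ h₁ h₂ h₃ h12 h13 hcop

end Cfsg.Agent.S0019
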