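import Cfsg.Statements.S0006
import Cfsg.Agent.H1.TwoPrimes
import Cfsg.Agent.S0019

set_option autoImplicit false
open Cfsg

namespace Cfsg.Agent.S0006

open Subgroup

theorem aux (G : Type*) [Group G] [Finite G] :
    (∀ p : ℕ, p.Prime → ∃ H : Subgroup G, H.index = p ^ (Nat.card G).factorization p) →
    Group.IsSolvable G := by
  refine H1.card_induction (P := fun G _ _ =>
    (∀ p : ℕ, p.Prime → ∃ H : Subgroup G, H.index = p ^ (Nat.card G).factorization p) →
    Group.IsSolvable G) (fun G _ _ ih => ?_) G
  intro h
  choose! H hH using h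
  have hcop : ∀ p q : ℕ, p.Prime → q.Prime → p ≠ q → (H p).index.Coprime (H q).index := by
    intro p q hp hq hne
    rw [hH p hp, hH q hq]
    exact Nat.coprime_pow_primes _ _ hp hq hne
  have hs : ∀ p : ℕ, p.Prime → p ∣ Nat.card G → Group.IsSolvable (H p) := by
    intro p hp hd
    have hne : H p ≠ ⊤ := by
      intro e
      have h1 := hH p hp
      rw [e, index_top, eq_comm, Nat.pow_eq_one] at h1
      exact h1.elim hp.ne_one (hp.factorization_pos_of_dvd Nat.card_pos.ne' hd).ne'
    refine ih _ (H1.card_subgroup_lt hne) fun q hq => ?_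
    have h2 := congrArg (fun n => n.factorization q) (card_mul_index (H p))
    rw [Nat.factorization_mul Nat.card_pos.ne' index_ne_zero_of_finite, hH p hp,
      hp.factorization_pow] at h2
    by_cases hpq : p = q
    · subst hpq
      refine ⟨⊤, ?_⟩
      have : (Nat.card (H p)).factorization p = 0 := by simpa using h2
      rw [this, index_top, pow_zero]
    · refine ⟨(H q).subgroupOf (H p), ?_⟩
      have h3 := H1.index_eq_relIndex_of_factorization
        (H1.factorization_of_coprime_index (hcop p q hp hq hpq))
      have : (Nat.card (H p)).factorization q = (Nat.card G).factorization q := by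
        simpa [hpq] using h2
      rw [this, ← hH q hq, h3, relIndex]
  by_contra hns
  have h3 : ∀ p q : ℕ, p.Prime → q.Prime → ∃ r : ℕ, r.Prime ∧ r ∣ Nat.card G ∧ r ≠ p ∧ r ≠ q := by
    intro p q hp hq
    by_contra hcon
    refine hns (H1.isSolvable_of_two_primes hp hq fun r hr hd => ?_)
    by_contra h'
    exact hcon ⟨r, hr, hd, fun e => h' (Or.inl e), fun e => h' (Or.inr e)⟩
  obtain ⟨p, hp, hpd, -⟩ := h3 2 2 Nat.prime_two Nat.prime_two
  obtain ⟨q, hq, hqd, hqp, -⟩ := h3 p p hp hp
  obtain ⟨r, hr, hrd, hrp, hrq⟩ := h3 p q hp hq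
  exact hns (S0019.result (H p) (H q) (H r) (hs p hp hpd) (hs q hq hqd) (hs r hr hrd)
    (H1.factorization_of_coprime_index (hcop p q hp hq hqp.symm))
    (H1.factorization_of_coprime_index (hcop p r hp hr hrp.symm)) (hcop q r hq hr hrq.symm))

/-- Converse of Hall's Theorem: if for every prime p a finite group has a subgroup of index equal to the p-part of the group order (a Hall p-complement), then the group is solvable. -/
theorem result {G : Type*} [Group G] [Finite G]
    (h : ∀ p : ℕ, p.Prime → ∃ H : Subgroup G, H.index = p ^ (Nat.card G).factorization p) :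
    Group.IsSolvable G := by
  exact aux G h

end Cfsg.Agent.S0006
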