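import Cfsg.Statements.S0048
import Cfsg.Agent.H3.Fitting

set_option autoImplicit false
open Cfsg

namespace Cfsg.Agent.S0048

/-- In a finite solvable group every maximal subgroup has index a prime power. -/
theorem result {G : Type*} [Group G] [Finite G] [Group.IsSolvable G]
    (M : Subgroup G) (hM : IsCoatom M) : IsPrimePow M.index := by
  have h0 : M.normalCore < ⊤ := lt_of_le_of_lt M.normalCore_le (lt_top_iff_ne_top.mpr hM.1)
  obtain ⟨N, hN, hKN, -, hmin⟩ := H3.exists_chief_factor h0
  obtain ⟨-, p, hp, -, n, -, hn⟩ := H3.chief_factor_elementary inferInstance hKN hmin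
  have hNM : ¬ N ≤ M := fun h => hKN.not_ge (Subgroup.normal_le_normalCore.mpr h)
  have htop : M ⊔ N = ⊤ := hM.2 _ (left_lt_sup.mpr hNM)
  have h1 : M.index = M.relIndex N := by
    have h2 := H3.card_sup_mul_card_inf M N
    rw [htop, Subgroup.card_top, ← M.card_mul_index, mul_assoc, ← H3.card_inf_mul_relIndex M N,
      mul_comm M.index] at h2
    exact Nat.eq_of_mul_eq_mul_left Nat.card_pos (Nat.eq_of_mul_eq_mul_left Nat.card_pos h2)
  have h3 : M.index ∣ p ^ n := by
    rw [h1, ← hn]; exact Subgroup.relIndex_dvd_of_le_left _ M.normalCore_le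
  obtain ⟨k, -, hk⟩ := (Nat.dvd_prime_pow hp).mp h3
  refine (isPrimePow_nat_iff _).mpr ⟨p, k, hp, Nat.pos_of_ne_zero ?_, hk.symm⟩
  rintro rfl
  exact hM.1 (Subgroup.index_eq_one.mp (by simpa using hk))

end Cfsg.Agent.S0048
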