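import Cfsg.Statements.S0109
import Cfsg.Agent.H6.JStable
import Cfsg.Agent.S0625
import Cfsg.Agent.S0626
import Cfsg.Agent.S0600
import Cfsg.Agent.S0601
import Cfsg.Agent.S0017

set_option autoImplicit false
open Cfsg
open Subgroup

namespace Cfsg.Agent.S0109

/-- The Thompson factorization Theorem for solvable groups states that, with p odd (and abelian Sylow 2-subgroups when p = 3) and no nontrivial normal subgroup of order prime to p, every element of G is a product of an element normalizing J(P) and an element centralizing the elements of order dividing p in the centre of P. -/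
theorem result {G : Type*} [Group G] [Finite G] {p : ℕ} [Fact p.Prime] (hp : p ≠ 2) (hs : Group.IsSolvable G) (h3 : p = 3 → ∀ T : Sylow 2 G, IsMulCommutative T) (hF : ∀ N : Subgroup G, N.Normal → Nat.Coprime (Nat.card N) p → N = ⊥) (P : Sylow p G) (g : G) : ∃ a ∈ Subgroup.normalizer (Cfsg.thompsonSubgroupOf p (P : Subgroup G) : Set G), ∃ c ∈ Subgroup.centralizer {x : G | x ∈ (P : Subgroup G) ∧ (∀ y ∈ (P : Subgroup G), x * y = y * x) ∧ x ^ p = 1}, g = a * c := by
  rename_i hpp
  have hC := S0017.result (G := G) p (H3.pPrimeCore_eq_bot_iff.mpr hF)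
  obtain ⟨hVn, hVe, -⟩ := S0601.result hC
  set V := ⨆ S : Sylow p G, omegaOne p ((S : Subgroup G) ⊓ centralizer ((S : Subgroup G) : Set G))
    with hV
  have hred := S0600.result V hVe (le_antisymm
    (iSup_le fun S => le_iSup_of_le S (le_inf (le_iSup_of_le S le_rfl)
      ((H51.omegaOne_le _ _).trans inf_le_right))) (iSup_le fun S => inf_le_left))
  have hst : IsActionPStable p G := by
    by_cases h : p = 3
    · exact S0626.result hp (h3 h)
    · refine S0625.result ?_ (H6.isPSolvable_of_isSolvable G hs)
      have h2 := hpp.out.two_le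
      have h4 : p ≠ 4 := by
        rintro rfl
        exact absurd hpp.out (by decide)
      omega
  have h1 := H6.thompsonSubgroup_le_centralizer V hVe (hst.1 V hVe) hred
  have hT := H8.isSylowIn_inf_normal P (centralizer (V : Set G))
  obtain ⟨c, hc, m, hm, hg⟩ := hT.frattini (g := g⁻¹) (by rw [normalizer_eq_top]; trivial)
  have h2 := H6.thompsonSubgroupOf_eq_of_le (p := p)
    (inf_le_left : (P : Subgroup G) ⊓ centralizer (V : Set G) ≤ P)
    (le_inf (H6.thompsonSubgroupOf_le _) ((H6.thompsonSubgroupOf_sylow_le P).trans h1))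
  refine ⟨m⁻¹, inv_mem ?_, c⁻¹, inv_mem ?_, ?_⟩
  · rw [← h2]
    exact H6.normalizer_le_normalizer_thompsonSubgroupOf _ hm
  · refine centralizer_le ?_ hc
    rintro x ⟨hx1, hx2, hx3⟩
    exact (le_iSup (fun S : Sylow p G =>
      omegaOne p ((S : Subgroup G) ⊓ centralizer ((S : Subgroup G) : Set G))) P)
      (H51.mem_omegaOne ⟨hx1, fun y hy => (hx2 y hy).symm⟩ hx3)
  · rw [← mul_inv_rev, ← hg, inv_inv]

end Cfsg.Agent.S0109
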