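import Cfsg.Statements.S0302
import Mathlib
import Cfsg.Agent.H28.Klein6
import Cfsg.Agent.H28.OmegaIndex
import Cfsg.Agent.H30.OrthMatrix
import Cfsg.Agent.S0287
import Cfsg.Agent.S0242
import Cfsg.Agent.S0248

set_option autoImplicit false
open Cfsg

namespace Cfsg.Agent.S0302

theorem card_SL4 {F : Type*} [Field F] [Fintype F] {q : ℕ} (hF : Fintype.card F = q) :
    Nat.card (Matrix.SpecialLinearGroup (Fin 4) F) =
      q ^ 6 * (q ^ 3 - 1) * ((q ^ 2 - 1) * (q ^ 4 - 1)) := by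
  have h := Cfsg.Agent.S0242.result hF 4 (by norm_num)
  have hq : 1 < q := hF ▸ Fintype.one_lt_card
  apply Nat.eq_of_mul_eq_mul_left (show 0 < q - 1 by omega)
  rw [h, Fin.prod_univ_four]
  have h1 : 1 ≤ q := hq.le
  have h2 : 1 ≤ q ^ 2 := Nat.one_le_pow _ _ h1
  have h3 : 1 ≤ q ^ 3 := Nat.one_le_pow _ _ h1
  have h4 : 1 ≤ q ^ 4 := Nat.one_le_pow _ _ h1
  have h5 : q ^ 1 ≤ q ^ 4 := Nat.pow_le_pow_right h1 (by norm_num)
  have h6 : q ^ 2 ≤ q ^ 4 := Nat.pow_le_pow_right h1 (by norm_num)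
  have h7 : q ^ 3 ≤ q ^ 4 := Nat.pow_le_pow_right h1 (by norm_num)
  change (q ^ 4 - q ^ 0) * (q ^ 4 - q ^ 1) * (q ^ 4 - q ^ 2) * (q ^ 4 - q ^ 3) = _
  rw [pow_zero]
  zify [h1, h2, h3, h4, h5, h6, h7]
  ring

/-- PΩ^+_6(q) is isomorphic to PSL_4(q). -/
theorem result {F : Type*} [Field F] [Fintype F] : Nonempty (Cfsg.POmega F (Cfsg.quadFormPlus 3 F) ≃* Matrix.ProjectiveSpecialLinearGroup (Fin 4) F) := by
  obtain ⟨φ, -, hk⟩ := H28.exists_hom_plus6 (K := F)
  have hperf := Cfsg.Agent.S0248.result (F := F) 4 (by norm_num)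
  have hrange := H28.range_eq_commutator φ (H28.mem_commutator_of_perfect φ hperf) (by
    rw [Cfsg.Agent.S0287.result rfl 3 (by norm_num), card_SL4 rfl]
    simp [Finset.prod_range_succ, mul_assoc]) _ hk (by
      by_cases h2 : (2 : F) = 0
      · exact Or.inl (H28.negOne4_eq_one h2)
      · exact Or.inr (H28.omega_index_four h2 (by simp) (H30.qPlus F 3) (H30.qPlus_nondegenerate 3)))
  have : Group.IsPerfect (Matrix.SpecialLinearGroup (Fin 4) F) := ⟨hperf⟩
  refine H28.centerQuot_commutator_equiv φ hrange (fun g hg => ?_)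
    (Group.IsPerfect.center_quotient_center_eq_bot _)
  rcases hk g hg with rfl | rfl
  · exact one_mem _
  · exact H28.negOne4_mem_center

end Cfsg.Agent.S0302
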