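import Cfsg.Statements.S0371
import Cfsg.Agent.H42.M24

set_option autoImplicit false
set_option maxRecDepth 1000000
open Cfsg

namespace Cfsg.Agent.S0371

open Cfsg.Agent.H42

/-- Multiplication by a nonzero square residue modulo 23, fixing the extra point, lies in the group of the length-24 code. -/
theorem result (u : (ZMod 23)ˣ) (hu : IsSquare u) : Equiv.optionCongr (Units.mulLeft u) ∈ Cfsg.M24 := by
  have h1 : inM 983435072843990828779021698901151808 = true := by decide +kernel
  have key : ∀ v : (ZMod 23)ˣ, ∃ k : Fin 11, ∀ p : GolayPt,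
      pt (app (ppow 983435072843990828779021698901151808 k) (idx p)) =
        Option.map (fun x => ((v * v : (ZMod 23)ˣ) : ZMod 23) * x) p := by
    decide +kernel
  obtain ⟨v, rfl⟩ := hu
  obtain ⟨k, hk⟩ := key v
  rw [← toPerm_eq_of_forall (inM_isPerm (inM_ppow h1 k)) (Equiv.optionCongr (Units.mulLeft (v * v))) hk]
  exact toPerm_mem_M24 (inM_ppow h1 k)

end Cfsg.Agent.S0371
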