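import Cfsg.Statements.S0505
import Cfsg.Agent.H83.CharP
import Cfsg.Agent.H52.FStar

set_option autoImplicit false
open Cfsg

namespace Cfsg.Agent.S0505

open Subgroup

/-- Let G be a finite group of even order in which the centralizer of every involution is solvable and has trivial
core (no nontrivial normal subgroup of odd order). Then G is of characteristic 2 type. -/
theorem result {G : Type*} [Group G] [Finite G]
    (h2 : Even (Nat.card G))
    (hs : ∀ t : G, orderOf t = 2 → Group.IsSolvable (Subgroup.centralizer ({t} : Set G)))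
    (hc : ∀ t : G, orderOf t = 2 → Cfsg.oddCore (Subgroup.centralizer ({t} : Set G)) = ⊥) :
    Cfsg.IsCharacteristicTwoType G := by
  refine ⟨h2, fun T hT hT1 => ?_⟩
  obtain ⟨z, hz, hz1⟩ := (bot_or_exists_ne_one _).resolve_left (H83.OZ_ne_bot hT hT1)
  obtain ⟨hzT, hzC, hz2⟩ := H83.mem_OZ.mp hz
  have hzo : orderOf z = 2 := orderOf_eq_prime hz2 hz1
  have h1 : H83.CharP 2 (centralizer ({z} : Set G)) := by
    have := hs z hzo
    rw [H83.charP_iff, ← H52.fstar_eq_pCore_iff_centralizer_le, H52.fstar_eq_pCore_iff]
    exact ⟨H52.layer_eq_bot_of_isSolvable, hc z hzo⟩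
  have hTz : T ≤ centralizer ({z} : Set G) := fun t ht =>
    mem_centralizer_singleton_iff.mpr (mem_centralizer_iff.mp hzC t ht)
  have h2 := h1.inf_centralizer hT (hTz.trans (H83.le_norm_pCoreOf _))
  have h3 : centralizer ({z} : Set G) ⊓ centralizer (T : Set G) =
      normalizer (T : Set G) ⊓ centralizer (T : Set G) := by
    rw [inf_eq_right.mpr (centralizer_le (Set.singleton_subset_iff.mpr hzT)),
      inf_eq_right.mpr (centralizer_le_normalizer _)]
  rw [h3] at h2
  exact H83.charP_iff.mp (H83.charP_of_inf_centralizer hT le_normalizer le_rfl h2)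

end Cfsg.Agent.S0505
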