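import Cfsg.Statements.S0658
import Cfsg.Agent.H51.SCFus

set_option autoImplicit false
open Cfsg

namespace Cfsg.Agent.S0658

/-- In a group of characteristic p type all of whose p-locals are p-stable (p odd), the normalizer of Z(J(P)) contains the normalizer of every nontrivial subgroup of the Sylow p-subgroup P. -/
theorem result {G : Type*} [Group G] [Finite G] {p : ℕ} [Fact p.Prime] (hp : p ≠ 2) (hloc : ∀ Q : Subgroup G, IsPGroup p Q → Q ≠ ⊥ → Cfsg.pPrimeCore p ↥(Subgroup.normalizer (Q : Set G)) = ⊥ ∧ Cfsg.IsPConstrained p ↥(Subgroup.normalizer (Q : Set G)) ∧ Cfsg.IsPStable p ↥(Subgroup.normalizer (Q : Set G))) (P : Sylow p G) (Q : Subgroup G) (hQP : Q ≤ (P : Subgroup G)) (hQ1 : Q ≠ ⊥) : Subgroup.normalizer (Q : Set G) ≤ Subgroup.normalizer (Cfsg.centerThompsonAOf ((P : Subgroup G)) : Set G) := by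
  set M := Subgroup.normalizer (centerThompsonAOf (P : Subgroup G) : Set G) with hM
  have hzj : ∀ Q T : Subgroup G, IsPGroup p Q → Q ≠ ⊥ →
      H85.IsSyl p T (Subgroup.normalizer (Q : Set G)) →
      Subgroup.normalizer (Q : Set G) ≤ Subgroup.normalizer (centerThompsonAOf T : Set G) := by
    intro Q T hQ h0 hT
    obtain ⟨h1, h2, h3⟩ := hloc Q hQ h0
    have h4 := H51.zj_normal hp hT.toSylow (H51.isStronglyClosed_self _) 0
      ((H51.isPConstrained_iff_of_bot h1).mp h2) ((H51.isPStable_iff_of_bot h1).mp h3).2.2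
    rw [← Subgroup.normalizer_eq_top_iff, hT.coe_toSylow,
      ← H51.subgroupOf_normalizer_sInf 0 hT.le, Subgroup.subgroupOf_eq_top,
      H51.sInf_maxEA_zero] at h4
    exact h4
  have hPM : H85.IsSyl p (P : Subgroup G) M := H85.isSyl_of_sylow_le P (by
    rw [hM, ← H51.sInf_maxEA_zero]
    exact Subgroup.le_normalizer.trans (H51.normalizer_le_normalizer_sInf 0 _))
  have key : ∀ R : Subgroup G, IsPGroup p R → R ≠ ⊥ → R ≤ M → ∀ Q : Subgroup G, IsPGroup p Q →
      Q ≠ ⊥ → R ≤ Subgroup.normalizer (Q : Set G) → Subgroup.normalizer (Q : Set G) ≤ M := by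
    intro R
    refine H56.desc_induction (fun T : Subgroup G => Nat.card T) _ H56.card_le_card_group
      (P := fun R => IsPGroup p R → R ≠ ⊥ → R ≤ M → ∀ Q : Subgroup G, IsPGroup p Q →
        Q ≠ ⊥ → R ≤ Subgroup.normalizer (Q : Set G) → Subgroup.normalizer (Q : Set G) ≤ M) ?_ R
    intro R ih hR h0 hRM Q hQ hQ0 hRQ
    have ih' : ∀ R', R < R' → IsPGroup p R' → R' ≤ M → ∀ Q : Subgroup G, IsPGroup p Q →
        Q ≠ ⊥ → R' ≤ Subgroup.normalizer (Q : Set G) → Subgroup.normalizer (Q : Set G) ≤ M :=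
      fun R' h1 h2 => ih R' (H56.card_lt_of_lt h1) h2 fun h => h0 (le_bot_iff.mp (h ▸ h1.le))
    obtain ⟨T, hT, hRT⟩ := H85.exists_isSyl_ge hR hRM
    rcases hRT.eq_or_lt with rfl | hlt
    · obtain ⟨g, hg, rfl⟩ := hPM.exists_cj_eq hT
      refine (hzj Q _ hQ hQ0 (((H85.isSyl_top P).cj g).of_le hRQ (by simp [H85.cj_top]))).trans ?_
      rw [← H51.sInf_maxEA_zero, ← H51.cj_sInf_maxEA, H51.sInf_maxEA_zero, ← H85.cj_normalizer,
        H85.cj_eq_of_mem hg]
    have h1 := H85.lt_inf_normalizer_of_lt hT.isPGroup hlt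
    have h2 := ih' _ h1 hT.isPGroup.to_inf_left (inf_le_left.trans hT.le)
    obtain ⟨T', hT', hRT'⟩ := H85.exists_isSyl_ge hR hRQ
    rcases hRT'.eq_or_lt with rfl | hlt'
    · refine (hzj Q _ hQ hQ0 hT').trans (h2 _ ?_ (H51.centerThompsonAOf_ne_bot hR h0) ?_)
      · rw [← H51.sInf_maxEA_zero]; exact hR.to_le (H51.sInf_maxEA_le_self 0 _)
      · rw [← H51.sInf_maxEA_zero]
        exact inf_le_right.trans (H51.normalizer_le_normalizer_sInf 0 _)
    · exact ih' _ (H85.lt_inf_normalizer_of_lt hT'.isPGroup hlt') hT'.isPGroup.to_inf_left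
        (inf_le_right.trans (h2 R hR h0 inf_le_right)) Q hQ hQ0 (inf_le_left.trans hT'.le)
  exact key Q (P.isPGroup'.to_le hQP) hQ1 (hQP.trans hPM.le) Q (P.isPGroup'.to_le hQP) hQ1
    Subgroup.le_normalizer

end Cfsg.Agent.S0658
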