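import Cfsg.Statements.S0725
import Cfsg.Agent.H87.PSWc
import Cfsg.Agent.H87.PSMd
import Cfsg.Agent.H87.PSB2
import Cfsg.Agent.H87.PSU1
import Cfsg.Agent.H87.PSU3
import Cfsg.Agent.H44.PsI0
import Cfsg.Agent.H70.PsImp1
import Cfsg.Agent.H84.PsImp2
import Cfsg.Agent.H22.PsTb
import Cfsg.Agent.H28.PsI

set_option autoImplicit false
open Cfsg

namespace Cfsg.Agent.S0725

/-- The Praeger–Saxl bound: a primitive permutation group of degree `n` not containing the alternating group has order at most `4 ^ n`. -/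
theorem result {α : Type*} [Fintype α] [DecidableEq α] (G : Subgroup (Equiv.Perm α)) (hG : MulAction.IsPreprimitive G α) (hA : ¬ alternatingGroup α ≤ G) : Nat.card G ≤ 4 ^ Fintype.card α := by
  exact H87.PS.asm H87.PS.pk H87.PS.md H87.PS.b2 H87.PS.tok H87.PS.wok H44.PsI.imp0
    H70.PsImp1.imp1 H84.PsImp2.imp2 H22.PsTb.tb H87.PS.u1 H87.PS.u2a H87.PS.u2b H87.PS.u3
    H28.PsI.i1 H28.PsI.i2 _ α G (Nat.lt_succ_self _) hG hA

end Cfsg.Agent.S0725
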