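import Cfsg.Statements.S0800
import Cfsg.Agent.H29.PSLFacts

set_option autoImplicit false
open Cfsg

namespace Cfsg.Agent.S0800

/-- Tori of SL_2(q): if g ∈ SL_2(q) has order coprime to the characteristic p, then the order of g divides q − 1 or q + 1. -/
theorem result {F : Type*} [Field F] [Fintype F] {q : ℕ} (hF : Fintype.card F = q) (p : ℕ) [Fact p.Prime] [CharP F p] (g : Matrix.SpecialLinearGroup (Fin 2) F) (hg : Nat.Coprime (orderOf g) p) : orderOf g ∣ q - 1 ∨ orderOf g ∣ q + 1 := by
  rw [← Nat.card_eq_fintype_card] at hF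
  subst hF
  by_cases h : H29.slp g ^ p = 1
  · left
    have h1 : g ^ (p * 2) = 1 := by
      rw [← map_pow, H29.slp_eq_one_iff] at h
      rcases h with h | h <;> simp [pow_mul, h]
    have h2 : orderOf g ∣ 2 := hg.dvd_of_dvd_mul_left (orderOf_dvd_of_pow_eq_one h1)
    rcases Nat.even_or_odd (Nat.card F) with he | ho
    · have hp : p = 2 := (Nat.prime_dvd_prime_iff_eq Fact.out Nat.prime_two).1
        ((CharP.cast_eq_zero_iff F p 2).1 (by exact_mod_cast H29.even_card_iff.1 he))
      rw [Nat.Coprime.eq_one_of_dvd (hp ▸ hg) h2]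
      exact one_dvd _
    · exact h2.trans (Nat.Odd.sub_odd ho odd_one).two_dvd
  · obtain ⟨T, D, hT, hgT⟩ := H29.exists_torus_of_pow_char_ne p h
    have h1 := (T.comap H29.slp).orderOf_dvd_natCard (show g ∈ _ from hgT)
    rw [hT.card_comap_slp] at h1
    rcases hT.card with e | e <;> rw [e] at h1
    · exact Or.inl h1
    · exact Or.inr h1

end Cfsg.Agent.S0800
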