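import Cfsg.Statements.S0876
import Cfsg.Agent.H12.Section
import Cfsg.Agent.H19.GaloisBlock

set_option autoImplicit false
open Cfsg

namespace Cfsg.Agent.S0876

/-- Let G be a finite group, p a prime and M a maximal ideal of the ring of algebraic integers containing p. Let x, y be elements with p-parts a and b (so a⁻¹ * x and b⁻¹ * y are their p-regular parts). Then a⁻¹ * x and b⁻¹ * y are conjugate in G if and only if, for every irreducible character χ, the difference χ x - χ y lies in the local ideal at M. -/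
theorem result {G : Type*} [Group G] [Finite G] (p : ℕ) (M : Ideal Cfsg.AlgInt) (hM : Cfsg.IsPModular p M) (x y a b : G) (ha : Cfsg.IsPPart p x a) (hb : Cfsg.IsPPart p y b) : IsConj (a⁻¹ * x) (b⁻¹ * y) ↔ ∀ χ : Cfsg.IrrCharacter G, Cfsg.MemLocalIdeal M ((χ : G → ℂ) x - (χ : G → ℂ) y) := by
  classical
  have := Fintype.ofFinite G
  have := Fintype.ofFinite (IrrCharacter G)
  have hp : p.Prime := hM.1
  obtain ⟨x', rfl, hax, ⟨k, hk⟩, hx'⟩ := ha
  obtain ⟨y', rfl, hby, ⟨l, hl⟩, hy'⟩ := hb
  simp only [inv_mul_cancel_left]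
  have hint : ∀ (χ : IrrCharacter G) (g : G), MemLocalRing M ((χ : G → ℂ) g) := fun χ g =>
    H19.mlr_of_isIntegral hM.2.1 (H12.IsCharacter_isIntegral (H11.isCharacter_of_irr χ.2) g)
  constructor
  · intro h χ
    rw [H19.mli_sub_iff_red_eq hM.2.1 (hint χ _) (hint χ _),
      H19.red_char_mul hM (H11.isCharacter_of_irr χ.2) (k := k) (hk ▸ pow_orderOf_eq_one a) hax,
      H19.red_char_mul hM (H11.isCharacter_of_irr χ.2) (k := l) (hl ▸ pow_orderOf_eq_one b) hby]
    obtain ⟨c, rfl⟩ := isConj_iff.1 h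
    rw [H11.isClassFunction_of_irr χ.2]
  · intro h
    by_contra hc
    have hG0 : Nat.card G ≠ 0 := Nat.card_pos.ne'
    set m := ordProj[p] (Nat.card G) with hm
    set n := ordCompl[p] (Nat.card G) with hn
    have hmn : Nat.card G ∣ m * n := (Nat.ordProj_mul_ordCompl_eq_self _ p).symm.dvd
    have hpn : Nat.Coprime p n := Nat.coprime_ordCompl hp hG0
    have hcop : Nat.Coprime m n := hpn.pow_left _
    obtain ⟨s, t, hst⟩ := Nat.isCoprime_iff_coprime.2 hcop
    obtain ⟨c, hc', he⟩ := H12.exists_section_expansion hmn hcop hst x'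
    have h1 : (a * x') ^ (s * m) = x' := H12.zpow_part_eq hmn hst hax (hk ▸ hpn.pow_left _)
      (((Nat.Prime.coprime_iff_not_dvd hp).2 hx').symm.pow_right _)
    have h2 : (b * y') ^ (s * m) = y' := H12.zpow_part_eq hmn hst hby (hl ▸ hpn.pow_left _)
      (((Nat.Prime.coprime_iff_not_dvd hp).2 hy').symm.pow_right _)
    have e1 := congrFun he (a * x')
    have e2 := congrFun he (b * y')
    simp only [h1, h2, IsConj.refl, if_true, if_neg (fun h : IsConj y' x' => hc h.symm),
      Finset.sum_apply, Pi.smul_apply, smul_eq_mul] at e1 e2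
    have e3 : (n : ℂ) = ∑ χ : IrrCharacter G,
        c χ * ((χ : G → ℂ) (a * x') - (χ : G → ℂ) (b * y')) := by
      simp only [mul_sub, Finset.sum_sub_distrib]
      rw [← e1, ← e2, sub_zero]
    have e4 : MemLocalIdeal M (n : ℂ) := by
      rw [e3]
      exact H19.mli_sum hM.2.1 fun χ _ =>
        H19.mli_mul_right hM.2.1 (H19.mlr_of_isIntegral hM.2.1 (hc' χ)) (h χ)
    exact (Nat.Prime.coprime_iff_not_dvd hp).1 hpn ((H19.mli_natCast_iff hM n).1 e4)

end Cfsg.Agent.S0876
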