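import Cfsg.Statements.S0989
import Cfsg.Agent.H58.Count
import Mathlib.GroupTheory.Perm.Centralizer

set_option autoImplicit false
open Cfsg

namespace Cfsg.Agent.S0989

/-- In the symmetric group on p or p + 1 letters, p a prime, the normalizer of a Sylow p-subgroup has order p * (p - 1). -/
theorem result {α : Type*} [Fintype α] [DecidableEq α] (p : ℕ) [Fact p.Prime] (hα : Fintype.card α = p ∨ Fintype.card α = p + 1) (P : Sylow p (Equiv.Perm α)) : Nat.card ↥(Subgroup.normalizer ((P : Subgroup (Equiv.Perm α)) : Set (Equiv.Perm α))) = p * (p - 1) := by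
  have hp : p.Prime := Fact.out
  have hp2 := hp.two_le
  have hnd : ¬ p ∣ (p - 1).factorial := by
    rw [hp.dvd_factorial]; omega
  have hfac : p.factorial = p * (p - 1).factorial := (Nat.mul_factorial_pred hp.ne_zero).symm
  have hcard : Nat.card (Equiv.Perm α) = p ^ 1 * ((p - 1).factorial * (Fintype.card α).choose p) := by
    rw [Nat.card_eq_fintype_card, Fintype.card_perm]
    rcases hα with h | h
    · rw [h, Nat.choose_self, hfac]; ring
    · rw [h, Nat.choose_succ_self_right, Nat.factorial_succ, hfac]; ring
  have hnd2 : ¬ p ∣ (p - 1).factorial * (Fintype.card α).choose p := by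
    rw [hp.dvd_mul]
    rintro (h | h)
    · exact hnd h
    · rcases hα with h' | h'
      · rw [h', Nat.choose_self] at h; exact hp.one_lt.ne' (Nat.dvd_one.1 h)
      · rw [h', Nat.choose_succ_self_right] at h
        exact hp.one_lt.ne' (Nat.dvd_one.1 ((Nat.dvd_add_right dvd_rfl).1 h))
  have hP : Nat.card P = p := (H58.card_sylow_of_eq P hcard hnd2).trans (pow_one p)
  have h1 := H58.ncard_orderOf_eq_prime P hP
  have h2 := Equiv.Perm.card_of_cycleType_singleton (α := α) hp2 (by omega)
  have h3 : {y : Equiv.Perm α | orderOf y = p} =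
      ↑({g | g.cycleType = {p}} : Finset (Equiv.Perm α)) := by
    ext y
    simp only [Set.mem_ofPred_eq, Finset.coe_filter, Finset.mem_univ, true_and]
    constructor
    · intro h
      have hc := Equiv.Perm.isCycle_of_prime_order' (σ := y) (h ▸ hp) (by omega)
      rw [hc.cycleType, ← hc.orderOf, h]
    · intro h
      rw [← Equiv.Perm.lcm_cycleType, h]; simp
  rw [h3, Set.ncard_coe_finset, h2] at h1
  have h4 := H58.card_normalizer_mul_card_sylow P
  rw [hcard, h1] at h4
  have hpos : 0 < Nat.card (Sylow p (Equiv.Perm α)) := Nat.card_pos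
  apply Nat.eq_of_mul_eq_mul_right hpos
  refine h4.trans ?_
  ring

end Cfsg.Agent.S0989
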