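import Cfsg.Statements.S1153
import Cfsg.Agent.H39.ReeInst
import Cfsg.Agent.H39.ReeBasic

set_option autoImplicit false
open Cfsg

namespace Cfsg.Agent.S1153

/-- In the small Ree group ²G₂(q), q = 3^(2m+1), realised as G¹ inside the Chevalley group G₂ over the field with q elements, with `B¹ = G¹ ∩ B`: in the action of `G¹` on the cosets of `B¹`, the joint stabiliser of any three distinct cosets has order at most 2, and for some three distinct cosets it has order exactly 2. -/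
theorem result {K : Type*} [Field K] [Fintype K] {m : ℕ} (hK : Fintype.card K = 3 ^ (2 * m + 1)) :
    (∀ x y z : ↥(Cfsg.Lie.twistedG2 K (3 ^ m)) ⧸ ((Cfsg.Lie.chevG2.borelSubgroup K ⊓ Cfsg.Lie.twistedG2 K (3 ^ m))).subgroupOf (Cfsg.Lie.twistedG2 K (3 ^ m)), x ≠ y → x ≠ z → y ≠ z →
        Nat.card ↥(MulAction.stabilizer ↥(Cfsg.Lie.twistedG2 K (3 ^ m)) x ⊓ MulAction.stabilizer ↥(Cfsg.Lie.twistedG2 K (3 ^ m)) y ⊓ MulAction.stabilizer ↥(Cfsg.Lie.twistedG2 K (3 ^ m)) z) ≤ 2) ∧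
      ∃ x y z : ↥(Cfsg.Lie.twistedG2 K (3 ^ m)) ⧸ ((Cfsg.Lie.chevG2.borelSubgroup K ⊓ Cfsg.Lie.twistedG2 K (3 ^ m))).subgroupOf (Cfsg.Lie.twistedG2 K (3 ^ m)), x ≠ y ∧ x ≠ z ∧ y ≠ z ∧
        Nat.card ↥(MulAction.stabilizer ↥(Cfsg.Lie.twistedG2 K (3 ^ m)) x ⊓ MulAction.stabilizer ↥(Cfsg.Lie.twistedG2 K (3 ^ m)) y ⊓ MulAction.stabilizer ↥(Cfsg.Lie.twistedG2 K (3 ^ m)) z) = 2 := by
  obtain ⟨S, -, -, hB⟩ := H39.exists_ree hK
  have := H39.reeCard_of_card hK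
  have := S.finite
  rw [show (Cfsg.Lie.chevG2.borelSubgroup K ⊓ Cfsg.Lie.twistedG2 K (3 ^ m)).subgroupOf
    (Cfsg.Lie.twistedG2 K (3 ^ m)) = S.B by
      ext g; rw [Subgroup.inf_subgroupOf_right, hB]; rfl]
  constructor
  · intro x y z hxy hxz hyz
    obtain ⟨g, rfl, rfl⟩ := S.exists_smul_pair hxy
    rw [← S.orderOf_t, ← H39.orderOf_conj' S.t g, ← Nat.card_zpowers]
    refine Subgroup.card_le_of_le ?_
    rintro a ⟨⟨h1, h2⟩, h3⟩
    refine (S.twist g).mem_zpowers_t.mpr ?_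
    by_contra hne
    rw [not_or, S.twist_t, H39.Ree.eq_conj_iff] at hne
    rcases S.fix_of_mem_H (S.conj_mem_H_of_fix rfl rfl h1 h2) (H39.conj_ne_one hne.1 g) hne.2
      (P := g⁻¹ • z) (by rw [mul_smul, mul_smul, smul_inv_smul, h3]) with e | e
    · exact hxz (by rw [← e, smul_inv_smul])
    · exact hyz (by rw [← e, smul_inv_smul])
  · have h1 : S.zer ≠ S.u 0 1 0 • S.zer := fun e =>
      S.u010_ne_one (S.eq_one_of_smul_zer (S.u_mem_U ..) e.symm)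
    have h2 : S.inf ≠ S.u 0 1 0 • S.zer := (S.smul_zer_ne_inf (S.u_mem_B ..)).symm
    refine ⟨S.inf, S.zer, S.u 0 1 0 • S.zer, S.inf_ne_zer, h2, h1, ?_⟩
    rw [← S.orderOf_t, ← Nat.card_zpowers]
    congr 2
    ext a
    rw [S.mem_zpowers_t]
    constructor
    · rintro ⟨h3, h4⟩
      by_contra hne
      rw [not_or] at hne
      rcases S.fix_of_mem_H (S.mem_H_iff_fix.mpr h3) hne.1 hne.2 h4 with e | e
      exacts [h2 e.symm, h1 e.symm]
    · rintro (rfl | rfl)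
      · exact one_mem _
      · exact ⟨S.mem_H_iff_fix.mp S.t_mem_H, S.t_smul_iff.mpr (Or.inr ⟨1, rfl⟩)⟩

end Cfsg.Agent.S1153
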