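import Cfsg.Statements.S1235
import Cfsg.Agent.H2.Har3

set_option autoImplicit false
open Cfsg

namespace Cfsg.Agent.S1235

/-- Let G be a finite group, x an involution and T ≤ G a Sylow 2-subgroup of C_G(x) (T ≤ C_G(x) with |C_G(x) : T| odd) which is the internal direct product of a subgroup D that is dihedral (of order ≥ 4) or quasi-dihedral and a Klein four-subgroup B. Suppose that for every involution b ∈ B, T ≤ C_G(b) with |C_G(b) : T| odd. Then every section of G has 2-rank at most 4. -/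
theorem result {G : Type*} [Group G] [Finite G] (x : G) (hx : orderOf x = 2) (T D B : Subgroup G) (hT : IsPGroup 2 T) (hTx : T ≤ Subgroup.centralizer ({x} : Set G)) (hTxi : Odd (T.relIndex (Subgroup.centralizer ({x} : Set G)))) (hprod : Cfsg.IsInternalDirectProduct D B T) (hD : (∃ m : ℕ, 2 ≤ m ∧ Nonempty (D ≃* DihedralGroup m)) ∨ Cfsg.IsQuasiDihedral D) (hB : IsKleinFour B) (hTb : ∀ b ∈ B, orderOf b = 2 → T ≤ Subgroup.centralizer ({b} : Set G) ∧ Odd (T.relIndex (Subgroup.centralizer ({b} : Set G)))) : Cfsg.SectionalPRankLE 2 4 G := by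
  have : Fact (Nat.Prime 2) := ⟨Nat.prime_two⟩
  obtain ⟨S, hS⟩ := hT.exists_le_sylow
  obtain ⟨hDT, hBT, hc, hi, hs⟩ := hprod
  have eD := Subgroup.subgroupOfEquivOfLe (hDT.trans hS)
  have eB := Subgroup.subgroupOfEquivOfLe (hBT.trans hS)
  have hBe : ∀ b ∈ B, b * b = 1 := fun b hb =>
    congrArg Subtype.val (IsKleinFour.mul_self (⟨b, hb⟩ : B))
  refine H2.Sec.sectional (k := 4) (H2.Sec.of_sylow S (H2.sec_of_DB S.isPGroup'
    (D := D.subgroupOf S) (B := B.subgroupOf S) (fun a ha b hb => Subtype.ext (hc _ ha _ hb))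
    (by rw [← Subgroup.comap_subtype, ← Subgroup.comap_subtype, ← Subgroup.comap_inf, hi]; simp)
    (by rw [Nat.card_congr eB.toEquiv, hB.card_four]) (fun b hb => Subtype.ext (hBe _ hb))
    (fun b hb b1 y hy => ?_) ?_))
  · rw [← Subgroup.subgroupOf_sup (hDT.trans hS) (hBT.trans hS), hs]
    obtain ⟨h1, h2⟩ := hTb b hb (H9.orderOf_eq_two_iff.2
      ⟨fun e => b1 (Subtype.ext e), hBe _ hb⟩)
    have h3 := Subgroup.relIndex_mul_relIndex T _ _ (le_inf hS h1)
      (inf_le_right : (S : Subgroup G) ⊓ Subgroup.centralizer {(b : G)} ≤ _)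
    rw [← h3, Nat.odd_mul] at h2
    have h4 : IsPGroup 2 ((S : Subgroup G) ⊓ Subgroup.centralizer {(b : G)} : Subgroup G) :=
      S.isPGroup'.to_inf_left
    obtain ⟨n, hn⟩ := h4.index (T.subgroupOf _)
    have h5 := h2.1
    rw [Subgroup.relIndex, hn] at h5
    obtain rfl : n = 0 := by
      rcases n with _ | n
      · rfl
      · exact absurd h5 (by simp [pow_succ])
    exact Subgroup.relIndex_eq_one.1 hn ⟨y.2,
      Subgroup.mem_centralizer_singleton_iff.2 (congrArg Subtype.val hy)⟩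
  · rcases hD with ⟨m, hm, ⟨e⟩⟩ | ⟨n, hn, hc, x, y, hx, hy, hxy⟩
    · exact Or.inl ⟨m, hm, ⟨eD.trans e⟩⟩
    · exact Or.inr ⟨n, hn, (Nat.card_congr eD.toEquiv).trans hc, eD.symm x, eD.symm y,
        by rw [MulEquiv.orderOf_eq, hx], by rw [MulEquiv.orderOf_eq, hy],
        by rw [← map_inv, ← map_mul, ← map_mul, hxy, map_pow]⟩


end Cfsg.Agent.S1235
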