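import Cfsg.Statements.S1313
import Cfsg.Agent.H52.Local

set_option autoImplicit false
open Cfsg

namespace Cfsg.Agent.S1313

/-- For a finite group H, |H| ≤ |F*(H)|!. -/
theorem result {H : Type*} [Group H] [Finite H] : Nat.card H ≤ Nat.factorial (Nat.card ↥(Cfsg.generalizedFittingSubgroup H)) := by
  classical
  have := H52.fstar_normal (G := H)
  set F := generalizedFittingSubgroup H
  have hA : Nat.card (MulAut F) ≤ (Nat.card F - 1).factorial := by
    let φ : MulAut F → Equiv.Perm {x : F // x ≠ 1} := fun a =>
      Equiv.Perm.subtypePerm a.toEquiv (fun x => by simp)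
    have hφ : Function.Injective φ := by
      intro a b h
      ext x
      by_cases hx : x = 1
      · simp [hx]
      · exact congrArg (fun y : {x : F // x ≠ 1} => ((y : F) : H)) (DFunLike.congr_fun h ⟨x, hx⟩)
    have h1 := Nat.card_le_card_of_injective φ hφ
    have := Fintype.ofFinite F
    rwa [Nat.card_perm, Nat.card_eq_fintype_card (α := {x : F // x ≠ 1}), Fintype.card_subtype_compl,
      Fintype.card_subtype_eq, ← Nat.card_eq_fintype_card] at h1
  have hk : (MulAut.conjNormal (H := F)).ker ≤ F := by
    refine le_trans (fun x hx => ?_) H52.centralizer_fstar_le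
    intro f hf
    have := congrArg Subtype.val (DFunLike.congr_fun (MonoidHom.mem_ker.mp hx) ⟨f, hf⟩)
    simp only [MulAut.conjNormal_apply, MulAut.one_apply] at this
    exact (mul_inv_eq_iff_eq_mul.mp this).symm
  rw [← Subgroup.card_mul_index (MulAut.conjNormal (H := F)).ker, Subgroup.index_ker,
    ← Nat.mul_factorial_pred Nat.card_pos.ne']
  exact Nat.mul_le_mul (Subgroup.card_le_of_le hk)
    ((Nat.card_le_card_of_injective _ (Subgroup.subtype_injective _)).trans hA)

end Cfsg.Agent.S1313
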