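import Cfsg.Statements.S1458
import Cfsg.Agent.H6.ZJe
import Cfsg.Agent.H6.Section
import Cfsg.Agent.H51.QdInv
import Cfsg.Agent.H99.Involves
import Cfsg.Agent.H3.Fitting
import Cfsg.Agent.H3.Cores

set_option autoImplicit false
open Cfsg

namespace Cfsg.Agent.S1458

/-- Let G be a solvable group of odd order, p a prime and S a Sylow p-subgroup of G. Then the subgroup generated by the centre of the Thompson subgroup of S and O_{p'}(G) is normal in G. -/
theorem result {G : Type*} [Group G] [Finite G] [Group.IsSolvable G] (hodd : Odd (Nat.card G)) (p : ℕ) [Fact p.Prime] (S : Sylow p G) :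
    (Cfsg.centerThompsonOf p (S : Subgroup G) ⊔ Cfsg.pPrimeCore p G).Normal := by
  by_cases hp : p = 2
  · subst hp
    have hS : (S : Subgroup G) = ⊥ := by
      obtain ⟨k, hk⟩ := IsPGroup.iff_card.1 S.isPGroup'
      have hd : Nat.card (S : Subgroup G) ∣ Nat.card G := Subgroup.card_subgroup_dvd_card _
      rw [← Subgroup.card_eq_one]
      rcases k with _ | k
      · simpa using hk
      · exfalso
        have : 2 ∣ Nat.card G := (hk ▸ dvd_pow_self 2 (Nat.succ_ne_zero k)).trans hd
        exact (Nat.not_even_iff_odd.2 hodd) (even_iff_two_dvd.2 this)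
    have : centerThompsonOf 2 (S : Subgroup G) = ⊥ :=
      le_bot_iff.1 ((H51.centerThompsonOf_le 2 (S : Subgroup G)).trans hS.le)
    rw [this, bot_sup_eq]
    infer_instance
  set N := pPrimeCore p G with hN
  let f := QuotientGroup.mk' N
  have hf : Function.Surjective f := QuotientGroup.mk'_surjective N
  let T : Sylow p (G ⧸ N) := S.mapSurjective hf
  have hT : (T : Subgroup (G ⧸ N)) = (S : Subgroup G).map f := rfl
  have hodd' : Odd (Nat.card (G ⧸ N)) :=
    Odd.of_dvd_nat hodd (Subgroup.card_quotient_dvd_card N)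
  have hfree : ¬ Involves (Matrix.SpecialLinearGroup (Fin 2) (ZMod p)) (G ⧸ N) := by
    intro h
    have hd := H99.Involves.card_dvd h
    have h2 : orderOf (-1 : Matrix.SpecialLinearGroup (Fin 2) (ZMod p)) = 2 := by
      refine orderOf_eq_prime (by simp) fun h1 => ?_
      have := congrArg (fun A : Matrix.SpecialLinearGroup (Fin 2) (ZMod p) => A.1 0 0) h1
      simp only [Matrix.SpecialLinearGroup.coe_neg, Matrix.SpecialLinearGroup.coe_one,
        Matrix.neg_apply, Matrix.one_apply_eq] at this
      have h3 : ((2 : ℕ) : ZMod p) = 0 := by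
        push_cast
        linear_combination -this
      rw [ZMod.natCast_eq_zero_iff] at h3
      exact hp ((Nat.prime_dvd_prime_iff_eq Fact.out Nat.prime_two).1 h3)
    have : 2 ∣ Nat.card (G ⧸ N) := (h2 ▸ orderOf_dvd_natCard _).trans hd
    exact (Nat.not_even_iff_odd.2 hodd') (even_iff_two_dvd.2 this)
  have hn : (centerThompsonOf p (T : Subgroup (G ⧸ N))).Normal :=
    H6.zje_normal hp T (H3.centralizer_pCore_le (H3.pPrimeCore_quotient_pPrimeCore p G))
      fun B _ hB => H51.stableOn_of_isNormalizerPStable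
        (H51.isNormalizerPStable_of_SL2Free hp hfree) hB Subgroup.le_normalizer_of_normal
  have hinj : Function.Injective (f.comp (S : Subgroup G).subtype) := by
    rw [← MonoidHom.ker_eq_bot_iff, eq_bot_iff]
    intro x hx
    have hx1 : (x : G) ∈ N := by simpa [f] using hx
    have h1 : orderOf (x : G) ∣ Nat.card N := Subgroup.orderOf_dvd_natCard _ hx1
    obtain ⟨k, hk⟩ := IsPGroup.iff_orderOf.1 S.isPGroup' x
    have h2 : orderOf (x : G) = p ^ k := by rw [← hk]; simp
    have h3 : (p ^ k).Coprime p := h2 ▸ Nat.Coprime.coprime_dvd_left h1 (H3.pPrimeCore_coprime p G)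
    have h4 : p ^ k = 1 := by
      rcases k with _ | k
      · simp
      · exfalso
        exact (Fact.out : p.Prime).one_lt.ne'
          ((Nat.coprime_self p).1
            (Nat.Coprime.coprime_dvd_left (dvd_pow_self p (Nat.succ_ne_zero k)) h3))
    rw [Subgroup.mem_bot]
    exact Subtype.ext (orderOf_eq_one_iff.1 (h2.trans h4))
  have hmap := H6.map_inducedFunctor H6.isCharPFunctor_zjeFun S.isPGroup' hinj
  rw [H6.inducedFunctor_zjeFun, H6.inducedFunctor_zjeFun, ← hT] at hmap
  have : centerThompsonOf p (S : Subgroup G) ⊔ N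
      = (centerThompsonOf p (T : Subgroup (G ⧸ N))).comap f := by
    rw [← hmap, Subgroup.comap_map_eq, QuotientGroup.ker_mk']
  rw [this]
  exact hn.comap f

end Cfsg.Agent.S1458
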