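import Cfsg.Statements.S5560
import Cfsg.Agent.H81.AutSylow
import Cfsg.Agent.H4.CoprimeAction
import Cfsg.Agent.H1.Card

set_option autoImplicit false
open Cfsg

namespace Cfsg.Agent.S5560

open Subgroup Cfsg.Agent.H85 Cfsg.Agent.H81


/-- A Z*-type result for an odd prime p. Let G be a finite group and d an involution of G such that the product of any two conjugates of d has order a power of p. Then the product of any two conjugates of d lies in the largest normal p-subgroup O_p(G); in other words the conjugacy class of d lies in the coset O_p(G)d, and d is central modulo O_p(G). -/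
theorem result {G : Type*} [Group G] [Finite G] {p : ℕ} (hp : p.Prime) (hp2 : p ≠ 2)
    (d : G) (hd : orderOf d = 2)
    (hprod : ∀ a ∈ conjugatesOf d, ∀ b ∈ conjugatesOf d, ∃ k : ℕ, orderOf (a * b) = p ^ k) :
    ∀ a ∈ conjugatesOf d, ∀ b ∈ conjugatesOf d, a * b ∈ Cfsg.pCore p G := by
  haveI : Fact p.Prime := ⟨hp⟩
  have hdd : d ∈ conjugatesOf d := IsConj.refl d
  have hcj : ∀ g : G, g * d * g⁻¹ ∈ conjugatesOf d := fun g => isConj_iff.mpr ⟨g, rfl⟩
  have hd2 := H10.mul_self_of_orderOf_two hd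
  have hdi : d⁻¹ = d := H10.inv_eq_of_orderOf_two hd
  have hiso : IsIsolatedInvolution d := by
    refine ⟨hd, fun g hg => ?_⟩
    obtain ⟨k, hk⟩ := hprod d hdd _ (hcj g)
    have h1 : (d * (g * d * g⁻¹)) ^ 2 = 1 := by
      rw [hg.mul_pow, sq, sq, hd2, one_mul]
      exact H10.mul_self_of_orderOf_two (by rw [H10.orderOf_conj]; exact hd)
    have h2 : Odd (orderOf (d * (g * d * g⁻¹))) := by
      rw [hk]; exact (hp.odd_of_ne_two hp2).pow
    have h3 := H10.eq_one_of_odd_of_sq h2 h1
    rw [← hdi]; nth_rewrite 1 [hdi]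
    exact eq_inv_of_mul_eq_one_right h3
  let O := pPrimeCore 2 G
  have hOc : (Nat.card O).Coprime 2 := H3.pPrimeCore_coprime 2 G
  have hcop : (Nat.card (zpowers d)).Coprime (Nat.card O) := by
    rw [Nat.card_zpowers, hd]; exact hOc.symm
  have hsolv : Group.IsSolvable (zpowers d) ∨ Group.IsSolvable O :=
    Or.inl (Group.isSolvable_of_comm (fun a b => mul_comm' a b))
  have hn : zpowers d ≤ normalizer (O : Set G) := by rw [normalizer_eq_top]; exact le_top
  -- `G = O C(d)`
  have h1 : ∀ g : G, ∃ o ∈ O, o * d * o⁻¹ = g * d * g⁻¹ := by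
    intro g
    obtain ⟨o, ho, hog⟩ := H4.exists_mul_mem_centralizer' (x := g) hn hcop hsolv (by
      intro a ha
      have : zpowers d ≤ ⊥ ⊔ zpowers d := le_sup_right
      rcases mem_sup_zpowers_inv hd2 (by rw [normalizer_eq_top]; trivial) (this ha) with h | h
      · rw [mem_bot.mp h]; simp
      · have : a = d := by rw [← hdi]; exact eq_inv_of_mul_eq_one_left (mem_bot.mp h)
        rw [this]; exact H6.zstar G hiso g)
    refine ⟨o⁻¹, O.inv_mem ho, ?_⟩
    have := hog d (mem_zpowers d)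
    calc o⁻¹ * d * o⁻¹⁻¹ = o⁻¹ * (d * (o * g)) * g⁻¹ := by group
      _ = _ := by rw [this]; group
  obtain ⟨P, hP⟩ := H4.exists_invariant_sylow hn hcop hsolv p
  have hcidx : ∀ q : ℕ, q.Prime → q ∣ ((centralizer {d}).subgroupOf O).index → q = p := by
    intro q hq hdvd
    by_contra hqp
    haveI : Fact q.Prime := ⟨hq⟩
    obtain ⟨R, hR⟩ := H4.exists_invariant_sylow hn hcop hsolv q
    have hle : (R : Subgroup O) ≤ (centralizer {d}).subgroupOf O := by
      intro r hr
      have hr' : (r : G) ∈ (R : Subgroup O).map O.subtype := mem_map_of_mem _ hr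
      have h2 : d * (r * d * (r : G)⁻¹) ∈ (R : Subgroup O).map O.subtype := by
        have := mul_mem ((mem_normalizer_iff.mp (hR (mem_zpowers d)) r).mp hr') (inv_mem hr')
        rw [hdi] at this
        simpa [mul_assoc] using this
      obtain ⟨k, hk⟩ := hprod d hdd _ (hcj r)
      have h3 := H8.eq_one_of_mem_of_coprime (R.isPGroup'.map O.subtype) h2
        (by rw [hk]; exact Nat.Coprime.pow_left k ((Nat.coprime_primes hp hq).mpr (Ne.symm hqp)))
      rw [mem_subgroupOf, ← conj_eq_iff_mem_cent, ← hdi]; nth_rewrite 1 [hdi]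
      exact eq_inv_of_mul_eq_one_right h3
    exact R.not_dvd_index (hdvd.trans (index_dvd_of_le hle))
  have hco : (P : Subgroup O).index.Coprime ((centralizer {d}).subgroupOf O).index := by
    refine Nat.coprime_of_dvd fun q hq h2 h3 => ?_
    rw [hcidx q hq h3] at h2
    exact P.not_dvd_index h2
  set P' := (P : Subgroup O).map O.subtype with hP'
  have h2 : ∀ a ∈ conjugatesOf d, ∃ x ∈ P', a = x * d * x⁻¹ := by
    intro a ha
    obtain ⟨g, rfl⟩ := isConj_iff.mp ha
    obtain ⟨o, ho, hog⟩ := h1 g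
    obtain ⟨x, hx, c, hc, hxc⟩ := H1.factorization_of_coprime_index hco ⟨o, ho⟩
    refine ⟨x, mem_map_of_mem _ hx, ?_⟩
    have h3 : o = x * c := congrArg Subtype.val hxc
    have h4 := conj_eq_iff_mem_cent.mpr (mem_subgroupOf.mp hc)
    rw [← hog, h3]
    calc (x : G) * c * d * ((x : G) * c)⁻¹ = x * (c * d * (c : G)⁻¹) * (x : G)⁻¹ := by group
      _ = _ := by rw [h4]
  let X : Set G := {y | ∃ a ∈ conjugatesOf d, ∃ b ∈ conjugatesOf d, y = a * b}
  have hX : closure X ≤ P' := by
    rw [closure_le]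
    rintro _ ⟨a, ha, b, hb, rfl⟩
    obtain ⟨x, hx, rfl⟩ := h2 a ha
    obtain ⟨y, hy, rfl⟩ := h2 b hb
    have := mul_mem (mul_mem hx ((mem_normalizer_iff.mp (hP (mem_zpowers d)) _).mp
      (mul_mem (inv_mem hx) hy))) (inv_mem hy)
    rw [hdi] at this
    simpa [mul_assoc] using this
  haveI : (closure X).Normal := by
    refine ⟨fun n hn g => ?_⟩
    have : cj g (closure X) ≤ closure X := by
      rw [cj, MonoidHom.map_closure]
      refine closure_mono ?_
      rintro _ ⟨_, ⟨a, ha, b, hb, rfl⟩, rfl⟩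
      refine ⟨g * a * g⁻¹, ha.trans (isConj_iff.mpr ⟨g, rfl⟩), g * b * g⁻¹,
        hb.trans (isConj_iff.mpr ⟨g, rfl⟩), ?_⟩
      simp [mul_assoc]
    exact this (conj_mem_cj hn)
  intro a ha b hb
  exact le_pCore ((P.isPGroup'.map O.subtype).to_le hX) (subset_closure ⟨a, ha, b, hb, rfl⟩)

end Cfsg.Agent.S5560
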