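import Cfsg.Statements.S1624
import Cfsg.Agent.H47.J2Model
import Cfsg.Agent.H47.J2U3

set_option autoImplicit false
open Quaternion
open Cfsg

namespace Cfsg.Agent.S1624

open Cfsg.Agent.H43 Cfsg.Agent.H47 Cfsg.Agent.H47.J2P Cfsg.Spor Cfsg.Agent.H28

/-- The Hall–Janko group contains PSU(3, 3) with index 100 and acts on the 100 cosets with rank 3 and subdegrees 1, 36, 63. -/
theorem result : ∃ H : Subgroup Cfsg.Spor.J2, H.index = 100 ∧ (∃ (F : Type) (_ : Field F) (_ : Fintype F), Fintype.card F = 9 ∧ Nonempty (↥H ≃* Cfsg.PSU 3 F 3)) ∧ ∃ c₁ c₂ : Cfsg.Spor.J2 ⧸ H, (MulAction.orbit ↥H c₁).ncard = 36 ∧ (MulAction.orbit ↥H c₂).ncard = 63 := by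
  let φ : J2 →* Equiv.Perm (Fin 100) := (grp 100 h_E0).subtype.comp eH0.toMonoidHom
  have hφ : Function.Injective φ := (Subgroup.subtype_injective _).comp eH0.injective
  let _ : MulAction J2 (Fin 100) := MulAction.compHom _ φ
  have hm : (MulAction.stabilizer J2 (0 : Fin 100)).map φ = grp 100 h_E1 := by
    rw [← h_stab0]
    ext g
    constructor
    · rintro ⟨x, hx, rfl⟩
      exact ⟨(eH0 x).2, hx⟩
    · rintro ⟨h1, h2⟩
      have : φ (eH0.symm ⟨g, h1⟩) = g := by simp [φ]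
      exact ⟨_, (show φ (eH0.symm ⟨g, h1⟩) • (0 : Fin 100) = 0 by rw [this]; exact h2), this⟩
  let ε : MulAction.stabilizer J2 (0 : Fin 100) ≃* grp 100 h_E1 :=
    (Subgroup.equivMapOfInjective _ φ hφ).trans (MulEquiv.subgroupCongr hm)
  have key : ∀ p : Fin 100, ∃ c : J2 ⧸ MulAction.stabilizer J2 (0 : Fin 100),
      (MulAction.orbit (MulAction.stabilizer J2 (0 : Fin 100)) c).ncard =
        (MulAction.orbit (grp 100 u_E) p).ncard := by
    intro p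
    obtain ⟨γ, hγ, e⟩ := h_prim.1 p
    have hg : φ (eH0.symm ⟨γ, h_eq.le hγ⟩) = γ := by simp [φ]
    refine ⟨QuotientGroup.mk (eH0.symm ⟨γ, h_eq.le hγ⟩), ?_⟩
    rw [← Set.ncard_image_of_injective _ (MulAction.injective_ofQuotientStabilizer J2 (0 : Fin 100)),
      u_eq, ← hm]
    congr 1
    have h0 : ∀ x : J2, MulAction.ofQuotientStabilizer J2 (0 : Fin 100)
        (x • QuotientGroup.mk (eH0.symm ⟨γ, h_eq.le hγ⟩)) = φ x • p := fun x => by
      rw [MulAction.ofQuotientStabilizer_smul, MulAction.ofQuotientStabilizer_mk, ← e]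
      change φ x • φ (eH0.symm ⟨γ, h_eq.le hγ⟩) • (0 : Fin 100) = _
      rw [hg]
      rfl
    ext q
    constructor
    · rintro ⟨_, ⟨x, rfl⟩, rfl⟩
      exact ⟨⟨φ x, x, x.2, rfl⟩, (h0 x).symm⟩
    · rintro ⟨⟨_, x, hx, rfl⟩, rfl⟩
      exact ⟨_, ⟨⟨x, hx⟩, rfl⟩, h0 x⟩
  obtain ⟨e⟩ := equiv_psu
  obtain ⟨c₁, h1⟩ := key ⟨2, by decide⟩
  obtain ⟨c₂, h2⟩ := key ⟨1, by decide⟩
  refine ⟨MulAction.stabilizer J2 (0 : Fin 100), ?_, ⟨F9, inferInstance, inferInstance, card_F9,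
    ⟨ε.trans e⟩⟩, c₁, c₂, h1.trans u_orb36, h2.trans u_orb63⟩
  have := Subgroup.card_mul_index (MulAction.stabilizer J2 (0 : Fin 100))
  rw [Nat.card_congr ε.toEquiv, h_card1, card_J2] at this
  omega

end Cfsg.Agent.S1624
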