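import Cfsg.Statements.S1669
import Cfsg.Agent.H44.RfR

set_option autoImplicit false
open Cfsg

namespace Cfsg.Agent.S1669

/-- Recognition of the Rudvalis group as a rank 3 permutation group: a transitive permutation group on 4060 points in which the stabiliser of a point is isomorphic to the Ree group ²F₄(2) and has two further orbits, of sizes 1755 and 2304, is isomorphic to the Rudvalis group. -/
theorem result {Ω : Type*} [Fintype Ω] [DecidableEq Ω] (hΩ : Fintype.card Ω = 4060) (G : Subgroup (Equiv.Perm Ω)) [MulAction.IsPretransitive G Ω] (a : Ω)  (e : MulAction.stabilizer G a ≃* Cfsg.Lie.twistedF4 (ZMod 2) 1) (b c : Ω) (hb : (MulAction.orbit (MulAction.stabilizer G a) b).ncard = 1755) (hc : (MulAction.orbit (MulAction.stabilizer G a) c).ncard = 2304) : Cfsg.Spor.IsoRu G := by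
  open H44 H44.RfM H44.RfD H44.RfR MulAction in
  obtain ⟨e1⟩ := RfI.isoF
  let e0 : RfM.K ≃* stabilizer G a := e1.trans e.symm
  have hH : Nat.card (stabilizer G a) = 35942400 := by
    rw [← Nat.card_congr e0.toEquiv, RfM.card]
  have hst : ∀ p : Ω, (orbit (stabilizer G a) p).ncard *
      Nat.card (stabilizer (stabilizer G a) p) = 35942400 := fun p => by
    rw [← index_stabilizer, Subgroup.index_mul_card, hH]
  have hJ : Nat.card ((stabilizer (stabilizer G a) c).comap e0.toMonoidHom) = 15600 := by
    have := hst c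
    rw [hc] at this
    rw [Subgroup.comap_equiv_eq_map_symm', Subgroup.card_map_of_injective e0.symm.injective]
    omega
  obtain ⟨x, hx⟩ := RfD.exists_conj hJ
  let e2 : RfM.K ≃* stabilizer G a := (MulAut.conj x).trans e0
  have hK0 : ∀ y, e2 y ∈ stabilizer (stabilizer G a) c ↔ y ∈ K0 := fun y => by
    change x * y * x⁻¹ ∈ (stabilizer (stabilizer G a) c).comap e0.toMonoidHom ↔ _
    rw [hx, RfA.mem_cj]
    simp [mul_assoc]
  have ha : orbit (stabilizer G a) a = {a} := by
    ext p
    exact ⟨fun ⟨y, hy⟩ => hy.symm.trans y.2, fun h => h ▸ mem_orbit_self _⟩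
  have hd : ∀ p q : Ω, (orbit (stabilizer G a) p).ncard ≠ (orbit (stabilizer G a) q).ncard →
      Disjoint (orbit (stabilizer G a) p) (orbit (stabilizer G a) q) := fun p q h =>
    (orbit.eq_or_disjoint p q).resolve_left fun e => h (by rw [e])
  have hu : orbit (stabilizer G a) a ∪ (orbit (stabilizer G a) c ∪ orbit (stabilizer G a) b) =
      Set.univ := by
    have h1 : (orbit (stabilizer G a) a).ncard = 1 := by rw [ha, Set.ncard_singleton]
    rw [Set.eq_univ_iff_ncard, Set.ncard_union_eq (Set.disjoint_union_right.2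
      ⟨hd _ _ (by omega), hd _ _ (by omega)⟩), Set.ncard_union_eq (hd _ _ (by omega)), h1, hb, hc,
      Nat.card_eq_fintype_card, hΩ]
  have hyp : Hyp ((stabilizer G a).subtype.comp e2.toMonoidHom) a c := by
    refine ⟨(stabilizer G a).subtype_injective.comp e2.injective, fun y => ⟨fun h => ?_, ?_⟩,
      hK0, fun p => ?_⟩
    · exact ⟨e2.symm ⟨y, h⟩, by simp⟩
    · rintro ⟨z, rfl⟩
      exact (e2 z).2
    · rcases (hu ▸ Set.mem_univ p : p ∈ _ ∪ (_ ∪ _)) with h | ⟨y, h⟩ | h
      · exact Or.inl (by rwa [ha] at h)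
      · exact Or.inr (Or.inl ⟨e2.symm y, by
          change (e2 (e2.symm y) : G) • c = p
          rw [MulEquiv.apply_symm_apply]
          exact h⟩)
      · refine Or.inr (Or.inr fun Y hY => ?_)
        have h1 := hst p
        rw [orbit_eq_iff.2 h, hb] at h1
        have h2 := Subgroup.card_dvd_of_le (Subgroup.map_le_iff_le_comap.2
          (show Y ≤ (stabilizer (stabilizer G a) p).comap e2.toMonoidHom from hY))
        rwa [Subgroup.card_map_of_injective e2.injective,
          show Nat.card (stabilizer (stabilizer G a) p) = 20480 by omega] at h2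
  obtain ⟨u, hu⟩ := exists_smul_eq G c a
  refine hyp.iso hu ?_
  rw [← (stabilizer G a).index_mul_card, index_stabilizer_of_transitive, hH,
    Nat.card_eq_fintype_card, hΩ]

end Cfsg.Agent.S1669
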