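import Cfsg.Statements.S1684
import Cfsg.Agent.H43.FiIso

set_option autoImplicit false
open Cfsg

namespace Cfsg.Agent.S1684

/-- In the presented Fischer group Fi₂₂, the subgroup generated by the images of a, c, d, e, f, g, h, i and (abcdeh)^5 is a non-split double cover of PSU(6, 2) (realised over a field with four elements). -/
theorem result : ∃ (K : Type) (_ : Field K) (_ : Fintype K), Fintype.card K = 4 ∧ Cfsg.IsNonsplitDoubleCover (((Subgroup.closure ({Cfsg.Spor.Fi22.a, Cfsg.Spor.Fi22.c, Cfsg.Spor.Fi22.d, Cfsg.Spor.Fi22.e, Cfsg.Spor.Fi22.f, Cfsg.Spor.Fi22.g, Cfsg.Spor.Fi22.h, Cfsg.Spor.Fi22.i, (Cfsg.Spor.Fi22.a * Cfsg.Spor.Fi22.b * Cfsg.Spor.Fi22.c * Cfsg.Spor.Fi22.d * Cfsg.Spor.Fi22.e * Cfsg.Spor.Fi22.h) ^ 5} : Set (FreeGroup Cfsg.Spor.Fi22.Gen))).map (PresentedGroup.mk (Cfsg.Spor.coxRelators Cfsg.Spor.Fi22.edges ∪ {r | r ∈ Cfsg.Spor.Fi22.extra})))) (Cfsg.PSU 6 K 2) := by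
  rw [show _ = Cfsg.Agent.H44.wgen Cfsg.Agent.H44.Fi22.gm [[1], [3], [4], [5], [6], [7], [8], [9], [1, 2, 3, 4, 5, 8, 1, 2, 3, 4, 5, 8, 1, 2, 3, 4, 5, 8, 1, 2, 3, 4, 5, 8, 1, 2, 3, 4, 5, 8]] from
    Cfsg.Agent.H44.Fi22.ok.map_closure [(.l .a), (.l .c), (.l .d), (.l .e), (.l .f), (.l .g), (.l .h), (.l .i), (.pow (.mul (.mul (.mul (.mul (.mul (.l .a) (.l .b)) (.l .c)) (.l .d)) (.l .e)) (.l .h)) 5)]
      (by ext; simp [Cfsg.Agent.H44.Ex.val]) (by decide +kernel)]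
  obtain ⟨e, he⟩ := H43.Fi.exists_iso22
  have key : ∀ l, H44.lettersIn 9 l = true → (H44.ev H44.Fi22.gm l ∈
      Subgroup.centralizer {e.symm (H41.L22.F.t 180)} ↔
      H41.wp H41.N22.π (l.map (· - 1)) 180 = 180) := fun l hl => by
    rw [← he l hl, ← H41.FS.commute_t_iff, Subgroup.mem_centralizer_singleton_iff]
    exact ⟨fun h => by simpa [Commute, SemiconjBy] using congrArg e h,
      fun h => e.injective (by simpa using h.eq)⟩
  have := GaloisField.card 2 2 (by norm_num)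
  let _ := Fintype.ofFinite (GaloisField 2 2)
  refine ⟨GaloisField 2 2, inferInstance, inferInstance, by rw [← Nat.card_eq_fintype_card, this]; rfl, ?_⟩
  rw [← (H44.Fi22M.coatom.le_iff.1 (H44.wgen_le.2 fun s hs => (key s (by revert s; decide)).2
    (H41.N22.act.apply_eq (by revert s; decide +kernel)))).resolve_left fun h =>
      H41.N22.act.apply_ne (w := [1]) (p := 180) (q := 180) (by decide +kernel)
        ((key [2] (by decide)).1 (h ▸ Subgroup.mem_top _))]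
  exact H43.Fi.nonsplit22 e.symm 180 _ (by rw [← Nat.card_eq_fintype_card, this]; rfl)

end Cfsg.Agent.S1684
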