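import Cfsg.Agent.H54.Chief
import Cfsg.Statements.S1892
import Cfsg.Agent.H53.PSolv
import Cfsg.Agent.H4.CoprimeAction
import Cfsg.Agent.H54.Comm
import Cfsg.Agent.H85.Basic
import Cfsg.Agent.H3.Cores

set_option autoImplicit false
open Cfsg

namespace Cfsg.Agent.S1892

/-- Let S be a finite p-solvable group with no nontrivial normal subgroup of order prime to p, A a p-subgroup of S, and Q a nontrivial A-invariant subgroup of order prime to p with [A, Q] = Q. Then the commutator [O_p(S), A, Q] is nontrivial. -/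
theorem result {S : Type*} [Group S] [Finite S] {p : ℕ} [Fact p.Prime]
    (hS : Cfsg.IsPSolvable p S) (hred : Cfsg.pPrimeCore p S = ⊥)
    (A Q : Subgroup S) (hA : IsPGroup p A) (hQ : ¬ p ∣ Nat.card Q) (hQ1 : Q ≠ ⊥)
    (hinv : ∀ a ∈ A, ∀ x ∈ Q, a * x * a⁻¹ ∈ Q) (hAQ : ⁅A, Q⁆ = Q) :
    ⁅⁅Cfsg.pCore p S, A⁆, Q⁆ ≠ ⊥ := by
  intro h
  have hc : (Nat.card Q).Coprime p := ((Nat.Prime.coprime_iff_not_dvd Fact.out).2 hQ).symm
  have hP := H85.pCore_isPGroup p S
  set P := pCore p S
  have hAQ' : A ≤ Subgroup.normalizer (Q : Set S) := Subgroup.le_normalizer_iff.2 hinv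
  have h1 : ⁅P, A⁆ ≤ P ⊓ Subgroup.centralizer (Q : Set S) :=
    le_inf (Subgroup.commutator_le_left P A) (Subgroup.commutator_eq_bot_iff_le_centralizer.1 h)
  set P₀ := P ⊓ Subgroup.centralizer (Q : Set S)
  have hA0 : A ≤ Subgroup.normalizer (P₀ : Set S) := H85.le_normalizer_inf
    Subgroup.le_normalizer_of_normal (hAQ'.trans (H85.normalizer_le_normalizer_centralizer Q))
  have hQ0 : Q ≤ Subgroup.normalizer (P₀ : Set S) := H85.le_normalizer_inf
    Subgroup.le_normalizer_of_normal
    (Subgroup.le_normalizer.trans (H85.normalizer_le_normalizer_centralizer Q))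
  have h2 : P₀ = P := by
    by_contra hne
    have h3 := H85.lt_inf_normalizer_of_lt hP (lt_of_le_of_ne inf_le_left hne)
    set N := P ⊓ Subgroup.normalizer (P₀ : Set S)
    have hQN : Q ≤ Subgroup.normalizer (N : Set S) := H85.le_normalizer_inf
      Subgroup.le_normalizer_of_normal (hQ0.trans Subgroup.le_normalizer)
    have h4 : A ≤ H54.relCent P₀ (N : Set S) := H54.le_relCent_iff.2 ⟨hA0, by
      rw [Subgroup.commutator_comm]
      exact (Subgroup.commutator_mono inf_le_left le_rfl).trans h1⟩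
    have h5 : Q ≤ H54.relCent P₀ (N : Set S) := by
      rw [← hAQ]
      exact (Subgroup.commutator_mono h4 le_rfl).trans
        (H54.commutator_le_of_le_normalizer (H54.le_normalizer_relCent hQ0 hQN))
    refine h3.not_ge (le_inf inf_le_left (H4.le_centralizer_of_stable
      (H4.coprime_card_of_isPGroup hc hP.to_inf_left) inf_le_right ?_))
    rw [Subgroup.commutator_comm]
    exact (H54.le_relCent_iff.1 h5).2
  have h3 : Q ≤ P := (Subgroup.le_centralizer_iff.1 (h2.ge.trans inf_le_right)).trans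
    (H53.centralizer_pCore_le hS hred)
  exact hQ1 (by rw [← H3.inf_eq_bot_of_isPGroup_of_coprime hP hc, inf_eq_right.2 h3])

end Cfsg.Agent.S1892
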