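import Cfsg.Statements.S1894
import Cfsg.Agent.H7.PBasic

set_option autoImplicit false
open Cfsg

namespace Cfsg.Agent.S1894

/-- Let P be a finite p-group, A a normal subgroup of P and B an abelian subgroup of A that is normal in P. Then some subgroup C of A containing B is normal in P and is self-centralizing and normal in A (C ∈ SCN(A)). -/
theorem result {P : Type*} [Group P] [Finite P] {p : ℕ} [Fact p.Prime] (hP : IsPGroup p P)
    (A : Subgroup P) [A.Normal] (B : Subgroup P) [B.Normal] (hBA : B ≤ A) (hB : IsMulCommutative B) :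
    ∃ C : Subgroup P, C.Normal ∧ B ≤ C ∧ Cfsg.IsSCN A C := by
  obtain ⟨C, ⟨hCn, hCA, hC⟩, hBC, hmax⟩ := H7.exists_max_ge
    (fun C : Subgroup P => C.Normal ∧ C ≤ A ∧ IsMulCommutative C) (A := B) ⟨inferInstance, hBA, hB⟩
  refine ⟨C, hCn, hBC, hCA, Subgroup.le_normalizer_of_normal, ?_⟩
  have hle : C ≤ A ⊓ Subgroup.centralizer (C : Set P) :=
    le_inf hCA (Subgroup.le_centralizer C)
  by_contra hne
  have hnle : ¬ A ⊓ Subgroup.centralizer (C : Set P) ≤ C := fun h => hne (le_antisymm h hle)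
  obtain ⟨x, hx, hxC, -, hxc⟩ := H7.exists_central_mod hP hnle
  have h1 := hmax (C ⊔ Subgroup.zpowers x)
    ⟨H7.normal_of_commutator_le (H7.commutator_sup_zpowers_le hxc) le_sup_left,
      sup_le hCA (Subgroup.zpowers_le.2 hx.1), H7.isMulCommutative_sup_zpowers hC hx.2⟩ le_sup_left
  exact hxC (h1 ▸ Subgroup.mem_sup_right (Subgroup.mem_zpowers x))

end Cfsg.Agent.S1894
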