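import Cfsg.Statements.S1895
import Cfsg.Agent.H71.BG4
import Cfsg.Agent.H63.BG1
import Cfsg.Agent.H7.CommCalc

set_option autoImplicit false
open Cfsg

namespace Cfsg.Agent.S1895

open Cfsg.Agent.H63 Cfsg.Agent.H67
open scoped commutatorElement

universe u

/-- in a `p`-group (`p` odd) whose elements of order `p` are central, elements of order `p ^ 2` are
central modulo the elements of order `p` -/
theorem comm_pow {G : Type u} [Group G] [Finite G] {p : ℕ} [hp : Fact p.Prime] (h2 : p ≠ 2)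
    (U : Subgroup G) : IsPGroup p U → (∀ y ∈ U, y ^ p = 1 → y ∈ C[U]) →
    ∀ x ∈ U, (x ^ p) ^ p = 1 → ∀ g ∈ U, ⁅x, g⁆ ^ p = 1 := by
  induction U using subgroup_induction with
  | h U ih =>
  intro hU hc x hx hxp g hg
  have hle : Subgroup.zpowers x ⊔ ⁅U, U⁆ ≤ U :=
    sup_le (Subgroup.zpowers_le_of_mem hx) (commutator_le_of_le le_rfl le_rfl)
  rcases hle.eq_or_lt with e | hlt
  · rw [← eq_of_nil_of_sup_derived (isNilpotent_of_isPGroup hp.out hU) e] at hg
    rw [commutatorElement_eq_one_iff_mul_comm.mpr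
      (comm_of_isMulCommutative inferInstance (Subgroup.mem_zpowers x) hg), one_pow]
  have hxM := Subgroup.mem_sup_left (T := ⁅U, U⁆) (Subgroup.mem_zpowers x)
  have hb : g * x⁻¹ * g⁻¹ ∈ Subgroup.zpowers x ⊔ ⁅U, U⁆ := by
    rw [show g * x⁻¹ * g⁻¹ = x⁻¹ * ⁅x, g⁆ by rw [commutatorElement_def]; group]
    exact mul_mem (inv_mem hxM) (Subgroup.mem_sup_right (Subgroup.commutator_mem_commutator hx hg))
  have e1 : (g * x⁻¹ * g⁻¹) ^ p = (x ^ p)⁻¹ := by
    rw [conj_pow, inv_pow, Subgroup.mem_centralizer_iff.mp (inv_mem (hc _ (pow_mem hx p) hxp)) g hg,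
      mul_inv_cancel_right]
  have h1 := ih _ hlt (hU.to_le hle) (fun y hy h => centralizer_anti hle (hc y (hle hy) h)) _ hb
    (by rw [e1, inv_pow, hxp, inv_one]) x hxM
  have h3 := Subgroup.mem_centralizer_iff.mp (hc _ (commutator_le_of_le le_rfl le_rfl
    (Subgroup.commutator_mem_commutator (hle hb) hx)) h1)
  rw [show ⁅x, g⁆ = x * (g * x⁻¹ * g⁻¹) by rw [commutatorElement_def]; group,
    H7.mul_pow_of_class2 hp.out h2 (h3 _ hx) (h3 _ (hle hb)) h1, e1, mul_inv_cancel]

theorem central_series {p : ℕ} [hp : Fact p.Prime] (h2 : p ≠ 2) (n : ℕ) :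
    ∀ {G : Type u} [Group G] [Finite G] (U A : Subgroup G), Nat.card U = n → IsPGroup p U →
    A ≤ N[U] → (∀ y ∈ U, y ^ p = 1 → y ∈ C[U]) → Nat.card (omegaOne p U) ≤ p ^ 2 →
    ∀ Φ : Subgroup G → Prop, Φ ⊥ → (∀ N N' : Subgroup G, N ≤ N' → N' ≤ U → A ≤ N[N'] →
      N.relIndex N' ≤ p ^ 2 → Φ N → Φ N') → Φ U := by
  induction n using Nat.strong_induction_on with
  | h n ih =>
  intro G _ _ U A hn hU hA hc hO Φ h0 hstep
  by_cases hU1 : U = ⊥
  · rwa [hU1]
  set V := omegaOne p U with hV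
  have hVU : V ≤ U := omegaOne_le p U
  have hVC : V ≤ C[U] := omegaOne_le_iff.mpr hc
  have hVn : V ⊴ U := ⟨hVU, le_normalizer_of_le_centralizer' hVC⟩
  have hVp : ∀ y ∈ V, y ^ p = 1 := fun y hy => H71.om1_pow_of_comm
    (isMulCommutative_center U) ((omegaOne_le_iff.mpr fun z hz h => mem_omegaOne ⟨hz, hc z hz h⟩ h :
      V ≤ omegaOne p Z[U]) hy)
  have hAV : A ≤ N[V] := hA.trans (H71.normalizer_le_normalizer_om1 U)
  have hcen : ∀ y ∈ U, coset V y ^ p = 1 → ∀ g ∈ U, ⁅y, g⁆ ∈ V := fun y hy h g hg => by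
    rw [← coset_pow (hVn.norm hy), coset_eq_one_iff (pow_mem (hVn.norm hy) p)] at h
    exact mem_omegaOne (commutator_le_of_le le_rfl le_rfl (Subgroup.commutator_mem_commutator hy hg))
      (comm_pow h2 U hU hc y hy (hVp _ h) g hg)
  have hc' : ∀ y ∈ U /ᵍ V, y ^ p = 1 → y ∈ C[U /ᵍ V] := by
    intro y hy h
    obtain ⟨y, hy', hyn, rfl⟩ := mem_quo.mp hy
    refine Subgroup.mem_centralizer_iff.mpr fun g hg => ?_
    obtain ⟨g, hg', hgn, rfl⟩ := mem_quo.mp hg
    rw [eq_comm, ← commutatorElement_eq_one_iff_mul_comm, commutatorElement_def, ← coset_inv hyn,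
      ← coset_inv hgn, ← coset_mul hyn hgn, ← coset_mul (mul_mem hyn hgn) (inv_mem hyn),
      ← coset_mul (mul_mem (mul_mem hyn hgn) (inv_mem hyn)) (inv_mem hgn)]
    exact coset_eq_one (hcen y hy' h g hg')
  rw [← quo_cosetpre_of_normal hVn]
  refine ih _ (hn ▸ card_quo_lt hVn (H71.om1_ne_bot hU hU1)) (U /ᵍ V) (A /ᵍ V) rfl
    (quo_isPGroup V hU) (quo_norms V hA) hc' ?_ (fun N => Φ (cosetpre V N)) ?_ ?_
  · set W := cosetpre V (omegaOne p (U /ᵍ V)) with hW
    have hWU : W ≤ U := (cosetpre_le_iff hVn).mpr (omegaOne_le _ _)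
    have hWp : ∀ y ∈ W, coset V y ^ p = 1 := fun y hy => H71.om1_pow_of_comm
      (isMulCommutative_center (U /ᵍ V)) ((omegaOne_le_iff.mpr fun z hz h =>
        mem_omegaOne ⟨hz, hc' z hz h⟩ h : _ ≤ omegaOne p Z[U /ᵍ V]) (mem_cosetpre.mp hy).2)
    let f : W →* V := MonoidHom.mk' (fun y => ⟨(y : G) ^ p, by
      rw [← coset_eq_one_iff (pow_mem (hVn.norm (hWU y.2)) p), coset_pow (hVn.norm (hWU y.2))]
      exact hWp y y.2⟩) fun a b => Subtype.ext (by
        have h3 := hcen b (hWU b.2) (hWp b b.2) a (hWU a.2)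
        have h4 := Subgroup.mem_centralizer_iff.mp (hVC h3)
        exact H7.mul_pow_of_class2 hp.out h2 (h4 _ (hWU a.2)) (h4 _ (hWU b.2)) (hVp _ h3))
    have hk : f.ker = V.subgroupOf W := Subgroup.ext fun y =>
      ⟨fun h => mem_omegaOne (hWU y.2) (congrArg Subtype.val h), fun h => Subtype.ext (hVp _ h)⟩
    have h3 : V.relIndex W ≤ Nat.card V := by
      rw [Subgroup.relIndex, ← hk, Subgroup.index_ker]
      exact Nat.card_le_card_of_injective _ Subtype.val_injective
    rw [← card_quo (cosetpre_le_norm _), cosetpre_quo] at h3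
    exact h3.trans hO
  · rw [cosetpre_bot]
    exact hstep ⊥ V bot_le hVU hAV (by rwa [Subgroup.relIndex_bot_left]) h0
  · exact fun N N' h1 h3 h4 h5 => hstep _ _ (cosetpre_mono h1) ((cosetpre_le_iff hVn).mpr h3)
      (le_norm_cosetpre hAV h4) (by rwa [relIndex_cosetpre])

theorem rank_two_series {G : Type u} [Group G] [Finite G] {p : ℕ} [hp : Fact p.Prime] (h2 : p ≠ 2)
    {R : Subgroup G} (hR : IsPGroup p R) (hr : H71.Rk2 p R) (Φ : Subgroup G → Prop) (h0 : Φ ⊥)
    (hstep : ∀ N N' : Subgroup G, N ≤ N' → N' ≤ R → N[R] ≤ N[N'] → N.relIndex N' ≤ p ^ 2 →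
      Φ N → Φ N') : Φ R := by
  by_cases hcyc : IsCyclic R
  · have hab : IsMulCommutative R := inferInstance
    exact central_series h2 _ R N[R] rfl hR le_rfl (fun y hy _ => Subgroup.le_centralizer R hy)
      (hr _ (omegaOne_le _ _) (H71.om1_elem_of_comm hab)) Φ h0 hstep
  obtain ⟨hnc, hWp⟩ := H71.om1_ucn2 hR h2 hcyc
  set W := omegaOne p (ucnOf 2 R) with hW
  have hW2 : W ≤ ucnOf 2 R := omegaOne_le _ _
  have hWR : W ≤ R := hW2.trans (H71.ucnOf_two_le R)
  have hNW : N[R] ≤ N[W] := (H71.norm_le_norm_ucnOf 2 R).trans (H71.normalizer_le_normalizer_om1 _)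
  obtain ⟨E, hE, hEn⟩ := H71.odd_normal_p2Elem_exists hR (H71.odd_card_of_isPGroup hR h2)
    ⟨hWR, Subgroup.le_normalizer.trans hNW⟩ hnc
  have hmax : ∀ y ∈ R ⊓ C[W], y ^ p = 1 → y ∈ E := fun y hy h => by
    by_contra h3
    have h4 := hE.mono hWR |>.sup_zpowers hy.1 (centralizer_anti hE.le hy.2) h h3
    have h5 := hr _ h4.le h4.elemAb
    rw [h4.card] at h5
    exact absurd ((Nat.pow_le_pow_iff_right hp.out.one_lt).mp h5) (by omega)
  refine hstep (R ⊓ C[W]) R inf_le_left le_rfl le_rfl ?_ (central_series h2 _ _ N[R] rfl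
    (hR.to_le inf_le_left) (le_normalizer_inf le_rfl (le_normalizer_centralizer hNW))
    (fun y hy h => Subgroup.le_centralizer_iff.mp inf_le_right (hE.le (hmax y hy h)))
    (hE.card ▸ card_le_of_le' (omegaOne_le_iff.mpr hmax)) Φ h0
    fun N N' h1 h3 => hstep N N' h1 (h3.trans inf_le_left))
  have hEi := H71.relIndex_cent_le_prime hR hE.isPGroup hEn.norm hE.card.le
  rw [Subgroup.inf_relIndex_left]
  rcases hE.le.eq_or_lt with e | hlt
  · rw [← e]
    exact hEi.trans (Nat.le_self_pow two_ne_zero p)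
  obtain ⟨w, hw, hwE⟩ := SetLike.exists_of_lt hlt
  have hZ : IsElementaryAbelian p (W ⊓ C[R] ⊔ Subgroup.zpowers w) := by
    refine elemAb_sup ⟨isMulCommutative_of_le (isMulCommutative_center R) (inf_le_inf_right _ hWR),
      fun a ha => hWp a ha.1⟩ (elemAb_zpowers (hWp w hw))
      (inf_le_right.trans (centralizer_anti (Subgroup.zpowers_le_of_mem (hWR hw))))
  have hZR : W ⊓ C[R] ⊔ Subgroup.zpowers w ≤ W := sup_le inf_le_left (Subgroup.zpowers_le_of_mem hw)
  have hn : R ≤ N[W ⊓ C[R] ⊔ Subgroup.zpowers w] := by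
    refine le_norm_of_commutator_le_left ?_
    refine le_trans ?_ le_rfl
    exact (Subgroup.commutator_mono hZR le_rfl).trans ((le_inf
      (commutator_le_of_norm_left (Subgroup.le_normalizer.trans hNW))
      ((Subgroup.commutator_mono hW2 le_rfl).trans (H71.comm_ucnOf_two_le R))).trans le_sup_left)
  have h3 := H71.relIndex_cent_le_prime hR (elemAb_isPGroup hZ) hn (hr _ (hZR.trans hWR) hZ)
  have h4 : E ⊔ Subgroup.zpowers w = W := by
    refine eq_of_le_of_card_le (sup_le hE.le (Subgroup.zpowers_le_of_mem hw)) ?_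
    rw [H71.card_sup_zpowers' (hEn.norm (hWR hw)) hwE (by rw [hWp w hw]; exact one_mem _), hE.card,
      ← pow_succ]
    exact H71.card_le_cube_rel (hr.mono hWR) hWp
  have h5 : C[E] ⊓ C[W ⊓ C[R] ⊔ Subgroup.zpowers w] ≤ C[W] := by
    rw [← centralizer_sup]
    exact centralizer_anti (h4.ge.trans (sup_le_sup_left le_sup_right _))
  refine (Nat.le_of_dvd (Nat.pos_of_ne_zero Subgroup.FiniteIndex.index_ne_zero)
    (Subgroup.relIndex_dvd_of_le_left R h5)).trans (Subgroup.relIndex_inf_le.trans ?_)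
  rw [sq]
  exact Nat.mul_le_mul hEi h3


/-- Let p be an odd prime and G a finite p-solvable group with no elementary abelian subgroup of order p³. Then every chief factor H/K of G (H, K normal in G with no normal subgroup of G strictly between them) whose order is a power of p has order p or p². -/
theorem result {G : Type*} [Group G] [Finite G] {p : ℕ} [Fact p.Prime] (hp : p ≠ 2)
    (hG : Cfsg.IsPSolvable p G) (hr : Cfsg.PRankLE p 2 G)
    (H K : Subgroup G) [H.Normal] [K.Normal] (hKH : K < H) (hpow : ∃ n : ℕ, K.relIndex H = p ^ n)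
    (hchief : ∀ L : Subgroup G, L.Normal → K ≤ L → L ≤ H → L = K ∨ L = H) :
    K.relIndex H = p ∨ K.relIndex H = p ^ 2 := by
  have hpp : p.Prime := Fact.out
  obtain ⟨n, hn⟩ := hpow
  have hHn : H ⊴ ⊤ := normalIn_top_iff.mpr inferInstance
  have hKn : K ⊴ ⊤ := normalIn_top_iff.mpr inferInstance
  have hc : ChiefFactor ⊤ K H := ⟨hHn, hKH, hKn.norm, fun W h1 h3 h4 =>
    hchief W (normalIn_top_iff.mp ⟨le_top, h4⟩) h1 h3⟩
  have hU : PiNat {p} (K.relIndex H) := hn ▸ piNat_singleton_pow hpp n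
  have hUp := (isPGroup_quo_iff hpp (le_top.trans hKn.norm)).2 hU
  have hUU : ⁅H, H⁆ ≤ K := H71.chief_comm_le_of_pow hc hU hHn fun x hx => by
    obtain ⟨k, hk⟩ := hUp ⟨x, hx⟩
    exact ⟨k, by rw [show x ^ p ^ k = 1 from congrArg Subtype.val hk]; exact one_mem _⟩
  obtain ⟨R, hR⟩ := exists_syl p H
  have hRH := hall_le hR
  have hn2 : n ≤ 2 := by
    by_contra h3
    have h4 := rank_two_series hp (syl_isPGroup hR) (fun E _ hE => hr E hE.1 hE.2) (· ≤ K) bot_le
      fun N N' h4 h5 h6 h7 h8 => by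
        have h9 : ⊤ ≤ N[K ⊔ N'] := by
          rw [← frattini_arg hHn hR]
          exact sup_le (le_normalizer_of_commutator_le (hUU.trans le_sup_left)
            (sup_le hKH.le (h5.trans hRH)))
            (le_normalizer_sup (le_top.trans hKn.norm) (inf_le_right.trans h6))
        rcases hc.eq_or_eq le_sup_left (sup_le hKH.le (h5.trans hRH)) h9 with e | e
        · exact le_sup_right.trans e.le
        · rw [← e, Subgroup.relIndex_sup_left] at hn
          have h10 := (Nat.le_of_dvd (Nat.pos_of_ne_zero Subgroup.FiniteIndex.index_ne_zero)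
            (Subgroup.relIndex_dvd_of_le_left N' h8)).trans h7
          rw [hn, Nat.pow_le_pow_iff_right hpp.one_lt] at h10
          exact absurd h10 h3
    have h5 := hall_sup_of_relIndex hR hKH.le hU
    exact hKH.ne ((sup_eq_right.mpr h4).symm.trans h5)
  have hn0 : n ≠ 0 := by
    rintro rfl
    exact hKH.not_ge (Subgroup.relIndex_eq_one.mp hn)
  rw [hn]
  interval_cases n <;> simp_all

end Cfsg.Agent.S1895
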