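import Cfsg.Statements.S1898
import Cfsg.Agent.H7.Small
import Cfsg.Agent.H83.Base

set_option autoImplicit false
open Cfsg

namespace Cfsg.Agent.S1898

open scoped commutatorElement in
/-- Let X be a finite 2-group whose derived subgroup is elementary abelian and central. Then the subgroup generated by the elements of order dividing 4 has exponent dividing 4, and every automorphism of X fixing each element of order dividing 4 has 2-power order. -/
theorem result {X : Type*} [Group X] [Finite X] (hX : IsPGroup 2 X)
    (hel : Cfsg.IsElementaryAbelian 2 (commutator X)) (hcen : commutator X ≤ Subgroup.center X) :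
    (∀ x ∈ Subgroup.closure {g : X | g ^ 4 = 1}, x ^ 4 = 1) ∧
      ∀ φ : MulAut X, (∀ g : X, g ^ 4 = 1 → φ g = g) → ∃ k : ℕ, φ ^ (2 ^ k) = 1 := by
  have hc : ∀ g x y : X, Commute g ⁅x, y⁆ := fun g x y =>
    Subgroup.mem_center_iff.mp (hcen (Subgroup.commutator_mem_commutator (Subgroup.mem_top x)
      (Subgroup.mem_top y))) g
  constructor
  · intro x hx
    refine H7.pow_eq_one_of_mem_closure (fun a b ha hb => ?_) hx
    rw [H7.mul_pow_four (hc _ _ _) (hc _ _ _) (hel.2 _ (Subgroup.commutator_mem_commutator
      (Subgroup.mem_top _) (Subgroup.mem_top _))), ha, hb, one_mul]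
  · intro φ h
    obtain ⟨k, hk⟩ := H83.coprime_orderOf_pow_ppow (p := 2) φ
    refine ⟨k, H7.aut_eq_one_of_fixes_small hX _ hk fun x hx => ?_⟩
    generalize 2 ^ k = n
    induction n with
    | zero => rfl
    | succ n ih => rw [pow_succ, MulAut.mul_apply, h x (H7.small_iff_two.mp hx), ih]

end Cfsg.Agent.S1898
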