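import Cfsg.Statements.S1899
import Cfsg.Agent.H7.PBasic

set_option autoImplicit false
open Cfsg

namespace Cfsg.Agent.S1899

/-- Let a dihedral group of order 2n, n odd and n > 1, act on a finite abelian 2-group A through automorphisms d and t with d^n = 1, t² = 1 and t d t⁻¹ = d⁻¹, and suppose that d fixes only the identity. Then A is the internal direct product of C_A(t) and its image under d. -/
theorem result {A : Type*} [CommGroup A] [Finite A] (hA : IsPGroup 2 A)
    {n : ℕ} (hn : Odd n) (hn1 : 1 < n) (d t : MulAut A) (hd : d ^ n = 1) (ht : t ^ 2 = 1) (hdt : t * d * t⁻¹ = d⁻¹)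
    (hfix : ∀ a : A, d a = a → a = 1) :
    (MulEquiv.toMonoidHom t).eqLocus (MonoidHom.id A) ⊓ ((MulEquiv.toMonoidHom t).eqLocus (MonoidHom.id A)).map d.toMonoidHom = ⊥ ∧
      (MulEquiv.toMonoidHom t).eqLocus (MonoidHom.id A) ⊔ ((MulEquiv.toMonoidHom t).eqLocus (MonoidHom.id A)).map d.toMonoidHom = ⊤ := by
  have hdt' : ∀ a, t (d a) = d⁻¹ (t a) := fun a => by
    have : t * d = d⁻¹ * t := by rw [← hdt]; group
    exact DFunLike.congr_fun this a
  have htt : ∀ a, t (t a) = a := fun a => by
    have := DFunLike.congr_fun ht a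
    rwa [pow_two] at this
  have hd2 : ∀ b, d⁻¹ b = d b → b = 1 := by
    intro b hb
    apply hfix
    have h1 : (d ^ 2) b = b := by
      rw [pow_two, MulAut.mul_apply, ← hb]; simp
    have h2 : ∀ k : ℕ, (d ^ (2 * k)) b = b := by
      intro k
      induction k with
      | zero => rfl
      | succ k ih => rw [mul_add, pow_add, MulAut.mul_apply, mul_one, h1, ih]
    obtain ⟨k, rfl⟩ := hn
    have h3 := DFunLike.congr_fun hd b
    rwa [pow_succ', MulAut.mul_apply, h2] at h3
  set C := (MulEquiv.toMonoidHom t).eqLocus (MonoidHom.id A) with hC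
  let f : A →* A := MonoidHom.id A * MulEquiv.toMonoidHom t
  have hf : ∀ a, f a = a * t a := fun a => rfl
  have h1 : C ⊓ C.map d.toMonoidHom = ⊥ := by
    rw [eq_bot_iff]
    rintro _ ⟨ha, b, hb, rfl⟩
    have ha' : t (d b) = d b := ha
    have hb' : t b = b := hb
    rw [hdt', hb'] at ha'
    rw [hd2 b ha']
    simp
  have h2 : f.ker ⊓ f.ker.map d.toMonoidHom = ⊥ := by
    rw [eq_bot_iff]
    rintro _ ⟨ha, b, hb, rfl⟩
    have ha' : d b * t (d b) = 1 := ha
    have hb' : b * t b = 1 := hb
    rw [hdt', eq_inv_of_mul_eq_one_right hb', map_inv, mul_inv_eq_one] at ha'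
    rw [hd2 b ha'.symm]
    simp
  have hsq : ∀ K : Subgroup A, K ⊓ K.map d.toMonoidHom = ⊥ →
      Nat.card (K ⊔ K.map d.toMonoidHom : Subgroup A) = Nat.card K * Nat.card K := by
    intro K hK
    have := H7.card_sup_mul_card_inf K (K.map d.toMonoidHom)
    rwa [hK, Subgroup.card_bot, mul_one, Subgroup.card_map_of_injective d.injective] at this
  have h3 : f.range ≤ C := by
    rintro _ ⟨a, rfl⟩
    change t (a * t a) = a * t a
    rw [map_mul, htt, mul_comm]
  have h4 : Nat.card A ≤ Nat.card f.ker * Nat.card C := by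
    rw [← f.ker.card_mul_index, Subgroup.index_ker]
    exact Nat.mul_le_mul_left _ (Subgroup.card_le_of_le h3)
  have h5 : Nat.card f.ker * Nat.card f.ker ≤ Nat.card A := by
    rw [← hsq _ h2]; exact Subgroup.card_le_card_group _
  refine ⟨h1, Subgroup.eq_top_of_le_card _ ?_⟩
  rw [hsq _ h1]
  have hpos : 0 < Nat.card A := Nat.card_pos
  nlinarith [Nat.mul_le_mul h4 h4, Nat.mul_le_mul_right (Nat.card C * Nat.card C) h5]

end Cfsg.Agent.S1899
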