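import Cfsg.Statements.S1900
import Cfsg.Agent.H56.SignT
import Cfsg.Agent.H4.CoprimeGen
import Cfsg.Agent.H3.Cores
import Cfsg.Agent.H54.Chief

set_option autoImplicit false
open Cfsg

namespace Cfsg.Agent.S1900

/-- Let S = PQ be a finite group with P a normal Sylow p-subgroup and Q elementary abelian of order q², q a prime different from p. If exactly two subgroups X₁, X₂ of order q in Q have a nontrivial centralizer in P, then P is the internal direct product of C_P(X₁) and C_P(X₂): they commute elementwise, meet trivially and generate P. -/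
theorem result {S : Type*} [Group S] [Finite S] {p q : ℕ} [Fact p.Prime] [Fact q.Prime] (hpq : p ≠ q)
    (P : Sylow p S) [(P : Subgroup S).Normal] (Q : Subgroup S) (hQ : Cfsg.IsElementaryAbelian q Q) (hQc : Nat.card Q = q ^ 2)
    (hS : (P : Subgroup S) ⊔ Q = ⊤)
    (X₁ X₂ : Subgroup S) (h₁ : X₁ ≤ Q) (h₂ : X₂ ≤ Q) (h₁₂ : X₁ ≠ X₂) (hc₁ : Nat.card X₁ = q) (hc₂ : Nat.card X₂ = q)
    (hf₁ : (P : Subgroup S) ⊓ Subgroup.centralizer (X₁ : Set S) ≠ ⊥)
    (hf₂ : (P : Subgroup S) ⊓ Subgroup.centralizer (X₂ : Set S) ≠ ⊥)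
    (honly : ∀ X : Subgroup S, X ≤ Q → Nat.card X = q →
      (P : Subgroup S) ⊓ Subgroup.centralizer (X : Set S) ≠ ⊥ → X = X₁ ∨ X = X₂) :
    ⁅(P : Subgroup S) ⊓ Subgroup.centralizer (X₁ : Set S), (P : Subgroup S) ⊓ Subgroup.centralizer (X₂ : Set S)⁆ = ⊥ ∧
      ((P : Subgroup S) ⊓ Subgroup.centralizer (X₁ : Set S)) ⊓ ((P : Subgroup S) ⊓ Subgroup.centralizer (X₂ : Set S)) = ⊥ ∧
      ((P : Subgroup S) ⊓ Subgroup.centralizer (X₁ : Set S)) ⊔ ((P : Subgroup S) ⊓ Subgroup.centralizer (X₂ : Set S)) = P := by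
  have hq : q.Prime := Fact.out
  have hp : p.Prime := Fact.out
  have hQc' := hQ.1
  have hcopQ : (Nat.card Q).Coprime p := by
    rw [hQc]; exact Nat.Coprime.pow_left _ ((Nat.coprime_primes hq hp).2 hpq.symm)
  have hQP : Q ≤ Subgroup.normalizer ((P : Subgroup S) : Set S) := Subgroup.le_normalizer_of_normal
  have hord : ∀ a ∈ Q, a ≠ 1 → Nat.card (Subgroup.zpowers a) = q := fun a ha h1 => by
    rw [Nat.card_zpowers]; exact orderOf_eq_prime (hQ.2 a ha) h1
  have hcz : ∀ a : S, Subgroup.centralizer ((Subgroup.zpowers a : Subgroup S) : Set S) =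
      Subgroup.centralizer ({a} : Set S) := fun a => by
    rw [Subgroup.zpowers_eq_closure, Subgroup.centralizer_closure]
  have hprime : ∀ X Y : Subgroup S, Nat.card X = q → X ⊓ Y = ⊥ ∨ X ≤ Y := by
    intro X Y hX
    have h := Subgroup.card_dvd_of_le (inf_le_left : X ⊓ Y ≤ X)
    rw [hX] at h
    rcases (Nat.dvd_prime hq).1 h with h | h
    · exact Or.inl (Subgroup.eq_bot_of_card_eq _ h)
    · exact Or.inr (inf_eq_left.1 (Subgroup.eq_of_le_of_card_ge inf_le_left (by rw [h, hX])))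
  have hX12 : X₁ ⊓ X₂ = ⊥ := (hprime X₁ X₂ hc₁).resolve_right fun h =>
    h₁₂ (Subgroup.eq_of_le_of_card_ge h (by rw [hc₁, hc₂]))
  have hprod := (H56.card_mul_card_eq_iff h₁ h₂ hX12).1 (by rw [hc₁, hc₂, hQc, sq])
  have hne : ∀ X : Subgroup S, Nat.card X = q → ∃ x ∈ X, x ≠ 1 := fun X hX => by
    by_contra h
    push Not at h
    rw [(Subgroup.eq_bot_iff_forall _).2 h, Subgroup.card_bot] at hX
    exact hq.one_lt.ne hX
  set P₁ := (P : Subgroup S) ⊓ Subgroup.centralizer (X₁ : Set S) with hP₁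
  set P₂ := (P : Subgroup S) ⊓ Subgroup.centralizer (X₂ : Set S) with hP₂
  have hinf : P₁ ⊓ P₂ = ⊥ := by
    by_contra hb
    obtain ⟨x₁, hx₁, hx₁'⟩ := hne X₁ hc₁
    obtain ⟨x₂, hx₂, hx₂'⟩ := hne X₂ hc₂
    have h3 : x₁ * x₂ ∉ X₁ := fun h => hx₂' (by
      have : x₂ ∈ X₁ ⊓ X₂ := ⟨by simpa using X₁.mul_mem (X₁.inv_mem hx₁) h, hx₂⟩
      rwa [hX12] at this)
    have h4 : x₁ * x₂ ∉ X₂ := fun h => hx₁' (by
      have : x₁ ∈ X₁ ⊓ X₂ := ⟨hx₁, by simpa using X₂.mul_mem h (X₂.inv_mem hx₂)⟩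
      rwa [hX12] at this)
    have h5 : x₁ * x₂ ∈ Q := Q.mul_mem (h₁ hx₁) (h₂ hx₂)
    rcases honly (Subgroup.zpowers (x₁ * x₂)) (Subgroup.zpowers_le.2 h5)
      (hord _ h5 fun h => h3 (h ▸ X₁.one_mem)) (fun h => hb (by
        rw [eq_bot_iff, ← h, hcz]
        rintro y ⟨⟨hy, hy1⟩, -, hy2⟩
        refine ⟨hy, Subgroup.mem_centralizer_singleton_iff.2 ?_⟩
        rw [← mul_assoc, ← hy1 _ hx₁, mul_assoc, ← hy2 _ hx₂, mul_assoc])) with h | h
    · exact h3 (h ▸ Subgroup.mem_zpowers _)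
    · exact h4 (h ▸ Subgroup.mem_zpowers _)
  have hnc : ¬ IsCyclic Q := by
    intro h
    obtain ⟨⟨a, ha⟩, hg⟩ := h.exists_generator
    have h3 := orderOf_eq_card_of_forall_mem_zpowers hg
    rw [Subgroup.orderOf_mk, hQc] at h3
    have h4 := Nat.le_of_dvd hq.pos (h3 ▸ orderOf_dvd_of_pow_eq_one (hQ.2 a ha))
    nlinarith [hq.two_le]
  have hgen : ∀ K : Subgroup S, K ≤ P → Q ≤ Subgroup.normalizer (K : Set S) →
      K ≤ (K ⊓ P₁) ⊔ (K ⊓ P₂) := by
    intro K hK hQK
    refine H4.le_of_centralizer_singleton_le hnc hQK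
      (H4.coprime_card_of_isPGroup hcopQ (P.isPGroup'.to_le hK)) fun a ha ha1 => ?_
    by_cases hb : (P : Subgroup S) ⊓ Subgroup.centralizer ((Subgroup.zpowers a : Subgroup S) : Set S) = ⊥
    · rw [hcz] at hb
      exact ((inf_le_inf_right _ hK).trans hb.le).trans bot_le
    · rcases honly _ (Subgroup.zpowers_le.2 ha) (hord a ha ha1) hb with h | h
      · refine le_trans ?_ le_sup_left
        rw [hP₁, ← h, hcz]
        exact le_inf inf_le_left (inf_le_inf_right _ hK)
      · refine le_trans ?_ le_sup_right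
        rw [hP₂, ← h, hcz]
        exact le_inf inf_le_left (inf_le_inf_right _ hK)
  have hsup : P₁ ⊔ P₂ = P := le_antisymm (sup_le inf_le_left inf_le_left)
    ((hgen P le_rfl hQP).trans (sup_le_sup inf_le_right inf_le_right))
  refine ⟨?_, hinf, hsup⟩
  have hQC : ∀ X : Subgroup S, X ≤ Q → Q ≤ Subgroup.normalizer
      (((P : Subgroup S) ⊓ Subgroup.centralizer (X : Set S) : Subgroup S) : Set S) := fun X hX =>
    H4.le_normalizer_inf hQP (H4.le_normalizer_centralizer
      ((H4.le_normalizer_of_le_of_isMulCommutative hX).trans (Subgroup.centralizer_le_normalizer _)))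
  have hnormal : ∀ W : Subgroup S, (P : Subgroup S) ≤ Subgroup.normalizer (W : Set S) →
      Q ≤ Subgroup.normalizer (W : Set S) → W.Normal := fun W h3 h4 =>
    H54.normal_of_top_le_normalizer (hS ▸ sup_le h3 h4)
  have hN : (⁅P₁, P₂⁆ : Subgroup S).Normal := hnormal _ (by
      rw [← hsup]
      exact sup_le (Subgroup.normalizer_commutator_ge_left _ _)
        (Subgroup.normalizer_commutator_ge_right _ _))
    (H4.le_normalizer_commutator (hQC _ h₁) (hQC _ h₂))
  have hNP : ⁅P₁, P₂⁆ ≤ (P : Subgroup S) := by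
    rw [← hsup]; exact Subgroup.commutator_le_sup _ _
  by_contra hb
  obtain ⟨M, -, hM⟩ := H54.exists_isChiefFactor (bot_lt_iff_ne_bot.2 hb)
  have hMn := hM.2.2.1
  have hMP := H54.chief_commutator_le_of_isPGroup hM (P.isPGroup'.to_le hNP) P.isPGroup'
  have key : ∀ (X A B : Subgroup S), X ≤ Q → A ≤ Subgroup.centralizer (X : Set S) → B ≤ P →
      Q ≤ Subgroup.normalizer (A : Set S) → Q ≤ Subgroup.normalizer (B : Set S) →
      B ⊓ Subgroup.centralizer (X : Set S) = ⊥ → ⁅A, B⁆ = ⁅P₁, P₂⁆ →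
      ⁅P₁, P₂⁆ ⊓ A ≤ M := by
    intro X A B hX hA hB hQA hQB hBX hAB
    have h3 : (⁅P₁, P₂⁆ ⊓ A ⊔ M).Normal := hnormal _
      (H54.le_normalizer_of_commutator_le_of_le hMP le_sup_right (sup_le inf_le_left hM.1.le))
      (H4.le_normalizer_sup (H4.le_normalizer_inf Subgroup.le_normalizer_of_normal hQA)
        Subgroup.le_normalizer_of_normal)
    rcases hM.2.2.2 _ h3 le_sup_right (sup_le inf_le_left hM.1.le) with h | h
    · exact le_sup_left.trans h.le
    · exfalso
      have h4 : ⁅⁅A, B⁆, X⁆ ≤ M := by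
        rw [hAB, ← h]
        refine H54.commutator_sup_le Subgroup.le_normalizer_of_normal
          Subgroup.le_normalizer_of_normal ?_ (Subgroup.commutator_le_left _ _)
        rw [Subgroup.commutator_eq_bot_iff_le_centralizer.2 (inf_le_right.trans hA)]
        exact bot_le
      have h5 : ⁅⁅X, A⁆, B⁆ ≤ M := by
        rw [Subgroup.commutator_comm X A, Subgroup.commutator_eq_bot_iff_le_centralizer.2 hA,
          Subgroup.commutator_bot_left]
        exact bot_le
      have h6 := H54.three_subgroups_le Subgroup.le_normalizer_of_normal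
        Subgroup.le_normalizer_of_normal Subgroup.le_normalizer_of_normal h5 h4
      have h7 := H4.commutator_sup_centralizer (hX.trans hQB)
        (H4.coprime_card_of_isPGroup (H3.coprime_card_of_le hX hcopQ) (P.isPGroup'.to_le hB))
        (Or.inr (H4.isSolvable_of_isPGroup (P.isPGroup'.to_le hB)))
      rw [hBX, sup_bot_eq] at h7
      rw [h7, Subgroup.commutator_comm, hAB] at h6
      exact hM.1.not_ge h6
  have k1 := key X₁ P₁ P₂ h₁ inf_le_right inf_le_left (hQC _ h₁) (hQC _ h₂) (by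
    rw [eq_bot_iff, ← hinf]
    exact le_inf (le_inf (inf_le_left.trans inf_le_left) inf_le_right) inf_le_left) rfl
  have k2 := key X₂ P₂ P₁ h₂ inf_le_right inf_le_left (hQC _ h₂) (hQC _ h₁) (by
    rw [eq_bot_iff, ← hinf]
    exact le_inf inf_le_left (le_inf (inf_le_left.trans inf_le_left) inf_le_right))
    (Subgroup.commutator_comm _ _)
  exact hM.1.not_ge ((hgen _ hNP Subgroup.le_normalizer_of_normal).trans (sup_le k1 k2))

end Cfsg.Agent.S1900
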