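import Cfsg.Statements.S1901
import Cfsg.Agent.H3.Cores
import Cfsg.Agent.H4.CoprimeAction
import Cfsg.Agent.H85.Basic

set_option autoImplicit false
open Cfsg

namespace Cfsg.Agent.S1901

/-- Let G be a finite p-solvable group and Q a subgroup of order prime to p such that p divides the index of C_G(Q) in N_G(Q). Then Q normalizes no Sylow p-subgroup of G. -/
theorem result {G : Type*} [Group G] [Finite G] {p : ℕ} [Fact p.Prime]
    (hG : Cfsg.IsPSolvable p G) (Q : Subgroup G) (hQ : ¬ p ∣ Nat.card Q)
    (hA : p ∣ (Subgroup.centralizer (Q : Set G)).relIndex (Subgroup.normalizer (Q : Set G)))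
    (P : Sylow p G) : ¬ Q ≤ Subgroup.normalizer ((P : Subgroup G) : Set G) := by
  intro hQP
  have hp : p.Prime := Fact.out
  obtain ⟨n, H, h0, hl, hm, hn, hfac⟩ := hG
  obtain ⟨R, hR⟩ := H85.exists_isSyl p (Subgroup.normalizer (Q : Set G))
  have hRC : ¬ R ≤ Subgroup.centralizer (Q : Set G) := fun h =>
    hR.not_dvd_relIndex (hA.trans (Subgroup.relIndex_dvd_of_le_left _ h))
  have hQc : (Nat.card Q).Coprime p := ((Nat.Prime.coprime_iff_not_dvd hp).2 hQ).symm
  have hcop : (Nat.card R).Coprime (Nat.card Q) := (H4.coprime_card_of_isPGroup hQc hR.isPGroup).symm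
  have hY : ⁅⁅Q, R⁆, R⁆ = ⁅Q, R⁆ :=
    H4.commutator_commutator_eq hR.le hcop (Or.inl (H4.isSolvable_of_isPGroup hR.isPGroup))
  have hYQ : ⁅Q, R⁆ ≤ Q := H4.commutator_le_left_of_le_normalizer hR.le
  have hRY : R ≤ Subgroup.normalizer ((⁅Q, R⁆ : Subgroup G) : Set G) :=
    H4.le_normalizer_commutator hR.le Subgroup.le_normalizer
  generalize hYd : ⁅Q, R⁆ = Y at hY hYQ hRY
  have hYc : (Nat.card Y).Coprime p := H3.coprime_card_of_le hYQ hQc
  have key : ∀ i : Fin n, Y ≤ H i.succ → Y ≤ H i.castSucc := by
    intro i hi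
    have := hn i.castSucc
    have := hn i.succ
    let f := QuotientGroup.mk' (H i.castSucc)
    have hf : Function.Surjective f := QuotientGroup.mk'_surjective _
    have hYc' : (Nat.card (Y.map f)).Coprime p :=
      Nat.Coprime.coprime_dvd_left (Subgroup.card_map_dvd _ _) hYc
    have hcard : Nat.card ((H i.succ).map f) = (H i.castSucc).relIndex (H i.succ) :=
      H3.card_map_mk' _ _
    suffices h : Y.map f = ⊥ by
      rw [Subgroup.map_eq_bot_iff, QuotientGroup.ker_mk'] at h; exact h
    rcases hfac i with ⟨m, hm⟩ | hc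
    · have h1 : IsPGroup p ((H i.succ).map f) := IsPGroup.of_card (hcard.trans hm)
      have h2 := H3.inf_eq_bot_of_isPGroup_of_coprime h1 hYc'
      rwa [inf_eq_right.2 (Subgroup.map_mono hi)] at h2
    · have hN : ((H i.succ).map f).Normal := Subgroup.Normal.map inferInstance f hf
      have hPs : H85.IsSyl p ((P : Subgroup G).map f) ⊤ := by
        have := (H85.isSyl_top P).map f
        rwa [Subgroup.map_top_of_surjective f hf] at this
      have hYP : Y.map f ≤ Subgroup.normalizer (((P : Subgroup G).map f : Subgroup _) : Set _) :=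
        (Subgroup.map_mono (hYQ.trans hQP)).trans (Subgroup.le_normalizer_map f)
      have h1 : ⁅(P : Subgroup G).map f, Y.map f⁆ = ⊥ := by
        rw [← le_bot_iff, ← H3.inf_eq_bot_of_isPGroup_of_coprime hPs.isPGroup (hcard ▸ hc)]
        refine le_inf (H4.commutator_le_left_of_le_normalizer hYP) ?_
        exact (Subgroup.commutator_mono le_rfl (Subgroup.map_mono hi)).trans
          (Subgroup.commutator_le_right _ _)
      have h2 : (P : Subgroup G).map f ≤ Subgroup.centralizer ((Y.map f : Subgroup _) : Set _) :=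
        Subgroup.commutator_eq_bot_iff_le_centralizer.1 h1
      have h3 : R.map f ≤ Subgroup.normalizer ((Y.map f : Subgroup _) : Set _) :=
        (Subgroup.map_mono hRY).trans (Subgroup.le_normalizer_map f)
      have h4 := hPs.of_le (h2.trans (Subgroup.centralizer_le_normalizer _)) le_top
      obtain ⟨g, hg, hg'⟩ := h4.exists_le_cj (hR.isPGroup.map f) h3
      have h5 : R.map f ≤ Subgroup.centralizer ((Y.map f : Subgroup _) : Set _) :=
        hg'.trans (H85.cj_le_of_mem_normalizer h2 (H85.normalizer_le_normalizer_centralizer _ hg))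
      rw [← hY, Subgroup.map_commutator, Subgroup.commutator_comm]
      exact Subgroup.commutator_eq_bot_iff_le_centralizer.2 h5
  have hall : ∀ i : Fin (n + 1), Y ≤ H i := by
    intro i
    induction i using Fin.reverseInduction with
    | last => rw [hl]; exact le_top
    | cast i ih => exact key i ih
  have h1 := hall 0
  rw [h0, le_bot_iff, ← hYd, Subgroup.commutator_comm] at h1
  exact hRC (Subgroup.commutator_eq_bot_iff_le_centralizer.1 h1)

end Cfsg.Agent.S1901
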