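import Cfsg.Statements.S1902
import Cfsg.Agent.H55.BenderOmega
import Cfsg.Agent.H52.Balance
import Cfsg.Agent.H56.Sections
import Cfsg.Agent.H53.PSolv
import Cfsg.Agent.H10.SylowUtil
import Cfsg.Agent.H3.Fitting

set_option autoImplicit false
open Cfsg

namespace Cfsg.Agent.S1902

/-- Let p be an odd prime, G a finite p-solvable group, and B an elementary abelian subgroup of order p² such that B is the subgroup generated by the elements of order p of some Sylow p-subgroup of C_G(b₀), for some nontrivial b₀ ∈ B. Then every B-invariant subgroup of G of order prime to p lies in O_{p'}(G). -/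
theorem result {G : Type*} [Group G] [Finite G] {p : ℕ} [Fact p.Prime] (hp : p ≠ 2)
    (hG : Cfsg.IsPSolvable p G) (B : Subgroup G) (hB : Cfsg.IsElementaryAbelian p B) (hBc : Nat.card B = p ^ 2)
    (b₀ : G) (hb₀ : b₀ ∈ B) (hb₁ : b₀ ≠ 1) (P : Sylow p ↥(Subgroup.centralizer ({b₀} : Set G)))
    (hBP : B = Subgroup.closure {x : G | x ∈ ((P : Subgroup ↥(Subgroup.centralizer ({b₀} : Set G))).map
      (Subgroup.centralizer ({b₀} : Set G)).subtype : Subgroup G) ∧ orderOf x = p})
    (Q : Subgroup G) (hQ : ¬ p ∣ Nat.card Q) (hinv : ∀ b ∈ B, ∀ x ∈ Q, b * x * b⁻¹ ∈ Q) :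
    Q ≤ Cfsg.pPrimeCore p G := by
  have hpp : p.Prime := Fact.out
  let f := QuotientGroup.mk' (pPrimeCore p G)
  have hf : Function.Surjective f := QuotientGroup.mk'_surjective _
  have hker : f.ker = pPrimeCore p G := QuotientGroup.ker_mk' _
  have hk : (Nat.card f.ker).Coprime p := by rw [hker]; exact H3.pPrimeCore_coprime p G
  have hBp : IsPGroup p B := H3.isPGroup_of_pow_eq_one hB.2
  have hQc : (Nat.card (Q.map f)).Coprime p :=
    Nat.Coprime.coprime_dvd_left (Subgroup.card_map_dvd _ _)
      ((Nat.Prime.coprime_iff_not_dvd hpp).2 hQ).symm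
  have hBQ : B.map f ≤ Subgroup.normalizer ((Q.map f : Subgroup _) : Set _) :=
    (Subgroup.map_mono (fun b hb => H10.mem_normalizer_of_conj_mem (hinv b hb))).trans
      (Subgroup.le_normalizer_map f)
  set R := pCore p (G ⧸ pPrimeCore p G) with hR
  have hRp : IsPGroup p R := H3.pCore_isPGroup _ _
  have hP := (H85.isSyl_map_subtype P).map f
  rw [H52.map_centralizer_singleton hf hk (hBp.to_le (Subgroup.zpowers_le.2 hb₀))] at hP
  have h1 := H55.bender_omega hp (hBp.map f) ((Nat.Prime.coprime_iff_not_dvd hpp).1 hQc.symm) hBQ R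
    hRp Subgroup.le_normalizer_of_normal Subgroup.le_normalizer_of_normal (by
      rintro x ⟨hxR, hxB⟩ hxp
      have h2 := hP.ge_of_le_normalizer (Q := R ⊓ Subgroup.centralizer {f b₀})
        (hRp.to_le inf_le_left) inf_le_right (H4.le_normalizer_inf Subgroup.le_normalizer_of_normal
          (hP.le.trans Subgroup.le_normalizer))
      obtain ⟨y, hy, rfl⟩ := h2 ⟨hxR, Subgroup.mem_centralizer_singleton_iff.2
        (hxB _ (Subgroup.mem_map_of_mem f hb₀)).symm⟩
      have h3 : y ^ p = 1 := H56.eq_of_map_eq_of_coprime hk (P.isPGroup'.map _)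
        (Subgroup.pow_mem _ hy p) (Subgroup.one_mem _) (by rw [map_pow, hxp, map_one])
      have h4 : y ∈ B := by
        by_cases h : y = 1
        · rw [h]; exact B.one_mem
        · rw [hBP]; exact Subgroup.subset_closure ⟨hy, orderOf_eq_prime h3 h⟩
      intro q hq
      have h5 : f y * q * (f y)⁻¹ * q⁻¹ ∈ R ⊓ Q.map f := by
        constructor
        · rw [mul_assoc, mul_assoc, ← mul_assoc q]
          exact R.mul_mem hxR (Subgroup.Normal.conj_mem inferInstance _ (R.inv_mem hxR) q)
        · exact Subgroup.mul_mem _ (H4.conj_mem_of_mem_normalizer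
            (hBQ (Subgroup.mem_map_of_mem f h4)) hq) (Subgroup.inv_mem _ hq)
      rw [H3.inf_eq_bot_of_isPGroup_of_coprime hRp hQc, Subgroup.mem_bot,
        mul_inv_eq_one, mul_inv_eq_iff_eq_mul] at h5
      exact h5.symm)
  have h2 := (Subgroup.le_centralizer_iff.1 h1).trans (H53.centralizer_pCore_le
    (H53.isPSolvable_quotient hG _) (H3.pPrimeCore_quotient_pPrimeCore p G))
  have h3 := H3.inf_eq_bot_of_isPGroup_of_coprime hRp hQc
  rw [inf_eq_right.2 h2, Subgroup.map_eq_bot_iff, hker] at h3
  exact h3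

end Cfsg.Agent.S1902
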