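import Cfsg.Statements.S1905
import Cfsg.Agent.H56.Inv
import Cfsg.Agent.H10.StronglyEmbedded

set_option autoImplicit false
open Cfsg

namespace Cfsg.Agent.S1905

/-- Let M be a subgroup of even order of a finite group S such that M contains the centralizer in S of each of its involutions and the normal core of M in S has odd order. Then all involutions of S are conjugate. If moreover N_S(X) ≤ M for a Sylow 2-subgroup X of M and I is an involution in the centre of X, then all involutions of M are conjugate in M and M = M₀ C_M(I) for some subgroup M₀ of M of odd order. -/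
theorem result {S : Type*} [Group S] [Finite S] (M : Subgroup S) (hM : Even (Nat.card M))
    (hC : ∀ i ∈ M, orderOf i = 2 → Subgroup.centralizer ({i} : Set S) ≤ M) (hcore : Odd (Nat.card M.normalCore)) :
    (∀ x y : S, orderOf x = 2 → orderOf y = 2 → IsConj x y) ∧
      ∀ (X : Sylow 2 M) (I : M), I ∈ (Subgroup.center ↥(X : Subgroup ↥M)).map (X : Subgroup ↥M).subtype → orderOf I = 2 →
        Subgroup.normalizer (((X : Subgroup M).map M.subtype : Subgroup S) : Set S) ≤ M →
        (∀ x y : M, orderOf x = 2 → orderOf y = 2 → IsConj x y) ∧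
          ∃ M₀ : Subgroup M, Odd (Nat.card M₀) ∧
            ∀ m : M, ∃ a ∈ M₀, ∃ c ∈ Subgroup.centralizer ({I} : Set M), m = a * c := by
  obtain ⟨u, hu, hu2⟩ := H56.exists_involution_notMem hM hcore
  obtain ⟨i, hi, hi2⟩ := H10.even_card_iff.1 hM
  have key : ∀ x : S, orderOf x = 2 → IsConj x u := fun x hx => by
    by_cases h : x ∈ M
    · exact H56.isConj_of_centralizer_le hC h hx hu hu2
    · exact (H56.isConj_of_centralizer_le hC hi hi2 h hx).symm.trans
        (H56.isConj_of_centralizer_le hC hi hi2 hu hu2)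
  have hall : ∀ x y : S, orderOf x = 2 → orderOf y = 2 → IsConj x y := fun x y hx hy =>
    (key x hx).trans (key y hy).symm
  refine ⟨hall, fun X I hI hI2 hN => ?_⟩
  have hX := H85.isSyl_map_subtype X
  have hI2' : orderOf (I : S) = 2 := by rw [Subgroup.orderOf_coe, hI2]
  have hXC : (X : Subgroup M).map M.subtype ≤ Subgroup.centralizer {(I : S)} := by
    rintro _ ⟨x, hx, rfl⟩
    obtain ⟨z, hz, rfl⟩ := hI
    exact Subgroup.mem_centralizer_singleton_iff.2
      (congrArg (fun a : (X : Subgroup M) => ((a : M) : S)) (Subgroup.mem_center_iff.1 hz ⟨x, hx⟩))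
  have h1 : ∀ g : S, g * I * g⁻¹ ∈ M → g ∈ M := by
    intro g hg
    have h2 : H85.cj g ((X : Subgroup M).map M.subtype) ≤ M := by
      refine le_trans ?_ (hC _ hg (by rw [H10.orderOf_conj, hI2']))
      rintro _ ⟨x, hx, rfl⟩
      rw [Subgroup.mem_centralizer_singleton_iff]
      have := Subgroup.mem_centralizer_singleton_iff.1 (hXC hx)
      calc g * x * g⁻¹ * (g * I * g⁻¹) = g * (x * I) * g⁻¹ := by group
        _ = _ := by rw [this]; simp [mul_assoc]
    obtain ⟨m, hm, h3⟩ := hX.exists_cj_le (H85.isPGroup_cj g hX.isPGroup) h2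
    rw [← H85.cj_mul] at h3
    simpa using M.mul_mem (M.inv_mem hm) (hN (H85.mem_normalizer_of_cj_le h3))
  have hSE : IsStronglyEmbedded M := by
    refine H10.SE.iff.2 ⟨fun h => hu (h ▸ trivial), ⟨i, hi, hi2⟩, fun t ht ht2 g hg => ?_⟩
    obtain ⟨m, rfl⟩ := isConj_iff.1 (hall _ _ hI2' ht2)
    have h2 := h1 (g * m) (by simpa [mul_assoc] using hg)
    simpa using M.mul_mem h2 (M.inv_mem (h1 m ht))
  refine ⟨fun x y hx hy => ?_, (M ⊓ H85.cj u M).subgroupOf M, ?_, fun m => ?_⟩
  · obtain ⟨h, hh, e⟩ := H10.SE.exists_conj_mem hSE x.2 (by rw [Subgroup.orderOf_coe, hx]) y.2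
      (by rw [Subgroup.orderOf_coe, hy])
    exact isConj_iff.2 ⟨⟨h, hh⟩, Subtype.ext e⟩
  · rw [Nat.card_congr (Subgroup.subgroupOfEquivOfLe inf_le_left).toEquiv]
    exact hSE.2.2 u hu
  · obtain ⟨d, hd, e⟩ := H10.SE.exists_conj_mem_inf hSE I.2 hI2' (m * I * m⁻¹).2
      (by rw [Subgroup.orderOf_coe, H10.orderOf_conj, hI2]) hu
    refine ⟨⟨d, hd.1⟩, hd, ⟨d, hd.1⟩⁻¹ * m, Subgroup.mem_centralizer_singleton_iff.2
      (Subtype.ext ?_), (mul_inv_cancel_left _ _).symm⟩
    simp only [Subgroup.coe_mul, Subgroup.coe_inv] at e ⊢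
    calc d⁻¹ * m * I = d⁻¹ * (m * I * (m : S)⁻¹) * m := by group
      _ = _ := by rw [← e]; group

end Cfsg.Agent.S1905
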