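import Cfsg.Statements.S1906
import Cfsg.Agent.H82.Extremal
import Cfsg.Agent.H89.PBasic

set_option autoImplicit false
open Cfsg

namespace Cfsg.Agent.S1906

open Matrix

variable {F : Type*} [Field F]

theorem trace_invol {a : Matrix (Fin 3) (Fin 3) F} (h : a * a = 1) (hd : a.det = 1) (h1 : a ≠ 1) :
    a.trace = -1 := by
  have e1 : a.adjugate = a := by
    calc a.adjugate = a.adjugate * (a * a) := by rw [h, mul_one]
      _ = a := by rw [← mul_assoc, adjugate_mul, hd, one_smul, one_mul]
  have e2 : a.adjugate = a * a - a.trace • a + a.adjugate.trace • (1 : Matrix _ _ F) := by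
    ext i j
    fin_cases i <;> fin_cases j <;>
      simp [adjugate_fin_three, mul_apply, trace, Fin.sum_univ_three] <;> ring
  rw [h] at e2
  rw [e1] at e2
  have e3 : (1 + a.trace) • (a - 1) = 0 := by
    rw [smul_sub, add_smul, add_smul, one_smul, one_smul]
    nth_rewrite 1 [e2]
    abel
  rcases smul_eq_zero.1 e3 with h3 | h3
  · linear_combination h3
  · exact absurd (sub_eq_zero.1 h3) h1

theorem finrank_cast {p : Matrix (Fin 3) (Fin 3) F} (hp : p * p = p) :
    p.trace = (Module.finrank F (LinearMap.range (toLin' p)) : F) ∧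
      Module.finrank F (LinearMap.range (toLin' p)) ≤ 3 := by
  have h1 : IsIdempotentElem (toLin' p) := by
    change toLin' p * toLin' p = toLin' p
    rw [Module.End.mul_eq_comp, ← toLin'_mul, hp]
  refine ⟨?_, by simpa using Submodule.finrank_le (LinearMap.range (toLin' p))⟩
  rw [← (LinearMap.IsIdempotentElem.isProj_range _ h1).trace, trace_toLin'_eq]

theorem mul_eq_smul (h2 : (2 : F) ≠ 0) {p x : Matrix (Fin 3) (Fin 3) F} (hp : p * p = p)
    (ht : p.trace = 1) (hx : x * p = p * x) : ∃ l : F, x * p = l • p := by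
  obtain ⟨h1, h3⟩ := finrank_cast hp
  have hr : Module.finrank F (LinearMap.range (toLin' p)) = 1 := by
    rw [ht] at h1
    generalize Module.finrank F (LinearMap.range (toLin' p)) = r at h1 h3
    interval_cases r
    · simp at h1
    · rfl
    · exfalso
      have : (1 : F) = 0 := by push_cast at h1; linear_combination -h1
      exact one_ne_zero this
    · exact absurd (by push_cast at h1; linear_combination -h1) h2
  obtain ⟨v, hv0, hv⟩ := finrank_eq_one_iff'.1 hr
  obtain ⟨w, hw⟩ := v.2
  obtain ⟨l, hl⟩ := hv ⟨x *ᵥ v, x *ᵥ w, by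
    rw [← hw, toLin'_apply, toLin'_apply, mulVec_mulVec, mulVec_mulVec, hx]⟩
  refine ⟨l, toLin'.injective (LinearMap.ext fun y => ?_)⟩
  obtain ⟨c, hc⟩ := hv ⟨p *ᵥ y, y, rfl⟩
  have hl' : l • (v : Fin 3 → F) = x *ᵥ v := congrArg Subtype.val hl
  have hc' : c • (v : Fin 3 → F) = p *ᵥ y := congrArg Subtype.val hc
  rw [toLin'_apply, toLin'_apply, ← mulVec_mulVec, smul_mulVec, ← hc', mulVec_smul, ← hl',
    smul_comm]

theorem four_sum (h2 : (2 : F) ≠ 0) {a b : Matrix (Fin 3) (Fin 3) F} (ha : a * a = 1)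
    (hb : b * b = 1) (hab : a * b = b * a) (da : a.det = 1) (db : b.det = 1) (a1 : a ≠ 1)
    (b1 : b ≠ 1) (ab1 : a * b ≠ 1) : 1 + a + b + a * b = 0 := by
  have hc : a * b * (a * b) = 1 := by
    rw [mul_assoc, ← mul_assoc b, ← hab, mul_assoc a, hb, mul_one, ha]
  have ta := trace_invol ha da a1
  have tb := trace_invol hb db b1
  have tc := trace_invol hc (by rw [det_mul, da, db, mul_one]) ab1
  have h4 : (4 : F) ≠ 0 := by
    have : (4 : F) = 2 * 2 := by norm_num
    rw [this]; exact mul_ne_zero h2 h2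
  set s := 1 + a + b + a * b with hs
  have e1 : a * s = s := by
    rw [hs, mul_add, mul_add, mul_add, mul_one, ha, ← mul_assoc, ha, one_mul]; abel
  have e2 : b * s = s := by
    rw [hs, mul_add, mul_add, mul_add, mul_one, hb, ← hab, hab, ← mul_assoc, hb, one_mul]; abel
  have e3 : s * s = (4 : F) • s := by
    nth_rewrite 1 [hs]
    rw [add_mul, add_mul, add_mul, one_mul, e1, e2, mul_assoc, e2, e1]
    module
  have hp : ((4 : F)⁻¹ • s) * ((4 : F)⁻¹ • s) = (4 : F)⁻¹ • s := by
    rw [smul_mul_smul_comm, e3, smul_smul, mul_assoc, inv_mul_cancel₀ h4, mul_one]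
  obtain ⟨h1, h3⟩ := finrank_cast hp
  have ht : ((4 : F)⁻¹ • s).trace = 0 := by
    rw [trace_smul, hs, trace_add, trace_add, trace_add, ta, tb, tc, trace_one]; simp; norm_num
  rw [ht] at h1
  have hr : Module.finrank F (LinearMap.range (toLin' ((4 : F)⁻¹ • s))) = 0 ∨
      Module.finrank F (LinearMap.range (toLin' ((4 : F)⁻¹ • s))) = 3 := by
    generalize Module.finrank F (LinearMap.range (toLin' ((4 : F)⁻¹ • s))) = r at h1 h3
    interval_cases r
    · exact Or.inl rfl
    · simp at h1
    · exact absurd (by push_cast at h1; exact h1.symm) h2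
    · exact Or.inr rfl
  rcases hr with hr | hr
  · rw [Submodule.finrank_eq_zero, LinearMap.range_eq_bot, map_eq_zero_iff _ toLin'.injective] at hr
    exact (smul_eq_zero.1 hr).resolve_left (inv_ne_zero h4)
  · exfalso
    have h5 := Submodule.eq_top_of_finrank_eq (S := LinearMap.range (toLin' ((4 : F)⁻¹ • s)))
      (by rw [hr]; simp)
    apply a1
    refine toLin'.injective (LinearMap.ext fun y => ?_)
    obtain ⟨w, rfl⟩ : y ∈ LinearMap.range (toLin' ((4 : F)⁻¹ • s)) := by rw [h5]; trivial
    simp only [toLin'_apply, mulVec_mulVec, Matrix.mul_smul, e1, one_mul]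

/-- Elements commuting with a four-group of `SL₃` are diagonal. -/
theorem diag_of_comm (h2 : (2 : F) ≠ 0) {a b : Matrix (Fin 3) (Fin 3) F} (ha : a * a = 1)
    (hb : b * b = 1) (hab : a * b = b * a) (da : a.det = 1) (db : b.det = 1) (a1 : a ≠ 1)
    (b1 : b ≠ 1) (ab1 : a * b ≠ 1) {x : Matrix (Fin 3) (Fin 3) F} (xa : x * a = a * x)
    (xb : x * b = b * x) : ∃ l m n : F, x * (1 + a) = l • (1 + a) ∧ x * (1 + b) = m • (1 + b) ∧
      x * (1 + a * b) = n • (1 + a * b) ∧
      (2 : F) • x = l • (1 + a) + m • (1 + b) + n • (1 + a * b) := by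
  have key : ∀ c : Matrix (Fin 3) (Fin 3) F, c * c = 1 → c.det = 1 → c ≠ 1 → x * c = c * x →
      ∃ l : F, x * (1 + c) = l • (1 + c) := by
    intro c hc dc c1 xc
    have tc := trace_invol hc dc c1
    obtain ⟨l, hl⟩ := mul_eq_smul h2 (p := (2 : F)⁻¹ • (1 + c)) (x := x) (by
      rw [smul_mul_smul_comm, add_mul, mul_add, mul_add, one_mul, one_mul, mul_one, hc]
      have : 1 + c + (c + 1) = (2 : F) • (1 + c) := by module
      rw [this, smul_smul, mul_assoc, inv_mul_cancel₀ h2, mul_one]) (by
      rw [trace_smul, trace_add, tc, trace_one]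
      simp only [Fintype.card_fin, smul_eq_mul]
      field_simp; norm_num) (by
      rw [Matrix.mul_smul, Matrix.smul_mul, mul_add, add_mul, xc, mul_one, one_mul])
    refine ⟨l, ?_⟩
    rw [Matrix.mul_smul, smul_comm] at hl
    exact smul_right_injective _ (inv_ne_zero h2) hl
  have hc : a * b * (a * b) = 1 := by
    rw [mul_assoc, ← mul_assoc b, ← hab, mul_assoc a, hb, mul_one, ha]
  obtain ⟨l, hl⟩ := key a ha da a1 xa
  obtain ⟨m, hm⟩ := key b hb db b1 xb
  obtain ⟨n, hn⟩ := key (a * b) hc (by rw [det_mul, da, db, mul_one]) ab1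
    (by rw [← mul_assoc, xa, mul_assoc, xb, mul_assoc])
  refine ⟨l, m, n, hl, hm, hn, ?_⟩
  have h0 := four_sum h2 ha hb hab da db a1 b1 ab1
  rw [← hl, ← hm, ← hn, ← mul_add, ← mul_add]
  have : 1 + a + (1 + b) + (1 + a * b) = (2 : F) • 1 + (1 + a + b + a * b) := by module
  rw [this, h0, add_zero, Matrix.mul_smul, mul_one]

theorem comm_of_four (h2 : (2 : F) ≠ 0) {a b : Matrix (Fin 3) (Fin 3) F} (ha : a * a = 1)
    (hb : b * b = 1) (hab : a * b = b * a) (da : a.det = 1) (db : b.det = 1) (a1 : a ≠ 1)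
    (b1 : b ≠ 1) (ab1 : a * b ≠ 1) {x y : Matrix (Fin 3) (Fin 3) F} (xa : x * a = a * x)
    (xb : x * b = b * x) (ya : y * a = a * y) (yb : y * b = b * y) : x * y = y * x := by
  obtain ⟨l, m, n, -, -, -, h⟩ := diag_of_comm h2 ha hb hab da db a1 b1 ab1 xa xb
  apply smul_right_injective _ h2
  have yab : y * (a * b) = a * b * y := by rw [← mul_assoc, ya, mul_assoc, yb, mul_assoc]
  change (2 : F) • (x * y) = (2 : F) • (y * x)
  rw [← Matrix.smul_mul, ← Matrix.mul_smul, h]
  simp only [add_mul, mul_add, Matrix.smul_mul, Matrix.mul_smul, one_mul, mul_one, ya, yb, yab]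

theorem sign_cases (h2 : (2 : F) ≠ 0) {a b : Matrix (Fin 3) (Fin 3) F} (ha : a * a = 1)
    (hb : b * b = 1) (hab : a * b = b * a) (da : a.det = 1) (db : b.det = 1) (a1 : a ≠ 1)
    (b1 : b ≠ 1) (ab1 : a * b ≠ 1) {x : Matrix (Fin 3) (Fin 3) F} (xa : x * a = a * x)
    (xb : x * b = b * x) (hx : x * x = 1) : (x = 1 ∨ x = a ∨ x = b ∨ x = a * b) ∨
      (x = -1 ∨ x = -a ∨ x = -b ∨ x = -(a * b)) := by
  obtain ⟨l, m, n, hl, hm, hn, h⟩ := diag_of_comm h2 ha hb hab da db a1 b1 ab1 xa xb
  have h0 := four_sum h2 ha hb hab da db a1 b1 ab1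
  have key : ∀ (c : Matrix (Fin 3) (Fin 3) F) (l : F), c.det = 1 → x * (1 + c) = l • (1 + c) →
      l = 1 ∨ l = -1 := by
    intro c l dc hl
    have hc0 : 1 + c ≠ 0 := by
      intro h
      rw [eq_neg_of_add_eq_zero_right h, det_neg, det_one] at dc
      apply h2
      simp at dc
      linear_combination -dc
    have h3 : (l * l - 1) • (1 + c) = 0 := by
      rw [sub_smul, mul_smul, ← hl, ← Matrix.mul_smul, ← hl, ← mul_assoc, hx, one_mul, one_smul,
        sub_self]
    exact mul_self_eq_one_iff.1 (sub_eq_zero.1 ((smul_eq_zero.1 h3).resolve_right hc0))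
  have hc : a * b = -1 - a - b := by rw [← sub_eq_zero, ← h0]; abel
  have fin : ∀ y : Matrix (Fin 3) (Fin 3) F, (2 : F) • x = (2 : F) • y → x = y :=
    fun y e => smul_right_injective _ h2 e
  rcases key a l da hl with rfl | rfl <;> rcases key b m db hm with rfl | rfl <;>
    rcases key _ n (by rw [det_mul, da, db, mul_one]) hn with rfl | rfl
  · exact Or.inl (Or.inl (fin _ (by rw [h, hc]; module)))
  · exact Or.inr (Or.inr (Or.inr (Or.inr (fin _ (by rw [h, hc]; module)))))
  · exact Or.inr (Or.inr (Or.inr (Or.inl (fin _ (by rw [h, hc]; module)))))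
  · exact Or.inl (Or.inr (Or.inl (fin _ (by rw [h, hc]; module))))
  · exact Or.inr (Or.inr (Or.inl (fin _ (by rw [h, hc]; module))))
  · exact Or.inl (Or.inr (Or.inr (Or.inl (fin _ (by rw [h, hc]; module)))))
  · exact Or.inl (Or.inr (Or.inr (Or.inr (fin _ (by rw [h, hc]; module)))))
  · exact Or.inr (Or.inl (fin _ (by rw [h, hc]; module)))

theorem hom_invol_eq_one {G A : Type*} [Group G] [Finite G] [CommGroup A] [IsCyclic A]
    (hG : ∀ H : Subgroup G, H.index ≠ 2) (V : G →* A) {y : G} (hy : y * y = 1) : V y = 1 := by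
  by_contra hne
  apply hG ((powMonoidHom 2 : V.range →* V.range).range.comap V.rangeRestrict)
  haveI : Finite V.range := Finite.of_surjective _ V.rangeRestrict_surjective
  rw [Subgroup.index_comap_of_surjective _ V.rangeRestrict_surjective,
    IsCyclic.index_powMonoidHom_range]
  have h1 : orderOf (V.rangeRestrict y) = 2 := by
    apply orderOf_eq_prime
    · rw [pow_two, ← map_mul, hy, map_one]
    · exact fun h => hne (congrArg Subtype.val h)
  exact Nat.gcd_eq_right (h1 ▸ orderOf_dvd_natCard _)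


/-- Let G be a finite group with no subgroup of index 2 whose Sylow 2-subgroup X embeds in GL₃(F) for a finite field F of odd order. If X contains an elementary abelian subgroup of order 8, then X is abelian. -/
theorem result {G : Type*} [Group G] [Finite G] (hG : ∀ H : Subgroup G, H.index ≠ 2) (X : Sylow 2 G)
    {F : Type*} [Field F] [Fintype F] (hF : Odd (Fintype.card F))
    (f : ↥(X : Subgroup G) →* GL (Fin 3) F) (hf : Function.Injective f)
    (E : Subgroup G) (hE : E ≤ (X : Subgroup G)) (hEa : Cfsg.IsElementaryAbelian 2 E) (hE8 : Nat.card E = 8) :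
    IsMulCommutative (X : Subgroup G) := by
  classical
  have h2 : (2 : F) ≠ 0 := by
    intro h
    have : ringChar F = 2 := CharP.ringChar_of_prime_eq_zero Nat.prime_two (by exact_mod_cast h)
    exact (Nat.not_even_iff_odd.2 hF) (FiniteField.even_card_of_char_two this |> Nat.even_iff.2)
  let m : (X : Subgroup G) →* Matrix (Fin 3) (Fin 3) F := (Units.coeHom _).comp f
  have hm : Function.Injective m := fun a b h => hf (Units.ext h)
  let φ : (X : Subgroup G) →* Fˣ := Matrix.GeneralLinearGroup.det.comp f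
  have hφ : ∀ x, ((φ x : Fˣ) : F) = (m x).det := fun x => rfl
  -- the elementary abelian subgroup contains `-1`
  have hu : ∃ u : (X : Subgroup G), m u = -1 := by
    let E' := E.subgroupOf (X : Subgroup G)
    have hE' : Nat.card E' = 8 := by
      rw [← hE8]; exact Nat.card_congr (Subgroup.subgroupOfEquivOfLe hE).toEquiv
    have hsq : ∀ a ∈ E', a * a = 1 := fun a ha => Subtype.ext (by
      have := hEa.2 _ ha; rwa [pow_two] at this)
    have hco : ∀ a ∈ E', ∀ b ∈ E', a * b = b * a := fun a ha b hb => Subtype.ext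
      (congrArg (fun x : E => (x : G)) (hEa.1.is_comm.comm (⟨a, ha⟩ : E) ⟨b, hb⟩))
    let ψ : E' →* Fˣ := φ.comp E'.subtype
    have hr : Nat.card ψ.range ≤ 2 := by
      have : (ψ.range : Set Fˣ) ⊆ {1, -1} := by
        rintro _ ⟨a, rfl⟩
        have h1 : ψ a * ψ a = 1 := by rw [← map_mul]; exact (congrArg φ (hsq _ a.2)).trans (map_one _)
        have h3 : ((ψ a : Fˣ) : F) * (ψ a : Fˣ) = 1 := congrArg Units.val h1
        rcases mul_self_eq_one_iff.1 h3 with h | h
        · exact Or.inl (Units.ext h)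
        · exact Or.inr (Units.ext h)
      calc Nat.card ψ.range = (ψ.range : Set Fˣ).ncard := rfl
        _ ≤ ({1, -1} : Set Fˣ).ncard := Set.ncard_le_ncard this
        _ ≤ 2 := (Set.ncard_insert_le _ _).trans (by simp)
    have hk : 4 ≤ Nat.card ψ.ker := by
      have h1 := ψ.ker.card_mul_index
      rw [Subgroup.index_ker, hE'] at h1
      nlinarith
    haveI := Fintype.ofFinite ψ.ker
    obtain ⟨a, ha⟩ : ∃ a : ψ.ker, a ≠ 1 :=
      Fintype.exists_ne_of_one_lt_card (by rw [← Nat.card_eq_fintype_card]; omega) 1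
    obtain ⟨b, hb⟩ : ∃ b : ψ.ker, b ∉ ({1, a} : Finset ψ.ker) := by
      by_contra h
      push Not at h
      have := Finset.card_le_card (fun x _ => h x : (Finset.univ : Finset ψ.ker) ⊆ {1, a})
      rw [Finset.card_univ, ← Nat.card_eq_fintype_card] at this
      have := Finset.card_le_two (a := (1 : ψ.ker)) (b := a)
      omega
    simp only [Finset.mem_insert, Finset.mem_singleton, not_or] at hb
    haveI := Fintype.ofFinite E'
    obtain ⟨x, hx⟩ : ∃ x : E', x ∉ ({1, a.1, b.1, a.1 * b.1} : Finset E') := by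
      by_contra h
      push Not at h
      have := Finset.card_le_card (fun x _ => h x :
        (Finset.univ : Finset E') ⊆ {1, a.1, b.1, a.1 * b.1})
      rw [Finset.card_univ, ← Nat.card_eq_fintype_card] at this
      have := Finset.card_le_four (a := (1 : E')) (b := a.1) (c := b.1) (d := a.1 * b.1)
      omega
    simp only [Finset.mem_insert, Finset.mem_singleton, not_or] at hx
    have sq : ∀ c : E', m c * m c = 1 := fun c => by rw [← map_mul, hsq _ c.2, map_one]
    have co : ∀ c d : E', m c * m d = m d * m c := fun c d => by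
      rw [← map_mul, ← map_mul, hco _ c.2 _ d.2]
    have inj : ∀ c d : E', m c = m d → c = d := fun c d h => Subtype.ext (hm h)
    have dt : ∀ c : ψ.ker, (m c.1).det = 1 := fun c => by
      rw [← hφ]; exact congrArg Units.val c.2
    rcases sign_cases h2 (sq a.1) (sq b.1) (co _ _) (dt a) (dt b)
      (fun h => ha (Subtype.ext (inj _ 1 (h.trans (map_one m).symm))))
      (fun h => hb.1 (Subtype.ext (inj _ 1 (h.trans (map_one m).symm))))
      (fun h => hb.2 (Subtype.ext (inj _ _ (by
        rw [← one_mul (m b.1), ← sq a.1, mul_assoc, h, mul_one]))))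
      (co x _) (co x _) (sq x) with h | h
    · exfalso
      rcases h with h | h | h | h
      · exact hx.1 (inj _ 1 (h.trans (map_one m).symm))
      · exact hx.2.1 (inj _ _ h)
      · exact hx.2.2.1 (inj _ _ h)
      · exact hx.2.2.2 (inj _ _ (h.trans (map_mul m _ _).symm))
    · rcases h with h | h | h | h
      · exact ⟨_, h⟩
      · exact ⟨x * a.1, by rw [map_mul, h, neg_mul, sq]⟩
      · exact ⟨x * b.1, by rw [map_mul, h, neg_mul, sq]⟩
      · refine ⟨x * (a.1 * b.1 : E'), ?_⟩
        have := sq (a.1 * b.1)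
        rw [map_mul, h, ← map_mul m, neg_mul]
        exact congrArg Neg.neg this
  obtain ⟨u, hu⟩ := hu
  have huu : u * u = 1 := hm (by rw [map_mul, hu, map_one]; simp)
  have huc : ∀ x, x * u = u * x := fun x => hm (by rw [map_mul, map_mul, hu]; simp)
  have hφu : φ u ≠ 1 := by
    intro h
    have := hφ u
    rw [h, hu, det_neg, det_one] at this
    apply h2
    simp at this
    linear_combination this
  by_contra hna
  have hX : IsPGroup 2 (X : Subgroup G) := X.isPGroup'
  obtain ⟨g, hg, hg1, -, hg3⟩ := H82.exists_extremal_conj X φ (τ := -1) (fun a ha => by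
      have h3 : (a : F) * a = 1 := congrArg Units.val ha
      rcases mul_self_eq_one_iff.1 h3 with h | h
      · exact Or.inl (Units.ext h)
      · exact Or.inr (Units.ext h))
    (fun h => h2 (by
      have h3 : (-1 : F) = 1 := congrArg Units.val h
      linear_combination -h3)) (by simp) (y := (u : G)) (congrArg Subtype.val huu)
    (hom_invol_eq_one hG _ (congrArg Subtype.val huu))
  have hXc : (X : Subgroup G) ⊓ Subgroup.centralizer {(u : G)} = X := inf_eq_left.2 fun x hx =>
    Subgroup.mem_centralizer_singleton_iff.2 (congrArg Subtype.val (huc ⟨x, hx⟩))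
  rw [hXc] at hg3
  have hmap : (X : Subgroup G).map (MulAut.conj g).toMonoidHom = X :=
    Subgroup.eq_of_le_of_card_ge (hg3.trans inf_le_left)
      (Subgroup.card_map_of_injective (MulAut.conj g).injective).ge
  rw [hmap] at hg3
  let v : (X : Subgroup G) := ⟨_, hg⟩
  have hvc : ∀ x, x * v = v * x := fun x => Subtype.ext
    (Subgroup.mem_centralizer_singleton_iff.1 (hg3 x.2).2)
  have hvv : v * v = 1 := Subtype.ext (by
    change g * u * g⁻¹ * (g * u * g⁻¹) = 1
    have h1 : (u : G) * u = 1 := congrArg Subtype.val huu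
    calc _ = g * ((u : G) * u) * g⁻¹ := by group
      _ = 1 := by rw [h1]; group)
  -- conjugation by `g` as an automorphism of `X`
  let c : (X : Subgroup G) ≃* (X : Subgroup G) :=
    ((MulAut.conj g).subgroupMap X).trans (MulEquiv.subgroupCongr hmap)
  have hcu : c u = v := rfl
  have hker : commutator (X : Subgroup G) ≤ φ.ker := Abelianization.commutator_subset_ker φ
  have hv' : v ∉ commutator (X : Subgroup G) := by
    intro h
    apply hφu
    have h1 := Abelianization.commutator_subset_ker (φ.comp c.symm.toMonoidHom) h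
    rw [← hcu] at h1
    simpa using h1
  have hne : commutator (X : Subgroup G) ≠ ⊥ := fun h => hna ⟨⟨fun a b => by
    have h1 := Subgroup.commutator_mem_commutator (Subgroup.mem_top a) (Subgroup.mem_top b)
    rw [← commutator_def, h, Subgroup.mem_bot] at h1
    exact commutatorElement_eq_one_iff_mul_comm.1 h1⟩⟩
  haveI : Fact (Nat.Prime 2) := ⟨Nat.prime_two⟩
  obtain ⟨z, hz, hzc, hzo⟩ := H89.exists_center_orderOf_of_normal hX hne
  have hzz : z * z = 1 := by have := pow_orderOf_eq_one z; rwa [hzo, pow_two] at this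
  have hz1 : z ≠ 1 := fun h => by rw [h, orderOf_one] at hzo; omega
  have hzx : ∀ x, x * z = z * x := fun x => Subgroup.mem_center_iff.1 hzc x
  have hv1 : v ≠ 1 := fun h => hv' (h ▸ one_mem _)
  have hzv : z * v ≠ 1 := fun h => hv' (by
    have : v = z := by rw [← one_mul v, ← hzz, mul_assoc, h, mul_one]
    exact this ▸ hz)
  have mc : ∀ a b : (X : Subgroup G), a * b = b * a → m a * m b = m b * m a := fun a b h => by
    rw [← map_mul, h, map_mul]
  have m1 : ∀ a : (X : Subgroup G), a ≠ 1 → m a ≠ 1 := fun a h h' => h (hm (h'.trans (map_one m).symm))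
  refine hna ⟨⟨fun a b => hm ?_⟩⟩
  rw [map_mul, map_mul]
  refine comm_of_four h2 (a := m z) (b := m v) (by rw [← map_mul, hzz, map_one])
    (by rw [← map_mul, hvv, map_one]) (mc _ _ (hvc z)) ?_ ?_ (m1 _ hz1) (m1 _ hv1)
    (by rw [← map_mul]; exact m1 _ hzv) (mc _ _ (hzx a)) (mc _ _ (hvc a)) (mc _ _ (hzx b))
    (mc _ _ (hvc b))
  · rw [← hφ]; exact congrArg Units.val (hker hz)
  · rw [← hφ]; exact congrArg Units.val hg1

end Cfsg.Agent.S1906
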