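import Cfsg.Statements.S1924
import Cfsg.Agent.H56.SignT
import Cfsg.Agent.H85.Basic
import Cfsg.Agent.H3.Cores

set_option autoImplicit false
open Cfsg

namespace Cfsg.Agent.S1924

/-- A consequence of Thompson's transfer lemma. Let G be a finite group, L a subgroup with O²(L) = L, T a Sylow 2-subgroup of L and S a Sylow 2-subgroup of G containing T. Suppose D ≤ S is a dihedral subgroup of order at least 4 (the four-group counts) with D ∩ T = 1 and S = TD as a set of products (so |S| = |T|·|D|), and C ≤ D is cyclic of index 2 in D. If no involution of D outside C is G-conjugate to an involution of the subgroup generated by T and C, and the involution of C is not G-conjugate to any involution of T, then G has a normal subgroup K, containing every Sylow 2-subgroup of L as a Sylow 2-subgroup, with G = KD. -/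
theorem result {G : Type*} [Group G] [Finite G] (L T S D C : Subgroup G) (hL : Cfsg.pResidual 2 ↥L = ⊤)
    (hTL : T ≤ L) (hT2 : IsPGroup 2 T) (hTsyl : ¬ 2 ∣ T.relIndex L)
    (hS2 : IsPGroup 2 S) (hSsyl : ¬ 2 ∣ S.index) (hTS : T ≤ S)
    (hDS : D ≤ S) (hDih : ∃ n : ℕ, 2 ≤ n ∧ Nonempty (↥D ≃* DihedralGroup n)) (hDT : D ⊓ T = ⊥) (hTD : T ⊔ D = S) (hTDc : Nat.card T * Nat.card D = Nat.card S)
    (hCD : C ≤ D) (hC : IsCyclic ↥C) (hCi : C.relIndex D = 2)
    (h1 : ∀ x ∈ D, x ∉ C → orderOf x = 2 → ∀ g : G, g * x * g⁻¹ ∈ T ⊔ C → False)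
    (h2 : ∀ c ∈ C, orderOf c = 2 → ∀ g : G, g * c * g⁻¹ ∈ T → False) :
    ∃ K : Subgroup G, K.Normal ∧ K ⊔ D = ⊤ ∧
      ∀ T' : Subgroup G, T' ≤ L → IsPGroup 2 T' → ¬ 2 ∣ T'.relIndex L → T' ≤ K ∧ ¬ 2 ∣ T'.relIndex K := by
  obtain ⟨n, hn, ⟨φ⟩⟩ := hDih
  have hinv : ∀ x ∈ D, x ∉ C → orderOf x = 2 := by
    intro x hx hxC
    have h3 : IsCyclic ((C.subgroupOf D).map φ.toMonoidHom) := by
      have : IsCyclic (C.subgroupOf D) :=
        isCyclic_of_surjective _ (Subgroup.subgroupOfEquivOfLe hCD).symm.surjective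
      exact isCyclic_of_surjective _ (φ.subgroupMap (C.subgroupOf D)).surjective
    have h4 : ((C.subgroupOf D).map φ.toMonoidHom).index = 2 := by
      rw [Subgroup.index_map_of_bijective φ.bijective]; exact hCi
    have h5 := H56.dihedral_orderOf_of_notMem hn h3 h4 (x := φ ⟨x, hx⟩) (by
      rintro ⟨y, hy, hy'⟩
      obtain rfl : y = ⟨x, hx⟩ := φ.injective hy'
      exact hxC hy)
    rwa [MulEquiv.orderOf_eq, Subgroup.orderOf_mk] at h5
  set K : Subgroup G := pResidual 2 G with hK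
  have hKn : K.Normal := H85.pResidual_normal 2 G
  have hLK : L ≤ K := by
    have h3 := H85.resOf_le_pResidual (p := 2) L
    rwa [H85.resOf, hL, ← MonoidHom.range_eq_map, Subgroup.range_subtype] at h3
  have hTK : T ≤ K := hTL.trans hLK
  have hSs : H85.IsSyl 2 S ⊤ :=
    H85.isSyl_of_not_dvd_relIndex le_top hS2 (by rwa [Subgroup.relIndex_top_right])
  have hodd2 : ∀ (X M : Subgroup G), M.relIndex X = 2 → ∀ x ∈ X, (orderOf x).Coprime 2 → x ∈ M := by
    intro X M hM x hx ho
    refine H85.mem_of_pow_mem_of_coprime ho ?_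
    have := Subgroup.sq_mem_of_index_two hM ⟨x, hx⟩
    exact this
  -- `T ⊔ C` has index two in `S`
  have hCDlt : ∃ x ∈ D, x ∉ C := by
    by_contra h
    push Not at h
    rw [Subgroup.relIndex_eq_one.2 h] at hCi
    omega
  have hMS : T ⊔ C ≤ S := sup_le hTS (hCD.trans hDS)
  have hM : (T ⊔ C).relIndex S = 2 := by
    obtain ⟨x, hx, hxC⟩ := hCDlt
    have h3 : (T ⊔ C).relIndex S ≠ 1 := fun h =>
      h1 x hx hxC (hinv x hx hxC) 1 (by simpa using Subgroup.relIndex_eq_one.1 h (hDS hx))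
    have h4 := H56.card_mul_card_le (le_sup_left : T ≤ T ⊔ C) le_sup_right
      (by rw [eq_bot_iff, ← hDT, inf_comm]; exact inf_le_inf_right _ hCD)
    have h5 := H3.card_mul_relIndex hMS
    have h6 := H3.card_mul_relIndex hCD
    rw [hCi] at h6
    have h7 : 0 < Nat.card (T ⊔ C : Subgroup G) := Nat.card_pos
    have h8 : 0 < Nat.card S := Nat.card_pos
    have h9 : (T ⊔ C).relIndex S ≠ 0 := by
      rintro h; rw [h] at h5; omega
    by_contra h10
    have h11 : 3 ≤ (T ⊔ C).relIndex S := by omega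
    have h12 := Nat.mul_le_mul_left (Nat.card (T ⊔ C : Subgroup G)) h11
    rw [← hTDc, ← h6] at h5
    nlinarith
  have hDK : D ⊓ K ≤ C := by
    rintro x ⟨hx, hxK⟩
    by_contra hxC
    obtain ⟨M, -, hMi, hxM⟩ := H87.thompson_transfer_involution
      (Nat.odd_iff.2 (Nat.two_dvd_ne_zero.1 hSsyl)) hM (x := x)
      (by rw [← hinv x hx hxC]; exact pow_orderOf_eq_one x)
      (fun g hg => h1 x hx hxC (hinv x hx hxC) g hg)
    exact hxM (H85.pResidual_le_iff.2 (fun y hy => hodd2 ⊤ M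
      (by rwa [Subgroup.relIndex_top_right]) y trivial hy) hxK)
  have hSK : H85.IsSyl 2 (S ⊓ K) K := hSs.inf_of_le_normalizer le_top
    Subgroup.le_normalizer_of_normal
  have hTD' : T ⊓ D = ⊥ := by rw [inf_comm, hDT]
  have hcard : Nat.card T * Nat.card (D ⊓ K : Subgroup G) = Nat.card (S ⊓ K : Subgroup G) := by
    refine (H56.card_mul_card_eq_iff (le_inf hTS hTK) (inf_le_inf_right _ hDS)
      (by rw [← inf_assoc, hTD', bot_inf_eq])).2 fun x hx => ?_
    obtain ⟨a, ha, b, hb, rfl⟩ := (H56.card_mul_card_eq_iff hTS hDS hTD').1 hTDc x hx.1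
    exact ⟨a, ha, b, ⟨hb, by simpa using K.mul_mem (K.inv_mem (hTK ha)) hx.2⟩, rfl⟩
  have hE : D ⊓ K = ⊥ := by
    by_contra hne
    have hcyc : IsCyclic (D ⊓ K : Subgroup G) := Subgroup.isCyclic_of_le hDK
    obtain ⟨⟨e, he⟩, hg⟩ := hcyc.exists_generator
    have ho : orderOf e = Nat.card (D ⊓ K : Subgroup G) := by
      have := orderOf_eq_card_of_forall_mem_zpowers hg
      rwa [Subgroup.orderOf_mk] at this
    obtain ⟨k, hk⟩ := IsPGroup.iff_card.1 (hS2.to_le (inf_le_left.trans hDS : D ⊓ K ≤ S))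
    have hk0 : k ≠ 0 := by
      rintro rfl
      exact hne (Subgroup.eq_bot_of_card_eq _ (by simpa using hk))
    obtain ⟨k, rfl⟩ := Nat.exists_eq_succ_of_ne_zero hk0
    rw [hk] at ho hcard
    have hc : orderOf (e ^ 2 ^ k) = 2 := by
      rw [orderOf_pow_of_dvd (by positivity) (by rw [ho]; exact pow_dvd_pow 2 k.le_succ), ho,
        pow_succ, Nat.mul_div_cancel_left _ (by positivity)]
    obtain ⟨M, hMi, heM⟩ := H56.exists_index_two_of_semiregular (T.subgroupOf K)
      (e := ⟨e, he.2⟩) k (Subtype.ext (by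
        show e ^ 2 ^ (k + 1) = 1
        rw [← ho]; exact pow_orderOf_eq_one e))
      (fun g hg => h2 _ (C.pow_mem (hDK he) _) hc g hg) (by
        show ¬ 2 ^ (k + 2) ∣ T.relIndex K
        have h3 := H3.card_mul_relIndex (le_inf hTS hTK)
        rw [← hcard] at h3
        have h4 := Nat.eq_of_mul_eq_mul_left Nat.card_pos h3
        rw [← Subgroup.relIndex_mul_relIndex T (S ⊓ K) K (le_inf hTS hTK) inf_le_right, h4,
          pow_succ 2 (k + 1)]
        intro h5
        exact hSK.not_dvd_relIndex (Nat.dvd_of_mul_dvd_mul_left (by positivity) h5))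
    have h3 : H85.resOf 2 K = K := by
      rw [hK, ← H85.resOf_top, H85.resOf_resOf]
    have h4 : H85.resOf 2 K ≤ M.map K.subtype := H85.resOf_le_iff.2 (hodd2 K _ (by
      rwa [Subgroup.relIndex, Subgroup.subgroupOf, Subgroup.comap_map_eq_self_of_injective
        K.subtype_injective]))
    rw [h3] at h4
    obtain ⟨y, hy, hy'⟩ := h4 he.2
    exact heM (by rwa [show y = ⟨e, he.2⟩ from Subtype.ext hy'] at hy)
  refine ⟨K, hKn, ?_, fun T' hT'L hT'2 hT's => ⟨hT'L.trans hLK, ?_⟩⟩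
  · have h3 := hSs.resOf_sup
    rw [H85.resOf_top, ← hK, ← hTD, ← sup_assoc, sup_eq_left.2 hTK] at h3
    exact h3
  · rw [hE, Subgroup.card_bot, mul_one] at hcard
    have h3 := (H85.isSyl_of_not_dvd_relIndex hTL hT2 hTsyl).card_eq
      (H85.isSyl_of_not_dvd_relIndex hT'L hT'2 hT's)
    exact (hSK.of_card_le hT'2 (hT'L.trans hLK) (by rw [← hcard, h3])).not_dvd_relIndex

end Cfsg.Agent.S1924
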