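import Cfsg.Statements.S1935
import Cfsg.Agent.H51.LyB
import Cfsg.Agent.H53.Replace

set_option autoImplicit false
open Cfsg

namespace Cfsg.Agent.S1935

open scoped commutatorElement

theorem aut_main {p : ℕ} [Fact p.Prime] (hp2 : p ≠ 2) {G : Type*} [Group G] [Finite G]
    (hG : IsPGroup p G) {W : Type*} [CommGroup W] [Finite W] [Module (ZMod p) (Additive W)]
    (φ : G →* MulAut W) (hφ : Function.Injective φ) {A : Subgroup G}
    (hA : ∀ a ∈ A, ∀ a' ∈ A, ∀ w, φ a (φ a' w / w) = φ a' w / w) :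
    ∃ B : Subgroup G, (∀ a ∈ B, ∀ a' ∈ B, ∀ w, φ a (φ a' w / w) = φ a' w / w) ∧
      (∀ a ∈ B, ∀ b ∈ B, a * b = b * a) ∧ (∀ a ∈ B, a ^ p = 1) ∧ Nat.card A ≤ Nat.card B ∧
      Nat.card {w : W // ∀ a ∈ A, φ a w = w} ≤ Nat.card {w : W // ∀ a ∈ B, φ a w = w} ∧
      ∀ g ∈ H51.Ly.ncl ⊤ B, ∀ a ∈ B, g * a * g⁻¹ ∈ B := by
  let ρ : G →* Module.End (ZMod p) (Additive W) :=
    { toFun := fun g => AddMonoidHom.toZModLinearMap p (MonoidHom.toAdditive (φ g).toMonoidHom)
      map_one' := by ext v; simp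
      map_mul' := fun g h => by ext v; simp }
  have hρ : ∀ (g : G) (w : Additive W), Additive.toMul (ρ g w) = φ g (Additive.toMul w) :=
    fun g w => rfl
  have hρ1 : ∀ (g : G) (w : Additive W), Additive.toMul ((ρ g - 1) w) =
      φ g (Additive.toMul w) / Additive.toMul w := fun g w => by
    rw [LinearMap.sub_apply, Module.End.one_apply, toMul_sub, hρ]
  have hfix : ∀ (g : G) (w : Additive W),
      ρ g w = w ↔ φ g (Additive.toMul w) = Additive.toMul w := fun g w => by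
    rw [← hρ]
    exact ⟨fun h => by rw [h], fun h => Additive.toMul.injective h⟩
  have hinj : Function.Injective ρ := by
    intro g g' hg
    apply hφ
    ext w
    exact (hρ g (Additive.ofMul w)).symm.trans (by rw [hg]; rfl)
  have hcard : ∀ B : Subgroup G, Nat.card {w : Additive W // ∀ a ∈ B, ρ a w = w} =
      Nat.card {w : W // ∀ a ∈ B, φ a w = w} := fun B =>
    Nat.card_congr (Additive.toMul.subtypeEquiv fun w => by simp only [hfix])
  have hquad : ∀ a a' : G, (ρ a - 1) * (ρ a' - 1) = 0 ↔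
      ∀ w, φ a (φ a' w / w) = φ a' w / w := fun a a' => by
    constructor
    · intro h v
      have h1 := LinearMap.congr_fun h (Additive.ofMul v)
      rw [Module.End.mul_apply, LinearMap.sub_apply, Module.End.one_apply, LinearMap.zero_apply,
        sub_eq_zero, hfix, hρ1] at h1
      exact h1
    · intro h
      refine LinearMap.ext fun w => ?_
      rw [Module.End.mul_apply, LinearMap.sub_apply, Module.End.one_apply, LinearMap.zero_apply,
        sub_eq_zero, hfix, hρ1]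
      exact h _
  obtain ⟨B, hB, hc1, hc2, hsub⟩ := H51.Ly.mod_main (p := p) hp2 hG ρ hinj
    (A := A) (fun a ha a' ha' => (hquad a a').2 (hA a ha a' ha'))
  rw [hcard, hcard] at hc2
  have hsum : ∀ a ∈ B, ∀ b ∈ B, ρ (a * b) - 1 = (ρ a - 1) + (ρ b - 1) := fun a ha b hb => by
    rw [map_mul, ← add_zero (ρ a - 1 + (ρ b - 1)), ← hB a ha b hb, sub_mul, mul_sub, one_mul,
      mul_one]
    abel
  refine ⟨B, fun a ha a' ha' => (hquad a a').1 (hB a ha a' ha'), fun a ha b hb => ?_,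
    fun a ha => ?_, hc1, hc2, hsub⟩
  · exact hinj (sub_left_injective (b := (1 : Module.End (ZMod p) (Additive W)))
      (by show ρ (a * b) - 1 = ρ (b * a) - 1; rw [hsum a ha b hb, hsum b hb a ha, add_comm]))
  · have h1 : ∀ n : ℕ, ρ (a ^ n) - 1 = n • (ρ a - 1) := by
      intro n
      induction n with
      | zero => simp
      | succ n ih => rw [pow_succ, hsum _ (B.pow_mem ha n) a ha, ih, add_smul, one_smul]
    have h2 := h1 p
    rw [← Nat.cast_smul_eq_nsmul (ZMod p), ZMod.natCast_self, zero_smul, sub_eq_zero,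
      ← map_one ρ] at h2
    exact hinj h2

/-- Let p ≥ 5 be a prime and, inside an ambient finite group, let G be a p-subgroup acting faithfully by conjugation on an elementary abelian p-subgroup V that it normalizes (only the identity of G centralizes V). Suppose V is an F-module for G: some nontrivial elementary abelian subgroup E of G satisfies #E · #C_V(E) ≥ #V. Then G contains such an offender A that moreover acts quadratically on V ([V, A, A] = 1) and is normal in its normal closure in G. -/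
theorem result {Ω : Type*} [Group Ω] [Finite Ω] (p : ℕ) [Fact p.Prime] (hp : 5 ≤ p) (V G : Subgroup Ω) (hV : Cfsg.IsElementaryAbelian p V) (hG : IsPGroup p ↥G) (hGV : G ≤ Subgroup.normalizer (V : Set Ω)) (hfaith : G ⊓ Subgroup.centralizer (V : Set Ω) = ⊥) (hF : ∃ E : Subgroup Ω, E ≤ G ∧ E ≠ ⊥ ∧ Cfsg.IsElementaryAbelian p E ∧ Nat.card ↥V ≤ Nat.card ↥E * Nat.card ↥(V ⊓ Subgroup.centralizer (E : Set Ω))) : ∃ A : Subgroup Ω, A ≤ G ∧ A ≠ ⊥ ∧ Cfsg.IsElementaryAbelian p A ∧ Nat.card ↥V ≤ Nat.card ↥A * Nat.card ↥(V ⊓ Subgroup.centralizer (A : Set Ω)) ∧ ⁅⁅V, A⁆, A⁆ = ⊥ ∧ ∀ g ∈ Subgroup.closure {x : Ω | ∃ h ∈ G, ∃ a ∈ A, x = h * a * h⁻¹}, ∀ a ∈ A, g * a * g⁻¹ ∈ A := by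
  classical
  obtain ⟨E, hEG, hE0, hE, hEc⟩ := hF
  obtain ⟨A₀, ⟨hA₀E, hA₀⟩, hmax⟩ := Set.exists_max_image {B : Subgroup Ω | B ≤ E ∧ B ≠ ⊥}
    (H53.meas V) (Set.toFinite _) ⟨E, le_rfl, hE0⟩
  have hm0 : Nat.card V ≤ H53.meas V A₀ := hEc.trans (hmax E ⟨le_rfl, hE0⟩)
  have hcomm : ∀ a ∈ E, ∀ b ∈ E, a * b = b * a := fun a ha b hb =>
    congrArg Subtype.val (hE.1.is_comm.comm (⟨a, ha⟩ : E) ⟨b, hb⟩)
  have hbest : IsBestOffenderOn p V A₀ := by
    refine H53.bestOffender_iff.2 ⟨fun B hB => ?_, ?_, fun a ha => ?_⟩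
    · by_cases hB0 : B = ⊥
      · rw [hB0, H53.meas_bot]; exact hm0
      · exact hmax B ⟨hB.trans hA₀E, hB0⟩
    · rw [Subgroup.commutator_le]
      intro a ha b hb
      rw [commutatorElement_eq_one_iff_mul_comm.2 (hcomm a (hA₀E ha) b (hA₀E hb))]
      exact Subgroup.one_mem _
    · rw [hE.2 a (hA₀E ha)]; exact Subgroup.one_mem _
  have hA₀G : A₀ ≤ G := hA₀E.trans hEG
  obtain ⟨-, hm1, -, hne⟩ := H53.timmesfeld hV (hA₀G.trans hGV) hbest (le_refl V)
  set A₁ := A₀ ⊓ Subgroup.centralizer ((⁅V, A₀⁆ : Subgroup Ω) : Set Ω) with hA₁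
  have hA₁G : A₁ ≤ G := inf_le_left.trans hA₀G
  have hA₁0 : A₁ ≠ ⊥ := by
    intro h
    refine hne (fun h' => hA₀ ?_) (by rw [h]; simp)
    rw [Subgroup.commutator_comm, Subgroup.commutator_eq_bot_iff_le_centralizer] at h'
    rw [eq_bot_iff, ← hfaith]
    exact le_inf hA₀G h'
  letI : CommGroup V := { (inferInstance : Group V) with mul_comm := hV.1.is_comm.comm }
  letI : Module (ZMod p) (Additive V) := AddCommGroup.zmodModule (fun v => by
    apply Additive.toMul.injective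
    exact Subtype.ext (hV.2 _ (Additive.toMul v).2))
  let φ : G →* MulAut V := (Subgroup.normalizerMonoidHom V).comp (Subgroup.inclusion hGV)
  have hφ : ∀ (g : G) (w : V), ((φ g w : V) : Ω) = g * w * (g : Ω)⁻¹ := fun g w => rfl
  have hφ1 : ∀ (g : G) (w : V), ((φ g w / w : V) : Ω) = ⁅(g : Ω), (w : Ω)⁆ := fun g w => by
    rw [div_eq_mul_inv, Subgroup.coe_mul, Subgroup.coe_inv, hφ, commutatorElement_def]
  have hfix : ∀ (g : G) (w : V), φ g w = w ↔ (g : Ω) * w = w * g := fun g w => by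
    rw [← mul_inv_eq_iff_eq_mul, ← hφ]
    exact ⟨fun h => by rw [h], fun h => Subtype.ext h⟩
  have hinj : Function.Injective φ := by
    rw [injective_iff_map_eq_one]
    intro g hg
    have : (g : Ω) ∈ G ⊓ Subgroup.centralizer (V : Set Ω) := by
      refine ⟨g.2, fun v hv => ?_⟩
      exact ((hfix g ⟨v, hv⟩).1 (by rw [hg]; rfl)).symm
    rw [hfaith, Subgroup.mem_bot] at this
    exact Subtype.ext this
  have hcard : ∀ B : Subgroup G, Nat.card {w : V // ∀ a ∈ B, φ a w = w} =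
      Nat.card ↥(V ⊓ Subgroup.centralizer ((B.map G.subtype : Subgroup Ω) : Set Ω)) := by
    intro B
    refine Nat.card_congr
      { toFun := fun w => ⟨w.1, w.1.2, ?_⟩
        invFun := fun v => ⟨⟨v.1, v.2.1⟩, fun a ha => (hfix a _).2 (v.2.2 a ⟨a, ha, rfl⟩)⟩
        left_inv := fun w => rfl
        right_inv := fun v => rfl }
    rintro _ ⟨a, ha, rfl⟩
    exact (hfix a _).1 (w.2 a ha)
  obtain ⟨B, hB, hBc, hBp, hc1, hc2, hsub⟩ := aut_main (p := p) (by omega) hG φ hinj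
    (A := A₁.subgroupOf G) (fun a ha a' ha' v => by
      have h1 : ⁅(a' : Ω), (v : Ω)⁆ ∈ ⁅V, A₀⁆ := by
        rw [Subgroup.commutator_comm]
        exact Subgroup.commutator_mem_commutator ha'.1 v.2
      rw [hfix, hφ1]
      exact (ha.2 _ h1).symm)
  rw [hcard, hcard, Subgroup.subgroupOf_map_subtype, inf_eq_left.2 hA₁G] at hc2
  rw [Nat.card_congr (Subgroup.subgroupOfEquivOfLe hA₁G).toEquiv,
    ← Subgroup.card_map_of_injective (f := G.subtype) G.subtype_injective] at hc1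
  refine ⟨B.map G.subtype, Subgroup.map_subtype_le _, fun h => hA₁0 ?_, ⟨⟨⟨?_⟩⟩, ?_⟩, ?_, ?_, ?_⟩
  · rw [h, Subgroup.card_bot] at hc1
    exact Subgroup.eq_bot_of_card_le _ hc1
  · rintro ⟨_, a, ha, rfl⟩ ⟨_, b, hb, rfl⟩
    exact Subtype.ext (congrArg G.subtype (hBc a ha b hb))
  · rintro _ ⟨a, ha, rfl⟩
    exact congrArg Subtype.val (hBp a ha)
  · exact (hm0.trans hm1.ge).trans (Nat.mul_le_mul hc1 hc2)
  · rw [Subgroup.commutator_eq_bot_iff_le_centralizer, Subgroup.commutator_comm,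
      Subgroup.commutator_le]
    rintro _ ⟨a', ha', rfl⟩ v hv _ ⟨a, ha, rfl⟩
    have := hB a ha a' ha' ⟨v, hv⟩
    rw [hfix, hφ1] at this
    exact this
  · intro g hg
    have : g ∈ (H51.Ly.ncl ⊤ B).map G.subtype := by
      refine (Subgroup.closure_le _).2 ?_ hg
      rintro _ ⟨h, hh, _, ⟨a, ha, rfl⟩, rfl⟩
      exact ⟨⟨h, hh⟩ * a * ⟨h, hh⟩⁻¹, Subgroup.subset_closure ⟨⟨h, hh⟩, trivial, a, ha, rfl⟩, rfl⟩
    obtain ⟨g', hg', rfl⟩ := this
    rintro _ ⟨a, ha, rfl⟩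
    exact ⟨g' * a * g'⁻¹, hsub g' hg' a ha, rfl⟩

end Cfsg.Agent.S1935
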