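import Cfsg.Statements.S1939
import Cfsg.Agent.H8.Fusion
import Mathlib

set_option autoImplicit false
open Cfsg

namespace Cfsg.Agent.S1939

/-- Let S be a Sylow p-subgroup of the finite group G and a an element of S that is the only G-conjugate of a lying in S. Then every power of a has the same property: for every n, the only G-conjugate of a^n lying in S is a^n. -/
theorem result {G : Type*} [Group G] [Finite G] {p : ℕ} [Fact p.Prime] (S : Sylow p G) (a : G)
    (haS : a ∈ (S : Subgroup G)) (hwc : ∀ g : G, g * a * g⁻¹ ∈ (S : Subgroup G) → g * a * g⁻¹ = a) (n : ℕ) :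
    ∀ g : G, g * a ^ n * g⁻¹ ∈ (S : Subgroup G) → g * a ^ n * g⁻¹ = a ^ n := by
  intro g hg
  have hW : IsWeaklyClosed (Subgroup.zpowers a) (S : Subgroup G) := by
    refine ⟨Subgroup.zpowers_le.mpr haS, fun g hg => ?_⟩
    have h1 := hwc g (hg ⟨a, Subgroup.mem_zpowers a, rfl⟩)
    rw [MonoidHom.map_zpowers]
    exact congrArg _ h1
  have hZ : Subgroup.zpowers a ≤ Subgroup.centralizer (S : Set G) := by
    rw [Subgroup.zpowers_le]
    intro s hs
    have := hwc s (mul_mem (mul_mem hs haS) (inv_mem hs))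
    rwa [mul_inv_eq_iff_eq_mul] at this
  obtain ⟨m, hm, h⟩ := H8.IsWeaklyClosed.fusion_of_le_centralizer S hW hZ (pow_mem haS n) hg
  have h1 := hwc m (hW.1 ((Subgroup.mem_normalizer_iff.mp hm a).mp (Subgroup.mem_zpowers a)))
  rw [← h, ← conj_pow, h1]

end Cfsg.Agent.S1939
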