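import Cfsg.Statements.S1940
import Mathlib

set_option autoImplicit false
open Cfsg

namespace Cfsg.Agent.S1940

/-- Let the finite group L act by automorphisms on the finite abelian group M, and let N be an L-invariant subgroup of M such that M/N is a p-group on which L acts trivially (every l • m lies in the coset mN). If every element of M is a product of an element of N and an element fixed by a Sylow p-subgroup T of L, then every element of M is a product of an element of N and an element fixed by all of L. -/
theorem result {L : Type*} [Group L] [Finite L] {M : Type*} [CommGroup M] [Finite M] [MulDistribMulAction L M]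
    {p : ℕ} [Fact p.Prime] (N : Subgroup M) (hN : ∀ (l : L) (m : M), m ∈ N → l • m ∈ N)
    (hquot : IsPGroup p (M ⧸ N)) (htriv : ∀ (l : L) (m : M), (l • m) * m⁻¹ ∈ N) (T : Sylow p L)
    (hT : ∀ m : M, ∃ n ∈ N, ∃ c : M, (∀ t ∈ (T : Subgroup L), t • c = c) ∧ m = n * c) :
    ∀ m : M, ∃ n ∈ N, ∃ c : M, (∀ l : L, l • c = c) ∧ m = n * c := by
  classical
  intro m
  obtain ⟨n, hn, c, hc, rfl⟩ := hT m
  haveI : Fintype (L ⧸ (T : Subgroup L)) := Fintype.ofFinite _
  set c' : M := ∏ q : L ⧸ (T : Subgroup L), q.out • c with hc'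
  have hfix : ∀ l : L, l • c' = c' := by
    intro l
    rw [hc', Finset.smul_prod']
    refine Fintype.prod_equiv (MulAction.toPerm l) _ _ fun q => ?_
    rw [MulAction.toPerm_apply, ← mul_smul]
    have h1 : ((l * q.out : L) : L ⧸ (T : Subgroup L)) = ((l • q).out : L) := by
      rw [QuotientGroup.out_eq', ← smul_eq_mul, ← MulAction.Quotient.smul_coe,
        QuotientGroup.out_eq']
    have h2 := hc _ (QuotientGroup.eq.mp h1)
    conv_lhs => rw [← h2, ← mul_smul, mul_inv_cancel_left]
  have hmk : (c' : M ⧸ N) = (c : M ⧸ N) ^ (T : Subgroup L).index := by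
    rw [hc', ← QuotientGroup.mk'_apply, map_prod, Subgroup.index, Nat.card_eq_fintype_card,
      ← Finset.card_univ, ← Finset.prod_const]
    refine Finset.prod_congr rfl fun q _ => ?_
    rw [QuotientGroup.mk'_apply, eq_comm, QuotientGroup.eq, mul_comm]
    exact htriv _ _
  have hcop : (T : Subgroup L).index.Coprime (orderOf (c : M ⧸ N)) :=
    (hquot.orderOf_coprime
      ((Nat.Prime.coprime_iff_not_dvd Fact.out).mpr T.not_dvd_index) _).symm
  obtain ⟨k, hk⟩ := exists_pow_eq_self_of_coprime hcop
  refine ⟨n * (c * (c' ^ k)⁻¹), mul_mem hn ?_, c' ^ k, fun l => by rw [smul_pow', hfix], by group⟩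
  rw [mul_comm, ← QuotientGroup.eq, QuotientGroup.mk_pow, hmk, hk]

end Cfsg.Agent.S1940
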