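import Cfsg.Statements.S1941
import Cfsg.Agent.H52.Local

set_option autoImplicit false
open Cfsg

namespace Cfsg.Agent.S1941

/-- Let G be a finite group with no nontrivial normal subgroup of order prime to p, T a Sylow p-subgroup of G and E(G) the layer of G (the subgroup generated by its components). An automorphism of G of p-power order that fixes T and E(G) elementwise is inner. -/
theorem result {G : Type*} [Group G] [Finite G] {p : ℕ} [Fact p.Prime] (hcore : Cfsg.pPrimeCore p G = ⊥)
    (T : Sylow p G) (α : MulAut G) (hα : ∃ j : ℕ, orderOf α = p ^ j) (hfixT : ∀ x ∈ (T : Subgroup G), α x = x)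
    (hfixE : ∀ x ∈ Cfsg.layer G, α x = x) : ∃ g : G, ∀ x : G, α x = g * x * g⁻¹ := by
  classical
  have := H52.fstar_normal (G := G)
  set Z := Subgroup.centralizer (generalizedFittingSubgroup G : Set G)
  have hZF : Z ≤ generalizedFittingSubgroup G := H52.centralizer_fstar_le
  have hZp : IsPGroup p Z := H52.pCore_isPGroup.to_le
    (H52.centralizer_fstar_le_fitting.trans (H52.fitting_eq_pCore_of_pPrimeCore_eq_bot hcore).le)
  have hfix : ∀ x ∈ generalizedFittingSubgroup G, α x = x := by
    have : generalizedFittingSubgroup G ≤ α.toMonoidHom.eqLocus (MonoidHom.id G) := by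
      rw [H52.fstar_eq_layer_sup_pCore hcore]
      exact sup_le hfixE fun x hx => hfixT x (H52.pCore_le_sylow T hx)
    exact this
  have hδ : ∀ g : G, α g * g⁻¹ ∈ Z := by
    intro g f hf
    have h1 := hfix _ (this.conj_mem f hf g⁻¹)
    rw [map_mul, map_mul, hfix f hf, inv_inv, map_inv] at h1
    calc f * (α g * g⁻¹) = α g * ((α g)⁻¹ * f * α g) * g⁻¹ := by group
      _ = α g * g⁻¹ * f := by rw [h1]; group
  let _ : CommGroup Z := { (inferInstance : Group Z) with
    mul_comm := fun a b => Subtype.ext (b.2 a (hZF a.2)) }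
  let δ : G ⧸ (T : Subgroup G) → Z := fun q => ⟨α q.out * q.out⁻¹, hδ _⟩
  have hδ' : ∀ g : G, (δ (g : G ⧸ (T : Subgroup G)) : G) = α g * g⁻¹ := by
    intro g
    obtain ⟨t, ht⟩ := QuotientGroup.mk_out_eq_mul (T : Subgroup G) g
    change α _ * _⁻¹ = _
    rw [ht, map_mul, hfixT t t.2]; group
  have := Fintype.ofFinite (G ⧸ (T : Subgroup G))
  have key : ∀ g : G, ∏ q, δ q = (⟨α g * g⁻¹, hδ g⟩ : Z) ^ (T : Subgroup G).index *
      MulAut.conjNormal g (∏ q, δ q) := by
    intro g
    rw [← Equiv.prod_comp (MulAction.toPerm g) δ, Equiv.prod_comp (MulAction.toPerm g) δ]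
    conv_lhs => rw [← Equiv.prod_comp (MulAction.toPerm g) δ]
    rw [map_prod, Subgroup.index, Nat.card_eq_fintype_card, ← Finset.card_univ,
      ← Finset.prod_const, ← Finset.prod_mul_distrib]
    refine Finset.prod_congr rfl fun q _ => ?_
    obtain ⟨h, rfl⟩ := QuotientGroup.mk_surjective q
    apply Subtype.ext
    rw [MulAction.toPerm_apply, MulAction.Quotient.smul_mk, hδ', Subgroup.coe_mul,
      MulAut.conjNormal_apply, hδ', smul_eq_mul, map_mul]
    group
  obtain ⟨k, hk⟩ := hZp.exists_card_eq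
  have hcop : ((T : Subgroup G).index).Coprime (Nat.card Z) := by
    rw [hk]
    exact ((Nat.Prime.coprime_iff_not_dvd Fact.out).mpr T.not_dvd_index).symm.pow_right k
  obtain ⟨w, hw⟩ := (powCoprime hcop.symm).surjective (∏ q, δ q)
  refine ⟨w, fun g => ?_⟩
  have h1 := key g
  rw [← hw, powCoprime_apply, map_pow, ← mul_pow] at h1
  have h2 := congrArg Subtype.val ((powCoprime hcop.symm).injective h1)
  simp only [Subgroup.coe_mul, MulAut.conjNormal_apply] at h2
  calc α g = (α g * g⁻¹ * (g * w * g⁻¹)) * g * (w : G)⁻¹ := by group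
    _ = w * g * (w : G)⁻¹ := by rw [← h2]

end Cfsg.Agent.S1941
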