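import Cfsg.Statements.S1946
import Cfsg.Agent.H7.Small
import Cfsg.Agent.H83.CharP

set_option autoImplicit false
open Cfsg

namespace Cfsg.Agent.S1946

open scoped commutatorElement in
/-- Let P be a Sylow p-subgroup of the finite group G. Then G has a normal p-complement if and only if P controls the fusion of its elements of order dividing p (dividing 4 when p = 2): whenever such an element a of P has a G-conjugate g a g⁻¹ in P, that conjugate is already x a x⁻¹ for some x in P. -/
theorem result {G : Type*} [Group G] [Finite G] {p : ℕ} [Fact p.Prime] (P : Sylow p G) :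
    Cfsg.HasNormalPComplement p G ↔
      ∀ a ∈ (P : Subgroup G), (a ^ p = 1 ∨ (p = 2 ∧ a ^ 4 = 1)) → ∀ g : G, g * a * g⁻¹ ∈ (P : Subgroup G) →
        ∃ x ∈ (P : Subgroup G), g * a * g⁻¹ = x * a * x⁻¹ := by
  constructor
  · intro h a ha _ g hg
    have := H8.pResidual_normal (G := G) p
    obtain ⟨v, hv, h1⟩ := H8.fusion_of_isComplement' (H8.HasNormalPComplement.isComplement' h P) g
    exact ⟨v, hv, (h1 a ha hg).symm⟩
  · intro h
    refine H8.hasNormalPComplement_of_forall_le_centralizes P fun Q hQ g hg hc => ?_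
    obtain ⟨D, hDQ, hN, hs, -, hD⟩ := H7.exists_small_subgroup (P.2.to_le hQ)
    refine hD g hg hc ?_
    have hnil : Group.IsNilpotent (P : Subgroup G) := P.2.isNilpotent
    obtain ⟨n, hn⟩ := Group.IsNilpotent.nilpotent (P : Subgroup G)
    have hDp : IsPGroup p D := P.2.to_le (hDQ.trans hQ)
    have key := H83.mem_cent_of_chain hc
      (fun i => D ⊓ (Subgroup.upperCentralSeries (P : Subgroup G) i).map (P : Subgroup G).subtype)
      (fun i => hDp.to_inf_left) (by simp) (fun i a ha => ?_) n
    · rw [hn, ← MonoidHom.range_eq_map, Subgroup.range_subtype,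
        inf_eq_left.mpr (hDQ.trans hQ)] at key
      exact key
    · obtain ⟨haD, b, hb, rfl⟩ := ha
      have h1 : g * (b : G)⁻¹ * g⁻¹ ∈ D :=
        (Subgroup.mem_normalizer_iff.mp (hN hg) _).mp (inv_mem haD)
      obtain ⟨x, hx, hxe⟩ := h (b : G)⁻¹ (inv_mem b.2) (hs _ (inv_mem haD)) g (hQ (hDQ h1))
      have e : ⁅(b : G), g⁆ = (b : G) * (g * (b : G)⁻¹ * g⁻¹) := by
        rw [commutatorElement_def]; group
      refine ⟨?_, ⟨_, Subgroup.mem_upperCentralSeries_succ_iff.mp hb ⟨x, hx⟩, ?_⟩⟩
      · change ⁅(b : G), g⁆ ∈ D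
        rw [e]; exact mul_mem haD h1
      · change _ = ⁅(b : G), g⁆
        rw [e, hxe]
        simp [commutatorElement_def, mul_assoc]

end Cfsg.Agent.S1946
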