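import Cfsg.Statements.S1947
import Cfsg.Agent.H7.Small
import Cfsg.Agent.H83.CharP

set_option autoImplicit false
open Cfsg

namespace Cfsg.Agent.S1947

/-- Let G be a finite group and p a prime. If every element of G of order dividing p (dividing 4 when p = 2) lies in some fixed term Z_n(G) of the upper central series, then G has a normal p-complement. -/
theorem result {G : Type*} [Group G] [Finite G] {p : ℕ} [Fact p.Prime] (n : ℕ)
    (h : ∀ a : G, (a ^ p = 1 ∨ (p = 2 ∧ a ^ 4 = 1)) → a ∈ Subgroup.upperCentralSeries G n) : Cfsg.HasNormalPComplement p G := by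
  refine H8.hasNormalPComplement_of_forall_centralizes fun Q hQ g hg hc => ?_
  have key := H83.mem_cent_of_chain hc (fun i => Q ⊓ Subgroup.upperCentralSeries G i)
    (fun i => hQ.to_inf_left) (by simp) (fun i a ha => ?_) n
  · refine H7.mem_centralizer_of_small hQ hg hc fun x hx hs => ?_
    rw [← key x ⟨hx, h x hs⟩, mul_inv_cancel_right]
  · refine ⟨?_, Subgroup.mem_upperCentralSeries_succ_iff.mp ha.2 g⟩
    have h1 : g * a⁻¹ * g⁻¹ ∈ Q := (Subgroup.mem_normalizer_iff.mp hg _).mp (inv_mem ha.1)
    have := mul_mem ha.1 h1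
    simpa [commutatorElement_def, mul_assoc] using this

end Cfsg.Agent.S1947
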