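import Cfsg.Statements.S1952
import Cfsg.Agent.H90.Wreath

set_option autoImplicit false
open Cfsg

namespace Cfsg.Agent.S1952

/-- Let P be a finite p-group with a normal elementary abelian subgroup A of index p, and let x ∈ A and y ∈ P with y outside A. If the product of the p conjugates y^(-i) x y^i (i = 0, …, p−1) is not the identity, then the wreath product Z_p ≀ Z_p, realised as a Sylow p-subgroup of the symmetric group of degree p², is a homomorphic image of P. -/
theorem result {P : Type*} [Group P] [Finite P] {p : ℕ} [Fact p.Prime] (hP : IsPGroup p P) (A : Subgroup P) [A.Normal]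
    (hA : Cfsg.IsElementaryAbelian p A) (hidx : A.index = p) (x y : P) (hx : x ∈ A) (hy : y ∉ A)
    (hprod : ((List.range p).map (fun i => (y ^ i)⁻¹ * x * y ^ i)).prod ≠ 1) :
    ∃ (Q : Sylow p (Equiv.Perm (Fin (p ^ 2)))) (f : P →* ↥(Q : Subgroup (Equiv.Perm (Fin (p ^ 2))))), Function.Surjective f := by
  have hp : p.Prime := Fact.out
  let inst : CommGroup A := { (inferInstance : Group A) with mul_comm := hA.1.is_comm.comm }
  have hconj : ∀ t : P, ∀ a ∈ A, t⁻¹ * a * t ∈ A := fun t a ha => by
    simpa using (inferInstance : A.Normal).conj_mem a ha t⁻¹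
  have h1 : ∀ i : ℕ, (y ^ i)⁻¹ * x * y ^ i ∈ A := fun i => hconj _ x hx
  have h2 := H90.iterate_comm_mem (hconj y) hx (p - 1)
  have h3 := H90.prod_conj_eq_iterate hp (A := A) (fun a => Subtype.ext (hA.2 a a.2))
    (MonoidHom.id A) (hconj y) hx h1 h2
  have h4 : ∀ k, ((∏ i ∈ Finset.range k, MonoidHom.id A ⟨_, h1 i⟩ : A) : P) =
      ((List.range k).map (fun i => (y ^ i)⁻¹ * x * y ^ i)).prod := by
    intro k
    induction k with
    | zero => rfl
    | succ k ih =>
      rw [Finset.prod_range_succ, List.range_succ, List.map_append, List.prod_append, ← ih]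
      simp
  have h5 : (⟨_, h2⟩ : A) ∉ (⊥ : Subgroup A) := by
    intro h
    rw [← h4, h3] at hprod
    exact hprod (congrArg Subtype.val (Subgroup.mem_bot.1 h))
  obtain ⟨M, hM, -, hyM⟩ := H3.exists_coatom_not_mem (G := A) hp (N := ⊥)
    (by rw [le_bot_iff, commutator_eq_bot_iff_center_eq_top, CommGroup.center_eq_top])
    (fun a => Subtype.ext (hA.2 a a.2)) h5
  refine H90.exists_surjective_wreath hP (R := M.map A.subtype) ?_
    (H90.iterate_comm_mem_lcs (Subgroup.mem_top x) (Subgroup.mem_top y) _) ?_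
  · rw [Subgroup.index_map_subtype, H7.index_of_isCoatom (hP.to_subgroup A) hM, hidx, sq]
  · rintro ⟨w, hw, h⟩
    exact hyM ((Subtype.ext h : w = ⟨_, h2⟩) ▸ hw)

end Cfsg.Agent.S1952
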