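import Cfsg.Statements.S2005
import Cfsg.Agent.H6.Section

set_option autoImplicit false
universe u
open Cfsg
open Subgroup

namespace Cfsg.Agent.S2005

/-- Thompson's normal p-complement criterion in functor form. Let p be a prime, G a finite group with Sylow p-subgroup S, and W an isomorphism-invariant p-group functor (W assigns to every group Q a subgroup W(Q), nontrivial whenever Q is a nontrivial finite p-group, and every isomorphism from a finite p-group Q onto a group R carries W(Q) onto W(R)). Suppose N_G(W(S)) has a normal p-complement, and that W(S*) is normal in G* whenever G* = K/R is a section of G with C_{G*}(O_p(G*)) ≤ O_p(G*) such that G*/O_p(G*) has a normal p-complement, and S* is a Sylow p-subgroup of G* that is a maximal subgroup of G*. Then G has a normal p-complement. -/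
theorem result {G : Type u} [Group G] [Finite G] {p : ℕ} [Fact p.Prime] (W : ∀ (Q : Type u) [Group Q], Subgroup Q) (hW : Cfsg.IsCharPFunctor.{u} p W) (S : Sylow p G) (hN : Cfsg.HasNormalPComplement p ↥(Subgroup.normalizer ((Cfsg.inducedFunctor (G := G) W (S : Subgroup G) : Subgroup G) : Set G))) (hloc : ∀ (K R : Subgroup G) [hR : (R.subgroupOf K).Normal], Subgroup.centralizer ((Cfsg.pCore p (↥K ⧸ R.subgroupOf K) : Subgroup (↥K ⧸ R.subgroupOf K)) : Set (↥K ⧸ R.subgroupOf K)) ≤ Cfsg.pCore p (↥K ⧸ R.subgroupOf K) → Cfsg.HasNormalPComplement p ((↥K ⧸ R.subgroupOf K) ⧸ Cfsg.pCore p (↥K ⧸ R.subgroupOf K)) → ∀ T : Sylow p (↥K ⧸ R.subgroupOf K), IsCoatom (T : Subgroup (↥K ⧸ R.subgroupOf K)) → (Cfsg.inducedFunctor (G := (↥K ⧸ R.subgroupOf K)) W ((T : Subgroup (↥K ⧸ R.subgroupOf K)))).Normal) : Cfsg.HasNormalPComplement p G := by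
  refine H6.npc_of_charFunctor hW (fun X _ => H6.IsSect G X) (fun X _ h H => h.subgroup H)
    (fun X _ h N _ => h.quotient N) ?_ G H6.isSect_self S hN
  intro X _ _ hX hC hq P hP
  obtain ⟨K, R, hR, ⟨e⟩⟩ := H6.isSect_iff.mp hX
  let f : X →* ↥K ⧸ R.subgroupOf K := e.symm.toMonoidHom
  have hfs : Function.Surjective f := e.symm.surjective
  have hfi : Function.Injective f := e.symm.injective
  have hco : IsCoatom ((P : Subgroup X).map f) :=
    ((MulEquiv.mapSubgroup e.symm).isCoatom_iff _).mpr hP
  have h1 := hloc K R (H6.centralizer_pCore_le_congr e.symm hC)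
    (H8.HasNormalPComplement.of_equiv hq (H6.quotientPCoreCongr e.symm))
    (P.mapSurjective hfs) hco
  rw [Sylow.coe_mapSurjective, ← H6.map_inducedFunctor hW P.2
    (hfi.comp (subtype_injective _))] at h1
  have h2 := h1.comap f
  rwa [comap_map_eq_self_of_injective hfi] at h2

end Cfsg.Agent.S2005
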