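import Cfsg.Statements.S2015
import Cfsg.Agent.H54.KTransfer

set_option autoImplicit false
universe u
open Cfsg

namespace Cfsg.Agent.S2015

/-- For p ≥ 5, every finite p-group P has a characteristic subgroup K containing Z(P), depending only on P, whose normalizer controls transfer wherever P is a Sylow subgroup: for every finite group G and every embedding ι of P onto a Sylow p-subgroup of G, the intersection of ι(P) with the derived subgroup of G equals its intersection with the derived subgroup of N_G(ι(K)). -/
theorem result (p : ℕ) [Fact p.Prime] (hp : 5 ≤ p) (P : Type u) [Group P] [Finite P] (hP : IsPGroup p P) : ∃ K : Subgroup P, K.Characteristic ∧ Subgroup.center P ≤ K ∧ ∀ (G : Type u) [Group G] [Finite G] (ι : P →* G), Function.Injective ι → (∃ T : Sylow p G, (T : Subgroup G) = ι.range) → ι.range ⊓ commutator G = ι.range ⊓ (commutator ↥(Subgroup.normalizer ((K.map ι : Subgroup G) : Set G))).map (Subgroup.normalizer ((K.map ι : Subgroup G) : Set G)).subtype := by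
  refine ⟨kInfLower P, H54.kInfLower_characteristic, H54.center_le_kInfLower, ?_⟩
  rintro G _ _ ι hι ⟨T, hT⟩
  have h := (H54.controlsTransferIn_top_iff (H54.isCharPFunctor_kInfLower p) T).mp
    (H54.kInf_controlsTransferIn hp (Or.inl rfl))
  rw [Subgroup.map_subtype_commutator,
    H54.map_functor_of_injective (H54.isCharPFunctor_kInfLower p) hP ι hι, ← hT]
  exact h

end Cfsg.Agent.S2015
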