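import Cfsg.Statements.S2035
import Cfsg.Agent.H74.MultM12
import Cfsg.Agent.H74.Spin

set_option autoImplicit false
set_option maxRecDepth 1000000
open Cfsg

namespace Cfsg.Agent.S2035

open Cfsg.Agent.H42 Cfsg.Agent.H46 Cfsg.Agent.H74
open scoped Pointwise

/-- The Schur multiplier of the Mathieu group M₁₂ (the stabiliser of a dodecad in the automorphism group of the length-24 binary code) is cyclic of order 2; here the Schur multiplier is described through stem extensions, as in the definitions: surjective homomorphisms onto the group from a finite group, whose kernel is central in that finite group and contained in that finite group's commutator subgroup. -/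
theorem result : Cfsg.HasCyclicSchurMultiplier ↥Cfsg.Spor.M12 2 := by
  have := simple_M12
  have := isPerfect_of_simple (G := Spor.M12) (by rw [card_M12]; norm_num)
  obtain ⟨t, ht⟩ := test12.exists (a := 651252496612629869266570458847789443) (by decide +kernel)
  refine bound12.finish_cyclic (mElt_two_of_invariant Spor.M12.subtype Spor.squareDodecad
    (fun g x hx => ?_) (t := t) ?_ ?_)
  · have h : (g : Equiv.Perm GolayPt) • Spor.squareDodecad = Spor.squareDodecad := g.2.2
    rw [← h]
    exact Finset.smul_mem_smul_finset hx
  · exact ((codedK _).pow_eq_one_iff ht 2).mp (by decide +kernel)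
  · rw [Finset.filter_true_of_mem, ← toSet_dod0, dod0_mem.2]
    intro x _ e
    have h1 : allB (fun i => notB (Nat.beq (app 651252496612629869266570458847789443 i) i)) 24
      = true := by decide +kernel
    have h2 := beq_false_iff.mp (notB_iff.mp (of_allB h1 (idx_lt x)))
    apply h2
    rw [← idx_toPerm ht.1, ht.2]
    exact congrArg idx e

end Cfsg.Agent.S2035
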