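import Cfsg.Statements.S2040
import Cfsg.Agent.H47.J2Model
import Cfsg.Agent.H47.J2Mult
import Cfsg.Agent.H74.Spin

set_option autoImplicit false
open Cfsg

namespace Cfsg.Agent.S2040

open Cfsg.Agent.H43 Cfsg.Agent.H47 Cfsg.Agent.H47.J2P Cfsg.Agent.H74

theorem moved : allN (fun i => Bool.rec true false (Nat.beq (h_g77.pt i) i)) 100 = true := by
  decide +kernel

/-- The Schur multiplier of the Hall–Janko group J₂ (the icosian reflection group modulo its centre) is cyclic of order 2; here the Schur multiplier is described through stem extensions, as in the definitions: surjective homomorphisms onto the group from a finite group, whose kernel is central in that finite group and contained in that finite group's commutator subgroup. -/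
theorem result : Cfsg.HasCyclicSchurMultiplier Cfsg.Spor.J2 2 := by
  have := simple_J2
  have := isPerfect_of_simple (G := Spor.J2) (by rw [card_J2]; norm_num)
  refine (mult_bound.congr_left eH0.symm).finish_cyclic
    (mElt_two_of_perm ((grp 100 h_E0).subtype.comp eH0.toMonoidHom)
      (t := eH0.symm ⟨_, ht_c2_mem⟩) ?_ ?_)
  · rw [← map_pow, map_eq_one_iff _ eH0.symm.injective]
    apply Subtype.ext
    exact ht_c2_ord ▸ pow_orderOf_eq_one _
  · have : (((grp 100 h_E0).subtype.comp eH0.toMonoidHom) (eH0.symm ⟨_, ht_c2_mem⟩)).support =
        Finset.univ := by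
      rw [Finset.eq_univ_iff_forall]
      intro i
      have h := allN_iff.1 moved i i.2
      rw [Net.pt_eq h_g77_ok] at h
      simp only [MonoidHom.comp_apply, MulEquiv.coe_toMonoidHom, MulEquiv.apply_symm_apply,
        Subgroup.coe_subtype, Equiv.Perm.mem_support]
      intro e
      rw [e] at h
      simp at h
    rw [this]
    simp

end Cfsg.Agent.S2040
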