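import Cfsg.Statements.S2091
import Cfsg.Agent.H74.MultU62C
import Cfsg.Agent.H48.U62
import Cfsg.Agent.H28.Transport

set_option autoImplicit false
open Cfsg

namespace Cfsg.Agent.S2091

/-- Exceptional Schur multiplier: PSU₆(2), realised over the field with 4 elements, has Schur multiplier isomorphic to the product of cyclic groups of orders 3, 2 and 2 (order 12, not cyclic; here the Schur multiplier is described through stem extensions, as in the definitions). -/
theorem result {F : Type*} [Field F] [Fintype F] (hF : Fintype.card F = 4) : Cfsg.HasSchurMultiplier (Cfsg.PSU 6 F 2) (Multiplicative (ZMod 3 × ZMod 2 × ZMod 2)) :=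
  by
  have : Fact (Nat.Prime 2) := ⟨by norm_num⟩
  let _ := Fintype.ofFinite (GaloisField 2 2)
  have hK : Fintype.card (GaloisField 2 2) = 4 := by
    rw [← Nat.card_eq_fintype_card, GaloisField.card 2 2 (by norm_num)]; norm_num
  obtain ⟨e⟩ := Cfsg.Agent.H48.U62.equiv (GaloisField 2 2) hK
  exact Cfsg.Agent.H80.hasSchurMultiplier_congr_left Cfsg.Agent.H74.MU62.mult
    (e.trans (Cfsg.Agent.H28.psuEquiv (FiniteField.ringEquivOfCardEq (hK.trans hF.symm)) 6 2))

end Cfsg.Agent.S2091
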