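import Cfsg.Statements.S2101
import Cfsg.Agent.H78.MulG23B
import Cfsg.Agent.H80.ExcPP
import Cfsg.Agent.H34.TwG2

set_option autoImplicit false
open Cfsg

namespace Cfsg.Agent.S2101
open Cfsg.Lie Cfsg.Agent.H34 Cfsg.Agent.H37 Cfsg.Agent.H74 Cfsg.Agent.H78.Mul
open Cfsg.Agent.H78.Mul.G23 Cfsg.Agent.H42 Cfsg.Agent.H46

theorem tab1 : ∀ e < 2, ∀ r < chevG2.nroots, chevG2.reflectRoot e r = dat.π e r ∧
    validG2.η e r ≡ dat.c e r [ZMOD (3 : ℕ)] := by decide +kernel

theorem tab2 : ∀ e < 2, ∀ r < chevG2.nroots, r = dat.π (e + 2) r ∧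
    (if Even (chevG2.pairing (chevG2.simple e) r) then 1 else -1) ≡ dat.c (e + 2) r
      [ZMOD (3 : ℕ)] := by decide +kernel


/-- Exceptional Schur multiplier: over the field with 3 elements the Chevalley group of type G₂ has Schur multiplier cyclic of order 3 (here the Schur multiplier is described through stem extensions, as in the definitions). -/
theorem result {F : Type*} [Field F] [Fintype F] (hF : Fintype.card F = 3) : Cfsg.HasCyclicSchurMultiplier ↥(Cfsg.Lie.chevG2.group F) 3 := by
  have := Fact.mk Nat.prime_three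
  have := charP_of_card_eq_prime_pow (p := 3) (f := 1) hF
  have hc : Nat.card F = 3 := Nat.card_eq_fintype_card.trans hF
  have hf : dat.Fld (1 : F) := ⟨Nat.prime_three, CharP.cast_eq_zero F 3, Or.inl ⟨rfl, rfl⟩,
    fun t => by
      obtain ⟨a, rfl⟩ := (ZMod.ringEquiv F hF).surjective t
      exact ⟨a.val, 0, by rw [← ZMod.natCast_zmod_val a, map_natCast, ZMod.val_natCast_of_lt a.val_lt]; simp⟩,
    hc⟩
  have h1 : (-1 : Fˣ) ≠ 1 := fun h => by
    have h2 : ((2 : ℕ) : F) = 0 := by
      have := congrArg Units.val h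
      push_cast at this ⊢
      linear_combination -this
    exact absurd ((CharP.cast_eq_zero_iff F 3 2).1 h2) (by norm_num)
  obtain ⟨a, b⟩ := Dat.main_one (C := cG2) hf (Dat.lev0_of_chk c0) (Dat.lev1_of_chk c1)
    (fun k => of_allB c2) (fun e => of_allB c3) c5 rfl (by decide)
    (g := fun e => if e < 2 then cG2.ng F (chevG2.simple e) 1 else
      cG2.hg F (chevG2.simple (e - 2)) (-1 : Fˣ))
    (fun e he => by
      by_cases h : e < 2
      · rw [if_pos h]
        exact Dat.act_of (fun r hr t => validG2.nE_simple_conj h hr t) fun r hr _ =>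
          ⟨(tab1 e h r hr).1, by
            rw [one_pow, mul_one, (CharP.intCast_eq_intCast F 3).2 (tab1 e h r hr).2, Int.cast_natCast]⟩
      · rw [if_neg h]
        obtain ⟨e, rfl⟩ := Nat.exists_eq_add_of_le' (not_lt.1 h)
        replace he : e < 2 := Nat.lt_of_add_lt_add_right he
        exact Dat.act_of (π' := id) (fun r hr t => Cert.hg_conj (cG2.V.basic.simple_lt e he) hr
          (Units.ne_zero _) t) fun r hr _ => ⟨(tab2 e he r hr).1, by
            rw [one_pow, mul_one, ← Int.cast_natCast,
              ← (CharP.intCast_eq_intCast F 3).2 (tab2 e he r hr).2, Units.val_neg, Units.val_one,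
              neg_one_zpow_eq_ite]
            split_ifs <;> simp⟩)
    (-1) (fun u => mem_powers_of_prime_card (p := 2)
      (by rw [Nat.card_units, hc]) h1)
    (fun i hi => Or.inr ⟨i + 2, Nat.add_lt_add_right hi 2, if_neg (by omega)⟩)
    (fun i hi => ⟨i, hi.trans (by decide), if_pos hi⟩) (k := 5824) (S1059.result hF)
    (by decide) cert_nrm cert_chk
  exact ((a.mul (H80.mBound_G2_three hF)).congr (by norm_num) le_rfl).finish_cyclic b

end Cfsg.Agent.S2101
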