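import Cfsg.Statements.S2128
import Cfsg.Agent.H37.TwOutF4

set_option autoImplicit false
open Cfsg

namespace Cfsg.Agent.S2128

/-- Outer automorphisms of the large Ree groups: for q = 2^(2m+1) with m ≥ 1 the outer automorphism group of ²F₄(q) has order 2m + 1 (field automorphisms only). -/
theorem result {K : Type*} [Field K] [Fintype K] {m : ℕ} (hm : 1 ≤ m) (hK : Fintype.card K = 2 ^ (2 * m + 1)) : Nat.card (Cfsg.Out ↥(Cfsg.Lie.twistedF4 K (2 ^ m))) = 2 * m + 1 := by
  obtain ⟨_, θ, hθ, h2⟩ := H34.exists_theta hK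
  obtain ⟨a, ha⟩ := H34.exists_pow_ne_one (K := K) one_pos
    (hK ▸ lt_of_lt_of_le (by norm_num) (Nat.pow_le_pow_right (by norm_num) (show 2 ≤ 2 * m + 1 by omega)))
  rw [H37.card_out_F4 θ h2 hθ ⟨a, fun h => ha (Units.ext (mul_right_cancel₀ a.ne_zero (by
      rw [Units.val_pow_eq_pow_val, ← pow_succ, h, Units.val_one, one_mul])))⟩,
    H73.card_ringAut hK]

end Cfsg.Agent.S2128
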