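import Cfsg.Statements.S2162
import Cfsg.Agent.H76.Unip

set_option autoImplicit false
open Cfsg

namespace Cfsg.Agent.S2162

/-- Conjugacy of involutions in the special linear group over a finite field of characteristic two, in dimension at least 3: two elements of order 2 of SL_n(F) are conjugate in SL_n(F) exactly when the matrices a − 1 and b − 1 have the same rank (the rank of a − 1 is the dimension of the commutator space [V, a]). -/
theorem result {F : Type*} [Field F] [Fintype F] [CharP F 2] {n : ℕ} (hn : 3 ≤ n) (a b : Matrix.SpecialLinearGroup (Fin n) F) (ha : orderOf a = 2) (hb : orderOf b = 2) :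
    IsConj a b ↔ ((a : Matrix (Fin n) (Fin n) F) - 1).rank = ((b : Matrix (Fin n) (Fin n) F) - 1).rank := by
  have : Fact (Nat.Prime 2) := ⟨Nat.prime_two⟩
  have key : ∀ c : Matrix.SpecialLinearGroup (Fin n) F, orderOf c = 2 →
      ((c : Matrix (Fin n) (Fin n) F) - 1) * ((c : Matrix (Fin n) (Fin n) F) - 1) = 0 := by
    intro c hc
    rw [← H76.orderOf_toGL] at hc
    have := (H76.pow_char_pow_eq_one_iff 2 (Matrix.SpecialLinearGroup.toGL c) 1).1
      (by rw [pow_one, ← hc, pow_orderOf_eq_one])
    rwa [pow_one, pow_two] at this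
  constructor
  · intro h
    have h1 := (H76.isConj_units_iff _ _).1 (Matrix.SpecialLinearGroup.toGL.map_isConj h)
    simpa using H76.IsConj.rank_sub_one_pow h1 1
  · intro h
    have h1 := H76.isConj_of_sq_zero _ _ (key a ha) (key b hb) h
    have : Nonempty (Fin n) := ⟨⟨0, by omega⟩⟩
    obtain ⟨y, hy⟩ := Multiset.exists_mem_of_ne_zero
      (H76.med_ne_zero (a : Matrix (Fin n) (Fin n) F))
    have h2 := ((H76.sub_one_pow_eq_zero_iff _ 2).1 (by rw [pow_two, key a ha]) y hy).2
    have h3 := (H76.valid_med _ y hy).2.2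
    rcases (show y.2 = 1 ∨ y.2 = 2 by omega) with h4 | h4
    · exact H76.isConj_sl_of_isConj_gl a b h1 hy h4
    · have h' : IsConj (Matrix.SpecialLinearGroup.toGL a) (Matrix.SpecialLinearGroup.toGL b) :=
        (H76.isConj_units_iff _ _).2 h1
      obtain ⟨g, hg⟩ := isConj_iff.1 h'
      obtain ⟨c, hc⟩ := FiniteField.isSquare_of_char_two (F := F) (ringChar.eq F 2)
        ((Matrix.GeneralLinearGroup.det g)⁻¹ : Fˣ)
      have hc0 : c ≠ 0 := by
        rintro rfl
        exact Units.ne_zero _ (hc.trans (mul_zero _))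
      obtain ⟨z, hz, hdet⟩ := H76.exists_commute_gl_det_eq _ hy (Units.mk0 c hc0)
      have hz' : z * Matrix.SpecialLinearGroup.toGL a = Matrix.SpecialLinearGroup.toGL a * z :=
        Units.ext hz
      have h5 : Matrix.GeneralLinearGroup.det (g * z) = 1 := by
        rw [map_mul, hdet, h4, mul_eq_one_iff_inv_eq]
        exact Units.ext (by rw [hc]; simp [pow_two])
      let k : Matrix.SpecialLinearGroup (Fin n) F := ⟨(g * z : GL (Fin n) F), congrArg Units.val h5⟩
      have hk : Matrix.SpecialLinearGroup.toGL k = g * z := Units.ext rfl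
      rw [isConj_iff]
      refine ⟨k, Matrix.SpecialLinearGroup.toGL_injective ?_⟩
      rw [map_mul, map_mul, map_inv, hk, ← hg, mul_inv_rev, mul_assoc g z, hz']
      group

end Cfsg.Agent.S2162
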