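import Cfsg.Statements.S2163

set_option autoImplicit false
open Cfsg

namespace Cfsg.Agent.S2163

/-- Over a finite field of characteristic two and for n ≥ 3: for every ℓ with 1 ≤ ℓ and 2ℓ ≤ n, the matrix j_ℓ that is the identity plus the entries 1 in positions (n − ℓ + i, i) for i < ℓ (an identity block of size ℓ in the lower left corner) lies in SL_n(F), has order 2, and j_ℓ − 1 has rank ℓ. Together with the conjugacy criterion by rank, these matrices represent the conjugacy classes of involutions of SL_n(F). -/
theorem result {F : Type*} [Field F] [Fintype F] [CharP F 2] {n : ℕ} (hn : 3 ≤ n) (ℓ : ℕ) (h1 : 1 ≤ ℓ) (h2 : 2 * ℓ ≤ n) :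
    ∃ a : Matrix.SpecialLinearGroup (Fin n) F, (a : Matrix (Fin n) (Fin n) F) = 1 + Matrix.of (fun i j : Fin n => if j.val < ℓ ∧ i.val = j.val + (n - ℓ) then (1 : F) else 0) ∧ orderOf a = 2 ∧ ((a : Matrix (Fin n) (Fin n) F) - 1).rank = ℓ := by
  set N : Matrix (Fin n) (Fin n) F :=
    Matrix.of (fun i j : Fin n => if j.val < ℓ ∧ i.val = j.val + (n - ℓ) then (1 : F) else 0)
    with hN
  have hNN : N * N = 0 := by
    ext i k
    rw [Matrix.mul_apply, Matrix.zero_apply]
    refine Finset.sum_eq_zero fun j _ => ?_
    simp only [hN, Matrix.of_apply]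
    split_ifs with h3 h4
    · omega
    all_goals simp
  have hdet : (1 + N).det = 1 := by
    rw [Matrix.det_of_isLowerTriangular]
    · refine Finset.prod_eq_one fun i _ => ?_
      simp only [hN, Matrix.add_apply, Matrix.one_apply_eq, Matrix.of_apply]
      rw [if_neg (by omega), add_zero]
    · intro i j hij
      have hij' : i < j := hij
      simp only [hN, Matrix.add_apply, Matrix.of_apply]
      rw [Matrix.one_apply_ne hij'.ne, if_neg (by have : i.val < j.val := hij'; omega), add_zero]
  have hrank : N.rank = ℓ := by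
    let α : Fin ℓ → Fin n := fun k => ⟨k + (n - ℓ), by omega⟩
    let β : Fin ℓ → Fin n := fun k => ⟨k, by omega⟩
    apply le_antisymm
    · refine (Matrix.rank_le_card_of_support_subset N (Finset.univ.image α) ?_).trans
        (Finset.card_image_le.trans (by simp))
      intro i hi
      obtain ⟨j, hj⟩ := Function.ne_iff.1 hi
      have : j.val < ℓ ∧ i.val = j.val + (n - ℓ) := by
        by_contra h
        exact hj (if_neg h)
      simp only [Finset.coe_image, Finset.coe_univ, Set.image_univ]
      exact ⟨⟨j, this.1⟩, Fin.ext this.2.symm⟩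
    · have : N.submatrix α β = 1 := by
        ext i j
        simp only [hN, Matrix.submatrix_apply, Matrix.of_apply, α, β, Matrix.one_apply, j.2,
          true_and, Nat.add_right_cancel_iff, Fin.ext_iff]
      have h5 := Matrix.rank_submatrix_le N α β
      rwa [this, Matrix.rank_one, Fintype.card_fin] at h5
  let a : Matrix.SpecialLinearGroup (Fin n) F := ⟨1 + N, hdet⟩
  refine ⟨a, rfl, ?_, by simpa [a] using hrank⟩
  have : Fact (Nat.Prime 2) := ⟨Nat.prime_two⟩
  apply orderOf_eq_prime
  · apply Subtype.ext
    change (1 + N) ^ 2 = 1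
    have h6 : N + N = 0 := by
      ext i j
      rw [Matrix.add_apply, CharTwo.add_self_eq_zero, Matrix.zero_apply]
    rw [pow_two, add_mul, mul_add, mul_add, hNN]
    simp [add_assoc, h6]
  · intro h
    have h7 : 1 + N = 1 := congrArg Subtype.val h
    rw [add_eq_left] at h7
    rw [h7, Matrix.rank_zero] at hrank
    omega

end Cfsg.Agent.S2163
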