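import Cfsg.Statements.S2166
import Cfsg.Agent.H79.InvolSp

set_option autoImplicit false
open Cfsg

namespace Cfsg.Agent.S2166

/-- Conjugacy of involutions in the symplectic group Sp_{2m}(F), F a finite field of characteristic two, m ≥ 2 (Sp taken as the matrices A with A J Aᵀ = J, acting on column vectors, with the alternating form f(u, v) = u ⬝ (J v)). For an involution t write V(t) for the set of vectors v with f(v, t v) = 0 (a subspace). Two involutions a, b are conjugate in Sp_{2m}(F) exactly when a − 1 and b − 1 have the same rank and, in case that rank is even, V(a) and V(b) have the same number of elements. -/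
theorem result {F : Type*} [Field F] [Fintype F] [CharP F 2] {m : ℕ} (hm : 2 ≤ m) (a b : ↥(Matrix.symplecticGroup (Fin m) F)) (ha : orderOf a = 2) (hb : orderOf b = 2) :
    IsConj a b ↔ ((((a : ↥(Matrix.symplecticGroup (Fin m) F)) : Matrix (Fin m ⊕ Fin m) (Fin m ⊕ Fin m) F) - 1).rank = (((b : ↥(Matrix.symplecticGroup (Fin m) F)) : Matrix (Fin m ⊕ Fin m) (Fin m ⊕ Fin m) F) - 1).rank ∧
      (Even (((a : ↥(Matrix.symplecticGroup (Fin m) F)) : Matrix (Fin m ⊕ Fin m) (Fin m ⊕ Fin m) F) - 1).rank → Nat.card {v : Fin m ⊕ Fin m → F // Cfsg.sympForm m F v (Matrix.mulVec ((a : ↥(Matrix.symplecticGroup (Fin m) F)) : Matrix (Fin m ⊕ Fin m) (Fin m ⊕ Fin m) F) v) = 0} = Nat.card {v : Fin m ⊕ Fin m → F // Cfsg.sympForm m F v (Matrix.mulVec ((b : ↥(Matrix.symplecticGroup (Fin m) F)) : Matrix (Fin m ⊕ Fin m) (Fin m ⊕ Fin m) F) v) = 0})) := by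
  have h2 : (2 : F) = 0 := CharTwo.two_eq_zero
  have ha2 := H79.coe_mul_self_eq_one (H27.spEquiv (Fin m) F) (H79.orderOf_eq_two_iff'.1 ha).1
  have hb2 := H79.coe_mul_self_eq_one (H27.spEquiv (Fin m) F) (H79.orderOf_eq_two_iff'.1 hb).1
  have hN := H27.jBilin_nondegenerate (l := Fin m) (F := F)
  have hA := H27.jBilin_isAlt (l := Fin m) (F := F)
  obtain ⟨a1, a2⟩ := H79.card_zero_set h2 hA (H27.spEquiv (Fin m) F a).2 ha2
  obtain ⟨b1, b2⟩ := H79.card_zero_set h2 hA (H27.spEquiv (Fin m) F b).2 hb2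
  have a3 := H79.even_rk_of_altType h2 hN hA (H27.spEquiv (Fin m) F a).2 ha2
  have b3 := H79.even_rk_of_altType h2 hN hA (H27.spEquiv (Fin m) F b).2 hb2
  rw [← H79.isConj_equiv (H27.spEquiv (Fin m) F), H79.isConj_sp_iff h2 hN hA _ _ ha2 hb2,
    ← H79.rk_spEquiv, ← H79.rk_spEquiv]
  simp only [H27.sympForm_eq_jBilin]
  refine and_congr_right fun hr => ?_
  change _ ↔ (_ → Nat.card {v // H27.jBilin (Fin m) F v ((H27.spEquiv (Fin m) F a).1 v) = 0} =
    Nat.card {v // H27.jBilin (Fin m) F v ((H27.spEquiv (Fin m) F b).1 v) = 0})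
  have hq : 1 < Fintype.card F := Fintype.one_lt_card
  have hp : 0 < Fintype.card F ^ Module.finrank F (Fin m ⊕ Fin m → F) := by positivity
  by_cases h1 : H79.AltType (H27.jBilin (Fin m) F) (H27.spEquiv (Fin m) F a).1 <;>
  by_cases h3 : H79.AltType (H27.jBilin (Fin m) F) (H27.spEquiv (Fin m) F b).1
  · simp [h1, h3, a1 h1, b1 h3]
  · simp only [h1, h3, iff_false, not_true, false_iff, a3 h1, true_imp_iff]
    intro h
    have := b2 h3
    rw [← h, a1 h1] at this
    nlinarith
  · simp only [h1, h3, iff_true, false_iff, hr, b3 h3, true_imp_iff]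
    intro h
    have := a2 h1
    rw [h, b1 h3] at this
    nlinarith
  · simp only [h1, h3, true_iff]
    exact fun _ => Nat.eq_of_mul_eq_mul_right (by omega) ((a2 h1).trans (b2 h3).symm)

end Cfsg.Agent.S2166
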