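import Cfsg.Statements.S2167
import Cfsg.Agent.H79.InvolSp

set_option autoImplicit false
open Cfsg

namespace Cfsg.Agent.S2167

/-- For an involution t of the symplectic group Sp_{2m}(F), m ≥ 2, F a finite field of characteristic two (matrices A with A J Aᵀ = J acting on column vectors, alternating form f(u, v) = u ⬝ (J v)): the set V(t) of vectors v with f(v, t v) = 0 has either q^{2m} or q^{2m−1} elements, q the order of F (it is a subspace of codimension at most 1), and if it is the whole space then t − 1 has even rank. -/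
theorem result {F : Type*} [Field F] [Fintype F] [CharP F 2] {m : ℕ} (hm : 2 ≤ m) (a : ↥(Matrix.symplecticGroup (Fin m) F)) (ha : orderOf a = 2) :
    (Nat.card {v : Fin m ⊕ Fin m → F // Cfsg.sympForm m F v (Matrix.mulVec ((a : ↥(Matrix.symplecticGroup (Fin m) F)) : Matrix (Fin m ⊕ Fin m) (Fin m ⊕ Fin m) F) v) = 0} = Fintype.card F ^ (2 * m) ∨ Nat.card {v : Fin m ⊕ Fin m → F // Cfsg.sympForm m F v (Matrix.mulVec ((a : ↥(Matrix.symplecticGroup (Fin m) F)) : Matrix (Fin m ⊕ Fin m) (Fin m ⊕ Fin m) F) v) = 0} * Fintype.card F = Fintype.card F ^ (2 * m)) ∧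
    ((∀ v : Fin m ⊕ Fin m → F, Cfsg.sympForm m F v (Matrix.mulVec ((a : ↥(Matrix.symplecticGroup (Fin m) F)) : Matrix (Fin m ⊕ Fin m) (Fin m ⊕ Fin m) F) v) = 0) → Even (((a : ↥(Matrix.symplecticGroup (Fin m) F)) : Matrix (Fin m ⊕ Fin m) (Fin m ⊕ Fin m) F) - 1).rank) := by
  have h2 : (2 : F) = 0 := CharTwo.two_eq_zero
  have ha2 := H79.coe_mul_self_eq_one (H27.spEquiv (Fin m) F) (H79.orderOf_eq_two_iff'.1 ha).1
  have hN := H27.jBilin_nondegenerate (l := Fin m) (F := F)
  have hA := H27.jBilin_isAlt (l := Fin m) (F := F)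
  obtain ⟨a1, a2⟩ := H79.card_zero_set h2 hA (H27.spEquiv (Fin m) F a).2 ha2
  have a3 := H79.even_rk_of_altType h2 hN hA (H27.spEquiv (Fin m) F a).2 ha2
  rw [H79.finrank_sum_self] at a1 a2
  rw [← H79.altType_spEquiv, ← H79.rk_spEquiv]
  simp only [H27.sympForm_eq_jBilin]
  refine ⟨?_, a3⟩
  by_cases h1 : H79.AltType (H27.jBilin (Fin m) F) (H27.spEquiv (Fin m) F a).1
  · exact Or.inl (a1 h1)
  · exact Or.inr (a2 h1)

end Cfsg.Agent.S2167
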