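import Cfsg.Statements.S2172
import Cfsg.Agent.H79.InvolO

set_option autoImplicit false
open Cfsg

namespace Cfsg.Agent.S2172

/-- Splitting of involution classes from O to Ω for the hyperbolic quadratic form Q = Σ x_i y_i in dimension 2m over a finite field F of characteristic two, m ≥ 4. Let t, s be involutions of the commutator subgroup Ω that are conjugate in the full isometry group O. If it is not the case that t − 1 has rank m and Q(v + t v) = 0 for every vector v, then t and s are conjugate by an element of Ω. If t − 1 has rank m and Q(v + t v) = 0 for all v, then t and s are conjugate by an element of Ω exactly when the intersection of the images of t − 1 and s − 1 has even dimension (so the class of t in O meets at most two classes of Ω). -/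
theorem result {F : Type*} [Field F] [Fintype F] [CharP F 2] {m : ℕ} (hm : 4 ≤ m) (t s : ↥(Cfsg.isometryGroup F (Cfsg.quadFormPlus m F))) (ht : orderOf t = 2) (hs : orderOf s = 2) (htO : t ∈ Cfsg.Omega F (Cfsg.quadFormPlus m F)) (hsO : s ∈ Cfsg.Omega F (Cfsg.quadFormPlus m F)) (hconj : IsConj t s) :
    (¬ (((((t : ↥(Cfsg.isometryGroup F (Cfsg.quadFormPlus m F))) : GL (Fin m ⊕ Fin m) F) : Matrix (Fin m ⊕ Fin m) (Fin m ⊕ Fin m) F) - 1).rank = m ∧ ∀ v : Fin m ⊕ Fin m → F, Cfsg.quadFormPlus m F (v + Matrix.mulVec (((t : ↥(Cfsg.isometryGroup F (Cfsg.quadFormPlus m F))) : GL (Fin m ⊕ Fin m) F) : Matrix (Fin m ⊕ Fin m) (Fin m ⊕ Fin m) F) v) = 0) →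
      ∃ g ∈ Cfsg.Omega F (Cfsg.quadFormPlus m F), g * t * g⁻¹ = s) ∧
    ((((((t : ↥(Cfsg.isometryGroup F (Cfsg.quadFormPlus m F))) : GL (Fin m ⊕ Fin m) F) : Matrix (Fin m ⊕ Fin m) (Fin m ⊕ Fin m) F) - 1).rank = m ∧ ∀ v : Fin m ⊕ Fin m → F, Cfsg.quadFormPlus m F (v + Matrix.mulVec (((t : ↥(Cfsg.isometryGroup F (Cfsg.quadFormPlus m F))) : GL (Fin m ⊕ Fin m) F) : Matrix (Fin m ⊕ Fin m) (Fin m ⊕ Fin m) F) v) = 0) →
      ((∃ g ∈ Cfsg.Omega F (Cfsg.quadFormPlus m F), g * t * g⁻¹ = s) ↔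
        Even (Module.finrank F ↥(LinearMap.range (Matrix.toLin' ((((t : ↥(Cfsg.isometryGroup F (Cfsg.quadFormPlus m F))) : GL (Fin m ⊕ Fin m) F) : Matrix (Fin m ⊕ Fin m) (Fin m ⊕ Fin m) F) - 1)) ⊓ LinearMap.range (Matrix.toLin' ((((s : ↥(Cfsg.isometryGroup F (Cfsg.quadFormPlus m F))) : GL (Fin m ⊕ Fin m) F) : Matrix (Fin m ⊕ Fin m) (Fin m ⊕ Fin m) F) - 1)))))) := by
  have h2 : (2 : F) = 0 := CharTwo.two_eq_zero
  have hQ := H30.qPlus_nondegenerate (F := F) m
  have hx := H79.not_isExc_plus (F := F) (m := m) (Or.inr (by omega))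
  have ht2 := H79.coe_mul_self_eq_one (H30.isoEquiv (H30.qPlus F m)) (H79.orderOf_eq_two_iff'.1 ht).1
  have hc := (H79.isConj_equiv (H30.isoEquiv (H30.qPlus F m))).2 hconj
  have hE : ((((t : ↥(Cfsg.isometryGroup F (Cfsg.quadFormPlus m F))) : GL (Fin m ⊕ Fin m) F) : Matrix (Fin m ⊕ Fin m) (Fin m ⊕ Fin m) F) - 1).rank = m ∧ (∀ v : Fin m ⊕ Fin m → F, Cfsg.quadFormPlus m F (v + Matrix.mulVec (((t : ↥(Cfsg.isometryGroup F (Cfsg.quadFormPlus m F))) : GL (Fin m ⊕ Fin m) F) : Matrix (Fin m ⊕ Fin m) (Fin m ⊕ Fin m) F) v) = 0) ↔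
      (2 * H79.rk (H30.isoEquiv (H30.qPlus F m) t).1 = Module.finrank F (Fin m ⊕ Fin m → F) ∧
        H79.AltType (QuadraticMap.polarBilin (H30.qPlus F m)) (H30.isoEquiv (H30.qPlus F m) t).1) := by
    rw [← H79.rk_isoEquiv (Q := H30.qPlus F m) t, H79.finrank_sum_self]
    refine and_congr (by omega) (forall_congr' fun v => ?_)
    change H30.qPlus F m (v + (H30.isoEquiv (H30.qPlus F m) t).1 v) = 0 ↔
      QuadraticMap.polar (H30.qPlus F m) v _ = 0
    rw [H30.Q_add, H30.O_map, CharTwo.add_self_eq_zero, zero_add]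
  rw [hE]
  refine ⟨fun h => (H79.exists_Omega_conj (Q := H30.qPlus F m) h2 hQ hx t s).2
    (H79.exists_conj_dickson h2 hQ ht2 h hc), fun h => ?_⟩
  refine (H79.exists_Omega_conj (Q := H30.qPlus F m) h2 hQ hx t s).trans ?_
  rw [← H79.nil_isoEquiv (Q := H30.qPlus F m) t, ← H79.nil_isoEquiv (Q := H30.qPlus F m) s]
  have he := H79.even_rk_of_altType h2 hQ (H79.polar_isAlt h2)
    (H79.O_le_isom (H30.isoEquiv (H30.qPlus F m) t).2) ht2 h.2
  constructor
  · rintro ⟨g, hg, hgt⟩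
    rw [H79.dickson_of_conj h2 hQ hx h hgt, neg_one_pow_eq_one_iff_even (by decide)] at hg
    exact (Nat.even_add.1 hg).1 he
  · intro hev
    obtain ⟨g, hg⟩ := isConj_iff.1 hc
    exact ⟨g, by rw [H79.dickson_of_conj h2 hQ hx h hg, (he.add hev).neg_one_pow], hg⟩

end Cfsg.Agent.S2172
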