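import Cfsg.Statements.S2173
import Cfsg.Agent.H79.InvolO

set_option autoImplicit false
open Cfsg

namespace Cfsg.Agent.S2173

/-- For the quadratic form Σ x_i y_i + (z₁² + c z₁ z₂ + d z₂²) in dimension 2m with anisotropic binary part over a finite field F of characteristic two, m ≥ 4 (minus type): two involutions of the commutator subgroup Ω that are conjugate in the full isometry group O are conjugate by an element of Ω (no class of involutions of O inside Ω splits). -/
theorem result {F : Type*} [Field F] [Fintype F] [CharP F 2] {m : ℕ} (hm : 4 ≤ m) (c d : F) (hcd : ∀ z₁ z₂ : F, z₁ ^ 2 + c * z₁ * z₂ + d * z₂ ^ 2 = 0 → z₁ = 0 ∧ z₂ = 0) (t s : ↥(Cfsg.isometryGroup F (Cfsg.quadFormMinus (m - 1) F c d))) (ht : orderOf t = 2) (hs : orderOf s = 2) (htO : t ∈ Cfsg.Omega F (Cfsg.quadFormMinus (m - 1) F c d)) (hsO : s ∈ Cfsg.Omega F (Cfsg.quadFormMinus (m - 1) F c d)) (hconj : IsConj t s) :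
    ∃ g ∈ Cfsg.Omega F (Cfsg.quadFormMinus (m - 1) F c d), g * t * g⁻¹ = s := by
  have h2 : (2 : F) = 0 := CharTwo.two_eq_zero
  have hQ := H30.qMinus_nondegenerate (m - 1) hcd
  refine (H79.exists_Omega_conj (Q := H30.qMinus F (m - 1) c d) h2 hQ (H79.not_isExc_minus hcd) t s).2
    (H79.exists_conj_dickson h2 hQ (H79.coe_mul_self_eq_one (H30.isoEquiv (H30.qMinus F (m - 1) c d))
      (H79.orderOf_eq_two_iff'.1 ht).1) (fun h => ?_) ((H79.isConj_equiv _).2 hconj))
  have h1 := (H79.exists_sing_iff_minus hcd _).1 ⟨_, rfl, (H79.altType_iff_sing h2 _).1 h.2⟩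
  have h3 := h.1
  unfold H79.rk at h3
  simp only [Module.finrank_fintype_fun_eq_card, Fintype.card_sum, Fintype.card_fin] at h3
  omega

end Cfsg.Agent.S2173
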