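import Cfsg.Statements.S2181
import Cfsg.Agent.H37.InvE7

set_option autoImplicit false
open Cfsg

namespace Cfsg.Agent.S2181

/-- The Chevalley group of type E₇ over a finite field of characteristic two (the matrix group generated by the root elements) has exactly five conjugacy classes of elements of order 2. -/
theorem result {F : Type*} [Field F] [Fintype F] [CharP F 2] :
    (ConjClasses.mk '' {g : ↥(Cfsg.Lie.chevE7.group F) | orderOf g = 2}).ncard = 5 := by
  have C : H34.Cert Lie.chevE7 := H34.cert (by simp)
  refine (H37.ncard_classes (List.map (H37.xl C F) _) (List.forall_mem_map.2 (H37.Tab.Reps.sq _ H37.repsE7))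
    (fun t h1 h2 => ?_) (List.pairwise_map.2 (H37.invE7_sep C))).trans rfl
  obtain ⟨Y, h3, h4⟩ := H37.invE7_conj C t h1 h2
  exact ⟨_, List.mem_map_of_mem h3, h4⟩

end Cfsg.Agent.S2181
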