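import Cfsg.Statements.S2186
import Cfsg.Agent.H40.Cent2
-- import your own Cfsg.Agent.* helpers here

set_option autoImplicit false
open Cfsg

namespace Cfsg.Agent.S2186

/-- Let G be the Chevalley group of type G₂ (over a field with at least four elements), D₄, E₆, E₇ or E₈ over a finite field F of characteristic two, and let X be the root subgroup of the highest root (the last root index) — a long root subgroup, of order |F|. For every g in G, the subgroup generated by X and its conjugate g X g⁻¹ is either a 2-group or is conjugate by an element of G to the subgroup generated by X and the root subgroup of the lowest root (index 0, the negative of the highest root), which is a copy of SL₂(F). -/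
theorem result {F : Type*} [Field F] [Fintype F] [CharP F 2] (D : Cfsg.Lie.ChevalleyDatum) (hD : D ∈ [Cfsg.Lie.chevG2, Cfsg.Lie.chevD4, Cfsg.Lie.chevE6, Cfsg.Lie.chevE7, Cfsg.Lie.chevE8]) (hF : D = Cfsg.Lie.chevG2 → 4 ≤ Fintype.card F) (g : GL D.Idx F) (hg : g ∈ D.group F) :
    IsPGroup 2 ↥(D.rootSubgroup F (D.nroots - 1) ⊔ (D.rootSubgroup F (D.nroots - 1)).map (MulAut.conj g).toMonoidHom) ∨
    ∃ h ∈ D.group F, (D.rootSubgroup F (D.nroots - 1) ⊔ (D.rootSubgroup F (D.nroots - 1)).map (MulAut.conj g).toMonoidHom).map (MulAut.conj h).toMonoidHom = D.rootSubgroup F (D.nroots - 1) ⊔ D.rootSubgroup F 0 := by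
  have C : H34.Cert D := H34.cert (by simp only [List.mem_cons] at hD ⊢; tauto)
  have h1 : 0 < D.nroots ∧ ∀ s < D.nroots, D.IsPosRoot s → H40.CommP D 2 s (D.nroots - 1) := by
    simp only [List.mem_cons, List.not_mem_nil, or_false] at hD
    rcases hD with rfl | rfl | rfl | rfl | rfl <;> decide +kernel
  have h2 : D.nroots - 1 < D.nroots := by omega
  have h3 : IsPGroup 2 (D.posUnipotent F) := by
    obtain ⟨n, -, hn⟩ := FiniteField.card F 2
    rw [← H40.map_Up C F]
    refine IsPGroup.map (IsPGroup.of_card (n := n * {r | C.S.pos r}.ncard) ?_) _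
    rw [H34.Split.Up, H40.cc_pos.card_U fun r _ => H34.Cert.card_X r, Nat.card_eq_fintype_card, hn, pow_mul]
  have e : ∀ h : D.group F, (((C.split F).X ⟨_, h2⟩ ⊔ ((C.split F).X ⟨_, h2⟩).map
      (MulAut.conj ⟨g, hg⟩).toMonoidHom).map (MulAut.conj h).toMonoidHom).map (D.group F).subtype =
      (D.rootSubgroup F (D.nroots - 1) ⊔ (D.rootSubgroup F (D.nroots - 1)).map (MulAut.conj g).toMonoidHom).map
        (MulAut.conj (h : GL D.Idx F)).toMonoidHom := fun h => by
    rw [H40.map_subtype_conj, Subgroup.map_sup, H40.map_subtype_conj, H40.map_X]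
  rcases H40.sup_conj_X (P := C.split F) (θ := ⟨_, h2⟩) (fun u hu x hx => by
    obtain ⟨t, rfl⟩ := H34.Cert.mem_X.1 hx
    refine Subgroup.mem_centralizer_singleton_iff.1 (H34.Split.U_le (fun r hr y hy => ?_) hu)
    obtain ⟨s, rfl⟩ := H34.Cert.mem_X.1 hy
    exact Subgroup.mem_centralizer_singleton_iff.2 ((h1.2 r r.2 ((C.pos_iff r).1 hr)).commute _ _)) ⟨g, hg⟩
    with ⟨h, hh⟩ | ⟨h, hh⟩
  · have := Subgroup.map_mono (f := (D.group F).subtype) hh
    rw [e, H40.map_Up] at this
    exact Or.inl ((h3.to_le this).of_equiv (MulEquiv.subgroupMap (MulAut.conj (h : GL D.Idx F)) _).symm)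
  · refine Or.inr ⟨h, h.2, ?_⟩
    rw [← e, hh, Subgroup.map_sup, H40.map_X, H40.map_X, H34.sgn_neg, C.neg_val, H40.neg_eq_sub C.V h2, Nat.sub_self]

end Cfsg.Agent.S2186
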