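import Cfsg.Statements.S2189
import Mathlib
import Cfsg.Agent.H73.Sub7

set_option autoImplicit false
open Cfsg

namespace Cfsg.Agent.S2189

/-- Finite subgroups of an adjoint Chevalley group over an algebraically closed field that contain the group over a finite subfield. Let k be an algebraically closed field of prime characteristic p, G the Chevalley group of type G₂, B₂, D₄, F₄, E₆, E₇ or E₈ over k (the matrix group generated by the root elements x_s(t), t ∈ k), and q = p^a with a ≥ 1. Let L be the subgroup generated by the root elements x_s(t) with t^q = t (the Chevalley group over the field of q elements inside G), and let M be a finite subgroup of G containing L. Then for some r ≥ 1, M contains every root element x_s(t) with t^(q^r) = t and every element of M is a matrix all of whose entries c satisfy c^(q^r) = c (so M lies between the Chevalley group over the field with q^r elements and the group of points of G fixed by the q^r-th power map). -/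
theorem result {k : Type*} [Field k] [IsAlgClosed k] (p : ℕ) [Fact p.Prime] [CharP k p] (D : Cfsg.Lie.ChevalleyDatum) (hD : D ∈ [Cfsg.Lie.chevG2, Cfsg.Lie.chevB2, Cfsg.Lie.chevD4, Cfsg.Lie.chevF4, Cfsg.Lie.chevE6, Cfsg.Lie.chevE7, Cfsg.Lie.chevE8]) (a : ℕ) (ha : 1 ≤ a) (M : Subgroup (GL D.Idx k)) (hMfin : Finite ↥M) (hMG : M ≤ D.group k)
    (hLM : Subgroup.closure {g : GL D.Idx k | ∃ (s : ℕ) (t : k), t ^ (p ^ a) = t ∧ (g : Matrix D.Idx D.Idx k) = D.x k s t} ≤ M) :
    ∃ r : ℕ, 1 ≤ r ∧ Subgroup.closure {g : GL D.Idx k | ∃ (s : ℕ) (t : k), t ^ ((p ^ a) ^ r) = t ∧ (g : Matrix D.Idx D.Idx k) = D.x k s t} ≤ M ∧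
      ∀ g ∈ M, ∀ i j : D.Idx, ((g : Matrix D.Idx D.Idx k) i j) ^ ((p ^ a) ^ r) = (g : Matrix D.Idx D.Idx k) i j := by
  have C := H34.cert hD
  have hr : D.nroots - 1 < D.nroots := (H73.topData hD).1.1
  have : Finite (M.subgroupOf (D.group k)) := (Subgroup.subgroupOfEquivOfLe hMG).finite_iff.2 hMfin
  have h0 : ∀ r t, t ^ p ^ a = t → C.xg k r t ∈ M.subgroupOf (D.group k) := fun r t ht =>
    hLM (Subgroup.subset_closure ⟨r, t, ht, C.V.coe_xG r t⟩)
  obtain ⟨K, h1, h2⟩ := H73.concl p hD fun r => h0 r 1 (one_pow _)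
  have := H73.finite_of_le hr (h1 _)
  let _ : Algebra (ZMod p) k := ZMod.algebra k p
  let f : GaloisField p a →ₐ[ZMod p] k := IsAlgClosed.lift
  have hi : 0 < D.rank := H75.chev_rank_pos hD
  obtain ⟨r, h3, h4⟩ := H73.card_eq_pow (f.toRingHom.codRestrict K fun x =>
    h2 0 hi _ (H73.Ld.of_mem (h0 _ _ (by
      have := Fintype.ofFinite (GaloisField p a)
      rw [← map_pow, ← GaloisField.card p a (by omega), Nat.card_eq_fintype_card,
        FiniteField.pow_card]))))
  rw [GaloisField.card p a (by omega)] at h4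
  have h5 : ∀ x, x ∈ K ↔ x ^ (p ^ a) ^ r = x := fun x => h4 ▸ H73.mem_iff_pow_card K
  refine ⟨r, h3, (Subgroup.closure_le _).2 ?_, fun g hg => ?_⟩
  · rintro g ⟨s, t, ht, e⟩
    exact (C.V.eq_xG_iff.1 e).symm ▸ h1 s t ((h5 t).2 ht)
  · have := H37.mem_endTwist_fix'.1 (H73.untw_le_fix p hD (iterateFrobenius k p (a * r))
      (fun s t ht => h1 s t ((h5 t).2 (by rwa [← pow_mul])))
      (fun i hi t ht => by simpa [← pow_mul, iterateFrobenius_def] using (h5 t).1 (h2 i hi t ht)) (x := ⟨g, hMG hg⟩) hg)
    simpa [iterateFrobenius_def, pow_mul] using this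

end Cfsg.Agent.S2189
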