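import Cfsg.Statements.S2190
import Mathlib
import Cfsg.Agent.H73.Sub7
import Cfsg.Agent.H34.Twist3

set_option autoImplicit false
open Cfsg

namespace Cfsg.Agent.S2190

/-- Subfield subgroups of prime degree are maximal. Let K be a finite field with q^r elements, r a prime, q a power of the characteristic, and G the Chevalley group of type G₂, B₂, D₄, F₄, E₆, E₇ or E₈ over K (the matrix group generated by the root elements). Let M be the subgroup of G consisting of the matrices all of whose entries lie in the subfield with q elements (entries c with c^q = c). Then M is a proper subgroup of G and is maximal: every subgroup of G containing M is M or G. -/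
theorem result {K : Type*} [Field K] [Fintype K] (p : ℕ) [Fact p.Prime] [CharP K p] (D : Cfsg.Lie.ChevalleyDatum) (hD : D ∈ [Cfsg.Lie.chevG2, Cfsg.Lie.chevB2, Cfsg.Lie.chevD4, Cfsg.Lie.chevF4, Cfsg.Lie.chevE6, Cfsg.Lie.chevE7, Cfsg.Lie.chevE8]) (a r : ℕ) (ha : 1 ≤ a) (hr : r.Prime) (hK : Fintype.card K = (p ^ a) ^ r) (M : Subgroup (GL D.Idx K))
    (hM : ∀ g : GL D.Idx K, g ∈ M ↔ g ∈ D.group K ∧ ∀ i j : D.Idx, ((g : Matrix D.Idx D.Idx K) i j) ^ (p ^ a) = (g : Matrix D.Idx D.Idx K) i j) :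
    M ≠ D.group K ∧ ∀ H : Subgroup (GL D.Idx K), M ≤ H → H ≤ D.group K → H = M ∨ H = D.group K := by
  have C := H34.cert hD
  have hp : 1 < p ^ a := Nat.one_lt_pow (by omega) (Fact.out : p.Prime).one_lt
  have hx : ∀ s (t : K), (C.xg K s t : GL D.Idx K) ∈ M ↔
      C.xg K s (t ^ p ^ a) = C.xg K s t := fun s t => by
    rw [hM, and_iff_right (C.xg K s t).2]
    refine (H37.mem_endTwist_fix' (C := C) (σ := iterateFrobenius K p a)).symm.trans ?_
    rw [H37.mem_endTwist_fix]
    exact (C.V.fieldHom_xE _ s t).congr_left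
  have hθ : D.nroots - 1 < D.nroots := (H73.topData hD).1.1
  let E := (iterateFrobenius K p a).eqLocusField (RingHom.id K)
  have hE : Nat.card E = p ^ a := H34.card_fixed hp.le hK
  have hK' : Nat.card K = (p ^ a) ^ r := by rw [Nat.card_eq_fintype_card, hK]
  refine ⟨fun e => ?_, fun H h1 h2 => ?_⟩
  · have : E = ⊤ := eq_top_iff.2 fun t _ =>
      H34.Cert.xg_injective hθ ((hx _ t).1 (e.ge (C.xg K _ t).2))
    rw [this, Nat.card_congr Subfield.topEquiv.toEquiv, hK'] at hE
    exact hr.ne_one (Nat.pow_right_injective hp (hE.trans (pow_one _).symm))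
  have h0 : ∀ s t, t ^ p ^ a = t → C.xg K s t ∈ H.subgroupOf (D.group K) := fun s t ht =>
    h1 ((hx s t).2 (by rw [ht]))
  obtain ⟨L, h3, h4⟩ := H73.concl p hD fun r => h0 r 1 (one_pow _)
  obtain ⟨m, -, h5⟩ := H73.card_eq_pow (Subfield.inclusion (S := E) (T := L) fun t ht =>
    h4 0 (H75.chev_rank_pos hD) _ (H73.Ld.of_mem (h0 _ _ ht)))
  obtain ⟨n, -, h6⟩ := H73.card_eq_pow L.subtype
  rw [hE] at h5
  rw [hK', h5, ← pow_mul (p ^ a)] at h6
  rcases hr.eq_one_or_self_of_dvd m (Dvd.intro n (Nat.pow_right_injective hp h6).symm) with e | e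
  · refine Or.inl (le_antisymm (fun g hg => (hM g).2 ⟨h2 hg, ?_⟩) h1)
    exact H37.mem_endTwist_fix'.1 (H73.untw_le_fix p hD (iterateFrobenius K p a) h0
      (fun i hi t ht => by
        simpa [h5, e, iterateFrobenius_def] using (H73.mem_iff_pow_card L).1 (h4 i hi t ht))
      (x := ⟨g, h2 hg⟩) hg)
  · refine Or.inr (le_antisymm h2 ?_)
    rw [C.V.group_eq, Subgroup.closure_le]
    rintro _ ⟨s, -, t, rfl⟩
    exact h3 s t ((H73.mem_iff_pow_card L).2 (by rw [h5, e, ← hK, FiniteField.pow_card]))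

end Cfsg.Agent.S2190
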