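import Cfsg.Statements.S2191
import Mathlib
import Cfsg.Agent.H73.Sub9

set_option autoImplicit false
open Cfsg

namespace Cfsg.Agent.S2191

/-- In the twisted group ²E₆(q), realised inside the Chevalley group of type E₆ over the field K with q² elements (q a power of the characteristic) as the subgroup generated by the root elements, and products of root elements, that the twisting map fixes, the subgroup of matrices all of whose entries lie in the subfield with q elements (entries c with c^q = c; it contains the subgroup of type F₄ over that subfield) is a proper maximal subgroup. -/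
theorem result {K : Type*} [Field K] [Fintype K] (p : ℕ) [Fact p.Prime] [CharP K p] (q : ℕ) (hq : ∃ a : ℕ, 1 ≤ a ∧ q = p ^ a) (hK : Fintype.card K = q ^ 2) (M : Subgroup (GL Cfsg.Lie.chevE6.Idx K))
    (hM : ∀ g : GL Cfsg.Lie.chevE6.Idx K, g ∈ M ↔ g ∈ Cfsg.Lie.twistedE6 K q ∧ ∀ i j : Cfsg.Lie.chevE6.Idx, ((g : Matrix Cfsg.Lie.chevE6.Idx Cfsg.Lie.chevE6.Idx K) i j) ^ q = (g : Matrix Cfsg.Lie.chevE6.Idx Cfsg.Lie.chevE6.Idx K) i j) :
    M ≠ Cfsg.Lie.twistedE6 K q ∧ ∀ H : Subgroup (GL Cfsg.Lie.chevE6.Idx K), M ≤ H → H ≤ Cfsg.Lie.twistedE6 K q → H = M ∨ H = Cfsg.Lie.twistedE6 K q := by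
  obtain ⟨a, ha, rfl⟩ := hq
  have hp : 1 < p ^ a := Nat.one_lt_pow (by omega) (Fact.out : p.Prime).one_lt
  obtain ⟨φ, hφ, h2, -⟩ := H34.exists_frob2 (((Fact.out : p.Prime).isPrimePow).pow (by omega)) hK
  let X := H34.twE6 φ h2 hφ
  have hM' : ∀ g : Cfsg.Lie.chevE6.group K, (g : GL _ K) ∈ M ↔
      g ∈ (H34.tE6 φ h2).G1 ∧ g ∈ (H37.endTwist H34.cE6 φ).fix := fun g => by
    rw [hM, H37.mem_endTwist_fix', ← X.mem_G1]
    simp only [hφ]; rfl
  refine ⟨fun e => ?_, fun H h3 h4 => ?_⟩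
  · have : φ.eqLocusField (RingHom.id K) = ⊤ := eq_top_iff.2 fun t _ => by
      have h5 := ((hM' _).1 (e.ge (X.mem_G1.1 (H34.E6_mem2 φ h2 (p := (42, 37)) (by simp) t).1))).2
      rw [H34.Split.Twist.mem_fix, H34.Cert.map_wg _ (fun p => (p.1, φ p.2))
        fun p _ => H73.endTwist_xg φ _ _] at h5
      exact congrArg Prod.snd (List.cons.inj (H34.Cert.wg_inj (by simp) (by simp)
        (by simp only [List.map]; decide +kernel) h5)).1
    have hE : Nat.card (φ.eqLocusField (RingHom.id K)) = p ^ a := by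
      rw [← H34.card_fixed hp.le hK]
      exact Nat.card_congr (Equiv.subtypeEquivRight fun t => by rw [← hφ]; rfl)
    rw [this, Nat.card_congr Subfield.topEquiv.toEquiv, Nat.card_eq_fintype_card, hK] at hE
    exact absurd (Nat.pow_right_injective hp (hE.trans (pow_one _).symm)) (by decide)
  rcases H73.E6_max φ h2 (M := H.subgroupOf _) (fun g hg => X.mem_G1.2 (h4 hg))
    (fun g h h' => h3 ((hM' g).2 ⟨h, h'⟩)) p with h | h
  · exact Or.inl (le_antisymm (fun g hg => (hM' ⟨g, X.le (h4 hg)⟩).2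
      ⟨X.mem_G1.2 (h4 hg), h (x := ⟨g, X.le (h4 hg)⟩) hg⟩) h3)
  · exact Or.inr (le_antisymm h4 fun g hg => h (x := ⟨g, X.le hg⟩) (X.mem_G1.2 hg))

end Cfsg.Agent.S2191
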