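import Cfsg.Statements.S2209
import Cfsg.Agent.H40.Cent
-- import your own Cfsg.Agent.* helpers here

set_option autoImplicit false
open Cfsg

namespace Cfsg.Agent.S2209

/-- Centralizer of a long root involution in the Chevalley groups of type E₆, E₇, E₈ over a finite field F of characteristic two. Let G be the group generated by the root elements, U the subgroup generated by the positive root subgroups, r the highest root (the last root index: 71, 125, 239 respectively), and t the element of G with matrix x_r(1). Then the centralizer of t in G is the subgroup generated by U together with the root subgroups X_{−p} for the fundamental roots p orthogonal to r — all fundamental roots except p₂ for E₆, except p₁ for E₇, except p₈ for E₈ (numbering with p₁–p₃–p₄–…–p_l the long chain and p₂ joined to p₄); the indices of these negative fundamental roots are 15, 29, 32, 34, 35 (E₆), 47, 52, 56, 59, 61, 62 (E₇), 77, 98, 104, 109, 113, 116, 118 (E₈). (This is the unipotent radical of the corresponding maximal parabolic subgroup extended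 by the root subgroups of its Levi factor, of type A₅, D₆, E₇ respectively.) -/
theorem result {F : Type*} [Field F] [Fintype F] [CharP F 2] (d : Cfsg.Lie.ChevalleyDatum × List ℕ)
    (hd : d ∈ [(Cfsg.Lie.chevE6, [15, 29, 32, 34, 35]), (Cfsg.Lie.chevE7, [47, 52, 56, 59, 61, 62]), (Cfsg.Lie.chevE8, [77, 98, 104, 109, 113, 116, 118])])
    (t : GL d.1.Idx F) (ht : (t : Matrix d.1.Idx d.1.Idx F) = d.1.x F (d.1.nroots - 1) 1) :
    d.1.group F ⊓ Subgroup.centralizer {t} = d.1.posUnipotent F ⊔ Subgroup.closure {g : GL d.1.Idx F | ∃ s ∈ d.2, ∃ c : F, (g : Matrix d.1.Idx d.1.Idx F) = d.1.x F s c} := by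
  have key : ∀ (D : Cfsg.Lie.ChevalleyDatum) (C : H34.Cert D) (L J : List ℕ) (e : List (ℤ × ℤ)),
      H40.CentCert D 2 [D.nroots - 1] [] J (D.nroots - 1) (D.nroots - 1) 1 0 e →
      (∀ s < D.nroots, D.IsPosRoot s → ∀ r ∈ [D.nroots - 1], H40.CommP D 2 s r) →
      (∀ s ∈ L, ∀ r ∈ [D.nroots - 1], H40.CommP D 2 s r) →
      (∀ j ∈ J, D.IsPosRoot (D.simple j) ∧ D.neg (D.simple j) ∈ L) →
      ∀ t : GL D.Idx F, (t : Matrix D.Idx D.Idx F) = D.x F (D.nroots - 1) 1 →
      D.group F ⊓ Subgroup.centralizer {t} = D.posUnipotent F ⊔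
        Subgroup.closure {g : GL D.Idx F | ∃ s ∈ L, ∃ c : F, (g : Matrix D.Idx D.Idx F) = D.x F s c} := by
    intro D C L J e h1 h2 h3 h4 t ht
    have ht' : (t : Matrix D.Idx D.Idx F) = D.wordMat F ([D.nroots - 1].map fun r => (r, 1)) := by
      simpa [Cfsg.Lie.ChevalleyDatum.wordMat] using ht
    have e1 : {g : GL D.Idx F | ∃ s ∈ L, ∃ c : F, (g : Matrix D.Idx D.Idx F) = D.x F s c} =
        {g : GL D.Idx F | ∃ (s : ℕ) (c : F), s ∈ L ∧ (g : Matrix D.Idx D.Idx F) = D.x F s c} := by
      ext g; simp
    rw [e1]
    exact h1.centralizer_eq C ht' (sup_le (H40.pos_le_cent C ht' h2) (H40.closure_le_cent C ht' h3))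
      (fun j hj => ⟨(H40.root_le_pos (h4 j hj).1).trans le_sup_left,
        (H40.root_le_closure (Q := (· ∈ L)) (h4 j hj).2).trans le_sup_right⟩) (inf_le_left.trans le_sup_left)
  simp only [List.mem_cons, List.not_mem_nil, or_false] at hd
  rcases hd with rfl | rfl | rfl
  · exact key _ (H34.cert (by simp)) _ [0, 2, 3, 4, 5] (List.replicate 8 (1, 0)) (by decide +kernel)
      (by decide +kernel) (by decide +kernel) (by decide +kernel) t ht
  · exact key _ (H34.cert (by simp)) _ [1, 2, 3, 4, 5, 6] (List.replicate 8 (1, 0)) (by decide +kernel)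
      (by decide +kernel) (by decide +kernel) (by decide +kernel) t ht
  · exact key _ (H34.cert (by simp)) _ [0, 1, 2, 3, 4, 5, 6] (List.replicate 8 (1, 0)) (by decide +kernel)
      (by decide +kernel) (by decide +kernel) (by decide +kernel) t ht

end Cfsg.Agent.S2209
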