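import Cfsg.Statements.S2214
import Cfsg.Agent.H37.Frob

set_option autoImplicit false
open Cfsg

namespace Cfsg.Agent.S2214

/-- Let k be an algebraically closed field of prime characteristic p, G the adjoint Chevalley group of type G₂, B₂, D₄, F₄, E₆, E₇ or E₈ over k (the matrix group generated by the root elements x_s(t), t ∈ k, acting on the Lie algebra), q = p^a with a ≥ 1, and K a subgroup of G containing every root element x_s(t) with t^q = t and consisting of matrices all of whose entries c satisfy c^q = c. Then the centralizer of K in G is trivial, and the normalizer of K in G is exactly the set of elements of G all of whose entries c satisfy c^q = c. -/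
theorem result {k : Type*} [Field k] [IsAlgClosed k] (p : ℕ) [Fact p.Prime] [CharP k p] (D : Cfsg.Lie.ChevalleyDatum) (hD : D ∈ [Cfsg.Lie.chevG2, Cfsg.Lie.chevB2, Cfsg.Lie.chevD4, Cfsg.Lie.chevF4, Cfsg.Lie.chevE6, Cfsg.Lie.chevE7, Cfsg.Lie.chevE8]) (a : ℕ) (ha : 1 ≤ a) (K : Subgroup (GL D.Idx k)) (hKG : K ≤ D.group k)
    (hLK : Subgroup.closure {g : GL D.Idx k | ∃ (s : ℕ) (t : k), t ^ (p ^ a) = t ∧ (g : Matrix D.Idx D.Idx k) = D.x k s t} ≤ K)
    (hKfix : ∀ g ∈ K, ∀ i j : D.Idx, ((g : Matrix D.Idx D.Idx k) i j) ^ (p ^ a) = (g : Matrix D.Idx D.Idx k) i j) :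
    D.group k ⊓ Subgroup.centralizer (K : Set (GL D.Idx k)) = ⊥ ∧
    ∀ g : GL D.Idx k, g ∈ D.group k → (g ∈ Subgroup.normalizer (K : Set (GL D.Idx k)) ↔ ∀ i j : D.Idx, ((g : Matrix D.Idx D.Idx k) i j) ^ (p ^ a) = (g : Matrix D.Idx D.Idx k) i j) := by
  have C := H34.cert hD
  obtain ⟨h1, h2⟩ := H37.centralizer_normalizer_end (C := C) (σ := iterateFrobenius k p a)
    (K := K.subgroupOf (D.group k)) (fun r t ht => hLK (Subgroup.subset_closure ⟨r, t, ht, C.V.coe_xG r t⟩))
    fun g hg => H37.mem_endTwist_fix'.2 (hKfix g hg)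
  refine ⟨eq_bot_iff.2 fun g hg => congrArg Subtype.val (h1 ⟨g, hg.1⟩ fun k hk => Subtype.ext (hg.2 k hk)),
    fun g hg => ?_⟩
  refine Iff.trans ?_ (H37.mem_endTwist_fix' (C := C) (σ := iterateFrobenius k p a) (g := ⟨g, hg⟩))
  rw [← h2, ← Subgroup.mem_map_iff_mem (D.group k).subtype_injective, H40.map_normalizer_subtype,
    Subgroup.subgroupOf_map_subtype, inf_eq_left.2 hKG]
  exact (and_iff_left hg).symm

end Cfsg.Agent.S2214
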