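import Cfsg.Statements.S2222
import Cfsg.Agent.H78.SylowTwoMax

set_option autoImplicit false
open Cfsg

namespace Cfsg.Agent.S2222

open Equiv Equiv.Perm in
theorem pronormal_of_normalizer_le {G : Type*} [Group G] [Finite G] {p : ℕ} [Fact p.Prime]
    (S : Sylow p G) (H : Subgroup G) (hS : (S : Subgroup G) ≤ H)
    (hN : Subgroup.normalizer (S : Set G) ≤ Subgroup.normalizer (H : Set G)) :
    Cfsg.IsPronormal H := by
  intro g
  set K := H ⊔ H.map (MulAut.conj g).toMonoidHom with hK
  have h1 : (S : Subgroup G) ≤ K := hS.trans le_sup_left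
  have h2 : ((g • S : Sylow p G) : Subgroup G) ≤ K :=
    (Subgroup.map_mono hS).trans le_sup_right
  obtain ⟨x, hx⟩ := MulAction.exists_smul_eq K (S.subtype h1) ((g • S).subtype h2)
  have h3 : (x : G) • S = g • S := by
    rw [Sylow.smul_subtype] at hx
    exact Sylow.subtype_injective hx
  have h4 : (x : G)⁻¹ * g ∈ Subgroup.normalizer (S : Set G) := by
    rw [← Sylow.smul_eq_iff_mem_normalizer, mul_smul, ← h3, inv_smul_smul]
  refine ⟨x, x.2, ?_⟩
  have h5 := hN h4
  ext y
  constructor
  · rintro ⟨z, hz, rfl⟩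
    exact ⟨_, (h5 z).1 hz, by simp [mul_assoc]⟩
  · rintro ⟨z, hz, rfl⟩
    exact ⟨_, (Subgroup.inv_mem _ h5 z).1 hz, by simp [mul_assoc]⟩

open Equiv Equiv.Perm in
theorem five {Ω : Type*} [Fintype Ω] [DecidableEq Ω] (hn : Fintype.card Ω = 5)
    (S : Sylow 2 (alternatingGroup Ω)) (H : Subgroup (alternatingGroup Ω))
    (hS : (S : Subgroup _) ≤ H) :
    Subgroup.normalizer (S : Set (alternatingGroup Ω)) ≤
      Subgroup.normalizer (H : Set (alternatingGroup Ω)) := by
  have : Fact (Nat.Prime 2) := ⟨Nat.prime_two⟩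
  have : Nontrivial Ω := Fintype.one_lt_card_iff_nontrivial.1 (by omega)
  obtain ⟨P, hP⟩ := H78.exists_sylow_comap_eq _ (alternatingGroup Ω).subtype_injective S
  obtain ⟨o, ho, ho', hM⟩ := H78.alt_le_of_two_pow_add_one (k := 2) le_rfl hn P
  have hSP : ∀ g : alternatingGroup Ω, g ∈ (S : Subgroup _) ↔ (g : Perm Ω) ∈ (P : Subgroup _) :=
    fun g => by rw [← hP]; rfl
  rcases hM (H.map (alternatingGroup Ω).subtype)
    (fun g hg => ⟨⟨g, hg.2⟩, hS ((hSP _).2 hg.1), rfl⟩) with h | h
  swap
  · have : H = ⊤ := eq_top_iff.2 fun g _ =>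
      (Subgroup.mem_map_iff_mem (alternatingGroup Ω).subtype_injective).1 (h g.2)
    rw [this]
    exact le_top.trans (Subgroup.normalizer_eq_top _).ge
  let K := (H78.altOn (Finset.univ.erase o)).subgroupOf (alternatingGroup Ω)
  have hK : ∀ g : alternatingGroup Ω, g ∈ K ↔ (g : Perm Ω) o = o := fun g =>
    ⟨fun h => h.1 o (by simp), fun h => ⟨fun x hx => by
      obtain rfl : x = o := by simpa using hx
      exact h, g.2⟩⟩
  have hKc : Nat.card K = 12 := by
    have := H78.two_mul_card_altOn (X := Finset.univ.erase o) (by simp [hn])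
    rw [Finset.card_erase_of_mem (Finset.mem_univ _), Finset.card_univ, hn] at this
    rw [Nat.card_congr (Subgroup.subgroupOfEquivOfLe (H78.altOn_le_alternating _)).toEquiv]
    simp only [Nat.factorial] at this
    omega
  have hSc : Nat.card S = 4 := by
    have h1 : Nat.card (alternatingGroup Ω) = 2 ^ 2 * 15 := by
      have := two_mul_nat_card_alternatingGroup (α := Ω)
      rw [Nat.card_perm, Nat.card_eq_fintype_card (α := Ω), hn] at this
      simp only [Nat.factorial] at this
      omega
    rw [S.card_eq_multiplicity, h1, Nat.factorization_mul (by norm_num) (by norm_num),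
      Nat.Prime.factorization_pow Nat.prime_two]
    simp [Nat.factorization_eq_zero_of_not_dvd (show ¬ 2 ∣ 15 by norm_num)]
  have hHK : H ≤ K := fun g hg => (hK g).2 (h _ ⟨g, hg, rfl⟩)
  have h1 := Subgroup.card_dvd_of_le hHK
  have h2 := Subgroup.card_dvd_of_le hS
  rw [hKc] at h1
  change Nat.card S ∣ _ at h2
  rw [hSc] at h2
  have h3 : Nat.card H = 4 ∨ Nat.card H = 12 := by
    have := Nat.le_of_dvd (by norm_num) h1
    generalize Nat.card H = m at *
    interval_cases m <;> omega
  rcases h3 with h3 | h3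
  · rw [← Subgroup.eq_of_le_of_card_ge hS (h3.trans hSc.symm).le]
    exact le_rfl
  · rw [Subgroup.eq_of_le_of_card_ge hHK (hKc.trans h3.symm).le]
    refine le_trans (fun g hg => (hK g).2 (ho' _ fun s hs => ?_)) Subgroup.le_normalizer
    have := ho _ ((hSP _).1 ((Subgroup.inv_mem _ hg ⟨s, hs.2⟩).1 ((hSP _).2 hs.1)))
    simpa [Equiv.symm_apply_eq] using this


/-- In the alternating group of degree n ≥ 5 every subgroup H of odd index is pronormal: for every element g, the subgroups H and gHg⁻¹ are conjugate by an element of the subgroup they generate. -/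
theorem result (n : ℕ) (hn : 5 ≤ n)
    (H : Subgroup (alternatingGroup (Fin n))) (hH : Odd H.index) : Cfsg.IsPronormal H := by
  have : Fact (Nat.Prime 2) := ⟨Nat.prime_two⟩
  obtain ⟨Q⟩ : Nonempty (Sylow 2 H) := inferInstance
  have hQ : ¬ 2 ∣ ((Q : Subgroup H).map H.subtype).index := by
    rw [Subgroup.index_map_subtype]
    exact fun h => ((Nat.Prime.dvd_mul Nat.prime_two).1 h).elim Q.not_dvd_index hH.not_two_dvd_nat
  let S := (Q.isPGroup'.map H.subtype).toSylow hQ
  have hS : (S : Subgroup _) ≤ H := Subgroup.map_subtype_le _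
  refine pronormal_of_normalizer_le S H hS ?_
  rcases hn.eq_or_lt with rfl | h6
  · exact five (by simp) S H hS
  · rw [H78.normalizer_sylow_two_alt (by simp; omega)]
    exact hS.trans Subgroup.le_normalizer

end Cfsg.Agent.S2222
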