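import Cfsg.Statements.S2225
import Cfsg.Agent.H28.PronMain
import Cfsg.Agent.H28.PronL2

set_option autoImplicit false
open Cfsg

namespace Cfsg.Agent.S2225

/-- Let F be a finite field and d = 2^w ≥ 2 a power of 2 such that PSL_d(F) is simple. Then every subgroup H of PSL_d(F) of odd index is pronormal: for every g, H and gHg⁻¹ are conjugate by an element of the subgroup they generate. -/
theorem result {F : Type*} [Field F] [Fintype F]
    (w : ℕ) (hw : 1 ≤ w) (hs : IsSimpleGroup (Matrix.ProjectiveSpecialLinearGroup (Fin (2 ^ w)) F))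
    (H : Subgroup (Matrix.ProjectiveSpecialLinearGroup (Fin (2 ^ w)) F)) (hH : Odd H.index) : Cfsg.IsPronormal H := by
  have hH' : ¬ 2 ∣ H.index := by rwa [← even_iff_two_dvd, Nat.not_even_iff_odd]
  have : Fact (Nat.Prime 2) := ⟨Nat.prime_two⟩
  rcases Nat.even_or_odd (Fintype.card F) with h | h
  · have : CharP F 2 := by
      rw [← FiniteField.even_card_iff_char_two.2 (Nat.even_iff.1 h)]
      infer_instance
    exact (H28.Pron.allP_SL 2 (Nat.le_self_pow (by omega) 2)).quot H hH'
  · obtain rfl | ⟨k, rfl⟩ : w = 1 ∨ ∃ k, w = k + 2 := by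
      rcases Nat.eq_or_lt_of_le hw with h | h
      exacts [Or.inl h.symm, Or.inr ⟨w - 2, by omega⟩]
    · exact @H28.Pron.pron_PSL2 F _ _ (by rwa [Nat.card_eq_fintype_card]) hs H hH'
    · exact (H28.Pron.allP_SL_odd h k).quot H hH'

end Cfsg.Agent.S2225
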