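import Cfsg.Statements.S2226
import Cfsg.Agent.H28.PronMain

set_option autoImplicit false
open Cfsg

namespace Cfsg.Agent.S2226

/-- Let F be a finite field with q² elements and d = 2^w ≥ 4 a power of 2 such that the unitary group PSU_d(q) (realised over F) is simple. Then every subgroup H of PSU_d(q) of odd index is pronormal: for every g, H and gHg⁻¹ are conjugate by an element of the subgroup they generate. -/
theorem result {F : Type*} [Field F] [Fintype F] (q : ℕ)
    (hF : Fintype.card F = q ^ 2) (w : ℕ) (hw : 2 ≤ w) (hs : IsSimpleGroup (Cfsg.PSU (2 ^ w) F q))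
    (H : Subgroup (Cfsg.PSU (2 ^ w) F q)) (hH : Odd H.index) : Cfsg.IsPronormal H := by
  have hH' : ¬ 2 ∣ H.index := by rwa [← even_iff_two_dvd, Nat.not_even_iff_odd]
  have : Fact (Nat.Prime 2) := ⟨Nat.prime_two⟩
  rcases Nat.even_or_odd q with h | h
  · have : CharP F 2 := by
      rw [← FiniteField.even_card_iff_char_two.2
        (Nat.even_iff.1 (hF ▸ h.pow_of_ne_zero two_ne_zero))]
      infer_instance
    obtain ⟨e⟩ := (H75.isHerm_antiB (n := 2 ^ w) _
      (H31.isInvol_frobQ hF)).nonempty_sisom_equiv_SU hF (fun _ => rfl) (H31.finrank_fin _)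
    exact ((H28.Pron.allP_sisom 2 _ (H31.isInvol_frobQ hF)
      (Nat.le_self_pow (by omega) 2)).equiv e).quot H hH'
  · obtain ⟨k, rfl⟩ : ∃ k, w = k + 2 := ⟨w - 2, by omega⟩
    exact (H28.Pron.allP_SU_odd hF h k).quot H hH'

end Cfsg.Agent.S2226
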