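import Cfsg.Statements.S2231
import Cfsg.Agent.H77.Mat2
import Cfsg.Agent.H54.Qd
import Cfsg.Agent.H29.Cover

set_option autoImplicit false
open Cfsg

namespace Cfsg.Agent.S2231

open Cfsg.Agent.H77

open Cfsg.Agent.H29 Cfsg.Agent.H54 Cfsg.Agent.H54.Aff

/-- Let p be an odd prime and K a finite field of characteristic p. Then Qd(p) (the natural semidirect product of an elementary abelian group of order p² by SL₂(p)) is not involved in the projective special linear group PSL₂(K). -/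
theorem result {p : ℕ} [Fact p.Prime] (hp : p ≠ 2) {K : Type*} [Field K] [Fintype K] [CharP K p] : ¬ Cfsg.Involves ↥(Cfsg.qd p) (Matrix.ProjectiveSpecialLinearGroup (Fin 2) K) := by
  rintro ⟨L, R, hn, ⟨e⟩⟩
  let φ : L →* Cfsg.qd p := e.toMonoidHom.comp (QuotientGroup.mk' _)
  have hφ : Function.Surjective φ := e.surjective.comp (QuotientGroup.mk'_surjective _)
  obtain ⟨S, hS⟩ := (isPGroup_U (Q := Cfsg.qd p) p).exists_le_sylow
  obtain ⟨T, rfl⟩ := Sylow.mapSurjective_surjective hφ p S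
  obtain ⟨x, hx⟩ := exists_le_uni_of_isPGroup p ((T.isPGroup'.map L.subtype).map pslp)
  obtain ⟨a, ha, ea⟩ := hS (un_mem_U 1 0 0)
  obtain ⟨b, hb, eb⟩ := hS (un_mem_U 0 0 1)
  have h1 : a * b = b * a := by
    apply Subtype.ext
    apply pslp_injective
    simp only [Subgroup.coe_mul, map_mul]
    exact uni_comm (hx ⟨_, ⟨a, ha, rfl⟩, rfl⟩) (hx ⟨_, ⟨b, hb, rfl⟩, rfl⟩)
  have h2 := congrArg φ h1
  rw [map_mul, map_mul, ea, eb, un_mul, un_mul] at h2
  simpa using (un_inj h2).2.1

end Cfsg.Agent.S2231
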