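import Cfsg.Statements.S2232
import Cfsg.Agent.H31.SU3A
import Cfsg.Agent.H31.PsuIdx
import Cfsg.Agent.H51.ZJFun
import Cfsg.Agent.H54.Qd
import Cfsg.Agent.H99.Involves

set_option autoImplicit false
open Cfsg

namespace Cfsg.Agent.S2232

open Cfsg.Agent.H31

open Cfsg.Agent.H54 Cfsg.Agent.H54.Aff

theorem pow_apply_eig {F V : Type*} [Field F] [AddCommGroup V] [Module F V] {g : V ≃ₗ[F] V} {e : V}
    {a : F} (h : g e = a • e) (m : ℕ) : (g ^ m) e = a ^ m • e := by
  induction m with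
  | zero => simp
  | succ m ih => rw [pow_succ, LinearEquiv.mul_apply, h, map_smul, ih, smul_smul, pow_succ']


/-- Let p be an odd prime, q a power of p and K a finite field with q² elements. Then Qd(p) (the natural semidirect product of an elementary abelian group of order p² by SL₂(p)) is not involved in the projective special unitary group PSU₃(q) realised over K. -/
theorem result {p : ℕ} [Fact p.Prime] (hp : p ≠ 2) {K : Type*} [Field K] [Fintype K] [CharP K p] (n : ℕ) (hn : 1 ≤ n) (hK : Fintype.card K = (p ^ n) ^ 2) : ¬ Cfsg.Involves ↥(Cfsg.qd p) (Cfsg.PSU 3 K (p ^ n)) := by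
  intro hI
  have h := isHerm_hermB hK 3
  have h3 := finrank_fin (F := K) 3
  have hσ : ∀ x, frobQ hK x = x ^ p ^ n := fun _ => rfl
  have : Finite ((Fin 3 → K) ≃ₗ[K] (Fin 3 → K)) := finite_linearEquiv
  have hpp : p.Prime := Fact.out
  obtain ⟨L, π, hπ⟩ := H99.involves_iff.1
    (H99.involves_mono_of_surjective hI (toPSU hK 3) (toPSU_surjective hK 3))
  obtain ⟨X, hX, hmap, hnorm⟩ := H51.exists_isPGroup_map_normalizer hπ
    (isPGroup_V (Q := qd p) p)
  rw [Subgroup.normalizer_eq_top (V (qd p))] at hnorm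
  let ι : L →* ((Fin 3 → K) ≃ₗ[K] (Fin 3 → K)) := (sisom (hermB hK 3)).subtype.comp L.subtype
  have hι : ∀ g, ι g ∈ sisom (hermB hK 3) := fun g => g.1.2
  have hι' : Function.Injective ι := Subtype.val_injective.comp Subtype.val_injective
  obtain ⟨y, hy, hfix⟩ := exists_pt_fixed_of_isPGroup (hX.map ι) (Y := isoPts (hermB hK 3) ⊤)
    (by rintro _ ⟨g, -, rfl⟩ y hy; exact smul_mem_isoPts (hι g).1 (fun _ _ => Submodule.mem_top) hy) (by
      rw [h.ncard_isoPts_three hK hσ h3, Nat.dvd_add_right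
        (dvd_pow (dvd_pow_self p (by omega)) (by omega))]
      exact hpp.not_dvd_one)
  obtain ⟨g₀, hg₀, e₀⟩ : un (qd p) 0 1 0 ∈ X.map π := hmap ▸ un_mem_V 1 0
  have hU : ι g₀ ∈ uniRad (hermB hK 3) y.rep := by
    obtain ⟨a, ha⟩ := smul_eq_iff_rep.mp (hfix _ ⟨g₀, hg₀, rfl⟩)
    obtain ⟨k, hk⟩ := hX ⟨g₀, hg₀⟩
    have h1 := pow_apply_eig ha (p ^ k)
    rw [← map_pow, show g₀ ^ p ^ k = 1 from congrArg Subtype.val hk, map_one] at h1
    have h2 : a ^ p ^ k = 1 := smul_left_injective K y.rep_nonzero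
      (h1.symm.trans (one_smul K y.rep).symm)
    have h4 : (a - 1) ^ p ^ k = 0 := by rw [sub_pow_char_pow, h2, one_pow, sub_self]
    rw [sub_eq_zero.mp (pow_eq_zero_iff (pow_ne_zero k hpp.ne_zero) |>.mp h4), one_smul] at ha
    exact h.mem_uniRad_of_fix h3 hy.2 y.rep_nonzero (hι _) ha
  have hN : ∀ x ∈ Subgroup.normalizer (X : Set L), ∃ a : K, ι x y.rep = a • y.rep := by
    intro x hx
    have h1 : x⁻¹ * g₀ * x ∈ X := by
      rw [Subgroup.mem_normalizer_iff.mp hx]
      simpa [mul_assoc] using hg₀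
    obtain ⟨a, ha⟩ := smul_eq_iff_rep.mp (hfix _ ⟨_, h1, rfl⟩)
    have h2 : ι g₀ (ι x y.rep) = a • ι x y.rep := by
      rw [← map_smul, ← ha, ← LinearEquiv.mul_apply, ← LinearEquiv.mul_apply, ← map_mul, ← map_mul]
      congr 2
      group
    have h4 : hermB hK 3 (ι x y.rep) (ι x y.rep) = 0 := ((hι x).1 _ _).trans hy.2
    refine h.exists_smul_of_iso_perp h3 hy.2 y.rep_nonzero h4 ?_
    by_contra h5
    have h6 := h.eq_one_of_fix_pt hy.2 hU h4 h5 h2
    rw [hι' (h6.trans (map_one ι).symm), map_one] at e₀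
    exact one_ne_zero (un_eq_one_iff.mp e₀.symm).2.1
  have hP : IsPGroup p (((uniRad (hermB hK 3) y.rep).comap ι).map π) := by
    have := isPGroup_uniRad hK hσ h hy.2 y.rep_nonzero
    rw [ringChar.eq K p] at this
    exact (this.comap_of_injective ι hι').map π
  have key : ∀ z : qd p, z ^ p = 1 → z ∈ ((uniRad (hermB hK 3) y.rep).comap ι).map π := by
    intro z hz
    obtain ⟨x, hx, rfl⟩ : z ∈ (Subgroup.normalizer (X : Set L)).map π := hnorm ▸ Subgroup.mem_top z
    obtain ⟨a, ha⟩ := hN x hx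
    have h1 := pow_apply_eig ha (Fintype.card K - 1)
    rw [FiniteField.pow_card_sub_one_eq_one a (ne_zero_of_apply_eq_smul y.rep_nonzero ha),
      one_smul, ← map_pow] at h1
    refine (Subgroup.inv_mem_iff _).mp ⟨_, h.mem_uniRad_of_fix h3 hy.2 y.rep_nonzero (hι _) h1, ?_⟩
    obtain ⟨m, hm⟩ : p ∣ Fintype.card K := hK ▸ dvd_pow (dvd_pow_self p (by omega)) (by omega)
    rw [map_pow, eq_inv_iff_mul_eq_one, ← pow_succ, Nat.sub_add_cancel Fintype.card_pos, hm,
      pow_mul, hz, one_pow]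
  have hu : un (qd p) 1 0 0 ^ p = 1 := by rw [un_pow]; simp [un_zero]
  let w := mk (qd p) 0 1 (-1) 0 0 0 (by ring)
  have hv : (w * un (qd p) 1 0 0 * w⁻¹) ^ p = 1 := by rw [conj_pow, hu, mul_one, mul_inv_cancel]
  have hw : w = un (qd p) 1 0 0 * (w * un (qd p) 1 0 0 * w⁻¹) * un (qd p) 1 0 0 := by
    apply ext <;> simp [w]
  have hw' : w * w ∈ ((uniRad (hermB hK 3) y.rep).comap ι).map π := by
    have := mul_mem (mul_mem (key _ hu) (key _ hv)) (key _ hu)
    rw [← hw] at this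
    exact mul_mem this this
  obtain ⟨k, hk⟩ := hP ⟨_, hw'⟩
  have h1 : (w * w) ^ p ^ k = 1 := congrArg Subtype.val hk
  have h2 : (w * w) ^ 2 = 1 := by
    rw [pow_two]
    apply ext <;> simp [w]
  obtain ⟨j, hj⟩ := (hpp.odd_of_ne_two hp).pow (n := k)
  rw [hj, pow_succ, pow_mul, h2, one_pow, one_mul] at h1
  have h4 := congrArg a h1
  simp only [a_mul, a_mk, b_mk, c_mk, a_one, w] at h4
  have h5 : ((2 : ℕ) : ZMod p) = 0 := by push_cast; linear_combination -h4
  exact hp ((Nat.prime_dvd_prime_iff_eq hpp Nat.prime_two).mp ((ZMod.natCast_eq_zero_iff 2 p).mp h5))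

end Cfsg.Agent.S2232
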