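import Cfsg.Statements.S2239
import Cfsg.Agent.H39.SzClass

set_option autoImplicit false
open Cfsg
open scoped Pointwise

namespace Cfsg.Agent.S2239

/-- Subfield subgroups of the Suzuki group: let q = 2^(2m+1) and s = 2^(2k+1) with m, k ≥ 1 and 2k+1 dividing 2m+1 (so q is a power of s), both groups realised as stabilisers in SL₄ of the Suzuki–Tits ovoid. Then Sz(q) has a subgroup isomorphic to Sz(s), and any two subgroups of Sz(q) isomorphic to Sz(s) are conjugate. -/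
theorem result {F : Type*} [Field F] [Fintype F] {m : ℕ} (hm : 1 ≤ m) (hF : Fintype.card F = 2 ^ (2 * m + 1)) {K : Type*} [Field K] [Fintype K] {k : ℕ} (hk : 1 ≤ k) (hK : Fintype.card K = 2 ^ (2 * k + 1)) (hdiv : 2 * k + 1 ∣ 2 * m + 1) :
    (∃ S : Subgroup ↥(Cfsg.Sz F m), Nonempty (↥S ≃* ↥(Cfsg.Sz K k))) ∧
    ∀ S₁ S₂ : Subgroup ↥(Cfsg.Sz F m), Nonempty (↥S₁ ≃* ↥(Cfsg.Sz K k)) → Nonempty (↥S₂ ≃* ↥(Cfsg.Sz K k)) →
      ∃ g : ↥(Cfsg.Sz F m), S₂ = S₁.map (MulAut.conj g).toMonoidHom := by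
  have := H39.szField_of_card hm hF
  have := H39.szField_of_card hk hK
  have hF' : Nat.card F = 2 ^ (2 * m + 1) := by rw [Nat.card_eq_fintype_card, hF]
  have hK' : Nat.card K = 2 ^ (2 * k + 1) := by rw [Nat.card_eq_fintype_card, hK]
  set S := H39.ovoidModel hm hF
  set S' := H39.ovoidModel hk hK
  constructor
  · obtain ⟨α⟩ := H39.nonempty_ringHom (by omega) hK' hF' (by omega) hdiv
    exact ⟨_, ⟨(S.subEquiv S' α).symm⟩⟩
  have key : ∀ M : Subgroup (Cfsg.Sz F m), Nonempty (M ≃* Cfsg.Sz K k) →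
      ∃ (g : Cfsg.Sz F m) (L : Subfield F), Nat.card L = Nat.card K ∧ M = (S.twist g).sub L := by
    rintro M ⟨e⟩
    obtain ⟨g, L, -, rfl⟩ := S.eq_sub_of_not_isSolvable (M := M) fun h =>
      S'.not_isSolvable (Group.isSolvable_of_surjective (f := e.toMonoidHom) e.surjective)
    refine ⟨g, L, H39.Model.order_inj Nat.card_pos Nat.card_pos ?_, rfl⟩
    rw [← (S.twist g).card_sub, ← S'.card_eq, Nat.card_congr e.toEquiv]
  intro S₁ S₂ h₁ h₂
  obtain ⟨g₁, L₁, e₁, rfl⟩ := key S₁ h₁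
  obtain ⟨g₂, L₂, e₂, rfl⟩ := key S₂ h₂
  obtain rfl := H39.subfield_eq_of_card_eq (e₁.trans e₂.symm)
  refine ⟨g₂ * g₁⁻¹, ?_⟩
  change _ = MulAut.conj (g₂ * g₁⁻¹) • (S.twist g₁).sub L₁
  rw [H39.Model.twist_sub, H39.Model.twist_sub, ← mul_smul, ← map_mul, inv_mul_cancel_right]

end Cfsg.Agent.S2239
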