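import Cfsg.Statements.S2240
import Cfsg.Agent.H39.SzClass

set_option autoImplicit false
open Cfsg

namespace Cfsg.Agent.S2240

open H39 H39.Model in
theorem aux {G F : Type*} [Group G] [Field F] [SzField F] (S : Model G F) {E : Subgroup G}
    (hE : E ≤ S.Z) (h1 : E ≠ ⊥) (h : ∀ x : G, E ⊓ E.map (MulAut.conj x).toMonoidHom ≠ ⊥ →
      x ∈ Subgroup.normalizer (E : Set G)) : ∃ K : Subfield F, Nat.card K = Nat.card E := by
  have := SzField.finite F
  have := S.charP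
  obtain ⟨⟨z, hz⟩, hz1⟩ := Subgroup.ne_bot_iff_exists_ne_one.mp h1
  obtain ⟨b₀, rfl⟩ := hE hz
  have hb₀ : b₀ ≠ 0 := by
    rintro rfl
    exact hz1 (Subtype.ext S.u_zero)
  have key : ∀ b b' c, b ≠ 0 → S.u 0 b ∈ E → S.u 0 b' ∈ E → S.u 0 c ∈ E →
      S.u 0 (b' / b * c) ∈ E := fun b b' c hb h1 h2 h3 => by
    by_cases hb' : b' = 0
    · simp [hb']
    obtain ⟨k, hk⟩ := S.exists_unit_sq_θ hb hb'
    have h4 := h (S.h k) (by
      rw [Subgroup.ne_bot_iff_exists_ne_one]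
      refine ⟨⟨S.u 0 b', h2, S.u 0 b, h1, ?_⟩, fun e => S.u_zero_ne_one hb' (congrArg Subtype.val e)⟩
      change S.h k * S.u 0 b * (S.h k)⁻¹ = _
      rw [h_conj_u, mul_zero, hk])
    have h5 := (Subgroup.mem_normalizer_iff.mp h4 _).mp h3
    rwa [h_conj_u, mul_zero, ← mul_div_cancel_right₀ ((k : F) ^ 2 * S.θ k) hb, hk] at h5
  let K : Subfield F :=
    { carrier := {c | S.u 0 (c * b₀) ∈ E}
      mul_mem' := fun {a b} ha hb => by
        have := key b₀ _ _ hb₀ hz ha hb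
        rwa [mul_div_cancel_right₀ _ hb₀, ← mul_assoc] at this
      one_mem' := by simpa using hz
      add_mem' := fun {a b} ha hb => by
        have := E.mul_mem ha hb
        rwa [u_zero_mul, ← add_mul] at this
      zero_mem' := by simp
      neg_mem' := fun {a} ha => by rwa [CharTwo.neg_eq]
      inv_mem' := fun a ha => by
        by_cases ha0 : a = 0
        · simp [ha0]
        have := key _ _ _ (mul_ne_zero ha0 hb₀) ha hz hz
        rwa [div_mul_cancel_right₀ hb₀] at this }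
  refine ⟨K, Nat.card_congr (Equiv.ofBijective (fun c => ⟨S.u 0 (c * b₀), c.2⟩) ⟨?_, ?_⟩)⟩
  · intro c c' e
    exact Subtype.ext (mul_right_cancel₀ hb₀
      (S.u_inj (congrArg Subtype.val e : S.u 0 (c * b₀) = S.u 0 (c' * b₀))).2)
  · rintro ⟨x, hx⟩
    obtain ⟨b, rfl⟩ := hE hx
    exact ⟨⟨b / b₀, by change S.u 0 _ ∈ E; rwa [div_mul_cancel₀ _ hb₀]⟩,
      Subtype.ext (by simp [div_mul_cancel₀ _ hb₀])⟩

/-- Elementary abelian TI-subgroups of the Suzuki group: let q = 2^(2m+1) with m ≥ 1, the group realised as the stabiliser in SL₄ of the Suzuki–Tits ovoid, and n ≥ 2. There is an elementary abelian 2-subgroup E of order 2^n that is a TI-subgroup (every conjugate of E meeting E nontrivially is E itself) if and only if n divides 2m + 1. -/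
theorem result {F : Type*} [Field F] [Fintype F] {m : ℕ} (hm : 1 ≤ m) (hF : Fintype.card F = 2 ^ (2 * m + 1)) (n : ℕ) (hn : 2 ≤ n) :
    (∃ E : Subgroup ↥(Cfsg.Sz F m), Cfsg.IsElementaryAbelian 2 E ∧ Nat.card ↥E = 2 ^ n ∧
      ∀ x : ↥(Cfsg.Sz F m), E ⊓ E.map (MulAut.conj x).toMonoidHom ≠ ⊥ → x ∈ Subgroup.normalizer (E : Set ↥(Cfsg.Sz F m))) ↔ n ∣ 2 * m + 1 := by
  have := H39.szField_of_card hm hF
  have hF' : Nat.card F = 2 ^ (2 * m + 1) := by rw [Nat.card_eq_fintype_card, hF]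
  set S := H39.ovoidModel hm hF
  constructor
  · rintro ⟨E, hE, hc, h⟩
    obtain ⟨g, hg⟩ := S.exists_twist_le_U (P := E) (IsPGroup.of_card hc)
    obtain ⟨K, hK⟩ := aux (S.twist g) (E := E) (fun x hx => (S.twist g).mem_Z_of_mul_self (hg hx)
      (by rw [← pow_two, hE.2 x hx])) (by
        rintro rfl
        rw [Subgroup.card_bot] at hc
        exact absurd hc.symm (Nat.one_lt_two_pow (by omega)).ne') h
    obtain ⟨j, hj, e⟩ := H39.exists_card_subfield hF' K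
    rwa [Nat.pow_right_injective le_rfl (hc.symm.trans (hK.symm.trans e))]
  · intro h
    have hG : Nat.card (GaloisField 2 n) = 2 ^ n := GaloisField.card 2 _ (by omega)
    obtain ⟨α⟩ := H39.nonempty_ringHom (by omega) hG hF' (by omega) h
    have hK := (H39.card_fieldRange α).trans hG
    set K := α.fieldRange
    let E : Subgroup (Cfsg.Sz F m) :=
      { carrier := {g | ∃ b ∈ K, g = S.u 0 b}
        mul_mem' := by
          rintro _ _ ⟨b, hb, rfl⟩ ⟨d, hd, rfl⟩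
          exact ⟨_, K.add_mem hb hd, S.u_zero_mul b d⟩
        one_mem' := ⟨0, K.zero_mem, S.u_zero.symm⟩
        inv_mem' := by
          rintro _ ⟨b, hb, rfl⟩
          exact ⟨_, hb, S.u_zero_inv b⟩ }
    refine ⟨E, ⟨⟨⟨?_⟩⟩, ?_⟩, ?_, fun x hx => ?_⟩
    · rintro ⟨_, b, hb, rfl⟩ ⟨_, d, hd, rfl⟩
      exact Subtype.ext (S.u_zero_comm b 0 d)
    · rintro _ ⟨b, hb, rfl⟩
      rw [pow_two, S.u_zero_sq]
    · rw [← hK]
      symm
      refine Nat.card_congr (Equiv.ofBijective (fun c => ⟨S.u 0 c, c, c.2, rfl⟩) ⟨?_, ?_⟩)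
      · intro c c' e
        exact Subtype.ext (S.u_inj (congrArg Subtype.val e : S.u 0 c = S.u 0 c')).2
      · rintro ⟨_, b, hb, rfl⟩
        exact ⟨⟨b, hb⟩, rfl⟩
    · obtain ⟨⟨_, ⟨b', hb', rfl⟩, _, ⟨b, hb, rfl⟩, e⟩, h1⟩ :=
        Subgroup.ne_bot_iff_exists_ne_one.mp hx
      have h2 : S.u 0 b' ≠ 1 := fun e => h1 (Subtype.ext e)
      change x * S.u 0 b * x⁻¹ = _ at e
      have h3 : S.u 0 b ≠ 1 := fun e' => h2 (by rw [← e, e']; simp)
      obtain ⟨c, d, k, rfl⟩ := S.mem_B.mp (S.mem_B_of_conj_mem_B' (S.u_mem_U 0 b) h3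
        (e ▸ S.u_mem_B _ _))
      rw [S.uh_conj_u_zero, S.u_eq_iff] at e
      have hb0 : b ≠ 0 := fun e' => h3 (by rw [e', S.u_zero])
      have hk : (k : F) ^ 2 * S.θ k ∈ K := by
        rw [← mul_div_cancel_right₀ ((k : F) ^ 2 * S.θ k) hb0, e.2]
        exact K.div_mem hb' hb
      apply Subgroup.mem_normalizer_fintype
      rintro _ ⟨b, hb, rfl⟩
      exact ⟨_, K.mul_mem hk hb, S.uh_conj_u_zero c d k b⟩

end Cfsg.Agent.S2240
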