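import Cfsg.Statements.S2244
import Mathlib
import Cfsg.Agent.H75.WeakCl

set_option autoImplicit false
open Cfsg

namespace Cfsg.Agent.S2244

/-- Weakly closed unipotent subgroups of Chevalley groups: let G be the Chevalley group of type G₂, B₂, D₄, F₄, E₆, E₇ or E₈ over a finite field F (the matrix group generated by the root elements), with |F| ≠ 2, and |F| ≠ 3 as well for the types G₂, B₂, D₄, F₄. Let U be the subgroup generated by the positive root subgroups. If X ≤ U is weakly closed in U with respect to G (every G-conjugate of X lying in U equals X), then X is the unipotent radical U_J of a standard parabolic subgroup for some set J of fundamental roots. -/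
theorem result {F : Type*} [Field F] [Fintype F] (D : Cfsg.Lie.ChevalleyDatum) (hD : D ∈ [Cfsg.Lie.chevG2, Cfsg.Lie.chevB2, Cfsg.Lie.chevD4, Cfsg.Lie.chevF4, Cfsg.Lie.chevE6, Cfsg.Lie.chevE7, Cfsg.Lie.chevE8])
    (h2 : Fintype.card F ≠ 2) (h3 : D ∈ [Cfsg.Lie.chevG2, Cfsg.Lie.chevB2, Cfsg.Lie.chevD4, Cfsg.Lie.chevF4] → Fintype.card F ≠ 3)
    (X : Subgroup (GL D.Idx F)) (hXU : X ≤ D.posUnipotent F)
    (hwc : ∀ g ∈ D.group F, X.map (MulAut.conj g).toMonoidHom ≤ D.posUnipotent F → X.map (MulAut.conj g).toMonoidHom = X) :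
    ∃ J : Set ℕ, (∀ j ∈ J, j < D.rank) ∧ X = D.unipotentRadical F J := by
  let C := H34.cert hD
  obtain ⟨b, hs, hc, h4⟩ : ∃ b, H75.Sep D b ∧ H75.CommOK D b ∧ (b = true → Fintype.card F ≠ 3) := by
    simp only [List.mem_cons, List.not_mem_nil, or_false] at hD
    rcases hD with rfl | rfl | rfl | rfl | rfl | rfl | rfl
    exacts [⟨_, H75.sep_G2, H75.commOK_G2, fun _ => h3 (by simp)⟩,
      ⟨_, H75.sep_B2, H75.commOK_B2, fun _ => h3 (by simp)⟩,
      ⟨_, H75.sep_D4, H75.commOK_D4, fun _ => h3 (by simp)⟩,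
      ⟨_, H75.sep_F4, H75.commOK_F4, fun _ => h3 (by simp)⟩,
      ⟨_, H75.sep_E6, H75.commOK_E6, nofun⟩, ⟨_, H75.sep_E7, H75.commOK_E7, nofun⟩,
      ⟨_, H75.sep_E8, H75.commOK_E8, nofun⟩]
  have h1 := Fintype.one_lt_card (α := F)
  have hXG := hXU.trans (H34.Cert.pos_le_group (C := C))
  obtain ⟨J, hJ⟩ := H75.eq_rad_of_weaklyClosed (C := C) hs hc (by omega)
    (fun hb => by have := h4 hb; omega) (X := X.subgroupOf (D.group F))
    (fun x hx => H34.Cert.mem_Up.2 (hXU hx)) fun g hg x hx =>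
      (hwc g g.2 (by
        rintro _ ⟨y, hy, rfl⟩
        exact H34.Cert.mem_Up.1 (hg ⟨y, hXG hy⟩ hy))).le ⟨x, hx, rfl⟩
  refine ⟨Fin.val '' J, by rintro _ ⟨j, -, rfl⟩; exact j.2, ?_⟩
  rw [← Set.preimage_image_eq J Fin.val_injective] at hJ
  ext g
  refine ⟨fun hg => (H75.mem_rad_iff C _ (g := ⟨g, hXG hg⟩)).1 (hJ.le hg), fun hg => ?_⟩
  have hg' : g ∈ D.group F := (H34.Cert.pos_le_group (C := C)) (Subgroup.closure_mono
    (by rintro _ ⟨r, t, h, -, e⟩; exact ⟨r, t, h, e⟩) hg)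
  exact hJ.ge ((H75.mem_rad_iff C _ (g := ⟨g, hg'⟩)).2 hg)

end Cfsg.Agent.S2244
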