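import Cfsg.Statements.S2249
import Cfsg.Agent.H79.WreathSyl

set_option autoImplicit false
open Cfsg

namespace Cfsg.Agent.S2249

theorem case_three {F : Type*} [Field F] [Fintype F] (hq : Fintype.card F % 4 = 3) (k r : ℕ)
    (hr : r ≤ 1) (S : Sylow 2 (Matrix.GeneralLinearGroup (Fin (2 * k + r)) F)) :
    ((∃ E : Subgroup ↥(S : Subgroup (Matrix.GeneralLinearGroup (Fin (2 * k + r)) F)), E.Normal ∧ Cfsg.IsElementaryAbelian 2 E ∧ 2 ^ ((2 * k + r + 1) / 2) ≤ Nat.card ↥E) ∧
      ∀ E : Subgroup ↥(S : Subgroup (Matrix.GeneralLinearGroup (Fin (2 * k + r)) F)), E.Normal → Cfsg.IsElementaryAbelian 2 E → Nat.card ↥E ≤ 2 ^ ((2 * k + r + 1) / 2)) := by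
  classical
  have hodd : Odd (Fintype.card F) := Nat.odd_iff.2 (by omega)
  have h2 := H30.two_ne_zero_iff_odd_card.2 hodd
  have hneg : ¬ IsSquare (-1 : F) := by
    rw [FiniteField.isSquare_neg_one_iff]; omega
  let ρ := H79.prodRep (H79.wrRep (Fin k) ((H79.matRep (Fin 2) F).comp (Units.coeHom _)))
    (H79.wrRep (Fin r) (H79.unitRep F))
  have hρ : Function.Injective ρ := H79.prodRep_injective
    (H79.wrRep_injective ((H79.matRep_injective _).comp Units.val_injective))
    (H79.wrRep_injective H79.unitRep_injective)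
  have hdim : Module.finrank F ((Fin k → Fin 2 → F) × (Fin r → F)) = 2 * k + r := by
    simp [Module.finrank_pi_fintype]; ring
  obtain ⟨φ, hφ⟩ := H79.exists_embed_gl ρ hρ hdim
  have := H79.wr_finite (ι := Fin k) (H := GL (Fin 2) F)
  have := H79.wr_finite (ι := Fin r) (H := Fˣ)
  have hval : padicValNat 2 (Nat.card (H79.Wr (Fin k) (GL (Fin 2) F) × H79.Wr (Fin r) Fˣ)) =
      padicValNat 2 (Nat.card (GL (Fin (2 * k + r)) F)) := by
    have h1 := H79.val_prod_three hq 1
    have h3 := H79.val_eq_one_of_mod (x := Fintype.card F - 1) (by omega)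
    rw [Nat.card_prod, padicValNat.mul Nat.card_pos.ne' Nat.card_pos.ne', H79.card_wr, H79.card_wr,
      Fintype.card_fin, Fintype.card_fin,
      padicValNat.mul (pow_ne_zero _ Nat.card_pos.ne') k.factorial_ne_zero,
      padicValNat.mul (pow_ne_zero _ Nat.card_pos.ne') r.factorial_ne_zero, padicValNat.pow,
      padicValNat.pow, H79.val_card_GL hodd, H79.val_card_GL hodd, h1, Nat.card_units,
      Nat.card_eq_fintype_card, h3]
    interval_cases r
    · simp [H79.val_prod_three hq]
    · rw [Finset.prod_range_succ, padicValNat.mul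
        (H79.prod_pow_sub_one_ne_zero Fintype.one_lt_card _)
        (Nat.sub_ne_zero_of_lt (Nat.one_lt_pow (by omega) Fintype.one_lt_card)),
        H79.val_prod_three hq, H79.val_pow_sub_one_of_odd Fintype.one_lt_card hodd
          (odd_two_mul_add_one k), h3]
      simp
  constructor
  · let ζ : ℤˣ →* GL (Fin 2) F := (Matrix.GeneralLinearGroup.scalar (Fin 2)).comp (H79.signUnits F)
    have hζ : Function.Injective ζ := fun a b h => H79.sign_cast_injective h2 (by
      have := congrArg (fun g : GL (Fin 2) F => g.1 0 0) h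
      change Matrix.scalar (Fin 2) ((a : ℤ) : F) 0 0 = Matrix.scalar (Fin 2) ((b : ℤ) : F) 0 0 at this
      simpa only [Matrix.scalar_apply, Matrix.diagonal_apply_eq] using this)
    have h1 := H79.wrSigns_normal (ι := Fin k) (ζ := ζ) fun a h =>
      Units.ext (Matrix.scalar_commute _ (fun _ => Commute.all _ _) _).symm
    have h3 := H79.wrSigns_normal (ι := Fin r) (ζ := H79.signUnits F) fun a h => mul_comm _ _
    let ψ := (H79.wrSigns (Fin k) ζ).prodMap (H79.wrSigns (Fin r) (H79.signUnits F))
    have h4 : ψ.range.Normal := by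
      rw [MonoidHom.range_prodMap]; infer_instance
    obtain ⟨e⟩ := H79.nonempty_sylow_equiv φ hφ hval default S
    obtain ⟨E, h1, h3, h4⟩ := H79.exists_normal_elemAb _ (H79.isElementaryAbelian_range
      (fun a => Prod.ext (funext fun i => Int.units_sq _) (funext fun i => Int.units_sq _)) ψ) _ e
    refine ⟨E, h1, h3, ?_⟩
    rw [h4, ← Nat.card_congr (MonoidHom.ofInjective (f := ψ) ((H79.wrSigns_injective hζ).prodMap
      (H79.wrSigns_injective (H79.signUnits_injective h2)))).toEquiv, Nat.card_prod,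
      H79.card_signs, H79.card_signs, Fintype.card_fin, Fintype.card_fin, ← pow_add]
    exact Nat.pow_le_pow_right (by norm_num) (by omega)
  · intro E hE hE'
    obtain ⟨a, e, he, ha⟩ : ∃ a e : F, (e = 1 ∨ e = -1) ∧ a * a = 2 * e := by
      by_cases h : IsSquare (2 : F)
      · obtain ⟨a, ha⟩ := h
        exact ⟨a, 1, Or.inl rfl, by rw [← ha, mul_one]⟩
      · obtain ⟨a, ha⟩ := H30.isSquare_mul_of_not h hneg
        exact ⟨a, -1, Or.inr rfl, ha.symm⟩
    have hee : e * e = 1 := by rcases he with rfl | rfl <;> simp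
    let X : GL (Fin 2) F := Matrix.GeneralLinearGroup.mkOfDetNeZero !![0, -e; 1, a] (by
      rcases he with rfl | rfl <;> simp)
    have hX2 : X.1 * X.1 = a • X.1 - e • 1 := by
      ext i j; fin_cases i <;> fin_cases j <;> simp [X, Matrix.mul_apply, Fin.sum_univ_two] <;> ring
    have hX4 : X.1 ^ 4 = -1 := by
      have h3 : X.1 ^ 4 = (X.1 * X.1) * (X.1 * X.1) := by noncomm_ring
      rw [h3, hX2]
      simp only [sub_mul, mul_sub, smul_mul_assoc, mul_smul_comm, one_mul, mul_one, hX2]
      match_scalars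
      · linear_combination a * ha
      · linear_combination (-e) * ha - hee
    have hX8 : X ^ 8 = 1 := Units.ext (by
      rw [show 8 = 4 * 2 from rfl, pow_mul, Units.val_pow_eq_pow_val, Units.val_pow_eq_pow_val, hX4]
      simp)
    let β : (Fin k → Subgroup.zpowers X) →* H79.Wr (Fin k) (GL (Fin 2) F) × H79.Wr (Fin r) Fˣ :=
      (MonoidHom.inl _ _).comp (SemidirectProduct.inl.comp
        ((Subgroup.zpowers X).subtype.compLeft (Fin k)))
    have hβ : IsPGroup 2 (Fin k → Subgroup.zpowers X) := fun g => ⟨3, funext fun i => by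
      obtain ⟨m, hm⟩ := (g i).2
      refine Subtype.ext ?_
      change (g i).1 ^ 8 = 1
      rw [← hm, ← zpow_natCast, ← zpow_mul, mul_comm, zpow_mul, zpow_natCast, hX8, one_zpow]⟩
    obtain ⟨T, hT⟩ := (hβ.of_surjective β.rangeRestrict β.rangeRestrict_surjective).exists_le_sylow
    obtain ⟨ε⟩ := H79.nonempty_sylow_equiv φ hφ hval T S
    let x : Fin k → T := fun j => ⟨β (Pi.mulSingle j ⟨X, Subgroup.mem_zpowers X⟩), hT ⟨_, rfl⟩⟩
    have hx : ∀ j v, ρ (x j).1 v = (Function.update v.1 j (X.1.mulVec (v.1 j)), v.2) := by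
      intro j v
      refine Prod.ext (funext fun i => ?_) (funext fun i => one_smul Fˣ (v.2 i))
      change (Pi.mulSingle (M := fun _ => Subgroup.zpowers X) j ⟨X, Subgroup.mem_zpowers X⟩ i).1.1.mulVec (v.1 i) = _
      by_cases h : i = j
      · subst h; simp
      · simp [Pi.mulSingle_eq_of_ne h, Function.update_of_ne h]
    obtain ⟨ρ', hρ', hρε⟩ : ∃ ρ' : S →* Module.End F ((Fin k → Fin 2 → F) × (Fin r → F)),
        Function.Injective ρ' ∧ ∀ t : T, ρ' (ε t) = ρ t.1 :=
      ⟨(ρ.comp T.toSubgroup.subtype).comp ε.symm.toMonoidHom,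
        fun a b h => ε.symm.injective (Subtype.ext (hρ h)), fun t => by simp⟩
    refine H79.card_le_of_normal_elemAb h2 hneg ρ' hρ' E hE' he ha
      (fun j => ε (x j)) (fun j => ?_) (fun j v => ?_) (LinearMap.range (LinearMap.inr F _ _)) ?_
      (fun u hu => ?_) hdim
    · rw [← map_pow, show x j ^ 8 = 1 from Subtype.ext ?_, map_one]
      change β _ ^ 8 = 1
      rw [← map_pow, ← Pi.mulSingle_pow, show (⟨X, Subgroup.mem_zpowers X⟩ : Subgroup.zpowers X) ^ 8 = 1 from Subtype.ext hX8, Pi.mulSingle_one, map_one]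
    · simp only [hρε, hx]
      refine Prod.ext (funext fun i => ?_) (by simp only [Prod.snd_add, Prod.snd_sub, Prod.smul_snd]; module)
      by_cases h : i = j
      · subst h
        have h3 : ∀ w, X.1.mulVec (X.1.mulVec w) = a • X.1.mulVec w - e • w := fun w => by
          rw [Matrix.mulVec_mulVec, hX2, Matrix.sub_mulVec, Matrix.smul_mulVec, Matrix.smul_mulVec,
            Matrix.one_mulVec]
        simp only [Function.update_self, Prod.fst_add, Prod.fst_sub, Prod.smul_fst, Pi.add_apply,
          Pi.sub_apply, Pi.smul_apply]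
        rw [h3 (X.1.mulVec _), h3]
        module
      · simp only [Function.update_of_ne h, Prod.fst_add, Prod.fst_sub, Prod.smul_fst, Pi.add_apply,
          Pi.sub_apply, Pi.smul_apply]
        module
    · rw [LinearMap.finrank_range_of_inj LinearMap.inr_injective]
      simpa using hr
    · refine ⟨u.2, Prod.ext (funext fun j => ?_) rfl⟩
      have h3 := congrFun (congrArg Prod.fst (hu j)) j
      simp only [hρε, hx, Function.update_self] at h3
      have h4 := congrFun h3 0
      have h5 := congrFun h3 1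
      simp [X, Matrix.mulVec, dotProduct, Fin.sum_univ_two] at h4 h5
      have ha0 : a ≠ 0 := by
        rintro rfl
        refine h2 ?_
        linear_combination (-e) * ha - 2 * hee
      have h6 : u.1 j 1 = 0 := by
        by_contra h
        have h7 : 1 - a + e = 0 := mul_left_cancel₀ h (by linear_combination -h5 - h4)
        refine hneg ⟨(2 - a) / a, ?_⟩
        field_simp
        linear_combination (-4) * h7 - 2 * ha
      funext i
      fin_cases i
      · simpa [h6] using h4
      · exact h6.symm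

/-- The normal 2-rank of the general linear group over a finite field of odd order q: for n ≥ 1 and S a Sylow 2-subgroup of GL_n(F), the largest rank of an elementary abelian subgroup of S that is normal in S equals n when q ≡ 1 (mod 4) and ⌊(n + 1)/2⌋ when q ≡ 3 (mod 4). -/
theorem result {F : Type*} [Field F] [Fintype F] {q : ℕ} (hF : Fintype.card F = q) (hodd : Odd q) (n : ℕ) (hn : 1 ≤ n) (S : Sylow 2 (Matrix.GeneralLinearGroup (Fin n) F)) :
    (q % 4 = 1 → ((∃ E : Subgroup ↥(S : Subgroup (Matrix.GeneralLinearGroup (Fin n) F)), E.Normal ∧ Cfsg.IsElementaryAbelian 2 E ∧ 2 ^ (n) ≤ Nat.card ↥E) ∧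
      ∀ E : Subgroup ↥(S : Subgroup (Matrix.GeneralLinearGroup (Fin n) F)), E.Normal → Cfsg.IsElementaryAbelian 2 E → Nat.card ↥E ≤ 2 ^ (n))) ∧
    (q % 4 = 3 → ((∃ E : Subgroup ↥(S : Subgroup (Matrix.GeneralLinearGroup (Fin n) F)), E.Normal ∧ Cfsg.IsElementaryAbelian 2 E ∧ 2 ^ ((n + 1) / 2) ≤ Nat.card ↥E) ∧
      ∀ E : Subgroup ↥(S : Subgroup (Matrix.GeneralLinearGroup (Fin n) F)), E.Normal → Cfsg.IsElementaryAbelian 2 E → Nat.card ↥E ≤ 2 ^ ((n + 1) / 2))) := by
  subst hF
  have h2 := H30.two_ne_zero_iff_odd_card.2 hodd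
  refine ⟨fun hq => ⟨?_, fun E _ hE => ?_⟩, fun hq => ?_⟩
  · obtain ⟨φ, hφ⟩ := H79.exists_embed_gl (H79.wrRep (Fin n) (H79.unitRep F))
      (H79.wrRep_injective H79.unitRep_injective) (n := n) (by simp)
    have := H79.wr_finite (ι := Fin n) (H := Fˣ)
    obtain ⟨e⟩ := H79.nonempty_sylow_equiv φ hφ (by
      rw [H79.card_wr, Fintype.card_fin, padicValNat.mul (pow_ne_zero _ Nat.card_pos.ne')
        n.factorial_ne_zero, padicValNat.pow, H79.val_card_GL hodd,
        H79.val_prod_one Fintype.one_lt_card hq, Nat.card_units, Nat.card_eq_fintype_card])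
      default S
    have := H79.wrSigns_normal (ι := Fin n) (ζ := H79.signUnits F) fun a h => mul_comm _ _
    obtain ⟨E, h1, h3, h4⟩ := H79.exists_normal_elemAb _ (H79.isElementaryAbelian_range
      (fun a => funext fun i => Int.units_sq _) (H79.wrSigns (Fin n) (H79.signUnits F))) _ e
    refine ⟨E, h1, h3, ?_⟩
    rw [h4, ← Nat.card_congr (MonoidHom.ofInjective
      (H79.wrSigns_injective (H79.signUnits_injective h2))).toEquiv,
      H79.card_signs, Fintype.card_fin]
  · have := hE.1
    exact (H79.card_le_of_det h2 (fun a => Subtype.ext (hE.2 a.1 a.2))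
      ((((H79.matRep (Fin n) F).comp (Units.coeHom _)).comp S.toSubgroup.subtype).comp E.subtype)
      ((((H79.matRep_injective _).comp Units.val_injective).comp
        (Subgroup.subtype_injective _)).comp (Subgroup.subtype_injective _)) (by simp)).1
  · obtain ⟨k, r, hr, rfl⟩ : ∃ k r, r ≤ 1 ∧ n = 2 * k + r := ⟨n / 2, n % 2, by omega, by omega⟩
    exact case_three hq k r hr S

end Cfsg.Agent.S2249
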