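import Cfsg.Statements.S2257
import Cfsg.Agent.H29.Solubilizer

set_option autoImplicit false
open Cfsg

namespace Cfsg.Agent.S2257

/-- Let G = PSL_2(F) with F a field of order q = 2^p, p prime, and for x ∈ G call the solubilizer of x the set of y ∈ G such that x and y generate a solvable subgroup. Then the solubilizer of an involution has 3q(q − 1) elements; that of a non-identity element of order dividing q − 1 has 2q(q − 1) elements; and that of a non-identity element of order dividing q + 1 has 2(q + 1) elements. -/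
theorem result (p : ℕ) (hp : p.Prime) {F : Type*} [Field F] [Fintype F]
    (hF : Fintype.card F = 2 ^ p) (x : Matrix.ProjectiveSpecialLinearGroup (Fin 2) F) :
    (orderOf x = 2 → Nat.card {y : Matrix.ProjectiveSpecialLinearGroup (Fin 2) F // Group.IsSolvable ↥(Subgroup.closure ({x, y} : Set (Matrix.ProjectiveSpecialLinearGroup (Fin 2) F)))} = 3 * 2 ^ p * (2 ^ p - 1)) ∧
    (x ≠ 1 → orderOf x ∣ 2 ^ p - 1 → Nat.card {y : Matrix.ProjectiveSpecialLinearGroup (Fin 2) F // Group.IsSolvable ↥(Subgroup.closure ({x, y} : Set (Matrix.ProjectiveSpecialLinearGroup (Fin 2) F)))} = 2 * 2 ^ p * (2 ^ p - 1)) ∧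
    (x ≠ 1 → orderOf x ∣ 2 ^ p + 1 → Nat.card {y : Matrix.ProjectiveSpecialLinearGroup (Fin 2) F // Group.IsSolvable ↥(Subgroup.closure ({x, y} : Set (Matrix.ProjectiveSpecialLinearGroup (Fin 2) F)))} = 2 * (2 ^ p + 1)) := by
  rw [← Nat.card_eq_fintype_card] at hF
  have hp1 := hp.one_le
  have he : Even (Nat.card F) := by rw [hF]; exact (Nat.even_pow' (by omega)).2 even_two
  have h2 := H29.even_card_iff.1 he
  have : Fact (Nat.Prime 2) := Nat.fact_prime_two
  have : CharP F 2 := H29.charP_of_dvd_card F 2 he.two_dvd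
  have hq : 2 ≤ Nat.card F := Finite.one_lt_card
  rw [H29.card_sol, ← hF, ← orderOf_injective _ H29.pslp_injective x,
    ← (map_ne_one_iff _ H29.pslp_injective (x := x))]
  have hL := H29.pslp_mem_L x
  generalize H29.pslp x = g at hL
  have hodd : ∀ n, Odd n → orderOf g ∣ n → g ≠ 1 → g * g ≠ 1 := fun n hn h h1 h' => by
    rw [orderOf_eq_prime (p := 2) (by rw [sq, h']) h1] at h
    exact (Nat.not_even_iff_odd.2 hn) (even_iff_two_dvd.2 h)
  have o1 : Odd (Nat.card F - 1) := by obtain ⟨k, hk⟩ := he; exact Nat.odd_iff.2 (by omega)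
  have o2 : Odd (Nat.card F + 1) := he.add_one
  have hne : orderOf g ∣ Nat.card F - 1 → orderOf g ∣ Nat.card F + 1 → g * g = 1 := fun a b => by
    have := (Nat.dvd_sub b a)
    rw [show Nat.card F + 1 - (Nat.card F - 1) = 2 by omega, orderOf_dvd_iff_pow_eq_one] at this
    rwa [sq] at this
  refine ⟨fun h => ?_, fun h1 h => ?_, fun h1 h => ?_⟩
  · refine H29.ncard_sol_invol_even h2 (fun h' => by rw [h', orderOf_one] at h; omega) ?_
    have := pow_orderOf_eq_one g
    rwa [h, sq] at this
  · have hg := hodd _ o1 h h1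
    obtain ⟨T, D, hT | hT, hgT⟩ := H29.exists_torus_of_pow_char_ne 2 (g := g) (by rwa [sq])
    · have := H29.ncard_sol_split hT hgT hg (fun _ _ h' => absurd h2 h') hL
      rwa [H29.gcd_two_of_even he (by omega), one_mul, ← mul_assoc] at this
    · exact absurd (hne h (hT.card ▸ T.orderOf_dvd_natCard hgT)) hg
  · have hg := hodd _ o2 h h1
    obtain ⟨T, D, hT | hT, hgT⟩ := H29.exists_torus_of_pow_char_ne 2 (g := g) (by rwa [sq])
    · exact absurd (hne (hT.card ▸ T.orderOf_dvd_natCard hgT) h) hg
    · have := H29.ncard_sol_nonsplit hT hgT hg (fun _ _ h' => absurd h2 h') hL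
      rwa [H29.gcd_two_of_even he (by omega), one_mul] at this

end Cfsg.Agent.S2257
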