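import Cfsg.Statements.S2258
import Cfsg.Agent.H29.Solubilizer

set_option autoImplicit false
open Cfsg

namespace Cfsg.Agent.S2258

/-- Let G = PSL_2(F) with F a field of order q = 3^p, p an odd prime, and for x ∈ G call the solubilizer of x the set of y ∈ G such that x and y generate a solvable subgroup. Then the solubilizer of an involution has q(q + 1) elements; that of an element of order 3 has q(q + 5)/2 elements; that of an element of order neither 1 nor 2 dividing q − 1 has q(q − 1) elements; and that of an element of order neither 1 nor 2 dividing q + 1 has q + 1 elements. -/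
theorem result (p : ℕ) (hp : p.Prime) (hodd : Odd p) {F : Type*} [Field F] [Fintype F]
    (hF : Fintype.card F = 3 ^ p) (x : Matrix.ProjectiveSpecialLinearGroup (Fin 2) F) :
    (orderOf x = 2 → Nat.card {y : Matrix.ProjectiveSpecialLinearGroup (Fin 2) F // Group.IsSolvable ↥(Subgroup.closure ({x, y} : Set (Matrix.ProjectiveSpecialLinearGroup (Fin 2) F)))} = 3 ^ p * (3 ^ p + 1)) ∧
    (orderOf x = 3 → 2 * Nat.card {y : Matrix.ProjectiveSpecialLinearGroup (Fin 2) F // Group.IsSolvable ↥(Subgroup.closure ({x, y} : Set (Matrix.ProjectiveSpecialLinearGroup (Fin 2) F)))} = 3 ^ p * (3 ^ p + 5)) ∧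
    (x ≠ 1 → orderOf x ≠ 2 → orderOf x ∣ 3 ^ p - 1 → Nat.card {y : Matrix.ProjectiveSpecialLinearGroup (Fin 2) F // Group.IsSolvable ↥(Subgroup.closure ({x, y} : Set (Matrix.ProjectiveSpecialLinearGroup (Fin 2) F)))} = 3 ^ p * (3 ^ p - 1)) ∧
    (x ≠ 1 → orderOf x ≠ 2 → orderOf x ∣ 3 ^ p + 1 → Nat.card {y : Matrix.ProjectiveSpecialLinearGroup (Fin 2) F // Group.IsSolvable ↥(Subgroup.closure ({x, y} : Set (Matrix.ProjectiveSpecialLinearGroup (Fin 2) F)))} = 3 ^ p + 1) := by
  rw [← Nat.card_eq_fintype_card] at hF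
  have hp1 := hp.one_le
  have h3 : 3 ∣ Nat.card F := by rw [hF]; exact dvd_pow_self 3 (by omega)
  have h8 : Nat.card F % 8 = 3 := by
    obtain ⟨k, rfl⟩ := hodd
    rw [hF, pow_succ, pow_mul, Nat.mul_mod, Nat.pow_mod]; simp
  have ho : Odd (Nat.card F) := Nat.odd_iff.2 (by omega)
  have : Fact (Nat.Prime 3) := Nat.fact_prime_three
  have : CharP F 3 := H29.charP_of_dvd_card F 3 h3
  rw [H29.card_sol, ← hF, ← orderOf_injective _ H29.pslp_injective x,
    ← (map_ne_one_iff _ H29.pslp_injective (x := x))]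
  have hL := H29.pslp_mem_L x
  generalize H29.pslp x = g at hL
  have hsq : g ≠ 1 → orderOf g ≠ 2 → g * g ≠ 1 := fun h1 h h' =>
    h (orderOf_eq_prime (p := 2) (by rw [sq, h']) h1)
  have hne : orderOf g ∣ Nat.card F - 1 → orderOf g ∣ Nat.card F + 1 → g * g = 1 := fun a b => by
    have := (Nat.dvd_sub b a)
    rw [show Nat.card F + 1 - (Nat.card F - 1) = 2 by omega, orderOf_dvd_iff_pow_eq_one] at this
    rwa [sq] at this
  have hex : g ≠ 1 → orderOf g ≠ 2 → orderOf g ≠ 3 → ∀ H ≤ H29.Lsub F, (2 : F) ≠ 0 →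
      Nonempty (H ≃* H29.A4) ∨ Nonempty (H ≃* H29.S4) → g ∉ H := by
    rintro h1 h2 h3 H hH - (⟨⟨e⟩⟩ | ⟨⟨e⟩⟩) hg
    · have := H29.A4_orderOf (e ⟨g, hg⟩)
      rw [MulEquiv.orderOf_eq, Subgroup.orderOf_mk, orderOf_eq_one_iff] at this
      tauto
    · have := H29.mod_eight_of_S4 ho e hH
      omega
  refine ⟨fun h => ?_, fun h => ?_, fun h1 h2 h => ?_, fun h1 h2 h => ?_⟩
  · refine H29.ncard_sol_invol_three h3 h8 ⟨hL, fun h' => by rw [h', orderOf_one] at h; omega, ?_⟩
    have := pow_orderOf_eq_one g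
    rwa [h, sq] at this
  · refine H29.ncard_sol_three h3 h8 (fun h' => by rw [h', orderOf_one] at h; omega) ?_
    have := pow_orderOf_eq_one g
    rwa [h] at this
  · have hg := hsq h1 h2
    have h3' : orderOf g ≠ 3 := fun h' => by rw [h'] at h; omega
    obtain ⟨T, D, hT | hT, hgT⟩ := H29.exists_torus_of_pow_char_ne 3 (g := g)
      (fun h' => h3' (orderOf_eq_prime h' h1))
    · have := H29.ncard_sol_split hT hgT hg (hex h1 h2 h3') hL
      rw [H29.gcd_two_of_odd ho] at this
      omega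
    · exact absurd (hne h (hT.card ▸ T.orderOf_dvd_natCard hgT)) hg
  · have hg := hsq h1 h2
    have h3' : orderOf g ≠ 3 := fun h' => by rw [h'] at h; omega
    obtain ⟨T, D, hT | hT, hgT⟩ := H29.exists_torus_of_pow_char_ne 3 (g := g)
      (fun h' => h3' (orderOf_eq_prime h' h1))
    · exact absurd (hne (hT.card ▸ T.orderOf_dvd_natCard hgT) h) hg
    · have := H29.ncard_sol_nonsplit hT hgT hg (hex h1 h2 h3') hL
      rw [H29.gcd_two_of_odd ho] at this
      omega

end Cfsg.Agent.S2258
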