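import Cfsg.Statements.S2259
import Cfsg.Agent.H39.SzSol

set_option autoImplicit false
open Cfsg

namespace Cfsg.Agent.S2259

/-- Let G be the Suzuki group Sz(q), q = 2^(2m+1) with 2m + 1 prime and m ≥ 1, realised inside Sp_4(F) for F the field of order q, write r = 2^(m+1) (so r² = 2q), and for x ∈ G call the solubilizer of x the set of y ∈ G such that x and y generate a solvable subgroup. Then the solubilizer of an involution has q²(4q − 3) elements; that of an element of order 4 has q²(q + 3) elements; that of a non-identity element of order dividing q − 1 has 2q²(q − 1) elements; that of a non-identity element of order dividing q + r + 1 has 4(q + r + 1) elements; and that of a non-identity element of order dividing q − r + 1 has 4(q − r + 1) elements. -/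
theorem result {F : Type*} [Field F] [Fintype F] {m : ℕ} (hm : 1 ≤ m)
    (hp : (2 * m + 1).Prime) (hF : Fintype.card F = 2 ^ (2 * m + 1)) (x : ↥(Cfsg.Lie.Sz F (2 ^ (m + 1)))) :
    (orderOf x = 2 → Nat.card {y : ↥(Cfsg.Lie.Sz F (2 ^ (m + 1))) // Group.IsSolvable ↥(Subgroup.closure ({x, y} : Set (↥(Cfsg.Lie.Sz F (2 ^ (m + 1))))))} = (2 ^ (2 * m + 1)) ^ 2 * (4 * 2 ^ (2 * m + 1) - 3)) ∧
    (orderOf x = 4 → Nat.card {y : ↥(Cfsg.Lie.Sz F (2 ^ (m + 1))) // Group.IsSolvable ↥(Subgroup.closure ({x, y} : Set (↥(Cfsg.Lie.Sz F (2 ^ (m + 1))))))} = (2 ^ (2 * m + 1)) ^ 2 * (2 ^ (2 * m + 1) + 3)) ∧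
    (x ≠ 1 → orderOf x ∣ 2 ^ (2 * m + 1) - 1 →
      Nat.card {y : ↥(Cfsg.Lie.Sz F (2 ^ (m + 1))) // Group.IsSolvable ↥(Subgroup.closure ({x, y} : Set (↥(Cfsg.Lie.Sz F (2 ^ (m + 1))))))} = 2 * (2 ^ (2 * m + 1)) ^ 2 * (2 ^ (2 * m + 1) - 1)) ∧
    (x ≠ 1 → orderOf x ∣ 2 ^ (2 * m + 1) + 2 ^ (m + 1) + 1 → Nat.card {y : ↥(Cfsg.Lie.Sz F (2 ^ (m + 1))) // Group.IsSolvable ↥(Subgroup.closure ({x, y} : Set (↥(Cfsg.Lie.Sz F (2 ^ (m + 1))))))} = 4 * (2 ^ (2 * m + 1) + 2 ^ (m + 1) + 1)) ∧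
    (x ≠ 1 → orderOf x ∣ 2 ^ (2 * m + 1) - 2 ^ (m + 1) + 1 → Nat.card {y : ↥(Cfsg.Lie.Sz F (2 ^ (m + 1))) // Group.IsSolvable ↥(Subgroup.closure ({x, y} : Set (↥(Cfsg.Lie.Sz F (2 ^ (m + 1))))))} = 4 * (2 ^ (2 * m + 1) - 2 ^ (m + 1) + 1)) := by
  have := H39.szField_of_card hm hF
  have hF' : Nat.card F = 2 ^ (2 * m + 1) := by rw [Nat.card_eq_fintype_card, hF]
  set S := H39.lieModel hF
  change (_ → (H39.Model.Sol x).ncard = _) ∧ (_ → (H39.Model.Sol x).ncard = _) ∧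
    (_ → _ → (H39.Model.Sol x).ncard = _) ∧ (_ → _ → (H39.Model.Sol x).ncard = _) ∧
    (_ → _ → (H39.Model.Sol x).ncard = _)
  refine ⟨fun h => ?_, fun h => ?_, fun h1 h => ?_, fun h1 h => ?_, fun h1 h => ?_⟩
  · obtain ⟨g, hg⟩ := S.exists_twist_mem_Z (x := x) 
      (by rw [← pow_two, ← orderOf_dvd_iff_pow_eq_one, h])
    rw [(S.twist g).ncard_Sol_of_mem_Z hg (by rintro rfl; simp at h), hF']
  · obtain ⟨g, a, b, rfl⟩ := S.exists_twist_mem_U_of_even (x := x) (by rw [h]; decide)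
    rw [(S.twist g).ncard_Sol_four _ b, hF']
    rintro rfl
    have := orderOf_dvd_of_pow_eq_one (n := 2) ((pow_two _).trans ((S.twist g).u_zero_sq b))
    rw [h] at this
    norm_num at this
  · obtain ⟨g, hg⟩ := S.exists_twist_mem_H h1 (by rwa [hF'])
    rw [(S.twist g).ncard_Sol_of_mem_H hg h1, hF']
  · have hf := S.isFree_of_dvd_big h1 hF' h
    rw [hf.ncard_Sol, hf.card_centralizer_of_dvd_big hF' h]
  · have hf := S.isFree_of_dvd_small h1 hF' h
    rw [hf.ncard_Sol, hf.card_centralizer_of_dvd_small hF' h]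

end Cfsg.Agent.S2259
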