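import Cfsg.Statements.S2268


set_option autoImplicit false
open Cfsg

namespace Cfsg.Agent.S2268

open Pointwise in
theorem exists_mul {G : Type*} [Group G] [Finite G] {p : ℕ} [Fact p.Prime]
    (P : Sylow p G) (hP : IsMulCommutative (P : Subgroup G)) (Q : Subgroup G)
    (hQ : Q ≤ (P : Subgroup G)) (g : G) (hg : g ∈ Subgroup.normalizer (Q : Set G)) :
    ∃ c ∈ Subgroup.centralizer (Q : Set G), c⁻¹ * g ∈ Subgroup.normalizer ((P : Subgroup G) : Set G) := by
  have h1 : (P : Subgroup G) ≤ Subgroup.centralizer (Q : Set G) := by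
    intro x hx y hy
    exact congrArg Subtype.val (hP.is_comm.comm (⟨y, hQ hy⟩ : (P : Subgroup G)) ⟨x, hx⟩)
  have h2 : ((g • P : Sylow p G) : Subgroup G) ≤ Subgroup.centralizer (Q : Set G) := by
    intro x hx y hy
    rw [Sylow.coe_subgroup_smul, Subgroup.mem_pointwise_smul_iff_inv_smul_mem] at hx
    have hy' : g⁻¹ * y * g ∈ Q := by
      have := (Subgroup.mem_normalizer_iff''.1 hg y).1 hy
      exact this
    have h3 := h1 hx _ hy'
    simp only [MulAut.smul_def, MulAut.conj_inv_apply] at h3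
    have h4 : g * (g⁻¹ * y * g * (g⁻¹ * x * g)) * g⁻¹ = g * (g⁻¹ * x * g * (g⁻¹ * y * g)) * g⁻¹ := by
      rw [h3]
    simpa [mul_assoc] using h4
  obtain ⟨c, hc⟩ := MulAction.exists_smul_eq (Subgroup.centralizer (Q : Set G))
    (P.subtype h1) ((g • P).subtype h2)
  rw [Sylow.smul_subtype] at hc
  have hc' : (c : G) • P = g • P := Sylow.subtype_injective hc
  refine ⟨c, c.2, ?_⟩
  rw [Sylow.coe_coe, ← Sylow.smul_eq_iff_mem_normalizer, mul_smul, ← hc', inv_smul_smul]

/-- Let G be a finite group with an abelian Sylow p-subgroup P and let Q ≤ P. Then N_G(Q) = (N_G(Q) ∩ N_G(P))·C_G(Q), so that N_G(Q)/C_G(Q) is a homomorphic image of the subgroup (N_G(Q) ∩ N_G(P))/C_G(P) of N_G(P)/C_G(P); in particular the order of N_G(Q)/C_G(Q) divides the order of N_G(P)/C_G(P). -/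
theorem result {G : Type*} [Group G] [Finite G] {p : ℕ} [Fact p.Prime]
    (P : Sylow p G) (hP : IsMulCommutative (P : Subgroup G)) (Q : Subgroup G) (hQ : Q ≤ (P : Subgroup G)) :
    Subgroup.normalizer (Q : Set G) =
      (Subgroup.normalizer (Q : Set G) ⊓ Subgroup.normalizer ((P : Subgroup G) : Set G)) ⊔ Subgroup.centralizer (Q : Set G) ∧
    ((Subgroup.centralizer (Q : Set G)).subgroupOf (Subgroup.normalizer (Q : Set G))).index ∣ ((Subgroup.centralizer ((P : Subgroup G) : Set G)).subgroupOf (Subgroup.normalizer ((P : Subgroup G) : Set G))).index := by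
  have hCN : Subgroup.centralizer (Q : Set G) ≤ Subgroup.normalizer (Q : Set G) :=
    Subgroup.centralizer_le_normalizer _
  have h1 : Subgroup.normalizer (Q : Set G) =
      (Subgroup.normalizer (Q : Set G) ⊓ Subgroup.normalizer ((P : Subgroup G) : Set G)) ⊔
        Subgroup.centralizer (Q : Set G) := by
    refine le_antisymm ?_ (sup_le inf_le_left hCN)
    intro g hg
    obtain ⟨c, hc, hcg⟩ := exists_mul P hP Q hQ g hg
    have : g = c * (c⁻¹ * g) := by simp
    rw [this]
    refine Subgroup.mul_mem _ (Subgroup.mem_sup_right hc) (Subgroup.mem_sup_left ⟨?_, hcg⟩)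
    exact Subgroup.mul_mem _ (Subgroup.inv_mem _ (hCN hc)) hg
  refine ⟨h1, ?_⟩
  set N := Subgroup.normalizer (Q : Set G) with hN
  set C := Subgroup.centralizer (Q : Set G) with hC
  set NP := Subgroup.normalizer ((P : Subgroup G) : Set G) with hNP
  set CP := Subgroup.centralizer ((P : Subgroup G) : Set G) with hCP
  change C.relIndex N ∣ CP.relIndex NP
  have hnorm : (C.subgroupOf N).Normal := inferInstance
  have h2 : C.relIndex N = C.relIndex (N ⊓ NP) := by
    have h3 := Subgroup.relIndex_sup_right ((N ⊓ NP).subgroupOf N) (C.subgroupOf N)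
    rw [← Subgroup.subgroupOf_sup inf_le_left hCN, ← h1, Subgroup.relIndex_subgroupOf le_rfl,
      Subgroup.relIndex_subgroupOf inf_le_left] at h3
    exact h3
  have h4 : CP ≤ C := Subgroup.centralizer_le hQ
  have h5 : CP ≤ N ⊓ NP := le_inf (h4.trans hCN) (Subgroup.centralizer_le_normalizer _)
  rw [h2, ← Subgroup.relIndex_mul_relIndex CP (N ⊓ NP) NP h5 inf_le_right]
  exact (Subgroup.relIndex_dvd_of_le_left _ h4).mul_right _

end Cfsg.Agent.S2268
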