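import Cfsg.Statements.S2279
import Cfsg.Agent.H28.RegSL4

set_option autoImplicit false
open Cfsg

namespace Cfsg.Agent.S2279

/-- Let F be a finite field with q elements and n ≥ 4. Then SL_n(F) is generated by two regular unipotent elements (elements u with u − 1 nilpotent and (u − 1)^(n−1) ≠ 0); if q is prime, the two can be taken conjugate in SL_n(F). -/
theorem result {F : Type*} [Field F] [Fintype F] (n : ℕ) (hn : 4 ≤ n) :
    (∃ u v : Matrix.SpecialLinearGroup (Fin n) F, (IsNilpotent ((u : Matrix (Fin n) (Fin n) F) - 1) ∧ ((u : Matrix (Fin n) (Fin n) F) - 1) ^ (n - 1) ≠ 0) ∧ (IsNilpotent ((v : Matrix (Fin n) (Fin n) F) - 1) ∧ ((v : Matrix (Fin n) (Fin n) F) - 1) ^ (n - 1) ≠ 0) ∧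
      Subgroup.closure ({u, v} : Set (Matrix.SpecialLinearGroup (Fin n) F)) = ⊤) ∧
    ((Fintype.card F).Prime → ∃ u g : Matrix.SpecialLinearGroup (Fin n) F, (IsNilpotent ((u : Matrix (Fin n) (Fin n) F) - 1) ∧ ((u : Matrix (Fin n) (Fin n) F) - 1) ^ (n - 1) ≠ 0) ∧
      Subgroup.closure ({u, g * u * g⁻¹} : Set (Matrix.SpecialLinearGroup (Fin n) F)) = ⊤) := by
  obtain ⟨m, rfl⟩ : ∃ m, n = m + 4 := ⟨n - 4, by omega⟩
  have hu := Cfsg.Agent.H32.jordanSL_regular (n := m + 4) (F := F) (by omega)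
  refine ⟨?_, fun hp => ?_⟩
  · obtain ⟨v, h1, h2⟩ := Cfsg.Agent.H28.RegL.partA (F := F) m
    exact ⟨_, v, hu, h1, h2 _ (Subgroup.subset_closure (by simp)) (Subgroup.subset_closure (by simp))⟩
  · obtain ⟨g, h2⟩ := Cfsg.Agent.H28.RegL.partB (F := F) hp m
    exact ⟨_, g, hu, h2 _ (Subgroup.subset_closure (by simp)) (Subgroup.subset_closure (by simp))⟩

end Cfsg.Agent.S2279
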