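import Cfsg.Statements.S2281
import Cfsg.Agent.H28.RegSp3

set_option autoImplicit false
open Cfsg

namespace Cfsg.Agent.S2281

/-- Let F be a finite field and n ≥ 2, excluding the case n = 2 with F of two elements (where the group is not quasisimple). Then the symplectic group Sp_2n(F) is generated by three conjugate regular unipotent elements: there are u ∈ Sp_2n(F) with u − 1 nilpotent and (u − 1)^(2n−1) ≠ 0, and g, h ∈ Sp_2n(F), such that u, g u g⁻¹ and h u h⁻¹ generate Sp_2n(F). -/
theorem result {F : Type*} [Field F] [Fintype F] (n : ℕ) (hn : 2 ≤ n) (h22 : ¬ (n = 2 ∧ Fintype.card F = 2)) :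
    ∃ u g h : Matrix.symplecticGroup (Fin n) F,
      IsNilpotent ((u : Matrix (Fin n ⊕ Fin n) (Fin n ⊕ Fin n) F) - 1) ∧
      ((u : Matrix (Fin n ⊕ Fin n) (Fin n ⊕ Fin n) F) - 1) ^ (2 * n - 1) ≠ 0 ∧
      Subgroup.closure ({u, g * u * g⁻¹, h * u * h⁻¹} : Set (Matrix.symplecticGroup (Fin n) F)) = ⊤ := by
  classical
  obtain ⟨L, rfl⟩ : ∃ L, n = L + 1 := ⟨n - 1, by omega⟩
  obtain ⟨e, f, y, hy, C⟩ := H28.Reg.exists_chain F (L := L) (by omega)
  obtain ⟨u, g, h, h1, h2, h3⟩ := C.exists_three H27.jBilin_nondegenerate hy fun hL => by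
    have h4 : 2 < Fintype.card F := by
      have := Fintype.one_lt_card (α := F)
      omega
    by_contra h5
    push Not at h5
    have : (Finset.univ : Finset F) ⊆ {0, 1} := fun a _ => by
      by_cases ha : a = 0
      · simp [ha]
      · simp [h5 a ha]
    have h6 := (Finset.card_le_card this).trans Finset.card_le_two
    rw [Finset.card_univ] at h6
    omega
  set φ := (H27.spEquiv (Fin (L + 1)) F).symm with hφ
  have h4 : Matrix.toLinAlgEquiv' ((φ u : Matrix (Fin (L + 1) ⊕ Fin (L + 1)) (Fin (L + 1) ⊕ Fin (L + 1)) F) - 1) =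
      u.1.toLinearMap - 1 := by
    rw [map_sub, map_one]
    congr 1
    exact LinearMap.ext fun v => H27.spEquiv_symm_mulVec u v
  refine ⟨φ u, φ g, φ h, ?_, fun h5 => h2 ?_, ?_⟩
  · rw [← h4] at h1
    exact (IsNilpotent.map_iff (Matrix.toLinAlgEquiv' (R := F) (n := Fin (L + 1) ⊕ Fin (L + 1))).injective).mp h1
  · rw [← h4, ← map_pow, h5, map_zero]
  · have := congrArg (Subgroup.map φ.toMonoidHom) h3
    rw [MonoidHom.map_closure, Subgroup.map_top_of_surjective _ φ.surjective] at this
    simpa [Set.image_insert_eq] using this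

end Cfsg.Agent.S2281
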