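import Cfsg.Statements.S2282
import Cfsg.Agent.H28.RegSU3
import Cfsg.Agent.H31.HermStd

set_option autoImplicit false
open Cfsg

namespace Cfsg.Agent.S2282

/-- Let F be a field with q² elements, n ≥ 3 odd with (n, q) ≠ (3, 2), and SU_n(q) the special unitary group of the standard Hermitian form Σ u_i v_i^q. Then SU_n(q) is generated by three conjugate regular unipotent elements: there are u ∈ SU_n(q) with u − 1 nilpotent and (u − 1)^(n−1) ≠ 0, and g, h ∈ SU_n(q), such that u, g u g⁻¹ and h u h⁻¹ generate SU_n(q). -/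
theorem result {F : Type*} [Field F] [Fintype F] (q : ℕ) (hF : Fintype.card F = q ^ 2) (n : ℕ) (hn : 3 ≤ n) (hodd : Odd n) (h32 : ¬ (n = 3 ∧ q = 2)) :
    ∃ u g h : ↥(Cfsg.SU n F q), (IsNilpotent (((u : Matrix.SpecialLinearGroup (Fin n) F) : Matrix (Fin n) (Fin n) F) - 1) ∧ (((u : Matrix.SpecialLinearGroup (Fin n) F) : Matrix (Fin n) (Fin n) F) - 1) ^ (n - 1) ≠ 0) ∧
      Subgroup.closure ({u, g * u * g⁻¹, h * u * h⁻¹} : Set ↥(Cfsg.SU n F q)) = ⊤ := by
  classical
  obtain ⟨L, rfl⟩ : ∃ L, n = 2 * (L + 1) + 1 := by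
    obtain ⟨k, rfl⟩ := hodd
    exact ⟨k - 1, by omega⟩
  obtain ⟨u, g, h, h1, h2, h3⟩ := H28.RegU.exists_three (H31.isHerm_hermB hF (2 * (L + 1) + 1))
    (L := L) (H31.finrank_fin _) fun hL =>
      H31.exists_fixed_ne hF (H31.frobQ_apply hF) fun hq => h32 ⟨by omega, hq⟩
  set φ := (H31.suEquiv hF (2 * (L + 1) + 1)).symm with hφ
  have h4 : Matrix.toLinAlgEquiv' (((φ u : Matrix.SpecialLinearGroup (Fin (2 * (L + 1) + 1)) F) :
      Matrix (Fin (2 * (L + 1) + 1)) (Fin (2 * (L + 1) + 1)) F) - 1) = u.1.toLinearMap - 1 := by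
    rw [map_sub, map_one]
    congr 1
    exact LinearMap.ext fun v => H31.suEquiv_symm_mulVec hF u v
  refine ⟨φ u, φ g, φ h, ⟨?_, fun h5 => h2 ?_⟩, ?_⟩
  · rw [← h4] at h1
    exact (IsNilpotent.map_iff (Matrix.toLinAlgEquiv' (R := F) (n := Fin (2 * (L + 1) + 1))).injective).mp h1
  · rw [← h4, ← map_pow, h5, map_zero]
  · have := congrArg (Subgroup.map φ.toMonoidHom) h3
    rw [MonoidHom.map_closure, Subgroup.map_top_of_surjective _ φ.surjective] at this
    simpa [Set.image_insert_eq] using this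

end Cfsg.Agent.S2282
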