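import Cfsg.Statements.S2285
import Cfsg.Agent.H78.ShortPresSmall

set_option autoImplicit false
open Cfsg

namespace Cfsg.Agent.S2285

/-- For every n ≥ 5, the symmetric group S_n and the alternating group A_n each have a presentation with 3 generators and at most 7 relations. -/
theorem result (n : ℕ) (hn : 5 ≤ n) : (∃ rels : Finset (FreeGroup (Fin 3)), rels.card ≤ 7 ∧ Nonempty (PresentedGroup (↑rels : Set (FreeGroup (Fin 3))) ≃* Equiv.Perm (Fin n))) ∧ (∃ rels : Finset (FreeGroup (Fin 3)), rels.card ≤ 7 ∧ Nonempty (PresentedGroup (↑rels : Set (FreeGroup (Fin 3))) ≃* ↥(alternatingGroup (Fin n)))) := by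
  obtain ⟨r1, g1, h1, p1⟩ := H78.two_gen_pres_perm n
  obtain ⟨r1', h1', e1, -⟩ := p1.add_gen
  obtain ⟨r2, g2, h2, e2, -⟩ := H78.three_gen_pres_alt (n := n) (by omega)
  exact ⟨⟨r1', by omega, ⟨e1⟩⟩, ⟨r2, h2, ⟨e2⟩⟩⟩

end Cfsg.Agent.S2285
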