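import Cfsg.Statements.S2286
import Cfsg.Agent.H78.SL2Short

set_option autoImplicit false
open Cfsg

namespace Cfsg.Agent.S2286

/-- For every finite field F, SL_2(F) and PSL_2(F) have presentations with 3 generators and at most 9 relations; when F has characteristic 2, PSL_2(F) has a presentation with 3 generators and at most 5 relations. -/
theorem result {F : Type*} [Field F] [Fintype F] :
    (∃ rels : Finset (FreeGroup (Fin 3)), rels.card ≤ 9 ∧ Nonempty (PresentedGroup (↑rels : Set (FreeGroup (Fin 3))) ≃* Matrix.SpecialLinearGroup (Fin 2) F)) ∧ (∃ rels : Finset (FreeGroup (Fin 3)), rels.card ≤ 9 ∧ Nonempty (PresentedGroup (↑rels : Set (FreeGroup (Fin 3))) ≃* Matrix.ProjectiveSpecialLinearGroup (Fin 2) F)) ∧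
    (CharP F 2 → ∃ rels : Finset (FreeGroup (Fin 3)), rels.card ≤ 5 ∧ Nonempty (PresentedGroup (↑rels : Set (FreeGroup (Fin 3))) ≃* Matrix.ProjectiveSpecialLinearGroup (Fin 2) F)) := by
  obtain ⟨r1, g1, h1, p1⟩ := H78.sl2_pres (F := F)
  obtain ⟨r2, g2, h2, e2, -⟩ := p1.psl
  obtain ⟨e1, -⟩ := p1
  refine ⟨⟨r1, by omega, ⟨e1⟩⟩, ⟨r2, by omega, ⟨e2⟩⟩, fun h => ?_⟩
  obtain ⟨r3, g3, h3, e3, -⟩ := H78.sl2_pres_even (F := F)
  exact ⟨r3, h3, ⟨e3.trans (QuotientGroup.quotientBot.symm.trans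
    (QuotientGroup.quotientMulEquivOfEq H78.center_sl2_char_two.symm))⟩⟩

end Cfsg.Agent.S2286
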