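import Cfsg.Statements.S2291
import Cfsg.Agent.H78.UPres

set_option autoImplicit false
open Cfsg

namespace Cfsg.Agent.S2291

/-- Let F be a field with q² elements and n ≥ 3 with (n, q) ≠ (3, 2). Then the simple group PSU_n(q) (for the standard Hermitian form) has a presentation with 2 generators and at most 80 relations. -/
theorem result {F : Type*} [Field F] [Fintype F] (q n : ℕ) (hF : Fintype.card F = q ^ 2) (hn : 3 ≤ n) (h32 : ¬ (n = 3 ∧ q = 2)) :
    ∃ rels : Finset (FreeGroup (Fin 2)), rels.card ≤ 80 ∧ Nonempty (PresentedGroup (↑rels : Set (FreeGroup (Fin 2))) ≃* Cfsg.PSU n F q) := by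
  obtain ⟨k, r, g, h1, h2⟩ : ∃ (k : ℕ) (rels : Finset (FreeGroup (Fin k)))
      (g : Fin k → SU n F q), rels.card ≤ 66 ∧ H78.IsPres rels g := by
    by_cases h : n = 3
    · subst h
      obtain ⟨r, g, h1, h2⟩ := H78.su3_pres hF (by simpa using h32)
      exact ⟨_, r, g, by omega, h2⟩
    · exact H78.su_pres hF (by omega)
  obtain ⟨r', g', h3, h4⟩ := h2.center_quotient (H78.isCyclic_center_su hF (by omega))
  obtain ⟨r'', h5, h6⟩ := h4.two_gens (H78.psu_two_gen hF hn h32)
  exact ⟨r'', by omega, h6⟩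

end Cfsg.Agent.S2291
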