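import Cfsg.Statements.S2292
import Cfsg.Agent.H78.TwoGen

set_option autoImplicit false
open Cfsg

namespace Cfsg.Agent.S2292

/-- Let F be a finite field with q elements and m ≥ 2 with (m, q) ≠ (2, 2). Then the simple group PSp_2m(F) has a presentation with 2 generators and at most 80 relations. -/
theorem result {F : Type*} [Field F] [Fintype F] (m : ℕ) (hm : 2 ≤ m) (h22 : ¬ (m = 2 ∧ Fintype.card F = 2)) :
    ∃ rels : Finset (FreeGroup (Fin 2)), rels.card ≤ 80 ∧ Nonempty (PresentedGroup (↑rels : Set (FreeGroup (Fin 2))) ≃* Cfsg.PSp m F) := by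
  obtain ⟨k, r₁, g₁, h1, h2⟩ := H78.sl_pres_all (F := F) (fun n h => H78.stUniv h) hm
  obtain ⟨r, g, h3, -, h4⟩ := H78.sp_pres hm h2
  obtain ⟨r', g', h5, h6⟩ := h4.center_quotient (H78.isCyclic_center_sp (by omega))
  obtain ⟨r'', h7, h8⟩ := h6.two_gens (H78.psp_two_gen hm fun h => by
    have := Fintype.one_lt_card (α := F)
    by_contra h'
    exact h22 ⟨h, by omega⟩)
  exact ⟨r'', by omega, h8⟩

end Cfsg.Agent.S2292
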