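import Cfsg.Statements.S2293
import Cfsg.Agent.H78.SpPres

set_option autoImplicit false
open Cfsg

namespace Cfsg.Agent.S2293

/-- For every finite field F, Sp_4(F) has a presentation with 6 generators and at most 35 relations, and PSp_4(F) one with 6 generators and at most 36 relations. -/
theorem result {F : Type*} [Field F] [Fintype F] : (∃ rels : Finset (FreeGroup (Fin 6)), rels.card ≤ 35 ∧ Nonempty (PresentedGroup (↑rels : Set (FreeGroup (Fin 6))) ≃* Matrix.symplecticGroup (Fin 2) F)) ∧ (∃ rels : Finset (FreeGroup (Fin 6)), rels.card ≤ 36 ∧ Nonempty (PresentedGroup (↑rels : Set (FreeGroup (Fin 6))) ≃* Cfsg.PSp 2 F)) := by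
  obtain ⟨r₁, g₁, h1, h2⟩ := H78.sl2_pres (F := F)
  obtain ⟨r, g, -, h3, h4⟩ := H78.sp_pres le_rfl h2
  obtain ⟨r', g', h5, h6⟩ := h4.center_quotient (H78.isCyclic_center_sp (by decide))
  have := h3 rfl
  exact ⟨⟨r, by omega, h4.nonempty⟩, r', by omega, h6.nonempty⟩

end Cfsg.Agent.S2293
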