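import Cfsg.Statements.S2294
import Cfsg.Agent.H78.SUShort

set_option autoImplicit false
open Cfsg

namespace Cfsg.Agent.S2294

/-- Let F be a field with q² elements and n ≥ 4, and SU_n(q), PSU_n(q) the special unitary group of the standard Hermitian form and its central quotient. Then SU_n(q) has a presentation with 6 generators and at most 39 relations and PSU_n(q) one with 6 generators and at most 40 relations; moreover SU_4(q) and SU_5(q) have presentations with 6 generators and at most 35 relations, and PSU_4(q) one with 6 generators and at most 36 relations. -/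
theorem result {F : Type*} [Field F] [Fintype F] (q : ℕ) (hF : Fintype.card F = q ^ 2) (n : ℕ) (hn : 4 ≤ n) :
    (∃ rels : Finset (FreeGroup (Fin 6)), rels.card ≤ 39 ∧ Nonempty (PresentedGroup (↑rels : Set (FreeGroup (Fin 6))) ≃* ↥(Cfsg.SU n F q))) ∧ (∃ rels : Finset (FreeGroup (Fin 6)), rels.card ≤ 40 ∧ Nonempty (PresentedGroup (↑rels : Set (FreeGroup (Fin 6))) ≃* Cfsg.PSU n F q)) ∧
    (∃ rels : Finset (FreeGroup (Fin 6)), rels.card ≤ 35 ∧ Nonempty (PresentedGroup (↑rels : Set (FreeGroup (Fin 6))) ≃* ↥(Cfsg.SU 4 F q))) ∧ (∃ rels : Finset (FreeGroup (Fin 6)), rels.card ≤ 35 ∧ Nonempty (PresentedGroup (↑rels : Set (FreeGroup (Fin 6))) ≃* ↥(Cfsg.SU 5 F q))) ∧ (∃ rels : Finset (FreeGroup (Fin 6)), rels.card ≤ 36 ∧ Nonempty (PresentedGroup (↑rels : Set (FreeGroup (Fin 6))) ≃* Cfsg.PSU 4 F q)) := by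
  have key : ∀ n, 4 ≤ n → ∃ (rels : Finset (FreeGroup (Fin 6))) (g : Fin 6 → Cfsg.PSU n F q),
      rels.card ≤ 39 ∧ (n ≤ 5 → rels.card ≤ 36) ∧ H78.IsPres rels g := fun n hn => by
    obtain ⟨r, g, h1, h2, h3⟩ := H78.su_short hF hn
    obtain ⟨r', g', h4, h5⟩ := h3.center_quotient (H78.isCyclic_center_su hF (by omega))
    exact ⟨r', g', by omega, by omega, h5⟩
  obtain ⟨r, g, h1, -, h2⟩ := H78.su_short hF hn
  obtain ⟨r', g', h3, -, h4⟩ := key n hn
  obtain ⟨r₄, g₄, -, h5, h6⟩ := H78.su_short hF (n := 4) le_rfl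
  obtain ⟨r₅, g₅, -, h7, h8⟩ := H78.su_short hF (n := 5) (by omega)
  obtain ⟨r₆, g₆, -, h9, h10⟩ := key 4 le_rfl
  exact ⟨⟨r, by omega, h2.nonempty⟩, ⟨r', by omega, h4.nonempty⟩, ⟨r₄, by omega, h6.nonempty⟩,
    ⟨r₅, by omega, h8.nonempty⟩, r₆, by omega, h10.nonempty⟩

end Cfsg.Agent.S2294
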