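import Cfsg.Statements.S2295
import Cfsg.Agent.H78.DPres

set_option autoImplicit false
open Cfsg

namespace Cfsg.Agent.S2295

open H78 H30 H26.PForm in
theorem aux {F : Type*} [Field F] [Fintype F] {n : ℕ} (hn : 4 ≤ n) :
    ∃ (r : Finset (FreeGroup (Fin 8))) (g : Fin 8 → Omega F (quadFormPlus n F))
      (r' : Finset (FreeGroup (Fin 8))) (g' : Fin 8 → POmega F (quadFormPlus n F)),
      r.card ≤ 31 ∧ (n ≤ 5 → r.card ≤ 29) ∧ r'.card ≤ r.card + 1 ∧ IsPres r g ∧ IsPres r' g' := by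
  classical
  have hV : Module.finrank F (Fin n ⊕ Fin n → F) = 2 * n := by simp; omega
  have hQ := qPlus_nondegenerate (F := F) n
  have hexc : ¬ IsExc (qPlus F n) := not_isExc_of_finrank (by omega)
  have h3 : 3 ≤ Fintype.card (Fin n ⊕ Fin n) := by simp; omega
  have hF : (H75.framePlus F n).DFr := ⟨fun i => by
      change QuadraticMap.polar (qPlus F n) _ _ = 1
      simp [H75.framePlus, polar_qPlus, Pi.single_apply], Frame.aniso_of_finrank _ (by omega), rfl,
    fun _ => rfl, H75.quad_hd _ (not_not.2 (Frame.V0_eq_bot _ hV))⟩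
  obtain ⟨r₁, g₁, h1, h2, h4⟩ := sln_pres hn (stUniv (F := F) (by omega))
  obtain ⟨r₂, g₂, h5, h6⟩ := hF.pres hn h4
  obtain ⟨r, g, h7, h8⟩ := (h6.map (((MonoidHom.ofInjective H75.eichIncl_injective).trans
    (MulEquiv.subgroupCongr (H75.range_eichIncl hQ))).symm.trans
    (omegaEquivEich hQ hexc h3).symm)).add_gens 3
  have hc := card_center_Omega hQ hexc h3
  obtain ⟨r', g', h9, h10⟩ := h8.center_quotient (by
    split_ifs at hc
    · have : Fact (Nat.Prime 2) := ⟨Nat.prime_two⟩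
      exact isCyclic_of_prime_card hc
    · have := (Nat.card_eq_one_iff_unique.1 hc).1
      infer_instance)
  exact ⟨r, g, r', g', by split_ifs at h5 <;> omega, fun h => by split_ifs at h5 <;> omega, h9, h8,
    h10⟩


/-- Let F be a finite field and n ≥ 4, and let Ω⁺_2n(F) be the commutator subgroup of the orthogonal group of the hyperbolic quadratic form Σ x_i y_i, with PΩ⁺_2n(F) its central quotient. Then Ω⁺_2n(F) has a presentation with 8 generators and at most 31 relations (at most 29 if n = 4 or 5), and PΩ⁺_2n(F) one with 8 generators and at most 32 relations (at most 30 if n = 4 or 5). -/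
theorem result {F : Type*} [Field F] [Fintype F] (n : ℕ) (hn : 4 ≤ n) :
    (∃ rels : Finset (FreeGroup (Fin 8)), rels.card ≤ 31 ∧ Nonempty (PresentedGroup (↑rels : Set (FreeGroup (Fin 8))) ≃* ↥(Cfsg.Omega F (Cfsg.quadFormPlus n F)))) ∧ (∃ rels : Finset (FreeGroup (Fin 8)), rels.card ≤ 32 ∧ Nonempty (PresentedGroup (↑rels : Set (FreeGroup (Fin 8))) ≃* Cfsg.POmega F (Cfsg.quadFormPlus n F))) ∧
    (n ≤ 5 → (∃ rels : Finset (FreeGroup (Fin 8)), rels.card ≤ 29 ∧ Nonempty (PresentedGroup (↑rels : Set (FreeGroup (Fin 8))) ≃* ↥(Cfsg.Omega F (Cfsg.quadFormPlus n F)))) ∧ (∃ rels : Finset (FreeGroup (Fin 8)), rels.card ≤ 30 ∧ Nonempty (PresentedGroup (↑rels : Set (FreeGroup (Fin 8))) ≃* Cfsg.POmega F (Cfsg.quadFormPlus n F)))) := by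
  obtain ⟨r, g, r', g', h1, h2, h3, ⟨e, -⟩, e', -⟩ := aux (F := F) hn
  exact ⟨⟨r, h1, ⟨e⟩⟩, ⟨r', by omega, ⟨e'⟩⟩, fun h => ⟨⟨r, h2 h, ⟨e⟩⟩, r', by have := h2 h; omega, ⟨e'⟩⟩⟩

end Cfsg.Agent.S2295
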