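import Cfsg.Statements.S2296
import Cfsg.Agent.H78.SpPres

set_option autoImplicit false
open Cfsg

namespace Cfsg.Agent.S2296

/-- Let F be a finite field. Sp_2n(F) has a presentation with 10 generators and at most 58 relations for n ≥ 4, with 9 generators and at most 57 relations for n = 4 or 5, and with 8 generators and at most 52 relations for n = 3; in each case PSp_2n(F) has a presentation with the same number of generators and at most one more relation. -/
theorem result {F : Type*} [Field F] [Fintype F] (n : ℕ) :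
    (4 ≤ n → (∃ rels : Finset (FreeGroup (Fin 10)), rels.card ≤ 58 ∧ Nonempty (PresentedGroup (↑rels : Set (FreeGroup (Fin 10))) ≃* Matrix.symplecticGroup (Fin n) F)) ∧ (∃ rels : Finset (FreeGroup (Fin 10)), rels.card ≤ 59 ∧ Nonempty (PresentedGroup (↑rels : Set (FreeGroup (Fin 10))) ≃* Cfsg.PSp n F))) ∧
    ((n = 4 ∨ n = 5) → (∃ rels : Finset (FreeGroup (Fin 9)), rels.card ≤ 57 ∧ Nonempty (PresentedGroup (↑rels : Set (FreeGroup (Fin 9))) ≃* Matrix.symplecticGroup (Fin n) F)) ∧ (∃ rels : Finset (FreeGroup (Fin 9)), rels.card ≤ 58 ∧ Nonempty (PresentedGroup (↑rels : Set (FreeGroup (Fin 9))) ≃* Cfsg.PSp n F))) ∧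
    (n = 3 → (∃ rels : Finset (FreeGroup (Fin 8)), rels.card ≤ 52 ∧ Nonempty (PresentedGroup (↑rels : Set (FreeGroup (Fin 8))) ≃* Matrix.symplecticGroup (Fin n) F)) ∧ (∃ rels : Finset (FreeGroup (Fin 8)), rels.card ≤ 53 ∧ Nonempty (PresentedGroup (↑rels : Set (FreeGroup (Fin 8))) ≃* Cfsg.PSp n F))) := by
  have key : ∀ (k l N M : ℕ) (r₁ : Finset (FreeGroup (Fin k)))
      (g₁ : Fin k → Matrix.SpecialLinearGroup (Fin n) F), H78.IsPres r₁ g₁ → 2 ≤ n →
      r₁.card + 30 + l ≤ N → N + 1 ≤ M →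
      (∃ rels : Finset (FreeGroup (Fin (k + 3 + l))), rels.card ≤ N ∧ Nonempty (PresentedGroup (↑rels : Set (FreeGroup (Fin (k + 3 + l)))) ≃* Matrix.symplecticGroup (Fin n) F)) ∧ (∃ rels : Finset (FreeGroup (Fin (k + 3 + l))), rels.card ≤ M ∧ Nonempty (PresentedGroup (↑rels : Set (FreeGroup (Fin (k + 3 + l)))) ≃* Cfsg.PSp n F)) := by
    intro k l N M r₁ g₁ h hn h1 h2
    obtain ⟨r, g, h3, -, h4⟩ := H78.sp_pres hn h
    obtain ⟨r', g', h5, h6⟩ := h4.add_gens l
    obtain ⟨r'', g'', h7, h8⟩ := h6.center_quotient (H78.isCyclic_center_sp (by omega))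
    exact ⟨⟨r', by omega, h6.nonempty⟩, r'', by omega, h8.nonempty⟩
  refine ⟨fun hn => ?_, fun hn => ?_, fun hn => ?_⟩
  · obtain ⟨r, g, h1, -, h2⟩ := H78.sln_pres hn (H78.stUniv (F := F) (by omega))
    exact key 4 3 58 59 r g h2 (by omega) (by omega) le_rfl
  · obtain ⟨r, g, h1, -, h2⟩ := H78.sln_pres (n := n) (by omega) (H78.stUniv (F := F) (by omega))
    exact key 4 2 57 58 r g h2 (by omega) (by omega) le_rfl
  · subst hn
    obtain ⟨r, g, h1, h2⟩ := H78.sl3_pres (H78.stUniv (F := F) (n := 3) le_rfl)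
    exact key 4 1 52 53 r g h2 (by omega) (by omega) le_rfl

end Cfsg.Agent.S2296
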