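import Cfsg.Statements.S2332
import Cfsg.Agent.H22.SLDegB
import Cfsg.Agent.S2579
import Cfsg.Agent.H11.PermChar

set_option autoImplicit false
open Cfsg

namespace Cfsg.Agent.S2332


open Matrix Module Cfsg.Agent.H32 Cfsg.Agent.H22.SLDeg Finset
open scoped LinearAlgebra.Projectivization

theorem isTransvection_ts {F : Type*} [Field F] {n : ℕ} {x φ : Fin n → F} (hx : x ≠ 0)
    (hφ : φ ≠ 0) (h : φ ⬝ᵥ x = 0) : IsTransvection (ts x φ : Matrix (Fin n) (Fin n) F) := by
  rw [IsTransvection, coe_ts h, add_sub_cancel_left, vecMulVec_mul_vecMulVec, h, zero_smul,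
    vecMulVec_zero]
  refine ⟨le_antisymm (rank_vecMulVec_le _ _) (Nat.pos_of_ne_zero fun h0 => ?_), rfl⟩
  rw [Matrix.rank, Submodule.finrank_eq_zero, LinearMap.range_eq_bot] at h0
  have : vecMulVec x φ = 0 := toLin'.injective (by rw [map_zero]; exact h0)
  exact (vecMulVec_eq_zero.1 this).elim hx hφ

theorem arith {q Q k j : ℕ} (hq : 2 ≤ q) (hQ : 2 * q + 2 ≤ q * Q) (hj : j = 0 ∨ q ≤ j)
    (h : (k : ℤ) * (q - 1) * (q * (q * Q + 1) - j) = q * (q ^ 2 * Q - 1) * (q * Q - 1)) :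
    q ^ 2 * Q - q ≤ (q - 1) * k := by
  have hq' : (2 : ℤ) ≤ q := by exact_mod_cast hq
  have hQ' : (2 : ℤ) * q + 2 ≤ q * Q := by exact_mod_cast hQ
  rcases hj with rfl | hj
  · exfalso
    have h1 : (q : ℤ) * (2 * (q + 1)) =
        q * ((q * Q + 1) * (k * (q - 1) - q * (q * Q + 1) + 3 * q + 1)) := by
      push_cast at h
      linear_combination -h
    have := Int.le_of_dvd (by omega) ⟨_, mul_left_cancel₀ (by omega) h1⟩
    omega
  · have hj' : (q : ℤ) ≤ j := by exact_mod_cast hj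
    have h1 : (q : ℤ) ^ 2 * Q - q ≤ (q - 1) * k := by
      by_contra h2
      have h3 : (q - 1) * (k : ℤ) ≤ q ^ 2 * Q - q - 1 := by omega
      have h4 : (0 : ℤ) ≤ (q - 1) * k := mul_nonneg (by omega) (by omega)
      have h5 : (0 : ℤ) ≤ q ^ 2 * Q := by positivity
      nlinarith [mul_le_mul_of_nonneg_right h3 h5, mul_nonneg h4 (sub_nonneg.2 hj')]
    have h2 : q ≤ q ^ 2 * Q := by nlinarith
    zify [h2, (by omega : 1 ≤ q)]
    exact h1

theorem lower {F : Type*} [Field F] [Fintype F] [DecidableEq F] {n : ℕ} (hn : 3 ≤ n)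
    (h2 : Fintype.card F = 2 → n ≠ 3)
    (h3 : n = 3 → ¬ Fintype.card F - 1 ∣ 3) (h4 : n = 4 → ¬ Fintype.card F - 1 ∣ 2) (k : ℕ)
    (ρ : Representation ℂ (SpecialLinearGroup (Fin n) F) (Fin k → ℂ)) [ρ.IsIrreducible]
    (hk : 2 ≤ k) : Fintype.card F ^ n - Fintype.card F ≤ (Fintype.card F - 1) * k := by
  classical
  have hχ := H11.isIrrCharacter_character ρ
  have hχ1 : ρ.character 1 = k := by rw [ρ.char_one, finrank_fin_fun]
  obtain ⟨ψ, hψ⟩ := AddChar.exists_apply_ne_zero.2 (one_ne_zero (α := F))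
  let i0 : Fin n := ⟨0, by omega⟩
  let i1 : Fin n := ⟨1, by omega⟩
  have h01 : i0 ≠ i1 := by simp [i0, i1]
  let u : Fin n → F := Pi.single i0 1
  let v : Fin n → F := Pi.single i1 1
  have a1 : u ⬝ᵥ u = 1 := by simp [u]
  have a2 : u ⬝ᵥ v = 0 := by simp [u, v, h01]
  have b1 : v ⬝ᵥ u = 0 := by simp [u, v, h01.symm]
  have b2 : v ⬝ᵥ v = 1 := by simp [v]
  have hu : u ≠ 0 := fun h => by rw [h] at a1; simp at a1
  have hv0 : v ≠ 0 := fun h => by rw [h] at b2; simp at b2
  have hv : v ∉ Submodule.span F {u} := fun h => by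
    obtain ⟨a, h⟩ := Submodule.mem_span_singleton.1 h
    rw [← h, dotProduct_smul, h, b1] at b2
    simp at b2
  obtain ⟨τ, hτ⟩ : ∃ τ, ∀ x φ : Fin n → F, x ≠ 0 → φ ≠ 0 → φ ⬝ᵥ x = 0 →
      ρ.character (ts x φ) = τ :=
    ⟨_, fun x φ hx hφ h => H11.classFun_of_isConj (H11.isClassFunction_of_irr hχ)
      (S2579.result hn _ _ (isTransvection_ts hx hφ h) (isTransvection_ts hu hv0 b1))⟩
  obtain ⟨q, hq⟩ : ∃ q, q = Fintype.card F := ⟨_, rfl⟩
  obtain ⟨Q, hQ⟩ : ∃ Q, Q = q ^ (n - 2) := ⟨_, rfl⟩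
  have q2 : 2 ≤ q := hq ▸ Fintype.one_lt_card
  have e1 : q ^ (n - 1) = q * Q := by rw [hQ, ← pow_succ']; congr 1; omega
  have e2 : q ^ n = q ^ 2 * Q := by rw [hQ, ← pow_add]; congr 1; omega
  have Q1 : q ≤ Q := hQ ▸ Nat.le_self_pow (by omega) q
  have q0 : (q : ℂ) ≠ 0 := Nat.cast_ne_zero.2 (by omega)
  have Q0 : (Q : ℂ) ≠ 0 := Nat.cast_ne_zero.2 (by omega)
  have hE : ∀ x l : Fin n → F, x ≠ 0 → LinearMap.trace ℂ _ (E ψ ρ x l) =
      ((q : ℂ) * Q)⁻¹ * (k - τ) + if l ∈ Submodule.span F {x} then τ else 0 := by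
    intro x l hx
    rw [trace_E hψ (fun φ => hτ x φ hx), card_an hx, ← hq, e1, hχ1, Nat.cast_mul]
  obtain ⟨m, hm⟩ := exists_nat_trace (idem_E (ρ := ρ) hψ u v)
  obtain ⟨w, hw⟩ := exists_nat_trace (idem_E (ρ := ρ) hψ u 0)
  rw [hE _ _ hu, if_neg hv, add_zero] at hm
  simp only [hm] at hE
  rw [hE _ _ hu, if_pos (zero_mem _)] at hw
  have hkm : (k : ℂ) = τ + q * Q * m := by rw [← hm]; field_simp; ring
  rw [← hq, e2]
  rcases Nat.lt_trichotomy m 1 with h | rfl | h
  · exfalso
    obtain rfl : m = 0 := by omega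
    have : H11.charKer ρ.character = ⊤ := by
      refine H26.sl_eq_top_of_transvection_mem _ fun i j hij c => ?_
      rw [← ts_single hij, H11.mem_charKer_irr_iff hχ]
      rcases eq_or_ne c 0 with rfl | hc
      · simp
      · rw [hτ _ _ (by simpa using hc) (by simp) (by simp [hij.symm]), hχ1, hkm]
        simp
    have h1 := congrFun (H11.irr_eq_one_of_charKer_eq_top hχ this) 1
    rw [hχ1] at h1
    have : k = 1 := by exact_mod_cast h1
    omega
  swap
  · have h1 : k + m = w + q * Q * m := by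
      have : (k : ℂ) + m = w + q * Q * m := by rw [hkm, ← hw]; ring
      exact_mod_cast this
    have h2 : 1 ≤ q * Q := Nat.mul_pos (by omega) (by omega)
    have h5 : q ≤ q ^ 2 * Q := by nlinarith
    zify [h5, (by omega : 1 ≤ q)] at h1 h2 q2 h ⊢
    have h6 : 2 * ((q : ℤ) * Q - 1) ≤ k := by nlinarith
    nlinarith
  obtain ⟨j, hj, hgap⟩ := gap (ψ := ψ) (ρ := ρ) a1 a2 b1 b2 (by omega)
  have h0 : (0 : Fin n → F) ∈ an2 u v := mem_an2.2 ⟨zero_dotProduct _, zero_dotProduct _⟩
  rw [← add_sum_erase _ _ h0, sum_congr rfl (g := fun _ => τ + 1 - Q), sum_const,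
    card_erase_of_mem h0, card_an2 a1 a2 (by omega) hv0, ts_zero_right, map_one, one_mul,
    hE _ _ hu, if_pos (zero_mem _), ← Nat.cast_pow (Fintype.card F) (n - 2), ← hq, ← hQ,
    nsmul_eq_mul, Nat.cast_sub (by omega)] at hgap
  swap
  · intro χ hχ
    have := mem_an2.1 (mem_of_mem_erase hχ)
    rw [trace_ts_mul_E hψ hn h3 h4 hu (fun l hl => by rw [hE _ _ hu, if_neg hl]; simp) hv
      (ne_of_mem_erase hχ) this.1 this.2, hτ _ _ hv0 (ne_of_mem_erase hχ) this.2, hQ, hq,
      Nat.cast_pow]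
  obtain ⟨c, hc⟩ := H11.exists_eq_smul_id_of_commute ρ (∑ z ∈ univ.erase 0, E ψ ρ z 0)
    fun g => by
      rw [sum_mul, mul_sum]
      symm
      refine sum_equiv (MulAction.toPerm g) (fun z => by simp [smul_eq_zero_iff_eq g]) fun z _ => ?_
      rw [conj_E, mulVec_zero]
      rfl
  have c1 := congrArg (LinearMap.trace ℂ _) hc
  have c2 := congrArg (fun T => LinearMap.trace ℂ _ (T * E ψ ρ u 0)) hc
  have cardV : (univ.erase (0 : Fin n → F)).card = q ^ 2 * Q - 1 := by
    rw [card_erase_of_mem (mem_univ _), card_univ, Fintype.card_fun, Fintype.card_fin, ← hq, e2]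
  have h5 : 1 ≤ q ^ 2 * Q := Nat.mul_pos (by positivity) (by omega)
  rw [map_sum, sum_congr rfl (g := fun _ => (w : ℂ)) fun z hz => by
    rw [hE _ _ (ne_of_mem_erase hz), if_pos (zero_mem _), hw], sum_const, cardV, map_smul,
    LinearMap.trace_id, finrank_fin_fun, nsmul_eq_mul, Nat.cast_sub h5] at c1
  set σ := LinearMap.trace ℂ _ (E ψ ρ v 0 * E ψ ρ u 0) with hσ
  have hz : ∀ z ∈ univ.erase (0 : Fin n → F), LinearMap.trace ℂ _ (E ψ ρ z 0 * E ψ ρ u 0) =
      σ + if z ∈ Submodule.span F {u} then w - σ else 0 := by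
    intro z hz
    split_ifs with h
    · obtain ⟨a, rfl⟩ := Submodule.mem_span_singleton.1 h
      have ha : a ≠ 0 := by rintro rfl; simp at hz
      have := E_smul (ψ := ψ) (ρ := ρ) ha u 0
      rw [smul_zero] at this
      rw [this, (idem_E hψ u 0).eq, hE _ _ hu, if_pos (zero_mem _), hw, add_sub_cancel]
    · obtain ⟨g, g1, g2⟩ := exists_sl_fix_map (by simpa using hn) hu hv h
      have t1 := conj_E (ψ := ψ) (ρ := ρ) g u 0
      have t2 := conj_E (ψ := ψ) (ρ := ρ) g v 0
      rw [mulVec_zero] at t1 t2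
      rw [g1] at t1
      rw [g2] at t2
      have t3 : E ψ ρ z 0 * E ψ ρ u 0 = ρ g * (E ψ ρ v 0 * E ψ ρ u 0) * ρ g⁻¹ := by
        rw [← mul_assoc, t2, mul_assoc _ (ρ g), t1, mul_assoc, mul_assoc, ← map_mul,
          mul_inv_cancel, map_one, mul_one]
      rw [add_zero, t3, LinearMap.trace_mul_comm, ← mul_assoc, ← map_mul, inv_mul_cancel,
        map_one, one_mul]
  have cardU : ((univ.erase (0 : Fin n → F)).filter fun z => z ∈ Submodule.span F {u}).card =
      q - 1 := by
    rw [filter_erase, card_erase_of_mem (by simp), hq, ← card_span_singleton hu,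
      ← Fintype.card_subtype, Fintype.card_eq_nat_card]
  simp only [sum_mul, map_sum] at c2
  rw [sum_congr rfl hz, sum_add_distrib, ← sum_filter, sum_const, sum_const, cardV, cardU,
    smul_mul_assoc, map_smul, ← End.one_eq_id, one_mul, hE _ _ hu, if_pos (zero_mem _), hw,
    nsmul_eq_mul, nsmul_eq_mul, Nat.cast_sub h5, Nat.cast_sub (by omega)] at c2
  refine arith q2 ?_ (hq ▸ hj) ?_
  · rcases eq_or_ne q 2 with h | h
    · have h6 := h2 (hq ▸ h)
      have : q ^ 2 ≤ Q := hQ ▸ Nat.pow_le_pow_right (by omega) (by omega)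
      nlinarith
    · have : 3 ≤ q := by omega
      nlinarith
  · have h6 : (q : ℂ) * Q - 1 ≠ 0 := by
      have : 1 < q * Q := by nlinarith
      rw [sub_ne_zero]
      exact_mod_cast this.ne'
    have h7 : (k : ℂ) * (q - 1) * (q * (q * Q + 1) - j) = q * (q ^ 2 * Q - 1) * (q * Q - 1) := by
      refine mul_left_cancel₀ (mul_ne_zero q0 h6) ?_
      have hw' : (w : ℂ) = k - (q * Q - 1) := by rw [← hw, hkm]; push_cast; ring
      have hτ' : τ = k - q * Q := by rw [hkm]; push_cast; ring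
      have hg : (q : ℂ) ^ 2 * (w - (Q - 1) - σ) = (q - 1) * j := by
        rw [← hgap, hw', hτ']
        congr 2
        field_simp
        push_cast
        ring
      simp only [smul_eq_mul] at c1 c2
      push_cast at c1 c2
      rw [hw'] at c1 c2 hg
      linear_combination (-(q : ℂ) ^ 2 * (k - (q * Q - 1))) * c1 + (q : ℂ) ^ 2 * k * c2 +
        k * (q ^ 2 * Q - q) * hg
    exact_mod_cast h7

/-- Smallest degree of a non-linear irreducible complex representation of SL_n over a finite field with q elements, for n ≥ 3 and (n, q) not one of (3, 2), (3, 4), (4, 2), (4, 3): every irreducible complex representation of SL_n(F) of degree at least 2 has degree at least (q^n − q)/(q − 1), and there is an irreducible complex representation of exactly that degree. -/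
theorem result {F : Type*} [Field F] [Fintype F] [DecidableEq F] (n : ℕ) (hn : 3 ≤ n)
    (hex : (n, Fintype.card F) ≠ (3, 2) ∧ (n, Fintype.card F) ≠ (3, 4) ∧ (n, Fintype.card F) ≠ (4, 2) ∧ (n, Fintype.card F) ≠ (4, 3)) :
    (∀ (k : ℕ) (ρ : Representation ℂ (Matrix.SpecialLinearGroup (Fin n) F) (Fin k → ℂ)), ρ.IsIrreducible → 2 ≤ k → (Fintype.card F ^ n - Fintype.card F) / (Fintype.card F - 1) ≤ k) ∧
    (∃ ρ : Representation ℂ (Matrix.SpecialLinearGroup (Fin n) F) (Fin ((Fintype.card F ^ n - Fintype.card F) / (Fintype.card F - 1)) → ℂ), ρ.IsIrreducible) := by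
  obtain ⟨x1, x2, x3, x4⟩ := hex
  have q2 : 2 ≤ Fintype.card F := Fintype.one_lt_card
  refine ⟨fun k ρ hρ hk => Nat.div_le_of_le_mul (lower hn ?_ ?_ ?_ k ρ hk), ?_⟩
  · rintro h rfl
    exact x1 (by rw [h])
  · rintro rfl h
    have := Nat.le_of_dvd (by norm_num) h
    have h1 : Fintype.card F ≤ 4 := by omega
    interval_cases Fintype.card F <;> simp_all
  · rintro rfl h
    have := Nat.le_of_dvd (by norm_num) h
    have h1 : Fintype.card F ≤ 3 := by omega
    interval_cases Fintype.card F <;> simp_all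
  · have hc : Nat.card (ℙ F (Fin n → F)) =
        (Fintype.card F ^ n - Fintype.card F) / (Fintype.card F - 1) + 1 := by
      have h1 : Fintype.card F ≤ Fintype.card F ^ n := Nat.le_self_pow (by omega) _
      rw [Projectivization.card'', Nat.card_fun, Nat.card_eq_fintype_card,
        Nat.card_eq_fintype_card, Fintype.card_fin, Nat.div_eq_sub_div (by omega) (by omega)]
      congr 2
      omega
    have h2 : 0 < (Fintype.card F ^ n - Fintype.card F) / (Fintype.card F - 1) := by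
      have : Fintype.card F ^ 2 ≤ Fintype.card F ^ n := Nat.pow_le_pow_right (by omega) (by omega)
      refine Nat.div_pos ?_ (by omega)
      have : 2 * Fintype.card F ≤ Fintype.card F ^ 2 := by nlinarith
      omega
    have : Nontrivial (ℙ F (Fin n → F)) := Finite.one_lt_card_iff_nontrivial.1 (by omega)
    have : MulAction.IsPretransitive (SpecialLinearGroup (Fin n) F) (ℙ F (Fin n → F)) :=
      MulAction.isPretransitive_of_is_two_pretransitive
    obtain ⟨k, ρ, hρ, h⟩ := (H11.isIrrCharacter_permChar_sub_one_iff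
      (G := SpecialLinearGroup (Fin n) F) (ℙ F (Fin n → F))).2 inferInstance
    have h3 := congrFun h 1
    rw [ρ.char_one, finrank_fin_fun, Pi.sub_apply, H11.permChar_one, hc, Nat.cast_add,
      Nat.cast_one, add_sub_cancel_right, Nat.cast_inj] at h3
    subst h3
    exact ⟨ρ, hρ⟩

end Cfsg.Agent.S2332
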