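import Cfsg.Statements.S2333
import Cfsg.Agent.H75.Siegel

set_option autoImplicit false
open Cfsg

namespace Cfsg.Agent.S2333

/-- For a finite field F of even order q and n ≥ 2 with (n, q) ≠ (2, 2), every irreducible complex representation of the symplectic group Sp_{2n}(F) of degree at least 2 has degree at least (q^n − 1)(q^n − q)/(2(q + 1)). -/
theorem result {F : Type*} [Field F] [Fintype F] [DecidableEq F] (n : ℕ) (hn : 2 ≤ n) (heven : Even (Fintype.card F)) (hex : (n, Fintype.card F) ≠ (2, 2)) :
    (∀ (k : ℕ) (ρ : Representation ℂ (Matrix.symplecticGroup (Fin n) F) (Fin k → ℂ)), ρ.IsIrreducible → 2 ≤ k → (Fintype.card F ^ n - 1) * (Fintype.card F ^ n - Fintype.card F) / (2 * (Fintype.card F + 1)) ≤ k) := by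
  intro k ρ hρ hk
  have : Nontrivial (Fin n) := Fin.nontrivial_iff_two_le.mpr hn
  have h2 : (2 : F) = 0 := H27.two_eq_zero_iff_even_card.mpr heven
  have hq1 : 1 < Fintype.card F := Fintype.one_lt_card
  have hc : commutator (Matrix.symplecticGroup (Fin n) F) = ⊤ := by
    apply H27.commutator_sp_eq_top
    by_cases h3 : 3 ≤ n
    · exact Or.inl h3
    · refine Or.inr (Or.inl ⟨by omega, ?_⟩)
      by_contra h4
      exact hex (Prod.ext (by simp; omega) (by simp; omega))
  have h := H75.siegel_even_bound h2 _ (H75.sp_weights_complex ρ hρ (by simpa using hk) hc)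
  rw [Fintype.card_fin, Module.finrank_fin_fun] at h
  exact Nat.div_le_of_le_mul h

end Cfsg.Agent.S2333
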