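import Cfsg.Statements.S2341
import Cfsg.Agent.H23.MD2E6

set_option autoImplicit false
open Cfsg

namespace Cfsg.Agent.S2341

/-- For the twisted group ²E₆(q), realised over the field with q² elements (q a prime power), every irreducible complex representation of degree at least 2 has degree at least q(q⁶ − q³ + 1)(q⁴ + 1). -/
theorem result {K : Type*} [Field K] [Fintype K] (q : ℕ) (hq : IsPrimePow q) (hK : Fintype.card K = q ^ 2) :
    (∀ (k : ℕ) (ρ : Representation ℂ (Cfsg.Lie.twistedE6 K q) (Fin k → ℂ)), ρ.IsIrreducible → 2 ≤ k → q * (q ^ 6 - q ^ 3 + 1) * (q ^ 4 + 1) ≤ k) := by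
  exact fun k ρ hρ hk => H23.MD.min_2E6 hq hK ρ hρ hk

end Cfsg.Agent.S2341
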