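import Cfsg.Statements.S2345
import Cfsg.Agent.H33.MinRep9

set_option autoImplicit false
open Cfsg

namespace Cfsg.Agent.S2345

/-- For a finite field F with q > 3 elements and n ≥ 4, every irreducible complex representation of degree at least 2 of Ω⁺_{2n}(F) (the commutator subgroup of the isometry group of the hyperbolic quadratic form x₁y₁ + ⋯ + x_ny_n) has degree at least (q^n − 1)(q^{n−1} + q)/(q² − 1). -/
theorem result {F : Type*} [Field F] [Fintype F] (n : ℕ) (hn : 4 ≤ n) (h3 : 3 < Fintype.card F) :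
    (∀ (k : ℕ) (ρ : Representation ℂ (Cfsg.Omega F (Cfsg.quadFormPlus n F)) (Fin k → ℂ)), ρ.IsIrreducible → 2 ≤ k → (Fintype.card F ^ n - 1) * (Fintype.card F ^ (n - 1) + Fintype.card F) / (Fintype.card F ^ 2 - 1) ≤ k) := by
  classical
  have nd := H30.qPlus_nondegenerate (F := F) n
  refine H33.MR.le_of_UA nd (by simp; omega) (fun E _ _ _ _ _ h =>
    H33.MR.min_plus nd hn (by simp; omega) (H79.isPlus_plus _) h3 h) ?_
  rw [Nat.cast_mul, Nat.cast_sub (Nat.one_le_pow _ _ (by omega))]
  push_cast
  rfl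

end Cfsg.Agent.S2345
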