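import Cfsg.Statements.S2346
import Cfsg.Agent.H33.MinRep9

set_option autoImplicit false
open Cfsg

namespace Cfsg.Agent.S2346

/-- For a finite field F with q elements, n ≥ 4, and a, b ∈ F with z₁² + a z₁z₂ + b z₂² anisotropic, every irreducible complex representation of degree at least 2 of Ω⁻_{2n}(F) (the commutator subgroup of the isometry group of x₁y₁ + ⋯ + x_{n−1}y_{n−1} + z₁² + a z₁z₂ + b z₂²) has degree at least (q^n + 1)(q^{n−1} − q)/(q² − 1). -/
theorem result {F : Type*} [Field F] [Fintype F] (n : ℕ) (hn : 4 ≤ n) (a b : F) (hab : ∀ z₁ z₂ : F, z₁ ^ 2 + a * z₁ * z₂ + b * z₂ ^ 2 = 0 → z₁ = 0 ∧ z₂ = 0) :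
    (∀ (k : ℕ) (ρ : Representation ℂ (Cfsg.Omega F (Cfsg.quadFormMinus (n - 1) F a b)) (Fin k → ℂ)), ρ.IsIrreducible → 2 ≤ k → (Fintype.card F ^ n + 1) * (Fintype.card F ^ (n - 1) - Fintype.card F) / (Fintype.card F ^ 2 - 1) ≤ k) := by
  classical
  obtain ⟨r, rfl⟩ : ∃ r, n = r + 2 := ⟨n - 2, by omega⟩
  rw [show r + 2 - 1 = r + 1 from rfl]
  have nd := H30.qMinus_nondegenerate (F := F) (r + 1) hab
  refine H33.MR.le_of_UA nd (by simp; omega) (fun E _ _ _ _ _ h =>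
    H33.MR.min_minus r (by omega) nd (by simp; omega) (H79.not_isPlus_minus _ hab) h) ?_
  rw [Nat.cast_mul, Nat.cast_sub (Nat.le_self_pow (by omega) _)]
  push_cast
  rfl

end Cfsg.Agent.S2346
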