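import Cfsg.Statements.S2347
import Cfsg.Agent.H75.WeilSp
import Cfsg.Agent.H75.Siegel

set_option autoImplicit false
open Cfsg

namespace Cfsg.Agent.S2347

/-- Smallest degree of a non-linear irreducible complex representation of the symplectic group Sp_{2n} over a finite field of odd order q, n ≥ 2: every irreducible complex representation of degree at least 2 has degree at least (q^n − 1)/2, and there is an irreducible complex representation of exactly that degree (a Weil representation). -/
theorem result {F : Type*} [Field F] [Fintype F] [DecidableEq F] (n : ℕ) (hn : 2 ≤ n) (hodd : Odd (Fintype.card F)) :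
    (∀ (k : ℕ) (ρ : Representation ℂ (Matrix.symplecticGroup (Fin n) F) (Fin k → ℂ)), ρ.IsIrreducible → 2 ≤ k → (Fintype.card F ^ n - 1) / 2 ≤ k) ∧
    (∃ ρ : Representation ℂ (Matrix.symplecticGroup (Fin n) F) (Fin ((Fintype.card F ^ n - 1) / 2) → ℂ), ρ.IsIrreducible) := by
  have : Nonempty (Fin n) := ⟨⟨0, by omega⟩⟩
  have h2 : (2 : F) ≠ 0 := by
    rw [Ne, H27.two_eq_zero_iff_even_card, Nat.not_even_iff_odd]; exact hodd
  refine ⟨fun k ρ hρ hk => ?_, ?_⟩
  · have hc : commutator (Matrix.symplecticGroup (Fin n) F) = ⊤ :=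
      H27.commutator_sp_of_two_ne_zero h2 (i := ⟨0, by omega⟩) (j := ⟨1, by omega⟩) (by simp)
    have h := H75.siegel_odd_bound h2 _ (H75.sp_weights_complex ρ hρ (by simpa using hk) hc)
    rw [Fintype.card_fin, Module.finrank_fin_fun] at h
    omega
  · have hψ := AddChar.FiniteField.primitiveChar_to_Complex_isPrimitive F (a := 1) one_ne_zero
    rw [AddChar.mulShift_one] at hψ
    obtain ⟨ρ, h3, h4⟩ := H75.exists_weilSp (l := Fin n) h2 hψ
    obtain ⟨-, h5, -⟩ := H75.weilSp_irr h2 hψ ρ h3 (H75.eigenspace_parity_invariant ρ h4)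
    have h6 := (H75.two_mul_finrank_parity (l := Fin n) h2).2
    rw [Fintype.card_fin] at h6
    obtain ⟨σ, ⟨e⟩⟩ := H11.exists_equiv_fin
      (ρ.subrepresentation _ (H75.eigenspace_parity_invariant ρ h4 (-1)))
    have h7 : (Fintype.card F ^ n - 1) / 2 =
      Module.finrank ℂ ((H75.parity (Fin n) F).eigenspace (-1)) := by omega
    rw [h7]
    exact ⟨σ, (H11.isIrreducible_iff_of_equiv e).mp h5⟩

end Cfsg.Agent.S2347
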