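import Cfsg.Statements.S2352
import Mathlib
import Cfsg.Agent.H60.MultiTrans

set_option autoImplicit false
open Cfsg

namespace Cfsg.Agent.S2352

/-- A non-trivial law holds in only finitely many alternating groups: for every non-trivial element w of the free group on countably many generators there is N such that for all n ≥ N some substitution of elements of the alternating group of degree n into w is not the identity. -/
theorem result (w : FreeGroup ℕ) (hw : w ≠ 1) :
    ∃ N : ℕ, ∀ n : ℕ, N ≤ n → ∃ f : ℕ → alternatingGroup (Fin n), FreeGroup.lift f w ≠ 1 := by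
  classical
  obtain ⟨L, rfl⟩ : ∃ L, FreeGroup.mk L = w := ⟨w.toWord, FreeGroup.mk_toWord⟩
  let S : Finset (FreeGroup ℕ) := (L.tails.map FreeGroup.mk).toFinset
  have hS : ∀ M, M <:+ L → FreeGroup.mk M ∈ S := fun M hM =>
    List.mem_toFinset.2 (List.mem_map.2 ⟨M, (List.mem_tails _ _).2 hM, rfl⟩)
  refine ⟨S.card + 2, fun n hn => ?_⟩
  obtain ⟨e⟩ : Nonempty (S ↪ Fin n) := Function.Embedding.nonempty_of_card_le (by simp; omega)
  have hg : ∀ x : ℕ, ∃ g : alternatingGroup (Fin n), ∀ (s : S) (h : FreeGroup.of x * s ∈ S),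
      g • e s = e ⟨_, h⟩ := by
    intro x
    obtain ⟨g, hg⟩ := H60.exists_smul_eq_of_injective
      (alternatingGroup.isMultiplyPretransitive (Fin n)) (Nat.sub_le _ _)
      (ι := {s : S // FreeGroup.of x * s ∈ S})
      ((Nat.card_le_card_of_injective _ Subtype.val_injective).trans (by simp; omega))
      (x := fun s => e s.1) (y := fun s => e ⟨_, s.2⟩)
      (e.injective.comp Subtype.val_injective)
      (fun s t h => Subtype.ext (Subtype.ext (mul_left_cancel
        (congrArg Subtype.val (e.injective h)))))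
    exact ⟨g, fun s h => hg ⟨s, h⟩⟩
  choose g hg using hg
  have h1 : (1 : FreeGroup ℕ) ∈ S := hS [] List.nil_suffix
  have key : ∀ M, ∀ hM : M <:+ L, FreeGroup.lift g (FreeGroup.mk M) • e ⟨1, h1⟩ = e ⟨_, hS M hM⟩ := by
    intro M
    induction M with
    | nil => intro _; exact (congrArg (· • e ⟨1, h1⟩) (map_one (FreeGroup.lift g))).trans (one_smul _ _)
    | cons a M ih =>
      intro hM
      have hM' : M <:+ L := (List.suffix_cons a M).trans hM
      obtain ⟨x, b⟩ := a
      cases b
      · have h2 : FreeGroup.mk ((x, false) :: M) = (FreeGroup.of x)⁻¹ * FreeGroup.mk M := rfl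
        have h3 : FreeGroup.of x * FreeGroup.mk ((x, false) :: M) = FreeGroup.mk M := by
          rw [h2, mul_inv_cancel_left]
        have h4 := hg x ⟨_, hS _ hM⟩ (h3 ▸ hS _ hM')
        simp only [h3] at h4
        rw [← inv_smul_smul (g x) (e ⟨_, hS _ hM⟩), h4, ← ih hM', ← mul_smul, h2, map_mul, map_inv,
          FreeGroup.lift_apply_of]
      · have h2 : FreeGroup.mk ((x, true) :: M) = FreeGroup.of x * FreeGroup.mk M := rfl
        have h4 := hg x ⟨_, hS _ hM'⟩ (h2 ▸ hS _ hM)
        rw [← ih hM', ← mul_smul, ← FreeGroup.lift_apply_of (f := g), ← map_mul] at h4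
        exact h4
  refine ⟨g, fun h => hw ?_⟩
  have h2 := key L List.suffix_rfl
  rw [h, one_smul] at h2
  exact (congrArg Subtype.val (e.injective h2)).symm

end Cfsg.Agent.S2352
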