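import Cfsg.Statements.S2354
import Cfsg.Agent.H29.Laws
import Cfsg.Agent.H39.SzOvoid

set_option autoImplicit false
open Cfsg

namespace Cfsg.Agent.S2354

/-- A non-trivial law holds in only finitely many Suzuki groups: for every non-trivial element w of the free group on countably many generators there is N such that for q = 2^(2m+1) with m ≥ N some substitution of elements of the Suzuki group over the field with q elements into w is not the identity. -/
theorem result (w : FreeGroup ℕ) (hw : w ≠ 1) :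
    ∃ N : ℕ, ∀ (F : Type*) [Field F] [Fintype F] (m : ℕ), 1 ≤ m → N ≤ m →
      Fintype.card F = 2 ^ (2 * m + 1) →
      ∃ f : ℕ → ↥(Cfsg.Lie.Sz F (2 ^ (m + 1))), FreeGroup.lift f w ≠ 1 := by
  obtain ⟨K, l, h⟩ := H29.exists_pingpong w hw
  refine ⟨K + 6 * l + 2, fun F _ _ m _ hm hF => ?_⟩
  classical
  let S := H39.lieModel hF
  obtain ⟨e, he⟩ : ∃ e, e = 2 ^ (m + 1) := ⟨_, rfl⟩
  have hθ : ∀ x, S.θ x = x ^ e := he ▸ H39.lieModel_θ hF
  have h1 : m < 2 ^ m := Nat.lt_two_pow_self
  have h2 : Nat.card F = 2 * (2 ^ m * 2 ^ m) := by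
    rw [Nat.card_eq_fintype_card, hF]; ring
  obtain ⟨b, hb⟩ := H29.exists_nat_inj F (K := K) (by nlinarith)
  have hsq : ∀ k : Fˣ, (S.w * S.h k)⁻¹ = S.w * S.h k := fun k => by
    rw [mul_inv_rev, S.w_inv, ← map_inv, S.w_mul_h]
  have he0 : 0 < e := by rw [he]; positivity
  obtain ⟨f, g, h3⟩ := h S.mat 0 3
    !![0, 0, 0, 1; 0, 0, Polynomial.X ^ e, 0; 0, Polynomial.X ^ (e + 2), 0, 0;
      Polynomial.X ^ (2 * e + 2), 0, 0, 0] (2 * e + 2)
    (fun i j => by fin_cases i <;> fin_cases j <;> simp <;> omega)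
    (by
      ext i j
      fin_cases i <;> fin_cases j <;> simp [Polynomial.coeff_one, Polynomial.coeff_X_pow] <;> omega)
    (fun t => if ht : t = 0 then 1 else S.w * S.h (Units.mk0 t ht))
    (fun t ht => by
      have ht' : t ^ e ≠ 0 := pow_ne_zero _ ht
      have : S.mat (S.w * S.h (Units.mk0 t ht)) = (t * t ^ e)⁻¹ •
          (!![0, 0, 0, 1; 0, 0, Polynomial.X ^ e, 0; 0, Polynomial.X ^ (e + 2), 0, 0;
            Polynomial.X ^ (2 * e + 2), 0, 0, 0] : Matrix (Fin 4) (Fin 4) (Polynomial F)).map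
            (Polynomial.eval t) := by
        rw [map_mul, S.mat_w, S.mat_h]
        ext i j
        fin_cases i <;> fin_cases j <;>
          simp [H39.Tits.hM, H39.J, Cfsg.suzukiForm, Matrix.mul_apply, Fin.sum_univ_four, hθ] <;>
          field_simp <;> ring
      exact ⟨_, _, inv_ne_zero (mul_ne_zero ht ht'), inv_ne_zero (mul_ne_zero ht ht'),
        by rw [dif_neg ht, this], by rw [dif_neg ht, hsq, this]⟩)
    (fun i => S.u 0 (b i))
    (fun i hi j hj hij h' => hij (hb i hi j hj (by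
      rw [S.u_zero_inv, S.u_zero_mul, S.mat_u] at h'
      simp only [H39.Tits.uM, H39.Tits.f, Matrix.of_apply, Matrix.cons_val', Matrix.cons_val_zero,
        Matrix.cons_val, map_zero, zero_mul, mul_zero, zero_add, S.θ_eq_zero] at h'
      linear_combination h' - b j * S.two_eq_zero)))
    (by rw [h2, he, pow_succ]; nlinarith)
  refine ⟨f, fun h4 => h3 ?_⟩
  rw [h4]
  simp

end Cfsg.Agent.S2354
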