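import Cfsg.Statements.S2355
import Cfsg.Agent.H29.Laws
import Cfsg.Agent.H29.Subfield
import Cfsg.Agent.S2352
import Cfsg.Agent.S0281

set_option autoImplicit false
open Cfsg

namespace Cfsg.Agent.S2355

/-- A non-trivial law is satisfied by only finitely many finite simple groups that are alternating or classical, up to isomorphism: for every non-trivial element w of the free group on countably many generators there is a bound N such that every alternating group of degree ≥ 5 and every simple classical group (linear, symplectic, unitary or orthogonal, in this problem's sense) in which w is a law has order at most N. -/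
theorem result (w : FreeGroup ℕ) (hw : w ≠ 1) :
    ∃ N : ℕ, ∀ (G : Type*) [Group G] [Finite G],
      (Cfsg.IsAlternating G ∨ Cfsg.IsPSL G ∨ Cfsg.IsPSp G ∨ Cfsg.IsPSU G ∨ Cfsg.IsPOmegaOdd G ∨
          Cfsg.IsPOmegaPlus G ∨ Cfsg.IsPOmegaMinus G) →
      (∀ f : ℕ → G, FreeGroup.lift f w = 1) → Nat.card G ≤ N := by
  obtain ⟨N1, h1⟩ := H29.exists_not_cLaw_SL2.{0} w hw
  obtain ⟨N2, h2⟩ := S2352.result w hw
  let N := N1 + N2 + 5
  have hA : ∀ n, H29.CLaw w (alternatingGroup (Fin n)) → n ≤ N := fun n h => by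
    by_contra hn
    obtain ⟨f, hf⟩ := h2 n (by omega)
    have := h f
    rw [alternatingGroup.center_eq_bot (by simp; omega)] at this
    exact hf this
  have hS : ∀ (F : Type) [Field F] [Finite F], H29.CLaw w (Matrix.SpecialLinearGroup (Fin 2) F) →
      Nat.card F ≤ N := fun F _ _ h => by
    by_contra hn
    exact h1 F (by omega) h
  have main : ∀ (F : Type) [Field F] [Finite F] (m : ℕ), 2 ≤ m →
      (∀ (X : Type) [Group X], commutator X = ⊤ →
        ∀ χ : X →* Matrix.SpecialLinearGroup (Fin m) F, Function.Injective χ → H29.CLaw w X) →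
      Nat.card F ≤ N ∧ m ≤ N := by
    intro F _ _ m hm h
    constructor
    · by_contra hn
      obtain ⟨k, rfl⟩ := Nat.exists_eq_add_of_le hm
      obtain ⟨a, ha, ha'⟩ : ∃ a : F, a ≠ 0 ∧ a ^ 2 ≠ 1 := by
        have hF : 4 ≤ Nat.card F := by omega
        obtain ⟨x, hx⟩ : IsCyclic Fˣ := by infer_instance
        refine ⟨x, Units.ne_zero x, fun h ↦ ?_⟩
        have h3 := orderOf_le_of_pow_eq_one zero_lt_two (x := x) (Units.ext <| by simpa using h)
        rw [Nat.card_eq_card_units_add_one F, ← orderOf_eq_card_of_forall_mem_zpowers hx] at hF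
        omega
      exact hn (hS F (h _ (Matrix.SL2.commutator_eq_top ha ha') _ (H29.blockSL_injective 2 k)))
    · by_contra hn
      exact hn (hA m (h _ (commutator_alternatingGroup_eq_top (by simp; omega)) _
        (H29.altSL_injective m)))
  have hbd : ∀ a b : ℕ, a ≤ N ^ 2 → b ≤ 2 * N + 2 →
      a ^ (b * b) ≤ N.factorial + (N ^ 2) ^ ((2 * N + 2) * (2 * N + 2)) := fun a b ha hb =>
    ((Nat.pow_le_pow_left ha _).trans (Nat.pow_le_pow_right (by positivity)
      (Nat.mul_le_mul hb hb))).trans (Nat.le_add_left _ _)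
  have hsq : N ≤ N ^ 2 := Nat.le_self_pow two_ne_zero N
  have hO : ∀ (F ι : Type) [Field F] [Finite F] [Fintype ι] [DecidableEq ι] (Q : (ι → F) → F)
      (m : ℕ), 2 ≤ m → Fintype.card ι ≤ 2 * m + 2 →
      ∀ ψ : Matrix.SpecialLinearGroup (Fin m) F →* Matrix ι ι F, Function.Injective ψ →
      (∀ x v, Q ((ψ x).mulVec v) = Q v) → (∀ f : ℕ → Cfsg.POmega F Q, FreeGroup.lift f w = 1) →
      Nat.card (Cfsg.POmega F Q) ≤ N.factorial + (N ^ 2) ^ ((2 * N + 2) * (2 * N + 2)) := by
    intro F ι _ _ _ _ Q m hm hι ψ hψ hQ h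
    obtain ⟨a, b⟩ := main F m hm fun X _ hX χ hχ => by
      obtain ⟨φ, hφ⟩ := H29.exists_hom_Omega hX Q (ψ.comp χ) (hψ.comp hχ) fun x v => hQ _ v
      exact (H29.cLaw_iff.2 h).of_injective φ hφ
    refine (H29.card_quot_le _).trans ((H29.card_le_of_mat
      (fun g : Cfsg.Omega F Q => (g.1.1 : Matrix ι ι F))
      fun _ _ h => Subtype.ext (Subtype.ext (Units.ext h))).trans (hbd _ _ (by omega) (by omega)))
  refine ⟨N.factorial + (N ^ 2) ^ ((2 * N + 2) * (2 * N + 2)), fun G _ _ hG hl => ?_⟩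
  rcases hG with ⟨n, -, ⟨e⟩⟩ | ⟨F, _, _, n, hn, -, ⟨e⟩⟩ | ⟨F, _, _, m, hm, -, ⟨e⟩⟩ |
    ⟨F, _, _, n, q, hq, hn, -, ⟨e⟩⟩ | ⟨F, _, _, m, hm, -, ⟨e⟩⟩ | ⟨F, _, _, m, hm, ⟨e⟩⟩ |
    ⟨F, _, _, m, a, b, hm, -, ⟨e⟩⟩ <;> rw [Nat.card_congr e.toEquiv] <;>
    have hl' := H29.law_of_equiv e hl
  · have := hA n fun f => hl' f ▸ one_mem _
    refine (Nat.card_le_card_of_injective _ Subtype.val_injective).trans ?_
    rw [Nat.card_perm, Nat.card_fin]
    exact (Nat.factorial_le this).trans (Nat.le_add_right _ _)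
  · obtain ⟨a, b⟩ := main F n hn fun X _ _ χ hχ => (H29.cLaw_iff.2 hl').of_injective χ hχ
    refine (H29.card_quot_le _).trans ((H29.card_le_of_mat _ Subtype.val_injective).trans
      (hbd _ _ (by omega) (by simp; omega)))
  · obtain ⟨φ, hφ⟩ := H29.exists_SL_Sp (F := F) m
    obtain ⟨a, b⟩ := main F m hm fun X _ _ χ hχ =>
      (H29.cLaw_iff.2 hl').of_injective (φ.comp χ) (hφ.comp hχ)
    refine (H29.card_quot_le _).trans ((H29.card_le_of_mat _ Subtype.val_injective).trans
      (hbd _ _ (by omega) (by simp; omega)))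
  · have hc := H29.cLaw_iff.2 hl'
    obtain ⟨φ, hφ⟩ := H29.exists_alt_SU (F := F) n q
    have b := hA n (hc.of_injective φ hφ)
    obtain ⟨k, rfl⟩ := Nat.exists_eq_add_of_le (show 2 ≤ n by omega)
    obtain ⟨ψ, hψ⟩ := H29.exists_SU_SU (F := F) 2 k q
    obtain ⟨p, hp, _, s, hs, hs'⟩ := H29.exists_char_card F
    rw [← Nat.card_eq_fintype_card] at hq
    obtain ⟨r, -, rfl⟩ := (Nat.dvd_prime_pow hp.out).1
      (show q ∣ p ^ s from hs' ▸ hq ▸ dvd_pow_self q two_ne_zero)
    have hr : r ≠ 0 := by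
      rintro rfl
      have := Finite.one_lt_card (α := F)
      rw [hq] at this; simp at this
    obtain ⟨K, hK⟩ := H29.exists_subfield_of_card p hr hq
    have := Fintype.ofFinite K
    obtain ⟨e'⟩ := S0281.result (F := F) (K := K) (q := p ^ r)
      (by rw [← Nat.card_eq_fintype_card, hq]) (by rw [← Nat.card_eq_fintype_card, hK])
    have a := hS K (hc.of_injective (ψ.comp e'.symm.toMonoidHom) (hψ.comp e'.symm.injective))
    refine (H29.card_quot_le _).trans ((H29.card_le_of_mat
      (fun g : Cfsg.SU (2 + k) F (p ^ r) => g.1.1) fun _ _ h => Subtype.ext (Subtype.ext h)).trans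
      (hbd _ _ (by rw [hq, ← hK]; exact Nat.pow_le_pow_left a 2) (by simp; omega)))
  · refine hO F _ _ m (by omega) (by simp; omega) ((H29.blockR _ _).comp (H29.leviM m))
      (fun _ _ h => H29.leviM_injective m (Matrix.fromBlocks_inj.1 h).2.2.2) (fun x v => ?_) hl'
    have := H29.leviM_quad x (v ∘ Sum.inr)
    simpa [Cfsg.quadFormOdd, H29.blockR, Matrix.fromBlocks_mulVec] using this
  · exact hO F _ _ m (by omega) (by simp; omega) (H29.leviM m) (H29.leviM_injective m)
      (fun x v => H29.leviM_quad x v) hl'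
  · refine hO F _ _ (m - 1) (by omega) (by simp; omega) ((H29.blockL _ _).comp (H29.leviM _))
      (fun _ _ h => H29.leviM_injective _ (Matrix.fromBlocks_inj.1 h).1) (fun x v => ?_) hl'
    have := H29.leviM_quad x (v ∘ Sum.inl)
    simpa [Cfsg.quadFormMinus, H29.blockL, Matrix.fromBlocks_mulVec] using this

end Cfsg.Agent.S2355
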