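import Cfsg.Statements.S2356
import Cfsg.Agent.H31.SU3Inv

set_option autoImplicit false
open Cfsg

namespace Cfsg.Agent.S2356

open Cfsg.Agent.H31

/-- Let q be odd, F the field with q² elements, S = SU_3(F) (determinant-one isometries of the standard Hermitian form) and t an involution of S. Then: exactly q(q−1) involutions other than t commute with t; exactly q(q−2)(q²−1) involutions do not commute with t but commute with some involution commuting with t; exactly (q+1)(q²−1) involutions x do not commute with t and admit no involution commuting with both t and x; and every involution can be reached from t in at most three steps, each step going to an involution that commutes with the previous one (the commuting involution graph is connected of diameter 3). -/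
theorem result {F : Type*} [Field F] [Fintype F] {q : ℕ} (hq : Odd q)
    (hF : Fintype.card F = q ^ 2) (t : ↥(Cfsg.SU 3 F q)) (ht : t ≠ 1) (ht2 : t * t = 1) :
    Nat.card {x : ↥(Cfsg.SU 3 F q) // x ≠ 1 ∧ x * x = 1 ∧ x ≠ t ∧ Commute t x} = q * (q - 1) ∧
    Nat.card {x : ↥(Cfsg.SU 3 F q) // x ≠ 1 ∧ x * x = 1 ∧ ¬ Commute t x ∧
        ∃ y : ↥(Cfsg.SU 3 F q), y ≠ 1 ∧ y * y = 1 ∧ Commute t y ∧ Commute y x} = q * (q - 2) * (q ^ 2 - 1) ∧
    Nat.card {x : ↥(Cfsg.SU 3 F q) // x ≠ 1 ∧ x * x = 1 ∧ ¬ Commute t x ∧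
        ∀ y : ↥(Cfsg.SU 3 F q), y ≠ 1 → y * y = 1 → ¬ (Commute t y ∧ Commute y x)} = (q + 1) * (q ^ 2 - 1) ∧
    ∀ x : ↥(Cfsg.SU 3 F q), x ≠ 1 → x * x = 1 →
      ∃ y z : ↥(Cfsg.SU 3 F q), y ≠ 1 ∧ y * y = 1 ∧ z ≠ 1 ∧ z * z = 1 ∧
        Commute t y ∧ Commute y z ∧ Commute z x := by
  have h := isHerm_hermB hF 3
  have h3 := finrank_fin (F := F) 3
  have h2 := two_ne_zero_of_odd hF hq
  have hσ : ∀ x, frobQ hF x = x ^ q := fun _ => rfl
  set ε := suEquiv hF 3
  obtain ⟨P, hP, rfl⟩ := exists_rf ε h h3 h2 ht ht2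
  have key : ∀ Q ∈ nonPts (hermB hF 3) ⊤, (∃ y, y ≠ 1 ∧ y * y = 1 ∧ Commute (rf ε P) y ∧
      Commute y (rf ε Q)) ↔ ∃ R ∈ nonPts (hermB hF 3) ⊤, Adj (hermB hF 3) P R ∧
        Adj (hermB hF 3) R Q := fun Q hQ =>
    (exists_invol_iff ε h h3 h2 _).trans (exists_congr fun R => and_congr_right fun hR =>
      and_congr (commute_rf ε h h3 h2 hP hR) (commute_rf ε h h3 h2 hR hQ))
  refine ⟨(card_invol ε h h3 h2 _ _ fun Q hQ => and_congr (rf_inj ε h h3 h2 hQ hP).not
      (commute_rf ε h h3 h2 hP hQ)).trans (h.ncard_adj hF hσ h3 hP),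
    (card_invol ε h h3 h2 _ _ fun Q hQ => and_congr (commute_rf ε h h3 h2 hP hQ).not
      (key Q hQ)).trans (h.ncard_mid hF hσ h3 hP),
    (card_invol ε h h3 h2 _ _ fun Q hQ => and_congr (commute_rf ε h h3 h2 hP hQ).not ?_).trans
      (h.ncard_far hF hσ h3 hP), fun x hx hx2 => ?_⟩
  · have := (key Q hQ).not
    simpa only [not_exists, not_and] using this
  · obtain ⟨Q, hQ, rfl⟩ := exists_rf ε h h3 h2 hx hx2
    obtain ⟨R, hR, S, hS, h4, h5, h6⟩ := h.exists_path h3 h2 hP hQ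
    exact ⟨rf ε R, rf ε S, rf_ne_one ε h h3 h2 hR, rf_mul_self ε h h3 hR, rf_ne_one ε h h3 h2 hS,
      rf_mul_self ε h h3 hS, (commute_rf ε h h3 h2 hP hR).mpr h4,
      (commute_rf ε h h3 h2 hR hS).mpr h5, (commute_rf ε h h3 h2 hS hQ).mpr h6⟩

end Cfsg.Agent.S2356
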