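import Cfsg.Statements.S2357
import Cfsg.Agent.H39.ReeInst
import Cfsg.Agent.H39.ReeThm

set_option autoImplicit false
open Cfsg

namespace Cfsg.Agent.S2357

/-- Let R be the small Ree group over the field with q = 3^(2m+1) ≥ 27 elements and write φ for Euler's totient function. Then R has exactly q²(q²−q+1) involutions, (q²−1)(q³+1) elements of order 3, and q²(q−1)(q³+1) elements of order 6 and as many of order 9; for i > 2 dividing q−1 it has φ(i)q³(q³+1)/2 elements of order i; for i > 1 dividing (q+1)/4 it has φ(i)q³(q−1)(q²−q+1)/6 elements of order i and φ(i)q³(q−1)(q²−q+1)/2 elements of order 2i; and for i > 1 dividing q − 3^(m+1) + 1 (respectively q + 3^(m+1) + 1) it has φ(i)q³(q²−1)(q + 3^(m+1) + 1)/6 (respectively φ(i)q³(q²−1)(q − 3^(m+1) + 1)/6) elements of order i. -/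
theorem result {K : Type*} [Field K] [Fintype K] {m : ℕ} (hm : 1 ≤ m)
    (hK : Fintype.card K = 3 ^ (2 * m + 1)) :
    Nat.card {g : ↥(Cfsg.Lie.twistedG2 K (3 ^ m)) // orderOf g = 2} = (3 ^ (2 * m + 1)) ^ 2 * ((3 ^ (2 * m + 1)) ^ 2 - 3 ^ (2 * m + 1) + 1) ∧
    Nat.card {g : ↥(Cfsg.Lie.twistedG2 K (3 ^ m)) // orderOf g = 3} = ((3 ^ (2 * m + 1)) ^ 2 - 1) * ((3 ^ (2 * m + 1)) ^ 3 + 1) ∧
    Nat.card {g : ↥(Cfsg.Lie.twistedG2 K (3 ^ m)) // orderOf g = 6} = (3 ^ (2 * m + 1)) ^ 2 * (3 ^ (2 * m + 1) - 1) * ((3 ^ (2 * m + 1)) ^ 3 + 1) ∧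
    Nat.card {g : ↥(Cfsg.Lie.twistedG2 K (3 ^ m)) // orderOf g = 9} = (3 ^ (2 * m + 1)) ^ 2 * (3 ^ (2 * m + 1) - 1) * ((3 ^ (2 * m + 1)) ^ 3 + 1) ∧
    (∀ i : ℕ, 2 < i → i ∣ 3 ^ (2 * m + 1) - 1 →
      2 * Nat.card {g : ↥(Cfsg.Lie.twistedG2 K (3 ^ m)) // orderOf g = i} = Nat.totient i * (3 ^ (2 * m + 1)) ^ 3 * ((3 ^ (2 * m + 1)) ^ 3 + 1)) ∧
    (∀ i : ℕ, 1 < i → i ∣ (3 ^ (2 * m + 1) + 1) / 4 →
      6 * Nat.card {g : ↥(Cfsg.Lie.twistedG2 K (3 ^ m)) // orderOf g = i} =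
          Nat.totient i * (3 ^ (2 * m + 1)) ^ 3 * (3 ^ (2 * m + 1) - 1) * ((3 ^ (2 * m + 1)) ^ 2 - 3 ^ (2 * m + 1) + 1) ∧
        2 * Nat.card {g : ↥(Cfsg.Lie.twistedG2 K (3 ^ m)) // orderOf g = 2 * i} =
          Nat.totient i * (3 ^ (2 * m + 1)) ^ 3 * (3 ^ (2 * m + 1) - 1) * ((3 ^ (2 * m + 1)) ^ 2 - 3 ^ (2 * m + 1) + 1)) ∧
    (∀ i : ℕ, 1 < i → i ∣ 3 ^ (2 * m + 1) - 3 ^ (m + 1) + 1 →
      6 * Nat.card {g : ↥(Cfsg.Lie.twistedG2 K (3 ^ m)) // orderOf g = i} =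
        Nat.totient i * (3 ^ (2 * m + 1)) ^ 3 * ((3 ^ (2 * m + 1)) ^ 2 - 1) * (3 ^ (2 * m + 1) + 3 ^ (m + 1) + 1)) ∧
    (∀ i : ℕ, 1 < i → i ∣ 3 ^ (2 * m + 1) + 3 ^ (m + 1) + 1 →
      6 * Nat.card {g : ↥(Cfsg.Lie.twistedG2 K (3 ^ m)) // orderOf g = i} =
        Nat.totient i * (3 ^ (2 * m + 1)) ^ 3 * ((3 ^ (2 * m + 1)) ^ 2 - 1) * (3 ^ (2 * m + 1) - 3 ^ (m + 1) + 1)) := by
  obtain ⟨R, -⟩ := H39.exists_ree hK
  have := H39.reeField_of_card hm hK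
  have hF : Nat.card K = 3 ^ (2 * m + 1) := by rw [Nat.card_eq_fintype_card, hK]
  obtain ⟨x₁, x₂, h1, h2, c1, c2, -⟩ := R.exists_tori hF
  have e : ∀ d, Nat.card {g : ↥(Cfsg.Lie.twistedG2 K (3 ^ m)) // orderOf g = d} =
    {g : ↥(Cfsg.Lie.twistedG2 K (3 ^ m)) | orderOf g = d}.ncard := fun d => rfl
  simp only [e]
  refine ⟨hF ▸ R.ncard_two, hF ▸ R.ncard_three, hF ▸ R.ncard_six, hF ▸ R.ncard_nine,
    fun i hi h => ?_, fun i hi h => ?_, fun i hi h => ?_, fun i hi h => ?_⟩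
  · rw [← hF] at h ⊢
    exact R.ncard_of_dvd_sub hi h
  · rw [← hF] at h ⊢
    exact R.ncard_of_dvd_quarter hi h
  · rw [h1.ncard_orderOf' hi (c1 ▸ h) (by rw [c1, hF]; exact H39.Ree.tori_mul m), hF]
  · rw [h2.ncard_orderOf' hi (c2 ▸ h) (by rw [c2, hF, mul_comm]; exact H39.Ree.tori_mul m), hF]

end Cfsg.Agent.S2357
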