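import Cfsg.Statements.S2359
import Cfsg.Agent.H39.ReeInst
import Cfsg.Agent.H39.ReeThm

set_option autoImplicit false
open Cfsg

namespace Cfsg.Agent.S2359

/-- Let R be the small Ree group over the field with q = 3^(2m+1) ≥ 27 elements. If H is a cyclic subgroup of R of order (q−1)/2, then the centralizer of H in R is cyclic of order q−1, and every non-trivial subgroup of H has the same centralizer as H. If H is a cyclic subgroup of order (q+1)/4, then the centralizer of H is abelian of order q+1 with no element of order 4 (so it is the direct product of H and a group of order 4 whose non-identity elements all have order 2), and every non-trivial subgroup of H has the same centralizer as H. -/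
theorem result {K : Type*} [Field K] [Fintype K] {m : ℕ} (hm : 1 ≤ m)
    (hK : Fintype.card K = 3 ^ (2 * m + 1)) (H : Subgroup ↥(Cfsg.Lie.twistedG2 K (3 ^ m))) (hH : IsCyclic H) :
    (Nat.card H = (3 ^ (2 * m + 1) - 1) / 2 →
      IsCyclic ↥(Subgroup.centralizer (H : Set ↥(Cfsg.Lie.twistedG2 K (3 ^ m)))) ∧
        Nat.card ↥(Subgroup.centralizer (H : Set ↥(Cfsg.Lie.twistedG2 K (3 ^ m)))) = 3 ^ (2 * m + 1) - 1 ∧
        ∀ A : Subgroup ↥(Cfsg.Lie.twistedG2 K (3 ^ m)), A ≤ H → A ≠ ⊥ →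
          Subgroup.centralizer (A : Set ↥(Cfsg.Lie.twistedG2 K (3 ^ m))) = Subgroup.centralizer (H : Set ↥(Cfsg.Lie.twistedG2 K (3 ^ m)))) ∧
    (Nat.card H = (3 ^ (2 * m + 1) + 1) / 4 →
      IsMulCommutative ↥(Subgroup.centralizer (H : Set ↥(Cfsg.Lie.twistedG2 K (3 ^ m)))) ∧
        Nat.card ↥(Subgroup.centralizer (H : Set ↥(Cfsg.Lie.twistedG2 K (3 ^ m)))) = 3 ^ (2 * m + 1) + 1 ∧
        (∀ x ∈ Subgroup.centralizer (H : Set ↥(Cfsg.Lie.twistedG2 K (3 ^ m))), orderOf x ≠ 4) ∧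
        ∀ A : Subgroup ↥(Cfsg.Lie.twistedG2 K (3 ^ m)), A ≤ H → A ≠ ⊥ →
          Subgroup.centralizer (A : Set ↥(Cfsg.Lie.twistedG2 K (3 ^ m))) = Subgroup.centralizer (H : Set ↥(Cfsg.Lie.twistedG2 K (3 ^ m)))) := by
  obtain ⟨R, -⟩ := H39.exists_ree hK
  have := H39.reeField_of_card hm hK
  have := R.finite
  have hF : Nat.card K = 3 ^ (2 * m + 1) := by rw [Nat.card_eq_fintype_card, hK]
  have h27 := H39.ReeField.le_card K
  obtain ⟨x, rfl⟩ := H39.exists_zpowers_eq H
  rw [← hF, Nat.card_zpowers]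
  constructor <;> intro h
  · obtain ⟨g, hg⟩ := R.exists_conj_mem_H (h ▸ H39.Ree.half_dvd K)
    have hle := Subgroup.zpowers_le.mpr (R.mem_twist_H.mpr hg)
    generalize R.twist g = S at hle
    have key : ∀ A ≤ Subgroup.zpowers x, A ≠ ⊥ → Subgroup.centralizer A = S.H := fun A hA e => by
      obtain ⟨⟨y, hy⟩, h1⟩ := Subgroup.ne_bot_iff_exists_ne_one.mp e
      exact S.centralizer_eq_of_le_H (hA.trans hle) hy (fun e => h1 (Subtype.ext e)) (S.ne_t_of_odd
        ((H39.Ree.odd_half K).of_dvd_nat (h ▸ orderOf_dvd_of_mem_zpowers (hA hy))))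
    rw [key _ le_rfl fun e => by rw [Subgroup.zpowers_eq_bot.mp e, orderOf_one] at h; omega]
    exact ⟨S.isCyclic_H, S.card_H, key⟩
  · obtain ⟨g, hg⟩ := R.exists_conj_mem_M' (x := x) (h ▸ dvd_rfl)
    have hle := Subgroup.zpowers_le.mpr (R.mem_twist_M.mpr hg)
    generalize R.twist g = S at hle
    rw [S.centralizer_eq_of_le_M hle fun e => by
      rw [Subgroup.zpowers_eq_bot.mp e, orderOf_one] at h; omega]
    exact ⟨⟨⟨fun a b => Subtype.ext (S.D_comm a.2 b.2)⟩⟩, S.card_D,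
      fun y _ e => S.not_four_dvd_orderOf y (e ▸ dvd_rfl),
      fun A hA e => S.centralizer_eq_of_le_M (hA.trans hle) e⟩

end Cfsg.Agent.S2359
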