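import Cfsg.Statements.S2447
import Cfsg.Agent.H76.OreMain

set_option autoImplicit false
open Cfsg

namespace Cfsg.Agent.S2447

/-- Let F be a finite field of odd order and n ≥ 3, and let Ω(2n+1,F) be the commutator subgroup of the orthogonal group of the non-singular quadratic form x₀² + Σ xᵢyᵢ in dimension 2n+1. Then every element of Ω(2n+1,F) is a commutator a·b·a⁻¹·b⁻¹ of two elements of Ω(2n+1,F). -/
theorem result {F : Type*} [Field F] [Fintype F] (hodd : Odd (Fintype.card F)) (n : ℕ) (hn : 3 ≤ n) :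
    ∀ g : Cfsg.Omega F (Cfsg.quadFormOdd n F), ∃ a b : Cfsg.Omega F (Cfsg.quadFormOdd n F), g = a * b * a⁻¹ * b⁻¹ := by
  exact H76.Ore.ore_Omega (Q := H30.qOdd F n)
    (H30.qOdd_nondegenerate (H30.two_ne_zero_iff_odd_card.2 hodd) n) (by simp; omega)

end Cfsg.Agent.S2447
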