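import Cfsg.Statements.S2450
import Cfsg.Agent.H77.PSL2

set_option autoImplicit false
open Cfsg

namespace Cfsg.Agent.S2450

open Cfsg.Agent.H77

/-- The Arad–Herzog conjecture for PSL(2,q): let F be a finite field with q ≥ 4 elements. For any two non-identity elements a, b of PSL(2,F), the set of products of a conjugate of a with a conjugate of b is not a single conjugacy class. -/
theorem result {F : Type*} [Field F] [Fintype F] (h4 : 4 ≤ Fintype.card F)
    (a b : Matrix.ProjectiveSpecialLinearGroup (Fin 2) F) (ha : a ≠ 1) (hb : b ≠ 1) (c : Matrix.ProjectiveSpecialLinearGroup (Fin 2) F) :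
    {g : Matrix.ProjectiveSpecialLinearGroup (Fin 2) F | ∃ u v : Matrix.ProjectiveSpecialLinearGroup (Fin 2) F, g = (u * a * u⁻¹) * (v * b * v⁻¹)} ≠ {g | IsConj c g} := by
  intro hc
  obtain ⟨A, rfl⟩ := pm_surj a
  obtain ⟨B, rfl⟩ := pm_surj b
  obtain ⟨D, rfl⟩ := pm_surj c
  rw [Ne, pm_eq_one_iff] at ha hb
  obtain ⟨m, hm⟩ := exists_conj_ne10 ha
  obtain ⟨n, hn⟩ := exists_conj_ne10 hb
  set g := m * A * m⁻¹ with hg
  set h := n * B * n⁻¹ with hh
  have key : ∀ x : F, ((g * (uts 1 x * h * (uts 1 x)⁻¹) : SL2 F) : M2 F).trace ^ 2 =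
      (D : M2 F).trace ^ 2 := by
    intro x
    have : pm F (g * (uts 1 x * h * (uts 1 x)⁻¹)) ∈ {y | IsConj (pm F D) y} := by
      rw [← hc]
      refine ⟨pm F m, pm F (uts 1 x * n), ?_⟩
      simp only [← map_inv, ← map_mul, hg, hh]
      congr 1
      group
    exact (psl_trace_sq_of_isConj this).symm
  simp only [trace_mul_conj_unip] at key
  have hne := mul_ne_zero hm hn
  generalize (g : M2 F) 1 0 * (h : M2 F) 1 0 = α at key hne
  generalize (g : M2 F) 1 0 * ((h : M2 F) 1 1 - (h : M2 F) 0 0) +
    (h : M2 F) 1 0 * ((g : M2 F) 0 0 - (g : M2 F) 1 1) = β at key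
  generalize ((g * h : SL2 F) : M2 F).trace = γ at key
  generalize (D : M2 F).trace = δ at key
  open Polynomial in
  by_cases h2 : (2 : F) = 0
  · have h0 : (C α * X ^ 2 + C (-β) * X + C (δ - γ) : F[X]) = 0 := by
      refine eq_zero_of_natDegree_lt_card_of_eval_eq_zero' _ Finset.univ (fun x _ => ?_) ?_
      · simp only [eval_add, eval_mul, eval_C, eval_pow, eval_X]
        have := key x
        refine pow_eq_zero_iff (two_ne_zero) |>.mp ?_
        linear_combination this + (δ ^ 2 - δ * (γ + x * β - x ^ 2 * α)) * h2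
      · rw [natDegree_quadratic hne, Finset.card_univ]; omega
    have := natDegree_quadratic (b := -β) (c := δ - γ) hne
    rw [h0] at this
    simp at this
  · have h5 : 5 ≤ Fintype.card F := by
      have := odd_of_two_ne_zero h2
      obtain ⟨k, hk⟩ := this
      omega
    have h0 : ((C α * X ^ 2 + C (-β) * X + C (δ - γ)) *
        (C α * X ^ 2 + C (-β) * X + C (-δ - γ)) : F[X]) = 0 := by
      refine eq_zero_of_natDegree_lt_card_of_eval_eq_zero' _ Finset.univ (fun x _ => ?_) ?_
      · simp only [eval_add, eval_mul, eval_C, eval_pow, eval_X]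
        linear_combination key x
      · refine lt_of_le_of_lt natDegree_mul_le ?_
        rw [natDegree_quadratic hne, natDegree_quadratic hne, Finset.card_univ]; omega
    rcases mul_eq_zero.mp h0 with h0 | h0
    · have := natDegree_quadratic (b := -β) (c := δ - γ) hne
      rw [h0] at this
      simp at this
    · have := natDegree_quadratic (b := -β) (c := -δ - γ) hne
      rw [h0] at this
      simp at this

end Cfsg.Agent.S2450
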