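import Cfsg.Statements.S2455
import Cfsg.Agent.H77.PSL2

set_option autoImplicit false
open Cfsg

namespace Cfsg.Agent.S2455

open Cfsg.Agent.H77

/-- A strong covering result in the direction of Thompson's conjecture (non-identity elements) for PSL(2,q), q odd: let F be a finite field of odd characteristic p with at least 5 elements and let x ∈ PSL(2,F) have order greater than 2 and not divisible by p (so x is not unipotent). Then every non-identity element of PSL(2,F) is a product of two conjugates of x. -/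
theorem result {F : Type*} [Field F] [Fintype F] (p : ℕ) [Fact p.Prime] [CharP F p] (hp : p ≠ 2) (h5 : 5 ≤ Fintype.card F)
    (x : Matrix.ProjectiveSpecialLinearGroup (Fin 2) F) (hx2 : 2 < orderOf x) (hxp : ¬ p ∣ orderOf x) : ∀ g : Matrix.ProjectiveSpecialLinearGroup (Fin 2) F, g ≠ 1 → ∃ u v : Matrix.ProjectiveSpecialLinearGroup (Fin 2) F, g = (u * x * u⁻¹) * (v * x * v⁻¹) := by
  intro g hg
  obtain ⟨X, rfl⟩ := pm_surj x
  obtain ⟨G, rfl⟩ := pm_surj g
  have hpp : p.Prime := Fact.out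
  have h2 : (2 : F) ≠ 0 := fun h => hp ((Nat.prime_dvd_prime_iff_eq hpp Nat.prime_two).mp
    ((CharP.cast_eq_zero_iff F p 2).mp (by exact_mod_cast h)))
  have hX : IsReg X := by
    by_contra h
    have h1 : orderOf (pm F X) ∣ 2 * p := orderOf_dvd_of_pow_eq_one (by
      rw [← map_pow, sl_pow_eq_one_of_not_isReg p h, map_one])
    have h3 : orderOf (pm F X) ∣ 2 := (Nat.Coprime.symm ((Nat.Prime.coprime_iff_not_dvd hpp).mpr
      hxp)).dvd_of_dvd_mul_right h1
    have := Nat.le_of_dvd two_pos h3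
    omega
  have ht : (X : M2 F).trace ≠ 0 := by
    intro h
    have h3 : orderOf (pm F X) ∣ 2 := orderOf_dvd_of_pow_eq_one (by
      rw [← map_pow, pm_eq_one_iff, sl_isScal_iff, pow_two, sl_coe_mul]
      exact Or.inr (mul_self_of_trace_eq_zero h))
    have := Nat.le_of_dvd two_pos h3
    omega
  rw [Ne, pm_eq_one_iff] at hg
  set t := (X : M2 F).trace with htX
  have key : ∃ A B : SL2 F, (A : M2 F).trace ^ 2 = t ^ 2 ∧ (B : M2 F).trace ^ 2 = t ^ 2 ∧
      A * B = G := by
    by_cases hG : IsReg G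
    · obtain ⟨A, B, hA, hB, e⟩ := exists_mul_eq_of_isReg hG t t
      exact ⟨A, B, by rw [hA], by rw [hB], e⟩
    · have hG' : (G : M2 F).trace ^ 2 = 2 ^ 2 := by
        rw [IsReg, not_not] at hG; rw [hG]; norm_num
      obtain ⟨a, ha⟩ : ∃ a, a * (2 * t) = 1 := ⟨_, inv_mul_cancel₀ (mul_ne_zero h2 ht)⟩
      rcases sq_eq_sq_iff_eq_or_eq_neg.mp hG' with h | h
      · obtain ⟨A, B, hA, hB, e⟩ := exists_mul_eq_of_conic hg (t := t) (τ := -t) (a := a) (b := a)
          (by rw [h]; linear_combination -ha)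
        exact ⟨A, B, by rw [hA], by rw [hB, neg_sq], e⟩
      · obtain ⟨A, B, hA, hB, e⟩ := exists_mul_eq_of_conic hg (t := t) (τ := t) (a := a) (b := -a)
          (by rw [h]; linear_combination -ha)
        exact ⟨A, B, by rw [hA], by rw [hB], e⟩
  obtain ⟨A, B, hA, hB, e⟩ := key
  obtain ⟨u, hu⟩ := isConj_iff.mp (psl_isConj_of_isReg hX hA)
  obtain ⟨v, hv⟩ := isConj_iff.mp (psl_isConj_of_isReg hX hB)
  exact ⟨u, v, by rw [hu, hv, ← map_mul, e]⟩

end Cfsg.Agent.S2455
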