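import Cfsg.Statements.S2456
import Cfsg.Agent.H77.PSL2

set_option autoImplicit false
open Cfsg

namespace Cfsg.Agent.S2456

open Cfsg.Agent.H77

/-- A strong covering result in the direction of Thompson's conjecture (non-identity elements) for PSL(2,q), q even: let F be a finite field of characteristic 2 with q ≥ 4 elements and let x ∈ PSL(2,F) have order greater than 2 and not dividing q + 1. Then every non-identity element of PSL(2,F) is a product of two conjugates of x. -/
theorem result {F : Type*} [Field F] [Fintype F] [CharP F 2] (h4 : 4 ≤ Fintype.card F)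
    (x : Matrix.ProjectiveSpecialLinearGroup (Fin 2) F) (hx2 : 2 < orderOf x) (hxq : ¬ orderOf x ∣ Fintype.card F + 1) : ∀ g : Matrix.ProjectiveSpecialLinearGroup (Fin 2) F, g ≠ 1 → ∃ u v : Matrix.ProjectiveSpecialLinearGroup (Fin 2) F, g = (u * x * u⁻¹) * (v * x * v⁻¹) := by
  intro g hg
  obtain ⟨X, rfl⟩ := pm_surj x
  obtain ⟨G, rfl⟩ := pm_surj g
  have h2 : (2 : F) = 0 := by exact_mod_cast CharP.cast_eq_zero F 2
  have hX : IsReg X := by
    by_contra h
    have h0 : (X : M2 F).trace = 0 := by
      rw [IsReg, not_not] at h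
      exact pow_eq_zero_iff (two_ne_zero) |>.mp (by rw [h]; linear_combination 2 * h2)
    have h3 : orderOf (pm F X) ∣ 2 := orderOf_dvd_of_pow_eq_one (by
      rw [← map_pow, pm_eq_one_iff, sl_isScal_iff, pow_two, sl_coe_mul]
      exact Or.inr (mul_self_of_trace_eq_zero h0))
    have := Nat.le_of_dvd two_pos h3
    omega
  have hs : IsSplit (X : M2 F) := by
    refine hX.split_or_noEig.resolve_right fun h => hxq ?_
    refine (orderOf_map_dvd (pm F) X).trans ?_
    rw [← sl_card_cent_noEig h]
    exact Subgroup.orderOf_dvd_natCard _ (Subgroup.mem_centralizer_singleton_iff.mpr rfl)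
  rw [Ne, pm_eq_one_iff] at hg
  set t := (X : M2 F).trace with htX
  have key : ∃ A B : SL2 F, (A : M2 F).trace = t ∧ (B : M2 F).trace = t ∧ A * B = G := by
    by_cases hG : IsReg G
    · exact exists_mul_eq_of_isReg hG t t
    · obtain ⟨a, d, -, h1, h3⟩ := hs
      rw [X.det_coe] at h3
      exact exists_mul_eq_of_conic hg (a := a) (b := 0)
        (by rw [htX, h1]; linear_combination h3)
  obtain ⟨A, B, hA, hB, e⟩ := key
  obtain ⟨u, hu⟩ := isConj_iff.mp (psl_isConj_of_isReg hX (h := A) (by rw [hA]))
  obtain ⟨v, hv⟩ := isConj_iff.mp (psl_isConj_of_isReg hX (h := B) (by rw [hB]))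
  exact ⟨u, v, by rw [hu, hv, ← map_mul, e]⟩

end Cfsg.Agent.S2456
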