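import Cfsg.Statements.S2458
import Cfsg.Agent.H39.ReeSq
import Cfsg.Agent.H39.ReeTrace

set_option autoImplicit false
open Cfsg

namespace Cfsg.Agent.S2458

/-- A strong covering result in the direction of Thompson's conjecture (non-identity elements) for the small Ree groups: let q = 3^(2m+1) ≥ 27, K the field with q elements and ²G₂(q) the Ree group over K. For every element x of ²G₂(q) of order greater than 2 and not divisible by 3, every non-identity element of ²G₂(q) is a product of two conjugates of x. -/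
theorem result {K : Type*} [Field K] [Fintype K] (m : ℕ) (hm : 1 ≤ m) (hK : Fintype.card K = 3 ^ (2 * m + 1))
    (x : Cfsg.Lie.twistedG2 K (3 ^ m)) (hx2 : 2 < orderOf x) (hx3 : ¬ 3 ∣ orderOf x) : ∀ g : Cfsg.Lie.twistedG2 K (3 ^ m), g ≠ 1 → ∃ u v : Cfsg.Lie.twistedG2 K (3 ^ m), g = (u * x * u⁻¹) * (v * x * v⁻¹) := by
  obtain ⟨S, hτ⟩ := H39.exists_ree_trace hK
  have := H39.reeField_of_card hm hK
  exact fun g hg => S.inSq (by rw [Nat.card_eq_fintype_card, hK]) hτ hx2 hx3 hg

end Cfsg.Agent.S2458
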