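import Cfsg.Statements.S2459
import Cfsg.Agent.S2388
import Cfsg.Agent.H76.Classes

set_option autoImplicit false
open Cfsg

namespace Cfsg.Agent.S2459


open Matrix Polynomial

section
variable {R : Type*} [CommRing R]

/-- the second coefficient of the characteristic polynomial -/
def c2 (A : Matrix (Fin 3) (Fin 3) R) : R :=
  A 0 0 * A 1 1 - A 0 1 * A 1 0 + A 0 0 * A 2 2 - A 0 2 * A 2 0 + A 1 1 * A 2 2 - A 1 2 * A 2 1

def tr (A : Matrix (Fin 3) (Fin 3) R) : R := A 0 0 + A 1 1 + A 2 2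

theorem charpoly_three (A : Matrix (Fin 3) (Fin 3) R) :
    A.charpoly = X ^ 3 - C (tr A) * X ^ 2 + C (c2 A) * X - C A.det := by
  rw [Matrix.charpoly, Matrix.det_fin_three, Matrix.det_fin_three]
  simp only [tr, c2, charmatrix_apply_eq, map_add, map_sub, map_mul]
  rw [charmatrix_apply_ne _ _ _ (show (0 : Fin 3) ≠ 1 by decide),
    charmatrix_apply_ne _ _ _ (show (0 : Fin 3) ≠ 2 by decide),
    charmatrix_apply_ne _ _ _ (show (1 : Fin 3) ≠ 0 by decide),
    charmatrix_apply_ne _ _ _ (show (1 : Fin 3) ≠ 2 by decide),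
    charmatrix_apply_ne _ _ _ (show (2 : Fin 3) ≠ 0 by decide),
    charmatrix_apply_ne _ _ _ (show (2 : Fin 3) ≠ 1 by decide)]
  ring

noncomputable def fp (τ : R) : R[X] := (X - C 1) * (X ^ 2 - C τ * X + 1)

theorem charpoly_eq_fp {A : Matrix (Fin 3) (Fin 3) R} {τ : R} (h1 : tr A = 1 + τ)
    (h2 : c2 A = 1 + τ) (h3 : A.det = 1) : A.charpoly = fp τ := by
  rw [charpoly_three, h1, h2, h3, fp]
  simp only [map_add, map_one]
  ring

def Good (τ : R) (M : Matrix (Fin 3) (Fin 3) R) : Prop :=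
  ∃ B D : Matrix (Fin 3) (Fin 3) R, M = B * D ∧ B.charpoly = fp τ ∧ D.charpoly = fp τ

theorem good_of_conj {τ : R} {M : Matrix (Fin 3) (Fin 3) R} (Q Q' : Matrix (Fin 3) (Fin 3) R)
    (hQ : Q * Q' = 1) (h : Good τ (Q' * M * Q)) : Good τ M := by
  obtain ⟨B, D, h, hB, hD⟩ := h
  have hQ' : Q' * Q = 1 := mul_eq_one_comm.1 hQ
  have key : ∀ A : Matrix (Fin 3) (Fin 3) R, (Q * A * Q').charpoly = A.charpoly := fun A => by
    rw [Matrix.charpoly_mul_comm, ← mul_assoc, hQ', one_mul]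
  refine ⟨Q * B * Q', Q * D * Q', ?_, by rw [key, hB], by rw [key, hD]⟩
  calc M = (Q * Q') * M * (Q * Q') := by rw [hQ, one_mul, mul_one]
    _ = Q * (Q' * M * Q) * Q' := by simp only [mul_assoc]
    _ = Q * B * (Q' * Q) * D * Q' := by rw [h, hQ']; simp only [mul_assoc, mul_one, one_mul]
    _ = _ := by simp only [mul_assoc]

theorem det_conj {M : Matrix (Fin 3) (Fin 3) R} {Q Q' : Matrix (Fin 3) (Fin 3) R}
    (hQ : Q * Q' = 1) (h : M.det = 1) : (Q' * M * Q).det = 1 := by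
  rw [det_mul, det_mul, h, mul_one, mul_comm, ← det_mul, hQ, det_one]

end

section
variable {F : Type*} [Field F]

theorem good_lu {a : F} (ha : a ≠ 0) {M : Matrix (Fin 3) (Fin 3) F} (h0 : M 0 0 = 1)
    (h1 : M 1 1 - M 1 0 * M 0 1 = 1) (hd : M.det = 1) : Good (a + a⁻¹) M := by
  rw [det_fin_three, h0] at hd
  have h1' : M 1 1 = 1 + M 1 0 * M 0 1 := by linear_combination h1
  have h2 : M 2 2 = 1 + M 2 0 * M 0 2 + (M 2 1 - M 2 0 * M 0 1) * (M 1 2 - M 1 0 * M 0 2) := by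
    rw [h1'] at hd
    linear_combination hd
  refine ⟨!![1, 0, 0; M 1 0, a, 0; M 2 0, (M 2 1 - M 2 0 * M 0 1) * a, a⁻¹],
    !![1, M 0 1, M 0 2; 0, a⁻¹, a⁻¹ * (M 1 2 - M 1 0 * M 0 2); 0, 0, a], ?_, ?_, ?_⟩
  · ext i j
    fin_cases i <;> fin_cases j <;> simp [Matrix.mul_apply, Fin.sum_univ_three, h0, h1', h2] <;>
      field_simp <;> ring
  · refine charpoly_eq_fp ?_ ?_ ?_
    · simp [tr]; ring
    · simp [c2]; field_simp; ring
    · simp [det_fin_three, ha]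
  · refine charpoly_eq_fp ?_ ?_ ?_
    · simp [tr]; ring
    · simp [c2]; field_simp; ring
    · simp [det_fin_three, ha]

theorem good_B {a : F} (ha : a ≠ 0) {M : Matrix (Fin 3) (Fin 3) F} (h0 : M 0 0 = 1)
    (h1 : M 1 2 - M 1 0 * M 0 2 ≠ 0) (hd : M.det = 1) : Good (a + a⁻¹) M := by
  obtain ⟨c, hc⟩ : ∃ c, c * (M 1 2 - M 1 0 * M 0 2) = 1 - (M 1 1 - M 1 0 * M 0 1) :=
    ⟨_, div_mul_cancel₀ _ h1⟩
  have hQ : !![1, 0, 0; 0, 1, 0; 0, c, 1] * !![1, 0, 0; 0, 1, 0; 0, -c, 1] =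
      (1 : Matrix (Fin 3) (Fin 3) F) := by
    ext i j
    fin_cases i <;> fin_cases j <;> simp [Matrix.mul_apply, Fin.sum_univ_three]
  refine good_of_conj _ _ hQ (good_lu ha ?_ ?_ (det_conj hQ hd))
  · simp [Matrix.mul_apply, Fin.sum_univ_three, h0, Matrix.vecMul, dotProduct]
  · simp [Matrix.mul_apply, Fin.sum_univ_three, h0, Matrix.vecMul, dotProduct]
    linear_combination hc

theorem good_A {a : F} (ha : a ≠ 0) {M : Matrix (Fin 3) (Fin 3) F} (h0 : M 0 0 = 1)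
    (h1 : M 2 1 - M 2 0 * M 0 1 ≠ 0) (hd : M.det = 1) : Good (a + a⁻¹) M := by
  obtain ⟨c, hc⟩ : ∃ c, c * (M 2 1 - M 2 0 * M 0 1) = (M 1 1 - M 1 0 * M 0 1) - 1 :=
    ⟨_, div_mul_cancel₀ _ h1⟩
  have hQ : !![1, 0, 0; 0, 1, c; 0, 0, 1] * !![1, 0, 0; 0, 1, -c; 0, 0, 1] =
      (1 : Matrix (Fin 3) (Fin 3) F) := by
    ext i j
    fin_cases i <;> fin_cases j <;> simp [Matrix.mul_apply, Fin.sum_univ_three]
  refine good_of_conj _ _ hQ (good_lu ha ?_ ?_ (det_conj hQ hd))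
  · simp [Matrix.mul_apply, Fin.sum_univ_three, h0, Matrix.vecMul, dotProduct]
  · simp [Matrix.mul_apply, Fin.sum_univ_three, h0, Matrix.vecMul, dotProduct]
    linear_combination -hc

theorem good_std {a : F} (ha : a ≠ 0) {M : Matrix (Fin 3) (Fin 3) F} (h0 : M 0 0 = 1)
    (h10 : M 1 0 = 1) (h20 : M 2 0 = 0) (hd : M.det = 1) : Good (a + a⁻¹) M := by
  by_cases hB : M 1 2 - M 1 0 * M 0 2 = 0
  swap
  · exact good_B ha h0 hB hd
  by_cases hA : M 2 1 - M 2 0 * M 0 1 = 0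
  swap
  · exact good_A ha h0 hA hd
  rw [h10] at hB
  rw [h20] at hA
  have h12 : M 1 2 = M 0 2 := by linear_combination hB
  have h21 : M 2 1 = 0 := by linear_combination hA
  by_cases hC : M 1 1 - M 0 1 = M 2 2
  · have hQ : !![1, 0, 1; 0, 1, 0; 0, 0, 1] * !![1, 0, -1; 0, 1, 0; 0, 0, 1] =
        (1 : Matrix (Fin 3) (Fin 3) F) := by
      ext i j
      fin_cases i <;> fin_cases j <;> simp [Matrix.mul_apply, Fin.sum_univ_three]
    have h22 : M 2 2 ≠ 0 := by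
      intro h
      rw [det_fin_three, h20, h21, h] at hd
      simp at hd
    refine good_of_conj _ _ hQ (good_B ha ?_ ?_ (det_conj hQ hd))
    · simp [Matrix.mul_apply, Fin.sum_univ_three, h0, h20, Matrix.vecMul, dotProduct]
    · simp [Matrix.mul_apply, Fin.sum_univ_three, h0, h10, h20, h21, h12, Matrix.vecMul,
        dotProduct]
      intro h
      exact h22 (by linear_combination h)
  · have hQ : !![1, 0, 0; 0, 1, 1; 0, 0, 1] * !![1, 0, 0; 0, 1, -1; 0, 0, 1] =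
        (1 : Matrix (Fin 3) (Fin 3) F) := by
      ext i j
      fin_cases i <;> fin_cases j <;> simp [Matrix.mul_apply, Fin.sum_univ_three]
    refine good_of_conj _ _ hQ (good_B ha ?_ ?_ (det_conj hQ hd))
    · simp [Matrix.mul_apply, Fin.sum_univ_three, h0, h20, Matrix.vecMul, dotProduct]
    · simp [Matrix.mul_apply, Fin.sum_univ_three, h0, h10, h20, h21, h12, Matrix.vecMul,
        dotProduct]
      intro h
      exact hC (by linear_combination h)

theorem exists_not_eigen {M : Matrix (Fin 3) (Fin 3) F} (h : ∀ c : F, M ≠ c • 1) :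
    ∃ v : Fin 3 → F, LinearIndependent F ![v, M *ᵥ v - v] := by
  by_contra hne
  push Not at hne
  have key : ∀ v : Fin 3 → F, v ≠ 0 → ∃ c : F, M *ᵥ v = c • v := fun v hv => by
    have := hne v
    rw [LinearIndependent.pair_iff' hv] at this
    push Not at this
    obtain ⟨c, hc⟩ := this
    exact ⟨c + 1, by rw [add_smul, hc, one_smul, sub_add_cancel]⟩
  have e : ∀ v : Fin 3 → F, v ≠ 0 → ∃ c : F, ∀ i, M i 0 * v 0 + M i 1 * v 1 + M i 2 * v 2 = c * v i :=
    fun v hv => by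
      obtain ⟨c, hc⟩ := key v hv
      exact ⟨c, fun i => by simpa [Matrix.mulVec, dotProduct, Fin.sum_univ_three] using congrFun hc i⟩
  obtain ⟨c0, h0⟩ := e ![1, 0, 0] (fun h => by simpa using congrFun h 0)
  obtain ⟨c1, h1⟩ := e ![0, 1, 0] (fun h => by simpa using congrFun h 1)
  obtain ⟨c2, h2⟩ := e ![0, 0, 1] (fun h => by simpa using congrFun h 2)
  obtain ⟨c3, h3⟩ := e ![1, 1, 1] (fun h => by simpa using congrFun h 2)
  have a0 := h0 0; have a1 := h0 1; have a2 := h0 2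
  have b0 := h1 0; have b1 := h1 1; have b2 := h1 2
  have d0 := h2 0; have d1 := h2 1; have d2 := h2 2
  have e0 := h3 0; have e1 := h3 1; have e2 := h3 2
  simp at a0 a1 a2 b0 b1 b2 d0 d1 d2 e0 e1 e2
  refine h c3 ?_
  ext i j
  fin_cases i <;> fin_cases j <;> simp [a1, a2, b0, b2, d0, d1] at e0 e1 e2 ⊢ <;> assumption

theorem exists_std {M : Matrix (Fin 3) (Fin 3) F} (h : ∀ c : F, M ≠ c • 1) :
    ∃ Q Q' : Matrix (Fin 3) (Fin 3) F, Q * Q' = 1 ∧ (Q' * M * Q) 0 0 = 1 ∧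
      (Q' * M * Q) 1 0 = 1 ∧ (Q' * M * Q) 2 0 = 0 := by
  obtain ⟨v, hv⟩ := exists_not_eigen h
  obtain ⟨w, hw⟩ := exists_linearIndependent_snoc_of_lt_finrank hv (by simp)
  set Q : Matrix (Fin 3) (Fin 3) F := (Matrix.of (Fin.snoc ![v, M *ᵥ v - v] w : Fin 3 → Fin 3 → F))ᵀ
    with hQ
  have hu : IsUnit Q := by
    rw [← Matrix.linearIndependent_cols_iff_isUnit]
    exact hw
  obtain ⟨Q', hQ'⟩ := hu.exists_right_inv
  have hQ'' : Q' * Q = 1 := mul_eq_one_comm.1 hQ'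
  have e1 : Q *ᵥ ![1, 0, 0] = v := by
    ext i
    simp [hQ, Matrix.mulVec, dotProduct, Fin.sum_univ_three]
  have e2 : Q *ᵥ ![1, 1, 0] = M *ᵥ v := by
    ext i
    have h0 : Q i 0 = v i := rfl
    have h1 : Q i 1 = (M *ᵥ v - v) i := rfl
    simp [Matrix.mulVec, dotProduct, Fin.sum_univ_three, h0, h1]
  have e3 : (Q' * M * Q) *ᵥ ![1, 0, 0] = ![1, 1, 0] := by
    rw [← Matrix.mulVec_mulVec, ← Matrix.mulVec_mulVec, e1, ← e2, Matrix.mulVec_mulVec, hQ'',
      Matrix.one_mulVec]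
  refine ⟨Q, Q', hQ', ?_, ?_, ?_⟩
  · simpa [Matrix.mulVec, dotProduct, Fin.sum_univ_three] using congrFun e3 0
  · simpa [Matrix.mulVec, dotProduct, Fin.sum_univ_three] using congrFun e3 1
  · simpa [Matrix.mulVec, dotProduct, Fin.sum_univ_three] using congrFun e3 2

theorem squarefree_fp {τ : F} (h : τ ^ 2 ≠ 4) : Squarefree (fp τ) := by
  have h1 : τ ^ 2 - 4 ≠ 0 := sub_ne_zero.2 h
  have h2 : 2 - τ ≠ 0 := by
    intro h2
    apply h
    have : τ = 2 := by linear_combination -h2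
    rw [this]; norm_num
  refine Polynomial.Separable.squarefree (Polynomial.Separable.mul separable_X_sub_C ?_ ?_)
  · rw [Polynomial.separable_def']
    refine ⟨C (τ ^ 2 - 4)⁻¹ * (-4), C (τ ^ 2 - 4)⁻¹ * (2 * X - C τ), ?_⟩
    have : derivative (X ^ 2 - C τ * X + 1 : F[X]) = 2 * X - C τ := by
      simp [derivative_sub, derivative_mul]
      try ring
    rw [this]
    have e : C (τ ^ 2 - 4)⁻¹ * C (τ ^ 2 - 4) = (1 : F[X]) := by
      rw [← map_mul, inv_mul_cancel₀ h1, map_one]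
    simp only [map_sub, map_pow, map_ofNat] at e
    linear_combination e
  · refine ⟨C (2 - τ)⁻¹ * (-(X + 1 - C τ)), C (2 - τ)⁻¹, ?_⟩
    have e : C (2 - τ)⁻¹ * C (2 - τ) = (1 : F[X]) := by
      rw [← map_mul, inv_mul_cancel₀ h2, map_one]
    simp only [map_sub, map_one, map_ofNat] at e ⊢
    linear_combination e

end

def L3 : List (Matrix (Fin 3) (Fin 3) (ZMod 3) × Matrix (Fin 3) (Fin 3) (ZMod 3)) :=
  [(!![1, 0, 0; 1, 0, 1; 0, 2, 0], !![1, 0, 0; 0, 0, 2; 2, 1, 0]),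
   (!![1, 1, 0; 1, 2, 0; 0, 1, 1], !![2, 2, 0; 2, 1, 0; 1, 2, 1]),
   (!![1, 1, 0; 1, 2, 0; 0, 2, 1], !![2, 2, 0; 2, 1, 0; 2, 1, 1]),
   (!![1, 0, 0; 1, 1, 1; 0, 1, 2], !![1, 0, 0; 1, 2, 2; 1, 2, 1]),
   (!![1, 1, 0; 1, 2, 1; 0, 0, 1], !![2, 2, 1; 2, 1, 2; 0, 0, 1]),
   (!![1, 1, 0; 1, 2, 2; 0, 0, 1], !![2, 2, 2; 2, 1, 1; 0, 0, 1])]

theorem L3_ok : ∀ P ∈ L3, P.1 * P.2 = 1 ∧ tr P.1 = 1 ∧ c2 P.1 = 1 ∧ P.1.det = 1 := by
  intro P hP
  simp only [L3, List.mem_cons, List.not_mem_nil, or_false] at hP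
  rcases hP with rfl | rfl | rfl | rfl | rfl | rfl <;>
  · refine ⟨?_, by decide, by decide, ?_⟩
    · ext i j
      rw [Matrix.mul_apply, Fin.sum_univ_three]
      fin_cases i <;> fin_cases j <;> decide
    · rw [det_fin_three]
      decide

theorem L3_cover' : ∀ a b c d e f : ZMod 3, c * f - d * e - a * f + b * e = 1 →
    ∃ P ∈ L3, (P.2 0 0 + P.2 0 1) + (P.2 1 0 * a + P.2 1 1 * c + P.2 1 2 * e) +
      (P.2 2 0 * b + P.2 2 1 * d + P.2 2 2 * f) = 1 ∧
      (P.2 0 0 + P.2 0 1) * (P.2 1 0 * a + P.2 1 1 * c + P.2 1 2 * e) -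
      (P.2 0 0 * a + P.2 0 1 * c + P.2 0 2 * e) * (P.2 1 0 + P.2 1 1) +
      (P.2 0 0 + P.2 0 1) * (P.2 2 0 * b + P.2 2 1 * d + P.2 2 2 * f) -
      (P.2 0 0 * b + P.2 0 1 * d + P.2 0 2 * f) * (P.2 2 0 + P.2 2 1) +
      (P.2 1 0 * a + P.2 1 1 * c + P.2 1 2 * e) * (P.2 2 0 * b + P.2 2 1 * d + P.2 2 2 * f) -
      (P.2 1 0 * b + P.2 1 1 * d + P.2 1 2 * f) * (P.2 2 0 * a + P.2 2 1 * c + P.2 2 2 * e) = 1 := by
  intro a b
  fin_cases a <;> fin_cases b <;> decide +kernel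

theorem L3_cover (a b c d e f : ZMod 3) (h : c * f - d * e - a * f + b * e = 1) :
    ∃ P ∈ L3, tr (P.2 * !![1, a, b; 1, c, d; 0, e, f]) = 1 ∧
      c2 (P.2 * !![1, a, b; 1, c, d; 0, e, f]) = 1 := by
  obtain ⟨P, hP, h1, h2⟩ := L3_cover' a b c d e f h
  refine ⟨P, hP, ?_, ?_⟩
  · simpa [tr, Matrix.mul_apply, Fin.sum_univ_three] using h1
  · simpa [c2, Matrix.mul_apply, Fin.sum_univ_three] using h2

theorem zmod_three : ¬ ((0 : ZMod 3) ^ 2 = 4) := by decide

theorem good_three {M : Matrix (Fin 3) (Fin 3) (ZMod 3)} (h0 : M 0 0 = 1)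
    (h10 : M 1 0 = 1) (h20 : M 2 0 = 0) (hd : M.det = 1) : Good 0 M := by
  have hM : M = !![1, M 0 1, M 0 2; 1, M 1 1, M 1 2; 0, M 2 1, M 2 2] := by
    conv_lhs => rw [Matrix.eta_fin_three M, h0, h10, h20]
  have hd' := hd
  rw [det_fin_three, h0, h10, h20] at hd'
  obtain ⟨P, hP, h1, h2⟩ := L3_cover (M 0 1) (M 0 2) (M 1 1) (M 1 2) (M 2 1) (M 2 2)
    (by linear_combination hd')
  rw [← hM] at h1 h2
  obtain ⟨k1, k2, k3, k4⟩ := L3_ok P hP
  refine ⟨P.1, P.2 * M, by rw [← mul_assoc, k1, one_mul],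
    charpoly_eq_fp (by rw [k2, add_zero]) (by rw [k3, add_zero]) k4,
    charpoly_eq_fp (by rw [h1, add_zero]) (by rw [h2, add_zero]) ?_⟩
  have := congrArg Matrix.det k1
  rw [det_mul, k4, one_mul, det_one] at this
  rw [det_mul, this, hd, one_mul]

theorem good_map {R S : Type*} [CommRing R] [CommRing S] (φ : R →+* S) {τ : R}
    {M : Matrix (Fin 3) (Fin 3) R} (h : Good τ M) : Good (φ τ) (M.map φ) := by
  obtain ⟨B, D, rfl, hB, hD⟩ := h
  have e : (fp τ).map φ = fp (φ τ) := by simp [fp]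
  exact ⟨B.map φ, D.map φ, Matrix.map_mul, by rw [Matrix.charpoly_map, hB, e],
    by rw [Matrix.charpoly_map, hD, e]⟩

theorem exists_tau {F : Type*} [Field F] [Fintype F] (h3 : 3 ≤ Fintype.card F) :
    ∃ τ : F, τ ^ 2 ≠ 4 ∧ ∀ M : Matrix (Fin 3) (Fin 3) F, M 0 0 = 1 → M 1 0 = 1 → M 2 0 = 0 →
      M.det = 1 → Good τ M := by
  classical
  rcases h3.eq_or_lt with h | h
  · have : Fact (Nat.Prime 3) := ⟨Nat.prime_three⟩
    have e : ZMod 3 ≃+* F := ZMod.ringEquivOfPrime F Nat.prime_three h.symm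
    refine ⟨0, ?_, fun M h0 h1 h2 hd => ?_⟩
    · intro h4
      have h5 : e 0 ^ 2 = e 4 := by rw [map_zero, h4, map_ofNat]
      rw [← map_pow] at h5
      exact zmod_three (e.injective h5)
    · have := good_map (e : ZMod 3 →+* F) (good_three (M := M.map e.symm) (by simp [h0])
        (by simp [h1]) (by simp [h2]) (by
          have := (e.symm : F →+* ZMod 3).map_det M
          rw [hd, map_one] at this
          exact this.symm))
      rw [map_zero, Matrix.map_map] at this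
      convert this
      ext i j
      simp
  · obtain ⟨a, ha⟩ : ∃ a : F, a ∉ ({0, 1, -1} : Finset F) := by
      by_contra hne
      push Not at hne
      have : (Finset.univ : Finset F) ⊆ {0, 1, -1} := fun a _ => hne a
      have h1 := Finset.card_le_card this
      have h2 : ({0, 1, -1} : Finset F).card ≤ 3 := Finset.card_le_three
      rw [Finset.card_univ] at h1
      omega
    simp only [Finset.mem_insert, Finset.mem_singleton, not_or] at ha
    obtain ⟨h0, h1, h2⟩ := ha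
    refine ⟨a + a⁻¹, fun h4 => ?_, fun M k0 k1 k2 hd => good_std h0 k0 k1 k2 hd⟩
    have h5 : ((a - 1) * (a + 1)) ^ 2 = 0 := by
      field_simp at h4
      linear_combination h4
    rcases mul_eq_zero.1 (pow_eq_zero_iff two_ne_zero |>.1 h5) with h | h
    · exact h1 (by linear_combination h)
    · exact h2 (by linear_combination h)

theorem det_of_fp {F : Type*} [Field F] {τ : F} {B : Matrix (Fin 3) (Fin 3) F}
    (h : B.charpoly = fp τ) : B.det = 1 := by
  have := congrArg (Polynomial.eval 0) h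
  rw [charpoly_three, fp] at this
  simpa using this

theorem coprime_of_fp {F : Type*} [Field F] [Fintype F] (p : ℕ) [Fact p.Prime] [CharP F p]
    {τ : F} (hτ : τ ^ 2 ≠ 4) (B : Matrix.SpecialLinearGroup (Fin 3) F)
    (h : (B : Matrix (Fin 3) (Fin 3) F).charpoly = fp τ) : (orderOf B).Coprime p := by
  classical
  have h1 := (H76.coprime_orderOf_iff p (Matrix.SpecialLinearGroup.toGL B)
    (isOfFinOrder_of_finite _)).2
    (H76.exp_eq_one_of_aeval_squarefree _ (squarefree_fp hτ) (by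
      rw [← h]; exact Matrix.aeval_self_charpoly _))
  rwa [orderOf_injective _ Matrix.SpecialLinearGroup.toGL_injective] at h1

/-- A form of Thompson's conjecture for PSL(3,q), q > 2 (covering the non-identity elements), with a semisimple class: for F a finite field of characteristic p with more than 2 elements there is an element x of PSL(3,F) of order prime to p such that every non-identity element of PSL(3,F) is a product of two conjugates of x. -/
theorem result {F : Type*} [Field F] [Fintype F] (p : ℕ) [Fact p.Prime] [CharP F p] (h3 : 3 ≤ Fintype.card F) :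
    ∃ x : Matrix.ProjectiveSpecialLinearGroup (Fin 3) F, ¬ p ∣ orderOf x ∧ ∀ g : Matrix.ProjectiveSpecialLinearGroup (Fin 3) F, g ≠ 1 → ∃ u v : Matrix.ProjectiveSpecialLinearGroup (Fin 3) F, g = (u * x * u⁻¹) * (v * x * v⁻¹) := by
  classical
  obtain ⟨τ, hτ, hg⟩ := exists_tau h3
  have hx : (!![1, 0, 0; 0, 0, -1; 0, 1, τ] : Matrix (Fin 3) (Fin 3) F).charpoly = fp τ :=
    charpoly_eq_fp (by simp [tr]) (by simp [c2]; ring) (by simp [det_fin_three])
  set x : Matrix.SpecialLinearGroup (Fin 3) F := ⟨_, det_of_fp hx⟩ with hxd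
  have hxo := coprime_of_fp p hτ x hx
  refine ⟨QuotientGroup.mk x, fun h => ?_, fun g hg1 => ?_⟩
  · have h1 : p ∣ orderOf x := h.trans (orderOf_map_dvd (QuotientGroup.mk' _) x)
    exact (Fact.out : p.Prime).one_lt.ne' (Nat.eq_one_of_dvd_coprimes hxo h1 dvd_rfl)
  · obtain ⟨g, rfl⟩ := QuotientGroup.mk_surjective g
    have hns : ∀ c : F, (g : Matrix (Fin 3) (Fin 3) F) ≠ c • 1 := by
      intro c hc
      apply hg1
      rw [QuotientGroup.eq_one_iff, Subgroup.mem_center_iff]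
      intro y
      apply Subtype.ext
      simp [hc]
    obtain ⟨Q, Q', hQ, k0, k1, k2⟩ := exists_std hns
    obtain ⟨B, D, hBD, hB, hD⟩ := good_of_conj Q Q' hQ (hg _ k0 k1 k2 (det_conj hQ g.2))
    set B' : Matrix.SpecialLinearGroup (Fin 3) F := ⟨B, det_of_fp hB⟩
    set D' : Matrix.SpecialLinearGroup (Fin 3) F := ⟨D, det_of_fp hD⟩
    obtain ⟨u, hu⟩ := isConj_iff.1 (S2388.result p 3 x B' hxo (coprime_of_fp p hτ B' hB)
      (hx.trans hB.symm))
    obtain ⟨v, hv⟩ := isConj_iff.1 (S2388.result p 3 x D' hxo (coprime_of_fp p hτ D' hD)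
      (hx.trans hD.symm))
    refine ⟨QuotientGroup.mk u, QuotientGroup.mk v, ?_⟩
    have : g = (u * x * u⁻¹) * (v * x * v⁻¹) := by
      rw [hu, hv]
      exact Subtype.ext hBD
    rw [this]
    rfl

end Cfsg.Agent.S2459
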