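import Cfsg.Statements.S2460
import Cfsg.Agent.S2389
import Cfsg.Agent.H76.Classes
import Cfsg.Agent.H22.SpCell

set_option autoImplicit false
open Cfsg

namespace Cfsg.Agent.S2460


open Matrix Polynomial H22.SpCell H27

abbrev I4 := Fin 2 ⊕ Fin 2

section
variable {F : Type*} [Field F]

noncomputable def fq (t n : F) : F[X] :=
  (X ^ 2 - C t * X + C n) * (X ^ 2 - C (t * n⁻¹) * X + C n⁻¹)

def Solv (t n : F) : Prop :=
  ∀ a b c d : F, ¬ (a = 0 ∧ d = 0 ∧ b + c = 0) → ∃ x y z : F,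
    x * d + z * a - y * (b + c) = (t + t * n⁻¹) * (a * d - b * c) ∧
    x * z - y ^ 2 = (n + n⁻¹ + t ^ 2 * n⁻¹) * (a * d - b * c) - 2 * a * d + b ^ 2 + c ^ 2

def Good (t n : F) (g : symplecticGroup (Fin 2) F) : Prop :=
  ∃ M₁ M₂ : symplecticGroup (Fin 2) F, g = M₁ * M₂ ∧
    (M₁ : Matrix I4 I4 F).charpoly = fq t n ∧ (M₂ : Matrix I4 I4 F).charpoly = fq t n

theorem charpoly_conj (P M : symplecticGroup (Fin 2) F) :
    ((P * M * P⁻¹ : symplecticGroup (Fin 2) F) : Matrix I4 I4 F).charpoly =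
      (M : Matrix I4 I4 F).charpoly := by
  rw [Submonoid.coe_mul, Matrix.charpoly_mul_comm, ← Submonoid.coe_mul, inv_mul_cancel_left]

theorem good_of_conj {t n : F} {g : symplecticGroup (Fin 2) F} (P : symplecticGroup (Fin 2) F)
    (h : Good t n (P⁻¹ * g * P)) : Good t n g := by
  obtain ⟨M₁, M₂, e, h1, h2⟩ := h
  refine ⟨P * M₁ * P⁻¹, P * M₂ * P⁻¹, ?_, by rw [charpoly_conj, h1], by rw [charpoly_conj, h2]⟩
  have : g = P * (P⁻¹ * g * P) * P⁻¹ := by group
  rw [this, e]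
  group

theorem charpoly_two (a b c d : F) : (!![a, b; c, d] : Matrix (Fin 2) (Fin 2) F).charpoly =
    X ^ 2 - C (a + d) * X + C (a * d - b * c) := by
  rw [Matrix.charpoly_fin_two]
  simp [Matrix.trace_fin_two, Matrix.det_fin_two]

theorem good_cell_aux {t n : F} (hn : n ≠ 0) (hs : Solv t n) {g : symplecticGroup (Fin 2) F}
    {B Cm D₀ : Matrix (Fin 2) (Fin 2) F} (hg : (g : Matrix I4 I4 F) = fromBlocks 0 B Cm D₀)
    (hC : Cm.det ≠ 0) {Z Y : Matrix (Fin 2) (Fin 2) F} (hXY : Z * Y = 1)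
    (hZ : Z.charpoly = X ^ 2 - C t * X + C n)
    (hY : Y.charpoly = X ^ 2 - C (t * n⁻¹) * X + C n⁻¹)
    (hD : ¬ ((Z * Cm⁻¹) 0 0 = 0 ∧ (Z * Cm⁻¹) 1 1 = 0 ∧ (Z * Cm⁻¹) 0 1 + (Z * Cm⁻¹) 1 0 = 0)) :
    Good t n g := by
  have hu : IsUnit Cm.det := isUnit_iff_ne_zero.2 hC
  set D := Z * Cm⁻¹ with hDd
  have hDE : D * (Cm * Y) = 1 := by
    rw [hDd, Matrix.mul_assoc, ← Matrix.mul_assoc Cm⁻¹, Matrix.nonsing_inv_mul _ hu,
      Matrix.one_mul, hXY]
  have hE : Cm * Y * Z = Cm := by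
    rw [Matrix.mul_assoc, mul_eq_one_comm.1 hXY, Matrix.mul_one]
  obtain ⟨x, y, z, h1, h2⟩ := hs _ _ _ _ hD
  obtain ⟨M₁, M₂, W, e, k1, k2⟩ := cell_factor g hg hXY hDE hE (S := !![x, y; y, z])
    (by ext i j; fin_cases i <;> fin_cases j <;> rfl)
  refine ⟨M₁, M₂, e, ?_, ?_⟩
  · have hd : D.det ≠ 0 := by
      intro h
      have := congrArg Matrix.det hDE
      rw [det_mul, h, zero_mul, det_one] at this
      exact zero_ne_one this
    have h3 := charpoly_cell !![x, y; y, z] hDE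
    rw [← k1] at h3
    apply mul_left_cancel₀ (C_ne_zero.2 hd)
    rw [h3, det_fin_two, det_fin_two D, fq]
    have g1 := congrArg (C : F →+* F[X]) h1
    have g2 := congrArg (C : F →+* F[X]) h2
    have g3 : (C n : F[X]) * C n⁻¹ = 1 := by rw [← map_mul, mul_inv_cancel₀ hn, map_one]
    simp only [map_add, map_sub, map_mul, map_pow, map_ofNat] at g1 g2 ⊢
    simp only [Matrix.add_apply, Matrix.sub_apply, Matrix.smul_apply, Matrix.map_apply,
      Matrix.transpose_apply, smul_eq_mul, Matrix.of_apply, Matrix.cons_val', Matrix.cons_val_zero,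
      Matrix.cons_val_one, Matrix.cons_val_fin_one]
    linear_combination (-(X ^ 3 + X)) * g1 + X ^ 2 * g2 +
      (C (D 0 0) * C (D 1 1) - C (D 0 1) * C (D 1 0)) * (C t * X - 1) * g3
  · rw [k2, charpoly_fromBlocks_zero₂₁, charpoly_transpose, hZ, hY, fq]

theorem good_cell {t n : F} (hn : n ≠ 0) (ht : t ≠ 0) (hs : Solv t n)
    {g : symplecticGroup (Fin 2) F}
    {B Cm D₀ : Matrix (Fin 2) (Fin 2) F} (hg : (g : Matrix I4 I4 F) = fromBlocks 0 B Cm D₀)
    (hC : Cm.det ≠ 0) : Good t n g := by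
  by_cases h1 : ((!![0, -n; 1, t] * Cm⁻¹) 0 0 = 0 ∧ (!![0, -n; 1, t] * Cm⁻¹) 1 1 = 0 ∧
      (!![0, -n; 1, t] * Cm⁻¹) 0 1 + (!![0, -n; 1, t] * Cm⁻¹) 1 0 = 0)
  · refine good_cell_aux hn hs hg hC (Z := !![t, -n; 1, 0]) (Y := !![0, 1; -n⁻¹, t * n⁻¹])
      ?_ (by rw [charpoly_two]; simp) (by rw [charpoly_two]; simp) ?_
    · ext i j
      fin_cases i <;> fin_cases j <;> simp [Matrix.mul_apply, Fin.sum_univ_two]
      · field_simp
      · field_simp
        ring
    · rintro ⟨k1, -, -⟩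
      obtain ⟨k2, -, -⟩ := h1
      simp only [Matrix.mul_apply, Fin.sum_univ_two, Matrix.of_apply, Matrix.cons_val',
        Matrix.cons_val_zero, Matrix.cons_val_one, Matrix.cons_val_fin_one] at k1 k2
      have k3 : Cm⁻¹ 1 0 = 0 := by
        apply mul_left_cancel₀ hn
        linear_combination -k2
      have k4 : Cm⁻¹ 0 0 = 0 := by
        apply mul_left_cancel₀ ht
        linear_combination k1 + n * k3
      have k5 := Matrix.det_nonsing_inv_mul_det Cm (isUnit_iff_ne_zero.2 hC)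
      rw [det_fin_two, k3, k4] at k5
      simp at k5
  · refine good_cell_aux hn hs hg hC (Z := !![0, -n; 1, t]) (Y := !![t * n⁻¹, 1; -n⁻¹, 0])
      ?_ (by rw [charpoly_two]; simp) (by rw [charpoly_two]; simp) h1
    ext i j
    fin_cases i <;> fin_cases j <;> simp [Matrix.mul_apply, Fin.sum_univ_two, hn]

theorem good_pair {t n : F} (hn : n ≠ 0) (ht : t ≠ 0) (hs : Solv t n)
    (g : symplecticGroup (Fin 2) F) (v w : I4 → F) (h0 : jBilin (Fin 2) F v w = 0)
    (h1 : jBilin (Fin 2) F v ((g : Matrix I4 I4 F) *ᵥ v) * jBilin (Fin 2) F w ((g : Matrix I4 I4 F) *ᵥ w)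
      - jBilin (Fin 2) F v ((g : Matrix I4 I4 F) *ᵥ w) * jBilin (Fin 2) F w ((g : Matrix I4 I4 F) *ᵥ v)
      ≠ 0) : Good t n g := by
  set R : Matrix I4 (Fin 2) F := Matrix.of fun i j => ![v, w] j i with hR
  have e : ∀ (A : Matrix I4 I4 F) (i j : Fin 2), (Rᵀ * J (Fin 2) F * A * R) i j =
      jBilin (Fin 2) F (![v, w] i) (A *ᵥ (![v, w] j)) := by
    intro A i j
    rw [jBilin_apply, Matrix.mulVec_mulVec, Matrix.mul_assoc Rᵀ, Matrix.mul_assoc Rᵀ]
    rfl
  have k0 : Rᵀ * J (Fin 2) F * R = 0 := by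
    ext i j
    have := e 1 i j
    rw [Matrix.mul_one, Matrix.one_mulVec] at this
    rw [this]
    fin_cases i <;> fin_cases j
    · exact jBilin_isAlt v
    · exact h0
    · show jBilin (Fin 2) F w v = 0
      rw [← jBilin_isAlt.neg_eq, h0, neg_zero]
    · exact jBilin_isAlt w
  have k1 : (Rᵀ * J (Fin 2) F * (g : Matrix I4 I4 F) * R).det ≠ 0 := by
    rw [det_fin_two, e, e, e, e]
    exact h1
  obtain ⟨P, B, D, hP⟩ := exists_conj_of_frame g R k0 k1
  refine good_of_conj P (good_cell hn ht hs hP ?_)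
  rw [det_neg]
  simpa using k1

theorem good_unip {t n : F} (hn : n ≠ 0) {g : symplecticGroup (Fin 2) F}
    {S : Matrix (Fin 2) (Fin 2) F} (hg : (g : Matrix I4 I4 F) = fromBlocks 1 S 0 1) :
    Good t n g := by
  have hXY : (!![0, -n; 1, t] : Matrix (Fin 2) (Fin 2) F) * !![t * n⁻¹, 1; -n⁻¹, 0] = 1 := by
    ext i j
    fin_cases i <;> fin_cases j <;> simp [Matrix.mul_apply, Fin.sum_univ_two, hn]
  have hYX := mul_eq_one_comm.1 hXY
  have c1 : (!![0, -n; 1, t] : Matrix (Fin 2) (Fin 2) F).charpoly = X ^ 2 - C t * X + C n := by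
    rw [charpoly_two]; simp
  have c2 : (!![t * n⁻¹, 1; -n⁻¹, 0] : Matrix (Fin 2) (Fin 2) F).charpoly =
      X ^ 2 - C (t * n⁻¹) * X + C n⁻¹ := by
    rw [charpoly_two]; simp
  refine ⟨⟨_, levi_mem hYX⟩, ⟨_, levi_mem hXY⟩ * g, ?_, ?_, ?_⟩
  · rw [← mul_assoc]
    have : (⟨_, levi_mem hYX⟩ * ⟨_, levi_mem hXY⟩ : symplecticGroup (Fin 2) F) = 1 := by
      apply Subtype.ext
      rw [Submonoid.coe_mul, fromBlocks_multiply, hYX, ← transpose_mul, hYX]
      simp
    rw [this, one_mul]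
  · rw [charpoly_fromBlocks_zero₂₁, charpoly_transpose, c1, c2, fq, mul_comm]
  · rw [Submonoid.coe_mul, hg, fromBlocks_multiply]
    simp only [Matrix.mul_one, Matrix.zero_mul, add_zero, Matrix.mul_zero, zero_add]
    rw [charpoly_fromBlocks_zero₂₁, charpoly_transpose, c1, c2, fq]

end

section
variable {F : Type*} [Field F]

def vec (a b c d : F) : I4 → F := Sum.elim ![a, b] ![c, d]

theorem jB_vec (a b c d a' b' c' d' : F) : jBilin (Fin 2) F (vec a b c d) (vec a' b' c' d') =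
    c * a' - a * c' + (d * b' - b * d') := by
  rw [jBilin_apply_sum, Fin.sum_univ_two]
  simp [vec]

theorem mul_vec (a1 a2 a3 a4 b1 b2 b3 b4 c1 c2 c3 c4 d1 d2 d3 d4 x y z w : F) :
    fromBlocks !![a1, a2; a3, a4] !![b1, b2; b3, b4] !![c1, c2; c3, c4] !![d1, d2; d3, d4] *ᵥ
      vec x y z w = vec (a1 * x + a2 * y + (b1 * z + b2 * w)) (a3 * x + a4 * y + (b3 * z + b4 * w))
        (c1 * x + c2 * y + (d1 * z + d2 * w)) (c3 * x + c4 * y + (d3 * z + d4 * w)) := by
  ext i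
  rcases i with i | i <;> fin_cases i <;>
    simp [vec, Matrix.mulVec, dotProduct, Fintype.sum_sum_type, Fin.sum_univ_two]

theorem exists_entries (A : Matrix I4 I4 F) :
    ∃ a1 a2 a3 a4 b1 b2 b3 b4 c1 c2 c3 c4 d1 d2 d3 d4 : F,
      A = fromBlocks !![a1, a2; a3, a4] !![b1, b2; b3, b4] !![c1, c2; c3, c4] !![d1, d2; d3, d4] := by
  refine ⟨A.toBlocks₁₁ 0 0, A.toBlocks₁₁ 0 1, A.toBlocks₁₁ 1 0, A.toBlocks₁₁ 1 1,
    A.toBlocks₁₂ 0 0, A.toBlocks₁₂ 0 1, A.toBlocks₁₂ 1 0, A.toBlocks₁₂ 1 1,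
    A.toBlocks₂₁ 0 0, A.toBlocks₂₁ 0 1, A.toBlocks₂₁ 1 0, A.toBlocks₂₁ 1 1,
    A.toBlocks₂₂ 0 0, A.toBlocks₂₂ 0 1, A.toBlocks₂₂ 1 0, A.toBlocks₂₂ 1 1, ?_⟩
  rw [← Matrix.eta_fin_two A.toBlocks₁₁, ← Matrix.eta_fin_two A.toBlocks₁₂,
    ← Matrix.eta_fin_two A.toBlocks₂₁, ← Matrix.eta_fin_two A.toBlocks₂₂, fromBlocks_toBlocks]

theorem vec_inj {a b c d a' b' c' d' : F} (h : vec a b c d = vec a' b' c' d') :
    a = a' ∧ b = b' ∧ c = c' ∧ d = d' :=
  ⟨congrFun h (Sum.inl 0), congrFun h (Sum.inl 1), congrFun h (Sum.inr 0), congrFun h (Sum.inr 1)⟩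

def ng (g : symplecticGroup (Fin 2) F) : symplecticGroup (Fin 2) F :=
  ⟨-(g : Matrix I4 I4 F), SymplecticGroup.neg_mem g.2⟩

theorem good_norm_one {t n : F} (hn : n ≠ 0) (ht : t ≠ 0) (hs : Solv t n)
    (g : symplecticGroup (Fin 2) F) {c b1 b3 c2 d1 d2 d3 : F}
    (hg : (g : Matrix I4 I4 F) = fromBlocks !![0, 0; 0, 1] !![b1, 0; b3, 0] !![c, c2; 0, 0]
      !![d1, d2; d3, 1]) : Good t n g := by
  by_contra hne
  have H := fun v w h0 => not_not.1 fun h1 => hne (good_pair hn ht hs g v w h0 h1)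
  have hm := g.2
  rw [hg, SymplecticGroup.fromBlocks_mem_iff] at hm
  obtain ⟨-, m2, m3⟩ := hm
  have r1 := congrFun (congrFun m3 0) 0
  have r2 := congrFun (congrFun m3 1) 0
  have r3 := congrFun (congrFun m2 0) 1
  simp only [Matrix.mul_apply, Fin.sum_univ_two, Matrix.of_apply, Matrix.cons_val',
    Matrix.cons_val_zero, Matrix.cons_val_one, Matrix.cons_val_fin_one, Matrix.sub_apply,
    Matrix.transpose_apply, Matrix.one_apply_eq] at r1 r2 r3
  rw [Matrix.one_apply_ne (by decide)] at r2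
  have hc : c ≠ 0 := by
    rintro rfl
    simp at r1
  by_cases hμ : c2 = 0 ∧ d2 = 0
  · obtain ⟨rfl, rfl⟩ := hμ
    have e3 : d3 = 0 := by linear_combination r2
    have e4 : b3 = 0 := by linear_combination r3
    subst e3 e4
    have k := H (vec 1 0 0 1) (vec 0 c c 0) (by rw [jB_vec]; ring)
    simp only [hg, mul_vec, jB_vec] at k
    have e5 : d1 = 2 := by
      apply mul_left_cancel₀ (pow_ne_zero 2 hc)
      linear_combination -k + c ^ 2 * r1
    subst e5
    have hP : fromBlocks !![-1, 0; 0, 1] !![b1, 0; 0, 0] !![c, 0; 0, 0] !![0, 0; 0, 1] ∈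
        symplecticGroup (Fin 2) F := by
      rw [SymplecticGroup.fromBlocks_mem_iff]
      refine ⟨?_, ?_, ?_⟩ <;> ext i j <;> fin_cases i <;> fin_cases j <;>
        simp [Matrix.mul_apply, Fin.sum_univ_two]
      linear_combination r1
    refine hne (good_of_conj ⟨_, hP⟩ (good_unip hn (S := !![b1, 0; 0, 0]) ?_))
    have e : (g : Matrix I4 I4 F) * ((⟨_, hP⟩ : symplecticGroup (Fin 2) F) : Matrix I4 I4 F) =
        ((⟨_, hP⟩ : symplecticGroup (Fin 2) F) : Matrix I4 I4 F) *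
          fromBlocks 1 !![b1, 0; 0, 0] 0 1 := by
      rw [hg, fromBlocks_multiply, fromBlocks_multiply, fromBlocks_inj]
      refine ⟨?_, ?_, ?_, ?_⟩ <;> ext i j <;> fin_cases i <;> fin_cases j <;>
        simp [Matrix.mul_apply, Fin.sum_univ_two]
      · linear_combination -r1
      · ring
    rw [Submonoid.coe_mul, Submonoid.coe_mul, Matrix.mul_assoc, e, ← Matrix.mul_assoc,
      ← Submonoid.coe_mul, inv_mul_cancel, Submonoid.coe_one, Matrix.one_mul]
  · obtain ⟨s, u, hsu⟩ : ∃ s u : F, c2 * s + d2 * u = c := by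
      by_cases h2 : c2 = 0
      · have h3 : d2 ≠ 0 := fun h => hμ ⟨h2, h⟩
        exact ⟨0, c / d2, by field_simp; simp⟩
      · exact ⟨c / c2, 0, by field_simp; simp⟩
    have k1 := H (vec 1 (-d2) 0 c2) (vec 0 s c u) (by rw [jB_vec]; linear_combination hsu)
    have k2 := H (vec 1 (s - d2) 0 (u + c2)) (vec 0 s c u) (by rw [jB_vec]; linear_combination hsu)
    simp only [hg, mul_vec, jB_vec] at k1 k2
    have e2 : d3 = c2 * b1 := by linear_combination r2
    have e3 : b3 = -(b1 * d2) := by linear_combination r3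
    subst e2 e3
    apply pow_ne_zero 2 hc
    grind

theorem good_norm {t n : F} (hn : n ≠ 0) (ht : t ≠ 0) (hs : Solv t n)
    (g : symplecticGroup (Fin 2) F) {c : F} (hc : c ≠ 0)
    (h1 : (g : Matrix I4 I4 F) *ᵥ vec 1 0 0 0 = vec 0 0 c 0) : Good t n g ∨ Good t n (ng g) := by
  by_contra hne
  rw [not_or] at hne
  have H := fun v w h0 => not_not.1 fun h1 => hne.1 (good_pair hn ht hs g v w h0 h1)
  obtain ⟨a1, a2, a3, a4, b1, b2, b3, b4, c1, c2, c3, c4, d1, d2, d3, d4, hg⟩ :=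
    exists_entries (g : Matrix I4 I4 F)
  rw [hg, mul_vec] at h1
  obtain ⟨e1, e2, e3, e4⟩ := vec_inj h1
  simp only [mul_one, mul_zero, add_zero] at e1 e2 e3 e4
  subst e1 e2 e3 e4
  have hm := g.2
  rw [hg, SymplecticGroup.fromBlocks_mem_iff] at hm
  obtain ⟨m1, -, m3⟩ := hm
  have r1 := congrFun (congrFun m1 0) 1
  have r2 := congrFun (congrFun m3 0) 1
  have r3 := congrFun (congrFun m3 1) 1
  simp only [Matrix.mul_apply, Fin.sum_univ_two, Matrix.of_apply, Matrix.cons_val',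
    Matrix.cons_val_zero, Matrix.cons_val_one, Matrix.cons_val_fin_one, Matrix.sub_apply,
    Matrix.transpose_apply, Matrix.one_apply_eq] at r1 r2 r3
  rw [Matrix.one_apply_ne (by decide)] at r2
  have f1 : a2 = 0 := mul_left_cancel₀ hc (by linear_combination -r1)
  have f2 : b2 = 0 := mul_left_cancel₀ hc (by linear_combination -r2)
  subst f1 f2
  have k1 := H (vec 1 0 0 0) (vec 0 1 0 0) (by rw [jB_vec]; ring)
  have k2 := H (vec 1 0 0 0) (vec 0 0 0 1) (by rw [jB_vec]; ring)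
  have k3 := H (vec 1 0 0 0) (vec 0 1 0 1) (by rw [jB_vec]; ring)
  simp only [hg, mul_vec, jB_vec] at k1 k2 k3
  have f3 : c4 = 0 := mul_left_cancel₀ hc (by linear_combination k1)
  have f4 : b4 = 0 := mul_left_cancel₀ hc (by linear_combination -k2)
  subst f3 f4
  have f5 : d4 = a4 := mul_left_cancel₀ hc (by linear_combination k3)
  subst f5
  have f6 : (d4 - 1) * (d4 + 1) = 0 := by linear_combination r3
  rcases mul_eq_zero.1 f6 with f | f
  · obtain rfl : d4 = 1 := by linear_combination f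
    exact hne.1 (good_norm_one hn ht hs g hg)
  · obtain rfl : d4 = -1 := by linear_combination f
    refine hne.2 (good_norm_one hn ht hs (ng g) (c := -c1) (b1 := -b1) (b3 := -b3) (c2 := -c2)
      (d1 := -d1) (d2 := -d2) (d3 := -d3) ?_)
    show -(g : Matrix I4 I4 F) = _
    rw [hg, fromBlocks_neg]
    simp

theorem good_all {t n : F} (hn : n ≠ 0) (ht : t ≠ 0) (hs : Solv t n)
    (g : symplecticGroup (Fin 2) F) (hg0 : ∀ c : F, (g : Matrix I4 I4 F) ≠ c • 1) :
    Good t n g ∨ Good t n (ng g) := by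
  by_cases h : ∃ v, jBilin (Fin 2) F v ((g : Matrix I4 I4 F) *ᵥ v) ≠ 0
  · obtain ⟨v, hv⟩ := h
    obtain ⟨δ, hδ⟩ : ∃ δ, δ = jBilin (Fin 2) F v ((g : Matrix I4 I4 F) *ᵥ v) := ⟨_, rfl⟩
    have h1 : jBilin (Fin 2) F (vec 1 0 0 0) (vec 0 0 (-δ) 0) = δ := by rw [jB_vec]; ring
    obtain ⟨P, -, p1, p2⟩ := sp_exists_mulVec_pair ⊤ (fun _ _ => Subgroup.mem_top _)
      (u := vec 1 0 0 0) (v := vec 0 0 (-δ) 0) (u' := v) (v' := (g : Matrix I4 I4 F) *ᵥ v)
      (linearIndependent_pair_of_alt jBilin_isAlt ((h1.trans hδ).trans_ne hv))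
      (linearIndependent_pair_of_alt jBilin_isAlt hv) (h1.trans hδ).symm
    rw [← hδ] at hv
    have h2 : ((P⁻¹ * g * P : symplecticGroup (Fin 2) F) : Matrix I4 I4 F) *ᵥ vec 1 0 0 0 =
        vec 0 0 (-δ) 0 := by
      rw [Submonoid.coe_mul, Submonoid.coe_mul, ← Matrix.mulVec_mulVec, ← Matrix.mulVec_mulVec,
        p1, ← p2, Matrix.mulVec_mulVec, ← Submonoid.coe_mul, inv_mul_cancel, Submonoid.coe_one,
        Matrix.one_mulVec]
    rcases good_norm hn ht hs _ (neg_ne_zero.2 hv) h2 with k | k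
    · exact Or.inl (good_of_conj P k)
    · refine Or.inr (good_of_conj P ?_)
      convert k using 1
      apply Subtype.ext
      simp [ng]
  · push Not at h
    by_contra hne
    rw [not_or] at hne
    have H := fun v w h0 => not_not.1 fun h1 => hne.1 (good_pair hn ht hs g v w h0 h1)
    have h2 : ∀ v w, jBilin (Fin 2) F w ((g : Matrix I4 I4 F) *ᵥ v) =
        -jBilin (Fin 2) F v ((g : Matrix I4 I4 F) *ᵥ w) := by
      intro v w
      have := h (v + w)
      simp only [Matrix.mulVec_add, map_add, LinearMap.add_apply, h] at this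
      linear_combination this
    have H2 : ∀ v w, jBilin (Fin 2) F v w = 0 →
        jBilin (Fin 2) F v ((g : Matrix I4 I4 F) *ᵥ w) = 0 := by
      intro v w h0
      have := H v w h0
      rw [h, h2 v w] at this
      exact pow_eq_zero_iff two_ne_zero |>.1 (by linear_combination this)
    obtain ⟨a1, a2, a3, a4, b1, b2, b3, b4, c1, c2, c3, c4, d1, d2, d3, d4, hg⟩ :=
      exists_entries (g : Matrix I4 I4 F)
    have k1 := H2 (vec 1 0 0 0) (vec 1 0 0 0) (by rw [jB_vec]; ring)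
    have k2 := H2 (vec 1 0 0 0) (vec 0 1 0 0) (by rw [jB_vec]; ring)
    have k3 := H2 (vec 1 0 0 0) (vec 0 0 0 1) (by rw [jB_vec]; ring)
    have k4 := H2 (vec 0 1 0 0) (vec 1 0 0 0) (by rw [jB_vec]; ring)
    have k5 := H2 (vec 0 1 0 0) (vec 0 1 0 0) (by rw [jB_vec]; ring)
    have k6 := H2 (vec 0 1 0 0) (vec 0 0 1 0) (by rw [jB_vec]; ring)
    have k7 := H2 (vec 0 0 1 0) (vec 0 1 0 0) (by rw [jB_vec]; ring)
    have k8 := H2 (vec 0 0 1 0) (vec 0 0 1 0) (by rw [jB_vec]; ring)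
    have k9 := H2 (vec 0 0 1 0) (vec 0 0 0 1) (by rw [jB_vec]; ring)
    have k10 := H2 (vec 0 0 0 1) (vec 1 0 0 0) (by rw [jB_vec]; ring)
    have k11 := H2 (vec 0 0 0 1) (vec 0 0 1 0) (by rw [jB_vec]; ring)
    have k12 := H2 (vec 0 0 0 1) (vec 0 0 0 1) (by rw [jB_vec]; ring)
    have k13 := H2 (vec 1 1 0 0) (vec 0 0 1 (-1)) (by rw [jB_vec]; ring)
    have k14 := h2 (vec 1 0 0 0) (vec 0 0 1 0)
    have k15 := h2 (vec 0 1 0 0) (vec 0 0 0 1)
    simp only [hg, mul_vec, jB_vec] at k1 k2 k3 k4 k5 k6 k7 k8 k9 k10 k11 k12 k13 k14 k15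
    apply hg0 a1
    rw [hg]
    ext i j
    rcases i with i | i <;> rcases j with j | j <;> fin_cases i <;> fin_cases j <;> simp <;>
      grind

theorem squarefree_fq {t n : F} (hn : n ≠ 0) (h1 : n - 1 ≠ 0) (h2 : (n + 1) ^ 2 - t ^ 2 ≠ 0)
    (h3 : t ^ 2 - 4 * n ≠ 0) : Squarefree (fq t n) := by
  have sep : ∀ a b : F, a ^ 2 - 4 * b ≠ 0 → (X ^ 2 - C a * X + C b : F[X]).Separable := by
    intro a b h
    rw [Polynomial.separable_def']
    refine ⟨C (a ^ 2 - 4 * b)⁻¹ * (-4), C (a ^ 2 - 4 * b)⁻¹ * (2 * X - C a), ?_⟩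
    have : derivative (X ^ 2 - C a * X + C b : F[X]) = 2 * X - C a := by
      simp [derivative_sub, derivative_mul]
      try ring
    rw [this]
    have e : C (a ^ 2 - 4 * b)⁻¹ * C (a ^ 2 - 4 * b) = (1 : F[X]) := by
      rw [← map_mul, inv_mul_cancel₀ h, map_one]
    simp only [map_sub, map_pow, map_ofNat, map_mul] at e
    linear_combination e
  refine Polynomial.Separable.squarefree (Polynomial.Separable.mul (sep _ _ h3) (sep _ _ ?_) ?_)
  · have : (t * n⁻¹) ^ 2 - 4 * n⁻¹ = (t ^ 2 - 4 * n) * n⁻¹ ^ 2 := by field_simp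
    rw [this]
    exact mul_ne_zero h3 (pow_ne_zero _ (inv_ne_zero hn))
  · have e : C ((n - 1) * ((n + 1) ^ 2 - t ^ 2))⁻¹ * C ((n - 1) * ((n + 1) ^ 2 - t ^ 2)) =
        (1 : F[X]) := by
      rw [← map_mul, inv_mul_cancel₀ (mul_ne_zero h1 h2), map_one]
    have g3 : (C n : F[X]) * C n⁻¹ = 1 := by rw [← map_mul, mul_inv_cancel₀ hn, map_one]
    simp only [map_sub, map_pow, map_mul, map_add, map_one] at e ⊢
    set k : F[X] := C ((n - 1) * ((n + 1) ^ 2 - t ^ 2))⁻¹
    refine ⟨k * (C n * (C n + 1 + C t * X - C t ^ 2) + (C n - 1) * C t ^ 2),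
      -k * C n * (C n + 1 + C t * X - C t ^ 2), ?_⟩
    linear_combination e - k * (C n + 1 + C t * X - C t ^ 2) * (1 - C t * X) * g3

theorem exists_tn [Fintype F] (h3 : 3 ≤ Fintype.card F) :
    ∃ t n : F, n ≠ 0 ∧ t ≠ 0 ∧ Solv t n ∧ Squarefree (fq t n) := by
  classical
  by_cases h2 : ringChar F = 2
  · have : CharP F 2 := ringChar.of_eq h2
    have e2 : (2 : F) = 0 := CharP.ofNat_eq_zero F 2
    obtain ⟨n, hn⟩ : ∃ a : F, a ∉ ({0, 1} : Finset F) := by
      by_contra hne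
      push Not at hne
      have : (Finset.univ : Finset F) ⊆ {0, 1} := fun a _ => hne a
      have h1 := Finset.card_le_card this
      have h2 : ({0, 1} : Finset F).card ≤ 2 := Finset.card_le_two
      rw [Finset.card_univ] at h1
      omega
    simp only [Finset.mem_insert, Finset.mem_singleton, not_or] at hn
    refine ⟨1, n, hn.1, one_ne_zero, ?_, squarefree_fq hn.1 (sub_ne_zero.2 hn.2) ?_ ?_⟩
    · intro a b c d hh
      generalize (1 + 1 * n⁻¹) * (a * d - b * c) = α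
      generalize (n + n⁻¹ + 1 ^ 2 * n⁻¹) * (a * d - b * c) - 2 * a * d + b ^ 2 + c ^ 2 = β
      obtain ⟨r, hr⟩ := FiniteField.isSquare_of_char_two h2 β
      by_cases ha : a = 0
      · by_cases hd : d = 0
        · have he : b + c ≠ 0 := fun h => hh ⟨ha, hd, h⟩
          refine ⟨1, -α / (b + c), β + (α / (b + c)) ^ 2, ?_, by ring⟩
          rw [ha, hd]
          field_simp
          ring
        · refine ⟨(α + r * (b + c)) / d, r, 0, by field_simp; ring, ?_⟩
          linear_combination -hr - r ^ 2 * e2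
      · refine ⟨0, r, (α + r * (b + c)) / a, by field_simp; ring, ?_⟩
        linear_combination -hr - r ^ 2 * e2
    · intro h
      apply pow_ne_zero 2 hn.1
      linear_combination h - n * e2
    · intro h
      apply one_ne_zero (α := F)
      linear_combination h + 2 * n * e2
  · have e2 : (2 : F) ≠ 0 := Ring.two_ne_zero h2
    obtain ⟨t, ht, ht4⟩ : ∃ t : F, t ≠ 0 ∧ t ^ 2 + 4 ≠ 0 := by
      by_cases h5 : (1 : F) ^ 2 + 4 = 0
      · refine ⟨2, e2, fun h => pow_ne_zero 3 e2 ?_⟩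
        linear_combination h
      · exact ⟨1, one_ne_zero, h5⟩
    have rep : ∀ Δ γ : F, Δ ≠ 0 → ∃ x y : F, x ^ 2 - Δ * y ^ 2 = γ := by
      intro Δ γ hΔ
      obtain ⟨x, y, h⟩ := FiniteField.exists_root_sum_quadratic (R := F) (f := X ^ 2 - C γ)
        (g := C (-Δ) * X ^ 2) (degree_X_pow_sub_C two_pos _)
        (degree_C_mul_X_pow 2 (neg_ne_zero.2 hΔ)) (FiniteField.odd_card_of_char_ne_two h2)
      simp only [eval_sub, eval_pow, eval_X, eval_C, eval_mul] at h
      exact ⟨x, y, by linear_combination h⟩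
    have key : ∀ a b c d : F, a ≠ 0 → ∃ x y z : F, x * d + z * a - y * (b + c) = 0 ∧
        x * z - y ^ 2 = -(2 + t ^ 2) * (a * d - b * c) - 2 * a * d + b ^ 2 + c ^ 2 := by
      intro a b c d ha
      obtain ⟨u, v, huv⟩ : ∃ u v : F, u ^ 2 - ((b + c) ^ 2 - 4 * a * d) * v ^ 2 =
          -4 * a ^ 2 * (-(2 + t ^ 2) * (a * d - b * c) - 2 * a * d + b ^ 2 + c ^ 2) := by
        by_cases hΔ : (b + c) ^ 2 - 4 * a * d = 0
        · exact ⟨a * t * (b - c), 0, by linear_combination (a ^ 2 * (4 + t ^ 2)) * hΔ⟩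
        · exact rep _ _ hΔ
      refine ⟨v, (u + (b + c) * v) / (2 * a), (-v * d + (u + (b + c) * v) / (2 * a) * (b + c)) / a,
        by field_simp; ring, ?_⟩
      field_simp
      linear_combination -huv
    refine ⟨t, -1, neg_ne_zero.2 one_ne_zero, ht, ?_, squarefree_fq (neg_ne_zero.2 one_ne_zero)
      (fun h => e2 (by linear_combination -h)) (fun h => pow_ne_zero 2 ht (by linear_combination -h))
      (fun h => ht4 (by linear_combination h))⟩
    intro a b c d hh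
    have i1 : (-1 : F)⁻¹ = -1 := by simp
    rw [i1]
    by_cases ha : a = 0
    · by_cases hd : d = 0
      · exact ⟨1, 0, (-1 + -1 + t ^ 2 * -1) * (a * d - b * c) - 2 * a * d + b ^ 2 + c ^ 2,
          by rw [ha, hd]; ring, by ring⟩
      · obtain ⟨x, y, z, k1, k2⟩ := key d b c a hd
        exact ⟨z, y, x, by linear_combination k1, by linear_combination k2⟩
    · obtain ⟨x, y, z, k1, k2⟩ := key a b c d ha
      exact ⟨x, y, z, by linear_combination k1, by linear_combination k2⟩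

theorem coprime_of_sf [Fintype F] (p : ℕ) [Fact p.Prime] [CharP F p] {f : F[X]} (hf : Squarefree f)
    (B : symplecticGroup (Fin 2) F) (h : (B : Matrix I4 I4 F).charpoly = f) :
    (orderOf B).Coprime p := by
  classical
  have h1 := (H76.coprime_orderOf_iff p (spToGL 2 F B) (isOfFinOrder_of_finite _)).2
    (H76.exp_eq_one_of_aeval_squarefree _ hf (by
      rw [← h]; exact Matrix.aeval_self_charpoly _))
  rwa [orderOf_injective _ spToGL_injective] at h1

end

/-- A form of Thompson's conjecture for the simple groups PSp(4,q), q ≥ 3 (covering the non-identity elements), with a semisimple class: for F a finite field of characteristic p with at least 3 elements there is an element x of PSp(4,F) of order prime to p such that every non-identity element of PSp(4,F) is a product of two conjugates of x. -/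
theorem result {F : Type*} [Field F] [Fintype F] (p : ℕ) [Fact p.Prime] [CharP F p] (h3 : 3 ≤ Fintype.card F) :
    ∃ x : Cfsg.PSp 2 F, ¬ p ∣ orderOf x ∧ ∀ g : Cfsg.PSp 2 F, g ≠ 1 → ∃ u v : Cfsg.PSp 2 F, g = (u * x * u⁻¹) * (v * x * v⁻¹) := by
  classical
  obtain ⟨t, n, hn, ht, hs, hf⟩ := exists_tn h3
  obtain ⟨x, -, -, hx, -⟩ := good_unip (t := t) hn (g := 1) (S := 0) (by simp)
  have hxo := coprime_of_sf p hf x hx
  refine ⟨QuotientGroup.mk x, fun h => ?_, fun g hg1 => ?_⟩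
  · have h1 : p ∣ orderOf x := h.trans (orderOf_map_dvd (QuotientGroup.mk' _) x)
    exact (Fact.out : p.Prime).one_lt.ne' (Nat.eq_one_of_dvd_coprimes hxo h1 dvd_rfl)
  · obtain ⟨g, rfl⟩ := QuotientGroup.mk_surjective g
    have hns : ∀ c : F, (g : Matrix I4 I4 F) ≠ c • 1 := by
      intro c hc
      apply hg1
      rw [QuotientGroup.eq_one_iff, Subgroup.mem_center_iff]
      intro y
      apply Subtype.ext
      simp [hc]
    have key : ∀ g : Matrix.symplecticGroup (Fin 2) F, Good t n g → ∃ u v : Cfsg.PSp 2 F,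
        (QuotientGroup.mk g : Cfsg.PSp 2 F) = (u * QuotientGroup.mk x * u⁻¹) *
          (v * QuotientGroup.mk x * v⁻¹) := by
      rintro g ⟨B, D, hBD, hB, hD⟩
      obtain ⟨u, hu⟩ := isConj_iff.1 (S2389.result p 2 x B hxo (coprime_of_sf p hf B hB)
        (hx.trans hB.symm))
      obtain ⟨v, hv⟩ := isConj_iff.1 (S2389.result p 2 x D hxo (coprime_of_sf p hf D hD)
        (hx.trans hD.symm))
      refine ⟨QuotientGroup.mk u, QuotientGroup.mk v, ?_⟩
      rw [hBD, ← hu, ← hv]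
      rfl
    rcases good_all hn ht hs g hns with h | h
    · exact key g h
    · have e : (QuotientGroup.mk g : Cfsg.PSp 2 F) = QuotientGroup.mk (ng g) := by
        rw [QuotientGroup.eq, Subgroup.mem_center_iff]
        intro y
        have e1 : ((g⁻¹ * ng g : Matrix.symplecticGroup (Fin 2) F) : Matrix I4 I4 F) = -1 := by
          rw [Submonoid.coe_mul, ng, Matrix.mul_neg, ← Submonoid.coe_mul, inv_mul_cancel,
            Submonoid.coe_one]
        apply Subtype.ext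
        rw [Submonoid.coe_mul, Submonoid.coe_mul _ (g⁻¹ * ng g), e1]
        simp
      rw [e]
      exact key _ h

end Cfsg.Agent.S2460
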