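import Cfsg.Statements.S2466
import Cfsg.Agent.H78.AltOrders

set_option autoImplicit false
open Cfsg

namespace Cfsg.Agent.S2466

/-- Adjacency of odd primes in the prime graph of the alternating groups: let r ≠ s be odd primes at most n. The alternating group of degree n has an element of order r·s if and only if r + s ≤ n. -/
theorem result (n r s : ℕ) (hr : r.Prime) (hs : s.Prime) (hr2 : r ≠ 2) (hs2 : s ≠ 2) (hrs : r ≠ s) (hrn : r ≤ n) (hsn : s ≤ n) :
    (r * s ∈ Set.range (orderOf : alternatingGroup (Fin n) → ℕ)) ↔ r + s ≤ n := by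
  rw [H78.mem_range_orderOf_alternating_iff, Fintype.card_fin]
  have hro : Odd r := hr.odd_of_ne_two hr2
  have hso : Odd s := hs.odd_of_ne_two hs2
  constructor
  · rintro ⟨t, h1, h2, -, h4⟩
    obtain ⟨a, ha, hra⟩ := H78.exists_mem_dvd_of_prime_dvd_lcm hr t (h4 ▸ dvd_mul_right r s)
    obtain ⟨b, hb, hsb⟩ := H78.exists_mem_dvd_of_prime_dvd_lcm hs t (h4 ▸ dvd_mul_left s r)
    have ha0 : 0 < a := by have := h2 a ha; omega
    have hb0 : 0 < b := by have := h2 b hb; omega
    by_cases hab : a = b
    · subst hab
      have hd : r * s ∣ a := ((Nat.coprime_primes hr hs).2 hrs).mul_dvd_of_dvd_of_dvd hra hsb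
      have h5 := Nat.le_of_dvd ha0 hd
      have h6 : a ≤ t.sum := Multiset.single_le_sum (fun _ _ => Nat.zero_le _) _ ha
      have h7 : r + s ≤ r * s := Nat.add_le_mul hr.two_le hs.two_le
      omega
    · have h5 := H78.add_le_sum_of_mem_of_ne ha hb hab
      have := Nat.le_of_dvd ha0 hra
      have := Nat.le_of_dvd hb0 hsb
      omega
  · intro h
    refine ⟨{r, s}, by simpa using h, ?_, ?_, ?_⟩
    · intro a ha
      simp only [Multiset.insert_eq_cons, Multiset.mem_cons, Multiset.mem_singleton] at ha
      rcases ha with rfl | rfl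
      · exact hr.two_le
      · exact hs.two_le
    · simp only [Multiset.insert_eq_cons, Multiset.sum_cons, Multiset.sum_singleton,
        Multiset.card_cons, Multiset.card_singleton]
      exact (hro.add_odd hso).add (by decide)
    · simp only [Multiset.insert_eq_cons, Multiset.lcm_cons, Multiset.lcm_singleton,
        normalize_eq, lcm_eq_nat_lcm]
      exact ((Nat.coprime_primes hr hs).2 hrs).lcm_eq_mul

end Cfsg.Agent.S2466
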