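import Cfsg.Statements.S2467
import Cfsg.Agent.H78.AltOrders
import Mathlib.Tactic.Linarith

set_option autoImplicit false
open Cfsg

namespace Cfsg.Agent.S2467

/-- Adjacency of 2 and an odd prime in the prime graph of the alternating groups: let r be an odd prime at most n, with n ≥ 4. The alternating group of degree n has an element of order 2r if and only if r + 4 ≤ n. -/
theorem result (n r : ℕ) (hn : 4 ≤ n) (hr : r.Prime) (hr2 : r ≠ 2) (hrn : r ≤ n) :
    (2 * r ∈ Set.range (orderOf : alternatingGroup (Fin n) → ℕ)) ↔ r + 4 ≤ n := by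
  rw [H78.mem_range_orderOf_alternating_iff, Fintype.card_fin]
  have hro : Odd r := hr.odd_of_ne_two hr2
  have hr3 : 3 ≤ r := by have := hr.two_le; omega
  constructor
  · rintro ⟨t, h1, h2, h3, h4⟩
    have hmem : ∀ a ∈ t, a = 2 ∨ a = r ∨ a = 2 * r := by
      intro a ha
      have hd : a ∣ 2 * r := h4 ▸ Multiset.dvd_lcm ha
      have ha2 := h2 a ha
      obtain ⟨x, y, hx, hy, rfl⟩ := (Nat.dvd_mul).1 hd
      rcases (Nat.dvd_prime Nat.prime_two).1 hx with rfl | rfl <;>
        rcases (Nat.dvd_prime hr).1 hy with rfl | rfl <;> omega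
    have ht : t = Multiset.replicate (t.count 2) 2 + Multiset.replicate (t.count r) r +
        Multiset.replicate (t.count (2 * r)) (2 * r) := by
      ext a
      simp only [Multiset.count_add, Multiset.count_replicate]
      by_cases ha : a ∈ t
      · rcases hmem a ha with rfl | rfl | rfl
        · rw [if_pos rfl, if_neg hr2, if_neg (by omega)]; simp
        · rw [if_neg (Ne.symm hr2), if_pos rfl, if_neg (by omega)]; simp
        · rw [if_neg (by omega), if_neg (by omega), if_pos rfl]; simp
      · have h0 := Multiset.count_eq_zero.2 ha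
        split_ifs with h h' h'' <;> subst_vars <;> omega
    obtain ⟨a, ha, hra⟩ := H78.exists_mem_dvd_of_prime_dvd_lcm Nat.prime_two t
      (h4 ▸ dvd_mul_right 2 r)
    obtain ⟨b, hb, hsb⟩ := H78.exists_mem_dvd_of_prime_dvd_lcm hr t (h4 ▸ dvd_mul_left r 2)
    have hA : 0 < t.count 2 + t.count (2 * r) := by
      rcases hmem a ha with rfl | rfl | rfl
      · have := Multiset.count_pos.2 ha; omega
      · exact absurd hra hro.not_two_dvd_nat
      · have := Multiset.count_pos.2 ha; omega
    have hB : 0 < t.count r + t.count (2 * r) := by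
      rcases hmem b hb with rfl | rfl | rfl
      · have := Nat.le_of_dvd (by decide) hsb; omega
      · have := Multiset.count_pos.2 hb; omega
      · have := Multiset.count_pos.2 hb; omega
    have hsum : t.sum = t.count 2 * 2 + t.count r * r + t.count (2 * r) * (2 * r) := by
      conv_lhs => rw [ht]
      simp
    have hcard : Multiset.card t = t.count 2 + t.count r + t.count (2 * r) := by
      conv_lhs => rw [ht]
      simp
    rw [hsum, hcard] at h3
    rw [hsum] at h1
    generalize t.count 2 = x at *
    generalize t.count r = y at *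
    generalize t.count (2 * r) = z at *
    obtain ⟨k, rfl⟩ := hro
    have hpar : Even (x + z) := by
      have : x * 2 + y * (2 * k + 1) + z * (2 * (2 * k + 1)) + (x + y + z) =
          2 * (x + y * k + y + z * (2 * k + 1)) + (x + z) := by ring
      rw [this] at h3
      exact (Nat.even_add.1 h3).1 (even_two_mul _)
    obtain ⟨w, hw⟩ := hpar
    rcases Nat.eq_zero_or_pos z with rfl | hz
    · have hx : 2 ≤ x := by omega
      have hy : 1 ≤ y := by omega
      nlinarith
    · rcases Nat.eq_zero_or_pos x with rfl | hx
      · have hz2 : 2 ≤ z := by omega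
        nlinarith
      · nlinarith
  · intro h
    refine ⟨{2, 2, r}, by simp; omega, ?_, ?_, ?_⟩
    · intro a ha
      simp only [Multiset.insert_eq_cons, Multiset.mem_cons, Multiset.mem_singleton] at ha
      rcases ha with rfl | rfl | rfl
      · exact le_rfl
      · exact le_rfl
      · exact hr.two_le
    · simp only [Multiset.insert_eq_cons, Multiset.sum_cons, Multiset.sum_singleton,
        Multiset.card_cons, Multiset.card_singleton]
      obtain ⟨k, rfl⟩ := hro
      exact ⟨k + 4, by ring⟩
    · simp only [Multiset.insert_eq_cons, Multiset.lcm_cons, Multiset.lcm_singleton,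
        normalize_eq, lcm_eq_nat_lcm]
      rw [← Nat.lcm_assoc, Nat.lcm_self]
      exact ((Nat.coprime_primes Nat.prime_two hr).2 (Ne.symm hr2)).lcm_eq_mul

end Cfsg.Agent.S2467
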