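import Cfsg.Statements.S2478
import Cfsg.Agent.H76.ClassCount
import Cfsg.Agent.H76.ClassNum

set_option autoImplicit false
open Cfsg

namespace Cfsg.Agent.S2478

/-- The number of conjugacy classes of GL(n,q): for F a finite field with q elements and n ≥ 1, the number k of conjugacy classes of GL(n,F) satisfies q^n − q^(n−1) ≤ k ≤ q^n. -/
theorem result {F : Type*} [Field F] [Fintype F] (n : ℕ) (hn : 1 ≤ n) :
    Fintype.card F ^ n - Fintype.card F ^ (n - 1) ≤ Nat.card (ConjClasses (Matrix.GeneralLinearGroup (Fin n) F)) ∧ Nat.card (ConjClasses (Matrix.GeneralLinearGroup (Fin n) F)) ≤ Fintype.card F ^ n := by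
  obtain ⟨p, hp⟩ := CharP.exists F
  have := Fact.mk (CharP.char_is_prime F p)
  have : CharP (AlgebraicClosure F) p := charP_of_injective_algebraMap (algebraMap F _).injective p
  have hG := H76.cm_gl (F := F) (AlgebraicClosure F) (Fin n)
  have hg := H76.goodQ_card (F := F) (AlgebraicClosure F)
  have hQ := H76.char_dvd_card F p
  have hq : 2 ≤ Fintype.card F := Fintype.one_lt_card
  rw [Fintype.card_fin] at hG
  obtain ⟨h1, h2⟩ := hg.card_adm (by omega) hQ n
  rw [hG.card_conjClasses]
  constructor
  · obtain ⟨d, rfl⟩ : ∃ d, n = d + 1 := ⟨n - 1, by omega⟩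
    have h3 := hg.card_succ (by omega) hQ d
    rw [H76.natAbs_sub_one (by omega), Nat.sub_mul, one_mul, ← pow_succ'] at h3
    rw [Nat.add_sub_cancel, ← h3]
    refine Nat.card_le_card_of_injective (fun u => ⟨H76.tag 1 u.1,
      (H76.adm_tag one_pos u.2.2).cast (by rw [one_mul, u.2.1])⟩) fun u v huv => Subtype.ext ?_
    have := congrArg (fun s => H76.part 1 s.1) huv
    simpa [H76.part_tag] using this
  · rw [H76.natAbs_sub_one (by omega), Nat.cast_sub (by omega), Nat.cast_one] at h2
    have h3 := H76.kk_gl_le (q := Fintype.card F) (by exact_mod_cast hq) n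
    rw [← h2] at h3
    exact_mod_cast h3

end Cfsg.Agent.S2478
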