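import Cfsg.Statements.S2479
import Cfsg.Agent.H76.ClassCount
import Cfsg.Agent.H76.ClassNum

set_option autoImplicit false
open Cfsg

namespace Cfsg.Agent.S2479

/-- The number of conjugacy classes of SL(n,q): for F a finite field with q elements, the number k of conjugacy classes of SL(n,F) satisfies q^(n−1) < k and k ≤ (5/2)·q^(n−1) for n ≥ 2, and k ≤ q^(n−1) + 3q^(n−2) for n ≥ 3. -/
theorem result {F : Type*} [Field F] [Fintype F] (n : ℕ) (hn : 2 ≤ n) :
    Fintype.card F ^ (n - 1) < Nat.card (ConjClasses (Matrix.SpecialLinearGroup (Fin n) F)) ∧ 2 * Nat.card (ConjClasses (Matrix.SpecialLinearGroup (Fin n) F)) ≤ 5 * Fintype.card F ^ (n - 1) ∧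
      (3 ≤ n → Nat.card (ConjClasses (Matrix.SpecialLinearGroup (Fin n) F)) ≤ Fintype.card F ^ (n - 1) + 3 * Fintype.card F ^ (n - 2)) := by
  obtain ⟨p, hp⟩ := CharP.exists F
  have := Fact.mk (CharP.char_is_prime F p)
  have : CharP (AlgebraicClosure F) p := charP_of_injective_algebraMap (algebraMap F _).injective p
  have hG := H76.cm_gl (F := F) (AlgebraicClosure F) (Fin n)
  have hg := H76.goodQ_card (F := F) (AlgebraicClosure F)
  have hQ := H76.char_dvd_card F p
  have hq : 2 ≤ Fintype.card F := Fintype.one_lt_card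
  rw [Fintype.card_fin] at hG
  have hk := H76.range_toGL_eq_ker_detL (F := F) (AlgebraicClosure F) (Fin n)
  have h1 := hG.mul_card_le hg (by omega) hQ (by omega)
    Matrix.SpecialLinearGroup.toGL_injective hk
  rw [H76.natAbs_sub_one (by omega)] at h1
  exact ⟨hG.lt_card hg (by omega) hQ hn hk, by exact_mod_cast H76.sl_le' hq hn h1,
    fun h3 => by exact_mod_cast H76.sl_le hq h3 h1⟩

end Cfsg.Agent.S2479
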