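import Cfsg.Statements.S2482
import Cfsg.Agent.H76.SpCount

set_option autoImplicit false
open Cfsg

namespace Cfsg.Agent.S2482

/-- The number of conjugacy classes of Sp(2n,q), q odd: for F a finite field of odd order q and n ≥ 1, the number k of conjugacy classes of Sp(2n,F) satisfies q^n ≤ k ≤ 10.8·q^n. -/
theorem result {F : Type*} [Field F] [Fintype F] (hodd : Odd (Fintype.card F)) (n : ℕ) (hn : 1 ≤ n) :
    Fintype.card F ^ n ≤ Nat.card (ConjClasses (Matrix.symplecticGroup (Fin n) F)) ∧ 5 * Nat.card (ConjClasses (Matrix.symplecticGroup (Fin n) F)) ≤ 54 * Fintype.card F ^ n := by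
  obtain ⟨p, hp⟩ := CharP.exists F
  have hpp := Fact.mk (CharP.char_is_prime F p)
  have h2 : (2 : F) ≠ 0 := H30.two_ne_zero_iff_odd_card.2 hodd
  constructor
  · rw [← H76.card_sp_semisimple p n]
    exact Nat.card_le_card_of_injective _ Subtype.val_injective
  let L := AlgebraicClosure F
  have : CharP L p := charP_of_injective_algebraMap (algebraMap F _).injective p
  obtain ⟨r, hr, hq⟩ := H76.exists_card_eq_pow F p
  have hp2 : p ≠ 2 := by
    rintro rfl
    exact h2 (by exact_mod_cast CharP.cast_eq_zero F 2)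
  have h3 : (3 : ℚ) ≤ (p ^ r : ℕ) := by
    rw [← hq]
    have := Fintype.one_lt_card (α := F)
    obtain ⟨k, hk⟩ := hodd
    exact_mod_cast (by omega : 3 ≤ Fintype.card F)
  have h1 := (H76.card_labels (L := L) hr hp2 Even (2 * n)).2
  have h4 := ((H76.bd2_sp h3 (2 * n)).2.2 n).1
  rw [← h1, ← hq] at h4
  rw [H76.card_conjClasses_eq_true, H76.card_sp_classes L h2 n _ (fun _ => True) fun _ => Iff.rfl]
  simp only [and_true]
  have h5 : (5 : ℚ) * (Nat.card {t : Multiset (Lˣ × ℕ) × (ℕ → ℤˣ × ℤˣ) //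
      H76.FAdm Even (Fintype.card F : ℤ) (2 * n) t.1 ∧ H76.LabOK Even t.1 t.2} : ℕ) ≤
      54 * (Fintype.card F : ℚ) ^ n := by linarith
  exact_mod_cast h5

end Cfsg.Agent.S2482
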