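import Cfsg.Statements.S2485
import Cfsg.Agent.H77.Mat2
import Cfsg.Agent.H29.Cover
import Cfsg.Agent.H29.Dickson

set_option autoImplicit false
open scoped Pointwise
open Cfsg

namespace Cfsg.Agent.S2485

open Cfsg.Agent.H77

open Cfsg.Agent.H29
open scoped MatrixGroups

lemma trace_zero {F : Type*} [Field F] {A : GL (Fin 2) F} (h1 : pmk A ≠ 1)
    (h2 : pmk A * pmk A = 1) : A 1 1 = -A 0 0 := by
  rw [← map_mul, pmk_eq_one_iff] at h2
  simp only [GL2_mul_apply] at h2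
  by_contra h
  have h' : A 0 0 + A 1 1 ≠ 0 := fun e => h (by linear_combination e)
  refine h1 ((pmk_eq_one_iff A).mpr ⟨?_, ?_, ?_⟩)
  · exact (mul_eq_zero.mp (by linear_combination h2.1 : (A 0 0 + A 1 1) * A 0 1 = 0)).resolve_left h'
  · exact (mul_eq_zero.mp (by linear_combination h2.2.1 :
      (A 0 0 + A 1 1) * A 1 0 = 0)).resolve_left h'
  · exact sub_eq_zero.mp ((mul_eq_zero.mp (by linear_combination h2.2.2 :
      (A 0 0 + A 1 1) * (A 0 0 - A 1 1) = 0)).resolve_left h')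

lemma exists_common {F : Type*} [Field F] (h2 : (2 : F) ≠ 0) {z z' : PGL(2, F)} (hz1 : z ≠ 1)
    (hz : z * z = 1) (hz1' : z' ≠ 1) (hz' : z' * z' = 1) (hfree : ∀ x : P1 F, z • x ≠ x) :
    ∃ b : PGL(2, F), b ≠ 1 ∧ b * z = z * b ∧ b * z' = z' * b := by
  obtain ⟨A, rfl⟩ := pmk_surj z
  obtain ⟨B, rfl⟩ := pmk_surj z'
  have hA := trace_zero hz1 hz
  have hB := trace_zero hz1' hz'
  obtain ⟨a, ha⟩ : ∃ a, a = A 0 1 * B 1 0 - B 0 1 * A 1 0 := ⟨_, rfl⟩
  obtain ⟨b, hb⟩ : ∃ b, b = 2 * (A 0 0 * B 0 1 - B 0 0 * A 0 1) := ⟨_, rfl⟩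
  obtain ⟨c, hc⟩ : ∃ c, c = 2 * (A 1 0 * B 0 0 - B 1 0 * A 0 0) := ⟨_, rfl⟩
  by_cases h0 : a = 0 ∧ b = 0 ∧ c = 0
  · refine ⟨pmk B, hz1', ?_, rfl⟩
    rw [← map_mul, ← map_mul]
    congr 1
    obtain ⟨h1, h3, h4⟩ := h0
    apply GL2_ext <;> simp only [GL2_mul_apply, hA, hB]
    · linear_combination ha - h1
    · linear_combination hb - h3
    · linear_combination hc - h4
    · linear_combination -ha + h1
  have hd : a * -a - b * c ≠ 0 := by
    intro hd
    by_cases hc0 : c = 0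
    · have ha0 : a = 0 := by
        rw [hc0] at hd
        exact mul_self_eq_zero.mp (by linear_combination -hd)
      have hb0 : b ≠ 0 := fun e => h0 ⟨ha0, e, hc0⟩
      refine hfree inf ((pmk_smul_inf_eq_inf A).mpr ?_)
      refine (mul_eq_zero.mp (?_ : b * A 1 0 = 0)).resolve_left hb0
      linear_combination (A 1 0) * hb + 2 * A 0 0 * ha - 2 * A 0 0 * ha0 + A 0 1 * hc - A 0 1 * hc0
    · refine hfree (pt (a / c)) ((pmk_smul_pt_eq_pt A _ _).mpr ?_)
      rw [hA]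
      field_simp
      linear_combination c * ((A 1 0) * hb + 2 * A 0 0 * ha + A 0 1 * hc) + A 1 0 * hd
  refine ⟨pmk (mat a b c (-a) hd), ?_, ?_, ?_⟩
  · rw [Ne, pmk_eq_one_iff]
    simp only [mat_00, mat_01, mat_10, mat_11]
    rintro ⟨h1, h3, h4⟩
    exact h0 ⟨(mul_eq_zero.mp (by linear_combination h4 : 2 * a = 0)).resolve_left h2, h1, h3⟩
  · rw [← map_mul, ← map_mul, pmk_eq_pmk_iff]
    refine ⟨-1, ?_⟩
    simp only [GL2_mul_apply, mat_00, mat_01, mat_10, mat_11, hA]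
    refine ⟨?_, by ring, by ring, ?_⟩ <;> (rw [ha, hb, hc]; ring)
  · rw [← map_mul, ← map_mul, pmk_eq_pmk_iff]
    refine ⟨-1, ?_⟩
    simp only [GL2_mul_apply, mat_00, mat_01, mat_10, mat_11, hB]
    refine ⟨?_, by ring, by ring, ?_⟩ <;> (rw [ha, hb, hc]; ring)

lemma aux {q k : ℕ} [Fact q.Prime] (hk : q + 1 = 2 ^ k) (hq : 7 ≤ q)
    (H : Sylow 2 PGL(2, ZMod q)) (x : PGL(2, ZMod q)) :
    (H : Subgroup PGL(2, ZMod q)) ⊓ MulAut.conj x • (H : Subgroup _) ≠ ⊥ := by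
  have hqp : q.Prime := Fact.out
  have := finite_PGL2 (F := ZMod q)
  have hF : Nat.card (ZMod q) = q := Nat.card_zmod q
  have hodd : q % 2 = 1 := Nat.odd_iff.mp (hqp.odd_of_ne_two (by omega))
  have h2 : (2 : ZMod q) ≠ 0 := odd_card_iff.mp (by rw [hF]; exact Nat.odd_iff.mpr hodd)
  have hH : 2 * (q + 1) ∣ Nat.card H := by
    rw [hk, ← pow_succ', H.card_eq_multiplicity]
    refine pow_dvd_pow 2 ((Nat.prime_two.pow_dvd_iff_le_factorization Nat.card_pos.ne').mp ?_)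
    rw [card_PGL2, hF, pow_succ, ← hk]
    exact Nat.mul_dvd_mul_left _ (Dvd.dvd.mul_left (by omega) _)
  have hnt : Nontrivial H := by
    rw [← Finite.one_lt_card_iff_nontrivial]
    have := Nat.le_of_dvd Nat.card_pos hH
    omega
  have := H.isPGroup'.center_nontrivial
  obtain ⟨z₀, hz₀⟩ := exists_prime_orderOf_dvd_card' (G := Subgroup.center H) 2 (by
    obtain ⟨n, hn, e⟩ := (H.isPGroup'.to_subgroup (Subgroup.center H)).nontrivial_iff_card.mp this
    rw [e]; exact dvd_pow_self 2 hn.ne')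
  obtain ⟨z, hz⟩ : ∃ z : PGL(2, ZMod q), z = ((z₀ : H) : PGL(2, ZMod q)) := ⟨_, rfl⟩
  have hzo : orderOf z = 2 := by rw [hz, Subgroup.orderOf_coe, Subgroup.orderOf_coe, hz₀]
  have hz1 : z ≠ 1 := by rintro rfl; simp at hzo
  have hz2 : z * z = 1 := by
    have := pow_orderOf_eq_one z
    rwa [hzo, pow_two] at this
  have hzc : ∀ g ∈ (H : Subgroup PGL(2, ZMod q)), g * z = z * g := fun g hg => by
    rw [hz]; exact congrArg Subtype.val (Subgroup.mem_center_iff.mp z₀.2 ⟨g, hg⟩)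
  rcases mem_uni_or_mem_torus z with ⟨y, hy⟩ | ⟨-, T, D, hT, hzT⟩
  · have h1 := orderOf_dvd_of_pow_eq_one (pow_char_eq_one_of_mem_uni q hy)
    rw [hzo] at h1
    omega
  have hCD : ∀ g, g * z = z * g → g ∈ D := fun g hg =>
    hT.ti hzT hz1 (by rwa [hg, mul_inv_cancel_right])
  have hHD : (H : Subgroup PGL(2, ZMod q)) ≤ D := fun g hg => hCD g (hzc g hg)
  have hc1 := Nat.le_of_dvd Nat.card_pos hH
  have hc2 := Subgroup.card_le_of_le hHD
  have hc3 := hT.card_D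
  have hT' : IsNonsplitTorus T D := by
    refine hT.resolve_left fun h => ?_
    rw [h.card, hF] at hc3
    omega
  rw [hT'.card, hF] at hc3
  have hHD' : (H : Subgroup PGL(2, ZMod q)) = D := Subgroup.eq_of_le_of_card_ge hHD (by omega)
  obtain ⟨b, hb1, hb, hb'⟩ := exists_common h2 hz1 hz2 (z' := x * z * x⁻¹) (by simpa using hz1)
    (by rw [show x * z * x⁻¹ * (x * z * x⁻¹) = x * (z * z) * x⁻¹ by group, hz2]; group)
    (fun y hy => hz1 (hT'.free hzT hy))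
  intro h
  apply hb1
  rw [← Subgroup.mem_bot, ← h, hHD']
  refine Subgroup.mem_inf.mpr ⟨hCD b hb, ?_⟩
  rw [Subgroup.mem_pointwise_smul_iff_inv_smul_mem]
  apply hCD
  simp only [MulAut.smul_def, MulAut.conj_inv_apply]
  calc x⁻¹ * b * x * z = x⁻¹ * (b * (x * z * x⁻¹)) * x := by group
    _ = z * (x⁻¹ * b * x) := by rw [hb']; group

/-- Let q = 2^k − 1 ≥ 7 be a prime and let G = PGL(2,q), the general linear group of degree 2 over the field with q elements modulo its centre. Then any two Sylow 2-subgroups of G have a non-trivial intersection: for a Sylow 2-subgroup H and every x ∈ G, H ∩ H^x ≠ 1. -/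
theorem result {q k : ℕ} [Fact q.Prime] (hk : q + 1 = 2 ^ k) (hq : 7 ≤ q)
    (H : Sylow 2 (GL (Fin 2) (ZMod q) ⧸ Subgroup.center (GL (Fin 2) (ZMod q))))
    (x : GL (Fin 2) (ZMod q) ⧸ Subgroup.center (GL (Fin 2) (ZMod q))) :
    (H : Subgroup (GL (Fin 2) (ZMod q) ⧸ Subgroup.center (GL (Fin 2) (ZMod q)))) ⊓ MulAut.conj x • (H : Subgroup _) ≠ ⊥ := by
  exact aux hk hq H x

end Cfsg.Agent.S2485
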