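import Cfsg.Statements.S2486
import Cfsg.Agent.H75.Flags
import Cfsg.Agent.H8.SylowIn

set_option autoImplicit false
open scoped Pointwise
open Cfsg

namespace Cfsg.Agent.S2486

open Matrix in
/-- The upper triangular subgroup. -/
def B (n : ℕ) : Subgroup (GL (Fin n) (ZMod 2)) where
  carrier := {g | (g : Matrix (Fin n) (Fin n) (ZMod 2)).BlockTriangular id}
  one_mem' := blockTriangular_one
  mul_mem' := fun ha hb => BlockTriangular.mul ha hb
  inv_mem' := fun ha => H75.blockTriangular_inv_GL ha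

theorem B_isPGroup (n : ℕ) : IsPGroup 2 (B n) := by
  rintro ⟨b, hb⟩
  refine ⟨n, Subtype.ext (Units.ext ?_)⟩
  have hd : ∀ i, b.1 i i = 1 := by
    intro i
    have h1 : b.1.det ≠ 0 := (Matrix.isUnit_iff_isUnit_det _).1 b.isUnit |>.ne_zero
    rw [Matrix.det_of_isUpperTriangular hb, Finset.prod_ne_zero_iff] at h1
    have h2 := h1 i (Finset.mem_univ i)
    revert h2
    generalize b.1 i i = a
    revert a; decide
  have h1 := Matrix.aeval_self_charpoly b.1
  rw [Matrix.charpoly_of_isUpperTriangular _ hb] at h1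
  simp only [hd, Finset.prod_const, Finset.card_univ, Fintype.card_fin, map_pow, map_sub,
    Polynomial.aeval_X, map_one] at h1
  rcases Nat.eq_zero_or_pos n with h0 | h0
  · subst h0; exact Subsingleton.elim _ _
  have : Nonempty (Fin n) := ⟨⟨0, h0⟩⟩
  have h2 : (b.1 - 1) ^ 2 ^ n = 0 := pow_eq_zero_of_le (Nat.lt_two_pow_self).le h1
  rw [sub_pow_char_pow_of_commute _ _ (Commute.one_right _), one_pow, sub_eq_zero] at h2
  simpa using h2

theorem conj_perm_mem {n : ℕ} (w : Equiv.Perm (Fin n)) {i j : Fin n} (hij : i < j) :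
    ∃ t ∈ B n, t ≠ 1 ∧
      (H75.permGL (ZMod 2) n w * t * (H75.permGL (ZMod 2) n w)⁻¹ ∈ B n ↔ w i < w j) := by
  let t : GL (Fin n) (ZMod 2) :=
    Matrix.SpecialLinearGroup.toGL (Matrix.SpecialLinearGroup.transvection hij.ne 1)
  have ht : ∀ a b, t.1 a b = (if a = b then 1 else 0) + if i = a ∧ j = b then 1 else 0 := by
    intro a b
    change (Matrix.transvection i j (1 : ZMod 2)) a b = _
    simp [Matrix.transvection, Matrix.one_apply, Matrix.single_apply]
  have hc : ∀ a b, (H75.permGL (ZMod 2) n w * t * (H75.permGL (ZMod 2) n w)⁻¹).1 a b =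
      t.1 (w⁻¹ a) (w⁻¹ b) := by
    intro a b
    rw [← map_inv, Units.val_mul, Units.val_mul, H75.mul_permGL_apply, H75.permGL_mul_apply]
  refine ⟨t, fun a b hab => ?_, fun h => ?_, fun h => ?_, fun h a b hab => ?_⟩
  · have hab' : b < a := hab
    rw [ht, if_neg hab'.ne', if_neg, add_zero]
    rintro ⟨rfl, rfl⟩
    exact lt_asymm hij hab'
  · have := ht i j
    rw [h] at this
    simp [hij.ne] at this
  · by_contra hlt
    have h1 : w j < w i := lt_of_le_of_ne (not_lt.1 hlt) (fun h => hij.ne' (w.injective h))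
    have h2 := h (i := w i) (j := w j) h1
    rw [hc, ht] at h2
    simp [hij.ne] at h2
  · have hab' : b < a := hab
    rw [hc, ht, if_neg (fun h => hab'.ne' (w⁻¹.injective h)), if_neg, add_zero]
    rintro ⟨rfl, rfl⟩
    simp only [Equiv.Perm.coe_inv, Equiv.apply_symm_apply] at h
    exact lt_asymm h hab'

theorem mem_of_normalize {n : ℕ} {g : GL (Fin n) (ZMod 2)} (hg : ∀ b ∈ B n, g * b * g⁻¹ ∈ B n) :
    g ∈ B n := by
  obtain ⟨p, q, hp, hq, w, hw⟩ := H75.bruhat_GL g
  have hp : p ∈ B n := hp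
  have hq : q ∈ B n := hq
  have h1 : H75.permGL (ZMod 2) n w = p⁻¹ * g * q := by rw [mul_assoc, hw]; group
  have h2 : StrictMono w := by
    intro i j hij
    obtain ⟨t, ht, -, h⟩ := conj_perm_mem w hij
    rw [← h, h1]
    have := (B n).mul_mem ((B n).mul_mem ((B n).inv_mem hp)
      (hg _ ((B n).mul_mem ((B n).mul_mem hq ht) ((B n).inv_mem hq)))) hp
    convert this using 1
    group
  have h3 : w = 1 := by
    ext i
    rw [(h2.range_inj strictMono_id).1 (by rw [w.surjective.range_eq, Set.range_id])]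
    rfl
  have h4 : g = p * q⁻¹ := by rw [eq_mul_inv_iff_mul_eq, hw, h3, map_one, mul_one]
  rw [h4]
  exact (B n).mul_mem hp ((B n).inv_mem hq)

theorem exists_dc {n : ℕ} {g : GL (Fin n) (ZMod 2)} (hg : ∀ b ∈ B n, g * b * g⁻¹ ∈ B n → b = 1) :
    ∃ p ∈ B n, ∃ q ∈ B n, g = p * H75.permGL (ZMod 2) n Fin.revPerm * q := by
  obtain ⟨p, q, hp, hq, w, hw⟩ := H75.bruhat_GL g
  have hp : p ∈ B n := hp
  have hq : q ∈ B n := hq
  have h1 : g = p * H75.permGL (ZMod 2) n w * q⁻¹ := by rw [← hw]; group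
  have h2 : StrictAnti w := by
    intro i j hij
    obtain ⟨t, ht, ht1, h⟩ := conj_perm_mem w hij
    by_contra hlt
    have h3 : w i < w j := lt_of_le_of_ne (not_lt.1 hlt) (fun h => hij.ne (w.injective h))
    have h4 := hg _ ((B n).mul_mem ((B n).mul_mem hq ht) ((B n).inv_mem hq)) (by
      have := (B n).mul_mem ((B n).mul_mem hp (h.2 h3)) ((B n).inv_mem hp)
      convert this using 1
      rw [h1]; group)
    apply ht1
    calc t = q⁻¹ * (q * t * q⁻¹) * q := by group
      _ = 1 := by rw [h4]; group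
  have h3 : w = Fin.revPerm := by
    ext i
    rw [(h2.range_inj Fin.rev_strictAnti).1
      (by rw [w.surjective.range_eq, Fin.rev_surjective.range_eq])]
    rfl
  exact ⟨p, hp, q⁻¹, (B n).inv_mem hq, by rw [h1, h3]⟩

theorem eq_of_le {n : ℕ} {P : Subgroup (GL (Fin n) (ZMod 2))} (hP : IsPGroup 2 P) (h : B n ≤ P) :
    P ≤ B n := by
  by_contra hcon
  have h1 := H8.lt_inf_normalizer_of_lt hP (lt_of_le_not_ge h hcon)
  exact h1.not_ge fun g hg => mem_of_normalize fun b hb =>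
    (Subgroup.mem_normalizer_iff.1 hg.2 b).1 hb

/-- Let n ≥ 4 and let G be a finite group with a normal subgroup N of index 2 isomorphic to SL(n,2) and with trivial centralizer in G (so G is the extension of the simple group L_n(2) by its inverse-transpose automorphism, its full automorphism group). Then any two Sylow 2-subgroups of G have a non-trivial intersection: for a Sylow 2-subgroup H and every x ∈ G, H ∩ H^x ≠ 1. -/
theorem result {G : Type*} [Group G] [Finite G] {n : ℕ} (hn : 4 ≤ n) (N : Subgroup G) [N.Normal]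
    (e : N ≃* Matrix.SpecialLinearGroup (Fin n) (ZMod 2)) (hidx : N.index = 2)
    (hC : Subgroup.centralizer (N : Set G) = ⊥)
    (H : Sylow 2 G) (x : G) :
    (H : Subgroup G) ⊓ MulAut.conj x • (H : Subgroup G) ≠ ⊥ := by
  have hs : Function.Surjective (Matrix.SpecialLinearGroup.toGL :
      Matrix.SpecialLinearGroup (Fin n) (ZMod 2) →* GL (Fin n) (ZMod 2)) := by
    intro g
    refine ⟨⟨g.1, ?_⟩, Units.ext rfl⟩
    have h1 : g.1.det ≠ 0 := (Matrix.isUnit_iff_isUnit_det _).1 g.isUnit |>.ne_zero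
    revert h1
    generalize g.1.det = a
    revert a; decide
  let e' : N ≃* GL (Fin n) (ZMod 2) :=
    e.trans (MulEquiv.ofBijective _ ⟨Matrix.SpecialLinearGroup.toGL_injective, hs⟩)
  let ι : GL (Fin n) (ZMod 2) →* G := N.subtype.comp e'.symm.toMonoidHom
  have hι : Function.Injective ι := N.subtype_injective.comp e'.symm.injective
  have hιN : ∀ g, ι g ∈ N := fun g => (e'.symm g).2
  have hNι : ∀ y ∈ N, ∃ g, ι g = y := fun y hy => ⟨e' ⟨y, hy⟩, by simp [ι]⟩
  obtain ⟨H₀, hH₀⟩ := ((B_isPGroup n).map ι).exists_le_sylow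
  have hB : ∀ g, ι g ∈ (H₀ : Subgroup G) ↔ g ∈ B n := fun g =>
    ⟨fun hg => eq_of_le (H₀.isPGroup'.comap_of_injective ι hι) (Subgroup.map_le_iff_le_comap.1 hH₀)
      hg, fun hg => hH₀ ⟨g, hg, rfl⟩⟩
  obtain ⟨h, hh, hhN⟩ : ∃ h ∈ (H₀ : Subgroup G), h ∉ N := by
    by_contra hcon
    push Not at hcon
    apply H₀.not_dvd_index
    have h1 := Subgroup.index_dvd_of_le (H := (H₀ : Subgroup G)) (K := N) hcon
    rwa [hidx] at h1
  have key : ∀ g, ∃ z ∈ (H₀ : Subgroup G), z ≠ 1 ∧ ι g * z * (ι g)⁻¹ ∈ (H₀ : Subgroup G) := by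
    intro g
    by_contra hcon
    push Not at hcon
    have hcon' : ∀ z ∈ (H₀ : Subgroup G), ι g * z * (ι g)⁻¹ ∈ (H₀ : Subgroup G) → z = 1 :=
      fun z hz h1 => by_contra fun h2 => hcon z hz h2 h1
    obtain ⟨g', hg'⟩ := hNι _ (Subgroup.Normal.conj_mem ‹_› _ (hιN g) h)
    obtain ⟨p, hp, q, hq, h1⟩ := exists_dc (g := g) fun b hb h1 => hι (by
      rw [map_one]
      refine hcon' _ ((hB b).2 hb) ?_
      rw [← map_inv, ← map_mul, ← map_mul, hB]; exact h1)
    obtain ⟨p', hp', q', hq', h2⟩ := exists_dc (g := g') fun b hb h1 => hι (by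
      have h3 := (hB _).2 h1
      rw [map_mul, map_mul, map_inv, hg'] at h3
      have h4 := hcon' (h⁻¹ * ι b * h)
        (mul_mem (mul_mem (inv_mem hh) ((hB b).2 hb)) hh) (by
          have := mul_mem (mul_mem (inv_mem hh) h3) hh
          convert this using 1
          group)
      rw [map_one]
      calc ι b = h * (h⁻¹ * ι b * h) * h⁻¹ := by group
        _ = 1 := by rw [h4]; group)
    have h3 : g' = p' * p⁻¹ * g * (q⁻¹ * q') := by rw [h1, h2]; group
    have h4 : ι g * (ι (q⁻¹ * q') * h) * (ι g)⁻¹ = ι (p' * p⁻¹)⁻¹ * h := by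
      have h5 := congrArg ι h3
      rw [hg', map_mul, map_mul] at h5
      rw [map_inv]
      calc ι g * (ι (q⁻¹ * q') * h) * (ι g)⁻¹
          = (ι (p' * p⁻¹))⁻¹ * (ι (p' * p⁻¹) * ι g * ι (q⁻¹ * q')) * h * (ι g)⁻¹ := by group
        _ = _ := by rw [← h5]; group
    have h5 := hcon' (ι (q⁻¹ * q') * h)
      (mul_mem ((hB _).2 (mul_mem (inv_mem hq) hq')) hh)
      (by rw [h4]; exact mul_mem ((hB _).2 (inv_mem (mul_mem hp' (inv_mem hp)))) hh)
    apply hhN
    rw [eq_inv_of_mul_eq_one_right h5]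
    exact inv_mem (hιN _)
  have key2 : ∀ y : G, ∃ z ∈ (H₀ : Subgroup G), z ≠ 1 ∧ y * z * y⁻¹ ∈ (H₀ : Subgroup G) := by
    intro y
    by_cases hy : y ∈ N
    · obtain ⟨g, rfl⟩ := hNι y hy
      exact key g
    · have h1 : y * h ∈ N := (Subgroup.mul_mem_iff_of_index_two hidx).2 (by tauto)
      obtain ⟨g, hg⟩ := hNι _ h1
      obtain ⟨z, hz, hz1, hz2⟩ := key g
      refine ⟨h * z * h⁻¹, mul_mem (mul_mem hh hz) (inv_mem hh), fun h2 => hz1 ?_, ?_⟩
      · calc z = h⁻¹ * (h * z * h⁻¹) * h := by group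
          _ = 1 := by rw [h2]; group
      · rw [hg] at hz2
        convert hz2 using 1
        group
  obtain ⟨y, rfl⟩ := MulAction.exists_smul_eq G H₀ H
  obtain ⟨z, hz, hz1, hz2⟩ := key2 (y⁻¹ * x * y)
  rw [Ne, Subgroup.eq_bot_iff_forall]
  intro hcon
  have hm : ∀ a ∈ (H₀ : Subgroup G), y * a * y⁻¹ ∈ ((y • H₀ : Sylow 2 G) : Subgroup G) := by
    intro a ha
    rw [Sylow.coe_subgroup_smul]
    exact Subgroup.smul_mem_pointwise_smul a (MulAut.conj y) _ ha
  have h1 := hcon (x * (y * z * y⁻¹) * x⁻¹) ⟨by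
    have := hm _ hz2
    rwa [show y * (y⁻¹ * x * y * z * (y⁻¹ * x * y)⁻¹) * y⁻¹ = x * (y * z * y⁻¹) * x⁻¹ by group]
      at this, Subgroup.smul_mem_pointwise_smul _ (MulAut.conj x) _ (hm z hz)⟩
  apply hz1
  calc z = (x * y)⁻¹ * (x * (y * z * y⁻¹) * x⁻¹) * (x * y) := by group
    _ = 1 := by rw [h1]; group

end Cfsg.Agent.S2486
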