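import Cfsg.Statements.S2487
import Cfsg.Agent.H30.OrthMatrix

set_option autoImplicit false
open scoped Pointwise
open Cfsg

namespace Cfsg.Agent.S2487

open Cfsg.Agent.H30 QuadraticMap in
theorem exists_ne_one_fix {F V : Type*} [Field F] [AddCommGroup V] [Module F V]
    [FiniteDimensional F V] {Q : QuadraticForm F V} (hQ : (polarBilin Q).Nondegenerate)
    (W : Submodule F V) (h : Module.finrank F W + 2 ≤ Module.finrank F V) :
    ∃ g : O Q, g ≠ 1 ∧ ∀ w ∈ W, g.1 w = w := by
  set U := LinearMap.BilinForm.orthogonal (polarBilin Q) W with hU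
  have hU2 : 2 ≤ Module.finrank F U := by
    have := LinearMap.BilinForm.finrank_orthogonal hQ W
    rw [← hU] at this
    omega
  by_cases hex : ∃ u ∈ U, Q u ≠ 0
  · obtain ⟨u, hu, hQu⟩ := hex
    refine ⟨refl Q u, fun h1 => ?_, fun w hw => refl_apply_of_orth (mem_orthogonal_polar.1 hu w hw)⟩
    have hu0 : u ≠ 0 := by rintro rfl; simp at hQu
    obtain ⟨y, hy⟩ := exists_polar_ne_zero hQ hu0
    have := refl_apply Q u y
    rw [h1, O_one_apply, eq_comm, sub_eq_self, smul_eq_zero, polar_comm] at this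
    rcases this with h | h
    · exact mul_ne_zero (inv_ne_zero hQu) hy h
    · exact hu0 h
  · push Not at hex
    obtain ⟨f, hf⟩ := exists_linearIndependent_of_le_finrank hU2
    have hf' : LinearIndependent F (fun i => (f i : V)) := hf.map' U.subtype U.ker_subtype
    set a : V := (f 0 : U).1
    set b : V := (f 1 : U).1
    have hab : LinearIndependent F ![a, b] := by
      convert hf' using 1
      ext i; fin_cases i <;> rfl
    have ha : Q a = 0 := hex _ (f 0).2
    have hb : Q b = 0 := hex _ (f 1).2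
    have hp : polar Q a b = 0 := by
      have := hex (a + b) (U.add_mem (f 0).2 (f 1).2)
      rw [Q_add, ha, hb] at this
      simpa using this
    refine ⟨eich Q a b, fun h1 => ?_, fun w hw => eich_apply_of_orth
      (mem_orthogonal_polar.1 (f 0).2 w hw) (mem_orthogonal_polar.1 (f 1).2 w hw)⟩
    have ha0 : a ≠ 0 := hab.ne_zero 0
    obtain ⟨y, hy⟩ := exists_polar_ne_zero hQ ha0
    have := eich_apply ha hp y
    rw [h1, O_one_apply, hb] at this
    have h2 : (-polar Q y b) • a + polar Q y a • b = 0 := by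
      have h3 : y + polar Q y a • b - polar Q y b • a - (0 * polar Q y a) • a - y = 0 := by
        rw [← this, sub_self]
      rw [← h3]; simp only [zero_mul, zero_smul, neg_smul]; abel
    have := (LinearIndependent.pair_iff.1 hab _ _ h2).2
    rw [polar_comm] at this
    exact hy this

open Cfsg.Agent.H30 QuadraticMap in
theorem pow_four_eq_one {F : Type*} [Field F] [Fintype F] (hF : Fintype.card F = 2) {m : ℕ}
    (k : Fin m) (g : O (qPlus F m))
    (hg : ∀ i, i ≠ k → g.1 (Pi.single (Sum.inl i) 1) = Pi.single (Sum.inl i) 1) : g ^ 4 = 1 := by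
  have h01 : ∀ x : F, x ≠ 0 → x = 1 := fun x hx => by
    have := FiniteField.pow_card_sub_one_eq_one x hx
    rw [hF] at this
    simpa using this
  have h2 : (2 : F) = 0 := by
    by_contra h
    have := h01 2 h
    have h3 : (1 : F) = 0 := by linear_combination this
    exact one_ne_zero h3
  have hpe : ∀ (v : Fin m ⊕ Fin m → F) i,
      polar (qPlus F m) v (Pi.single (Sum.inl i) 1) = v (Sum.inr i) := by
    intro v i
    rw [polar_qPlus, Finset.sum_eq_single i]
    · simp
    · intro j _ hj; simp [hj]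
    · simp
  -- the three subspaces
  let P1 : (Fin m ⊕ Fin m → F) → Prop := fun v => ∀ i, i ≠ k → v (Sum.inr i) = 0
  let P3 : (Fin m ⊕ Fin m → F) → Prop := fun v => (∀ i, v (Sum.inr i) = 0) ∧ v (Sum.inl k) = 0
  have s1 : ∀ v, P1 (g.1 v - v) := by
    intro v i hi
    rw [Pi.sub_apply, ← hpe (g.1 v), ← hpe v, ← O_polar g v, hg i hi, sub_self]
  have s4 : ∀ v, P3 v → g.1 v = v := by
    intro v hv
    have hv' : v = ∑ i ∈ Finset.univ.erase k, v (Sum.inl i) • Pi.single (Sum.inl i) (1 : F) := by
      ext j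
      rcases j with j | j
      · rw [Finset.sum_apply]
        by_cases hj : j = k
        · subst hj
          rw [hv.2, Finset.sum_eq_zero]
          intro i hi
          have : j ≠ i := fun h => (Finset.mem_erase.1 hi).1 h.symm
          simp [this]
        · rw [Finset.sum_eq_single j]
          · simp
          · intro i _ hi; simp [Ne.symm hi]
          · intro h; exact absurd (Finset.mem_erase.2 ⟨hj, Finset.mem_univ _⟩) h
      · rw [Finset.sum_apply, hv.1]; simp
    rw [hv', map_sum]
    refine Finset.sum_congr rfl fun i hi => ?_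
    rw [map_smul, hg i (Finset.mem_erase.1 hi).1]
  have hQ1 : ∀ v, P1 v → qPlus F m v = v (Sum.inl k) * v (Sum.inr k) := by
    intro v hv
    rw [qPlus_apply, Finset.sum_eq_single k]
    · intro i _ hi; rw [hv i hi, mul_zero]
    · simp
  have hP13 : ∀ v w, P1 v → P3 w → polar (qPlus F m) v w = 0 := by
    intro v w hv hw
    rw [polar_qPlus]
    refine Finset.sum_eq_zero fun i _ => ?_
    by_cases hi : i = k
    · subst hi; rw [hw.1, hw.2]; ring
    · rw [hw.1, hv i hi]; ring
  set s : Fin m ⊕ Fin m → F := Pi.single (Sum.inl k) 1 + Pi.single (Sum.inr k) 1 with hs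
  have hs1 : P1 s := by intro i hi; simp [hs, hi]
  have hgP1 : ∀ v, P1 v → P1 (g.1 v) := by
    intro v hv i hi
    have := s1 v i hi
    rwa [Pi.sub_apply, hv i hi, sub_zero] at this
  have hgs : P3 (g.1 s - s) := by
    have h1 := O_map g s
    rw [hQ1 _ (hgP1 s hs1), hQ1 s hs1] at h1
    have h1' : g.1 s (Sum.inl k) * g.1 s (Sum.inr k) ≠ 0 := by rw [h1]; simp [hs]
    have ha := h01 _ (left_ne_zero_of_mul h1')
    have hb := h01 _ (right_ne_zero_of_mul h1')
    refine ⟨fun i => ?_, ?_⟩
    · by_cases hi : i = k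
      · subst hi; rw [Pi.sub_apply, hb]; simp [hs]
      · exact s1 s i hi
    · rw [Pi.sub_apply, ha]; simp [hs]
  have hps : ∀ v, polar (qPlus F m) v s = v (Sum.inl k) + v (Sum.inr k) := by
    intro v
    rw [polar_qPlus, Finset.sum_eq_single k]
    · simp [hs]
    · intro j _ hj; simp [hs, hj]
    · simp
  have s2 : ∀ v, P1 v → (g.1 v - v) (Sum.inl k) = (g.1 v - v) (Sum.inr k) := by
    intro v hv
    have h1 := hP13 _ _ (hgP1 v hv) hgs
    rw [polar_sub_right, O_polar, hps, hps] at h1
    simp only [Pi.sub_apply]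
    linear_combination (-1 : F) * h1 - (g.1 v (Sum.inr k) - v (Sum.inr k)) * h2
  have s3 : ∀ w, P1 w → w (Sum.inl k) = w (Sum.inr k) → P3 (g.1 w - w) := by
    intro w hw hw'
    have h1 : P3 (w - w (Sum.inl k) • s) := by
      refine ⟨fun i => ?_, ?_⟩
      · by_cases hi : i = k
        · subst hi; simp [hs, hw']
        · simp [hs, hi, hw i hi]
      · simp [hs]
    have h2 := s4 _ h1
    rw [map_sub, map_smul] at h2
    have h3 : g.1 w - w = w (Sum.inl k) • (g.1 s - s) := by
      rw [smul_sub, ← sub_eq_zero, ← sub_eq_zero.2 h2]; abel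
    rw [h3]
    exact ⟨fun i => by rw [Pi.smul_apply, hgs.1, smul_zero], by rw [Pi.smul_apply, hgs.2, smul_zero]⟩
  apply O_ext
  intro v
  have a1 := s1 v
  have a2 := s3 _ (s1 _) (s2 _ a1)
  have a3 := s4 _ a2
  simp only [map_sub] at a3
  rw [show g ^ 4 = g * g * g * g by simp [pow_succ], O_one_apply]
  simp only [O_mul_apply]
  ext j
  have := congrFun a3 j
  simp only [Pi.sub_apply] at this
  linear_combination this + (2 * g.1 (g.1 (g.1 v)) j - 3 * g.1 (g.1 v) j + 2 * g.1 v j - v j) * h2

/-- Let m ≥ 4 and let G be the full isometry group of the hyperbolic quadratic form x₁y₁ + ⋯ + x_m y_m on the 2m-dimensional space over the field with 2 elements (the orthogonal group O⁺(2m,2), which contains Ω⁺(2m,2) with index 2). Then any two Sylow 2-subgroups of G have a non-trivial intersection: for a Sylow 2-subgroup H and every x ∈ G, H ∩ H^x ≠ 1. -/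
theorem result {F : Type*} [Field F] [Fintype F] (hF : Fintype.card F = 2) {m : ℕ} (hm : 4 ≤ m)
    (H : Sylow 2 (Cfsg.isometryGroup F (Cfsg.quadFormPlus m F)))
    (x : Cfsg.isometryGroup F (Cfsg.quadFormPlus m F)) :
    (H : Subgroup (Cfsg.isometryGroup F (Cfsg.quadFormPlus m F))) ⊓ MulAut.conj x • (H : Subgroup _) ≠ ⊥ := by
  classical
  open Cfsg.Agent.H30 in
  let k : Fin m := ⟨0, by omega⟩
  let e : Cfsg.isometryGroup F (Cfsg.quadFormPlus m F) ≃* O (qPlus F m) := isoEquiv (qPlus F m)
  let R : Subgroup (Cfsg.isometryGroup F (Cfsg.quadFormPlus m F)) :=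
    { carrier := {g | ∀ i, i ≠ k → (e g).1 (Pi.single (Sum.inl i) 1) = Pi.single (Sum.inl i) 1}
      mul_mem' := fun {a b} ha hb i hi => by rw [map_mul, O_mul_apply, hb i hi, ha i hi]
      one_mem' := fun i _ => by rw [map_one, O_one_apply]
      inv_mem' := fun {a} ha i hi => by rw [map_inv, O_inv_apply_eq, ha i hi] }
  have hR : IsPGroup 2 R := by
    intro g
    refine ⟨2, Subtype.ext (e.injective ?_)⟩
    rw [Subgroup.coe_pow, map_pow, Subgroup.coe_one, map_one]
    exact pow_four_eq_one hF k _ g.2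
  obtain ⟨P, hP⟩ := hR.exists_le_sylow
  obtain ⟨y, rfl⟩ := MulAction.exists_smul_eq (Cfsg.isometryGroup F (Cfsg.quadFormPlus m F)) P H
  let f : ({i : Fin m // i ≠ k} ⊕ {i : Fin m // i ≠ k}) → (Fin m ⊕ Fin m → F) :=
    Sum.elim (fun i => (e y).1 (Pi.single (Sum.inl i.1) 1))
      (fun i => (e (x * y)).1 (Pi.single (Sum.inl i.1) 1))
  have hdim : Module.finrank F (Submodule.span F (Set.range f)) + 2 ≤
      Module.finrank F (Fin m ⊕ Fin m → F) := by
    have h1 := finrank_range_le_card (R := F) f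
    have h2 : Fintype.card {i : Fin m // i ≠ k} = m - 1 := by simp
    rw [Fintype.card_sum, h2] at h1
    rw [Module.finrank_fintype_fun_eq_card, Fintype.card_sum, Fintype.card_fin]
    unfold Set.finrank at h1
    omega
  obtain ⟨g, hg1, hg⟩ := exists_ne_one_fix (qPlus_nondegenerate m) _ hdim
  have key : ∀ z : Cfsg.isometryGroup F (Cfsg.quadFormPlus m F),
      (∀ i, i ≠ k → g.1 ((e z).1 (Pi.single (Sum.inl i) 1)) = (e z).1 (Pi.single (Sum.inl i) 1)) →
      z⁻¹ * e.symm g * z ∈ (P : Subgroup _) := by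
    intro z hz
    apply hP
    intro i hi
    rw [map_mul, map_mul, map_inv, MulEquiv.apply_symm_apply, O_mul_apply, O_mul_apply, hz i hi,
      O_inv_apply]
  have k1 := key y fun i hi => hg _ (Submodule.subset_span ⟨Sum.inl ⟨i, hi⟩, rfl⟩)
  have k2 := key (x * y) fun i hi => hg _ (Submodule.subset_span ⟨Sum.inr ⟨i, hi⟩, rfl⟩)
  intro hbot
  have hmem : e.symm g ∈ ((y • P : Sylow 2 _) : Subgroup _) ⊓
      MulAut.conj x • ((y • P : Sylow 2 _) : Subgroup _) := by
    refine Subgroup.mem_inf.2 ⟨?_, ?_⟩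
    · rw [Sylow.coe_subgroup_smul, Subgroup.mem_pointwise_smul_iff_inv_smul_mem]
      simpa [mul_assoc] using k1
    · rw [Sylow.coe_subgroup_smul, Subgroup.mem_pointwise_smul_iff_inv_smul_mem,
        Subgroup.mem_pointwise_smul_iff_inv_smul_mem]
      simpa [mul_assoc] using k2
  rw [hbot, Subgroup.mem_bot] at hmem
  apply hg1
  rw [← e.apply_symm_apply g, hmem, map_one]

end Cfsg.Agent.S2487
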