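import Cfsg.Statements.S2490
import Cfsg.Agent.H13.M11Crit

set_option autoImplicit false
open Cfsg

namespace Cfsg.Agent.S2490

/-- Let G be a finite group of order 7920 = 2⁴·3²·5·11 (the order of the smallest Mathieu group) and suppose its prime graph (vertices the prime divisors of the order, distinct p, q joined when there is an element of order pq) is disconnected: the prime divisors split into two non-empty parts with no element of order pq for p in one part and q in the other. Then G is simple. -/
theorem result {G : Type*} [Group G] [Finite G] (hord : Nat.card G = 7920)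
    (hdisc : (∃ A : Set ℕ, (∃ a ∈ A, a.Prime ∧ a ∣ Nat.card G) ∧ (∃ b ∉ A, b.Prime ∧ b ∣ Nat.card G) ∧
      ∀ a ∈ A, ∀ b ∉ A, a.Prime → b.Prime → a ∣ Nat.card G → b ∣ Nat.card G → ¬ ∃ g : G, orderOf g = a * b)) :
    IsSimpleGroup G := by
  have := H13.M11.fact11
  refine H13.M11.simple_of_card_sylow hord ?_
  by_contra h
  obtain ⟨h2, h3, h5⟩ := H13.M11.connected_of_card_sylow hord h
  obtain ⟨A, ⟨a, ha, hap, had⟩, ⟨b, hb, hbp, hbd⟩, hA⟩ := hdisc
  rw [hord] at had hbd hA
  have key : ∀ p q : ℕ, p.Prime → q.Prime → p ∣ 7920 → q ∣ 7920 →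
      (∃ g : G, orderOf g = p * q) → (p ∈ A ↔ q ∈ A) := fun p q hp hq hpd hqd hg =>
    ⟨fun h1 => by_contra fun h2 => hA p h1 q h2 hp hq hpd hqd hg,
      fun h1 => by_contra fun h2 => hA q h1 p h2 hq hp hqd hpd (mul_comm p q ▸ hg)⟩
  have e2 := key 11 2 (by norm_num) (by norm_num) (by norm_num) (by norm_num) h2
  have e3 := key 11 3 (by norm_num) (by norm_num) (by norm_num) (by norm_num) h3
  have e5 : 11 ∈ A ↔ 5 ∈ A := by
    rcases h5 with h5 | h5
    · exact key 11 5 (by norm_num) (by norm_num) (by norm_num) (by norm_num) h5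
    · exact e3.trans (key 5 3 (by norm_num) (by norm_num) (by norm_num) (by norm_num) h5).symm
  have all : ∀ r : ℕ, r.Prime → r ∣ 7920 → (11 ∈ A ↔ r ∈ A) := fun r hr hd => by
    have h1 : r ≤ 11 := (Nat.Prime.dvd_factorial hr).1 (hd.trans (by decide))
    interval_cases r <;> first | assumption | rfl | exact absurd hd (by decide) | exact absurd hr (by decide)
  exact hb ((all b hbp hbd).1 ((all a hap had).2 ha))

end Cfsg.Agent.S2490
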