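import Cfsg.Statements.S2493
import Cfsg.Agent.H67.DC
import Cfsg.Agent.H44.Tr3

set_option autoImplicit false
open Cfsg

namespace Cfsg.Agent.S2493

section

open Equiv Equiv.Perm Cfsg.Agent.H67 Cfsg.Agent.H78

variable {α : Type*} [Fintype α] [DecidableEq α]

theorem disj_swap {t : Perm α} {x y : α} (hx : t x = x) (hy : t y = y) : t.Disjoint (swap x y) :=
  fun z => by
    by_cases h1 : z = x
    · left; rw [h1, hx]
    by_cases h2 : z = y
    · left; rw [h2, hy]
    · right; exact swap_apply_of_ne_of_ne h1 h2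

theorem inv_mul_swap {t : Perm α} {x y : α} (ht : t * t = 1) (hx : t x = x) (hy : t y = y) :
    t * swap x y * (t * swap x y) = 1 := by
  rw [mul_assoc, ← mul_assoc (swap x y), ← (disj_swap hx hy).commute.eq, mul_assoc,
    swap_mul_self, mul_one, ht]

theorem two_inv (σ : Perm α) : ∀ y, σ y ≠ y → ∃ s t : Perm α, s * s = 1 ∧ t * t = 1 ∧ σ = s * t ∧
    t y = y ∧ s.support ⊆ σ.support ∧ t.support ⊆ σ.support ∧
    s.support.card = t.support.card + if sign σ = 1 then 0 else 2 := by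
  induction h : σ.support.card using Nat.strong_induction_on generalizing σ with
  | _ n ih =>
  intro y hy
  obtain ⟨x, rfl⟩ := σ.surjective y
  have hx : x ≠ σ x := fun e => hy (by rw [← e, ← e])
  set τ := σ * swap x (σ x) with hτ
  have h1 : τ (σ x) = σ x := by simp [τ]
  have h2 : τ.support ⊆ σ.support := fun z hz => by
    rw [mem_support] at hz ⊢
    intro e
    by_cases e1 : z = x
    · exact hx (by rw [← e1, e])
    by_cases e2 : z = σ x
    · exact hz (e2 ▸ h1)
    · exact hz (by rw [hτ, Perm.mul_apply, swap_apply_of_ne_of_ne e1 e2, e])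
  have h3 : τ.support.card < n := h ▸ Finset.card_lt_card ⟨h2, fun e =>
    mem_support.1 (e (mem_support.2 hy)) h1⟩
  have h4 : ∃ s t : Perm α, s * s = 1 ∧ t * t = 1 ∧ τ = s * t ∧
      t x = x ∧ s.support ⊆ τ.support ∧ t.support ⊆ τ.support ∧
      s.support.card = t.support.card + if sign τ = 1 then 0 else 2 := by
    by_cases e : τ = 1
    · exact ⟨1, 1, by simp, by simp, by simp [e], rfl, by simp, by simp, by simp [e]⟩
    by_cases e' : τ x = x
    · obtain ⟨z, hz⟩ : ∃ z, τ z ≠ z := by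
        by_contra! h5
        exact e (Equiv.ext h5)
      obtain ⟨s, t, a1, a2, a3, -, a5, a6, a7⟩ := ih _ h3 τ rfl z hz
      exact ⟨s, t, a1, a2, a3, notMem_support.1 fun h => mem_support.1 (a6 h) e', a5, a6, a7⟩
    · exact ih _ h3 τ rfl x e'
  obtain ⟨s, t, a1, a2, a3, a4, a5, a6, a7⟩ := h4
  have b1 : s (σ x) = σ x := notMem_support.1 fun h => mem_support.1 (a5 h) h1
  have b2 : t (σ x) = σ x := notMem_support.1 fun h => mem_support.1 (a6 h) h1
  have hs : s⁻¹ = s := inv_eq_of_mul_eq_one_right a1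
  have b3 : σ = s * (t * swap x (σ x)) := by
    rw [← mul_assoc, ← a3, hτ, mul_assoc, swap_mul_self, mul_one]
  refine ⟨s * (t * swap x (σ x)) * s⁻¹, s, ?_, a1, ?_, b1, ?_, a5.trans h2, ?_⟩
  · rw [conj_mul, inv_mul_swap a2 a4 b2]
    simp
  · rw [inv_mul_cancel_right, ← b3]
  · rw [← b3, hs]
    exact (support_mul_le _ _).trans (sup_le le_rfl (a5.trans h2))
  · rw [card_support_conj, (disj_swap a4 b2).card_support_mul, card_support_swap hx, a7, hτ,
      map_mul, sign_swap hx]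
    rcases Int.units_eq_one_or (sign σ) with e | e <;> simp [e]

theorem isConj_inv {s t : Perm α} (hs : s * s = 1) (ht : t * t = 1)
    (h : s.support.card = t.support.card) : IsConj s t := by
  have h1 := cycleType_of_pow_prime_eq_one (p := 2) (σ := s) (by rw [pow_two, hs])
  have h2 := cycleType_of_pow_prime_eq_one (p := 2) (σ := t) (by rw [pow_two, ht])
  rw [← sum_cycleType, ← sum_cycleType, h1, h2, Multiset.sum_replicate, Multiset.sum_replicate,
    smul_eq_mul, smul_eq_mul] at h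
  rw [isConj_iff_cycleType_eq, h1, h2, Nat.eq_of_mul_eq_mul_right two_pos h]

/-- Two cycles of length two. -/
def Two (b : Perm α) : Prop :=
  ∃ i j k l, i ≠ j ∧ i ≠ k ∧ i ≠ l ∧ j ≠ k ∧ j ≠ l ∧ k ≠ l ∧ b i = j ∧ b j = i ∧ b k = l ∧ b l = k

theorem peel {t : Perm α} (ht : t * t = 1) {x : α} (hx : t x ≠ x) :
    ∃ u : Perm α, u * u = 1 ∧ u x = x ∧ u (t x) = t x ∧ t = u * swap x (t x) ∧
      t.support.card = u.support.card + 2 ∧ ∀ z, t z = z → u z = z := by
  have h0 : t (t x) = x := congrArg (fun f : Perm α => f x) ht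
  have h1 : (t * swap x (t x)) x = x := by simp [h0]
  have h2 : (t * swap x (t x)) (t x) = t x := by simp
  have h3 : t = t * swap x (t x) * swap x (t x) := by rw [mul_assoc, swap_mul_self, mul_one]
  refine ⟨t * swap x (t x), ?_, h1, h2, h3, ?_, fun z hz => ?_⟩
  · have h4 : t * swap x (t x) = swap x (t x) * t := by
      rw [mul_swap_eq_swap_mul, h0, swap_comm]
    rw [mul_assoc, h4, ← mul_assoc (swap x (t x)), swap_mul_self, one_mul, ht]
  · conv_lhs => rw [h3]
    rw [(disj_swap h1 h2).card_support_mul, card_support_swap hx.symm]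
  · rw [Perm.mul_apply, swap_apply_of_ne_of_ne, hz]
    · rintro rfl
      exact hx hz
    · rintro rfl
      exact hx (hz.symm.trans h0)

theorem two_of_inv {t : Perm α} (ht : t * t = 1) (h1 : t ≠ 1) (hs : sign t = 1) : Two t := by
  obtain ⟨x, hx⟩ : ∃ z, t z ≠ z := by
    by_contra! h5
    exact h1 (Equiv.ext h5)
  obtain ⟨u, a1, a2, a3, a4, -, -⟩ := peel ht hx
  obtain ⟨k, hk⟩ : ∃ z, u z ≠ z := by
    by_contra! h5
    rw [a4, show u = 1 from Equiv.ext h5, one_mul, sign_swap hx.symm] at hs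
    exact absurd hs (by decide)
  have h2 : ∀ z, t (t z) = z := fun z => congrArg (fun f : Perm α => f z) ht
  have b1 : k ≠ x := fun e => hk (e ▸ a2)
  have b2 : k ≠ t x := fun e => hk (e ▸ a3)
  have b3 : t k = u k := by
    conv_lhs => rw [a4]
    rw [Perm.mul_apply, swap_apply_of_ne_of_ne b1 b2]
  refine ⟨x, t x, k, t k, hx.symm, b1.symm, fun e => b2 ?_, b2.symm, fun e => b1 ?_,
    fun e => hk (b3 ▸ e.symm), rfl, h2 x, rfl, h2 k⟩
  · rw [e, h2]
  · exact (t.injective e).symm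

theorem two_dt {i j k l : α} (h1 : i ≠ j) (h2 : i ≠ k) (h3 : i ≠ l) (h4 : j ≠ k) (h5 : j ≠ l)
    (h6 : k ≠ l) : Two (swap i j * swap k l) :=
  ⟨i, j, k, l, h1, h2, h3, h4, h5, h6, by simp [swap_apply_of_ne_of_ne h2 h3],
    by simp [swap_apply_of_ne_of_ne h4 h5], by simp [swap_apply_of_ne_of_ne h3.symm h5.symm],
    by simp [swap_apply_of_ne_of_ne h2.symm h4.symm]⟩

theorem exists_notMem (h5 : 5 ≤ Fintype.card α) (s : Finset α) (hs : s.card ≤ 4) : ∃ u, u ∉ s := by
  by_contra! h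
  rw [Finset.eq_univ_iff_forall.2 h, Finset.card_univ] at hs
  omega

theorem good (h5 : 5 ≤ Fintype.card α) {σ : Perm α} (hσ : sign σ = 1) :
    ∃ b b' : Perm α, IsConj b b' ∧ sign b = 1 ∧ σ = b' * b⁻¹ ∧ Two b := by
  by_cases e : σ = 1
  · obtain ⟨i, -⟩ := exists_notMem h5 ∅ (by simp)
    obtain ⟨j, hj⟩ := exists_notMem h5 {i} (by simp)
    obtain ⟨k, hk⟩ := exists_notMem h5 {i, j} (Finset.card_le_two.trans (by norm_num))
    obtain ⟨l, hl⟩ := exists_notMem h5 {i, j, k} (Finset.card_le_three.trans (by norm_num))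
    simp only [Finset.mem_insert, Finset.mem_singleton, not_or] at hj hk hl
    exact ⟨_, _, IsConj.refl _, by simp [Ne.symm hj, Ne.symm hl.2.2], by rw [e, mul_inv_cancel],
      two_dt (Ne.symm hj) (Ne.symm hk.1) (Ne.symm hl.1) (Ne.symm hk.2) (Ne.symm hl.2.1)
        (Ne.symm hl.2.2)⟩
  obtain ⟨y, hy⟩ : ∃ z, σ z ≠ z := by
    by_contra! h5
    exact e (Equiv.ext h5)
  obtain ⟨s, t, a1, a2, rfl, a4, -, -, a7⟩ := two_inv σ y hy
  rw [if_pos hσ, add_zero] at a7
  rw [Perm.mul_apply, a4] at hy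
  obtain ⟨x, hx, hx'⟩ : ∃ x ∈ t.support, x ∉ s.support := by
    by_contra! h
    exact mem_support.1 ((Finset.eq_of_subset_of_card_le h a7.le).ge (mem_support.2 hy)) a4
  rw [mem_support] at hx
  rw [notMem_support] at hx'
  have hti : t⁻¹ = t := inv_eq_of_mul_eq_one_right a2
  rcases Int.units_eq_one_or (sign t) with h | h
  · exact ⟨t, s, isConj_inv a2 a1 a7.symm, h, by rw [hti],
      two_of_inv a2 (fun e => hx (by rw [e]; rfl)) h⟩
  have hxy : x ≠ y := fun e => hx (e ▸ a4)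
  obtain ⟨u, b1, b2, b3, b4, b5, b6⟩ := peel a2 hx
  obtain ⟨v, c1, c2, c3, c4, c5, c6⟩ := peel a1 hy
  have d1 : t x ≠ y := fun e => hxy (t.injective (e.trans a4.symm))
  have d2 : s y ≠ x := fun e => hxy (s.injective (e.trans hx'.symm)).symm
  generalize t x = x' at *
  generalize s y = y' at *
  subst b4 c4
  by_cases hu : u = 1
  · subst hu
    obtain rfl : v = 1 := by
      rw [← support_eq_empty_iff, ← Finset.card_eq_zero]
      rw [support_one, Finset.card_empty] at b5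
      omega
    rw [one_mul, one_mul]
    by_cases h1 : x' = y'
    · subst h1
      obtain ⟨k, hk⟩ := exists_notMem h5 {x, y, x'} (Finset.card_le_three.trans (by norm_num))
      obtain ⟨l, hl⟩ := exists_notMem h5 {x, y, x', k} Finset.card_le_four
      simp only [Finset.mem_insert, Finset.mem_singleton, not_or] at hk hl
      refine ⟨swap x x' * swap k l, swap y x' * swap k l, ?_, by simp [Ne.symm hx, Ne.symm hl.2.2.2],
        by simp [mul_assoc], two_dt (Ne.symm hx) (Ne.symm hk.1) (Ne.symm hl.1) (Ne.symm hk.2.2)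
          (Ne.symm hl.2.2.1) (Ne.symm hl.2.2.2)⟩
      rw [isConj_iff_cycleType_eq, cycleType_dt (Ne.symm hx) (Ne.symm hk.1) (Ne.symm hl.1)
        (Ne.symm hk.2.2) (Ne.symm hl.2.2.1) (Ne.symm hl.2.2.2), cycleType_dt (Ne.symm hy)
        (Ne.symm hk.2.1) (Ne.symm hl.2.1) (Ne.symm hk.2.2) (Ne.symm hl.2.2.1) (Ne.symm hl.2.2.2)]
    · refine ⟨swap y x * swap y' x', swap y x' * swap y' x, ?_, by simp [Ne.symm hxy, Ne.symm h1],
        ?_, two_dt hxy.symm hy.symm d1.symm d2.symm hx.symm (Ne.symm h1)⟩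
      · rw [isConj_iff_cycleType_eq, cycleType_dt hxy.symm hy.symm d1.symm d2.symm hx.symm
          (Ne.symm h1), cycleType_dt d1.symm hy.symm hxy.symm h1 hx d2]
      · ext z
        simp only [mul_inv_rev, swap_inv, Perm.mul_apply, swap_apply_def]
        grind
  · have e1 : ∀ {w : Perm α} {a a' b : α}, w a = a → w a' = a' → w b = b →
        w.Disjoint (swap a a' * swap a b) := fun h1 h2 h3 =>
      (disj_swap h1 h2).mul_right (disj_swap h1 h3)
    have hu' : sign u = 1 := by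
      rw [map_mul, sign_swap hx.symm] at h
      simpa using h
    refine ⟨u * (swap x x' * swap x y), v * (swap y y' * swap y x), ?_,
      by simp [hu', Ne.symm hx, hxy], ?_, ?_⟩
    · refine Disjoint.isConj_mul (isConj_inv b1 c1 (by omega)) ?_ (e1 b2 b3 (b6 y a4))
        (e1 c2 c3 (c6 x hx'))
      rw [isConj_iff_cycleType_eq, (isThreeCycle_swap_mul_swap_same hx.symm hxy d1).cycleType,
        (isThreeCycle_swap_mul_swap_same hy.symm hxy.symm d2).cycleType]
    · rw [← mul_assoc u, mul_inv_rev, hti, swap_inv, swap_comm y x]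
      simp [mul_assoc]
    · obtain ⟨i, j, k, l, f1, f2, f3, f4, f5, f6, g1, g2, g3, g4⟩ := two_of_inv b1 hu hu'
      have key : ∀ z, u z ≠ z → (u * (swap x x' * swap x y)) z = u z := fun z hz => by
        rw [Perm.mul_apply, ((e1 b2 b3 (b6 y a4)) z).resolve_left hz]
      exact ⟨i, j, k, l, f1, f2, f3, f4, f5, f6, (key i (g1 ▸ f1.symm)).trans g1,
        (key j (g2 ▸ f1)).trans g2, (key k (g3 ▸ f6.symm)).trans g3, (key l (g4 ▸ f6)).trans g4⟩

theorem anti {G : Type*} [Group G] {Γ : Subgroup (Perm α × G)} {t : G} (h : DC Γ t) {b : Perm α}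
    {y : G} (hy : (b, y) ∈ Γ) (hb : Two b) :
    (∃ κ : Perm α, sign κ = -1 ∧ κ * b = b * κ) ∧ ∃ c w, (c, w) ∈ Γ ∧ w * y * w⁻¹ = y * t := by
  obtain ⟨i, j, k, l, f1, f2, f3, f4, f5, f6, g1, g2, g3, g4⟩ := hb
  have h0 := h.toDC0
  refine ⟨⟨swap i j, sign_swap f1, by rw [mul_swap_eq_swap_mul, g1, g2, swap_comm]⟩, ?_⟩
  let δ := swap i j * swap k l
  have hδ : δ * δ = 1 := inv_mul_swap (swap_mul_self _ _)
    (swap_apply_of_ne_of_ne f2.symm f4.symm) (swap_apply_of_ne_of_ne f3.symm f5.symm)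
  obtain ⟨d, hd⟩ := h0.surj δ (by simp [δ, f1, f6])
  have he := pmul hd hy
  have e1 : (δ * b) i = i := by simp [δ, g1, swap_apply_of_ne_of_ne f4 f5]
  have e2 : (δ * b) j = j := by simp [δ, g2, swap_apply_of_ne_of_ne f2 f3]
  have e3 : (δ * b) k = k := by simp [δ, g3, swap_apply_of_ne_of_ne f2.symm f4.symm]
  have e4 : (δ * b) l = l := by simp [δ, g4, swap_apply_of_ne_of_ne f3.symm f5.symm]
  obtain ⟨u, hu, hu3⟩ := h0.lift3 (c3_pow_three f2.symm f4.symm f1)
  obtain ⟨v, hv, hv3⟩ := h0.lift3 (c3_pow_three f3.symm f5.symm f1)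
  have c1 := h0.comm3 he hu hu3 (commute_c3_of_fixed e3 e1 e2)
  have c2 := h0.comm3 he hv hv3 (commute_c3_of_fixed e4 e1 e2)
  have hw := pmul hu hv
  rw [c3_mul_c3 f1 f2.symm f4.symm f3.symm f5.symm f6] at hw
  have s1 := h.dt _ _ hd (cycleType_dt f1 f2 f3 f4 f5 f6)
  have s2 := h.dt _ _ hw (cycleType_dt f2 f1 f3 f4.symm f6 f5)
  have s3 := h.dt _ _ (pmul hw hd) (by
    rw [← cycleType_dt f3 f1 f2 f5.symm f6.symm f4]
    congr 1
    ext z
    simp only [δ, Perm.mul_apply, swap_apply_def]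
    grind)
  refine ⟨_, u * v, hw, ?_⟩
  generalize hw' : u * v = w at *
  have c3 : w * (d * y) * w⁻¹ = d * y := by
    rw [mul_inv_eq_iff_eq_mul, ← hw', mul_assoc, ← c2, ← mul_assoc, ← c1, mul_assoc]
  have t1 := h0.comm hd
  have t2 := h0.comm hy
  have t3 := h0.comm hw
  have c4 : w * d⁻¹ * w⁻¹ = d⁻¹ * t := by
    have a1 : w * d * w⁻¹ = d * t := by
      calc w * d * w⁻¹ = (w * d * (w * d)) * d⁻¹ * (w * w)⁻¹ := by group
        _ = t * d⁻¹ * t⁻¹ := by rw [s3, s2]
        _ = t * (d * (d * d)⁻¹) * t⁻¹ := by group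
        _ = d * t := by rw [s1, h0.inv_t, ← mul_assoc, ← t1, mul_assoc d, h0.sq, mul_one]
    calc w * d⁻¹ * w⁻¹ = (w * d * w⁻¹)⁻¹ := by group
      _ = (t * d)⁻¹ := by rw [a1, t1]
      _ = d⁻¹ * t := by rw [mul_inv_rev, h0.inv_t]
  calc w * y * w⁻¹ = (w * d⁻¹ * w⁻¹) * (w * (d * y) * w⁻¹) := by group
    _ = d⁻¹ * (t * d) * y := by rw [c3, c4]; group
    _ = t * y := by rw [← t1]; group
    _ = y * t := t2.symm

end

/-- Let n ≥ 5 and let G be a finite perfect group whose centre has order 2 with G/Z(G) isomorphic to the alternating group of degree n (the double cover of the alternating group). Then every element of G is a commutator. -/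
theorem result {G : Type*} [Group G] [Finite G] (hperf : commutator G = ⊤) {n : ℕ} (hn : 5 ≤ n)
    (hZ : Nat.card (Subgroup.center G) = 2) (e : G ⧸ Subgroup.center G ≃* alternatingGroup (Fin n))
    (g : G) :
    ∃ a b : G, a * b * a⁻¹ * b⁻¹ = g := by
  obtain ⟨t, ht, -⟩ := (Nat.card_eq_two_iff' (1 : Subgroup.center G)).1 hZ
  have ht2 : orderOf (t : G) = 2 := by
    rw [Subgroup.orderOf_coe]
    exact orderOf_eq_prime (hZ ▸ pow_card_eq_one') ht
  have hcov : IsNonsplitDoubleCover G (alternatingGroup (Fin n)) := by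
    refine ⟨hZ, ⟨e⟩, fun L hL => ?_⟩
    have h1 : L.index = 2 := hL.index_eq_card.trans hZ
    have := L.normal_of_index_eq_two h1
    have h2 : commutator G ≤ L := by
      have : IsCyclic (G ⧸ L) := isCyclic_of_prime_card (p := 2) h1
      exact Subgroup.Normal.quotient_commutative_iff_commutator_le.1 inferInstance
    rw [hperf, top_le_iff] at h2
    rw [h2, Subgroup.index_top] at h1
    omega
  have hcov' : IsNonsplitDoubleCover (⊤ : Subgroup G) (alternatingGroup (Fin n)) :=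
    H44.nonsplit_of_equiv Subgroup.topEquiv.symm hcov
  obtain ⟨Γ, h, hΓ⟩ := H67.exists_dc ht2 (Subgroup.mem_top _)
    (fun y _ => Subgroup.mem_center_iff.1 t.2 y) hcov'
  have h0 := h.toDC0
  obtain ⟨σ, hσ⟩ := (hΓ g).1 (Subgroup.mem_top g)
  obtain ⟨b, b', h1, h2, rfl, h3⟩ := good (by simpa using hn) (h0.sgn _ _ hσ)
  obtain ⟨y, hy⟩ := h0.surj b h2
  obtain ⟨⟨κ, h4, h5⟩, c, w, hw, h6⟩ := anti h hy h3
  obtain ⟨τ, h7, rfl⟩ := H67.exists_even_conj h1 h4 h5
  obtain ⟨a, ha⟩ := h0.surj τ h7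
  have h8 := H67.pmul (H67.pconj ha hy) (H67.pinv hy)
  rcases h0.uniq h8 hσ with h9 | h9
  · exact ⟨a, y, h9.symm⟩
  · refine ⟨a * w, y, ?_⟩
    calc a * w * y * (a * w)⁻¹ * y⁻¹ = a * (w * y * w⁻¹) * a⁻¹ * y⁻¹ := by group
      _ = a * y * (t * (y * a)⁻¹) := by rw [h6]; group
      _ = g := by rw [← h0.comm (H67.pinv (H67.pmul hy ha)), h9]; group

end Cfsg.Agent.S2493
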