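import Cfsg.Statements.S2495
import Cfsg.Agent.H76.SpecLin3
import Cfsg.Agent.H82.Zsigmondy

set_option autoImplicit false
open Cfsg

namespace Cfsg.Agent.S2495

/-- Let q be an odd prime power, n ≥ 4 even, and L = PSL(n,q). Then L has an element of order q^(n/2) + 1 if and only if the 2-part of n exceeds the 2-part of q − 1. -/
theorem result {F : Type*} [Field F] [Fintype F] {q : ℕ} (hF : Fintype.card F = q) (hodd : Odd q)
    {n : ℕ} (hn : 4 ≤ n) (heven : Even n) :
    (∃ g : Matrix.ProjectiveSpecialLinearGroup (Fin n) F, orderOf g = q ^ (n / 2) + 1) ↔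
      padicValNat 2 (q - 1) < padicValNat 2 n := by
  obtain ⟨p, hp⟩ := CharP.exists F
  have := Fact.mk (CharP.char_is_prime F p)
  have : CharP (AlgebraicClosure F) p := charP_of_injective_algebraMap (algebraMap F _).injective p
  obtain ⟨m, rfl⟩ := heven.two_dvd
  have hG := H76.models_psl (F := F) (AlgebraicClosure F) (n := Fin (2 * m)) p
  have hQ := H76.char_dvd_card F p
  rw [Fintype.card_fin] at hG
  rw [hF] at hG hQ
  have hq : 1 < q := hF ▸ Fintype.one_lt_card
  obtain ⟨r, hr, hr'⟩ := H82.zsigmondy q (2 * m) hq (by omega)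
    (by rintro ⟨rfl, -⟩; exact absurd hodd (by decide)) (by omega)
  have h := hG.exists_order_half_iff hQ (by omega) hr (by simpa using hr'.eq_orderOf.symm)
  rw [H76.natAbs_sub_one hq.le, H76.gcd_two_mul_dvd_iff (by omega) (by omega),
    show ((q : ℤ) ^ m + 1).natAbs = q ^ m + 1 by rw [← Nat.cast_pow]; omega] at h
  rwa [Nat.mul_div_cancel_left m two_pos]

end Cfsg.Agent.S2495
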