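import Cfsg.Statements.S2496
import Cfsg.Agent.H76.Unitary
import Cfsg.Agent.H76.SpecLin3
import Cfsg.Agent.H82.Zsigmondy

set_option autoImplicit false
open Cfsg

namespace Cfsg.Agent.S2496

/-- Let q be an odd prime power, n ≥ 4 even, and U = PSU(n,q) (realised over the field with q² elements). Then U has an element of order q^(n/2) + (−1)^(n/2) — that is, q^(n/2) + 1 when n/2 is even and q^(n/2) − 1 when n/2 is odd — if and only if the 2-part of n exceeds the 2-part of q + 1. -/
theorem result {F : Type*} [Field F] [Fintype F] {q : ℕ} (hF : Fintype.card F = q ^ 2) (hodd : Odd q)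
    {n : ℕ} (hn : 4 ≤ n) (heven : Even n) :
    (∃ g : Cfsg.PSU n F q, orderOf g = if Even (n / 2) then q ^ (n / 2) + 1 else q ^ (n / 2) - 1) ↔
      padicValNat 2 (q + 1) < padicValNat 2 n := by
  obtain ⟨p, hp⟩ := CharP.exists F
  have := Fact.mk (CharP.char_is_prime F p)
  have : CharP (AlgebraicClosure F) p := charP_of_injective_algebraMap (algebraMap F _).injective p
  obtain ⟨m, rfl⟩ := heven.two_dvd
  have hG := H76.models_psu (AlgebraicClosure F) p hF (n := 2 * m) (by omega)
  have hQ := H76.char_dvd_neg_q hF p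
  have hq : 1 < q := by
    have : 1 < q ^ 2 := hF ▸ Fintype.one_lt_card
    exact (Nat.one_lt_pow_iff two_ne_zero).1 this
  have hq2 : q ≠ 2 := by rintro rfl; exact absurd hodd (by decide)
  obtain ⟨r, hr, hr'⟩ : ∃ r : ℕ, r.Prime ∧ orderOf (((-(q : ℤ) : ℤ)) : ZMod r) = 2 * m := by
    rcases Nat.even_or_odd m with hm | hm
    · obtain ⟨r, hr, hr'⟩ := H82.zsigmondy q (2 * m) hq (by omega) (by omega) (by omega)
      have := Fact.mk hr
      refine ⟨r, hr, ?_⟩
      have h1 : (q : ZMod r) ^ m = -1 := by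
        have h2 : ((q : ZMod r) ^ m) ^ 2 = 1 := by rw [← pow_mul, mul_comm, hr'.pow_eq_one]
        exact (sq_eq_one_iff.1 h2).resolve_left (hr'.pow_ne_one_of_pos_of_lt (by omega) (by omega))
      have h2 : (((-(q : ℤ) : ℤ)) : ZMod r) = (q : ZMod r) ^ (m + 1) := by
        rw [pow_succ, h1]; simp
      rw [h2]
      refine (hr'.pow_of_coprime _ ?_).eq_orderOf.symm
      exact Nat.Coprime.mul_right ((Nat.coprime_two_right).2 hm.add_one) (by simp)
    · obtain ⟨r, hr, hr'⟩ := H82.zsigmondy q m hq (by omega) (by omega)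
        (by rintro ⟨rfl, -⟩; exact absurd hm (by decide))
      have := Fact.mk hr
      refine ⟨r, hr, ?_⟩
      have hr2 : r ≠ 2 := by
        rintro rfl
        have h1 : (q : ZMod 2) = 1 := (ZMod.natCast_eq_one_iff_odd).2 hodd
        have := hr'.eq_orderOf
        rw [h1, orderOf_one] at this
        omega
      have : Fact (2 < r) := ⟨by have := hr.two_le; omega⟩
      have h2 : (((-(q : ℤ) : ℤ)) : ZMod r) = (-1) * (q : ZMod r) := by simp
      have h3 : orderOf (-1 : ZMod r) = 2 := by
        rw [orderOf_neg_one, if_neg (by rwa [ZMod.ringChar_zmod_n])]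
      rw [h2, (Commute.all _ _).orderOf_mul_eq_mul_orderOf_of_coprime, h3, ← hr'.eq_orderOf]
      rw [h3, ← hr'.eq_orderOf]
      exact (Nat.coprime_two_left).2 hm
  have h := hG.exists_order_half_iff hQ (by omega) hr hr'
  rw [H76.natAbs_neg_sub_one, H76.gcd_two_mul_dvd_iff (by omega) (by omega)] at h
  rw [Nat.mul_div_cancel_left m two_pos, ← h]
  split_ifs with hm
  · rw [H76.natAbs_neg_pow_add_one_of_even hm]
  · rw [H76.natAbs_neg_pow_add_one_of_odd hq.le (Nat.not_even_iff_odd.1 hm)]

end Cfsg.Agent.S2496
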