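import Cfsg.Statements.S2503
import Cfsg.Agent.H77.PSL2

set_option autoImplicit false
open Cfsg

namespace Cfsg.Agent.S2503

open Cfsg.Agent.H77

/-- the unipotent upper triangular matrices -/
def uniHom (F : Type*) [Field F] : Multiplicative F →* SL2 F where
  toFun b := uts 1 b.toAdd
  map_one' := uts_one
  map_mul' a b := by rw [uts_mul]; simp [add_comm]

lemma uniHom_injective (F : Type*) [Field F] : Function.Injective (uniHom F) := fun _ _ h =>
  Multiplicative.toAdd.injective (uts_inj.mp h).2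

lemma exists_factor {F : Type*} [Field F] [Fintype F] (h2 : (2 : F) = 0) {t : SL2 F}
    (ht : NoEig (t : M2 F)) (g : SL2 F) :
    ∃ a ∈ Subgroup.centralizer ({t} : Set (SL2 F)), ∃ b : F,
      ∃ c ∈ Subgroup.centralizer ({t} : Set (SL2 F)), g = a * uts 1 b * c := by
  have hsq : ∀ a : F, IsSquare a := fun a => FiniteField.isSquare_of_char_two
    (by
      exact CharP.ringChar_of_prime_eq_zero Nat.prime_two (by exact_mod_cast h2)) a
  obtain ⟨s, hs⟩ : ∃ s, s = g * t * g⁻¹ := ⟨_, rfl⟩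
  have hc := ht.ne10
  have htr : (s : M2 F).trace = (t : M2 F).trace :=
    (sl_trace_of_isConj (isConj_iff.mpr ⟨g, hs.symm⟩)).symm
  simp only [Matrix.trace_fin_two] at htr
  -- a nonzero isotropic vector
  obtain ⟨v, w, hvw, hq⟩ : ∃ v w : F, (v ≠ 0 ∨ w ≠ 0) ∧
      ((s : M2 F) 1 0 - (t : M2 F) 1 0) * v ^ 2 = ((s : M2 F) 0 1 - (t : M2 F) 0 1) * w ^ 2 := by
    by_cases h : (s : M2 F) 1 0 - (t : M2 F) 1 0 = 0
    · exact ⟨1, 0, Or.inl one_ne_zero, by rw [h]; ring⟩
    · obtain ⟨v, hv⟩ := hsq ((s : M2 F) 0 1 - (t : M2 F) 0 1)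
      obtain ⟨w, hw⟩ := hsq ((s : M2 F) 1 0 - (t : M2 F) 1 0)
      exact ⟨v, w, Or.inr fun h0 => h (by rw [hw, h0, mul_zero]), by rw [hv, hw]; ring⟩
  obtain ⟨y, hy⟩ : ∃ y, y * (t : M2 F) 1 0 = w := ⟨_, div_mul_cancel₀ _ hc⟩
  obtain ⟨x, hx⟩ : ∃ x, x + y * (t : M2 F) 0 0 = v := ⟨_, sub_add_cancel _ _⟩
  have hp : ((x, y) : F × F) ≠ 0 := by
    intro h
    obtain ⟨rfl, rfl⟩ := Prod.mk.inj h
    rw [← hx, ← hy] at hvw
    simp at hvw
  have hd := dform_ne_zero_of_noRoot (τ := (t : M2 F).trace) (δ := (t : M2 F).det)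
    (fun c => noEig_iff.mp ht c) hp
  obtain ⟨r, hr⟩ := hsq (dform (t : M2 F).trace (t : M2 F).det (x, y))⁻¹
  have hr' : r * r * dform (t : M2 F).trace (t : M2 F).det (x, y) = 1 := by
    rw [← hr, inv_mul_cancel₀ hd]
  obtain ⟨P, hP⟩ : ∃ P : SL2 F, (P : M2 F) = lin t (r * x, r * y) := by
    refine ⟨⟨lin t (r * x, r * y), ?_⟩, rfl⟩
    rw [det_lin]; unfold dform at hr' ⊢; linear_combination hr'
  have hPt : P ∈ Subgroup.centralizer ({t} : Set (SL2 F)) := by
    rw [sl_mem_cent, hP]; exact lin_comm _ _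
  obtain ⟨s', hs'⟩ : ∃ s', s' = P⁻¹ * s * P := ⟨_, rfl⟩
  have h10 : (s' : M2 F) 1 0 = (t : M2 F) 1 0 := by
    have e0 : (P : M2 F) 0 0 = r * v := by rw [hP, lin00, ← hx]; ring
    have e1 : (P : M2 F) 1 0 = r * w := by rw [hP, lin10, ← hy]; ring
    have ht' : P⁻¹ * t * P = t := by
      rw [mul_assoc, ← Subgroup.mem_centralizer_singleton_iff.mp hPt, inv_mul_cancel_left]
    have e2 : ((P⁻¹ * t * P : SL2 F) : M2 F) 1 0 = (t : M2 F) 1 0 := by rw [ht']
    rw [hs']
    simp only [sl_coe_mul, sl_coe_inv, m2_mul_apply, Matrix.adjugate_fin_two, Matrix.of_apply,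
      Matrix.cons_val', Matrix.cons_val_zero, Matrix.cons_val_one, Matrix.cons_val_fin_one,
      e0, e1] at e2 ⊢
    linear_combination e2 + r ^ 2 * hq + r ^ 2 * v * w * htr +
      r ^ 2 * v * w * ((t : M2 F) 0 0 - (s : M2 F) 0 0) * h2
  have htr' : (s' : M2 F).trace = (t : M2 F).trace := by
    rw [← sl_trace_of_isConj (isConj_iff.mpr ⟨P⁻¹ * g, (by rw [hs', hs]; group :
      P⁻¹ * g * t * (P⁻¹ * g)⁻¹ = s')⟩)]
  simp only [Matrix.trace_fin_two] at htr'
  obtain ⟨b, hb⟩ : ∃ b, b * (t : M2 F) 1 0 = (s' : M2 F) 0 0 - (t : M2 F) 0 0 :=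
    ⟨_, div_mul_cancel₀ _ hc⟩
  have hu : uts 1 b * t = s' * uts 1 b := by
    have d1 := s'.det_coe
    have d2 := t.det_coe
    rw [Matrix.det_fin_two] at d1 d2
    rw [sl_ext_iff, m2_ext_iff]
    simp only [sl_coe_mul, m2_mul_apply, uts00, uts01, uts10, uts11, inv_one, Units.val_one]
    refine ⟨by linear_combination hb, ?_, by linear_combination -h10,
      by linear_combination -htr' - b * h10 - hb⟩
    apply mul_right_cancel₀ hc
    linear_combination ((t : M2 F) 1 1 - (s' : M2 F) 0 0) * hb + d1 - d2 + (s' : M2 F) 0 1 * h10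
      - (s' : M2 F) 0 0 * htr'
  refine ⟨P, hPt, b, (uts 1 b)⁻¹ * P⁻¹ * g, ?_, by group⟩
  rw [Subgroup.mem_centralizer_singleton_iff]
  have : t = (uts 1 b)⁻¹ * s' * uts 1 b := by rw [mul_assoc, ← hu]; group
  conv_rhs => rw [this, hs', hs]
  group

/-- Let F be a finite field with q = 2^t ≥ 4 elements and L = PSL(2,F). Then L has a cyclic subgroup A of order q + 1 and an elementary abelian 2-subgroup B of order q such that L = ABA: every element of L is a product a·b·a' with a, a' ∈ A and b ∈ B. -/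
theorem result {F : Type*} [Field F] [Fintype F]
    (h2 : 2 ∣ Fintype.card F) (h4 : 4 ≤ Fintype.card F) :
    ∃ A B : Subgroup (Matrix.ProjectiveSpecialLinearGroup (Fin 2) F),
      IsCyclic A ∧ Nat.card A = Fintype.card F + 1 ∧ IsMulCommutative B ∧ (∀ b ∈ B, b * b = 1) ∧
        Nat.card B = Fintype.card F ∧
        ∀ g : Matrix.ProjectiveSpecialLinearGroup (Fin 2) F, ∃ a ∈ A, ∃ b ∈ B, ∃ c ∈ A, g = a * b * c := by
  have h0 : (2 : F) = 0 := by
    by_contra h
    exact (Nat.not_even_iff_odd.mpr (odd_of_two_ne_zero h)) (even_iff_two_dvd.mpr h2)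
  obtain ⟨t, ht⟩ := exists_noEig (F := F)
  have hinj : Function.Injective ((pm F).comp (uniHom F)) :=
    (pm_injective h0).comp (uniHom_injective F)
  refine ⟨(Subgroup.centralizer {t}).map (pm F), ((pm F).comp (uniHom F)).range, ?_, ?_, ?_, ?_,
    ?_, ?_⟩
  · have := (isReg_of_noEig ht).isCyclic_cent
    exact isCyclic_of_surjective _ (Subgroup.equivMapOfInjective _ _ (pm_injective h0)).surjective
  · rw [Subgroup.card_map_of_injective (pm_injective h0), sl_card_cent_noEig ht]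
  · infer_instance
  · rintro _ ⟨b, rfl⟩
    rw [← map_mul, show b * b = 1 from ?_, map_one]
    apply Multiplicative.toAdd.injective
    rw [toAdd_mul, toAdd_one]
    linear_combination (Multiplicative.toAdd b) * h0
  · rw [← Nat.card_congr (MonoidHom.ofInjective hinj).toEquiv, ← Nat.card_eq_fintype_card]
    rfl
  · intro g
    obtain ⟨g, rfl⟩ := pm_surj g
    obtain ⟨a, ha, b, c, hc, rfl⟩ := exists_factor h0 ht g
    exact ⟨_, Subgroup.mem_map_of_mem _ ha, _, ⟨Multiplicative.ofAdd b, rfl⟩, _,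
      Subgroup.mem_map_of_mem _ hc, by rw [map_mul, map_mul]; rfl⟩

end Cfsg.Agent.S2503
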