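import Cfsg.Statements.S2507
import Cfsg.Agent.H77.PSL2

set_option autoImplicit false
open Cfsg

namespace Cfsg.Agent.S2507

open Cfsg.Agent.H77

/-- Let F be a finite field with q = 2^f ≥ 4 elements. The conjugacy class sizes of PSL(2,F) are exactly 1, q(q − 1), q² − 1 and q(q + 1). -/
theorem result {F : Type*} [Field F] [Fintype F]
    (h2 : 2 ∣ Fintype.card F) (h4 : 4 ≤ Fintype.card F) :
    Set.range (fun g : (Matrix.ProjectiveSpecialLinearGroup (Fin 2) F) => (Subgroup.centralizer ({g} : Set (Matrix.ProjectiveSpecialLinearGroup (Fin 2) F))).index) =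
      {1, Fintype.card F * (Fintype.card F - 1), Fintype.card F ^ 2 - 1, Fintype.card F * (Fintype.card F + 1)} := by
  have h0 : (2 : F) = 0 := by
    by_contra h
    exact (Nat.not_even_iff_odd.mpr (odd_of_two_ne_zero h)) (even_iff_two_dvd.mpr h2)
  ext n
  simp only [Set.mem_range, Set.mem_insert_iff, Set.mem_singleton_iff]
  constructor
  · rintro ⟨g, rfl⟩
    obtain ⟨g, rfl⟩ := pm_surj g
    rw [psl_index_cent (Or.inl h0)]
    rcases type_cases (g : M2 F) with h | h | h | h
    · exact Or.inl (sl_index_cent_isScal h)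
    · exact Or.inr (Or.inr (Or.inl (sl_index_cent_isPar_even h0 h)))
    · exact Or.inr (Or.inr (Or.inr (sl_index_cent_isSplit h)))
    · exact Or.inr (Or.inl (sl_index_cent_noEig h))
  · rintro (rfl | rfl | rfl | rfl)
    · exact ⟨pm F 1, by rw [psl_index_cent (Or.inl h0), sl_index_cent_isScal
        (sl_isScal_iff.mpr (Or.inl rfl))]⟩
    · obtain ⟨g, hg⟩ := exists_noEig (F := F)
      exact ⟨pm F g, by rw [psl_index_cent (Or.inl h0), sl_index_cent_noEig hg]⟩
    · obtain ⟨g, hg⟩ := exists_isPar (F := F)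
      exact ⟨pm F g, by rw [psl_index_cent (Or.inl h0), sl_index_cent_isPar_even h0 hg]⟩
    · obtain ⟨g, hg⟩ := exists_isSplit (F := F) h4
      exact ⟨pm F g, by rw [psl_index_cent (Or.inl h0), sl_index_cent_isSplit hg]⟩

end Cfsg.Agent.S2507
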