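import Cfsg.Statements.S2509
import Cfsg.Agent.H28.PsF

set_option autoImplicit false
open Cfsg

namespace Cfsg.Agent.S2509

/-- Let G be a finite direct product of groups PSp_{2m_i}(F_i) (the symplectic group on a 2m_i-dimensional space modulo its centre), where each m_i is a power of 2 (m_i = 1, giving PSL₂, is allowed), each F_i is a finite field of odd order, and each factor PSp_{2m_i}(F_i) is a simple group. Then every subgroup H of G of odd index is pronormal in G: for every g ∈ G the subgroups H and gHg⁻¹ are conjugate by an element of the subgroup they generate. -/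
theorem result {t : ℕ}
    (m : Fin t → ℕ) (F : Fin t → Type*) [∀ i, Field (F i)] [∀ i, Fintype (F i)]
    (hm : ∀ i, ∃ k : ℕ, m i = 2 ^ k) (hodd : ∀ i, Odd (Fintype.card (F i)))
    (hs : ∀ i, IsSimpleGroup (Cfsg.PSp (m i) (F i)))
    (H : Subgroup (Π i, Cfsg.PSp (m i) (F i))) (hH : Odd H.index) : Cfsg.IsPronormal H := by
  classical
  choose k hk using hm
  choose S hS using fun i => H28.Ps.exists_nice_sp (hodd i) (hk i)
  let f : (∀ i, Matrix.symplecticGroup (Fin (m i)) (F i)) →* ∀ i, Cfsg.PSp (m i) (F i) :=
    MonoidHom.pi fun i => (QuotientGroup.mk' _).comp (Pi.evalMonoidHom _ i)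
  have hf : Function.Surjective f := fun y => by
    choose x hx using fun i => QuotientGroup.mk'_surjective _ (y i)
    exact ⟨x, funext hx⟩
  rw [← Subgroup.map_comap_eq_self_of_surjective hf H]
  refine H28.Pron.pron_map hf (H28.Ps.allP_pi S hS _ ?_ fun z hz => ?_)
  · rw [Subgroup.index_comap_of_surjective _ hf]
    exact hH.not_two_dvd_nat
  · have : f z = 1 := funext fun i => (QuotientGroup.eq_one_iff _).2
      (Subgroup.mem_center_iff.2 fun g => by
        simpa using congrFun (Subgroup.mem_center_iff.1 hz (Pi.mulSingle i g)) i)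
    rw [Subgroup.mem_comap, this]
    exact one_mem _

end Cfsg.Agent.S2509
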