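import Cfsg.Statements.S2510
import Cfsg.Agent.H76.SpecLin

set_option autoImplicit false
open Cfsg

namespace Cfsg.Agent.S2510

/-- Let F be a finite field with q = p^a elements, n ≥ 2 (with q ≥ 4 when n = 2), L = PSL(n, F), and let r be a prime dividing q − 1 and not dividing n. Then for every m the direct product L × L × L × (ℤ/r)^m has the same set of element orders as L × L × L; and if n − 1 ≠ p^j for every j ≥ 0 (so never when n = 2, since 1 = p^0), then already L × L × (ℤ/r)^m has the same set of element orders as L × L. -/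
theorem result {F : Type*} [Field F] [Fintype F] (p a n r m : ℕ) (hp : p.Prime) (ha : 1 ≤ a) (hF : Fintype.card F = p ^ a)
    (hn : 2 ≤ n) (hn2 : n = 2 → 4 ≤ Fintype.card F) (hr : r.Prime) (hrq : r ∣ Fintype.card F - 1) (hrn : ¬ r ∣ n) :
    Set.range (orderOf : Matrix.ProjectiveSpecialLinearGroup (Fin n) F × Matrix.ProjectiveSpecialLinearGroup (Fin n) F × Matrix.ProjectiveSpecialLinearGroup (Fin n) F × Multiplicative (Fin m → ZMod r) → ℕ) =
      Set.range (orderOf : Matrix.ProjectiveSpecialLinearGroup (Fin n) F × Matrix.ProjectiveSpecialLinearGroup (Fin n) F × Matrix.ProjectiveSpecialLinearGroup (Fin n) F → ℕ) ∧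
    ((¬ ∃ j : ℕ, n - 1 = p ^ j) →
      Set.range (orderOf : Matrix.ProjectiveSpecialLinearGroup (Fin n) F × Matrix.ProjectiveSpecialLinearGroup (Fin n) F × Multiplicative (Fin m → ZMod r) → ℕ) =
        Set.range (orderOf : Matrix.ProjectiveSpecialLinearGroup (Fin n) F × Matrix.ProjectiveSpecialLinearGroup (Fin n) F → ℕ)) := by
  have := Fact.mk hp
  have : CharP F p := by
    obtain ⟨p', hc, k, hp', hk⟩ := FiniteField.card' F
    have : p = p' := by
      have h1 : p ∣ p' ^ (k : ℕ) := by rw [← hk, hF]; exact dvd_pow_self p (by omega)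
      exact (Nat.prime_dvd_prime_iff_eq hp hp').1 (hp.dvd_of_dvd_pow h1)
    exact this ▸ hc
  have : CharP (AlgebraicClosure F) p := charP_of_injective_algebraMap (algebraMap F _).injective p
  have hG := H76.models_psl (F := F) (AlgebraicClosure F) (n := Fin n) p
  rw [Fintype.card_fin] at hG
  refine hG.range_orderOf_prod ?_ hn hr ?_ hrn H76.pow_eq_one_multiplicative_zmod
  · rw [hF]
    exact_mod_cast dvd_pow_self p (by omega)
  · have : 1 ≤ Fintype.card F := Fintype.card_pos
    exact_mod_cast Int.natCast_dvd_natCast.2 hrq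

end Cfsg.Agent.S2510
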