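import Cfsg.Statements.S2513
import Cfsg.Agent.H76.SpecLin

set_option autoImplicit false
open Cfsg

namespace Cfsg.Agent.S2513

theorem range_eq {G : Type*} [Group G] [Finite G] {k₀ k : ℕ} (hk : k₀ ≤ k) (x : Fin k₀ → G)
    (hx : ∀ g : G, orderOf g ∣ orderOf x) :
    Set.range (orderOf : (Fin k → G) → ℕ) = Set.range (orderOf : (Fin k₀ → G) → ℕ) := by
  classical
  ext m
  constructor
  · rintro ⟨y, rfl⟩
    refine H76.exists_orderOf_eq_of_dvd x (orderOf_dvd_of_pow_eq_one ?_)
    ext i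
    exact orderOf_dvd_iff_pow_eq_one.1 (hx (y i))
  · rintro ⟨y, rfl⟩
    let φ : (Fin k₀ → G) →* (Fin k → G) :=
      MonoidHom.pi fun i => if h : i.1 < k₀ then Pi.evalMonoidHom _ ⟨i.1, h⟩ else 1
    refine ⟨φ y, orderOf_injective φ (fun a b h => ?_) y⟩
    ext i
    simpa [φ] using congrFun h ⟨i.1, by omega⟩

/-- Let F be the field with two elements, n ≥ 2, L = PSL(n, F) and k₀ = ⌊(n + 3)/2⌋. Then for every k ≥ k₀ the direct product of k copies of L has the same set of element orders as the direct product of k₀ copies of L. -/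
theorem result {F : Type*} [Field F] [Fintype F] (hF : Fintype.card F = 2) (n k : ℕ) (hn : 2 ≤ n) (hk : (n + 3) / 2 ≤ k) :
    Set.range (orderOf : (Fin k → Matrix.ProjectiveSpecialLinearGroup (Fin n) F) → ℕ) = Set.range (orderOf : (Fin ((n + 3) / 2) → Matrix.ProjectiveSpecialLinearGroup (Fin n) F) → ℕ) := by
  have : Fact (Nat.Prime 2) := ⟨Nat.prime_two⟩
  have : CharP F 2 := by
    obtain ⟨p', hc, k, hp', hk⟩ := FiniteField.card' F
    have : p' = 2 := by
      have h1 : p' ∣ 2 := by rw [← hF, hk]; exact dvd_pow_self p' k.ne_zero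
      exact (Nat.prime_dvd_prime_iff_eq hp' Nat.prime_two).1 h1
    exact this ▸ hc
  have : CharP (AlgebraicClosure F) 2 := charP_of_injective_algebraMap (algebraMap F _).injective 2
  have hG := H76.models_psl (F := F) (AlgebraicClosure F) (n := Fin n) 2
  rw [Fintype.card_fin, hF] at hG
  obtain ⟨u, hu⟩ := hG.exists_unipotent (show 0 < n by omega) le_rfl
  have hc : ∀ d, ∃ c : Matrix.ProjectiveSpecialLinearGroup (Fin n) F, 2 ≤ d → d ≤ n →
      2 ^ d - 1 ∣ orderOf c := by
    intro d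
    by_cases hd : 2 ≤ d ∧ d ≤ n
    swap
    · exact ⟨1, fun h1 h2 => absurd ⟨h1, h2⟩ hd⟩
    have h1 : 1 ≤ 2 ^ d := Nat.one_le_two_pow
    obtain ⟨γ, hγ⟩ := H76.exists_units_orderOf_eq (L := AlgebraicClosure F) 2 (m := 2 ^ d - 1) (by
      intro h
      have h2 : 2 ∣ 2 ^ d := dvd_pow_self 2 (by omega)
      omega)
    have hadm : H76.Adm ((2 : ℕ) : ℤ) n (H76.orb ((2 : ℕ) : ℤ) γ d 1 +
        Multiset.replicate (n - d) (1, 1)) := by
      refine ((H76.adm_orb ?_ one_pos).add (H76.adm_replicate_one _ _)).cast (by omega)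
      rw [H76.zpow_eq_self_iff, hγ]
      push_cast [h1]
      rfl
    obtain ⟨c, hc⟩ := hG.exists_dvd (m := 2 ^ d - 1) ⟨hadm, by
      have := hadm.ddet_zpow
      rwa [zpow_natCast, sq, mul_eq_left] at this⟩ (fun k hk => by
      have := hk.1 _ (Multiset.mem_add.2 (Or.inl (H76.frob_mem_orb _ γ (by omega) 1))) _
        (Multiset.mem_add.2 (Or.inl (H76.self_mem_orb _ γ (by omega) 1)))
      dsimp only at this
      rw [zpow_natCast, sq, mul_pow, mul_eq_left] at this
      exact hγ ▸ orderOf_dvd_of_pow_eq_one this)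
    exact ⟨c, fun _ _ => hc⟩
  choose c hc using hc
  let x : Fin ((n + 3) / 2) → Matrix.ProjectiveSpecialLinearGroup (Fin n) F :=
    fun i => if i.1 = 0 then u else c (n + 1 - i.1)
  have hx : ∀ i, orderOf (x i) ∣ orderOf x := fun i => orderOf_map_dvd (Pi.evalMonoidHom _ i) x
  refine range_eq hk x fun g => ?_
  obtain ⟨s, ⟨hs, -⟩, hg⟩ := hG.out g
  rw [hg]
  refine H76.OK.pk fun y hy => ⟨?_, ?_⟩
  · obtain ⟨D, hD, h1, h2⟩ := hs.exists_period hy
    have he := hs.pos y hy
    have hDn : D ≤ n := le_trans (Nat.le_mul_of_pos_right D he) h2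
    have h3 := Nat.div_add_mod n D
    have h4 := Nat.mod_lt n hD
    have h5 : D ≤ D * (n / D) := Nat.le_mul_of_pos_right D (Nat.div_pos hDn hD)
    set d := D * (n / D) with hd
    have h6 := (h1 d).2 (Dvd.intro _ rfl)
    have h7 := hx ⟨n + 1 - d, by omega⟩
    have h8 : x ⟨n + 1 - d, by omega⟩ = c d := by
      simp only [x]
      rw [if_neg (by omega)]
      congr 1
      omega
    rw [h8] at h7
    have h9 := (hc d (by omega) (by omega)).trans h7
    rw [H76.zpow_eq_self_iff] at h6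
    have h1 : 1 ≤ 2 ^ d := Nat.one_le_two_pow
    refine orderOf_dvd_iff_pow_eq_one.1 (Dvd.dvd.trans ?_ h9)
    rw [← Int.natCast_dvd_natCast]
    push_cast [h1]
    exact h6
  · refine ((pow_dvd_pow 2 (Nat.clog_mono_right 2 (hs.le hy))).trans hu).trans ?_
    exact hx ⟨0, by omega⟩

end Cfsg.Agent.S2513
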