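import Cfsg.Statements.S2514
import Mathlib

set_option autoImplicit false
open Cfsg

namespace Cfsg.Agent.S2514

theorem exists_max {G : Type*} [Group G] [Finite G] (x : G) :
    ∃ z : G, orderOf x ∣ orderOf z ∧
      ∀ m ∈ Set.range (orderOf : G → ℕ), orderOf z ∣ m → m = orderOf z := by
  obtain ⟨z, hz, hmax⟩ := Set.Finite.exists_maximalFor (fun z : G => orderOf z)
    {z : G | orderOf x ∣ orderOf z} (Set.toFinite _) ⟨x, dvd_rfl⟩
  refine ⟨z, hz, ?_⟩
  rintro _ ⟨w, rfl⟩ hw
  have h1 : orderOf z ≤ orderOf w := Nat.le_of_dvd (orderOf_pos w) hw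
  exact le_antisymm (hmax (dvd_trans hz hw) h1) h1

theorem mem_range_of_dvd {G : Type*} [Group G] [Finite G] (n : ℕ) (y : G) (h : n ∣ orderOf y) :
    n ∈ Set.range (orderOf : G → ℕ) :=
  ⟨y ^ (orderOf y / n), orderOf_pow_orderOf_div (orderOf_pos y).ne' h⟩


/-- For a finite group X write μ(X) for the set of element orders of X that are maximal under divisibility. Let G and H be finite groups and k ≥ 1 such that μ(H) ⊆ μ(G) and μ(G) has fewer than k elements outside μ(H). Then the direct product of k copies of G has the same set of element orders as the direct product of k − 1 copies of G with H. -/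
theorem result {G H : Type*} [Group G] [Finite G] [Group H] [Finite H] (k : ℕ) (hk : 1 ≤ k)
    (hsub : {n : ℕ | n ∈ Set.range (orderOf : H → ℕ) ∧ ∀ m ∈ Set.range (orderOf : H → ℕ), n ∣ m → m = n} ⊆ {n : ℕ | n ∈ Set.range (orderOf : G → ℕ) ∧ ∀ m ∈ Set.range (orderOf : G → ℕ), n ∣ m → m = n})
    (hfew : ({n : ℕ | n ∈ Set.range (orderOf : G → ℕ) ∧ ∀ m ∈ Set.range (orderOf : G → ℕ), n ∣ m → m = n} \ {n : ℕ | n ∈ Set.range (orderOf : H → ℕ) ∧ ∀ m ∈ Set.range (orderOf : H → ℕ), n ∣ m → m = n}).ncard < k) :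
    Set.range (orderOf : (Fin k → G) → ℕ) = Set.range (orderOf : (Fin (k - 1) → G) × H → ℕ) := by
  obtain ⟨j, rfl⟩ : ∃ j, k = j + 1 := ⟨k - 1, by omega⟩
  apply Set.Subset.antisymm
  · rintro _ ⟨x, rfl⟩
    choose z hz hzmax using fun i => exists_max (x i)
    have key : ∀ (i : Fin (j + 1)) (h : H),
        (orderOf (z i) ∣ orderOf h ∨ ∃ i', i' ≠ i ∧ orderOf (z i) = orderOf (z i')) →
        orderOf x ∈ Set.range (orderOf : (Fin (j + 1 - 1) → G) × H → ℕ) := by
      intro i h hi
      let y : (Fin j → G) × H := (fun l => z (i.succAbove l), h)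
      apply mem_range_of_dvd _ y
      have hy := pow_orderOf_eq_one y
      have hy1 : ∀ l, orderOf (z (i.succAbove l)) ∣ orderOf y := fun l =>
        orderOf_dvd_of_pow_eq_one (congrFun (congrArg Prod.fst hy) l)
      have hy2 : orderOf h ∣ orderOf y := orderOf_dvd_of_pow_eq_one (congrArg Prod.snd hy)
      have hy3 : ∀ i', i' ≠ i → orderOf (z i') ∣ orderOf y := by
        intro i' hi'
        obtain ⟨l, rfl⟩ := Fin.exists_succAbove_eq hi'
        exact hy1 l
      apply orderOf_dvd_of_pow_eq_one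
      funext l
      refine orderOf_dvd_iff_pow_eq_one.1 ((hz l).trans ?_)
      by_cases hl : l = i
      · subst hl
        rcases hi with hi | ⟨i', hi', hii⟩
        · exact hi.trans hy2
        · rw [hii]; exact hy3 _ hi'
      · exact hy3 l hl
    by_cases hA : ∃ i, orderOf (z i) ∈ Set.range (orderOf : H → ℕ)
    · obtain ⟨i, h, hh⟩ := hA
      exact key i h (Or.inl (by rw [hh]))
    · by_cases hB : ∃ i i', i' ≠ i ∧ orderOf (z i) = orderOf (z i')
      · obtain ⟨i, hi⟩ := hB
        exact key i 1 (Or.inr hi)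
      · exfalso
        push Not at hA hB
        have hinj : Function.Injective (fun i => orderOf (z i)) := by
          intro a b hab
          by_contra hne
          exact hB a b (Ne.symm hne) hab
        refine absurd hfew (not_lt.2 ?_)
        have hle := Set.ncard_le_ncard_of_injOn (s := (Set.univ : Set (Fin (j + 1))))
          (t := ({n : ℕ | n ∈ Set.range (orderOf : G → ℕ) ∧ ∀ m ∈ Set.range (orderOf : G → ℕ), n ∣ m → m = n} \ {n : ℕ | n ∈ Set.range (orderOf : H → ℕ) ∧ ∀ m ∈ Set.range (orderOf : H → ℕ), n ∣ m → m = n}))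
          (fun i => orderOf (z i)) (fun i _ => ⟨⟨⟨_, rfl⟩, hzmax i⟩, fun hh => hA i hh.1⟩)
          hinj.injOn ((Set.finite_range _).subset (fun n hn => hn.1.1))
        simpa [Set.ncard_univ] using hle
  · rintro _ ⟨⟨x, h⟩, rfl⟩
    obtain ⟨w, hw, hwmax⟩ := exists_max h
    obtain ⟨⟨z, hz⟩, -⟩ := hsub ⟨⟨w, rfl⟩, hwmax⟩
    let y : Fin (j + 1) → G := Fin.cons z x
    apply mem_range_of_dvd _ y
    have hy := pow_orderOf_eq_one y
    apply orderOf_dvd_of_pow_eq_one
    ext l
    · exact congrFun hy l.succ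
    · refine orderOf_dvd_iff_pow_eq_one.1 (hw.trans ?_)
      rw [← hz]
      exact orderOf_dvd_of_pow_eq_one (congrFun hy 0)

end Cfsg.Agent.S2514
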