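import Cfsg.Statements.S2516


set_option autoImplicit false
open Cfsg

namespace Cfsg.Agent.S2516

theorem pow_left {F : Type*} [Field F] {V : Type*} [AddCommGroup V] [Module F V]
    {G : Type*} [Group G] (ρ : Representation F G V)
    (x : Multiplicative V ⋊[(MulAutMultiplicative V).symm.toMonoidHom.comp
        ((DistribMulAction.toAddAut ((V →ₗ[F] V)ˣ) V).comp ρ.asGroupHom)] G) (n : ℕ) :
    Multiplicative.toAdd (x ^ n).left =
      (∑ i ∈ Finset.range n, (ρ x.right) ^ i) (Multiplicative.toAdd x.left) := by
  induction n with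
  | zero => rw [pow_zero]; rfl
  | succ n ih =>
    rw [pow_succ, SemidirectProduct.mul_left, toAdd_mul, ih, Finset.sum_range_succ,
      LinearMap.add_apply]
    congr 1
    have : (x ^ n).right = x.right ^ n := map_pow SemidirectProduct.rightHom x n
    rw [this, ← map_pow]
    rfl


/-- Let F be a field of characteristic p > 0, V a non-zero finite-dimensional F-vector space, G a finite group and ρ a representation of G on V; form the semidirect product V ⋊ G. For g ∈ G of order k, the coset Vg contains an element of order pk if and only if the minimal polynomial of ρ(g) does not divide 1 + X + ⋯ + X^(k−1). -/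
theorem result {F : Type*} [Field F] (p : ℕ) [Fact p.Prime] [CharP F p] {V : Type*} [AddCommGroup V] [Module F V] [FiniteDimensional F V] [Nontrivial V]
    {G : Type*} [Group G] [Finite G] (ρ : Representation F G V) (g : G) :
    (∃ x : Multiplicative V ⋊[(MulAutMultiplicative V).symm.toMonoidHom.comp
        ((DistribMulAction.toAddAut ((V →ₗ[F] V)ˣ) V).comp ρ.asGroupHom)] G,
        x.right = g ∧ orderOf x = p * orderOf g) ↔
      ¬ (minpoly F (ρ g) ∣ ∑ i ∈ Finset.range (orderOf g), (Polynomial.X : Polynomial F) ^ i) := by
  have hp : p.Prime := Fact.out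
  have hk : 0 < orderOf g := orderOf_pos g
  have hN : (minpoly F (ρ g) ∣ ∑ i ∈ Finset.range (orderOf g), (Polynomial.X : Polynomial F) ^ i) ↔
      (∑ i ∈ Finset.range (orderOf g), (ρ g) ^ i) = 0 := by
    rw [minpoly.dvd_iff]
    simp
  rw [hN]
  have key : ∀ x : Multiplicative V ⋊[(MulAutMultiplicative V).symm.toMonoidHom.comp
        ((DistribMulAction.toAddAut ((V →ₗ[F] V)ˣ) V).comp ρ.asGroupHom)] G, x.right = g →
      (orderOf x = p * orderOf g ↔
        (∑ i ∈ Finset.range (orderOf g), (ρ g) ^ i) (Multiplicative.toAdd x.left) ≠ 0) := by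
    intro x hx
    have h1 : orderOf g ∣ orderOf x := by
      rw [← hx]; exact orderOf_map_dvd SemidirectProduct.rightHom x
    have h2 : orderOf (x ^ orderOf g) * orderOf g = orderOf x := by
      rw [orderOf_pow_of_dvd hk.ne' h1, Nat.div_mul_cancel h1]
    have h3 : x ^ orderOf g = SemidirectProduct.inl (x ^ orderOf g).left := by
      ext
      · rfl
      · have : (x ^ orderOf g).right = x.right ^ orderOf g :=
          map_pow SemidirectProduct.rightHom x _
        rw [this, hx, pow_orderOf_eq_one]; rfl
    have h4 : orderOf (x ^ orderOf g) = orderOf (x ^ orderOf g).left := by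
      conv_lhs => rw [h3]
      exact orderOf_injective _ SemidirectProduct.inl_injective _
    rw [← h2, h4, Nat.mul_left_inj hk.ne', ← hx, ← pow_left ρ x]
    set w := (x ^ orderOf x.right).left
    constructor
    · intro h h0
      have : w = 1 := h0
      rw [this, orderOf_one] at h
      exact hp.one_lt.ne h
    · intro h
      apply orderOf_eq_prime
      · apply Multiplicative.toAdd.injective
        rw [toAdd_pow, ← Nat.cast_smul_eq_nsmul F, CharP.cast_eq_zero, zero_smul]; rfl
      · exact h
  constructor
  · rintro ⟨x, hx, hxo⟩ h0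
    exact (key x hx).1 hxo (by rw [h0]; rfl)
  · intro h
    obtain ⟨v, hv⟩ : ∃ v, (∑ i ∈ Finset.range (orderOf g), (ρ g) ^ i) v ≠ 0 := by
      by_contra hc
      push Not at hc
      exact h (LinearMap.ext hc)
    exact ⟨⟨Multiplicative.ofAdd v, g⟩, rfl, (key _ rfl).2 hv⟩

end Cfsg.Agent.S2516
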