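import Cfsg.Statements.S2518
import Cfsg.Agent.H29.G2Ord
import Cfsg.Agent.H29.AffRep
import Cfsg.Agent.H57.Spec2

set_option autoImplicit false
open Cfsg

namespace Cfsg.Agent.S2518

/-- Let F₃ be the field with 3 elements and F₁₃ the field with 13 elements. The Chevalley group G₂(F₃) and PSL(2, F₁₃) have the same prime graph: the same prime divisors of their orders, and for distinct primes r, s an element of order rs in one iff in the other. -/
theorem result {F : Type*} [Field F] [Fintype F] (hF : Fintype.card F = 3) {E : Type*} [Field E] [Fintype E] (hE : Fintype.card E = 13) :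
    ((∀ r : ℕ, r.Prime → (r ∣ Nat.card ↥(Cfsg.Lie.chevG2.group F) ↔ r ∣ Nat.card (Matrix.ProjectiveSpecialLinearGroup (Fin 2) E))) ∧
      (∀ r s : ℕ, r.Prime → s.Prime → r ≠ s → ((∃ x : ↥(Cfsg.Lie.chevG2.group F), orderOf x = r * s) ↔ (∃ y : (Matrix.ProjectiveSpecialLinearGroup (Fin 2) E), orderOf y = r * s)))) := by
  have : CharP E 13 := charP_of_card_eq_prime (hp := ⟨by norm_num⟩) hE
  obtain ⟨e⟩ := H29.nonempty_g2Iso F
  have : Finite (H24.autZ F) := Finite.of_injective _ H29.autMat_injective
  have : Finite (Cfsg.Lie.chevG2.group F) := Finite.of_equiv _ e.symm.toEquiv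
  refine H29.samePrimeGraph_of_lists (l := [8, 13, 7, 6, 12, 9]) (m := [13, 6, 7]) (fun n => ?_)
    (fun n => ?_) 3 (by decide) (by decide)
  · rw [H29.mem_range_orderOf_chevG2 (k := 1) Nat.prime_three hF]
    simp [H29.G2Ord]
  · rw [H57.spec_psl2 13, hE]
    simp

end Cfsg.Agent.S2518
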