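import Cfsg.Statements.S2522
import Cfsg.Agent.H80.RegU

set_option autoImplicit false
open Cfsg

namespace Cfsg.Agent.S2522

/-- Let K be a field with at least four elements (finite or infinite), n ≥ 3, and J ∈ GL(n, K) the regular unipotent matrix (ones on the diagonal and the superdiagonal, zeros elsewhere). Then every non-scalar g ∈ GL(n, K) with det g = 1 is a product of two GL(n, K)-conjugates of J. -/
theorem result {K : Type*} [Field K] (hK : 4 ≤ Cardinal.mk K) (n : ℕ) (hn : 3 ≤ n) (J g : GL (Fin n) K)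
    (hJ : ∀ i j : Fin n, (J : Matrix (Fin n) (Fin n) K) i j = if i = j then 1 else if j.val = i.val + 1 then 1 else 0)
    (hg : ¬ ∃ c : K, (g : Matrix (Fin n) (Fin n) K) = c • (1 : Matrix (Fin n) (Fin n) K))
    (hdet : (g : Matrix (Fin n) (Fin n) K).det = 1) :
    ∃ x y : GL (Fin n) K, g = (x * J * x⁻¹) * (y * J * y⁻¹) := by
  obtain ⟨n, rfl⟩ : ∃ m, n = m + 1 := ⟨n - 1, by omega⟩
  obtain ⟨M, N, k1, k2, k3, k4, k5⟩ := H80.RegU.top (Cardinal.lift_mk_le'.1 (by simpa using hK)) (n := n) (by simp)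
    (by omega) (D := Matrix.toLin' (g : Matrix (Fin (n + 1)) (Fin (n + 1)) K)) (by simpa using hdet) fun a => by
      by_contra! h
      exact hg ⟨a, Matrix.toLin'.injective (LinearMap.ext fun y => by simpa using h y)⟩
  obtain ⟨x, hx⟩ := H80.RegU.conj_J hJ k2 k4
  obtain ⟨y, hy⟩ := H80.RegU.conj_J hJ k3 k5
  refine ⟨x, y, Units.ext ?_⟩
  rw [Units.val_mul, ← hx, ← hy, ← LinearMap.toMatrix'_mul, ← k1, LinearMap.toMatrix'_toLin']

end Cfsg.Agent.S2522
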