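import Cfsg.Statements.S2524
import Cfsg.Agent.H22.SpWeilD

set_option autoImplicit false
open Cfsg

namespace Cfsg.Agent.S2524


/-- Let F be a finite field of odd order q and G = Sp(2n, F) with n ≥ 2. Then G has exactly four irreducible complex characters of degree (q^n + 1)/2 or (q^n − 1)/2 (two of each), and every other non-principal irreducible character has degree at least (q^n − 1)(q^n − q)/(2(q + 1)). -/
theorem result {F : Type*} [Field F] [Fintype F] (hodd : Odd (Fintype.card F)) (n : ℕ) (hn : 2 ≤ n) :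
    Nat.card {χ : Cfsg.IrrCharacter ↥(Matrix.symplecticGroup (Fin n) F) // (χ : ↥(Matrix.symplecticGroup (Fin n) F) → ℂ) 1 = (((Fintype.card F) ^ n + 1 : ℕ) : ℂ) / 2} = 2 ∧
    Nat.card {χ : Cfsg.IrrCharacter ↥(Matrix.symplecticGroup (Fin n) F) // (χ : ↥(Matrix.symplecticGroup (Fin n) F) → ℂ) 1 = (((Fintype.card F) ^ n - 1 : ℕ) : ℂ) / 2} = 2 ∧
    ∀ χ : Cfsg.IrrCharacter ↥(Matrix.symplecticGroup (Fin n) F),
      (χ : ↥(Matrix.symplecticGroup (Fin n) F) → ℂ) 1 ≠ 1 →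
      (χ : ↥(Matrix.symplecticGroup (Fin n) F) → ℂ) 1 ≠ (((Fintype.card F) ^ n + 1 : ℕ) : ℂ) / 2 →
      (χ : ↥(Matrix.symplecticGroup (Fin n) F) → ℂ) 1 ≠ (((Fintype.card F) ^ n - 1 : ℕ) : ℂ) / 2 →
      (((Fintype.card F) ^ n - 1 : ℕ) : ℝ) * (((Fintype.card F) ^ n - Fintype.card F : ℕ) : ℝ) / (2 * ((Fintype.card F : ℕ) + 1 : ℝ)) ≤ ‖(χ : ↥(Matrix.symplecticGroup (Fin n) F) → ℂ) 1‖ := by
  classical
  have h2 : (2 : F) ≠ 0 := by
    rw [Ne, H27.two_eq_zero_iff_even_card, Nat.not_even_iff_odd]; exact hodd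
  obtain ⟨χ₁, χ₂, χ₃, χ₄, h12, h34, a, b, ha, hb, d1, d2, d3, d4, hall⟩ :=
    H22.SpWeil.main (l := Fin n) h2 (by simpa using hn)
  rw [Fintype.card_fin] at ha hb hall
  set q := Fintype.card F with hq
  set Q := q ^ n with hQ
  have hq3 : 3 ≤ q := by
    have : 1 < q := Fintype.one_lt_card
    obtain ⟨k, hk⟩ := hodd
    omega
  have hQq : q * q ≤ Q := by
    rw [← sq]; exact Nat.pow_le_pow_right (by omega) hn
  have hb2 : 2 ≤ b := by nlinarith
  have ea : ((Q + 1 : ℕ) : ℂ) / 2 = a := by rw [← ha]; push_cast; ring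
  have eb : ((Q - 1 : ℕ) : ℂ) / 2 = b := by
    rw [show Q - 1 = 2 * b by omega]; push_cast; ring
  have hab : (a : ℂ) ≠ b := by
    intro h
    have : a = b := by exact_mod_cast h
    omega
  rw [ea, eb]
  refine ⟨?_, ?_, fun χ h1 h3 h4 => ?_⟩
  · rw [Nat.card_eq_two_iff]
    refine ⟨⟨χ₁, d1⟩, ⟨χ₂, d2⟩, fun h => h12 (congrArg Subtype.val h), ?_⟩
    rw [Set.eq_univ_iff_forall]
    rintro ⟨χ, hχ⟩
    rcases hall χ a hχ (by omega) (Or.inl le_rfl) with rfl | rfl | rfl | rfl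
    · simp
    · simp
    · exact absurd (hχ.symm.trans d3) hab
    · exact absurd (hχ.symm.trans d4) hab
  · rw [Nat.card_eq_two_iff]
    refine ⟨⟨χ₃, d3⟩, ⟨χ₄, d4⟩, fun h => h34 (congrArg Subtype.val h), ?_⟩
    rw [Set.eq_univ_iff_forall]
    rintro ⟨χ, hχ⟩
    rcases hall χ b hχ (by omega) (Or.inl (by omega)) with rfl | rfl | rfl | rfl
    · exact absurd (d1.symm.trans hχ) hab
    · exact absurd (d2.symm.trans hχ) hab
    · simp
    · simp
  · obtain ⟨d, -, hd⟩ := H11.exists_pos_degree χ.2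
    have key : (Q - 1) * (Q - q) ≤ 2 * (q + 1) * d := by
      by_contra hlt
      rcases hall χ d hd (by rintro rfl; exact h1 (by simpa using hd)) (Or.inr (not_le.mp hlt)) with
        rfl | rfl | rfl | rfl
      exacts [h3 d1, h3 d2, h4 d3, h4 d4]
    rw [hd, Complex.norm_natCast, div_le_iff₀ (by positivity)]
    have : (((Q - 1) * (Q - q) : ℕ) : ℝ) ≤ ((2 * (q + 1) * d : ℕ) : ℝ) := by exact_mod_cast key
    rw [Nat.cast_mul] at this
    refine this.trans (le_of_eq ?_)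
    push_cast
    ring

end Cfsg.Agent.S2524
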