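import Cfsg.Statements.S2525
import Cfsg.Agent.H34.F4Gk
import Cfsg.Agent.S1062
import Cfsg.Agent.H76.Unitary

set_option autoImplicit false
open Cfsg

namespace Cfsg.Agent.S2525

open Cfsg.Agent.H34 Cfsg.Lie

theorem sq_add_one_ne : ∀ y : ZMod 3, y ^ 2 + 1 ≠ 0 := by decide

theorem ord_cases {t q : ℕ} (ht : t.Prime) (h2 : t ≠ 2) {e : ℕ} (he : orderOf (q : ZMod t) = e) :
    ((t : ℤ) ∣ (q + 1) * (q ^ 3 - 1) ↔ (e ∣ 2 ∧ ¬ e ∣ 1) ∨ e ∣ 3) ∧ ((t : ℤ) ∣ q ^ 4 - 1 ↔ e ∣ 4) ∧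
    ((t : ℤ) ∣ (q - 1) * (q ^ 3 + 1) ↔ e ∣ 1 ∨ (e ∣ 6 ∧ ¬ e ∣ 3)) ∧
    ((t : ℤ) ∣ q ^ 4 + 1 ↔ e ∣ 8 ∧ ¬ e ∣ 4) ∧
    ((t : ℤ) ∣ q ^ 4 - q ^ 2 + 1 ↔ (e ∣ 12 ∧ ¬ e ∣ 6) ∧ ¬ (e ∣ 4 ∧ ¬ e ∣ 2)) ∧
    ((t : ℤ) ∣ (q - 1) * (q ^ 3 - 1) ↔ e ∣ 1 ∨ e ∣ 3) ∧
    ∀ n : ℕ, (t : ℤ) ∣ q ^ n - 1 ↔ e ∣ n := by
  have := Fact.mk ht
  have h20 : (2 : ZMod t) ≠ 0 := fun h => h2 ((Nat.prime_dvd_prime_iff_eq ht Nat.prime_two).1
    ((ZMod.natCast_eq_zero_iff 2 t).1 (by exact_mod_cast h)))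
  simp only [← ZMod.intCast_zmod_eq_zero_iff_dvd]
  push_cast
  generalize (q : ZMod t) = x at he
  have h1 : ∀ n, x ^ n - 1 = 0 ↔ e ∣ n := fun n => by
    rw [← he, orderOf_dvd_iff_pow_eq_one, sub_eq_zero]
  have h3 : ∀ n, x ^ n + 1 = 0 ↔ e ∣ 2 * n ∧ ¬ e ∣ n := fun n => by
    rw [← h1, ← h1, show x ^ (2 * n) - 1 = (x ^ n - 1) * (x ^ n + 1) by ring, mul_eq_zero]
    exact ⟨fun h => ⟨Or.inr h, fun h' => h20 (by linear_combination h - h')⟩,
      fun h => h.1.resolve_left h.2⟩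
  have h4 := h1 1
  have h5 := h3 1
  rw [pow_one] at h4 h5
  simp only [mul_eq_zero, h1, h3, h4, h5, true_and, implies_true, and_true]
  rw [← h3 6, ← h3 2, show x ^ 6 + 1 = (x ^ 2 + 1) * (x ^ 4 - x ^ 2 + 1) by ring, mul_eq_zero]
  refine ⟨fun h => ⟨Or.inr h, fun h' => ?_⟩, fun h => h.1.resolve_left h.2⟩
  obtain rfl : t = 3 := (Nat.prime_dvd_prime_iff_eq ht Nat.prime_three).1
    ((ZMod.natCast_eq_zero_iff 3 t).1 (by push_cast; linear_combination h - (x ^ 2 - 2) * h'))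
  exact sq_add_one_ne x h'

theorem ord_mem {F : Type*} [Field F] [Fintype F] {n : ℕ} (hF : Fintype.card F = 2 ^ n) {t : ℕ}
    (ht : t.Prime) (h2 : t ≠ 2) (h : t ∣ Nat.card (chevF4.group F)) :
    orderOf ((Fintype.card F : ℕ) : ZMod t) ∈ ({1, 2, 3, 4, 6, 8, 12} : Finset ℕ) := by
  have h1 := (ord_cases (q := Fintype.card F) ht h2 rfl).2.2.2.2.2.2
  have h3 : ∀ m, t ∣ Fintype.card F ^ m - 1 → orderOf ((Fintype.card F : ℕ) : ZMod t) ∣ m :=
    fun m hm => (h1 m).1 (by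
      have := Int.natCast_dvd_natCast.2 hm
      rwa [Nat.cast_sub (Nat.one_le_pow _ _ Fintype.card_pos), Nat.cast_pow] at this)
  rw [S1062.result rfl] at h
  simp only [ht.dvd_mul] at h
  generalize orderOf ((Fintype.card F : ℕ) : ZMod t) = e at h3
  have h4 : e ∣ 12 ∨ e ∣ 8 := by
    rcases h with (((h | h) | h) | h) | h
    · rw [hF, ← pow_mul] at h
      exact absurd ((Nat.prime_dvd_prime_iff_eq ht Nat.prime_two).1 (ht.dvd_of_dvd_pow h)) h2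
    · exact Or.inl ((h3 _ h).trans (by norm_num))
    · exact Or.inl ((h3 _ h).trans (by norm_num))
    · exact Or.inr (h3 _ h)
    · exact Or.inl (h3 _ h)
  have h5 : e ≤ 12 := h4.elim (Nat.le_of_dvd (by norm_num))
    fun h => (Nat.le_of_dvd (by norm_num) h).trans (by norm_num)
  interval_cases e <;> simp at h4 ⊢

theorem two_adj {F : Type*} [Field F] [Fintype F] [CharP F 2] {n : ℕ} (hF : Fintype.card F = 2 ^ n)
    {s : ℕ} (hs : s.Prime) (h2 : s ≠ 2) (h : s ∣ Nat.card (chevF4.group F)) :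
    (¬ ∃ x : chevF4.group F, orderOf x = 2 * s) ↔
      orderOf ((Fintype.card F : ℕ) : ZMod s) ∈ ({8, 12} : Finset ℕ) := by
  have h0 := ord_mem hF hs h2 h
  obtain ⟨a1, a2, a3, -, -, a6, a7⟩ := ord_cases (q := Fintype.card F) hs h2 rfl
  have key : (∃ x : chevF4.group F, orderOf x = 2 * s) ↔
      (s : ℤ) ∣ (Fintype.card F - 1) * (Fintype.card F ^ 3 - 1) ∨ (s : ℤ) ∣ Fintype.card F ^ 4 - 1 ∨
        (s : ℤ) ∣ (Fintype.card F - 1) * (Fintype.card F ^ 3 + 1) := by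
    constructor
    · rintro ⟨g, hg⟩
      rcases F4_of_two_adj rfl ((Nat.coprime_primes hs Nat.prime_two).2 h2) hg with h | h | h | h
      · rcases (Nat.prime_iff_prime_int.1 hs).dvd_or_dvd h with h | h
        · exact Or.inr (Or.inl (h.trans ⟨Fintype.card F ^ 3 - Fintype.card F ^ 2 + Fintype.card F - 1,
            by ring⟩))
        · exact Or.inl (h.mul_left _)
      · exact Or.inr (Or.inl h)
      · exact Or.inr (Or.inr h)
      · obtain rfl : s = 3 := by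
          rcases hs.dvd_mul.1 (show s ∣ 2 ^ 4 * 3 ^ 2 from h) with h | h
          · exact absurd ((Nat.prime_dvd_prime_iff_eq hs Nat.prime_two).1 (hs.dvd_of_dvd_pow h)) h2
          · exact (Nat.prime_dvd_prime_iff_eq hs Nat.prime_three).1 (hs.dvd_of_dvd_pow h)
        refine Or.inr (Or.inl ?_)
        rw [hF, Nat.cast_pow, ← pow_mul, mul_comm, pow_mul]
        exact (show ((3 : ℕ) : ℤ) ∣ ((2 : ℕ) : ℤ) ^ 4 - 1 by norm_num).trans
          (by simpa only [one_pow] using sub_dvd_pow_sub_pow (((2 : ℕ) : ℤ) ^ 4) 1 n)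
    · rintro (h | h | h)
      · obtain ⟨v, h1, hv⟩ := F4_w3'
        exact F4_char_adj' rfl 2 hv hs h2 (h1 _ ▸ h)
      · obtain ⟨v, h1, hv⟩ := F4_w4
        exact F4_char_adj' rfl 2 hv hs h2 (h1 _ ▸ h)
      · obtain ⟨v, h1, hv⟩ := F4_w6
        exact F4_char_adj' rfl 2 hv hs h2 (h1 _ ▸ h)
  rw [key, a6, a2, a3]
  generalize orderOf ((Fintype.card F : ℕ) : ZMod s) = e at h0
  revert e
  decide

/-- Let F be a finite field with q = 2^n elements and G = F₄(F). For an odd prime r let e(r, q) be the multiplicative order of q modulo r. Two distinct primes r, s dividing the order of G are non-adjacent in the prime graph of G (no element of order rs) if and only if, up to swapping r and s, either r = 2 and e(s, q) ∈ {8, 12}, or r, s are both odd with k = e(r, q) < l = e(s, q) and one of: l ∈ {8, 12}; l = 6 and k ∈ {3, 4}; l = 4 and k = 3. -/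
theorem result {F : Type*} [Field F] [Fintype F] (n : ℕ) (hn : 1 ≤ n) (hF : Fintype.card F = 2 ^ n)
    (r s : ℕ) (hr : r.Prime) (hs : s.Prime) (hrs : r ≠ s) (hrG : r ∣ Nat.card ↥(Cfsg.Lie.chevF4.group F)) (hsG : s ∣ Nat.card ↥(Cfsg.Lie.chevF4.group F)) :
    (¬ ∃ x : ↥(Cfsg.Lie.chevF4.group F), orderOf x = r * s) ↔
      ((r = 2 ∧ orderOf ((Fintype.card F : ℕ) : ZMod s) ∈ ({8, 12} : Finset ℕ)) ∨ (s = 2 ∧ orderOf ((Fintype.card F : ℕ) : ZMod r) ∈ ({8, 12} : Finset ℕ)) ∨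
       (r ≠ 2 ∧ s ≠ 2 ∧
         ((orderOf ((Fintype.card F : ℕ) : ZMod r) < orderOf ((Fintype.card F : ℕ) : ZMod s) ∧ (orderOf ((Fintype.card F : ℕ) : ZMod s) ∈ ({8, 12} : Finset ℕ) ∨ (orderOf ((Fintype.card F : ℕ) : ZMod s) = 6 ∧ orderOf ((Fintype.card F : ℕ) : ZMod r) ∈ ({3, 4} : Finset ℕ)) ∨ (orderOf ((Fintype.card F : ℕ) : ZMod s) = 4 ∧ orderOf ((Fintype.card F : ℕ) : ZMod r) = 3))) ∨
          (orderOf ((Fintype.card F : ℕ) : ZMod s) < orderOf ((Fintype.card F : ℕ) : ZMod r) ∧ (orderOf ((Fintype.card F : ℕ) : ZMod r) ∈ ({8, 12} : Finset ℕ) ∨ (orderOf ((Fintype.card F : ℕ) : ZMod r) = 6 ∧ orderOf ((Fintype.card F : ℕ) : ZMod s) ∈ ({3, 4} : Finset ℕ)) ∨ (orderOf ((Fintype.card F : ℕ) : ZMod r) = 4 ∧ orderOf ((Fintype.card F : ℕ) : ZMod s) = 3)))))) := by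
  have : CharP F 2 := H76.charP_of_card_eq_pow Nat.prime_two (by omega) hF
  by_cases hr2 : r = 2
  · subst hr2
    rw [two_adj hF hs hrs.symm hsG]
    simp [hrs.symm]
  by_cases hs2 : s = 2
  · subst hs2
    rw [mul_comm, two_adj hF hr hr2 hrG]
    simp [hr2]
  have key : (∃ x : chevF4.group F, orderOf x = r * s) ↔ ∃ f ∈ [fun q : ℤ => (q + 1) * (q ^ 3 - 1),
      fun q => q ^ 4 - 1, fun q => (q - 1) * (q ^ 3 + 1), fun q => q ^ 4 + 1,
      fun q => q ^ 4 - q ^ 2 + 1], (r : ℤ) ∣ f (Fintype.card F) ∧ (s : ℤ) ∣ f (Fintype.card F) := by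
    constructor
    · rintro ⟨g, hg⟩
      have := F4_of_adj rfl 2 (((Nat.coprime_primes hr Nat.prime_two).2 hr2).mul_left
        ((Nat.coprime_primes hs Nat.prime_two).2 hs2)) hg
      push_cast at this
      simp only [List.mem_cons, List.not_mem_nil, or_false, exists_eq_or_imp, exists_eq_left]
      have h := fun {a : ℤ} (h : (r : ℤ) * s ∣ a) =>
        And.intro (dvd_of_mul_right_dvd h) (dvd_of_mul_left_dvd h)
      exact this.imp h (Or.imp h (Or.imp h (Or.imp h h)))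
    · rintro ⟨f, hf, h1, h2⟩
      obtain ⟨v, hv⟩ : ∃ v, ∀ q, chF4 v q = f q := by
        simp only [List.mem_cons, List.not_mem_nil, or_false] at hf
        rcases hf with rfl | rfl | rfl | rfl | rfl
        exacts [F4_w3, F4_w4.imp fun _ h => h.1, F4_w6.imp fun _ h => h.1, F4_w8, F4_w12]
      exact F4_adj_of rfl 2 hr hs hrs hr2 hs2 (hv _ ▸ h1) (hv _ ▸ h2)
  obtain ⟨a1, a2, a3, a4, a5, -⟩ := ord_cases (q := Fintype.card F) hr hr2 rfl
  obtain ⟨b1, b2, b3, b4, b5, -⟩ := ord_cases (q := Fintype.card F) hs hs2 rfl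
  simp only [key, List.mem_cons, List.not_mem_nil, or_false, exists_eq_or_imp, exists_eq_left, a1, a2,
    a3, a4, a5, b1, b2, b3, b4, b5, hr2, hs2, false_and, false_or, ne_eq, not_false_eq_true, true_and]
  have h1 := ord_mem hF hr hr2 hrG
  have h2 := ord_mem hF hs hs2 hsG
  generalize orderOf ((Fintype.card F : ℕ) : ZMod r) = k at h1
  generalize orderOf ((Fintype.card F : ℕ) : ZMod s) = l at h2
  revert l
  revert k
  decide

end Cfsg.Agent.S2525
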