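import Cfsg.Statements.S2540
import Cfsg.Agent.H32.SLQuasi

set_option autoImplicit false
open Cfsg

namespace Cfsg.Agent.S2540

/-- Let F be a finite field and n ≥ 1, excluding the case n = 2 with #F ≤ 3. A subgroup of GL_n(F) that is normalized by every element of SL_n(F) either consists of scalar matrices or contains SL_n(F). -/
theorem result {F : Type*} [Field F] [Fintype F] (n : ℕ) (hn : 1 ≤ n) (hex : ¬ (n = 2 ∧ Fintype.card F ≤ 3)) (G : Subgroup (Matrix.GeneralLinearGroup (Fin n) F)) (hG : ∀ s : Matrix.SpecialLinearGroup (Fin n) F, ∀ g ∈ G, (Matrix.SpecialLinearGroup.toGL s) * g * (Matrix.SpecialLinearGroup.toGL s)⁻¹ ∈ G) : (∀ g ∈ G, ∃ c : F, (g : Matrix (Fin n) (Fin n) F) = c • (1 : Matrix (Fin n) (Fin n) F)) ∨ (Matrix.SpecialLinearGroup.toGL : Matrix.SpecialLinearGroup (Fin n) F →* _).range ≤ G := by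
  by_cases h1 : n = 1
  · subst h1
    refine Or.inl fun g _ => ⟨g.1 0 0, ?_⟩
    ext i j
    rw [Subsingleton.elim i 0, Subsingleton.elim j 0]
    simp
  have : Nontrivial (Fin n) := Fin.nontrivial_iff_two_le.2 (by omega)
  have h : 3 ≤ Fintype.card (Fin n) ∨ ∃ x : F, x ≠ 0 ∧ x ^ 2 ≠ 1 := by
    by_cases h2 : n = 2
    · exact Or.inr (H32.exists_ne_zero_sq_ne_one (by omega))
    · left; simp; omega
  have hN : (Matrix.SpecialLinearGroup.toGL : Matrix.SpecialLinearGroup (Fin n) F →* _).range ≤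
      Subgroup.normalizer (G : Set (Matrix.GeneralLinearGroup (Fin n) F)) := by
    rintro _ ⟨s, rfl⟩
    rw [Subgroup.mem_normalizer_iff]
    refine fun g => ⟨hG s g, fun hg => ?_⟩
    have := hG s⁻¹ _ hg
    simpa [mul_assoc] using this
  rcases H52.IsComponent.le_or_commutator_eq_bot_of_le_normalizer (H32.range_toGL_isComponent h) hN
    with h2 | h2
  · exact Or.inr h2
  · refine Or.inl fun g hg => H32.scalar_of_commute_sl fun s => ?_
    have := H52.commutator_eq_bot_iff_forall.1 h2 _ ⟨s, rfl⟩ g hg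
    exact congrArg Units.val this

end Cfsg.Agent.S2540
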