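import Cfsg.Statements.S2556
import Cfsg.Agent.H39.SzSub
import Cfsg.Agent.H39.SzOvoid
import Cfsg.Agent.H83.Cores

set_option autoImplicit false
open Cfsg

namespace Cfsg.Agent.S2556

open H39

section Ded

variable {F : Type*} [Field F] [Fintype (F ≃+* F)]

theorem ded1 {c : (F ≃+* F) → F} (h : ∀ x, ∑ σ, c σ * σ x = 0) (σ : F ≃+* F) : c σ = 0 := by
  have h1 := (linearIndependent_monoidHom F F).comp
    (fun σ : F ≃+* F => (σ : F →* F)) (fun σ τ h => RingEquiv.ext fun x => DFunLike.congr_fun h x)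
  refine Fintype.linearIndependent_iff.1 h1 c ?_ σ
  ext x
  simpa using h x

theorem ded2 {c : (F ≃+* F) → (F ≃+* F) → F} (h : ∀ x y, ∑ σ, ∑ τ, c σ τ * (σ x * τ y) = 0)
    (σ τ : F ≃+* F) : c σ τ = 0 := by
  refine ded1 (c := c σ) (fun y => ?_) τ
  refine ded1 (c := fun σ => ∑ τ, c σ τ * τ y) (fun x => ?_) σ
  rw [← h x y]
  refine Finset.sum_congr rfl fun σ _ => ?_
  rw [Finset.sum_mul]
  exact Finset.sum_congr rfl fun τ _ => by ring

theorem quad [Finite F] (T : Tits F) {c : (F ≃+* F) → (F ≃+* F) → F}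
    (h : ∀ x, ∑ σ, ∑ τ, c σ τ * (σ x * τ x) = 0) :
    (∀ σ τ, c σ τ = c τ σ) ∧ ∀ σ, c σ σ = 0 := by
  classical
  have h2 := T.two_eq_zero
  have hs : ∀ σ τ, c σ τ = c τ σ := by
    intro σ τ
    have := ded2 (c := fun σ τ => c σ τ + c τ σ) (fun x y => ?_) σ τ
    · linear_combination this - c τ σ * h2
    have e1 : ∑ σ, ∑ τ, c τ σ * (σ x * τ y) = ∑ σ, ∑ τ, c σ τ * (σ y * τ x) := by
      rw [Finset.sum_comm]
      exact Finset.sum_congr rfl fun σ _ => Finset.sum_congr rfl fun τ _ => by ring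
    have e2 := h (x + y)
    simp only [map_add, add_mul, mul_add, Finset.sum_add_distrib] at e2 ⊢
    rw [e1]
    linear_combination e2 - h x - h y
  refine ⟨hs, ded1 fun y => ?_⟩
  obtain ⟨z, rfl⟩ := T.θ_surj y
  obtain ⟨x, rfl⟩ := T.θ_surj z
  have e1 : ∑ p : (F ≃+* F) × (F ≃+* F),
      (if p.1 = p.2 then 0 else c p.1 p.2 * (p.1 x * p.2 x)) = 0 := by
    refine Finset.sum_involution (fun p _ => p.swap) (fun p _ => ?_) (fun p _ hp h => hp ?_)
      (fun _ _ => Finset.mem_univ _) (fun _ _ => rfl)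
    · by_cases hp : p.1 = p.2
      · simp [hp]
      · rw [if_neg hp, if_neg (fun h => hp h.symm), Prod.fst_swap, Prod.snd_swap, hs p.2]
        linear_combination (c p.1 p.2 * (p.1 x * p.2 x)) * h2
    · exact if_pos (congrArg Prod.snd h)
  rw [Fintype.sum_prod_type] at e1
  rw [← h x, ← sub_eq_zero, ← neg_eq_zero, ← e1, neg_sub, ← Finset.sum_sub_distrib]
  refine Finset.sum_congr rfl fun σ _ => ?_
  rw [T.θθ, map_pow, sub_eq_iff_eq_add, ← Finset.sum_erase_add _ _ (Finset.mem_univ σ),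
    ← Finset.sum_erase_add _ _ (Finset.mem_univ σ), if_pos rfl, add_zero, sq]
  congr 1
  exact Finset.sum_congr rfl fun τ hτ => by rw [if_neg (Finset.ne_of_mem_erase hτ).symm]

end Ded

theorem card_addHom {F : Type*} [Field F] [Finite F] [CharP F 2] {n : ℕ}
    (hF : Nat.card F = 2 ^ n) : Nat.card (F →+ F) = 2 ^ (n ^ 2) := by
  let _ := ZMod.algebra F 2
  have h1 : Module.finrank (ZMod 2) F = n := by
    have := Module.natCard_eq_pow_finrank (K := ZMod 2) (V := F)
    rw [hF, Nat.card_zmod] at this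
    exact (Nat.pow_right_injective le_rfl this).symm
  rw [Nat.card_congr (AddMonoidHom.toZModLinearMapEquiv 2).toEquiv,
    Module.natCard_eq_pow_finrank (K := ZMod 2), Nat.card_zmod, Module.finrank_linearMap, h1, sq]

theorem exists_coeff {F : Type*} [Field F] [Finite F] [CharP F 2] [Fintype (F ≃+* F)] {n : ℕ}
    (hF : Nat.card F = 2 ^ n) (A : F →+ F) : ∃ a : (F ≃+* F) → F, ∀ x, A x = ∑ σ, a σ * σ x := by
  let L : ((F ≃+* F) → F) → (F →+ F) := fun a =>
    { toFun := fun x => ∑ σ, a σ * σ x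
      map_zero' := by simp
      map_add' := fun x y => by simp [mul_add, Finset.sum_add_distrib] }
  have hL : Function.Injective L := by
    intro a b h
    funext σ
    refine sub_eq_zero.1 (ded1 (c := fun σ => a σ - b σ) (fun x => ?_) σ)
    have : ∑ σ, a σ * σ x = ∑ σ, b σ * σ x := DFunLike.congr_fun h x
    simp only [sub_mul, Finset.sum_sub_distrib, this, sub_self]
  have : Finite (F →+ F) := DFunLike.finite _
  have hb := hL.bijective_of_nat_card_le (by
    rw [card_addHom hF, Nat.card_fun, card_ringEquiv hF, hF, ← pow_mul, sq])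
  obtain ⟨a, rfl⟩ := hb.2 A
  exact ⟨a, fun _ => rfl⟩

theorem monomial {F : Type*} [Field F] [SzField F] (T : Tits F) {A B : F →+ F}
    (h : ∀ x, B (x * T.θ x) = A x * T.θ (A x)) : ∃ (c : F) (σ : F ≃+* F), ∀ x, A x = c * σ x := by
  classical
  have := SzField.finite F
  have := T.charP
  have : Finite (F ≃+* F) := DFunLike.finite _
  have := Fintype.ofFinite (F ≃+* F)
  obtain ⟨m, hm, hF⟩ := SzField.exists_card (F := F)
  obtain ⟨a, ha⟩ := exists_coeff hF A
  obtain ⟨b, hb⟩ := exists_coeff hF B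
  let t : F ≃+* F := RingEquiv.ofBijective T.θ ⟨T.θ_inj, T.θ_surj⟩
  have ht : ∀ x, t x = T.θ x := fun _ => rfl
  have htm : ∀ (σ : F ≃+* F) x, (t * σ) x = T.θ (σ x) := fun _ _ => rfl
  obtain ⟨hs, hd⟩ := quad T
    (c := fun σ τ => a σ * T.θ (a (t⁻¹ * τ)) - if τ = t * σ then b σ else 0) (fun x => by
      have e := h x
      rw [hb, ha, map_sum, Finset.sum_mul_sum] at e
      simp only [sub_mul, Finset.sum_sub_distrib, ite_mul, zero_mul, Finset.sum_ite_eq',
        Finset.mem_univ, if_true]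
      rw [sub_eq_zero]
      refine Eq.trans ?_ (e.symm.trans (Finset.sum_congr rfl fun σ _ => ?_))
      · refine Finset.sum_congr rfl fun σ _ => ?_
        rw [← Equiv.sum_comp (Equiv.mulLeft t)]
        refine Finset.sum_congr rfl fun τ _ => ?_
        rw [Equiv.coe_mulLeft, inv_mul_cancel_left, htm, map_mul]
        ring
      · rw [map_mul, htm]
        exact congrArg (fun z => b σ * (σ x * z)) (T.map_θ T (σ : F →+* F) x))
  have h4 : t * t * t * t ≠ 1 := by
    intro h
    have h1 : ∀ x : F, x ^ 4 = x := fun x => by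
      have : T.θ (T.θ (T.θ (T.θ x))) = x := DFunLike.congr_fun h x
      rwa [T.θθ, T.θθ, ← pow_mul] at this
    have h2 : ∀ x : Fˣ, x ^ 3 = 1 := fun x => Units.ext (by
      have := h1 x
      rw [Units.val_pow_eq_pow_val, Units.val_one]
      exact mul_left_cancel₀ x.ne_zero (by linear_combination this))
    have h3 := Monoid.exponent_dvd_of_forall_pow_eq_one h2
    rw [IsCyclic.exponent_eq_card, SzField.card_units] at h3
    have := Nat.le_of_dvd (by norm_num) h3
    have := SzField.eight_le F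
    omega
  have ht1 : ∀ σ : F ≃+* F, σ ≠ t * σ := fun σ h => h4 (by
    rw [right_eq_mul.1 h]; simp)
  have hd' : ∀ σ, a σ ≠ 0 → a (t⁻¹ * σ) = 0 := fun σ hσ => by
    have := hd σ
    simp only [if_neg (ht1 σ), sub_zero] at this
    exact T.θ_eq_zero.1 ((mul_eq_zero.1 this).resolve_left hσ)
  have key : ∀ σ ρ, a σ ≠ 0 → a ρ ≠ 0 → σ ≠ ρ → σ = t * (t * ρ) := by
    intro σ ρ hσ hρ hne
    by_contra hcon
    have := hs σ (t * ρ)
    simp only [if_neg hcon, inv_mul_cancel_left, mul_right_inj, if_neg hne.symm, hd' σ hσ,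
      map_zero, mul_zero, sub_zero] at this
    exact mul_ne_zero hσ (T.θ_ne_zero.2 hρ) this
  by_cases h0 : ∃ σ, a σ ≠ 0
  · obtain ⟨σ, hσ⟩ := h0
    refine ⟨a σ, σ, fun x => ?_⟩
    rw [ha, Finset.sum_eq_single σ (fun ρ _ hρ => ?_) (by simp)]
    by_contra hcon
    have hρ' := left_ne_zero_of_mul hcon
    have e1 := key σ ρ hσ hρ' hρ.symm
    have e2 := key ρ σ hρ' hσ hρ
    rw [e2] at e1
    exact h4 (by rw [← mul_assoc, ← mul_assoc, ← mul_assoc] at e1; exact right_eq_mul.1 e1)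
  · push Not at h0
    exact ⟨0, 1, fun x => by simp [ha, h0]⟩

section Aut

variable {S F : Type*} [Group S] [Field F] [SzField F] (T : Tits F) (e : F × F ≃ S)
  (hm : ∀ a b c d, e (a, b) * e (c, d) = e (a + c, b + d + T.θ a * c))

include hm

theorem e_zero : e (0, 0) = 1 := by
  have := hm 0 0 0 0
  simpa using this

/-- the automorphism with parameters `f`, `c`, `σ` -/
noncomputable def aut (p : (F →+ F) × Fˣ × (F ≃+* F)) : MulAut S :=
  haveI := SzField.finite F
  haveI := Finite.of_equiv _ e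
  MulEquiv.ofBijective (MonoidHom.mk' (fun s => e (p.2.1 * p.2.2 (e.symm s).1,
    p.2.1 * T.θ p.2.1 * p.2.2 (e.symm s).2 + p.1 (e.symm s).1)) (by
      intro s s'
      obtain ⟨⟨a, b⟩, rfl⟩ := e.surjective s
      obtain ⟨⟨c, d⟩, rfl⟩ := e.surjective s'
      simp only [hm, Equiv.symm_apply_apply, map_add, map_mul]
      have : p.2.2 (T.θ a) = T.θ (p.2.2 a) := T.map_θ T (p.2.2 : F →+* F) a
      rw [this]
      congr 2 <;> ring)) (Finite.injective_iff_bijective.1 (by
      intro s s' h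
      obtain ⟨⟨a, b⟩, rfl⟩ := e.surjective s
      obtain ⟨⟨c, d⟩, rfl⟩ := e.surjective s'
      simp only [MonoidHom.mk'_apply, Equiv.symm_apply_apply, EmbeddingLike.apply_eq_iff_eq,
        Prod.mk.injEq] at h ⊢
      obtain ⟨h1, h2⟩ := h
      obtain rfl : a = c := p.2.2.injective (mul_left_cancel₀ p.2.1.ne_zero h1)
      exact ⟨rfl, p.2.2.injective (mul_left_cancel₀
        (mul_ne_zero p.2.1.ne_zero (T.θ_ne_zero.2 p.2.1.ne_zero)) (add_right_cancel h2))⟩))

theorem aut_apply (p : (F →+ F) × Fˣ × (F ≃+* F)) (a b : F) :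
    aut T e hm p (e (a, b)) = e (p.2.1 * p.2.2 a, p.2.1 * T.θ p.2.1 * p.2.2 b + p.1 a) := by
  simp [aut]

theorem aut_bijective : Function.Bijective (aut T e hm) := by
  have := SzField.finite F
  have h2 := T.two_eq_zero
  constructor
  · rintro ⟨f, c, σ⟩ ⟨f', c', σ'⟩ h
    have h1 : ∀ a, (c : F) * σ a = c' * σ' a ∧ f a = f' a := fun a => by
      have := DFunLike.congr_fun h (e (a, 0))
      simpa [aut_apply] using this
    obtain rfl : c = c' := Units.ext (by simpa using (h1 1).1)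
    obtain rfl : σ = σ' := RingEquiv.ext fun a => mul_left_cancel₀ c.ne_zero (h1 a).1
    obtain rfl : f = f' := AddMonoidHom.ext fun a => (h1 a).2
    rfl
  · intro α
    obtain ⟨A, f, hA⟩ : ∃ A f : F → F, ∀ a, α (e (a, 0)) = e (A a, f a) :=
      ⟨fun a => (e.symm (α (e (a, 0)))).1, fun a => (e.symm (α (e (a, 0)))).2, fun a => by simp⟩
    have hsq : ∀ x, α (e (0, x * T.θ x)) = e (0, A x * T.θ (A x)) := by
      intro x
      have h1 := map_mul α (e (x, 0)) (e (x, 0))
      rw [hm, hA, hm] at h1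
      have hxx : ∀ y : F, y + y = 0 := fun y => by linear_combination y * h2
      simp only [hxx, zero_add] at h1
      rw [mul_comm x, mul_comm (A x), h1]
    obtain ⟨B, hB⟩ : ∃ B : F → F, ∀ b, α (e (0, b)) = e (0, B b) :=
      ⟨fun b => (e.symm (α (e (0, b)))).2, fun b => by
        obtain ⟨x, rfl⟩ := T.mul_θ_surj b
        simp only [hsq, Equiv.symm_apply_apply]⟩
    have hab : ∀ a b, α (e (a, b)) = e (A a, B b + f a) := by
      intro a b
      have h1 := map_mul α (e (0, b)) (e (a, 0))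
      rw [hm, hA, hB, hm] at h1
      simpa using h1
    have hadd : ∀ a c, A (a + c) = A a + A c ∧
        B (T.θ a * c) + f (a + c) = f a + f c + T.θ (A a) * A c := by
      intro a c
      have h1 := map_mul α (e (a, 0)) (e (c, 0))
      rw [hm, hab, hA, hA, hm] at h1
      simpa using h1
    have hBadd : ∀ b d, B (b + d) = B b + B d := by
      intro b d
      have h1 := map_mul α (e (0, b)) (e (0, d))
      rw [hm, hB, hB, hm] at h1
      simp only [add_zero, map_zero, mul_zero, hB] at h1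
      simpa using h1
    have hAB : ∀ x, B (x * T.θ x) = A x * T.θ (A x) := fun x => by
      have := hsq x
      rw [hB] at this
      simpa using this
    obtain ⟨c, σ, hc⟩ := monomial T (A := AddMonoidHom.mk' A fun a c => (hadd a c).1)
      (B := AddMonoidHom.mk' B hBadd) hAB
    simp only [AddMonoidHom.mk'_apply] at hc
    have hσ : ∀ x, σ (T.θ x) = T.θ (σ x) := T.map_θ T (σ : F →+* F)
    have hBc : ∀ b, B b = c * T.θ c * σ b := fun b => by
      obtain ⟨x, rfl⟩ := T.mul_θ_surj b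
      rw [hAB, hc, map_mul, map_mul, hσ]; ring
    have hc0 : c ≠ 0 := by
      rintro rfl
      have h1 := hB 1
      rw [hBc, zero_mul, zero_mul, e_zero T e hm, map_eq_one_iff _ α.injective,
        ← e_zero T e hm] at h1
      simp at h1
    refine ⟨(AddMonoidHom.mk' f fun a a' => ?_, Units.mk0 c hc0, σ), MulEquiv.ext fun s => ?_⟩
    · have := (hadd a a').2
      rw [hBc, hc, hc, map_mul, map_mul, hσ] at this
      linear_combination this
    · obtain ⟨⟨a, b⟩, rfl⟩ := e.surjective s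
      rw [aut_apply, hab, hc, hBc]
      rfl

theorem main [Finite S] {n : ℕ} (hn : Odd n) (hF : Nat.card F = 2 ^ n) :
    IsElementaryAbelian 2 (pCore 2 (MulAut S)) ∧ Nat.card (pCore 2 (MulAut S)) = 2 ^ (n ^ 2) ∧
      Nat.card (MulAut S) = 2 ^ (n ^ 2) * (n * (2 ^ n - 1)) := by
  have := SzField.finite F
  have := T.charP
  have h2 := T.two_eq_zero
  have hb := aut_bijective T e hm
  have hcard : Nat.card (MulAut S) = 2 ^ (n ^ 2) * (n * (2 ^ n - 1)) := by
    rw [← Nat.card_eq_of_bijective _ hb, Nat.card_prod, Nat.card_prod, card_addHom hF,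
      card_ringEquiv hF, SzField.card_units, hF, mul_comm n]
  let K : Subgroup (MulAut S) :=
    { carrier := {α | ∀ s, (e.symm (α s)).1 = (e.symm s).1}
      mul_mem' := fun {α β} ha hb s => by rw [MulAut.mul_apply, ha, hb]
      one_mem' := fun _ => rfl
      inv_mem' := fun {α} ha s => by rw [← ha, MulAut.apply_inv_self] }
  have hK : ∀ α, α ∈ K ↔ ∃ f, α = aut T e hm (f, 1, 1) := by
    intro α
    constructor
    · intro h
      obtain ⟨⟨f, c, σ⟩, rfl⟩ := hb.2 α
      have h1 : ∀ a, (c : F) * σ a = a := fun a => by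
        simpa [aut_apply] using h (e (a, 0))
      obtain rfl : c = 1 := Units.ext (by simpa using h1 1)
      obtain rfl : σ = 1 := RingEquiv.ext fun a => by simpa using h1 a
      exact ⟨f, rfl⟩
    · rintro ⟨f, rfl⟩ s
      obtain ⟨⟨a, b⟩, rfl⟩ := e.surjective s
      simp [aut_apply]
  have hKc : Nat.card K = 2 ^ (n ^ 2) := by
    rw [← card_addHom hF]
    refine (Nat.card_eq_of_bijective (fun f => (⟨_, (hK _).2 ⟨f, rfl⟩⟩ : K)) ⟨?_, ?_⟩).symm
    · intro f f' h
      exact congrArg Prod.fst (hb.1 (congrArg Subtype.val h))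
    · rintro ⟨α, hα⟩
      obtain ⟨f, rfl⟩ := (hK α).1 hα
      exact ⟨f, rfl⟩
  have hKn : K.Normal := ⟨fun α hα β s => by
    obtain ⟨p, rfl⟩ := hb.2 β
    obtain ⟨s, rfl⟩ := (aut T e hm p).surjective s
    obtain ⟨f, rfl⟩ := (hK α).1 hα
    obtain ⟨⟨a, b⟩, rfl⟩ := e.surjective s
    rw [MulAut.mul_apply, MulAut.mul_apply, MulAut.inv_apply_self]
    simp [aut_apply]⟩
  have hKp : IsPGroup 2 K := IsPGroup.of_card hKc
  have hidx : ¬ 2 ∣ K.index := by
    have h1 := K.card_mul_index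
    rw [hKc, hcard, Nat.mul_right_inj (by positivity)] at h1
    rw [h1, ← hF]
    exact (hn.mul (SzField.odd_sub_one F)).not_two_dvd_nat
  have hKe : pCore 2 (MulAut S) = K :=
    (hKp.toSylow hidx).is_maximal' (H83.pCore_isPGroup) (le_sSup ⟨hKn, hKp⟩)
  rw [hKe]
  refine ⟨⟨⟨⟨?_⟩⟩, fun α hα => ?_⟩, hKc, hcard⟩
  · rintro ⟨α, hα⟩ ⟨β, hβ⟩
    obtain ⟨f, rfl⟩ := (hK α).1 hα
    obtain ⟨g, rfl⟩ := (hK β).1 hβ
    refine Subtype.ext (MulEquiv.ext fun s => ?_)
    obtain ⟨⟨a, b⟩, rfl⟩ := e.surjective s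
    simp [aut_apply, add_right_comm]
  · obtain ⟨f, rfl⟩ := (hK α).1 hα
    refine MulEquiv.ext fun s => ?_
    obtain ⟨⟨a, b⟩, rfl⟩ := e.surjective s
    simp only [sq, MulAut.mul_apply, aut_apply, MulAut.one_apply]
    simp only [Units.val_one, one_mul, map_one, RingAut.one_apply]
    congr 2
    linear_combination f a * h2

end Aut

/-- Let S be a Sylow 2-subgroup of the Suzuki group Sz(q), q = 2ⁿ with n = 2m + 1 ≥ 3 (realised as 4 × 4 matrices over the field with q elements). Then the largest normal 2-subgroup of the automorphism group of S is elementary abelian of order 2^(n²), and the automorphism group of S has order 2^(n²) · n · (q − 1). -/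
theorem result {S : Type*} [Group S] [Finite S] (m : ℕ) (hm : 1 ≤ m)
    {F : Type*} [Field F] [Fintype F] (hF : Fintype.card F = 2 ^ (2 * m + 1))
    (P : Sylow 2 ↥(Cfsg.Lie.Sz F (2 ^ (m + 1)))) (hS : Nonempty (S ≃* ↥(P : Subgroup ↥(Cfsg.Lie.Sz F (2 ^ (m + 1)))))) :
    Cfsg.IsElementaryAbelian 2 (Cfsg.pCore 2 (MulAut S)) ∧ Nat.card ↥(Cfsg.pCore 2 (MulAut S)) = 2 ^ ((2 * m + 1) ^ 2) ∧
      Nat.card (MulAut S) = 2 ^ ((2 * m + 1) ^ 2) * ((2 * m + 1) * (2 ^ (2 * m + 1) - 1)) := by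
  have := szField_of_card hm hF
  obtain ⟨φ⟩ := hS
  obtain ⟨g, hg⟩ := (lieModel hF).exists_twist_U_eq P
  generalize (lieModel hF).twist g = M at hg
  let f : F × F → S := fun p => φ.symm ⟨M.u p.1 p.2, hg ▸ M.u_mem_U _ _⟩
  have hf : Function.Bijective f := by
    constructor
    · rintro ⟨a, b⟩ ⟨c, d⟩ h
      have h1 : M.u a b = M.u c d := Subtype.ext_iff.1 (φ.symm.injective h)
      have := M.u_inj h1
      exact Prod.ext this.1 this.2
    · intro s
      obtain ⟨a, b, h⟩ := M.mem_U.1 (show (φ s).1 ∈ M.U by rw [hg]; exact (φ s).2)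
      exact ⟨(a, b), φ.symm_apply_eq.2 (Subtype.ext h.symm)⟩
  refine main M.toTits (Equiv.ofBijective f hf) (fun a b c d => ?_) (odd_two_mul_add_one m)
    (by rw [Nat.card_eq_fintype_card, hF])
  simp only [Equiv.ofBijective_apply, f, ← map_mul]
  congr 1
  exact Subtype.ext (M.u_mul a b c d)

end Cfsg.Agent.S2556
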