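import Cfsg.Statements.S2557
import Cfsg.Agent.H76.C2Code

set_option autoImplicit false
open Cfsg

namespace Cfsg.Agent.S2557

/-- The number of conjugacy classes of Sp(2n,q), q even: for F a finite field of even order q and n ≥ 1, the number k of conjugacy classes of Sp(2n,F) satisfies q^n ≤ k ≤ 15.2·q^n. -/
theorem result {F : Type*} [Field F] [Fintype F] (heven : Even (Fintype.card F)) (n : ℕ) (hn : 1 ≤ n) :
    Fintype.card F ^ n ≤ Nat.card (ConjClasses (Matrix.symplecticGroup (Fin n) F)) ∧
      5 * Nat.card (ConjClasses (Matrix.symplecticGroup (Fin n) F)) ≤ 76 * Fintype.card F ^ n := by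
  have h2 : (2 : F) = 0 := by_contra fun h =>
    Nat.not_even_iff_odd.2 (H30.two_ne_zero_iff_odd_card.1 h) heven
  obtain ⟨p, hp⟩ := CharP.exists F
  have hpp := Fact.mk (CharP.char_is_prime F p)
  refine ⟨?_, H76.card_sp_two_le h2 n⟩
  rw [← H76.card_sp_semisimple p n]
  exact Nat.card_le_card_of_injective _ Subtype.val_injective

end Cfsg.Agent.S2557
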