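import Cfsg.Statements.S2586
import Cfsg.Agent.H76.Forms
import Cfsg.Agent.H27.SympBasic

set_option autoImplicit false
open Cfsg

namespace Cfsg.Agent.S2586

/-- Over a finite field, every element of the symplectic group Sp_2m(F) is conjugate by an invertible matrix to its inverse. -/
theorem result {F : Type*} [Field F] [Finite F] {m : ℕ} (A : Matrix.symplecticGroup (Fin m) F) : IsConj (A : Matrix (Fin m ⊕ Fin m) (Fin m ⊕ Fin m) F) ((A⁻¹ : Matrix.symplecticGroup (Fin m) F) : Matrix (Fin m ⊕ Fin m) (Fin m ⊕ Fin m) F) := by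
  have h1 := (H76.exists_pres_iff_isConj (σ := RingHom.id F) (H27.spToGL m F A)).1
    ⟨H27.jBilin (Fin m) F, H27.jBilin_nondegenerate.2, H27.jBilin_sp A⟩
  rw [H76.isConj_gl_iff_med_eq] at h1
  rw [H76.isConj_iff_med_eq, ← H76.med_transpose (A⁻¹ : Matrix.symplecticGroup (Fin m) F).1]
  exact h1

end Cfsg.Agent.S2586
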