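import Cfsg.Statements.S2648
import Cfsg.Agent.H79.WreathSyl
import Cfsg.Agent.S4010
import Cfsg.Agent.S0261

set_option autoImplicit false
open Cfsg

namespace Cfsg.Agent.S2648

theorem exists_two_group (F : Type*) [Field F] [Fintype F] (hq : Odd (Fintype.card F)) (a : ℕ) :
    ∃ (P : Type) (_ : Group P) (_ : Finite P), IsPGroup 2 P ∧ derivedSeries P (a + 1) ≠ ⊥ ∧
      ∃ φ : P →* Matrix.symplecticGroup (Fin (2 ^ a)) F, Function.Injective φ := by
  induction a with
  | zero =>
    let T : Sylow 2 (Matrix.SpecialLinearGroup (Fin 2) F) := default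
    obtain ⟨k, hk, ⟨e⟩⟩ := Cfsg.Agent.S0261.result hq T
    have : NeZero (2 ^ k) := ⟨by positivity⟩
    refine ⟨QuaternionGroup (2 ^ k), inferInstance, inferInstance, T.isPGroup'.of_equiv e, ?_, ?_⟩
    · intro h
      have h1 : (QuaternionGroup.a 1 : QuaternionGroup (2 ^ k)) * QuaternionGroup.xa 0 =
          QuaternionGroup.xa 0 * QuaternionGroup.a 1 := by
        rw [← commute_iff_eq, ← commutatorElement_eq_one_iff_commute, ← Subgroup.mem_bot, ← h]
        exact Subgroup.commutator_mem_commutator trivial trivial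
      simp only [QuaternionGroup.a_mul_xa, QuaternionGroup.xa_mul_a, QuaternionGroup.xa.injEq] at h1
      have h3 : ((2 : ℕ) : ZMod (2 * 2 ^ k)) = 0 := by
        push_cast; linear_combination -h1
      rw [ZMod.natCast_eq_zero_iff] at h3
      have h4 := Nat.le_of_dvd (by norm_num) h3
      have h5 : 2 ^ 1 ≤ 2 ^ k := Nat.pow_le_pow_right (by norm_num) hk
      omega
    · let B : LinearMap.BilinForm F (Fin 2 → F) := Matrix.toBilin' !![0, 1; -1, 0]
      have hB : ∀ u v, B u v = u 0 * v 1 - u 1 * v 0 := fun u v => by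
        simp [B, Matrix.toBilin'_apply, Fin.sum_univ_two]; ring
      have hA : B.IsAlt := fun v => by rw [hB]; ring
      obtain ⟨φ, hφ⟩ := H79.exists_embed_sp ((H79.matRep (Fin 2) F).comp
        Matrix.SpecialLinearGroup.coeMonoidHom)
        ((H79.matRep_injective _).comp Subtype.val_injective) (B := B)
        (hA.isRefl.nondegenerate_iff_separatingLeft.2 fun x hx => by
          have h0 := hx ![1, 0]
          have h1 := hx ![0, 1]
          simp [hB] at h0 h1
          funext i; fin_cases i <;> simp [h0, h1]) hA (m := 1) (by simp) fun g u v => by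
          have h := g.2
          rw [Matrix.det_fin_two] at h
          change B (g.1.mulVec u) (g.1.mulVec v) = _
          simp only [hB, Matrix.mulVec, dotProduct, Fin.sum_univ_two]
          linear_combination (u 0 * v 1 - u 1 * v 0) * h
      exact ⟨(φ.comp (T : Subgroup _).subtype).comp e.symm.toMonoidHom,
        (hφ.comp (Subgroup.subtype_injective _)).comp e.symm.injective⟩
  | succ a ih =>
    obtain ⟨P, _, _, h1, h2, φ, hφ⟩ := ih
    refine ⟨H79.Wr (Fin 2) P, inferInstance, H79.wr_finite, H79.isPGroup_wr_two h1,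
      H79.derivedSeries_wr_two h2, ?_⟩
    rw [pow_succ']
    exact H79.exists_wr_sp 2 Nat.one_le_two_pow φ hφ

/-- Let q be odd, F a field with q elements and n ≥ 1. A Sylow 2-subgroup R of the symplectic group Sp_{2n}(F) has derived length exactly k + 1, where 2^k ≤ 2n < 2^{k+1}: the (k+1)-st term of its derived series is trivial and the k-th is not. -/
theorem result {F : Type*} [Field F] [Fintype F] [DecidableEq F] (q : ℕ) (hF : Fintype.card F = q) (hq : Odd q) (n : ℕ) (hn : 1 ≤ n) (R : Sylow 2 ↥(Matrix.symplecticGroup (Fin n) F)) : derivedSeries ↥(R : Subgroup ↥(Matrix.symplecticGroup (Fin n) F)) (Nat.log 2 (2 * n) + 1) = ⊥ ∧ derivedSeries ↥(R : Subgroup ↥(Matrix.symplecticGroup (Fin n) F)) (Nat.log 2 (2 * n)) ≠ ⊥ := by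
  subst hF
  constructor
  · obtain ⟨φ, hφ⟩ := H79.exists_embed_gl (H79.spRep n F) (H79.spRep_injective n) (n := 2 * n)
      (by simp [two_mul])
    exact Cfsg.Agent.S4010.result 2 R.isPGroup' F _ (by omega) (φ.comp R.toSubgroup.subtype)
      fun a b h => Subtype.ext (hφ h)
  · obtain ⟨P, _, _, h1, h2, φ, hφ⟩ := exists_two_group F hq (Nat.log 2 n)
    obtain ⟨ψ, hψ⟩ := H79.exists_sp_sp (F := F) (Nat.pow_log_le_self 2 (x := n) (by omega))
    obtain ⟨χ, hχ⟩ := H79.exists_hom_sylow h1 (ψ.comp φ) (hψ.comp hφ) R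
    rw [mul_comm, Nat.log_mul_base (by norm_num) (by omega)]
    exact H79.derivedSeries_ne_bot_of_injective χ hχ h2

end Cfsg.Agent.S2648
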