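import Cfsg.Statements.S2731
import Mathlib
import Cfsg.Agent.H73.BalO

set_option autoImplicit false
open Cfsg

namespace Cfsg.Agent.S2731

/-- A criterion for the failure of local balance in almost simple groups whose socle is an odd-dimensional orthogonal group Ω_{2m+1}(F) (m ≥ 3, |F| odd; the form x₀² + Σ xᵢ yᵢ). Let F be a finite field of characteristic r and K the (simple) group in question; let A be a group of automorphisms of K containing all inner automorphisms, and x ∈ A an automorphism of prime order p ≠ r that is not inner-diagonal (not induced by a similarity of the form). Then the largest normal subgroup of C_A(x) of order prime to p is nontrivial if and only if x is a field automorphism of K (conjugate under Aut(K) to a non-identity standard field automorphism) and p does not divide the number of fixed points of x on K. -/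
theorem result {F : Type*} [Field F] [Fintype F] {r : ℕ} [Fact r.Prime] [CharP F r] (hodd : Odd (Fintype.card F)) {m : ℕ} (hm : 3 ≤ m) (hK : IsSimpleGroup (Cfsg.POmega F (Cfsg.quadFormOdd m F))) (A : Subgroup (MulAut (Cfsg.POmega F (Cfsg.quadFormOdd m F)))) (hinn : ∀ k : Cfsg.POmega F (Cfsg.quadFormOdd m F), MulAut.conj k ∈ A) {p : ℕ} [Fact p.Prime] (hpr : p ≠ r) (x : MulAut (Cfsg.POmega F (Cfsg.quadFormOdd m F))) (hxA : x ∈ A) (hord : orderOf x = p) (hnot : ¬ Cfsg.IsInnerDiagonalAutPOmegaOdd m x) :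
    Cfsg.pPrimeCore p ↥(A ⊓ Subgroup.centralizer {x}) ≠ ⊥ ↔ (Cfsg.IsFieldAutClassPOmega (Cfsg.quadFormOdd m F) x ∧ Nat.Coprime p (Nat.card ↥(MonoidHom.eqLocus x.toMonoidHom (MonoidHom.id (Cfsg.POmega F (Cfsg.quadFormOdd m F)))))) := by
  have hp : p.Prime := Fact.out
  have hQ := H30.qOdd_nondegenerate (H79.two_ne_zero_of_odd_card hodd) m
  have h7 : 7 ≤ Fintype.card (Unit ⊕ (Fin m ⊕ Fin m)) := by rw [H28.card_odd]; omega
  have h5 : 5 ≤ Fintype.card (Unit ⊕ (Fin m ⊕ Fin m)) := by omega
  have := (H28.clsO hQ h5).finite_quot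
  obtain ⟨γ, rfl⟩ := H73.thetaO_surjective hQ h7 (fun h => by rw [H28.card_odd] at h; omega) x
  have h1 : γ.1.right ≠ 1 := fun h => hnot (by
    obtain ⟨s, hs⟩ := (H28.clsO hQ h5).theta_mem_range_diag_iff.2 h
    exact ⟨s.1, s.2, (H28.isInduced_refl_iff (Q := H30.qOdd F m) s _).2 hs.symm⟩)
  refine H73.balance_iff (H28.clsO hQ h5).center_eq_bot' A hinn _
    (fun _ => (H73.fbal_thetaO hQ h7 hpr h1 hord).1) fun h => (h ?_).elim
  have h2 := H79.orderOf_right_eq hQ h5 h1 hp hord
  obtain ⟨B, e⟩ := H79.exists_BC_odd hQ h5 (i := (H73.fixF γ.1.right).subtype) (fun y => y.2)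
    (fun x => ⟨fun h => ⟨⟨x, h⟩, rfl⟩, fun ⟨y, h⟩ => h ▸ y.2⟩) (H28.card_odd m) rfl
    (by rw [h2, ← hord]; exact pow_orderOf_eq_one _)
  obtain ⟨d, -, hd⟩ := H79.BC.isConjUnder_frob hQ h5 (B.nondegenerate hQ) h5 (σ := γ.1.right)
    (i := (H73.fixF γ.1.right).subtype)
    (fun y => y.2) B (H79.BC.triv (H79.qOdd_map _ m))
  refine ⟨d, _, γ.1.right, h1, (H79.isFieldAut_iff (H79.inr_mem_odd m _) _).2 rfl, ?_⟩
  exact (congrArg (d * · * d⁻¹) e).trans
    (hd.symm.trans (congrArg _ (Subtype.ext (H79.BC.triv_frob _ _))))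

end Cfsg.Agent.S2731
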