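import Cfsg.Statements.S2732
import Mathlib
import Cfsg.Agent.H73.BalPlus

set_option autoImplicit false
open Cfsg

namespace Cfsg.Agent.S2732

/-- A criterion for the failure of local balance in almost simple groups whose socle is a plus-type orthogonal group PΩ⁺_{2m}(F) (m ≥ 4; the form Σ xᵢ yᵢ). Let F be a finite field of characteristic r and K the (simple) group in question; let A be a group of automorphisms of K containing all inner automorphisms, and x ∈ A an automorphism of prime order p ≠ r that is not inner-diagonal (not induced by a similarity preserving the two classes of maximal totally singular subspaces). Then the largest normal subgroup of C_A(x) of order prime to p is nontrivial if and only if x is a field automorphism of K (conjugate under Aut(K) to a non-identity standard field automorphism) and p does not divide the number of fixed points of x on K. -/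
theorem result {F : Type*} [Field F] [Fintype F] {r : ℕ} [Fact r.Prime] [CharP F r] {m : ℕ} (hm : 4 ≤ m) (hK : IsSimpleGroup (Cfsg.POmega F (Cfsg.quadFormPlus m F))) (A : Subgroup (MulAut (Cfsg.POmega F (Cfsg.quadFormPlus m F)))) (hinn : ∀ k : Cfsg.POmega F (Cfsg.quadFormPlus m F), MulAut.conj k ∈ A) {p : ℕ} [Fact p.Prime] (hpr : p ≠ r) (x : MulAut (Cfsg.POmega F (Cfsg.quadFormPlus m F))) (hxA : x ∈ A) (hord : orderOf x = p) (hnot : ¬ Cfsg.IsInnerDiagonalAutPOmegaPlus m x) :
    Cfsg.pPrimeCore p ↥(A ⊓ Subgroup.centralizer {x}) ≠ ⊥ ↔ (Cfsg.IsFieldAutClassPOmega (Cfsg.quadFormPlus m F) x ∧ Nat.Coprime p (Nat.card ↥(MonoidHom.eqLocus x.toMonoidHom (MonoidHom.id (Cfsg.POmega F (Cfsg.quadFormPlus m F)))))) := by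
  exact H73.balance_plus hm A hinn hpr x hord hnot

end Cfsg.Agent.S2732
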