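import Cfsg.Statements.S2758
import Cfsg.Agent.H82.Involves

set_option autoImplicit false
open Cfsg

namespace Cfsg.Agent.S2758

open Cfsg.Agent.H82

/-- For an odd prime p and a finite group G the following are equivalent: the dihedral group of order 2p is involved in G; some element of 2-power order normalizes but does not centralize some p-subgroup of G; some element of 2-power order inverts some nonidentity element of p-power order. -/
theorem result {G : Type*} [Group G] [Finite G] {p : ℕ} [Fact p.Prime] (hp : p ≠ 2) : (Cfsg.Involves (DihedralGroup p) G ↔ ∃ (x : G) (P : Subgroup G), (∃ k : ℕ, orderOf x = 2 ^ k) ∧ IsPGroup p ↥P ∧ x ∈ Subgroup.normalizer (P : Set G) ∧ x ∉ Subgroup.centralizer (P : Set G)) ∧ (Cfsg.Involves (DihedralGroup p) G ↔ ∃ x y : G, (∃ k : ℕ, orderOf x = 2 ^ k) ∧ (∃ k : ℕ, orderOf y = p ^ k) ∧ y ≠ 1 ∧ x * y * x⁻¹ = y⁻¹) := by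
  have h1 : (∃ (x : G) (P : Subgroup G), (∃ k : ℕ, orderOf x = 2 ^ k) ∧ IsPGroup p ↥P ∧
      x ∈ Subgroup.normalizer (P : Set G) ∧ x ∉ Subgroup.centralizer (P : Set G)) →
      ∃ x y : G, (∃ k : ℕ, orderOf x = 2 ^ k) ∧ (∃ k : ℕ, orderOf y = p ^ k) ∧ y ≠ 1 ∧
        x * y * x⁻¹ = y⁻¹ := by
    rintro ⟨x, P, ⟨k, hk⟩, hP, hn, hc⟩
    have hx : x ^ 2 ^ k = 1 := by rw [← hk, pow_orderOf_eq_one]
    obtain ⟨j, y, hy, hy1, h⟩ := exists_inverts_of_not_centralizes hx hn hc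
    refine ⟨_, y, ?_, ?_, hy1, h⟩
    · have : orderOf (x ^ 2 ^ j) ∣ 2 ^ k := hk ▸ orderOf_pow_dvd _
      obtain ⟨i, -, hi⟩ := (Nat.dvd_prime_pow Nat.prime_two).1 this
      exact ⟨i, hi⟩
    · obtain ⟨i, hi⟩ := hP.exists_orderOf_eq_pow ⟨y, hy⟩
      exact ⟨i, by rw [← hi, ← Subgroup.orderOf_coe]⟩
  have h2 : (∃ x y : G, (∃ k : ℕ, orderOf x = 2 ^ k) ∧ (∃ k : ℕ, orderOf y = p ^ k) ∧ y ≠ 1 ∧
        x * y * x⁻¹ = y⁻¹) → Cfsg.Involves (DihedralGroup p) G := by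
    rintro ⟨x, y, ⟨k, hk⟩, ⟨l, hl⟩, hy1, h⟩
    refine involves_dihedral_of_inverts hp (k := k) (by rw [← hk, pow_orderOf_eq_one]) ?_ h
    rw [hl]
    refine dvd_pow_self p ?_
    rintro rfl
    exact hy1 (orderOf_eq_one_iff.1 hl)
  have h3 := exists_not_centralizes_of_involves_dihedral (G := G) hp
  exact ⟨⟨h3, fun h => h2 (h1 h)⟩, ⟨fun h => h1 (h3 h), h2⟩⟩

end Cfsg.Agent.S2758
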