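import Cfsg.Statements.S2773
import Cfsg.Agent.H54.PairTr

set_option autoImplicit false
universe u
open Cfsg

namespace Cfsg.Agent.S2773

/-- For every nontrivial finite 3-group S there is a nontrivial characteristic subgroup K of S such that, in every finite group G containing S as a Sylow 3-subgroup, S ∩ G' is the product of S ∩ (C_G(Z(S)))' and S ∩ (N_G(K))' (derived subgroups; product taken elementwise). -/
theorem result {S : Type u} [Group S] [Finite S] [Nontrivial S] (hS : IsPGroup 3 S) : ∃ K : Subgroup S, K ≠ ⊥ ∧ K.Characteristic ∧ ∀ (G : Type u) [Group G] [Finite G] (τ : S →* G), Function.Injective τ → (∃ P : Sylow 3 G, (P : Subgroup G) = τ.range) → ∀ g : G, g ∈ τ.range ⊓ commutator G ↔ ∃ a ∈ τ.range ⊓ ⁅Subgroup.centralizer ((τ.range ⊓ Subgroup.centralizer (τ.range : Set G) : Subgroup G) : Set G), Subgroup.centralizer ((τ.range ⊓ Subgroup.centralizer (τ.range : Set G) : Subgroup G) : Set G)⁆, ∃ b ∈ τ.range ⊓ ⁅Subgroup.normalizer ((K.map τ : Subgroup G) : Set G), Subgroup.normalizer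 ((K.map τ : Subgroup G) : Set G)⁆, g = a * b := by
  have hW := H54.isCharPFunctor_kFun.{u} (p := 3)
  refine ⟨H54.kFun 3 S, hW.1 S hS inferInstance,
    Subgroup.characteristic_iff_map_eq.2 fun φ => hW.2 S S hS φ, ?_⟩
  rintro G _ _ τ hτ ⟨P, hP⟩ g
  have h1 : H85.IsSyl 3 τ.range ⊤ := hP ▸ H85.isSyl_top P
  have h2 : (H54.kFun 3 S).map τ = inducedFunctor (H54.kFun 3) τ.range := by
    rw [inducedFunctor, ← hW.2 S τ.range hS (MonoidHom.ofInjective hτ), Subgroup.map_map]
    rfl
  rw [h2]
  constructor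
  · intro hg
    have h3 : τ.range ≤ Subgroup.normalizer ((Subgroup.centralizer ((H54.cen τ.range τ.range :
        Subgroup G) : Set G) : Subgroup G) : Set G) :=
      (Subgroup.le_centralizer_iff.1 inf_le_right).trans Subgroup.le_normalizer
    obtain ⟨a, ha, b, hb, e⟩ := (H85.mem_sup_of_le_normalizer (inf_le_left.trans
      (H85.le_normalizer_inf Subgroup.le_normalizer (H85.le_normalizer_commutator h3 h3)))).1
      (H54.inf_commutator_le_pair (by decide) h1 hg)
    exact ⟨a, ha, b, hb, e.symm⟩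
  · rintro ⟨a, ha, b, hb, rfl⟩
    exact ⟨mul_mem ha.1 hb.1, mul_mem (Subgroup.commutator_mono le_top le_top ha.2)
      (Subgroup.commutator_mono le_top le_top hb.2)⟩

end Cfsg.Agent.S2773
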