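import Cfsg.Statements.S2793
import Cfsg.Agent.H51.ZF5
import Cfsg.Agent.S2791

set_option autoImplicit false
open Cfsg

namespace Cfsg.Agent.S2793

/-- Let p be an odd prime, S a Sylow p-subgroup of the finite group G, J(S) the subgroup generated by the abelian subgroups of S of largest order, and suppose Z(J(S)) does not control strong fusion in G. Put H = N_G(Z(J(S))). Then the group F(p) of upper triangular 3 × 3 matrices (a b c; 0 a⁻¹ d; 0 0 1) over the field with p elements is involved in H, and Z(J(S)) contains a subgroup C of order p with |N_H(C) : C_H(C)| = p − 1. -/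
theorem result {G : Type*} [Group G] [Finite G] {p : ℕ} [Fact p.Prime] (hp : p ≠ 2) (S : Sylow p G) (h : ¬ Cfsg.ControlsStrongFusion p (Cfsg.centerThompsonAOf (S : Subgroup G))) (H : Subgroup G) (hH : H = Subgroup.normalizer ((Cfsg.centerThompsonAOf (S : Subgroup G)) : Set G)) : Cfsg.Involves ↥(Cfsg.fOver (ZMod p)) ↥H ∧ ∃ C : Subgroup G, C ≤ (Cfsg.centerThompsonAOf (S : Subgroup G)) ∧ Nat.card C = p ∧ (H ⊓ Subgroup.centralizer (C : Set G)).relIndex (H ⊓ Subgroup.normalizer (C : Set G)) = p - 1 := by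
  subst hH
  obtain ⟨l, hl⟩ := IsCyclic.exists_generator (α := (ZMod p)ˣ)
  have hc : IsMulCommutative (centerThompsonAOf (S : Subgroup G)) := by
    rw [H51.centerThompsonAOf_eq]; exact H51.centerThompsonOf_comm 0 _
  have hle : centerThompsonAOf (S : Subgroup G) ≤ S := by
    rw [H51.centerThompsonAOf_eq]; exact H51.centerThompsonOf_le 0 _
  have h1 := H51.ZF.out_of_not_sc hp l _ G rfl S (H83.isSylowIn_top S) (by
    rw [H51.sInf_maxEA_zero]
    exact fun hsc => h (S2791.result S _ hc hsc))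
  rw [H51.sInf_maxEA_zero] at h1
  obtain ⟨T, N, e, f, u, g, -, h2, h3, -, -, h6, h7, h8, h9, h10⟩ := h1
  obtain ⟨z, hz, k1, k2, k3⟩ := h10.exists_eigen hc (S.2.to_le hle) h6 h3
  exact ⟨h10.involves hp hl (h2 h7) (h2 h8) (h2 h9) h3, _, Subgroup.zpowers_le.mpr hz,
    H51.ZF.relIndex_eq hl k1 k2 h3 k3⟩

end Cfsg.Agent.S2793
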