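import Cfsg.Statements.S2898
import Cfsg.Agent.H83.Parab
import Cfsg.Agent.H3.Cores

set_option autoImplicit false
open Cfsg

namespace Cfsg.Agent.S2898

open Subgroup Cfsg.Agent.H83
open scoped commutatorElement

theorem inverts {G : Type*} [Group G] [Finite G] {O : Subgroup G} [hO : O.Normal] {z : G}
    (hz : z * z = 1) (h : ∀ x ∈ O, z * x = x * z → x = 1) {y : G} (hy : y ∈ O) :
    z * y * z⁻¹ = y⁻¹ := by
  let f : O → O := fun x => ⟨(x : G)⁻¹ * (z * x * z⁻¹), O.mul_mem (O.inv_mem x.2)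
    (hO.conj_mem _ x.2 z)⟩
  have hf : Function.Injective f := by
    intro a b hab
    have e : (a : G)⁻¹ * (z * a * z⁻¹) = (b : G)⁻¹ * (z * b * z⁻¹) := congrArg Subtype.val hab
    have := h ((b : G) * (a : G)⁻¹) (O.mul_mem b.2 (O.inv_mem a.2)) (by
      have e2 : (b : G) * (a : G)⁻¹ * (z * a * z⁻¹) = z * b * z⁻¹ := by
        rw [mul_assoc, e]; group
      calc z * ((b : G) * (a : G)⁻¹) = (z * b * z⁻¹) * (z * (a : G)⁻¹) := by group
        _ = (b : G) * (a : G)⁻¹ * (z * a * z⁻¹) * (z * (a : G)⁻¹) := by rw [e2]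
        _ = (b : G) * (a : G)⁻¹ * z := by group)
    exact Subtype.ext (mul_inv_eq_one.mp this).symm
  obtain ⟨x, hx⟩ := Finite.injective_iff_surjective.mp hf ⟨y, hy⟩
  have e : y = (x : G)⁻¹ * (z * x * z⁻¹) := (congrArg Subtype.val hx).symm
  have hz' : z⁻¹ = z := inv_eq_of_mul_eq_one_right hz
  rw [e, hz']
  calc z * ((x : G)⁻¹ * (z * x * z)) * z = z * (x : G)⁻¹ * z * x * (z * z) := by group
    _ = z⁻¹ * (x : G)⁻¹ * z⁻¹ * x := by rw [hz, hz', mul_one]
    _ = _ := by group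

/-- Let G be a finite group of even order with parabolic characteristic 2. If the centre of G ⧸ O(G) is trivial, then O(G) = 1. -/
theorem result {G : Type*} [Group G] [Finite G] (h2 : 2 ∣ Nat.card G) (hG : Cfsg.IsOfParabolicCharacteristic 2 G) [hN : (Cfsg.oddCore G).Normal] (hZ : Subgroup.center (G ⧸ Cfsg.oddCore G) = ⊥) : Cfsg.oddCore G = ⊥ := by
  haveI : Fact (Nat.Prime 2) := ⟨Nat.prime_two⟩
  set O := Cfsg.oddCore G with hO
  have hc : (Nat.card O).Coprime 2 := H3.pPrimeCore_coprime 2 G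
  obtain ⟨T, hT⟩ := exists_isSylowIn 2 (⊤ : Subgroup G)
  have key : ∀ z ∈ OZ 2 T, z ≠ 1 → ∀ x ∈ O, z * x = x * z → x = 1 := by
    intro z hz hz1 x hx hzx
    have h1 := parChar_cent hG hT (OZ_le _ hz) (OZ_le_cent _ hz) hz1
    refine h1.eq_one (mem_cent_singleton.mpr hzx) (coprime_orderOf_of_mem hc hx) ?_
    have h2 : ⁅pCoreOf 2 (centralizer ({z} : Set G)), O ⊓ centralizer ({z} : Set G)⁆ = ⊥ := by
      rw [eq_bot_iff, ← H3.inf_eq_bot_of_isPGroup_of_coprime
        (pCoreOf_isPGroup (centralizer ({z} : Set G))) hc]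
      refine le_inf (comm_le_left (inf_le_right.trans (le_norm_pCoreOf _))) ?_
      exact (commutator_mono le_rfl inf_le_left).trans (commutator_le_right _ _)
    exact comm_eq_bot_iff.mp h2 ⟨hx, mem_cent_singleton.mpr hzx⟩
  by_contra h0
  have hCc : (Nat.card (centralizer (O : Set G))).Coprime 2 := by
    by_contra hd
    have hd' : 2 ∣ Nat.card (centralizer (O : Set G)) := by
      by_contra h'
      exact hd ((Nat.prime_two.coprime_iff_not_dvd.mpr h').symm)
    have h1 := (hT.inf_normal (N := centralizer (O : Set G)) le_top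
      (le_norm_cent le_normalizer_of_normal)).ne_bot hd'
    have h2 := inf_OZ_ne_bot hT.isPGroup inf_le_left
      (le_norm_inf le_normalizer (le_norm_cent le_normalizer_of_normal)) h1
    obtain ⟨⟨z, ⟨hzT, hzc⟩, hz⟩, hz1⟩ := ne_bot_iff_exists_ne_one.mp h2
    apply h0
    rw [eq_bot_iff]
    intro x hx
    exact key z hz (fun e => hz1 (Subtype.ext e)) x hx (hzc x hx).symm
  have hCO : centralizer (O : Set G) ≤ O := H3.le_pPrimeCore hCc
  have hT0 : T ≠ ⊥ := hT.ne_bot (by simpa using h2)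
  obtain ⟨⟨z, hz⟩, hz1⟩ := ne_bot_iff_exists_ne_one.mp (OZ_ne_bot hT.isPGroup hT0)
  have hz1' : z ≠ 1 := fun e => hz1 (Subtype.ext e)
  have hzz : z * z = 1 := by rw [← pow_two]; exact (mem_OZ.mp hz).2.2
  have hinv := fun y (hy : y ∈ O) => inverts hzz (key z hz hz1') hy
  have hcen : ((z : G) : G ⧸ O) ∈ center (G ⧸ O) := by
    rw [mem_center_iff]
    intro g
    obtain ⟨g, rfl⟩ := QuotientGroup.mk_surjective g
    rw [← QuotientGroup.mk_mul, ← QuotientGroup.mk_mul, QuotientGroup.eq]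
    apply hCO
    intro y hy
    have e1 := hinv (g * y * g⁻¹) (hN.conj_mem _ hy g)
    have e2 := hinv y⁻¹ (O.inv_mem hy)
    have hz' : z⁻¹ = z := inv_eq_of_mul_eq_one_right hzz
    rw [inv_inv] at e2
    calc y * ((g * z)⁻¹ * (z * g)) = z * y⁻¹ * z⁻¹ * ((g * z)⁻¹ * (z * g)) := by rw [e2]
      _ = z * y⁻¹ * (z * z)⁻¹ * g⁻¹ * z * g := by group
      _ = z * g⁻¹ * (g * y * g⁻¹)⁻¹ * z * g := by rw [hzz]; group
      _ = z * g⁻¹ * (z * (g * y * g⁻¹) * z⁻¹) * z * g := by rw [e1]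
      _ = z * g⁻¹ * z * g * y := by group
      _ = z⁻¹ * g⁻¹ * z * g * y := by rw [hz']
      _ = (g * z)⁻¹ * (z * g) * y := by group
  rw [hZ, mem_bot, QuotientGroup.eq_one_iff] at hcen
  exact hz1' (eq_one_of_mem_pgroup hT.isPGroup (OZ_le _ hz) (coprime_orderOf_of_mem hc hcen))

end Cfsg.Agent.S2898
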