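import Cfsg.Statements.S2905
import Cfsg.Agent.H85.PMin2

set_option autoImplicit false
open Cfsg

namespace Cfsg.Agent.S2905

open Cfsg.Agent.H85 Subgroup

/-- Let P be a finite p-minimal group (a Sylow p-subgroup S is not normal and lies in a unique maximal subgroup M of P) and let F be the normal core of M. Then: every subnormal subgroup N of P contained in M satisfies N ∩ S ≤ O_p(P); if O^p(P) has a normal Sylow p-subgroup then the order of P has at most two prime divisors; every normal subgroup N of P either contains O^p(P) or is contained in F; and O^p(P)F ⧸ F is a minimal normal subgroup of P ⧸ F. -/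
theorem result {P : Type*} [Group P] [Finite P] {p : ℕ} [Fact p.Prime] (hP : Cfsg.IsPMinimal p P) (S : Sylow p P) (M : Subgroup P) (hM : IsCoatom M) (hSM : (S : Subgroup P) ≤ M) [hF : M.normalCore.Normal] : (∀ N : Subgroup P, N.IsSubnormal → N ≤ M → N ⊓ (S : Subgroup P) ≤ Cfsg.pCore p P) ∧ ((∀ T : Sylow p ↥(Cfsg.pResidual p P), (T : Subgroup ↥(Cfsg.pResidual p P)).Normal) → (Nat.card P).primeFactors.card ≤ 2) ∧ (∀ N : Subgroup P, N.Normal → Cfsg.pResidual p P ≤ N ∨ N ≤ M.normalCore) ∧ (∀ N : Subgroup P, N.Normal → M.normalCore ≤ N → N ≤ Cfsg.pResidual p P ⊔ M.normalCore → N = M.normalCore ∨ N = Cfsg.pResidual p P ⊔ M.normalCore) ∧ M.normalCore < Cfsg.pResidual p P ⊔ M.normalCore := by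
  have h := pmin_top_of_isPMinimal hP S hM hSM
  have hR := pResidual_normal p P
  have h3 : ∀ N : Subgroup P, N.Normal → pResidual p P ≤ N ∨ N ≤ M.normalCore := by
    intro N hN
    by_cases hNM : N ≤ M
    · exact Or.inr (normal_le_normalCore.2 hNM)
    · exact Or.inl ((resOf_top p).ge.trans (h.resOf_le_of_not_le le_top le_normalizer_of_normal hNM))
  refine ⟨fun N hN hNM => ?_, fun hc => ?_, h3, fun N hN h1 h2 => ?_, ?_⟩
  · rw [inf_comm, ← pCoreOf_top]
    exact h.inf_le_pCoreOf_of_snIn (H1.SnIn.of_isSubnormal hN) hNM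
  · obtain ⟨q, hq, Q, hQ, hle⟩ := h.exists_prime_of_isPClosed hc
    have : (Nat.card P).primeFactors ⊆ {p, q} := by
      intro r hr
      have hr' := Nat.prime_of_mem_primeFactors hr
      have := Fact.mk hr'
      obtain ⟨x, hx⟩ := exists_prime_orderOf_dvd_card' r (Nat.dvd_of_mem_primeFactors hr)
      by_contra hn
      simp only [Finset.mem_insert, Finset.mem_singleton, not_or] at hn
      have hp : (orderOf x).Coprime p := hx ▸ (Nat.coprime_primes hr' Fact.out).2 hn.1
      have hq' : (orderOf x).Coprime q := hx ▸ (Nat.coprime_primes hr' hq).2 hn.2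
      have h1 := (pquot_sup hQ le_normalizer_of_normal).mem (hle (mem_pResidual hp)) hq'
      have h2 := (pquot_bot_iff.2 (pCore_isPGroup p P)).mem h1 hp
      rw [mem_bot] at h2
      rw [h2, orderOf_one] at hx
      exact hr'.one_lt.ne hx
    exact (Finset.card_le_card this).trans Finset.card_le_two
  · rcases h3 N hN with h4 | h4
    · exact Or.inr (le_antisymm h2 (sup_le h4 h1))
    · exact Or.inl (le_antisymm h4 h1)
  · refine lt_of_le_of_ne le_sup_right fun h1 => h.not_resOf_le ?_
    rw [resOf_top]
    exact le_sup_left.trans (h1.ge.trans (normalCore_le M))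

end Cfsg.Agent.S2905
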