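import Cfsg.Statements.S2906
import Cfsg.Agent.H85.PMin3

set_option autoImplicit false
open Cfsg

namespace Cfsg.Agent.S2906

open Cfsg.Agent.H85 Subgroup

/-- Let P be a finite p-minimal group with O_p(P) = 1, S a Sylow p-subgroup of P and K a component of P. Then O^p(P) = F*(P) = E(P) is generated by the S-conjugates of K, and the subgroup K·N_S(K) is again p-minimal. -/
theorem result {P : Type*} [Group P] [Finite P] {p : ℕ} [Fact p.Prime] (hP : Cfsg.IsPMinimal p P) (hOp : Cfsg.pCore p P = ⊥) (S : Sylow p P) (K : Subgroup P) (hK : Cfsg.IsComponent K) : Cfsg.pResidual p P = Cfsg.generalizedFittingSubgroup P ∧ Cfsg.generalizedFittingSubgroup P = Cfsg.layer P ∧ Cfsg.layer P = ⨆ s : ↥(S : Subgroup P), K.map (MulAut.conj (s : P)).toMonoidHom ∧ Cfsg.IsPMinimal p ↥(K ⊔ ((S : Subgroup P) ⊓ Subgroup.normalizer (K : Set P))) := by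
  obtain ⟨M, h⟩ := (isPMinimal_iff_top S).1 hP
  have hKM := h.component_not_le hOp hK
  set X := ⨆ s : (S : Subgroup P), cj (s : P) K with hX
  have hXL : X ≤ layer P := iSup_le fun s => H52.IsComponent.le_layer (H52.IsComponent.conj hK _)
  have hRX : pResidual p P ≤ X := resOf_top (G := P) p ▸ h.resOf_le_of_invariant le_top
    (le_normalizer_iSup_cj _ _) fun h1 => hKM ((le_iSup_cj _ _).trans h1)
  have hLR : layer P = pResidual p P := le_antisymm layer_le_pResidual (hRX.trans hXL)
  have hF : generalizedFittingSubgroup P = layer P := by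
    refine le_antisymm (sup_le le_rfl ?_) H52.layer_le_fstar
    refine (H52.fitting_le_pCore_sup_pPrimeCore (p := p)).trans ?_
    rw [hOp, bot_sup_eq, hLR]
    exact pPrimeCore_le_pResidual
  refine ⟨by rw [hF, hLR], hF, le_antisymm (hLR ▸ hRX) hXL, ?_⟩
  have hLn := H52.layer_normal (G := P)
  set T := (S : Subgroup P) ⊓ normalizer (K : Set P) with hT
  have hSK : IsSyl p ((S : Subgroup P) ⊓ K) K := by
    have h1 := ((isSyl_top S).inf_of_le_normalizer (N := layer P) le_top
      le_normalizer_of_normal).inf_of_le_normalizer (H52.IsComponent.le_layer hK)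
      (H52.IsComponent.layer_le_normalizer hK)
    rwa [inf_assoc, inf_eq_right.2 (H52.IsComponent.le_layer hK)] at h1
  have hded : ∀ U : Subgroup P, T ≤ U → U ≤ K ⊔ T → U = T ⊔ (K ⊓ U) := fun U h1 h2 => by
    rw [← sup_inf_of_le_normalizer' inf_le_right h1, sup_comm, inf_eq_right.2 h2]
  have hTp : IsPGroup p T := S.isPGroup'.to_inf_left
  have hSKT : (S : Subgroup P) ⊓ K ≤ T := inf_le_inf_left _ le_normalizer
  have hsyl : IsSyl p T (K ⊔ T) := by
    refine ⟨le_sup_right, hTp, fun Q hQ h1 h2 => ?_⟩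
    rw [hded Q h1 h2, hSK.eq_of_le hQ.to_inf_right (le_inf inf_le_right (hSKT.trans h1)) inf_le_left,
      sup_eq_left.2 hSKT]
  refine (isPMinimal_coe_iff hsyl).2 ⟨M ⊓ (K ⊔ T), hsyl, fun hn => ?_,
    le_inf (inf_le_left.trans h.uniq.le) le_sup_right,
    lt_of_le_of_ne inf_le_right fun h1 => hKM (le_sup_left.trans (inf_eq_right.1 h1)),
    fun U hTU hU => le_inf ?_ hU.le⟩
  · have h1 : (S : Subgroup P) ⊓ K = ⊥ := by
      have h2 : (S : Subgroup P) ⊓ K = T ⊓ K := by
        rw [hT, inf_assoc, inf_eq_right.2 (le_normalizer : K ≤ _)]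
      rw [eq_bot_iff, ← hOp]
      refine (le_pCoreOf inf_le_right hSK.isPGroup ?_).trans ((pCoreOf_le_pCoreOf
        (H52.IsComponent.le_layer hK) (H52.IsComponent.layer_le_normalizer hK)).trans
          (pCoreOf_le_pCore _))
      rw [h2]
      exact le_normalizer_inf (le_sup_left.trans hn) le_normalizer
    rw [h1] at hSK
    have h2 : K ≤ pPrimeCore p P := H52.le_pPrimeCore_of_subnormal hK.1 hSK.coprime_of_eq_bot
    have := H52.pPrimeCore_characteristic (G := P) (p := p)
    have h3 : pResidual p P ≤ pPrimeCore p P := hRX.trans (iSup_cj_le h2 le_normalizer_of_normal)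
    have := pResidual_normal p P
    obtain ⟨q, hq, Q, hQ, h4⟩ := h.exists_prime_of_isPClosed (isPClosed_normal_iff.2 fun Q h5 h6 => by
      rw [eq_bot_of_le_of_coprime h6 (h5.trans h3) H52.coprime_card_pPrimeCore]; exact bot_le)
    rw [hOp, bot_sup_eq] at h4
    have := Fact.mk hq
    exact H52.IsComponent.not_le_of_isPGroup hK hQ ((le_pResidual_of_isQuasisimple hK.2).trans h4)
  · rw [hded U hTU hU.le]
    refine sup_le (inf_le_left.trans h.uniq.le) ((le_iSup_cj (S : Subgroup P) _).trans ?_)
    by_contra h1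
    have h2 := h.resOf_le_of_invariant le_top (le_normalizer_iSup_cj _ _) h1
    rw [resOf_top] at h2
    refine hU.not_ge (sup_le (le_trans (le_of_le_sup_centralizer (H52.IsComponent.commutator_self hK)
      inf_le_left ((le_pResidual_of_isQuasisimple hK.2).trans (h2.trans (iSup_le fun s => ?_))))
      inf_le_right) hTU)
    rcases H52.IsComponent.mem_normalizer_or_commutator_conj_eq_bot hK s with h3 | h3
    · refine le_sup_of_le_left (cj_eq_of_mem_normalizer ?_).le
      exact le_normalizer_inf inf_le_right (hTU.trans le_normalizer) (⟨s.2, h3⟩ : (s : P) ∈ T)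
    · exact le_sup_of_le_right ((cj_mono _ inf_le_left).trans
        (commutator_eq_bot_iff_le_centralizer'.1 h3))

end Cfsg.Agent.S2906
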