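import Cfsg.Statements.S2907
import Cfsg.Agent.H7.Pairing

set_option autoImplicit false
open Cfsg

namespace Cfsg.Agent.S2907

open scoped commutatorElement

/-- Let X be a finite semi-extraspecial p-group and x an element of X outside the centre. Then the index of C_X(x) in X equals the order of Z(X), and the commutators [x, y], y ∈ X, form exactly the centre Z(X). -/
theorem result {X : Type*} [Group X] [Finite X] {p : ℕ} [Fact p.Prime] (hX : Cfsg.IsSemiExtraspecial p X) (x : X) (hx : x ∉ Subgroup.center X) : (Subgroup.centralizer ({x} : Set X)).index = Nat.card ↥(Subgroup.center X) ∧ {z : X | ∃ y : X, z = x * y * x⁻¹ * y⁻¹} = (Subgroup.center X : Set X) := by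
  have hsp := hX.1
  have hcl := H7.IsSpecial.class2 hsp
  let f : X →* X :=
    { toFun := fun y => ⁅x, y⁆
      map_one' := by simp
      map_mul' := fun y z => H7.comm_mul_right (H7.commute_comm_of_class2 hcl _ _ _) }
  have hker : f.ker = Subgroup.centralizer ({x} : Set X) := by
    ext y
    rw [MonoidHom.mem_ker, Subgroup.mem_centralizer_singleton_iff]
    exact (commutatorElement_eq_one_iff_mul_comm (g₁ := x) (g₂ := y)).trans eq_comm
  have hle : f.range ≤ Subgroup.center X := by
    rintro _ ⟨y, rfl⟩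
    exact H7.IsSpecial.comm_mem_center hsp x y
  have hr : f.range = Subgroup.center X := by
    by_contra hne
    have h1 : f.range.subgroupOf (Subgroup.center X) ≠ ⊤ := by
      rw [Ne, Subgroup.subgroupOf_eq_top]
      exact fun h => hne (le_antisymm hle h)
    obtain ⟨Y₀, hY₀, hle₀⟩ := (eq_top_or_exists_le_coatom _).resolve_left h1
    have hY : (Y₀.map (Subgroup.center X).subtype).subgroupOf (Subgroup.center X) = Y₀ :=
      Subgroup.comap_map_eq_self_of_injective (Subgroup.subtype_injective _) _
    obtain ⟨hn, he⟩ := hX.2 (Y₀.map (Subgroup.center X).subtype) (Subgroup.map_subtype_le _)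
      (by rwa [hY])
    set Y := Y₀.map (Subgroup.center X).subtype with hYdef
    have hrY : f.range ≤ Y := fun z hz => ⟨⟨z, hle hz⟩, hle₀ hz, rfl⟩
    have hxc : (x : X ⧸ Y) ∈ Subgroup.center (X ⧸ Y) := by
      rw [Subgroup.mem_center_iff]
      intro g
      obtain ⟨g, rfl⟩ := QuotientGroup.mk_surjective g
      rw [eq_comm, ← commutatorElement_eq_one_iff_mul_comm]
      exact (QuotientGroup.eq_one_iff _).mpr (hrY ⟨g, rfl⟩)
    have hZ : (Subgroup.center X).map (QuotientGroup.mk' Y) ≤ Subgroup.center (X ⧸ Y) := by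
      rintro _ ⟨z, hz, rfl⟩
      rw [Subgroup.mem_center_iff]
      intro g
      obtain ⟨g, rfl⟩ := QuotientGroup.mk_surjective g
      exact congrArg (QuotientGroup.mk' Y) (Subgroup.mem_center_iff.mp hz g)
    have hZe : (Subgroup.center X).map (QuotientGroup.mk' Y) = Subgroup.center (X ⧸ Y) := by
      refine Subgroup.eq_of_le_of_card_ge hZ ?_
      have hd := Subgroup.card_dvd_of_le hZ
      rw [he.2] at hd ⊢
      rcases (Nat.dvd_prime Fact.out).mp hd with h | h
      · exfalso
        rw [Subgroup.card_eq_one, Subgroup.map_eq_bot_iff, QuotientGroup.ker_mk'] at h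
        exact hY₀.1 (by rw [← hY, Subgroup.subgroupOf_eq_top]; exact h)
      · exact h.ge
    rw [← hZe] at hxc
    obtain ⟨z, hz, hzx⟩ := hxc
    have h2 : z⁻¹ * x ∈ Y := QuotientGroup.eq.mp hzx
    have h3 := mul_mem hz (Subgroup.map_subtype_le _ h2)
    rw [mul_inv_cancel_left] at h3
    exact hx h3
  refine ⟨by rw [← hker, Subgroup.index_ker, hr], ?_⟩
  rw [← hr]
  ext z
  exact ⟨fun ⟨y, hy⟩ => ⟨y, hy.symm⟩, fun ⟨y, hy⟩ => ⟨y, hy.symm⟩⟩

end Cfsg.Agent.S2907
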