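import Cfsg.Statements.S2908
import Cfsg.Agent.H4.CoprimeAction
import Cfsg.Agent.H53.Basic

set_option autoImplicit false
open Cfsg

namespace Cfsg.Agent.S2908

open Subgroup
open scoped commutatorElement

/-- Let P be a p-subgroup of a finite group, normalized by a p-subgroup A and by a subgroup B of order prime to p that commutes elementwise with A. If [P, B] ≤ [P, A], then B centralizes P. -/
theorem result {G : Type*} [Group G] [Finite G] {p : ℕ} [Fact p.Prime] (P A B : Subgroup G) (hP : IsPGroup p ↥P) (hA : IsPGroup p ↥A) (hB : ¬ p ∣ Nat.card ↥B) (hnA : A ≤ Subgroup.normalizer (P : Set G)) (hnB : B ≤ Subgroup.normalizer (P : Set G)) (hAB : ⁅A, B⁆ = ⊥) (hcomm : ⁅P, B⁆ ≤ ⁅P, A⁆) : ⁅P, B⁆ = ⊥ := by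
  have hcop : (Nat.card B).Coprime (Nat.card P) :=
    H4.coprime_card_of_isPGroup ((Nat.Prime.coprime_iff_not_dvd Fact.out).mpr hB).symm hP
  have hsolv : Group.IsSolvable B ∨ Group.IsSolvable P := Or.inr (H4.isSolvable_of_isPGroup hP)
  have hAC : A ≤ centralizer (B : Set G) := commutator_eq_bot_iff_le_centralizer.mp hAB
  have hBC : B ≤ centralizer (A : Set G) := le_centralizer_iff.mp hAC
  set Q := ⁅P, B⁆ with hQ
  have hQP : Q ≤ P := H4.commutator_le_left_of_le_normalizer hnB
  have hPQ : P ≤ normalizer (Q : Set G) := normalizer_commutator_ge_left _ _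
  have hAQ : A ≤ normalizer (Q : Set G) :=
    H4.le_normalizer_commutator hnA (hAC.trans (centralizer_le_normalizer _))
  have hBQ : B ≤ normalizer (Q : Set G) := normalizer_commutator_ge_right _ _
  have hPAQ : P ⊔ A ≤ normalizer (Q : Set G) := sup_le hPQ hAQ
  set N := ⁅Q, P ⊔ A⁆ with hN
  have hNn : P ⊔ A ≤ normalizer (N : Set G) := normalizer_commutator_ge_right _ _
  have hBN : B ≤ normalizer (N : Set G) :=
    H4.le_normalizer_commutator hBQ
      (H4.le_normalizer_sup hnB (hBC.trans (centralizer_le_normalizer _)))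
  set C := P ⊓ centralizer (B : Set G) with hC
  have hCN : C ≤ normalizer (N : Set G) := (inf_le_left.trans le_sup_left).trans hNn
  have hAC' : A ≤ normalizer (C : Set G) :=
    H4.le_normalizer_inf hnA (H4.le_normalizer_centralizer (hAC.trans (centralizer_le_normalizer _)))
  have h1 : ⁅P, A⁆ ≤ N ⊔ C := by
    rw [commutator_le]
    intro x hx a ha
    obtain ⟨q, hq, c, hc, rfl⟩ := H4.exists_commutator_mul_centralizer hnB hcop hsolv hx
    have hca : ⁅c, a⁆ ∈ C := H53.commutatorElement_mem_of_mem_normalizer hc (hAC' ha)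
    have e : ⁅q * c, a⁆ = ⁅q, ⁅c, a⁆⁆ * ⁅c, a⁆ * ⁅q, a⁆ := by
      simp only [commutatorElement_def]; group
    rw [e]
    refine mul_mem (mul_mem (mem_sup_left ?_) (mem_sup_right hca)) (mem_sup_left ?_)
    · exact commutator_mem_commutator hq (mem_sup_left hca.1)
    · exact commutator_mem_commutator hq (mem_sup_right ha)
  have h2 : ⁅Q, B⁆ ≤ N := by
    refine le_trans (H4.commutator_le_of_mul_centralizer (N := N) ?_)
      (H4.commutator_le_left_of_le_normalizer hBN)
    intro k hk
    obtain ⟨n, hn, c, hc, rfl⟩ := (H4.mem_sup_iff_of_le_normalizer hCN).mp (h1 (hcomm hk))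
    exact ⟨n, hn, c, hc.2, rfl⟩
  have h3 : ⁅Q, B⁆ = Q := H4.commutator_commutator_eq hnB hcop hsolv
  have hPA : IsPGroup p (P ⊔ A : Subgroup G) := by
    exact IsPGroup.to_sup_of_normal_left' hP hA hnA
  exact H53.eq_bot_of_le_commutator_of_isPGroup (hP.to_le hQP) hPA hPAQ (h3.symm.le.trans h2)

end Cfsg.Agent.S2908
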