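import Cfsg.Statements.S2909
import Cfsg.Agent.H4.CoprimeGen
import Cfsg.Agent.H53.Basic
import Cfsg.Agent.S2908

set_option autoImplicit false
open Cfsg

namespace Cfsg.Agent.S2909

open Subgroup
open scoped commutatorElement

/-- Let p be a prime, E a normal p-subgroup of the finite group G, and U a non-cyclic elementary abelian p-subgroup of G such that either C_E(U) = C_E(u) for every nontrivial u ∈ U, or [E, U] = [E, ⟨u⟩] for every nontrivial u ∈ U. If R is a subgroup of order prime to p normalized by U, then [R, U] centralizes E. -/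
theorem result {G : Type*} [Group G] [Finite G] {p : ℕ} [Fact p.Prime] (E : Subgroup G) [E.Normal] (hE : IsPGroup p ↥E) (U : Subgroup G) (hU : Cfsg.IsElementaryAbelian p U) (hnc : ¬ IsCyclic ↥U) (hcond : (∀ u ∈ U, u ≠ 1 → E ⊓ Subgroup.centralizer (U : Set G) = E ⊓ Subgroup.centralizer ({u} : Set G)) ∨ (∀ u ∈ U, u ≠ 1 → ⁅E, U⁆ = ⁅E, Subgroup.zpowers u⁆)) (R : Subgroup G) (hR : ¬ p ∣ Nat.card ↥R) (hRU : U ≤ Subgroup.normalizer (R : Set G)) : ⁅R, U⁆ ≤ Subgroup.centralizer (E : Set G) := by
  haveI hUc : IsMulCommutative U := hU.1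
  have hUp : IsPGroup p U := H53.isPGroup_of_elemAb hU
  have hcopR : (Nat.card R).Coprime p := ((Nat.Prime.coprime_iff_not_dvd Fact.out).mpr hR).symm
  have hcop : (Nat.card U).Coprime (Nat.card R) := (H4.coprime_card_of_isPGroup hcopR hUp).symm
  have hEn : ∀ H : Subgroup G, H ≤ normalizer (E : Set G) := fun H => by
    rw [normalizer_eq_top]; exact le_top
  -- local step
  have key : ∀ u ∈ U, u ≠ 1 → ⁅R ⊓ centralizer ({u} : Set G), U⁆ ≤ centralizer (E : Set G) := by
    intro u hu hu1
    set B := R ⊓ centralizer ({u} : Set G) with hB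
    have hUu : U ≤ centralizer ({u} : Set G) := fun v hv => by
      rw [mem_centralizer_singleton_iff]; exact H53.comm_of_mem hUc hv hu
    have hUB : U ≤ normalizer (B : Set G) :=
      H4.le_normalizer_inf hRU (hUu.trans le_normalizer)
    set X := ⁅B, U⁆ with hX
    have hXB : X ≤ B := H4.commutator_le_left_of_le_normalizer hUB
    have hXcop : (Nat.card X).Coprime p :=
      Nat.Coprime.coprime_dvd_left (card_dvd_of_le (hXB.trans inf_le_left)) hcopR
    have hzu : IsPGroup p (zpowers u) := hUp.to_le (zpowers_le_of_mem hu)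
    have hzX : zpowers u ≤ centralizer (X : Set G) := by
      rw [zpowers_le, mem_centralizer_iff]
      intro x hx
      exact mem_centralizer_singleton_iff.mp (hXB hx).2
    have hcz : centralizer ((zpowers u : Subgroup G) : Set G) = centralizer ({u} : Set G) := by
      ext x; rw [H53.mem_centralizer_zpowers, mem_centralizer_singleton_iff, eq_comm]
    rcases hcond with h | h
    · have h := h u hu hu1
      rw [← le_centralizer_iff]
      refine H4.thompson_p_times_q hzu hXcop hE hzX (hEn _) (hEn _) ?_
      rw [hcz, le_centralizer_iff]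
      have h1 : U ≤ centralizer ((E ⊓ centralizer ({u} : Set G) : Subgroup G) : Set G) := by
        rw [← h, le_centralizer_iff]; exact inf_le_right
      have h2 : B ≤ normalizer ((centralizer ((E ⊓ centralizer ({u} : Set G) : Subgroup G) : Set G) :
          Subgroup G) : Set G) :=
        H4.le_normalizer_centralizer (H4.le_normalizer_inf (hEn _) (inf_le_right.trans le_normalizer))
      rw [hX, commutator_comm]
      exact (commutator_mono h1 le_rfl).trans (H4.commutator_le_left_of_le_normalizer h2)
    · have h := h u hu hu1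
      rw [← le_centralizer_iff, ← commutator_eq_bot_iff_le_centralizer]
      refine S2908.result E (zpowers u) X hE hzu ((Nat.Prime.coprime_iff_not_dvd Fact.out).mp hXcop.symm)
        (hEn _) (hEn _) (commutator_eq_bot_iff_le_centralizer.mpr hzX) ?_
      have hFE : ⁅E, zpowers u⁆ ≤ E := H4.commutator_le_left_of_le_normalizer (hEn _)
      have hBF : B ≤ normalizer ((⁅E, zpowers u⁆ : Subgroup G) : Set G) :=
        H4.le_normalizer_commutator (hEn _) (by
          rw [← hcz] at hB; rw [hB]; exact inf_le_right.trans (centralizer_le_normalizer _))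
      have hUS : U ≤ H53.commStab E ⁅E, zpowers u⁆ hFE := H53.le_commStab (hEn _) h.le
      refine H53.commutator_le_of_le_commStab (hWV := hFE) ?_
      rw [hX, commutator_le]
      intro b hb v hv
      rw [commutatorElement_def, mul_assoc (b * v), ← mul_assoc (b * v)]
      refine mul_mem ?_ (inv_mem (hUS hv))
      refine H53.mem_commStab.mpr ⟨hEn ⊤ (mem_top _), fun e he => ?_⟩
      have e1 : ⁅e, b * v * b⁻¹⁆ = b * ⁅b⁻¹ * e * b, v⁆ * b⁻¹ := by
        simp only [commutatorElement_def]; group
      rw [e1]
      refine H53.conj_mem_of_mem_normalizer (hBF hb) ?_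
      exact (H53.mem_commStab.mp (hUS hv)).2 _ (H53.conj_inv_mem_of_mem_normalizer (hEn ⊤ (mem_top _)) he)
  set C := centralizer (E : Set G) with hC
  let H : Subgroup G := (centralizer ((U.map (QuotientGroup.mk' C) : Subgroup _) : Set (G ⧸ C))).comap
    (QuotientGroup.mk' C)
  have hH : ∀ g, g ∈ H ↔ ∀ v ∈ U, ⁅g, v⁆ ∈ C := by
    intro g
    simp only [H, mem_comap, mem_centralizer_iff]
    constructor
    · intro h v hv
      have := h _ (mem_map_of_mem _ hv)
      rw [← QuotientGroup.eq_one_iff, ← QuotientGroup.mk'_apply, map_commutatorElement,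
        commutatorElement_eq_one_iff_mul_comm]
      exact this.symm
    · rintro h _ ⟨v, hv, rfl⟩
      have := h v hv
      rw [← QuotientGroup.eq_one_iff, ← QuotientGroup.mk'_apply, map_commutatorElement,
        commutatorElement_eq_one_iff_mul_comm] at this
      exact this.symm
  have hRH : R ≤ H := by
    refine H4.le_of_centralizer_singleton_le hnc hRU hcop fun a ha ha1 g hg => ?_
    rw [hH]
    intro v hv
    exact key a ha ha1 (commutator_mem_commutator hg hv)
  rw [commutator_le]
  intro r hr v hv
  exact (hH r).mp (hRH hr) v hv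

end Cfsg.Agent.S2909
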