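import Cfsg.Statements.S2911
import Cfsg.Agent.H82.Extremal

set_option autoImplicit false
open Cfsg

namespace Cfsg.Agent.S2911

open Subgroup

/-- A finite group whose Sylow 2-subgroups are isomorphic to the direct product of a group of order 2 and a dihedral group of order 8 has a subgroup of index two. -/
theorem result {G : Type*} [Group G] [Finite G] (S : Sylow 2 G) (hS : Nonempty (↥(S : Subgroup G) ≃* Multiplicative (ZMod 2) × DihedralGroup 4)) : ∃ H : Subgroup G, H.index = 2 := by
  obtain ⟨e⟩ := hS
  let φ : (S : Subgroup G) →* Multiplicative (ZMod 2) := (MonoidHom.fst _ _).comp e.toMonoidHom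
  let z : (S : Subgroup G) := e.symm (Multiplicative.ofAdd 1, 1)
  have hzz : (z : G) * z = 1 := by
    have : z * z = 1 := by
      rw [← map_mul, ← map_one e.symm]; congr 1
    exact_mod_cast congrArg Subtype.val this
  by_cases hV : MonoidHom.transfer φ (z : G) = 1
  · exfalso
    obtain ⟨g, h, h1, -, h2⟩ := H82.exists_extremal_conj S φ (τ := Multiplicative.ofAdd 1)
      (by decide) (by decide) (by decide) hzz hV
    have hzc : (S : Subgroup G) ⊓ centralizer {(z : G)} = S := by
      refine inf_eq_left.mpr fun s hs => mem_centralizer_singleton_iff.mpr ?_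
      have : (⟨s, hs⟩ : (S : Subgroup G)) * z = z * ⟨s, hs⟩ := by
        apply e.injective
        simp only [z, map_mul, MulEquiv.apply_symm_apply]
        ext
        · simp [mul_comm]
        · simp
      exact congrArg Subtype.val this
    rw [hzc] at h2
    have h3 : (S : Subgroup G).map (MulAut.conj g).toMonoidHom = S := by
      apply eq_of_le_of_card_ge (h2.trans inf_le_left)
      rw [card_map_of_injective (MulAut.conj g).injective]
    rw [h3] at h2
    set w : (S : Subgroup G) := ⟨_, h⟩ with hw
    have hwc : ∀ s : (S : Subgroup G), s * w = w * s := fun s =>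
      Subtype.ext (mem_centralizer_singleton_iff.mp (h2 s.2).2)
    have hw1 : w ≠ 1 := by
      intro h0
      have h0' : g * z * g⁻¹ = 1 := congrArg Subtype.val h0
      have : (z : G) = 1 := by simpa using h0'
      have hz1 : z = 1 := Subtype.ext this
      have := congrArg e hz1
      simp only [z, MulEquiv.apply_symm_apply, map_one] at this
      exact absurd this (by decide)
    have key : ∀ x : Multiplicative (ZMod 2) × DihedralGroup 4, x.1 = 1 → x ≠ 1 →
        (∀ y, y * x = x * y) → x = (1, DihedralGroup.r 1) * (1, DihedralGroup.r 1) := by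
      rintro ⟨a, d⟩ ha hd hc
      dsimp only at ha
      subst ha
      have h1 : d ≠ 1 := fun h => hd (by rw [h]; rfl)
      have h2 : ∀ y : DihedralGroup 4, y * d = d * y := fun y => congrArg Prod.snd (hc (1, y))
      have h3 : d = DihedralGroup.r 1 * DihedralGroup.r 1 := by
        revert d
        decide
      rw [h3]; rfl
    have hew := key (e w) h1 (by simpa using hw1) (fun y => by
      have := congrArg e (hwc (e.symm y))
      simpa using this)
    have hs0 : ((e.symm (1, DihedralGroup.r 1) : (S : Subgroup G)) : G) ∈
        (S : Subgroup G).map (MulAut.conj g).toMonoidHom := by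
      rw [h3]; exact Subtype.property _
    obtain ⟨s, hs, hs1⟩ := hs0
    have hws : w = e.symm (1, DihedralGroup.r 1) * e.symm (1, DihedralGroup.r 1) := by
      rw [← map_mul, ← hew, MulEquiv.symm_apply_apply]
    have hzs : z = ⟨s, hs⟩ * ⟨s, hs⟩ := by
      apply Subtype.ext
      have h4 : g * z * g⁻¹ = _ * _ := congrArg Subtype.val hws
      rw [← hs1] at h4
      change g * z * g⁻¹ = g * s * g⁻¹ * (g * s * g⁻¹) at h4
      calc (z : G) = g⁻¹ * (g * z * g⁻¹) * g := by group
        _ = s * s := by rw [h4]; group
    have := congrArg (fun x => (e x).1) hzs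
    simp only [z, MulEquiv.apply_symm_apply, map_mul, Prod.fst_mul] at this
    revert this
    generalize (e ⟨s, hs⟩).1 = a
    revert a
    decide
  · refine ⟨(MonoidHom.transfer φ).ker, ?_⟩
    rw [index_ker]
    have : (MonoidHom.transfer φ).range = ⊤ := by
      rw [eq_top_iff]
      rintro u -
      by_cases hu : u = 1
      · rw [hu]; exact one_mem _
      · refine ⟨z, ?_⟩
        revert hV hu
        generalize MonoidHom.transfer φ (z : G) = a
        revert a u
        decide
    rw [this, card_top]
    simp

end Cfsg.Agent.S2911
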