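import Cfsg.Statements.S2912
import Cfsg.Agent.H88.ExtraMod

set_option autoImplicit false
open Cfsg

namespace Cfsg.Agent.S2912

set_option linter.style.haveILetI false

theorem red {V Γ : Type*} [AddCommGroup V] [Finite V] [Group Γ] [Finite Γ]
    (ρ : Representation ℤ Γ V) (hc : commutator Γ ≤ Subgroup.center Γ) (B : Submodule ℤ V)
    (hB : B ≠ ⊥) (hBi : ∀ g, ∀ x ∈ B, ρ g x ∈ B)
    (hf : ∀ z ∈ Subgroup.center Γ, ∀ x ∈ B, x ≠ 0 → ρ z x = x → z = 1) :
    ∃ q d : ℕ, 1 < q ∧ q ^ d ∣ Nat.card V ∧ (Subgroup.center Γ).index ≤ d ^ 2 ∧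
      ∀ z ∈ Subgroup.center Γ, orderOf z ∣ q - 1 := by
  haveI : Finite (Submodule ℤ V) :=
    Finite.of_injective (fun U : Submodule ℤ V => (U : Set V)) SetLike.coe_injective
  obtain ⟨W, ⟨hW0, hWB, hWi⟩, hmin⟩ := exists_minimal_of_wellFoundedLT
    (fun U : Submodule ℤ V => U ≠ ⊥ ∧ U ≤ B ∧ ∀ g, ∀ x ∈ U, ρ g x ∈ U) ⟨B, hB, le_rfl, hBi⟩
  haveI : Nontrivial W := Submodule.nontrivial_iff_ne_bot.mpr hW0
  obtain ⟨q, d, h1, h2, h3, h4⟩ := H88.irr_bound (ρ.subrepresentation W (fun g x hx => hWi g x hx))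
    hc (fun z hz h => by
      obtain ⟨x, hx⟩ := exists_ne (0 : W)
      refine hf z hz x (hWB x.2) (fun h0 => hx (Subtype.ext h0)) ?_
      exact congrArg (fun e : W →ₗ[ℤ] W => ((e x : W) : V)) h) (fun U hU => by
      by_cases h0 : U = ⊥
      · exact Or.inl h0
      · right
        have h5 : W ≤ U.map W.subtype := hmin ⟨fun h => h0 (by
          rw [eq_bot_iff]
          intro x hx
          have : W.subtype x ∈ U.map W.subtype := ⟨x, hx, rfl⟩
          rw [h] at this
          exact Subtype.ext this),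
          (Submodule.map_subtype_le W U).trans hWB, by
            rintro g _ ⟨x, hx, rfl⟩
            exact ⟨_, hU g x hx, rfl⟩⟩ (Submodule.map_subtype_le W U)
        rw [eq_top_iff]
        intro x _
        obtain ⟨y, hy, hxy⟩ := h5 x.2
        have : y = x := Subtype.ext hxy
        exact this ▸ hy)
  refine ⟨q, d, h1, ?_, h3, h4⟩
  rw [← h2]
  exact AddSubgroup.card_addSubgroup_dvd_card W.toAddSubgroup

/-- Let p and r be distinct primes, let E be an extraspecial subgroup of order p^(2w+1) of a finite group, and let A be an elementary abelian r-subgroup normalized by E on which E acts faithfully (C_E(A) = 1). If n ≥ 1 is least with p dividing rⁿ − 1 (the smallest dimension of a faithful representation of a group of order p over the field with r elements), then the order of A is at least r^(n·p^w). -/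
theorem result {G : Type*} [Group G] [Finite G] {p r : ℕ} [Fact p.Prime] [hr : Fact r.Prime] (hpr : p ≠ r) (E A : Subgroup G) (w : ℕ) (hE : Cfsg.IsExtraspecial p ↥E) (hEcard : Nat.card ↥E = p ^ (2 * w + 1)) (hA : Cfsg.IsElementaryAbelian r A) (hnorm : E ≤ Subgroup.normalizer (A : Set G)) (hfaith : E ⊓ Subgroup.centralizer (A : Set G) = ⊥) (n : ℕ) (hn : 1 ≤ n) (hdiv : p ∣ r ^ n - 1) (hmin : ∀ k : ℕ, 1 ≤ k → p ∣ r ^ k - 1 → n ≤ k) : r ^ (n * p ^ w) ≤ Nat.card ↥A := by
  classical
  have hp : p.Prime := Fact.out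
  haveI := hA.1
  letI : CommGroup A := IsMulCommutative.instCommGroup
  let φ : E →* MulAut A := A.normalizerMonoidHom.comp (Subgroup.inclusion hnorm)
  have hφ : ∀ (g : E) (a : A), ((φ g a : A) : G) = g * a * (g : G)⁻¹ := fun g a => rfl
  let ρ : Representation ℤ E (Additive A) :=
    { toFun := fun g => (MonoidHom.toAdditive (φ g).toMonoidHom).toIntLinearMap
      map_one' := by ext; simp
      map_mul' := fun g h => by ext; simp }
  have hρ : ∀ (g : E) (a : Additive A), ρ g a = Additive.ofMul (φ g a.toMul) := fun g a => rfl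
  obtain ⟨⟨-, -, hcomm⟩, hZ⟩ := hE
  haveI : Nontrivial (Subgroup.center E) := Finite.one_lt_card_iff_nontrivial.mp (hZ ▸ hp.one_lt)
  obtain ⟨⟨z, hz⟩, hz1⟩ := exists_ne (1 : Subgroup.center E)
  have hz1' : z ≠ 1 := fun h => hz1 (Subtype.ext h)
  have hord : ∀ y ∈ Subgroup.center E, y ≠ 1 → orderOf y = p := by
    intro y hy hy1
    have h1 : orderOf y ∣ p := hZ ▸ (Subgroup.center E).orderOf_dvd_natCard hy
    exact ((Nat.dvd_prime hp).mp h1).resolve_left (fun h => hy1 (orderOf_eq_one_iff.mp h))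
  have hzp : z ^ p = 1 := hord z hz hz1' ▸ pow_orderOf_eq_one z
  let N : Module.End ℤ (Additive A) := ∑ i ∈ Finset.range p, ρ z ^ i
  have hNc : ∀ g, ρ g * N = N * ρ g := by
    intro g
    have : Commute (ρ g) (ρ z) := by
      rw [Commute, SemiconjBy, ← map_mul, ← map_mul, Subgroup.mem_center_iff.mp hz g]
    exact (Commute.sum_right _ _ _ fun i _ => this.pow_right i)
  have hrA : ∀ x : Additive A, r • x = 0 := fun x => by
    have := hA.2 _ x.toMul.2
    apply Additive.toMul.injective
    apply Subtype.ext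
    simpa using this
  obtain ⟨q, d, h1, h2, h3, h4⟩ := red ρ hcomm.le (LinearMap.ker N) (by
      intro h
      have h5 : ∀ x, ρ z x = x := by
        intro x
        have h6 : (ρ z - 1) x ∈ LinearMap.ker N := by
          rw [LinearMap.mem_ker, ← Module.End.mul_apply, geom_sum_mul, ← map_pow, hzp]
          simp
        rw [h] at h6
        simpa [sub_eq_zero] using h6
      have h7 : (z : G) ∈ E ⊓ Subgroup.centralizer (A : Set G) := by
        refine Subgroup.mem_inf.mpr ⟨z.2, ?_⟩
        rw [Subgroup.mem_centralizer_iff]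
        intro a ha
        have h8 := congrArg (fun x : Additive A => ((x.toMul : A) : G))
          (h5 (Additive.ofMul ⟨a, ha⟩))
        simp only [hρ, toMul_ofMul, hφ] at h8
        calc a * z = (z * a * (z : G)⁻¹) * z := by rw [h8]
          _ = z * a := by group
      rw [hfaith] at h7
      exact hz1' (Subtype.ext h7))
    (fun g x hx => by
      rw [LinearMap.mem_ker] at hx ⊢
      rw [← Module.End.mul_apply, ← hNc, Module.End.mul_apply, hx, map_zero])
    (fun y hy x hx hx0 hyx => by
      by_contra hy1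
      have hzy : z ∈ Subgroup.zpowers y := by
        have : Subgroup.zpowers y = Subgroup.center E :=
          Subgroup.eq_of_le_of_card_ge (Subgroup.zpowers_le.mpr hy)
            (by rw [Nat.card_zpowers, hord y hy hy1, hZ])
        rwa [this]
      have hpw : ∀ (u : E), ρ u x = x → ∀ i : ℕ, ρ (u ^ i) x = x := by
        intro u hu i
        induction i with
        | zero => simp
        | succ i ih => rw [pow_succ, map_mul, Module.End.mul_apply, hu, ih]
      obtain ⟨k, hk⟩ := (Submonoid.mem_powers_iff _ _).mp ((mem_powers_iff_mem_zpowers).mpr hzy)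
      have hzx : ρ z x = x := hk ▸ hpw y hyx k
      have h5 : p • x = 0 := by
        rw [LinearMap.mem_ker] at hx
        rw [← hx]
        simp only [N, LinearMap.sum_apply, ← map_pow, hpw z hzx]
        simp
      have h6 : addOrderOf x ∣ Nat.gcd p r :=
        Nat.dvd_gcd (addOrderOf_dvd_of_nsmul_eq_zero h5) (addOrderOf_dvd_of_nsmul_eq_zero (hrA x))
      rw [(Nat.coprime_primes hp hr.out).mpr hpr, Nat.dvd_one, AddMonoid.addOrderOf_eq_one_iff] at h6
      exact hx0 h6)
  have hidx : (Subgroup.center E).index = (p ^ w) ^ 2 := by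
    have := (Subgroup.center E).card_mul_index
    rw [hZ, hEcard, pow_succ'] at this
    rw [Nat.eq_of_mul_eq_mul_left hp.pos this, ← pow_mul, mul_comm]
  have hd : p ^ w ≤ d := by
    rw [hidx] at h3
    exact (Nat.pow_le_pow_iff_left (by norm_num)).mp h3
  have hAp : IsPGroup r A := fun a => ⟨1, by
    apply Subtype.ext; simpa using hA.2 a a.2⟩
  obtain ⟨k, hk⟩ := hAp.exists_card_eq
  have hc : Nat.card (Additive A) = Nat.card A := rfl
  rw [hc] at h2
  have hd0 : d ≠ 0 := by
    have := pow_pos hp.pos w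
    omega
  obtain ⟨m, -, hm⟩ := (Nat.dvd_prime_pow hr.out).mp (hk ▸ (dvd_pow_self q hd0).trans h2)
  have hm1 : 1 ≤ m := by
    rcases m with _ | m
    · simp at hm; omega
    · omega
  have hnm := hmin m hm1 (hm ▸ hord z hz hz1' ▸ h4 z hz)
  calc r ^ (n * p ^ w) ≤ r ^ (m * d) := Nat.pow_le_pow_right hr.out.pos (Nat.mul_le_mul hnm hd)
    _ = q ^ d := by rw [hm, pow_mul]
    _ ≤ Nat.card A := Nat.le_of_dvd Nat.card_pos h2

end Cfsg.Agent.S2912
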