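import Cfsg.Statements.S2924
import Cfsg.Agent.H86.Theta
import Cfsg.Agent.H83.Misc
import Cfsg.Agent.H55.Basic
import Cfsg.Agent.H10.Inverted

set_option autoImplicit false
open Cfsg

namespace Cfsg.Agent.S2924

open Subgroup

/-- Let X be a finite group and Y an elementary abelian 2-subgroup of X of order at least 8 such that C_X(x) has no components (E(C_X(x)) = 1) for every nontrivial x ∈ Y, and F*(C_X(z)) = O₂(C_X(z)) for some nontrivial z ∈ Y. Then the subgroup generated by the cores O(C_X(y)), y ∈ Y nontrivial, has odd order and is normalized by N_X(Y). -/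
theorem result {X : Type*} [Group X] [Finite X] (Y : Subgroup X) (hY : Cfsg.IsElementaryAbelian 2 Y) (h8 : 8 ≤ Nat.card ↥Y) (hE : ∀ x ∈ Y, x ≠ 1 → Cfsg.layer ↥(Subgroup.centralizer ({x} : Set X)) = ⊥) (hz : ∃ z ∈ Y, z ≠ 1 ∧ Cfsg.generalizedFittingSubgroup ↥(Subgroup.centralizer ({z} : Set X)) = Cfsg.pCore 2 ↥(Subgroup.centralizer ({z} : Set X))) : Odd (Nat.card ↥(⨆ y : {y : X // y ∈ Y ∧ y ≠ 1}, (Cfsg.oddCore ↥(Subgroup.centralizer ({(y : X)} : Set X))).map (Subgroup.centralizer ({(y : X)} : Set X)).subtype)) ∧ Subgroup.normalizer (Y : Set X) ≤ Subgroup.normalizer ((⨆ y : {y : X // y ∈ Y ∧ y ≠ 1}, (Cfsg.oddCore ↥(Subgroup.centralizer ({(y : X)} : Set X))).map (Subgroup.centralizer ({(y : X)} : Set X)).subtype : Subgroup X) : Set X) := by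
  change Odd (Nat.card ↥(⨆ y : {y : X // y ∈ Y ∧ y ≠ 1}, centralizerPPrimeCore 2 (y : X))) ∧ _
  refine ⟨?_, H86.normalizer_le_normalizer_iSup_theta Y⟩
  obtain ⟨z, hzY, hz1, hz⟩ := hz
  set θ : X → Subgroup X := centralizerPPrimeCore 2 with hθ
  have hodd : ∀ y, Odd (Nat.card (θ y)) := fun y => Nat.coprime_two_right.mp (H86.theta_coprime y)
  have hYC : ∀ y ∈ Y, Y ≤ centralizer {y} := fun y hy => H55.ea_le_centralizer_singleton hY hy
  have hp2 : ∀ y ∈ Y, IsPGroup 2 (zpowers y) := fun y hy =>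
    (H55.ea_isPGroup hY).to_le (zpowers_le_of_mem hy)
  have hzz : z * z = 1 := by rw [← sq]; exact hY.2 z hzY
  have hchar : H83.CharP 2 (centralizer ({z} : Set X)) :=
    H83.charP_iff.mpr (H52.fstar_eq_pCore_iff_centralizer_le.mp hz)
  have hinv : ∀ y ∈ Y, ∀ u ∈ θ y, z * u * z⁻¹ = u⁻¹ := by
    intro y hy u hu
    have h1 := hchar.inf_centralizer (hp2 y hy)
      ((zpowers_le_of_mem (hYC z hzY hy)).trans (H83.le_norm_pCoreOf _))
    rw [H52.centralizer_zpowers] at h1
    have h2 := (H83.charP_iff_constrained.mp h1).2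
    obtain ⟨k, hk, c, hc, h3, h4, rfl⟩ := H10.exists_inverted_mul_centralized (hodd y) hzz
      (fun x hx => H53.conj_mem_of_mem_normalizer (H86.theta_norm y (hYC y hy hzY)) hx) hu
    have h5 : c ∈ H52.Opp 2 (centralizer ({z} : Set X) ⊓ centralizer {y}) :=
      H52.Opp_inf_le_Opp inf_le_right
        ⟨hc, mem_centralizer_singleton_iff.mpr h4, H86.theta_le y hc⟩
    rw [H52.Opp, h2, Subgroup.map_bot, mem_bot] at h5
    rw [h5, mul_one, h3]
  have hab : ∀ y ∈ Y, ∀ a ∈ θ y, ∀ b ∈ θ y, a * b = b * a := by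
    intro y hy a ha b hb
    have h1 := hinv y hy _ (mul_mem ha hb)
    have h2 : z * (a * b) * z⁻¹ = (z * a * z⁻¹) * (z * b * z⁻¹) := by group
    rw [h2, hinv y hy a ha, hinv y hy b hb, ← mul_inv_rev] at h1
    exact (inv_injective h1).symm
  have hbal : ∀ x ∈ Y, x ≠ 1 → ∀ y ∈ Y, θ y ⊓ centralizer {x} ≤ θ x := by
    intro x hx hx1 y hy u hu
    set H := centralizer ({x} : Set X) with hH
    have ha : ⁅θ y ⊓ H, H52.Op 2 H⁆ = ⊥ :=
      H52.commutator_eq_bot_of_le_Opp_centralizer (hp2 y hy) (H52.isPGroup_map_pCore_subtype H)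
        (by rw [H52.centralizer_zpowers]; exact inf_le_left)
        ((zpowers_le_of_mem (hYC x hx hy)).trans (H52.le_normalizer_Op H))
        (inf_le_right.trans (H52.le_normalizer_Op H))
    have huodd : Odd (orderOf u) := H10.odd_orderOf_of_mem (hodd y) hu.1
    have hb : ∀ w ∈ θ x, w * u = u * w := by
      intro w hw
      have h1 := hinv x hx _ (H53.conj_mem_of_mem_normalizer (H86.theta_norm x hu.2) hw)
      have h2 : z * (u * w * u⁻¹) * z⁻¹ = (z * u * z⁻¹) * (z * w * z⁻¹) * (z * u * z⁻¹)⁻¹ := by group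
      rw [h2, hinv y hy u hu.1, hinv x hx w hw] at h1
      have h3 : Commute w (u ^ 2) := by
        show w * u ^ 2 = u ^ 2 * w
        rw [sq]
        calc w * (u * u) = u * (u⁻¹ * w⁻¹ * u⁻¹⁻¹)⁻¹ * u := by group
          _ = _ := by rw [h1]; group
      obtain ⟨m, hm⟩ := H10.exists_pow_sq_eq huodd
      have h4 := h3.pow_right m
      rwa [← pow_mul, mul_comm 2 m, pow_mul, hm] at h4
    have h1 : (⟨u, hu.2⟩ : H) ∈ centralizer (fittingSubgroup H : Set H) := by
      refine H52.centralizer_anti (H52.fitting_le_pCore_sup_pPrimeCore (p := 2)) ?_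
      rw [H52.centralizer_sup']
      refine ⟨mem_centralizer_iff.mpr fun w hw => Subtype.ext ?_,
        mem_centralizer_iff.mpr fun w hw => Subtype.ext (hb _ ⟨w, hw, rfl⟩)⟩
      exact (H52.commutator_eq_bot_iff_forall.mp ha u hu _ ⟨w, hw, rfl⟩).symm
    have h2 := H52.fitting_le_pCore_sup_pPrimeCore (p := 2)
      (H52.centralizer_fitting_le_iff.mpr (hE x hx hx1) h1)
    exact ⟨_, H86.mem_pPrimeCore_of_mem_sup h2 (by
      rw [← Subgroup.orderOf_coe]; exact Nat.coprime_two_right.mpr huodd), rfl⟩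
  have hY1 : Y ≠ ⊥ := fun h => hz1 (by rwa [h, mem_bot] at hzY)
  have hnd : ∀ y, ¬ 2 ∣ Nat.card (θ y) := fun y => (hodd y).not_two_dvd_nat
  have hcomm : ∀ x ∈ Y, ∀ y ∈ Y, θ x ≤ centralizer (θ y : Set X) := by
    intro x hx y hy
    refine H55.gen_hyp hY hY1 (hnd x) ((hYC x hx).trans (H86.theta_norm x)) fun B hB => ?_
    rw [le_centralizer_iff]
    refine H55.gen_hyp hY hY1 (hnd y) ((hYC y hy).trans (H86.theta_norm y)) fun D hD => ?_
    obtain ⟨b, hbB, hbD, hb1⟩ := hB.exists_mem_inf hD.le (hD.pow_le (k := 2) h8)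
    intro v hv
    rw [mem_centralizer_iff]
    intro w hw
    exact hab b (hB.le hbB)
      w (hbal b (hB.le hbB) hb1 x hx ⟨hw.1, H55.centralizer_le_singleton hbB hw.2⟩)
      v (hbal b (hB.le hbB) hb1 y hy ⟨hv.1, H55.centralizer_le_singleton hbD hv.2⟩)
  set W := ⨆ y : {y : X // y ∈ Y ∧ y ≠ 1}, θ (y : X) with hW
  have hWc : W ≤ centralizer (W : Set X) := by
    refine iSup_le fun x => ?_
    rw [le_centralizer_iff]
    exact iSup_le fun y => hcomm y y.2.1 x x.2.1
  have hel : ∀ w ∈ W, Odd (orderOf w) := by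
    intro w hw
    refine iSup_induction' (fun y : {y : X // y ∈ Y ∧ y ≠ 1} => θ (y : X))
      (C := fun w _ => Odd (orderOf w)) (fun y w hw => H10.odd_orderOf_of_mem (hodd y) hw)
      (by simp) (fun a b ha hb h1 h2 => ?_) hw
    have hc : Commute a b := mem_centralizer_iff.mp (hWc hb) a ha
    exact (h1.mul h2).of_dvd_nat hc.orderOf_mul_dvd_mul_orderOf
  rw [← Nat.not_even_iff_odd, even_iff_two_dvd]
  intro hd
  obtain ⟨w, hw⟩ := exists_prime_orderOf_dvd_card' (G := W) 2 hd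
  have := hel w w.2
  rw [Subgroup.orderOf_coe, hw] at this
  exact absurd this (by decide)

end Cfsg.Agent.S2924
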