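import Cfsg.Statements.S2925
import Cfsg.Agent.H52.Quasisimple
import Cfsg.Agent.H1.Zipper
import Cfsg.Agent.H53.Basic

set_option autoImplicit false
open Cfsg

namespace Cfsg.Agent.S2925

open Subgroup
open scoped commutatorElement

/-- Let K be a component of the finite group X and T a Sylow 2-subgroup of X. If some abelian normal subgroup Y of T does not normalize K, then K ⧸ Z(K) has abelian Sylow 2-subgroups. -/
theorem result {X : Type*} [Group X] [Finite X] (K : Subgroup X) (hK : Cfsg.IsComponent K) (T : Sylow 2 X) (Y : Subgroup X) (hYT : Y ≤ (T : Subgroup X)) (hYn : (Y.subgroupOf (T : Subgroup X)).Normal) (hYab : IsMulCommutative ↥Y) (hnot : ¬ Y ≤ Subgroup.normalizer (K : Set X)) (P : Sylow 2 (↥K ⧸ Subgroup.center ↥K)) : IsMulCommutative ↥(P : Subgroup (↥K ⧸ Subgroup.center ↥K)) := by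
  obtain ⟨y, hyY, hyn⟩ := SetLike.not_le_iff_exists.mp hnot
  have hc := (H52.IsComponent.mem_normalizer_or_commutator_conj_eq_bot hK y).resolve_left hyn
  have hc' : ∀ a ∈ K, ∀ b ∈ K, Commute a (y * b * y⁻¹) := fun a ha b hb =>
    H52.commutator_eq_bot_iff_forall.mp hc a ha _ ⟨b, hb, rfl⟩
  obtain ⟨Q, hQ⟩ := H1.exists_sylow_eq_subgroupOf_of_isSubnormal hK.1 T
  have hTY : (T : Subgroup X) ≤ normalizer (Y : Set X) :=
    H52.le_normalizer_of_subgroupOf_normal hYT hYn
  have key : ∀ r ∈ (Q : Subgroup K), ∀ s ∈ (Q : Subgroup K), ⁅r, s⁆ ∈ center K := by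
    intro r hr s hs
    rw [hQ, mem_subgroupOf] at hr hs
    have hm : ∀ t ∈ (T : Subgroup X), t * (y * t⁻¹ * y⁻¹) ∈ Y := fun t ht => by
      have := mul_mem (H53.conj_mem_of_mem_normalizer (hTY ht) hyY) (inv_mem hyY)
      simpa only [mul_assoc] using this
    have h1 := H53.comm_of_mem hYab (hm _ hr) (hm _ hs)
    set r' := y * (r : X)⁻¹ * y⁻¹ with hr'
    set s' := y * (s : X)⁻¹ * y⁻¹ with hs'
    have c1 : Commute (r : X) s' := hc' _ r.2 _ (inv_mem s.2)
    have c2 : Commute (s : X) r' := hc' _ s.2 _ (inv_mem r.2)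
    have h2 : (r : X) * s * (r' * s') = s * r * (s' * r') := by
      calc (r : X) * s * (r' * s') = r * (s * r') * s' := by group
        _ = r * (r' * s) * s' := by rw [c2.eq]
        _ = r * r' * (s * s') := by group
        _ = s * s' * (r * r') := h1
        _ = s * (s' * r) * r' := by group
        _ = s * (r * s') * r' := by rw [c1.eq]
        _ = _ := by group
    have h3 : ((s : X) * (r : X))⁻¹ * ((r : X) * (s : X)) =
        y * ((s : X)⁻¹ * (r : X)⁻¹ * ((r : X)⁻¹ * (s : X)⁻¹)⁻¹) * y⁻¹ := by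
      calc ((s : X) * (r : X))⁻¹ * ((r : X) * (s : X))
          = ((s : X) * (r : X))⁻¹ * (r * s * (r' * s')) * (r' * s')⁻¹ := by group
        _ = s' * r' * (r' * s')⁻¹ := by rw [h2]; group
        _ = _ := by rw [hr', hs']; group
    have h4 : (s * r)⁻¹ * (r * s) ∈ center K := by
      rw [mem_center_iff]
      intro k
      apply Subtype.ext
      have := hc' _ k.2 _ ((s⁻¹ * r⁻¹ * (r⁻¹ * s⁻¹)⁻¹ : K).2)
      push_cast at this ⊢
      rw [h3]
      exact this.eq
    have h5 : ⁅r, s⁆ = (s * r) * ((s * r)⁻¹ * (r * s)) * (s * r)⁻¹ := by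
      rw [commutatorElement_def]; group
    rw [h5]
    exact Normal.conj_mem inferInstance _ h4 _
  let Q' := Q.mapSurjective (QuotientGroup.mk'_surjective (center K))
  have hQ' : IsMulCommutative (Q' : Subgroup (K ⧸ center K)) := by
    refine H53.isMulCommutative_of_comm ?_
    rintro _ ⟨r, hr, rfl⟩ _ ⟨s, hs, rfl⟩
    rw [← commutatorElement_eq_one_iff_mul_comm, ← map_commutatorElement]
    exact (QuotientGroup.eq_one_iff _).mpr (key r hr s hs)
  let e := Sylow.equiv P Q'
  refine ⟨⟨fun a b => e.injective ?_⟩⟩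
  rw [map_mul, map_mul]
  exact hQ'.is_comm.comm _ _

end Cfsg.Agent.S2925
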