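import Cfsg.Statements.S2928
import Cfsg.Agent.H94.AltTwo

set_option autoImplicit false
open Cfsg

namespace Cfsg.Agent.S2928

open Subgroup H94.Alt2 in
theorem aux {n : ℕ} (hn : 8 ≤ n) (H : Subgroup (Equiv.Perm (Fin n)))
    (hF : IsQuasisimple (generalizedFittingSubgroup H)) (hQ : Q n ⊓ alternatingGroup (Fin n) ≤ H) :
    ∃ m : ℕ, (m = n - 3 ∨ m = n - 2 ∨ m = n - 1 ∨ m = n) ∧
      Nonempty (generalizedFittingSubgroup H ≃* alternatingGroup (Fin m)) := by
  obtain ⟨L, ⟨e⟩, h1, h2, h3, h4⟩ := H86.fstar_data hF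
  obtain ⟨X, rfl, h5⟩ := main hn ⟨h1, h2, h3, h4⟩ hQ
  have h6 : X.card ≤ n := by simpa using X.card_le_univ
  exact ⟨X.card, by omega, (H86.nonempty_altOn_equiv X).map e.trans⟩

/-- Let n ≥ 8 and let H be a subgroup of the symmetric group of degree n whose generalized Fitting subgroup F*(H) is quasisimple. If H contains a Sylow 2-subgroup of the alternating group of degree n, then F*(H) is isomorphic to an alternating group of degree m for some m ∈ {n − 3, n − 2, n − 1, n}. -/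
theorem result (n : ℕ) (hn : 8 ≤ n) (H : Subgroup (Equiv.Perm (Fin n))) (hF : Cfsg.IsQuasisimple ↥(Cfsg.generalizedFittingSubgroup ↥H)) (hS : ∃ P : Sylow 2 ↥(alternatingGroup (Fin n)), ((P : Subgroup ↥(alternatingGroup (Fin n))).map (alternatingGroup (Fin n)).subtype) ≤ H) : ∃ m : ℕ, (m = n - 3 ∨ m = n - 2 ∨ m = n - 1 ∨ m = n) ∧ Nonempty (↥(Cfsg.generalizedFittingSubgroup ↥H) ≃* ↥(alternatingGroup (Fin m))) := by
  obtain ⟨P, hP⟩ := hS
  obtain ⟨g, -, hg⟩ := H10.exists_conj_le_sylow_map P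
    ((H94.Alt2.Q_two n).to_le (inf_le_left (b := alternatingGroup (Fin n)))) inf_le_right
  let e := (MulAut.conj g⁻¹).subgroupMap H
  let f := (e.subgroupMap (generalizedFittingSubgroup H)).trans
    (MulEquiv.subgroupCongr (H52.map_fstar_equiv e))
  obtain ⟨m, h1, h2⟩ := aux hn _ (H52.IsQuasisimple.of_mulEquiv hF f) fun x hx =>
    ⟨g * x * g⁻¹, hP (hg ⟨x, hx, rfl⟩), by simp [mul_assoc]⟩
  exact ⟨m, h1, h2.map f.trans⟩

end Cfsg.Agent.S2928
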