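import Cfsg.Statements.S2929
import Cfsg.Agent.H86.Alt3

set_option autoImplicit false
open Cfsg

namespace Cfsg.Agent.S2929

/-- Let n ≥ 5 and let H be a subgroup of the symmetric group of degree n whose generalized Fitting subgroup F*(H) is quasisimple. If H contains a Sylow 3-subgroup of the symmetric group, then F*(H) is isomorphic to an alternating group of degree m for some m ∈ {n − 2, n − 1, n}. -/
theorem result (n : ℕ) (hn : 5 ≤ n) (H : Subgroup (Equiv.Perm (Fin n))) (hF : Cfsg.IsQuasisimple ↥(Cfsg.generalizedFittingSubgroup ↥H)) (hS : ∃ P : Sylow 3 (Equiv.Perm (Fin n)), (P : Subgroup (Equiv.Perm (Fin n))) ≤ H) : ∃ m : ℕ, (m = n - 2 ∨ m = n - 1 ∨ m = n) ∧ Nonempty (↥(Cfsg.generalizedFittingSubgroup ↥H) ≃* ↥(alternatingGroup (Fin m))) := by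
  obtain ⟨P, hP⟩ := hS
  obtain ⟨L, ⟨e⟩, h1, h2, h3, h4⟩ := H86.fstar_data hF
  obtain ⟨X, rfl, -, h5⟩ := H86.exists_altOn_of_sylow_three h1 h2 h3 h4 P hP
  obtain ⟨e'⟩ := H86.nonempty_altOn_equiv X
  have := Finset.card_add_card_compl X
  rw [Fintype.card_fin] at this
  exact ⟨X.card, by omega, ⟨e.trans e'⟩⟩

end Cfsg.Agent.S2929
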