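import Cfsg.Statements.S2939
import Cfsg.Agent.H82.SylowControl

set_option autoImplicit false
open Cfsg

namespace Cfsg.Agent.S2939

open Cfsg.Agent.H82

theorem prod_take_ofFn_of_step {G : Type*} [Group G] {n : ℕ} (z : Fin (n + 1) → G) (h0 : z 0 = 1)
    (y : Fin n → G) (hy : ∀ i : Fin n, z i.castSucc * y i = z i.succ) (k : ℕ) (hk : k < n + 1) :
    ((List.ofFn y).take k).prod = z ⟨k, hk⟩ := by
  induction k with
  | zero => simpa using h0.symm
  | succ k ih =>
    have hk' : k < n := by omega
    rw [List.prod_take_succ _ _ (by simpa using hk'), ih (by omega)]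
    simpa using hy ⟨k, hk'⟩

/-- Let p be a prime dividing the order of the finite group G and 𝓕 a family of subgroups of G closed under conjugation, with conjugates taken as X^g = g⁻¹Xg. Then 𝓕 controls Sylow p-intersections in G (any two distinct Sylow p-subgroups S and T with S ∩ T ≠ 1 are joined by a chain S = S₀, S₁, …, Sₙ = T of Sylow p-subgroups where, for each i, some member Xᵢ of 𝓕 meets both S_{i-1} and Sᵢ in Sylow p-subgroups of Xᵢ, satisfies S ∩ T ≤ Sᵢ ∩ Xᵢ, and contains an element xᵢ with Sᵢ^{xᵢ} = S_{i-1}) if and only if 𝓕 strongly controls p-fusion in G (whenever A is a subset of a Sylow p-subgroup S, A contains an element other than 1, and A^g ⊆ S, the element g factorises as g = y₁⋯yₙy with y ∈ N_G(S) and each yᵢ in a member Yᵢ of 𝓕 that meets S in a Sylow p-subgroup of Yᵢ, with A^{y₁⋯yᵢ} ⊆ S ∩ Yᵢ for each i). -/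
theorem result {G : Type*} [Group G] [Finite G] {p : ℕ} [Fact p.Prime] (hdiv : p ∣ Nat.card G) (𝓕 : Set (Subgroup G)) (h𝓕 : Cfsg.IsNormalSet 𝓕) : Cfsg.ControlsSylowIntersections p 𝓕 ↔ Cfsg.FamilyStronglyControlsFusion p 𝓕 := by
  constructor
  · intro hc S A g hA hA1 hg
    have hAT : A ⊆ ((g • S : Sylow p G) : Subgroup G) := fun a ha =>
      mem_smul_sylow.2 (hg ⟨a, ha, rfl⟩)
    by_cases hST : S = g • S
    · refine ⟨0, Fin.elim0, Fin.elim0, g, Sylow.smul_eq_iff_mem_normalizer.1 hST.symm,
        fun i => i.elim0, by simp, fun i => i.elim0⟩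
    obtain ⟨n, c, X, x, h0, hl, h⟩ := hc S (g • S) hST (by
      obtain ⟨a, ha, ha1⟩ := hA1
      intro hb
      have : a ∈ (S : Subgroup G) ⊓ ((g • S : Sylow p G) : Subgroup G) := ⟨hA ha, hAT ha⟩
      rw [hb] at this
      exact ha1 this)
    let z : Fin (n + 1) → G := fun i => Fin.induction 1 (fun j w => x j * w) i
    have hz0 : z 0 = 1 := rfl
    have hzs : ∀ j : Fin n, z j.succ = x j * z j.castSucc := fun j => by
      simp only [z, Fin.induction_succ]
    have hc' : ∀ i, c i = z i • S := by
      intro i
      induction i using Fin.induction with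
      | zero => rw [hz0, one_smul, h0]
      | succ i ih =>
        have a4 := (h i).2.2.2.1
        rw [subgroupConjRight_sylow] at a4
        rw [hzs, mul_smul, ← ih, ← Sylow.ext a4, smul_inv_smul]
    let y : Fin n → G := fun i => (z i.castSucc)⁻¹ * x i * z i.castSucc
    have hy : ∀ i : Fin n, z i.castSucc * y i = z i.succ := fun i => by
      rw [hzs]; simp only [y]; group
    have hprod := prod_take_ofFn_of_step z hz0 y hy
    refine ⟨n, fun i => subgroupConjRight (z i.castSucc) (X i), y, (z (Fin.last n))⁻¹ * g, ?_, ?_, ?_, ?_⟩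
    · apply Sylow.smul_eq_iff_mem_normalizer.1
      rw [mul_smul, ← hl, hc', inv_smul_smul]
    · intro i
      constructor
      · have := sylowMembers_smul h𝓕 (h i).1 (z i.castSucc)
        rwa [hc', inv_smul_smul] at this
      · rw [mem_subgroupConjRight]
        simpa [y, mul_assoc] using (h i).2.2.1
    · have := hprod n (Nat.lt_succ_self n)
      rw [List.take_of_length_le (by simp)] at this
      rw [this]
      simp [Fin.last]
    · intro i
      rw [hprod (i + 1) (by omega)]
      rintro _ ⟨a, ha, rfl⟩
      have h5 := (h i).2.2.2.2 (show a ∈ (S : Subgroup G) ⊓ ((g • S : Sylow p G) : Subgroup G) from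
        ⟨hA ha, hAT ha⟩)
      change (z i.succ)⁻¹ * a * z i.succ ∈ _
      constructor
      · have := h5.1
        rw [hc'] at this
        exact mem_smul_sylow.1 this
      · apply mem_subgroupConjRight.2
        rw [hzs]
        have := (X i).mul_mem ((X i).mul_mem ((X i).inv_mem (h i).2.2.1) h5.2) (h i).2.2.1
        convert this using 1
        group
  · intro hf S T hST hb
    obtain ⟨g, rfl⟩ := MulAction.exists_smul_eq G S T
    obtain ⟨n, Y, y, y₀, hy₀, hY, hg, hA⟩ := hf S
      (((S : Subgroup G) ⊓ ((g • S : Sylow p G) : Subgroup G) : Subgroup G) : Set G) g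
      (fun a ha => ha.1) (by
        by_contra hn
        push Not at hn
        exact hb ((Subgroup.eq_bot_iff_forall _).2 hn)) (by
        rintro _ ⟨a, ha, rfl⟩
        exact mem_smul_sylow.1 ha.2)
    let z : Fin (n + 1) → G := fun i => ((List.ofFn y).take i).prod
    have hzs : ∀ j : Fin n, z j.succ = z j.castSucc * y j := fun j => by
      simp only [z, Fin.val_succ, Fin.val_castSucc]
      rw [List.prod_take_succ _ _ (by simp)]
      simp
    refine ⟨n, fun i => z i • S, fun i => subgroupConjRight (z i.castSucc)⁻¹ (Y i),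
      fun i => z i.castSucc * y i * (z i.castSucc)⁻¹, by simp [z], ?_, ?_⟩
    · have : z (Fin.last n) = (List.ofFn y).prod := by
        simp only [z, Fin.val_last]
        rw [List.take_of_length_le (by simp)]
      show z (Fin.last n) • S = g • S
      rw [this, hg, mul_smul, Sylow.smul_eq_iff_mem_normalizer.2 hy₀]
    · intro i
      have e1 : subgroupConjRight (z i.castSucc)⁻¹ (Y i) = subgroupConjRight (z i.succ)⁻¹ (Y i) := by
        rw [hzs, mul_inv_rev, subgroupConjRight_mul, subgroupConjRight_of_mem ((Y i).inv_mem (hY i).2)]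
      refine ⟨?_, ?_, ?_, ?_, ?_⟩
      · have := sylowMembers_smul h𝓕 (hY i).1 (z i.castSucc)⁻¹
        rwa [inv_inv] at this
      · have := sylowMembers_smul h𝓕 (hY i).1 (z i.succ)⁻¹
        rwa [inv_inv, ← e1] at this
      · apply mem_subgroupConjRight.2
        simpa [mul_assoc] using (hY i).2
      · rw [subgroupConjRight_sylow, ← mul_smul, hzs]
        congr 2
        group
      · intro a ha
        have h5 := hA i ⟨a, ha, rfl⟩
        change (z i.succ)⁻¹ * a * z i.succ ∈ _ at h5
        constructor
        · exact mem_smul_sylow.2 h5.1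
        · show a ∈ subgroupConjRight (z i.castSucc)⁻¹ (Y i)
          rw [e1]
          apply mem_subgroupConjRight.2
          simpa using h5.2

end Cfsg.Agent.S2939
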