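import Cfsg.Statements.S2940
import Cfsg.Agent.H98.SylIn

set_option autoImplicit false
open Cfsg

namespace Cfsg.Agent.S2940

open Cfsg.Agent.H98

/-- Let S be a Sylow p-subgroup of the finite group G and G₁, G₂ subgroups containing S with G = G₁G₂. Then for every g ∈ G there is a Sylow p-subgroup U of G with S ∩ S^g ≤ U ≤ G₁ ∩ G₂^g (conjugates taken as X^g = g⁻¹Xg). -/
theorem result {G : Type*} [Group G] [Finite G] {p : ℕ} [Fact p.Prime] (S : Sylow p G) (G₁ G₂ : Subgroup G) (h1 : (S : Subgroup G) ≤ G₁) (h2 : (S : Subgroup G) ≤ G₂) (hfact : ∀ g : G, ∃ g₁ ∈ G₁, ∃ g₂ ∈ G₂, g = g₁ * g₂) (g : G) : ∃ U : Sylow p G, (S : Subgroup G) ⊓ Cfsg.subgroupConjRight g (S : Subgroup G) ≤ (U : Subgroup G) ∧ (U : Subgroup G) ≤ G₁ ⊓ Cfsg.subgroupConjRight g G₂ := by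
  obtain ⟨a, ha, b, hb, hab⟩ := hfact g⁻¹
  -- `g⁻¹ = a * b`
  have hX : ((a • S : Sylow p G) : Subgroup G) ≤ G₁ ⊓ subgroupConjRight g G₂ := by
    intro x hx
    rw [Sylow.coe_subgroup_smul, Subgroup.mem_pointwise_smul_iff_inv_smul_mem] at hx
    have hx' : a⁻¹ * x * a ∈ (S : Subgroup G) := by simpa using hx
    constructor
    · have := G₁.mul_mem (G₁.mul_mem ha (h1 hx')) (G₁.inv_mem ha)
      simpa [mul_assoc] using this
    · apply mem_map_conj.2
      rw [hab]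
      have := G₂.mul_mem (G₂.mul_mem (G₂.inv_mem hb) (h2 hx')) hb
      convert this using 1
      group
  have hA : (S : Subgroup G) ⊓ subgroupConjRight g (S : Subgroup G) ≤ G₁ ⊓ subgroupConjRight g G₂ :=
    inf_le_inf h1 (Subgroup.map_mono h2)
  obtain ⟨m, hm, hle⟩ := (sylIn_of_sylow_le (a • S) hX).exists_conj_le hA
    (S.isPGroup'.to_le inf_le_left)
  refine ⟨m⁻¹ • a • S, ?_, ?_⟩
  · intro x hx
    rw [Sylow.coe_subgroup_smul, Subgroup.mem_pointwise_smul_iff_inv_smul_mem]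
    have := hle ⟨x, hx, rfl⟩
    simpa using this
  · exact Sylow.smul_le hX ⟨m⁻¹, Subgroup.inv_mem _ hm⟩

end Cfsg.Agent.S2940
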