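import Cfsg.Statements.S2955
import Cfsg.Agent.H82.SylowControl

set_option autoImplicit false
open Cfsg

namespace Cfsg.Agent.S2955

open Cfsg.Agent.H82

/-- Let p be a prime dividing the order of the finite group G and 𝓕 a conjugation-closed family of subgroups that controls Sylow p-intersections in G. Suppose the Sylow p-subgroups of G are chain-connected: any two of them are joined by a chain of Sylow p-subgroups, consecutive ones distinct with nontrivial intersection, all containing the intersection of the two ends (equivalently, the graph on the Sylow p-subgroups whose edges are the distinct pairs meeting nontrivially is connected). Then for every Sylow p-subgroup S, G is generated by N_G(S) together with the members of 𝓕 that meet S in a Sylow p-subgroup of themselves. -/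
theorem result {G : Type*} [Group G] [Finite G] (p : ℕ) [Fact p.Prime] (hdiv : p ∣ Nat.card G)
    (𝓕 : Set (Subgroup G)) (h𝓕 : Cfsg.IsNormalSet 𝓕) (hc : Cfsg.ControlsSylowIntersections p 𝓕)
    (hconn : Cfsg.IsSylowChainConnected p G) (S : Sylow p G) :
    (⨆ X ∈ Cfsg.sylowMembers p 𝓕 (S : Subgroup G), X) ⊔ Subgroup.normalizer ((S : Subgroup G) : Set G) = ⊤ := by
  set Y := (⨆ X ∈ Cfsg.sylowMembers p 𝓕 (S : Subgroup G), X) ⊔
    Subgroup.normalizer ((S : Subgroup G) : Set G) with hY
  have h1 : ∀ T : Sylow p G, (S : Subgroup G) ⊓ (T : Subgroup G) ≠ ⊥ → ∃ y ∈ Y, T = y • S := by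
    intro T hT
    by_cases hST : S = T
    · exact ⟨1, Y.one_mem, by rw [one_smul, hST]⟩
    obtain ⟨n, c, X, x, h0, hl, h⟩ := hc S T hST hT
    have key : ∀ i : Fin (n + 1), ∃ y ∈ Y, c i = y • S := by
      intro i
      induction i using Fin.induction with
      | zero => exact ⟨1, Y.one_mem, by rw [one_smul, h0]⟩
      | succ i ih =>
        obtain ⟨y, hy, he⟩ := ih
        obtain ⟨a1, -, a3, a4, -⟩ := h i
        have b1 := sylowMembers_smul h𝓕 a1 y
        rw [he, inv_smul_smul] at b1
        have b2 : y⁻¹ * x i * y ∈ Y := by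
          apply Subgroup.mem_sup_left
          refine Subgroup.mem_iSup_of_mem _ (Subgroup.mem_iSup_of_mem b1 ?_)
          rw [mem_subgroupConjRight]
          simpa [mul_assoc] using a3
        have b3 : x i * y ∈ Y := by
          have := Y.mul_mem hy b2
          simpa [mul_assoc] using this
        refine ⟨x i * y, b3, ?_⟩
        rw [subgroupConjRight_sylow] at a4
        rw [mul_smul, ← he, ← Sylow.ext a4, smul_inv_smul]
    obtain ⟨y, hy, he⟩ := key (Fin.last n)
    exact ⟨y, hy, hl ▸ he⟩
  rw [eq_top_iff]
  intro g _
  obtain ⟨n, c, h0, hl, -, h⟩ := hconn S (g • S)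
  have key : ∀ i : Fin (n + 1), ∃ y ∈ Y, c i = y • S := by
    intro i
    induction i using Fin.induction with
    | zero => exact ⟨1, Y.one_mem, by rw [one_smul, h0]⟩
    | succ i ih =>
      obtain ⟨y, hy, he⟩ := ih
      obtain ⟨z, hz, he'⟩ := h1 (y⁻¹ • c i.succ) (by
        intro hb
        apply (h i).2
        rw [eq_bot_iff]
        intro x hx
        have : y⁻¹ * x * y ∈ (S : Subgroup G) ⊓ ((y⁻¹ • c i.succ : Sylow p G) : Subgroup G) := by
          constructor
          · have := hx.1
            rw [he] at this
            exact mem_smul_sylow.1 this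
          · apply mem_smul_sylow.2
            have h3 : x ∈ (c i.succ : Subgroup G) := hx.2
            simpa only [mul_assoc, inv_inv, mul_inv_cancel_left, mul_inv_cancel, mul_one] using h3
        rw [hb, Subgroup.mem_bot] at this
        have h2 : x = y * (y⁻¹ * x * y) * y⁻¹ := by group
        rw [h2, this]
        simp)
      refine ⟨y * z, Y.mul_mem hy hz, ?_⟩
      rw [mul_smul, ← he', smul_inv_smul]
  obtain ⟨y, hy, he⟩ := key (Fin.last n)
  rw [hl] at he
  have h2 : (y⁻¹ * g) • S = S := by rw [mul_smul, he, inv_smul_smul]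
  rw [Sylow.smul_eq_iff_mem_normalizer] at h2
  have h3 : y⁻¹ * g ∈ Y := Subgroup.mem_sup_right h2
  simpa using Y.mul_mem hy h3

end Cfsg.Agent.S2955
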