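import Cfsg.Statements.S2956
import Cfsg.Agent.H82.SylowControl2
import Cfsg.Agent.H82.SPE

set_option autoImplicit false
open Cfsg

namespace Cfsg.Agent.S2956

open Cfsg.Agent.H82 Cfsg.Agent.H98

theorem card_lt_of_lt {G : Type*} [Group G] [Finite G] {A B : Subgroup G} (h : A < B) :
    Nat.card A < Nat.card B :=
  lt_of_not_ge fun h' => h.ne (Subgroup.eq_of_le_of_card_ge h.le h')

theorem lt_of_le_of_card_lt {G : Type*} [Group G] {A B : Subgroup G} (h : A ≤ B)
    (h' : Nat.card A < Nat.card B) : A < B :=
  lt_of_le_of_ne h fun he => by rw [he] at h'; exact lt_irrefl _ h'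

/-- Let p be a prime dividing the order of the finite group G, and f an assignment to every p-subgroup P of a set f(P) of subgroups of P, each normalized by N_G(P), compatible with conjugation, such that for P ≠ 1 the members of f(P) are nontrivial. Let 𝓕 be the family of the normalizers N_G(F) of the members F of f(S) over the Sylow p-subgroups S of G, and 𝓕' the family of the maximal p-local subgroups M of G that are singular for f (the corresponding family of normalizers inside M does not control Sylow p-intersections in M). Then 𝓕 ∪ 𝓕' controls Sylow p-intersections in G. -/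
theorem result {G : Type*} [Group G] [Finite G] (p : ℕ) [Fact p.Prime] (hdiv : p ∣ Nat.card G)
    (f : Subgroup G → Set (Subgroup G)) (hf : Cfsg.IsNormalizerFunctor p f)
    (hf1 : ∀ P : Subgroup G, IsPGroup p ↥P → P ≠ ⊥ → ∀ F ∈ f P, F ≠ ⊥)
    (𝓕 𝓕' : Set (Subgroup G)) (h𝓕 : 𝓕 = Cfsg.functorFamily p f ⊤)
    (h𝓕' : 𝓕' = {M | Cfsg.IsMaximalPLocal p M ∧ ¬ Cfsg.IsFunctorRegular p f M}) :
    Cfsg.ControlsSylowIntersections p (𝓕 ∪ 𝓕') := by
  subst h𝓕 h𝓕'
  set 𝓖 := Cfsg.functorFamily p f ⊤ ∪ {M | Cfsg.IsMaximalPLocal p M ∧ ¬ Cfsg.IsFunctorRegular p f M}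
    with h𝓖
  have main : ∀ (n : ℕ) (D : Subgroup G), Nat.card G - Nat.card D = n → D ≠ ⊥ →
      ∀ S T : Sylow p G, D ≤ S → D ≤ T →
        Relation.ReflTransGen (fun A B : Sylow p G => SylLink p 𝓖 D A B) S T := by
    intro n
    induction n using Nat.strong_induction_on with
    | _ n ih =>
    intro D hDn hD1
    have ih' : ∀ D' : Subgroup G, D < D' → ∀ S T : Sylow p G, D' ≤ S → D' ≤ T →
        Relation.ReflTransGen (fun A B : Sylow p G => SylLink p 𝓖 D A B) S T := by
      intro D' hlt S T hS hT
      have h1 := card_lt_of_lt hlt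
      have h2 : Nat.card D' ≤ Nat.card G := Subgroup.card_le_card_group D'
      have h3 := ih _ (by omega) D' rfl (fun hb => hD1 (by rw [eq_bot_iff, ← hb]; exact hlt.le))
        S T hS hT
      refine Relation.ReflTransGen.mono ?_ _ _ h3
      intro A B h
      exact SylLink.mono h subset_rfl hlt.le
    have inner : ∀ (m : ℕ) (L A B : Subgroup G), IsPLocal p L → SylIn p A L → SylIn p B L →
        Nat.card G - Nat.card A = m → D < A → D < B → ∀ S T : Sylow p G, A ≤ S → B ≤ T →
        Relation.ReflTransGen (fun A B : Sylow p G => SylLink p 𝓖 D A B) S T := by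
      intro m
      induction m using Nat.strong_induction_on with
      | _ m ihm =>
      intro L A B hL hA hB hAm hDA hDB S T hS hT
      obtain ⟨M, hLM, hM⟩ := Finite.exists_le_maximal (p := fun M : Subgroup G => IsPLocal p M) hL
      have hMmax : IsMaximalPLocal p M := ⟨hM.1, fun N hN hMN => le_antisymm (hM.2 hN hMN) hMN⟩
      obtain ⟨A', hA', hAA'⟩ := exists_sylIn_ge (hA.le.trans hLM) hA.isPGroup
      obtain ⟨B', hB', hBB'⟩ := exists_sylIn_ge (hB.le.trans hLM) hB.isPGroup
      obtain ⟨T', hT'⟩ := hB'.isPGroup.exists_le_sylow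
      refine Relation.ReflTransGen.trans ?_ (ih' B hDB T' T (hBB'.trans hT') hT)
      by_cases hreg : IsFunctorRegular p f M
      · have hcard : ∀ V, SylIn p V M → Nat.card D < Nat.card V := fun V hV =>
          (card_lt_of_lt hDA).trans_le (hV.card_le (hA.le.trans hLM) hA.isPGroup)
        by_cases he : A' = B'
        · exact ih' A hDA S T' hS (hAA'.trans (he ▸ hT'))
        have hDle : D ≤ A' ⊓ B' := le_inf (hDA.le.trans hAA') (hDB.le.trans hBB')
        have h1 := isFunctorRegular_iff.1 hreg A' B' hA' hB' he
          (fun hb => hD1 (by rw [eq_bot_iff, ← hb]; exact hDle))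
        have key : ∀ V, Relation.ReflTransGen (fun U V : Subgroup G =>
            SylIn p U M ∧ SylIn p V M ∧ SylLink p (functorFamily p f M) (A' ⊓ B') U V) A' V →
            D ≤ V ∧ ∀ R : Sylow p G, V ≤ R →
              Relation.ReflTransGen (fun A B : Sylow p G => SylLink p 𝓖 D A B) S R := by
          intro V hV
          induction hV with
          | refl => exact ⟨hDA.le.trans hAA', fun R hR => ih' A hDA S R hS (hAA'.trans hR)⟩
          | @tail U V _ h2 ihV =>
            obtain ⟨hU, hV, hlink⟩ := h2
            obtain ⟨hDU, ihV⟩ := ihV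
            have hlink' := hlink
            obtain ⟨X, hX, a1, a2, x, hx, a4, a5⟩ := hlink'
            have hDV : D ≤ V := hDle.trans (a5.trans inf_le_left)
            refine ⟨hDV, fun R hR => ?_⟩
            obtain ⟨P, hP, F, hF, rfl⟩ := mem_functorFamily_iff.1 hX
            by_cases hPtop : SylIn p P ⊤
            · have hMtop : ∀ V, SylIn p V M → SylIn p V ⊤ := fun V hV =>
                sylIn_top_of_sylIn_of_le hPtop hP.le hV
              obtain ⟨U', hU'⟩ := (hMtop U hU).exists_sylow_top
              have hRV : (R : Subgroup G) = V := (hMtop V hV).eq_of_le le_top R.isPGroup' hR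
              refine (ihV U' hU'.ge).tail ?_
              rw [hU', hRV]
              exact (hlink.functorFamily_top hf hMtop hU hV).mono Set.subset_union_left hDle
            · have b1 := le_of_sylIn_functorFamily hf hP hF hU a1
              have b2 := le_of_sylIn_functorFamily hf hP hF hV a2
              have hP1 : P ≠ ⊥ := by
                rintro rfl
                have := hcard _ hP
                rw [Subgroup.card_bot] at this
                have h0 : 0 < Nat.card D := Nat.card_pos
                omega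
              have hloc : IsPLocal p (Subgroup.normalizer (F : Set G)) :=
                ⟨F, hP.isPGroup.to_le ((hf P hP.isPGroup).1 F hF).1, hf1 P hP.isPGroup hP1 F hF, rfl⟩
              obtain ⟨U', hU', hUU'⟩ := exists_sylIn_ge b1 hU.isPGroup
              obtain ⟨V', hV', hVV'⟩ := exists_sylIn_ge b2 hV.isPGroup
              obtain ⟨S₁, hS₁⟩ := hU'.isPGroup.exists_le_sylow
              obtain ⟨T₁, hT₁⟩ := hV'.isPGroup.exists_le_sylow
              have hDU' : D < U := lt_of_le_of_card_lt hDU (hcard U hU)
              have hDV' : D < V := lt_of_le_of_card_lt hDV (hcard V hV)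
              have hlt : Nat.card A < Nat.card U' := by
                obtain ⟨P', hP', hPP'⟩ := exists_sylIn_ge (H := ⊤) le_top hP.isPGroup
                have hne : P < P' := lt_of_le_of_ne hPP' fun he => hPtop (he ▸ hP')
                obtain ⟨y, hy1, hy2, hy3⟩ := exists_mem_normalizer_of_lt hP'.isPGroup hne
                have c1 : P < P' ⊓ Subgroup.normalizer (P : Set G) :=
                  lt_of_le_of_ne (le_inf hPP' Subgroup.le_normalizer) fun he => hy3 (by
                    rw [he]; exact ⟨hy1, hy2⟩)
                have c2 := hU'.card_le (inf_le_right.trans ((hf P hP.isPGroup).1 F hF).2)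
                  (hP'.isPGroup.to_le (inf_le_left : P' ⊓ Subgroup.normalizer (P : Set G) ≤ P'))
                exact ((hP.card_le (hA.le.trans hLM) hA.isPGroup).trans_lt (card_lt_of_lt c1)).trans_le c2
              have h2 : Nat.card U' ≤ Nat.card G := Subgroup.card_le_card_group U'
              have h3 := ihm _ (by omega) _ U' V' hloc hU' hV' rfl (hDU'.trans_le hUU')
                (hDV'.trans_le hVV') S₁ T₁ hS₁ hT₁
              exact ((ihV S₁ (hUU'.trans hS₁)).trans h3).trans
                (ih' V hDV' T₁ R (hVV'.trans hT₁) hR)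
        exact (key B' h1).2 T' hT'
      · obtain ⟨x, hx, hxe⟩ := hB'.exists_conj hA'
        have hS' : A' ≤ ((x • T' : Sylow p G) : Subgroup G) := by
          rw [← hxe]
          exact Subgroup.map_mono hT'
        refine (ih' A hDA S (x • T') hS (hAA'.trans hS')).tail ?_
        refine ⟨M, Or.inr ⟨hMmax, hreg⟩, ?_, ?_, x⁻¹, M.inv_mem hx, ?_, ?_⟩
        · rw [hA'.eq_of_le inf_le_right ((x • T').isPGroup'.to_le inf_le_left) (le_inf hS' hA'.le)]
          exact hA'
        · rw [hB'.eq_of_le inf_le_right (T'.isPGroup'.to_le inf_le_left) (le_inf hT' hB'.le)]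
          exact hB'
        · rw [subgroupConjRight_sylow, inv_inv]
        · exact (hDB.le.trans hBB').trans (le_inf hT' hB'.le)
    intro S T hS hT
    by_cases hDS : D = S
    · have : T = S := Sylow.ext (S.is_maximal' T.isPGroup' (hDS ▸ hT))
      rw [this]
    have hDT : D ≠ T := by
      intro he
      have : S = T := Sylow.ext (T.is_maximal' S.isPGroup' (he ▸ hS))
      exact hDS (this ▸ he)
    have hDp : IsPGroup p D := S.isPGroup'.to_le hS
    have hN : ∀ R : Sylow p G, D ≤ R → D ≠ R →
        D < (R : Subgroup G) ⊓ Subgroup.normalizer (D : Set G) := by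
      intro R h1 h2
      obtain ⟨y, hy1, hy2, hy3⟩ := exists_mem_normalizer_of_lt R.isPGroup' (lt_of_le_of_ne h1 h2)
      exact lt_of_le_of_ne (le_inf h1 Subgroup.le_normalizer) fun he => hy3 (by
        rw [he]; exact ⟨hy1, hy2⟩)
    obtain ⟨A, hA, hA'⟩ := exists_sylIn_ge (p := p)
      (inf_le_right : (S : Subgroup G) ⊓ Subgroup.normalizer (D : Set G) ≤ _)
      (S.isPGroup'.to_le inf_le_left)
    obtain ⟨B, hB, hB'⟩ := exists_sylIn_ge (p := p)
      (inf_le_right : (T : Subgroup G) ⊓ Subgroup.normalizer (D : Set G) ≤ _)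
      (T.isPGroup'.to_le inf_le_left)
    obtain ⟨S₁, hS₁⟩ := hA.isPGroup.exists_le_sylow
    obtain ⟨T₁, hT₁⟩ := hB.isPGroup.exists_le_sylow
    have h1 := inner _ _ A B ⟨D, hDp, hD1, rfl⟩ hA hB rfl ((hN S hS hDS).trans_le hA')
      ((hN T hT hDT).trans_le hB') S₁ T₁ hS₁ hT₁
    exact ((ih' _ (hN S hS hDS) S S₁ inf_le_left (hA'.trans hS₁)).trans h1).trans
      (ih' _ (hN T hT hDT) T₁ T (hB'.trans hT₁) inf_le_left)
  rw [controlsSylowIntersections_iff]
  intro S T _ hb
  exact main _ _ rfl hb S T inf_le_left inf_le_right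

end Cfsg.Agent.S2956
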