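import Cfsg.Statements.S2957
import Cfsg.Agent.H82.SylowControl2

set_option autoImplicit false
open Cfsg

namespace Cfsg.Agent.S2957

open Cfsg.Agent.H82 Cfsg.Agent.H98

theorem lift_chain {G : Type*} [Group G] [Finite G] {p : ℕ} [Fact p.Prime]
    {f : Subgroup G → Set (Subgroup G)} (hf : IsNormalizerFunctor p f) {M A U D : Subgroup G}
    (hr : IsFunctorRegular p f M) (hA : SylIn p A ⊤) (hU : SylIn p U ⊤) (hAM : A ≤ M) (hUM : U ≤ M)
    (hD : D ≠ ⊥) (hDA : D ≤ A) (hDU : D ≤ U) :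
    Relation.ReflTransGen (fun X Y : Subgroup G =>
      SylIn p X ⊤ ∧ SylIn p Y ⊤ ∧ SylLink p (functorFamily p f ⊤) D X Y) A U := by
  by_cases he : A = U
  · rw [he]
  have hM : ∀ V, SylIn p V M → SylIn p V ⊤ := fun V hV => sylIn_top_of_sylIn_of_le hA hAM hV
  have h1 := isFunctorRegular_iff.1 hr A U (hA.mono hAM le_top) (hU.mono hUM le_top) he
    (fun hb => hD (by rw [eq_bot_iff, ← hb]; exact le_inf hDA hDU))
  refine Relation.ReflTransGen.mono ?_ _ _ h1
  rintro X Y ⟨a1, a2, a3⟩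
  exact ⟨hM X a1, hM Y a2, (a3.functorFamily_top hf hM a1 a2).mono subset_rfl (le_inf hDA hDU)⟩

/-- Let p be a prime dividing the order of the finite group G, f an equivariant assignment of a set of subgroups f(P) of P to every p-subgroup P, each normalized by N_G(P), and S a Sylow p-subgroup. If G = G₁G₂ for subgroups G₁, G₂ both containing S and both regular for f (in each Gᵢ, the family of normalizers in Gᵢ of the members of f(P), P a Sylow p-subgroup of Gᵢ, controls Sylow p-intersections), then G itself is regular for f. -/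
theorem result {G : Type*} [Group G] [Finite G] (p : ℕ) [Fact p.Prime] (hdiv : p ∣ Nat.card G)
    (f : Subgroup G → Set (Subgroup G)) (hf : Cfsg.IsNormalizerFunctor p f) (S : Sylow p G)
    (G₁ G₂ : Subgroup G) (h₁ : (S : Subgroup G) ≤ G₁) (h₂ : (S : Subgroup G) ≤ G₂)
    (hprod : ∀ g : G, ∃ g₁ ∈ G₁, ∃ g₂ ∈ G₂, g = g₁ * g₂)
    (hr₁ : Cfsg.IsFunctorRegular p f G₁) (hr₂ : Cfsg.IsFunctorRegular p f G₂) :
    Cfsg.IsFunctorRegular p f ⊤ := by
  rw [isFunctorRegular_iff]
  intro A B hA hB hne hb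
  obtain ⟨a, -, rfl⟩ := (sylIn_top S).exists_conj hA
  obtain ⟨b, -, rfl⟩ := (sylIn_top S).exists_conj hB
  obtain ⟨g₁, hg₁, g₂, hg₂, he⟩ := hprod (a⁻¹ * b)
  have hU0 : SylIn p ((S : Subgroup G).map (MulAut.conj (a * g₁)).toMonoidHom) ⊤ :=
    (sylIn_top S).map_conj_of_mem (Subgroup.mem_top _)
  have hU0le : (S : Subgroup G).map (MulAut.conj (a * g₁)).toMonoidHom ≤
      G₁.map (MulAut.conj a).toMonoidHom ⊓ G₂.map (MulAut.conj b).toMonoidHom := by
    refine le_inf ?_ ?_
    · rw [← map_conj_map_conj]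
      refine Subgroup.map_mono ?_
      rw [← map_conj_eq_of_mem hg₁]
      exact Subgroup.map_mono h₁
    · have : a * g₁ = b * g₂⁻¹ := by
        calc a * g₁ = a * (g₁ * g₂) * g₂⁻¹ := by group
          _ = b * g₂⁻¹ := by rw [← he]; group
      rw [this, ← map_conj_map_conj]
      refine Subgroup.map_mono ?_
      rw [← map_conj_eq_of_mem (G₂.inv_mem hg₂)]
      exact Subgroup.map_mono h₂
  obtain ⟨U, hU, hle⟩ := exists_sylIn_ge (p := p)
    (inf_le_inf (Subgroup.map_mono (f := (MulAut.conj a).toMonoidHom) h₁)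
      (Subgroup.map_mono (f := (MulAut.conj b).toMonoidHom) h₂)) (hA.isPGroup.to_le inf_le_left)
  have hU' := sylIn_top_of_sylIn_of_le hU0 hU0le hU
  exact (lift_chain hf (isFunctorRegular_conj hf hr₁ a) hA hU' (Subgroup.map_mono h₁)
    (hU.le.trans inf_le_left) hb inf_le_left hle).trans
    (lift_chain hf (isFunctorRegular_conj hf hr₂ b) hU' hB (hU.le.trans inf_le_right)
      (Subgroup.map_mono h₂) hb hle inf_le_right)

end Cfsg.Agent.S2957
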