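import Cfsg.Statements.S2958

set_option autoImplicit false
open Cfsg

namespace Cfsg.Agent.S2958

/-- Let X, A, B be subgroups of a group G such that G is generated by the conjugates of X and every conjugate of X is contained in A or in B. Then A = G or B = G. -/
theorem result {G : Type*} [Group G] (X A B : Subgroup G) (hgen : (⨆ g : G, X.map (MulAut.conj g).toMonoidHom) = ⊤) (hcover : ∀ g : G, X.map (MulAut.conj g).toMonoidHom ≤ A ∨ X.map (MulAut.conj g).toMonoidHom ≤ B) : A = ⊤ ∨ B = ⊤ := by
  by_contra hne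
  push Not at hne
  obtain ⟨hA, hB⟩ := hne
  -- the conjugates not inside `A`
  set c : G → Subgroup G := fun g => X.map (MulAut.conj g).toMonoidHom with hc
  have hcc : ∀ a g : G, (c g).map (MulAut.conj a).toMonoidHom = c (a * g) := by
    intro a g
    simp only [hc, Subgroup.map_map]
    congr 1
    ext x
    simp [mul_assoc]
  set N : Subgroup G := ⨆ g : {g : G // ¬ c g ≤ A}, c g with hN
  have hNB : N ≤ B := iSup_le fun g => (hcover g).resolve_left g.2
  have hAN : A ≤ Subgroup.normalizer (N : Set G) := by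
    have aux : ∀ a ∈ A, N.map (MulAut.conj a).toMonoidHom ≤ N := by
      intro a ha
      rw [hN, Subgroup.map_iSup]
      refine iSup_le fun g => ?_
      rw [hcc]
      refine le_iSup_of_le ⟨a * g, fun h => g.2 ?_⟩ le_rfl
      have : c g = (c (a * g)).map (MulAut.conj a⁻¹).toMonoidHom := by
        rw [hcc]; simp
      rw [this]
      rintro _ ⟨y, hy, rfl⟩
      simpa using A.mul_mem (A.mul_mem (A.inv_mem ha) (h hy)) ha
    intro a ha
    rw [Subgroup.mem_normalizer_iff]
    intro y
    constructor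
    · intro hy
      exact aux a ha ⟨y, hy, rfl⟩
    · intro hy
      have := aux a⁻¹ (A.inv_mem ha) ⟨_, hy, rfl⟩
      simpa [mul_assoc] using this
  have htop : Subgroup.normalizer (N : Set G) = ⊤ := by
    rw [eq_top_iff, ← hgen]
    refine iSup_le fun g => ?_
    by_cases h : c g ≤ A
    · exact h.trans hAN
    · exact (le_iSup_of_le (f := fun g : {g : G // ¬ c g ≤ A} => c g) ⟨g, h⟩ le_rfl).trans
        Subgroup.le_normalizer
  have hnormal : N.Normal := Subgroup.normalizer_eq_top_iff.mp htop
  obtain ⟨g0, hg0⟩ : ∃ g, ¬ c g ≤ A := by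
    by_contra h
    push Not at h
    exact hA (eq_top_iff.mpr (hgen ▸ iSup_le h))
  have h0 : c g0 ≤ N := le_iSup_of_le (f := fun g : {g : G // ¬ c g ≤ A} => c g) ⟨g0, hg0⟩ le_rfl
  apply hB
  rw [eq_top_iff, ← hgen]
  refine iSup_le fun g => le_trans ?_ hNB
  have : c g = (c g0).map (MulAut.conj (g * g0⁻¹)).toMonoidHom := by
    rw [hcc]; simp
  change c g ≤ N
  rw [this]
  rintro _ ⟨y, hy, rfl⟩
  exact hnormal.conj_mem _ (h0 hy) _

end Cfsg.Agent.S2958
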