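import Cfsg.Statements.S2959
import Cfsg.Agent.H86.Basic

set_option autoImplicit false
open Cfsg

namespace Cfsg.Agent.S2959

/-- Let G be a finite group of characteristic p, that is C_G(O_p(G)) ≤ O_p(G), with p prime, and let L be a subgroup of G normalized by O_p(G). Then L has characteristic p: C_L(O_p(L)) ≤ O_p(L). -/
theorem result {G : Type*} [Group G] [Finite G] {p : ℕ} [Fact p.Prime] (hG : Subgroup.centralizer (Cfsg.pCore p G : Set G) ≤ Cfsg.pCore p G) (L : Subgroup G) (hL : Cfsg.pCore p G ≤ Subgroup.normalizer (L : Set G)) : Subgroup.centralizer (Cfsg.pCore p ↥L : Set ↥L) ≤ Cfsg.pCore p ↥L := by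
  have hn : (pCore p ↥L).Normal := pCore_normal p _
  have hQ : (pCore p G).Normal := pCore_normal p _
  refine H86.le_pCore inferInstance (H86.isPGroup_of_coprime_eq_one fun x hx hcop => ?_)
  have hcop' : (orderOf (x : G)).Coprime p := by rwa [Subgroup.orderOf_coe]
  have hxQ : (x : G) ∈ pCore p G := by
    apply hG
    intro q hq
    have hcQ : (x : G) * q * (x : G)⁻¹ * q⁻¹ ∈ pCore p G :=
      (pCore p G).mul_mem (hQ.conj_mem _ hq _) ((pCore p G).inv_mem hq)
    have hcL : (x : G) * q * (x : G)⁻¹ * q⁻¹ ∈ L := by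
      have := (Subgroup.mem_normalizer_iff.mp (hL hq) _).mp (L.inv_mem x.2)
      simpa [mul_assoc] using L.mul_mem x.2 this
    have hle : (pCore p G).subgroupOf L ≤ pCore p ↥L :=
      H86.le_pCore inferInstance ((H86.pCore_isPGroup p G).comap_subtype)
    have hmem : (⟨_, hcL⟩ : L) ∈ pCore p ↥L := hle hcQ
    have hcomm := congrArg Subtype.val (hx _ hmem)
    refine (H86.commute_of_commutator_commute hcop' ?_
      (H86.pow_eq_one_of_mem (H86.pCore_isPGroup p G) hcQ)).symm
    exact hcomm.symm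
  obtain ⟨k, hk⟩ := H86.pow_eq_one_of_mem (H86.pCore_isPGroup p G) hxQ
  exact Subtype.ext (H86.eq_one_of_pow_of_coprime hk (pow_orderOf_eq_one _) hcop')

end Cfsg.Agent.S2959
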