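import Cfsg.Statements.S2960
import Cfsg.Agent.H86.Basic

set_option autoImplicit false
open Cfsg

namespace Cfsg.Agent.S2960

/-- Let G be a finite group of characteristic p (C_G(O_p(G)) ≤ O_p(G)), p prime, T a Sylow p-subgroup of G and Q a normal subgroup of T with C_T(Q) ≤ Q. Then C_G(Q) ≤ Q. -/
theorem result {G : Type*} [Group G] [Finite G] {p : ℕ} [Fact p.Prime] (hG : Subgroup.centralizer (Cfsg.pCore p G : Set G) ≤ Cfsg.pCore p G) (T : Sylow p G) (Q : Subgroup G) (hQT : Q ≤ (T : Subgroup G)) (hQn : (T : Subgroup G) ≤ Subgroup.normalizer (Q : Set G)) (hC : (T : Subgroup G) ⊓ Subgroup.centralizer (Q : Set G) ≤ Q) : Subgroup.centralizer (Q : Set G) ≤ Q := by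
  have hQ : (pCore p G).Normal := pCore_normal p _
  have hTC : (T : Subgroup G) ≤
      Subgroup.normalizer ((Subgroup.centralizer (Q : Set G) : Subgroup G) : Set G) := by
    have aux : ∀ t ∈ (T : Subgroup G), ∀ y ∈ Subgroup.centralizer (Q : Set G),
        t * y * t⁻¹ ∈ Subgroup.centralizer (Q : Set G) := by
      intro t ht y hy q hq
      have h1 : t⁻¹ * q * t ∈ Q := by
        have := (Subgroup.mem_normalizer_iff.mp (hQn ((T : Subgroup G).inv_mem ht)) q).mp hq
        simpa using this
      have h2 := hy _ h1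
      calc q * (t * y * t⁻¹) = t * (t⁻¹ * q * t * y) * t⁻¹ := by group
        _ = t * (y * (t⁻¹ * q * t)) * t⁻¹ := by rw [h2]
        _ = t * y * t⁻¹ * q := by group
    intro t ht
    rw [Subgroup.mem_normalizer_iff]
    intro y
    refine ⟨aux t ht y, fun hy => ?_⟩
    have := aux t⁻¹ ((T : Subgroup G).inv_mem ht) _ hy
    simpa [mul_assoc] using this
  have hp : IsPGroup p (Subgroup.centralizer (Q : Set G)) := by
    refine H86.isPGroup_of_coprime_eq_one fun x hx hcop => ?_
    have hxQ : x ∈ pCore p G := by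
      apply hG
      intro q hq
      have hcQ : x * q * x⁻¹ * q⁻¹ ∈ pCore p G :=
        (pCore p G).mul_mem (hQ.conj_mem _ hq _) ((pCore p G).inv_mem hq)
      have hcC : x * q * x⁻¹ * q⁻¹ ∈ Subgroup.centralizer (Q : Set G) := by
        have := (Subgroup.mem_normalizer_iff.mp (hTC (H86.pCore_le_sylow T hq)) _).mp
          (Subgroup.inv_mem _ hx)
        simpa [mul_assoc] using Subgroup.mul_mem _ hx this
      have hmem : x * q * x⁻¹ * q⁻¹ ∈ Q := hC ⟨H86.pCore_le_sylow T hcQ, hcC⟩
      refine (H86.commute_of_commutator_commute hcop ?_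
        (H86.pow_eq_one_of_mem (H86.pCore_isPGroup p G) hcQ)).symm
      exact (hx _ hmem).symm
    obtain ⟨k, hk⟩ := H86.pow_eq_one_of_mem (H86.pCore_isPGroup p G) hxQ
    exact H86.eq_one_of_pow_of_coprime hk (pow_orderOf_eq_one _) hcop
  exact fun y hy => hC ⟨H86.le_sylow_of_le_normalizer T hp hTC hy, hy⟩

end Cfsg.Agent.S2960
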