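import Cfsg.Statements.S2961
import Cfsg.Agent.H83.Parab

set_option autoImplicit false
open Cfsg

namespace Cfsg.Agent.S2961

open Subgroup Cfsg.Agent.H83
open scoped commutatorElement

/-- Let G be a finite group of characteristic p (C_G(O_p(G)) ≤ O_p(G)), p prime, T a Sylow p-subgroup of G and Q a normal subgroup of T with C_T(Q) ≤ Q. Then every subgroup L of G containing Q has characteristic p: C_L(O_p(L)) ≤ O_p(L). -/
theorem result {G : Type*} [Group G] [Finite G] {p : ℕ} [Fact p.Prime] (hG : Subgroup.centralizer (Cfsg.pCore p G : Set G) ≤ Cfsg.pCore p G) (T : Sylow p G) (Q : Subgroup G) (hQT : Q ≤ (T : Subgroup G)) (hQn : (T : Subgroup G) ≤ Subgroup.normalizer (Q : Set G)) (hC : (T : Subgroup G) ⊓ Subgroup.centralizer (Q : Set G) ≤ Q) (L : Subgroup G) (hQL : Q ≤ L) : Subgroup.centralizer (Cfsg.pCore p ↥L : Set ↥L) ≤ Cfsg.pCore p ↥L := by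
  have hG' : CharP p (⊤ : Subgroup G) := charP_top.mpr hG
  have hT := isSylowIn_top T
  set V := pCoreOf p (⊤ : Subgroup G) with hV
  have hVn : ∀ K : Subgroup G, K ≤ normalizer (V : Set G) := fun K =>
    le_top.trans (le_norm_pCoreOf ⊤)
  have hVT : V ≤ T := hT.pCoreOf_le
  have hVL : L ≤ normalizer ((V ⊓ L : Subgroup G) : Set G) := le_norm_inf (hVn L) le_normalizer
  have hVR : V ⊓ L ≤ pCoreOf p L := pCoreOf_inf_le le_top
  set E := centMod L V (V ⊓ L) hVL with hE
  set D := L ⊓ centralizer (pCoreOf p L : Set G) with hD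
  have hEn : L ≤ normalizer (E : Set G) := le_norm_centMod le_normalizer (hVn L) hVL
  have hDn : L ≤ normalizer (D : Set G) :=
    le_norm_inf le_normalizer (le_norm_cent (le_norm_pCoreOf L))
  have hQE : Q ≤ E := by
    refine le_centMod.mpr ⟨hQL, le_inf (comm_le_left (hVn Q)) ?_⟩
    exact (comm_le_right (hVT.trans hQn)).trans hQL
  have hED : E ⊓ D ≤ pCoreOf p L := by
    refine le_pCoreOf (inf_le_right.trans inf_le_left) (le_norm_inf hEn hDn) ?_
    refine isPGroup_of_coprime_eq_one fun y hy hc => ?_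
    refine hG'.eq_one (mem_top y) hc ?_
    exact mem_cent_of_stable hc ((pCoreOf_isPGroup L).to_le hVR) (cent_anti hVR hy.2.2)
      (mem_centMod.mp hy.1).2
  refine charP_iff.mp (charP_of_eq_one fun x hx hc h1 => ?_)
  have hxQ : x ∈ centralizer (Q : Set G) := by
    refine mem_cent_of_stable hc (pCoreOf_isPGroup L) h1 fun q hq => hED ⟨?_, ?_⟩
    · exact comm_le_left ((zpowers_le.mpr hx).trans hEn)
        (commutator_mem_commutator (hQE hq) (mem_zpowers x))
    · exact comm_le_right (hQL.trans hDn)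
        (commutator_mem_commutator hq (show x ∈ D from ⟨hx, h1⟩))
  refine hG'.eq_one_of_thompson (hT.isPGroup.to_le hQT) (hVn Q) (mem_top x) hc hxQ ?_
  exact cent_anti ((inf_le_inf_right _ hVT).trans hC) hxQ

end Cfsg.Agent.S2961
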