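import Cfsg.Statements.S2962
import Cfsg.Agent.H81.AutSylow2
import Cfsg.Agent.H54.Comm
import Cfsg.Agent.H4.Coprime
import Cfsg.Agent.S0205

set_option autoImplicit false
open Cfsg

namespace Cfsg.Agent.S2962

open Subgroup Cfsg.Agent.H85 Cfsg.Agent.H81
open scoped commutatorElement


/-- Let G be a finite group with G = QN, where N is a normal subgroup of G and Q is a non-abelian 2-subgroup with Q ∩ N = 1. Suppose that some nontrivial element t of Z(Q) ∩ [Q, Q] satisfies C_N(Q) = C_N(t). Then [N, Q] is solvable of odd order. -/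
theorem result {G : Type*} [Group G] [Finite G] (N Q : Subgroup G) [N.Normal] (hG : Q ⊔ N = ⊤) (hQ : IsPGroup 2 ↥Q) (hQna : ¬ IsMulCommutative ↥Q) (hdisj : Q ⊓ N = ⊥) (t : G) (ht1 : t ≠ 1) (htZ : t ∈ Q ⊓ Subgroup.centralizer (Q : Set G)) (htQ : t ∈ ⁅Q, Q⁆) (hC : N ⊓ Subgroup.centralizer (Q : Set G) = N ⊓ Subgroup.centralizer ({t} : Set G)) : Group.IsSolvable ↥⁅N, Q⁆ ∧ Odd (Nat.card ↥⁅N, Q⁆) := by
  haveI : Fact (Nat.Prime 2) := ⟨Nat.prime_two⟩
  obtain ⟨T, hT, hQT⟩ := exists_isSyl_ge (H := ⊤) hQ le_top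
  have hNn : ∀ X : Subgroup G, X ≤ normalizer (N : Set G) := fun X => by
    rw [normalizer_eq_top]; exact le_top
  have hS : IsSyl 2 (T ⊓ N) N := hT.inf_of_le_normalizer le_top (hNn _)
  set S := T ⊓ N with hSdef
  have hQS : Q ≤ normalizer (S : Set G) := le_normalizer_inf (hQT.trans le_normalizer) (hNn _)
  have hcen : S ≤ S ⊓ centralizer (Q : Set G) := by
    by_contra hne
    obtain ⟨x, hxS, hx0, hx⟩ := H54.exists_not_mem_commutator_mem_of_isPGroup hS.isPGroup hQ hQS hne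
    have hxn : ∀ s ∈ S ⊓ centralizer (Q : Set G), x⁻¹ * s * x ∈ S ⊓ centralizer (Q : Set G) := by
      intro s hs
      have h1 := hx (x⁻¹ * s * x) (mem_sup_right (S.mul_mem (S.mul_mem (S.inv_mem hxS) hs.1) hxS))
      have h2 := (S ⊓ centralizer (Q : Set G)).mul_mem ((S ⊓ centralizer (Q : Set G)).inv_mem h1) hs
      simpa [commutatorElement_def, mul_assoc] using h2
    have hφ : ∀ a ∈ Q, ∀ b ∈ Q, ⁅x, a * b⁆ = ⁅x, a⁆ * ⁅x, b⁆ := fun a ha b hb => by
      have h1 := (hx b (mem_sup_left hb)).2 a ha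
      calc ⁅x, a * b⁆ = ⁅x, a⁆ * (a * ⁅x, b⁆ * a⁻¹) := by simp only [commutatorElement_def]; group
        _ = _ := by rw [h1, mul_inv_cancel_right]
    let φ : Q →* G := MonoidHom.mk' (fun a => ⁅x, (a : G)⁆) (fun a b => hφ a a.2 b b.2)
    have hker : ⁅Q, Q⁆ ≤ φ.ker.map Q.subtype := by
      rw [commutator_le]
      intro a ha b hb
      refine ⟨⁅(⟨a, ha⟩ : Q), ⟨b, hb⟩⁆, ?_, rfl⟩
      rw [SetLike.mem_coe, MonoidHom.mem_ker, map_commutatorElement, commutatorElement_eq_one_iff_mul_comm]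
      show ⁅x, a⁆ * ⁅x, b⁆ = ⁅x, b⁆ * ⁅x, a⁆
      have h1 := hx b (mem_sup_left hb)
      have c1 : Commute a ⁅x, b⁆ := h1.2 a ha
      have c2 : Commute a (x⁻¹ * ⁅x, b⁆ * x) := (hxn _ h1).2 a ha
      have c3 : Commute (x * a * x⁻¹) ⁅x, b⁆ := by
        have := c2.eq
        show x * a * x⁻¹ * ⁅x, b⁆ = ⁅x, b⁆ * (x * a * x⁻¹)
        calc x * a * x⁻¹ * ⁅x, b⁆ = x * (a * (x⁻¹ * ⁅x, b⁆ * x)) * x⁻¹ := by group
          _ = _ := by rw [this]; group
      exact (c3.mul_left c1.inv_left).eq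
    obtain ⟨a, ha, hat⟩ := hker htQ
    have h1 : ⁅x, t⁆ = 1 := by rw [← hat]; exact ha
    have h2 : x ∈ N ⊓ centralizer ({t} : Set G) :=
      ⟨hxS.2, mem_cent_singleton.mpr (commutatorElement_eq_one_iff_mul_comm.mp h1)⟩
    rw [← hC] at h2
    exact hx0 ⟨hxS, h2.2⟩
  let O : Subgroup G := (pPrimeCore 2 N).map N.subtype
  haveI : O.Normal := H3.map_pPrimeCore_normal N
  have hOc : (Nat.card O).Coprime 2 := H3.map_pPrimeCore_coprime N
  have hON : O ≤ N := map_subtype_le _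
  let f := QuotientGroup.mk' O
  haveI : (N.map f).Normal := Normal.map inferInstance f (QuotientGroup.mk'_surjective O)
  have hO' : pPrimeCore 2 (N.map f) = ⊥ := pPrimeCore_map_eq_bot f
    (by rw [QuotientGroup.ker_mk', inf_eq_left.mpr hON]; exact hOc) (by rw [QuotientGroup.ker_mk'])
  have h1 := commutator_le_centralizer_of_pgroup hO' (hS.map f) (C := Q.map f) (by
    rintro _ ⟨q, hq, rfl⟩ _ ⟨s, hs, rfl⟩
    rw [← map_mul, ← map_mul, (hcen hs).2 q hq]) (hQ.map f)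
  rw [← map_commutator] at h1
  have h2 : ⁅N, Q⁆ ≤ O := by
    rw [commutator_le]
    intro n hn q hq
    have htp : IsPGroup 2 (zpowers t) := hQ.to_le (zpowers_le.mpr htZ.1)
    obtain ⟨k, hk⟩ := htp.exists_card_eq
    obtain ⟨d, hd, hnd⟩ := H4.exists_mul_mem_centralizer' (A := zpowers t) (D := O) (x := n)
      (by rw [normalizer_eq_top]; exact le_top) (by rw [hk]; exact (hOc.pow_right k).symm)
      (Or.inl (Group.isSolvable_of_comm (fun a b => mul_comm' a b))) (by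
        intro a ha
        have h3 := h1 (mem_map_of_mem f (zpowers_le.mpr htQ ha)) (f n) (mem_map_of_mem f hn)
        rw [← QuotientGroup.ker_mk' O, MonoidHom.mem_ker]
        simp only [map_mul, map_inv]
        show f a * f n * (f a)⁻¹ * (f n)⁻¹ = 1
        rw [← h3]; group)
    have h4 : d * n ∈ N ⊓ centralizer ({t} : Set G) :=
      ⟨N.mul_mem (hON hd) hn, centralizer_le (by simp) hnd⟩
    rw [← hC] at h4
    have h5 := h4.2 q hq
    have e : ⁅n, q⁆ = d⁻¹ * (q * d * q⁻¹) := by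
      rw [commutatorElement_def]
      calc n * q * n⁻¹ * q⁻¹ = d⁻¹ * (d * n * q) * n⁻¹ * q⁻¹ := by group
        _ = _ := by rw [← h5]; group
    rw [e]
    exact O.mul_mem (O.inv_mem hd) ((inferInstance : O.Normal).conj_mem d hd q)
  have h3 : Odd (Nat.card ↥⁅N, Q⁆) :=
    Nat.coprime_two_right.mp (Nat.Coprime.coprime_dvd_left (card_dvd_of_le h2) hOc)
  exact ⟨S0205.result h3, h3⟩

end Cfsg.Agent.S2962
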