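import Cfsg.Statements.S2963
import Mathlib.GroupTheory.GroupAction.MultipleTransitivity

set_option autoImplicit false
open Cfsg

namespace Cfsg.Agent.S2963

open scoped Pointwise

/-- Let n be odd. If the symmetric group of degree n is a minimal parabolic group for the prime 2, that is, a Sylow 2-subgroup is not normal and lies in exactly one maximal subgroup, then n = 2^m + 1 for some natural number m. -/
theorem result (n : ℕ) (hn : Odd n) (h : Cfsg.IsPMinimal 2 (Equiv.Perm (Fin n))) : ∃ m : ℕ, n = 2 ^ m + 1 := by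
  classical
  have : Fact (Nat.Prime 2) := ⟨Nat.prime_two⟩
  obtain ⟨S⟩ : Nonempty (Sylow 2 (Equiv.Perm (Fin n))) := inferInstance
  obtain ⟨hS, M, ⟨hM, hSM⟩, huniq⟩ := h S
  have hS1 : (S : Subgroup (Equiv.Perm (Fin n))) ≠ ⊥ := fun e => hS (e ▸ inferInstance)
  -- every proper subgroup over `S` lies in `M`
  have hle : ∀ K : Subgroup (Equiv.Perm (Fin n)), K ≠ ⊤ → (S : Subgroup _) ≤ K → K ≤ M := by
    intro K hK hSK
    obtain ⟨M', hM', hKM⟩ := (eq_top_or_exists_le_coatom K).resolve_left hK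
    rw [← huniq M' ⟨hM', hSK.trans hKM⟩]
    exact hKM
  -- a fixed point
  obtain ⟨x, hx⟩ := S.isPGroup'.nonempty_fixed_point_of_prime_not_dvd_card (Fin n)
    (by rw [Nat.card_eq_fintype_card, Fintype.card_fin]; exact hn.not_two_dvd_nat)
  obtain ⟨s, hs, hs1⟩ := ((S : Subgroup (Equiv.Perm (Fin n))).bot_or_exists_ne_one).resolve_left hS1
  obtain ⟨y, hy⟩ : ∃ y, s y ≠ y := by
    by_contra hc
    push Not at hc
    exact hs1 (Equiv.ext hc)
  have hnt : Nontrivial (Fin n) := ⟨⟨_, _, hy⟩⟩
  have hSx : (S : Subgroup (Equiv.Perm (Fin n))) ≤ MulAction.stabilizer _ x := fun g hg =>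
    hx ⟨g, hg⟩
  have hco : IsCoatom (MulAction.stabilizer (Equiv.Perm (Fin n)) x) :=
    MulAction.IsPreprimitive.isCoatom_stabilizer_of_isPreprimitive _ x
  have hMx : MulAction.stabilizer (Equiv.Perm (Fin n)) x = M := huniq _ ⟨hco, hSx⟩
  set O : Set (Fin n) := MulAction.orbit (S : Subgroup (Equiv.Perm (Fin n))) y with hO
  have hyO : y ∈ O := MulAction.mem_orbit_self y
  have hxO : x ∉ O := by
    rintro ⟨g, hg⟩
    have h1 : y = x := by
      have := hx g⁻¹
      rw [← hg] at this
      simp only [inv_smul_smul] at this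
      rw [this]; exact hg
    exact hy (h1 ▸ hSx hs)
  have hSO : (S : Subgroup (Equiv.Perm (Fin n))) ≤
      MulAction.stabilizer (Equiv.Perm (Fin n)) O := fun g hg =>
    MulAction.smul_orbit (⟨g, hg⟩ : (S : Subgroup (Equiv.Perm (Fin n)))) y
  have hOne : MulAction.stabilizer (Equiv.Perm (Fin n)) O ≠ ⊤ := by
    intro e
    have h1 : Equiv.swap x y ∈ MulAction.stabilizer (Equiv.Perm (Fin n)) O :=
      e ▸ Subgroup.mem_top _
    apply hxO
    rw [← MulAction.mem_stabilizer_iff.mp h1]
    exact ⟨y, hyO, by simp⟩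
  have hOM := hle _ hOne hSO
  have hcompl : ∀ z, z ∉ O → z = x := by
    intro z hz
    have h1 : Equiv.swap x z ∈ MulAction.stabilizer (Equiv.Perm (Fin n)) O := by
      rw [MulAction.mem_stabilizer_iff]
      have key : ∀ w ∈ O, Equiv.swap x z w = w := fun w hw =>
        Equiv.swap_apply_of_ne_of_ne (fun e => hxO (e ▸ hw)) (fun e => hz (e ▸ hw))
      ext w
      constructor
      · rintro ⟨u, hu, rfl⟩
        simpa [key u hu] using hu
      · intro hw
        exact ⟨w, hw, key w hw⟩
    have h2 := hOM h1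
    rw [← hMx, MulAction.mem_stabilizer_iff] at h2
    simpa using h2
  obtain ⟨m, hm⟩ := S.isPGroup'.card_orbit y
  refine ⟨m, ?_⟩
  have hOe : O = {x}ᶜ := by
    ext z
    constructor
    · rintro hz rfl
      exact hxO hz
    · intro hz
      by_contra h'
      exact hz (hcompl z h')
  have h1 : O.ncard = 2 ^ m := hm
  have h2 := Set.ncard_add_ncard_compl ({x} : Set (Fin n))
  rw [← hOe, h1, Set.ncard_singleton, Nat.card_eq_fintype_card, Fintype.card_fin] at h2
  omega

end Cfsg.Agent.S2963
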