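import Cfsg.Statements.S2998
import Cfsg.Agent.H86.RelSylow

set_option autoImplicit false
open Cfsg

namespace Cfsg.Agent.S2998

/-- Let G be a finite group, p a prime, P a Sylow p-subgroup of G and x ∈ P an element such that N_G(R) ≤ C_G(x) for every nontrivial subgroup R of P. Then P ≤ C_G(x); every G-conjugate of x lying in P equals x (so g ∈ C_G(x) whenever g x g⁻¹ ∈ P); and for every normal subgroup N of G, the image of x in G ⧸ N has the same property with respect to the image of P: the normalizer of every nontrivial subgroup of the image of P centralizes the image of x. -/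
theorem result {G : Type*} [Group G] [Finite G] {p : ℕ} [Fact p.Prime] (P : Sylow p G) (x : G) (hxP : x ∈ (P : Subgroup G)) (hlc : ∀ R : Subgroup G, R ≤ (P : Subgroup G) → R ≠ ⊥ → Subgroup.normalizer (R : Set G) ≤ Subgroup.centralizer ({x} : Set G)) : (P : Subgroup G) ≤ Subgroup.centralizer ({x} : Set G) ∧ (∀ g : G, g * x * g⁻¹ ∈ (P : Subgroup G) → g * x * g⁻¹ = x) ∧ ∀ (N : Subgroup G) [N.Normal], ∀ R : Subgroup (G ⧸ N), R ≤ (P : Subgroup G).map (QuotientGroup.mk' N) → R ≠ ⊥ → Subgroup.normalizer (R : Set (G ⧸ N)) ≤ Subgroup.centralizer ({(QuotientGroup.mk x : G ⧸ N)} : Set (G ⧸ N)) := by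
  by_cases hx1 : x = 1
  · subst hx1
    refine ⟨fun y _ => ?_, fun g _ => by simp, fun N _ R _ _ y _ => ?_⟩
    · rw [Subgroup.mem_centralizer_singleton_iff]; simp
    · rw [Subgroup.mem_centralizer_singleton_iff]; simp
  have hP1 : (P : Subgroup G) ≠ ⊥ := fun h => hx1 (by rwa [h, Subgroup.mem_bot] at hxP)
  have hPC : (P : Subgroup G) ≤ Subgroup.centralizer ({x} : Set G) :=
    Subgroup.le_normalizer.trans (hlc P le_rfl hP1)
  refine ⟨hPC, fun g hg => ?_, fun N _ R hR hR1 gb hgb => ?_⟩
  · have hy1 : Subgroup.zpowers (g * x * g⁻¹) ≠ ⊥ := by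
      rw [Ne, Subgroup.zpowers_eq_bot]
      intro h
      apply hx1
      simpa using h
    have h1 := hlc _ (Subgroup.zpowers_le_of_mem hg) hy1
    have h2 : g⁻¹ ∈ Subgroup.normalizer
        ((Subgroup.centralizer ({x} : Set G) : Subgroup G) : Set G) := by
      rw [Subgroup.inv_mem_iff]
      apply H86.mem_normalizer_of_conj_le
      intro c hc
      apply h1
      apply Subgroup.centralizer_le_normalizer
      intro z hz
      obtain ⟨n, rfl⟩ := Subgroup.mem_zpowers_iff.mp hz
      rw [Subgroup.mem_centralizer_singleton_iff] at hc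
      have : Commute (g * x * g⁻¹) (g * c * g⁻¹) := by
        calc g * x * g⁻¹ * (g * c * g⁻¹) = g * (x * c) * g⁻¹ := by group
          _ = g * (c * x) * g⁻¹ := by rw [hc]
          _ = g * c * g⁻¹ * (g * x * g⁻¹) := by group
      exact this.zpow_left n
    obtain ⟨n, hn, hng⟩ := (H86.isSylowIn_of_le P hPC).frattini h2
    have h3 := hlc P le_rfl hP1 hng
    have h4 : g ∈ Subgroup.centralizer ({x} : Set G) := by
      have := Subgroup.mul_mem _ (Subgroup.inv_mem _ h3) hn
      simpa using this
    rw [Subgroup.mem_centralizer_singleton_iff] at h4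
    rw [h4]; group
  · obtain ⟨g, rfl⟩ := QuotientGroup.mk_surjective gb
    set H := R.comap (QuotientGroup.mk' N) with hH
    have hNH : N ≤ H := fun n hn => by
      rw [hH, Subgroup.mem_comap, QuotientGroup.mk'_apply, (QuotientGroup.eq_one_iff n).mpr hn]
      exact R.one_mem
    have hHP : ∀ y ∈ H, ∃ r ∈ (P : Subgroup G), ∃ n ∈ N, y = r * n := by
      intro y hy
      obtain ⟨r, hr, e⟩ := hR hy
      refine ⟨r, hr, r⁻¹ * y, QuotientGroup.eq.mp e, by group⟩
    have hS := (H86.isSylowIn_top P).inf_of_le_sup (N := N) le_top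
      (by rw [Subgroup.normalizer_eq_top]) hNH hHP
    have hS1 : (P : Subgroup G) ⊓ H ≠ ⊥ := by
      intro hb
      apply hR1
      rw [eq_bot_iff]
      intro y hy
      obtain ⟨r, hr, rfl⟩ := hR hy
      have : r ∈ (P : Subgroup G) ⊓ H := ⟨hr, hy⟩
      rw [hb, Subgroup.mem_bot] at this
      simp [this]
    have hgH : g ∈ Subgroup.normalizer (H : Set G) := by
      apply H86.mem_normalizer_of_conj_le
      intro b hb
      exact (Subgroup.mem_normalizer_iff.mp hgb _).mp hb
    obtain ⟨n, hn, hng⟩ := hS.frattini hgH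
    have h3 := hlc _ inf_le_left hS1 hng
    obtain ⟨r, hr, m, hm, rfl⟩ := hHP n hn
    have h4 : m * g ∈ Subgroup.centralizer ({x} : Set G) := by
      have := Subgroup.mul_mem _ (Subgroup.inv_mem _ (hPC hr)) h3
      simpa [mul_assoc] using this
    rw [Subgroup.mem_centralizer_singleton_iff] at h4 ⊢
    have := congrArg (QuotientGroup.mk' N) h4
    simpa [(QuotientGroup.eq_one_iff m).mpr hm] using this

end Cfsg.Agent.S2998
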