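import Cfsg.Statements.S2999
import Cfsg.Agent.H85.Bridge2

set_option autoImplicit false
open Cfsg

namespace Cfsg.Agent.S2999

open Subgroup Cfsg.Agent.H85

/-- Let p be a prime and let P and V be subgroups of a finite group with V elementary abelian, P normalizing V and acting faithfully on it (P ∩ C(V) = 1). Suppose P is p-minimal (a Sylow p-subgroup T of P is not normal and lies in a unique maximal subgroup M of P) and A ≤ T is an elementary abelian subgroup such that: |V/C_V(A)| ≤ |A| while |A₀|·|C_V(A₀)| < |A|·|C_V(A)| for every nontrivial proper subgroup A₀ of A; [C_V(T), P] ≠ 1; and P = ⟨A, xAx⁻¹⟩ for every x ∈ P outside M. Then, with q = |A|, there is a field F with q elements such that P ≅ SL₂(F), C_V(A) = [V, A]·C_V(P), and P acts on V/C_V(P) as SL₂(F) on its natural two-dimensional module. -/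
theorem result {G : Type*} [Group G] [Finite G] {p : ℕ} [Fact p.Prime] (V P : Subgroup G) (hV : Cfsg.IsElementaryAbelian p V) (hPV : P ≤ Subgroup.normalizer (V : Set G)) (hfaith : P ⊓ Subgroup.centralizer (V : Set G) = ⊥) (hmin : Cfsg.IsPMinimal p ↥P) (T : Sylow p ↥P) (M : Subgroup ↥P) (hM : IsCoatom M) (hTM : (T : Subgroup ↥P) ≤ M) (A : Subgroup G) (hAT : A ≤ ((T : Subgroup ↥P).map P.subtype)) (hAel : Cfsg.IsElementaryAbelian p A) (hi : Nat.card ↥V ≤ Nat.card ↥A * Nat.card ↥(V ⊓ Subgroup.centralizer ((A : Subgroup G) : Set G)) ∧ ∀ A₀ : Subgroup G, A₀ ≤ A → A₀ ≠ ⊥ → A₀ ≠ A → Nat.card ↥A₀ * Nat.card ↥(V ⊓ Subgroup.centralizer ((A₀ : Subgroup G) : Set G)) < Nat.card ↥A * Nat.card ↥(V ⊓ Subgroup.centralizer ((A : Subgroup G) : Set G))) (hii : ⁅(V ⊓ Subgroup.centralizer ((((T : Subgroup ↥P).map P.subtype) : Subgroup G) : Set G)), P⁆ ≠ ⊥) (hiii : ∀ x : ↥P, x ∉ M → A ⊔ A.map (MulAut.conj (x : G)).toMonoidHom = P) : ∃ (F : Type) (_ : Field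 F) (_ : Fintype F), Fintype.card F = Nat.card ↥A ∧ Nonempty (↥P ≃* Matrix.SpecialLinearGroup (Fin 2) F) ∧ (V ⊓ Subgroup.centralizer ((A : Subgroup G) : Set G)) = ⁅V, A⁆ ⊔ (V ⊓ Subgroup.centralizer ((P : Subgroup G) : Set G)) ∧ Cfsg.ActsAsSL2OnSection F ⊤ P V (V ⊓ Subgroup.centralizer ((P : Subgroup G) : Set G)) := by
  obtain ⟨W, _, _, j, h⟩ := exists_br hV.1 hPV
  haveI := h.finite
  have hAP : A ≤ P := hAT.trans (map_subtype_le _)
  have hpm := pmin_top_of_isPMinimal hmin T hM hTM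
  have hA0 : A ≠ ⊥ := by
    intro h0
    obtain ⟨x, -, hx⟩ := SetLike.exists_of_lt hM.1.lt_top
    have h1 := hiii x hx
    rw [h0, Subgroup.map_bot, bot_sup_eq] at h1
    have h2 : x = 1 := Subtype.ext (h1.ge x.2)
    exact hx (h2 ▸ M.one_mem)
  obtain ⟨B, F, _, _, ψ, σ, hσ, hinj, htop, hq⟩ := sl2_of_pmin (W := W) (h.smul_zero_of hV.2)
    (h.faith hfaith) hpm (A := A.subgroupOf P)
    (fun x hx => by
      obtain ⟨y, hy, e⟩ := hAT hx
      exact (Subtype.ext e : y = x) ▸ hy)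
    (h.min1 hAP hAel hA0 hi.1 hi.2)
    (fun hle => hii (by
      rw [← h.tr_fix]
      conv_lhs => arg 2; rw [← map_subtype_top P]
      exact h.commutator_tr_eq_bot.2 hle))
    (fun x hx => by
      apply map_injective P.subtype_injective
      rw [Subgroup.map_sup, map_subtype_cj, map_subgroupOf_eq_of_le hAP, map_subtype_top]
      exact hiii x hx)
  refine ⟨F, inferInstance, inferInstance, ?_,
    ⟨MulEquiv.ofBijective _ (homOfTop_bijective htop ⟨hinj, hσ.surjσ⟩)⟩, ?_, ?_⟩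
  · rw [← Nat.card_eq_fintype_card, hσ.card, card_subgroupOf hAP]
  · rw [← h.tr_fix' hAP, ← h.tr_cm' hAP, ← h.tr_fix_top, ← h.tr_sup, h.tr_inj, ← htop]
    exact le_antisymm hσ.fix_le (sup_le hq (fix_anti le_sup_left))
  · have := h.actsAsSL2 (le_refl P) (N := ⊤) (N₀ := fix W (⊤ : Subgroup P))
      (fun _ _ _ => AddSubgroup.mem_top _) le_top ψ (homOfTop htop σ)
      (homOfTop_surjective htop hσ.surjσ)
      (fun v => (hσ.surjψ v).imp fun w hw => ⟨AddSubgroup.mem_top w, hw⟩)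
      (fun w _ => by rw [hσ.ker, htop])
      (fun e w => hσ.act ⟨e, htop.ge (mem_top e)⟩ w)
    rwa [h.tr_top, h.tr_fix_top] at this

end Cfsg.Agent.S2999
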