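import Cfsg.Statements.S3000
import Cfsg.Agent.H85.Bridge3

set_option autoImplicit false
open Cfsg

namespace Cfsg.Agent.S3000

open Subgroup Cfsg.Agent.H85

/-- Let p be a prime and let P and V be subgroups of a finite group with V elementary abelian, P normalizing V and acting faithfully on it (P ∩ C(V) = 1). Suppose P is p-minimal (a Sylow p-subgroup T of P is not normal and lies in a unique maximal subgroup M of P), O_p(P) = 1, C_P(C_V(T)) ≤ M, and P has a best offender on V: a subgroup A not centralizing V, with A/C_A(V) elementary abelian, such that |B|·|C_V(B)| ≤ |A|·|C_V(A)| for every subgroup B of A. Then there are subgroups E₁, …, E_r of P (r ≥ 1), pairwise commuting and forming with T a product P = (E₁ × ⋯ × E_r)T (internal direct product of the E_i), any two of which are conjugate by an element of T, such that V = C_V(E₁⋯E_r)·∏[V, E_i] with [V, E_i, E_j] = 1 for i ≠ j, and for each i there is n ≥ 1 with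 either E_i ≅ SL₂(pⁿ) acting on [V, E_i]/C_{[V,E_i]}(E_i) as on its natural two-dimensional module, or p = 2 and E_i isomorphic to the symmetric group of degree 2ⁿ + 1 acting on [V, E_i]/C_{[V,E_i]}(E_i) as on its even-weight permutation module. -/
theorem result {G : Type*} [Group G] [Finite G] {p : ℕ} [Fact p.Prime] (V P : Subgroup G) (hV : Cfsg.IsElementaryAbelian p V) (hPV : P ≤ Subgroup.normalizer (V : Set G)) (hfaith : P ⊓ Subgroup.centralizer (V : Set G) = ⊥) (hmin : Cfsg.IsPMinimal p ↥P) (T : Sylow p ↥P) (M : Subgroup ↥P) (hM : IsCoatom M) (hTM : (T : Subgroup ↥P) ≤ M) (hOp : Cfsg.pCore p ↥P = ⊥) (hoff : ∃ A : Subgroup G, A ≤ P ∧ ¬ A ≤ Subgroup.centralizer (V : Set G) ∧ Cfsg.IsBestOffenderOn p V A) (hCT : P ⊓ Subgroup.centralizer ((V ⊓ Subgroup.centralizer ((((T : Subgroup ↥P).map P.subtype) : Subgroup G) : Set G)) : Set G) ≤ M.map P.subtype) : ∃ (r : ℕ) (E : Fin r → Subgroup G), 1 ≤ r ∧ (∀ i, E i ≤ P) ∧ (∀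 i j, i ≠ j → ⁅E i, E j⁆ = ⊥) ∧ (∀ i, E i ⊓ (⨆ j ∈ {j | j ≠ i}, E j) = ⊥) ∧ (⨆ i, E i) ⊔ ((T : Subgroup ↥P).map P.subtype) = P ∧ (∀ i j, ∃ t ∈ ((T : Subgroup ↥P).map P.subtype), (E i).map (MulAut.conj t).toMonoidHom = E j) ∧ (V ⊓ Subgroup.centralizer (((⨆ i, E i) : Subgroup G) : Set G)) ⊔ (⨆ i, ⁅V, E i⁆) = V ∧ (∀ i j, i ≠ j → ⁅⁅V, E i⁆, E j⁆ = ⊥) ∧ ∀ i, ∃ n : ℕ, 1 ≤ n ∧ ((∃ (F : Type) (_ : Field F) (_ : Fintype F), Fintype.card F = p ^ n ∧ Nonempty (↥(E i) ≃* Matrix.SpecialLinearGroup (Fin 2) F) ∧ Cfsg.ActsAsSL2OnSection F ⊤ (E i) ⁅V, E i⁆ (⁅V, E i⁆ ⊓ Subgroup.centralizer ((E i : Subgroup G) : Set G))) ∨ (p = 2 ∧ Nonempty (↥(E i) ≃* Equiv.Perm (Fin (2 ^ n + 1))) ∧ Cfsg.ActsAsOddPermModuleOnSection (2 ^ n + 1) ⊤ (E i) ⁅V, E i⁆ (⁅V, E i⁆ ⊓ Subgroup.centralizer ((E i : Subgroup G) : Set G)))) := by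
  obtain ⟨W, _, _, j, h⟩ := exists_br hV.1 hPV
  haveI := h.finite
  have hpm := pmin_top_of_isPMinimal hmin T hM hTM
  have hFF : FF p W (T : Subgroup P) M := ⟨h.smul_zero_of hV.2, h.faith hfaith, hpm, hOp,
    fun hle => hM.1 (by
      rw [← h.tr_le_tr, h.tr_fix, h.tr_fix_top] at hle
      apply map_injective P.subtype_injective
      rw [map_subtype_top]
      exact le_antisymm (map_subtype_le M) ((le_inf le_rfl
        (le_centralizer_iff.1 (hle.trans inf_le_right))).trans hCT))⟩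
  have hex := h.exists_min1 hfaith hoff
  obtain ⟨𝓔, hD⟩ := hFF.decomp hex
  obtain ⟨r, e, hr, hinj, hmem, hgen⟩ := hD.exists_fin
  haveI : Nonempty (Fin r) := ⟨⟨0, hr⟩⟩
  have hf : Function.Surjective (MonoidHom.id P) := Function.surjective_id
  have hact : ∀ (g : P) (w : W), MonoidHom.id P g • w = g • w := fun _ _ => rfl
  have hb : ∀ E, Function.Bijective (Br.preHom (MonoidHom.id P) E) := fun E =>
    ⟨fun x y hxy => Subtype.ext (congrArg (fun z : E => ((z : P) : G)) hxy),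
      Br.preHom_surjective hf E⟩
  refine ⟨r, fun i => Br.pre (MonoidHom.id P) (e i), hr, fun i => map_subtype_le _,
    fun i k hik => ?_, fun i => ?_, ?_, fun i k => ?_,
    h.sup_pre_eq hf hact (fix_iSup_sup_cm e (fun i => hD.sup _ (hmem i))
      fun i k hik => hD.orth _ (hmem i) _ (hmem k) (hinj.ne hik)),
    fun i k hik => h.commutator_pre_eq_bot hf hact (hD.orth _ (hmem i) _ (hmem k) (hinj.ne hik)),
    fun i => ?_⟩
  · rw [← Subgroup.map_commutator, map_subtype_eq_bot, commutator_eq_bot_iff_le_centralizer]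
    exact hD.le_centralizer hFF.faith (hmem i) (hmem k) (hinj.ne hik)
  · simp only [Br.pre, comap_id, ← Subgroup.map_iSup]
    rw [← Subgroup.map_inf _ _ _ P.subtype_injective, hD.inf_iSup hinj hmem, Subgroup.map_bot]
  · simp only [Br.pre, comap_id, ← Subgroup.map_iSup]
    rw [← Subgroup.map_sup, hgen, hFF.dg_sup hex, map_subtype_top]
  · obtain ⟨t, ht, h1⟩ := hD.trans _ (hmem i) _ (hmem k)
    refine ⟨t, mem_map_of_mem _ ht, ?_⟩
    simp only [Br.pre, comap_id]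
    rw [← h1, map_subtype_cj]
  · obtain ⟨n, hn, ⟨F, _, _, h1, h2⟩ | ⟨h1, h2⟩⟩ := hD.nat _ (hmem i)
    · obtain ⟨⟨σ, hσ⟩, h3⟩ := h.natSL2 hf hact h2
      exact ⟨n, hn, Or.inl ⟨F, inferInstance, inferInstance, h1,
        ⟨MulEquiv.ofBijective (σ.comp (Br.preHom _ _)) (hσ.comp (hb _))⟩, h3⟩⟩
    · obtain ⟨⟨σ, hσ⟩, h3⟩ := h.natOdd hf hact h2
      exact ⟨n, hn, Or.inr ⟨h1,
        ⟨MulEquiv.ofBijective (σ.comp (Br.preHom _ _)) (hσ.comp (hb _))⟩, h3⟩⟩

end Cfsg.Agent.S3000
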