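import Cfsg.Statements.S3003
import Cfsg.Agent.H83.Parab
import Cfsg.Agent.H3.Cores
import Cfsg.Agent.H4.CoprimeGen
import Cfsg.Agent.H3.Frattini

set_option autoImplicit false
open Cfsg

namespace Cfsg.Agent.S3003

open Subgroup Cfsg.Agent.H83
open scoped commutatorElement

/-- Let G be a finite group, p a prime and Q a large p-subgroup of G: C_G(Q) ≤ Q and N_G(U) ≤ N_G(Q) for every nontrivial subgroup U of C_G(Q). Let Q ≤ G₁ ≤ G, let R be a subgroup of order prime to p normalized by G₁, and let U ≤ G₁ be a p-subgroup. If U contains a nontrivial element which is G₁-conjugate to an element of Z(Q), then C_R(U) = 1. In particular, if U is elementary abelian of order at least p² and every maximal subgroup of U contains a nontrivial element G₁-conjugate into Z(Q), then R = 1. -/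
theorem result {G : Type*} [Group G] [Finite G] {p : ℕ} [Fact p.Prime] (Q : Subgroup G) (hQp : IsPGroup p ↥Q) (hlarge : Cfsg.IsLarge Q) (G₁ : Subgroup G) (hQG : Q ≤ G₁) (R : Subgroup G) (hR : (Nat.card ↥R).Coprime p) (hGR : G₁ ≤ Subgroup.normalizer (R : Set G)) (U : Subgroup G) (hUG : U ≤ G₁) (hUp : IsPGroup p ↥U) : ((∃ x ∈ U, x ≠ 1 ∧ ∃ g ∈ G₁, g * x * g⁻¹ ∈ Q ⊓ Subgroup.centralizer (Q : Set G)) → R ⊓ Subgroup.centralizer (U : Set G) = ⊥) ∧ (Cfsg.IsElementaryAbelian p U → p ^ 2 ≤ Nat.card ↥U → (∀ U₀ : Subgroup G, U₀ ≤ U → IsCoatom (U₀.subgroupOf U) → ∃ x ∈ U₀, x ≠ 1 ∧ ∃ g ∈ G₁, g * x * g⁻¹ ∈ Q ⊓ Subgroup.centralizer (Q : Set G)) → R = ⊥) := by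
  have key : ∀ x : G, x ≠ 1 → (∃ g ∈ G₁, g * x * g⁻¹ ∈ Q ⊓ centralizer (Q : Set G)) →
      R ⊓ centralizer {x} = ⊥ := by
    rintro x hx1 ⟨g, hg, hy⟩
    set y := g * x * g⁻¹ with hy'
    have hy1 : y ≠ 1 := by
      intro e; apply hx1
      have : x = g⁻¹ * y * g := by rw [hy']; group
      rw [this, e]; group
    have h1 : centralizer {y} ≤ normalizer (Q : Set G) := by
      rw [← centralizer_zpowers]
      exact (centralizer_le_normalizer _).trans
        (hlarge.2 _ (zpowers_le.mpr hy.2) (by simpa using hy1))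
    have h2 : ⁅Q, R ⊓ centralizer {y}⁆ = ⊥ := by
      rw [eq_bot_iff, ← H3.inf_eq_bot_of_isPGroup_of_coprime hQp hR]
      refine le_inf (comm_le_left (inf_le_right.trans h1)) ?_
      exact (commutator_mono le_rfl inf_le_left).trans (comm_le_right (hQG.trans hGR))
    have h3 : R ⊓ centralizer {y} = ⊥ := by
      rw [eq_bot_iff, ← H3.inf_eq_bot_of_isPGroup_of_coprime hQp hR]
      exact le_inf ((comm_eq_bot_iff.mp h2).trans hlarge.1) inf_le_left
    rw [← cj_eq_bot_iff (g := g), cj_inf, cj_eq_self (hGR hg), cj_cent_singleton, h3]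
  refine ⟨fun ⟨x, hx, hx1, hg⟩ => ?_, fun hea hcard h => ?_⟩
  · rw [eq_bot_iff, ← key x hx1 hg]
    exact inf_le_inf_left _ (cent_le_cent_singleton hx)
  · haveI : IsMulCommutative U := hea.1
    rw [eq_bot_iff]
    refine H4.le_of_centralizer_cocyclic_le (A := U) (hUG.trans hGR)
      (H4.coprime_card_of_isPGroup hR hUp).symm fun B hB ⟨a, ha, hBa⟩ => ?_
    have hp : p.Prime := Fact.out
    obtain ⟨U₀, h1, h2⟩ : ∃ U₀ : Subgroup G, U₀ ≤ B ∧ IsCoatom (U₀.subgroupOf U) := by
      by_cases haB : a ∈ B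
      · have hBU : B = U := by rw [← hBa, sup_eq_left.mpr (zpowers_le.mpr haB)]
        have hU0 : (⊥ : Subgroup U) ≠ ⊤ := by
          intro e
          have : Nat.card U = 1 := by
            rw [← card_top (G := U), ← e, card_bot]
          rw [this] at hcard
          have := Nat.one_lt_pow two_ne_zero hp.one_lt
          omega
        obtain ⟨M, hM, -⟩ := H3.exists_coatom_ge hU0
        exact ⟨M.map U.subtype, hBU ▸ map_subtype_le M, by rwa [map_subtype_subgroupOf]⟩
      · refine ⟨B, le_rfl, H3.isCoatom_of_index_prime ?_⟩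
        have h3 := H3.relIndex_sup_zpowers_eq (K := B.subgroupOf U) (x := ⟨a, ha⟩) hp haB
          (by rw [mem_subgroupOf]; simp [(isEA_iff.mp hea).2 a ha])
        have h4 : B.subgroupOf U ⊔ zpowers (⟨a, ha⟩ : U) = ⊤ := by
          apply map_injective U.subtype_injective
          rw [Subgroup.map_sup, subgroupOf_map_of_le hB, MonoidHom.map_zpowers,
            ← MonoidHom.range_eq_map, range_subtype]
          exact hBa
        rw [h4, relIndex_top_right] at h3
        rwa [h3]
    obtain ⟨x, hx, hx1, hg⟩ := h U₀ (h1.trans hB) h2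
    rw [← key x hx1 hg]
    exact inf_le_inf_left _ (cent_le_cent_singleton (h1 hx))

end Cfsg.Agent.S3003
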