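import Cfsg.Statements.S3008
import Cfsg.Agent.H86.CL2

set_option autoImplicit false
open Cfsg

namespace Cfsg.Agent.S3008

/-- Let P be a finite p-group, with J(P) generated by its abelian subgroups of largest order and J̃(P) = C_P(Z(J(P))); call R ≤ P centrally large if |R|·|Z(R)| is as large as possible, and let P_MCL be generated by the minimal centrally large subgroups. Then: for every centrally large Q, Q·J(P) ⊇ J̃(P); some minimal centrally large subgroup of P is normalized by both J(P) and P_MCL; if P = J(P) and d(P)² = |P|·|Z(P)|, where d(P) is the largest order of an abelian subgroup, then every minimal centrally large subgroup of P is abelian; and if every minimal centrally large subgroup is abelian then J̃(P) = J(P). -/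
theorem result {p : ℕ} [Fact p.Prime] (P : Type*) [Group P] [Finite P] (hP : IsPGroup p P) : (∀ Q : Subgroup P, Cfsg.IsCentrallyLarge Q → Subgroup.centralizer ((Cfsg.thompsonSubgroupA P ⊓ Subgroup.centralizer (Cfsg.thompsonSubgroupA P : Set P) : Subgroup P) : Set P) ≤ Q ⊔ Cfsg.thompsonSubgroupA P) ∧ (∃ Q : Subgroup P, Cfsg.IsMinimalCentrallyLarge Q ∧ Cfsg.thompsonSubgroupA P ≤ Subgroup.normalizer (Q : Set P) ∧ Cfsg.minimalCentrallyLargeJoin P ≤ Subgroup.normalizer (Q : Set P)) ∧ (Cfsg.thompsonSubgroupA P = ⊤ → (∀ A ∈ Cfsg.maxAbelianSubgroups P, Nat.card ↥A ^ 2 = Nat.card P * Nat.card ↥(Subgroup.center P)) → ∀ Q : Subgroup P, Cfsg.IsMinimalCentrallyLarge Q → IsMulCommutative ↥Q) ∧ ((∀ Q : Subgroup P, Cfsg.IsMinimalCentrallyLarge Q → IsMulCommutative ↥Q) → Subgroup.centralizer ((Cfsg.thompsonSubgroupA P ⊓ Subgroup.centralizer (Cfsg.thompsonSubgroupA P : Set P) : Subgroup P) : Set P) = Cfsg.thompsonSubgroupA P) := by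
  refine ⟨fun Q hQ => H86.IsCentrallyLarge.centralizer_center_thompson_le hQ,
    H86.exists_minimal_normalized hP, fun hJ hd Q hQ => ?_, fun h => ?_⟩
  · obtain ⟨A, hA⟩ := H51.maxEA_nonempty 0 (⊤ : Subgroup P)
    rw [H51.maxEA_top, ← H51.maxAbelianSubgroups_eq] at hA
    have h1 := H86.IsCentrallyLarge.sup_thompson hQ.1
    rw [hJ, sup_top_eq, H86.isCentrallyLarge_iff, top_inf_eq, Subgroup.coe_top,
      Subgroup.centralizer_univ, Subgroup.card_top, ← hd A hA] at h1
    have h2 : IsCentrallyLarge A := by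
      rw [H86.isCentrallyLarge_iff, H86.centralizer_eq_of_maxAbelian hA, inf_idem, ← h1, pow_two]
    obtain ⟨X, hX, hXA⟩ := H86.IsCentrallyLarge.exists_minimal h2
    exact ((H86.IsMinimalCentrallyLarge.iff_maxAbelian hX
      (H51.isMulCommutative_of_le hA.1 hXA) Q).mp hQ).1
  · obtain ⟨Q, hQ⟩ := H86.exists_isMinimalCentrallyLarge P
    have h1 : Q ≤ thompsonSubgroupA P :=
      le_sSup ((H86.IsMinimalCentrallyLarge.iff_maxAbelian hQ (h Q hQ) Q).mp hQ)
    refine le_antisymm ((H86.IsCentrallyLarge.centralizer_center_thompson_le hQ.1).trans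
      (sup_le h1 le_rfl)) ?_
    exact (H86.centralizer_centralizer_ge _).trans (H53.centralizer_anti inf_le_right)

end Cfsg.Agent.S3008
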