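import Cfsg.Statements.S3009
import Cfsg.Agent.H82.SL2Irred

set_option autoImplicit false
open Cfsg

namespace Cfsg.Agent.S3009

/-- Let p be a prime and let G and V be subgroups of a finite group with V elementary abelian and normalized by G, and G isomorphic to SL₂(F) for a finite field F with pⁿ elements. Suppose G acts irreducibly and nontrivially on V by conjugation (no G-invariant subgroups of V other than 1 and V, and [V, G] ≠ 1), and let S be a Sylow p-subgroup of G and V₀ = C_V(S). If [V, S, S] = 1 or |V| ≤ |V₀|², then G acts on V as SL₂(F) on its natural two-dimensional module; in particular |V| = |F|². -/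
theorem result {X : Type*} [Group X] [Finite X] {p : ℕ} [Fact p.Prime] (G V : Subgroup X) (hV : Cfsg.IsElementaryAbelian p V) (hGV : G ≤ Subgroup.normalizer (V : Set X)) (F : Type) [Field F] [Fintype F] (n : ℕ) (hF : Fintype.card F = p ^ n) (hG : Nonempty (↥G ≃* Matrix.SpecialLinearGroup (Fin 2) F)) (hirr : ∀ U : Subgroup X, U ≤ V → G ≤ Subgroup.normalizer (U : Set X) → U = ⊥ ∨ U = V) (hnt : ⁅V, G⁆ ≠ ⊥) (S : Sylow p ↥G) (hyp : ⁅⁅V, (S : Subgroup ↥G).map G.subtype⁆, (S : Subgroup ↥G).map G.subtype⁆ = ⊥ ∨ Nat.card ↥V ≤ Nat.card ↥(V ⊓ Subgroup.centralizer (((S : Subgroup ↥G).map G.subtype : Subgroup X) : Set X)) ^ 2) : Cfsg.ActsAsSL2OnSection F ⊤ G V ⊥ := by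
  open Subgroup H82 in
  have hS := H8.isSylowIn_map_subtype S
  set T := (S : Subgroup G).map G.subtype
  obtain ⟨e⟩ := hG
  obtain ⟨x, hs⟩ := exists_stdSyl hF (ρ := e.toMonoidHom) e.surjective hS
  set ρ := (MulAut.conj x).toMonoidHom.comp e.toMonoidHom
  have hρ : Function.Bijective ρ := (MulAut.conj x).bijective.comp e.bijective
  have := hV.1
  obtain ⟨M, _, _, θ, h⟩ := exists_secMap (G := G) (V := V) (V₀ := ⊥) bot_le hGV
    (by rw [normalizer_eq_top]; exact le_top)
    (by rw [le_bot_iff, commutator_eq_bot_iff_le_centralizer]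
        intro a ha b hb
        exact congrArg Subtype.val (mul_comm' (⟨b, hb⟩ : V) ⟨a, ha⟩))
  have := h.finite
  obtain ⟨_, hd⟩ := exists_descend (M := M) ρ hρ.2 (fun g hg m => by
    rw [hρ.1 (hg.trans (map_one ρ).symm), one_smul])
  refine (exists_equiv_of_irred (M := M) hF
    (h.isPGroup (H83.isPGroup_iff.2 fun x hx => ⟨1, by rw [pow_one, hV.2 x hx]⟩)) ?_ ?_ ?_).elim
    fun Φ hΦ => (h.natMap (ρ := ρ) Φ fun g v => by rw [hΦ, hd]).actsAs hρ.2
  · intro N hN
    rcases hirr (h.pre N) (h.pre_le N) (h.le_normalizer_pre le_rfl fun g _ m hm => by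
      rw [← hd]; exact hN _ m hm) with h1 | h1
    · left
      exact (h.img_pre N).symm.trans ((congrArg h.img (h1.trans h.pre_bot.symm)).trans (h.img_pre _))
    · right
      exact (h.img_pre N).symm.trans ((congrArg h.img (h1.trans h.pre_top.symm)).trans (h.img_pre _))
  · by_contra hc
    push Not at hc
    apply hnt
    rw [eq_bot_iff, commutator_le]
    intro v hv g hg
    rw [← h.smul_eq_iff ⟨g, hg⟩ hv, ← hd]
    exact hc _ _
  · refine hyp.imp (fun hq s t m => ?_) (fun hc => ?_)
    · obtain ⟨a, ha, he⟩ := hs.surj s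
      obtain ⟨b, hb, he'⟩ := hs.surj t
      obtain ⟨v, hv, rfl⟩ := h.surj m
      rw [← he, ← he', hd, hd, ← neg_sub, ← h.map_commutator' b hv, smul_neg, neg_inj,
        h.smul_eq_iff a (h.commutator_mem' b.2 hv), ← hq]
      exact commutator_mem_commutator (commutator_mem_commutator hv hb) ha
    · have h1 : h.pre (fixS M (UU F)) = V ⊓ centralizer (T : Set X) := by
        ext v
        rw [h.mem_pre, mem_inf, mem_centralizer_iff]
        refine and_congr_right fun hv => ⟨fun h1 t ht => ?_, fun h1 => mem_fixS_UU.2 fun s => ?_⟩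
        · have := h1 _ (hs.mem ⟨t, hs.le ht⟩ ht)
          rwa [hd, h.smul_eq_iff' _ hv, mem_bot, commutatorElement_eq_one_iff_mul_comm] at this
        · obtain ⟨a, ha, he⟩ := hs.surj s
          rw [← he, hd, h.smul_eq_iff' _ hv, mem_bot, commutatorElement_eq_one_iff_mul_comm]
          exact h1 a ha
      have h2 : Nat.card M = Nat.card V := by rw [h.card_eq, relIndex_bot_left]
      have h3 := H3.card_mul_relIndex (h.pre_le (fixS M (UU F)))
      rw [h.relIndex_pre, h1, ← h2, ← (fixS M (UU F)).card_mul_index] at h3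
      rw [h2, ← Nat.eq_of_mul_eq_mul_right (Nat.pos_of_ne_zero AddSubgroup.FiniteIndex.index_ne_zero) h3]
      exact hc

end Cfsg.Agent.S3009
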