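import Cfsg.Statements.S3012
import Cfsg.Agent.H86.Basic

set_option autoImplicit false
open Cfsg

namespace Cfsg.Agent.S3012

/-- Let G be a finite group, V a nontrivial elementary abelian 2-subgroup of G satisfying the Sidki pair condition (every odd-order element inverted by an element of V commutes with a nontrivial element of V), and K a normal subgroup of G with V ∩ K = 1. Then the image of V in G/K satisfies the Sidki pair condition in G/K. -/
theorem result {G : Type*} [Group G] [Finite G] (V K : Subgroup G) [K.Normal] (hV : Cfsg.IsElementaryAbelian 2 V) (hV1 : V ≠ ⊥) (hS : Cfsg.IsSidkiPair V) (hVK : V ⊓ K = ⊥) : Cfsg.IsSidkiPair (V.map (QuotientGroup.mk' K)) := by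
  intro hb vb hvb hodd hinv
  obtain ⟨h, rfl⟩ := QuotientGroup.mk_surjective hb
  obtain ⟨v, hv, rfl⟩ := hvb
  have hv2 : v * v = 1 := by rw [← pow_two]; exact hV.2 v hv
  have hvi : v⁻¹ = v := inv_eq_of_mul_eq_one_right hv2
  set h0 := v * h⁻¹ * v⁻¹ * h with hh0
  have hinv0 : v * h0 * v⁻¹ = h0⁻¹ := by
    calc v * h0 * v⁻¹ = (v * v) * h⁻¹ * v⁻¹ * h * v⁻¹ := by rw [hh0]; group
      _ = h⁻¹ * v * h * v⁻¹ := by rw [hv2, hvi]; group
      _ = h0⁻¹ := by rw [hh0]; group
  have hne : orderOf h0 ≠ 0 := (orderOf_pos h0).ne'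
  set k := (orderOf h0).factorization 2 with hk
  have hodd1 : Odd (orderOf (h0 ^ 2 ^ k)) := by
    rw [orderOf_pow' _ (pow_ne_zero _ two_ne_zero), Nat.gcd_eq_right (Nat.ordProj_dvd _ _)]
    exact Nat.coprime_two_left.mp (Nat.coprime_ordCompl Nat.prime_two hne)
  have hinv1 : v * h0 ^ 2 ^ k * v⁻¹ = (h0 ^ 2 ^ k)⁻¹ := by
    rw [← conj_pow, hinv0, inv_pow]
  obtain ⟨w, hwV, hw1, hw⟩ := hS _ v hv hodd1 hinv1
  refine ⟨QuotientGroup.mk' K w, ⟨w, hwV, rfl⟩, fun e => hw1 ?_, ?_⟩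
  · rw [← Subgroup.mem_bot, ← hVK]
    exact ⟨hwV, (QuotientGroup.eq_one_iff w).mp e⟩
  · have e0 : QuotientGroup.mk' K h0 = (h : G ⧸ K) ^ 2 := by
      have : QuotientGroup.mk' K h0 =
          (QuotientGroup.mk' K v * (h : G ⧸ K) * (QuotientGroup.mk' K v)⁻¹)⁻¹ * (h : G ⧸ K) := by
        simp [hh0, mul_assoc]
      rw [this, hinv, inv_inv, pow_two]
    have e1 : Commute (QuotientGroup.mk' K w) ((h : G ⧸ K) ^ 2 ^ (k + 1)) := by
      have := congrArg (QuotientGroup.mk' K) hw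
      rw [map_mul, map_mul, map_pow, e0, ← pow_mul, ← pow_succ'] at this
      exact this
    have hcop : (2 ^ (k + 1)).Coprime (orderOf (h : G ⧸ K)) :=
      Nat.Coprime.pow_left _ (Nat.coprime_two_left.mpr hodd)
    obtain ⟨m, hm⟩ := exists_pow_eq_self_of_coprime hcop
    rw [← hm]
    exact e1.pow_right _

end Cfsg.Agent.S3012
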