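import Cfsg.Statements.S3013
import Cfsg.Agent.H86.Basic

set_option autoImplicit false
open Cfsg

namespace Cfsg.Agent.S3013

theorem comm_of_sq {G : Type*} [Group G] {w h : G} (hh : Odd (orderOf h))
    (hc : Commute w (h ^ 2)) : Commute w h := by
  obtain ⟨k, hk⟩ := hh
  have : h = (h ^ 2) ^ (k + 1) := by
    rw [← pow_mul, show 2 * (k + 1) = orderOf h + 1 by omega, pow_succ, pow_orderOf_eq_one,
      one_mul]
  rw [this]
  exact hc.pow_right _

/-- Let G be a finite group and V a nontrivial elementary abelian 2-subgroup of G satisfying the Sidki pair condition. Let v ∈ V and let x be an element of odd order inverted by v, and put C = C_G(v) ∩ C_G(x), the centralizer of the dihedral subgroup generated by v and x. Then C ∩ V is nontrivial and satisfies the Sidki pair condition inside C: every odd-order element of C inverted by an element of C ∩ V commutes with a nontrivial element of C ∩ V. -/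
theorem result {G : Type*} [Group G] [Finite G] (V : Subgroup G) (hV : Cfsg.IsElementaryAbelian 2 V) (hV1 : V ≠ ⊥) (hS : Cfsg.IsSidkiPair V) (v x : G) (hv : v ∈ V) (hx : Odd (orderOf x)) (hinv : v * x * v⁻¹ = x⁻¹) (C : Subgroup G) (hC : C = Subgroup.centralizer ({v} : Set G) ⊓ Subgroup.centralizer ({x} : Set G)) : C ⊓ V ≠ ⊥ ∧ Cfsg.IsSidkiPair ((C ⊓ V).subgroupOf C) := by
  subst hC
  have hcomm : ∀ a ∈ V, ∀ b ∈ V, a * b = b * a := fun a ha b hb =>
    congrArg Subtype.val (hV.1.is_comm.comm ⟨a, ha⟩ ⟨b, hb⟩)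
  constructor
  · obtain ⟨w, hwV, hw1, hw⟩ := hS x v hv hx hinv
    intro hbot
    apply hw1
    rw [← Subgroup.mem_bot, ← hbot]
    refine Subgroup.mem_inf.mpr ⟨Subgroup.mem_inf.mpr ⟨?_, ?_⟩, hwV⟩
    · rw [Subgroup.mem_centralizer_singleton_iff]; exact hcomm _ hwV _ hv
    · rw [Subgroup.mem_centralizer_singleton_iff]; exact hw
  · rintro ⟨h, hhC⟩ ⟨u, huC⟩ hu hh huh
    have huV : u ∈ V := (Subgroup.mem_inf.mp (Subgroup.mem_subgroupOf.mp hu)).2
    have hh' : Odd (orderOf h) := by rwa [← Subgroup.orderOf_coe] at hh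
    have huh' : u * h * u⁻¹ = h⁻¹ := congrArg Subtype.val huh
    obtain ⟨hhv, hhx⟩ := Subgroup.mem_inf.mp hhC
    obtain ⟨huv, hux⟩ := Subgroup.mem_inf.mp huC
    rw [Subgroup.mem_centralizer_singleton_iff] at hhv hhx huv hux
    have hc : Commute h x := hhx
    have hodd : Odd (orderOf (h * x)) :=
      Odd.of_dvd_nat (hh'.mul hx) hc.orderOf_mul_dvd_mul_orderOf
    have e1 : v * (h * x) * v⁻¹ = h * x⁻¹ := by
      calc v * (h * x) * v⁻¹ = (v * h) * x * v⁻¹ := by group
        _ = h * (v * x * v⁻¹) := by rw [← hhv]; group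
        _ = h * x⁻¹ := by rw [hinv]
    have hxu : Commute u x := hux
    have hinv' : u * v * (h * x) * (u * v)⁻¹ = (h * x)⁻¹ := by
      calc u * v * (h * x) * (u * v)⁻¹ = u * (v * (h * x) * v⁻¹) * u⁻¹ := by group
        _ = (u * h * u⁻¹) * (u * x⁻¹) * u⁻¹ := by rw [e1]; group
        _ = h⁻¹ * x⁻¹ := by rw [huh', hxu.inv_right.eq]; group
        _ = (h * x)⁻¹ := by rw [hc.eq]; group
    obtain ⟨w, hwV, hw1, hw⟩ := hS (h * x) (u * v) (V.mul_mem huV hv) hodd hinv'
    have hwv : Commute w v := hcomm _ hwV _ hv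
    have hw' : Commute w (h * x) := hw
    have hw2 : Commute w (h * x⁻¹) := by
      rw [← e1]; exact (hwv.mul_right hw').mul_right hwv.inv_right
    have hwh : Commute w h := by
      apply comm_of_sq hh'
      have : h ^ 2 = (h * x) * (h * x⁻¹) := by
        calc h ^ 2 = h * (h * x) * x⁻¹ := by rw [pow_two]; group
          _ = h * (x * h) * x⁻¹ := by rw [hc.eq]
          _ = (h * x) * (h * x⁻¹) := by group
      rw [this]; exact hw'.mul_right hw2
    have hwx : Commute w x := by
      have : x = h⁻¹ * (h * x) := by group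
      rw [this]; exact hwh.inv_right.mul_right hw'
    have hwC : w ∈ Subgroup.centralizer ({v} : Set G) ⊓ Subgroup.centralizer ({x} : Set G) := by
      refine Subgroup.mem_inf.mpr ⟨?_, ?_⟩
      · rw [Subgroup.mem_centralizer_singleton_iff]; exact hwv
      · rw [Subgroup.mem_centralizer_singleton_iff]; exact hwx
    refine ⟨⟨w, hwC⟩, Subgroup.mem_subgroupOf.mpr (Subgroup.mem_inf.mpr ⟨hwC, hwV⟩),
      fun e => hw1 (congrArg Subtype.val e), Subtype.ext hwh⟩

end Cfsg.Agent.S3013
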