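import Cfsg.Statements.S3014
import Cfsg.Agent.H86.TransferTI
import Cfsg.Agent.H4.CoprimeAction

set_option autoImplicit false
open Cfsg

namespace Cfsg.Agent.S3014

open Subgroup
open scoped Pointwise

/-- Let G be a finite group and H ≤ M ≤ G subgroups such that for every g ∈ G the subgroup generated by H and g H g⁻¹ meets M exactly in H. If H is a maximal subgroup of M and M is a maximal subgroup of G, then the normal closure of H in G meets M exactly in H. -/
theorem result {G : Type*} [Group G] [Finite G] (H M : Subgroup G) (hHM : H ≤ M) (hcl : ∀ g : G, (H ⊔ H.map (MulAut.conj g).toMonoidHom) ⊓ M = H) (hmaxH : IsCoatom (H.subgroupOf M)) (hmaxM : IsCoatom M) : Subgroup.normalClosure (H : Set G) ⊓ M = H := by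
  simp only [← H4.conj_smul_eq_map] at hcl
  have hconj : ∀ g, MulAut.conj g • H ≤ M → g ∈ normalizer (H : Set G) := fun g hg => by
    have h1 : MulAut.conj g • H ≤ H := by
      conv_rhs => rw [← hcl g]
      exact le_inf le_sup_right hg
    rw [H4.mem_normalizer_iff_conj_smul]
    exact eq_of_le_of_card_ge h1 (H4.card_conj_smul H g).ge
  have hMN : M ≤ normalizer (H : Set G) := fun m hm => hconj m fun x hx => by
    rw [H4.mem_conj_smul_iff] at hx
    have := mul_mem (mul_mem hm (hHM hx)) (inv_mem hm)
    simpa [mul_assoc] using this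
  have hne : ¬ M ≤ H := fun h => hmaxH.1 (subgroupOf_eq_top.mpr h)
  by_cases hHn : H.Normal
  · rw [normalClosure_eq_self]; exact inf_eq_left.mpr hHM
  have hNM : normalizer (H : Set G) = M := by
    rcases hmaxM.le_iff.mp hMN with h | h
    · exact absurd (normalizer_eq_top_iff.mp h) hHn
    · exact h
  by_contra hcon
  have hMle : M ≤ normalClosure (H : Set G) := by
    rcases H86.eq_or_eq_of_isCoatom_subgroupOf hmaxH (le_inf le_normalClosure hHM) inf_le_right
      with h | h
    · exact absurd h hcon
    · exact h ▸ inf_le_left
  obtain ⟨N, hN, hNM', -⟩ := H86.exists_normal_inf_eq_of_ti hHM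
    (H86.commutator_le_of_isCoatom_subgroupOf hHM hmaxH hMN) (fun g hg x hx hx' => by
      by_contra hxH
      set T := H ⊔ MulAut.conj g • H with hT
      have hxT : x ∈ normalizer (T : Set G) := by
        have : zpowers x ≤ normalizer (T : Set G) := by
          refine H4.le_normalizer_sup ((zpowers_le_of_mem hx).trans hMN) (zpowers_le_of_mem ?_)
          rw [H86.normalizer_conj_smul, H4.mem_conj_smul_iff, hNM]
          exact hx'
        exact this (mem_zpowers x)
      have h1 : M ≤ normalizer (T : Set G) :=
        H86.le_of_isCoatom_subgroupOf hHM hmaxH (le_sup_left.trans le_normalizer) hx hxH hxT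
      rcases hmaxM.le_iff.mp h1 with h | h
      · have hTn : T.Normal := normalizer_eq_top_iff.mp h
        have : normalClosure (H : Set G) ≤ T := normalClosure_le_normal (le_sup_left (a := H))
        exact hne ((le_inf (hMle.trans this) le_rfl).trans (hcl g).le)
      · exact hg (hNM ▸ hconj g (h ▸ le_sup_right.trans le_normalizer)))
  have : normalClosure (H : Set G) ≤ N := normalClosure_le_normal (hNM' ▸ inf_le_left : H ≤ N)
  exact hne ((le_inf (hMle.trans this) le_rfl).trans hNM'.le)

end Cfsg.Agent.S3014
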