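import Cfsg.Statements.S3015
import Cfsg.Agent.S3014
import Cfsg.Agent.H7.PBasic

set_option autoImplicit false
open Cfsg

namespace Cfsg.Agent.S3015

open Subgroup
open scoped Pointwise

/-- Let G be a finite non-abelian simple group, M a maximal subgroup of G and H a normal subgroup of M of prime index in M. Then G is generated by H together with one of its conjugates. -/
theorem result {G : Type*} [Group G] [Finite G] [IsSimpleGroup G] (hG : ¬ IsMulCommutative G) (M H : Subgroup G) (hmaxM : IsCoatom M) (hHM : H ≤ M) (hHn : (H.subgroupOf M).Normal) (hidx : (H.relIndex M).Prime) : ∃ g : G, H ⊔ H.map (MulAut.conj g).toMonoidHom = ⊤ := by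
  simp only [← H4.conj_smul_eq_map]
  by_contra hcon
  push Not at hcon
  have hmaxH : IsCoatom (H.subgroupOf M) := H7.isCoatom_of_index_prime hidx
  have hMN : M ≤ normalizer (H : Set G) := (normal_subgroupOf_iff_le_normalizer hHM).mp hHn
  have hne : ¬ M ≤ H := fun h => hmaxH.1 (subgroupOf_eq_top.mpr h)
  have hMbot : M ≠ ⊥ := fun h => hne (h ▸ bot_le)
  -- normalizers of proper nontrivial subgroups are proper
  have hnorm : ∀ T L : Subgroup G, T ≠ ⊥ → T ≠ ⊤ → IsCoatom L → L ≤ normalizer (T : Set G) →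
      normalizer (T : Set G) = L := fun T L h1 h2 hL h => by
    rcases hL.le_iff.mp h with h | h
    · rcases (normalizer_eq_top_iff.mp h).eq_bot_or_eq_top with h | h
      · exact absurd h h1
      · exact absurd h h2
    · exact h
  have hMM : normalizer (M : Set G) = M := hnorm M M hMbot hmaxM.1 hmaxM le_normalizer
  have hconjM : ∀ g, M ≤ MulAut.conj g • M → g ∈ M := fun g hg => by
    rw [← hMM, H4.mem_normalizer_iff_conj_smul]
    exact (eq_of_le_of_card_ge hg (H4.card_conj_smul M g).le).symm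
  by_cases hH : H = ⊥
  · subst hH
    obtain ⟨N, hN, hNM, hc⟩ := H86.exists_normal_inf_eq_of_ti hHM
      (H86.commutator_le_of_isCoatom_subgroupOf hHM hmaxH hMN) (fun g hg x hx hx' => by
        by_contra hxH
        exact hg (hconjM g (H86.le_of_isCoatom_subgroupOf hHM hmaxH bot_le hx hxH
          (H4.mem_conj_smul_iff.mpr hx'))))
    rcases hN.eq_bot_or_eq_top with h | h
    · rw [h, le_bot_iff] at hc
      exact hG ((commutator_eq_bot_iff G).mp hc)
    · rw [h, top_inf_eq] at hNM
      exact hMbot hNM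
  have hHtop : H ≠ ⊤ := fun h => hne (h ▸ le_top)
  have hNM : normalizer (H : Set G) = M := hnorm H M hH hHtop hmaxM hMN
  have key : ∀ g : G, MulAut.conj g • H ≤ M → g ∈ M := by
    intro g hg
    by_contra hgM
    obtain ⟨x, hxM, hxH⟩ := SetLike.not_le_iff_exists.mp hne
    have hsm : ∀ a : G, H ≤ MulAut.conj a • M → ¬ H ≤ MulAut.conj a • H → ∀ T : Subgroup G, H ≤ T →
        MulAut.conj a • H ≤ T → MulAut.conj a • M ≤ T := by
      intro a h1 h2 T h3 h4
      obtain ⟨y, hy1, hy2⟩ := SetLike.not_le_iff_exists.mp h2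
      have : M ≤ MulAut.conj a⁻¹ • T := by
        refine H86.le_of_isCoatom_subgroupOf hHM hmaxH (fun z hz => ?_)
          (H4.mem_conj_smul_iff.mp (h1 hy1)) (fun h => hy2 (H4.mem_conj_smul_iff.mpr h)) ?_
        · rw [H4.mem_conj_smul_iff, inv_inv]; exact h4 (H4.conj_mem_conj_smul hz)
        · rw [H4.mem_conj_smul_iff]; simpa [mul_assoc] using h3 hy1
      intro z hz
      have := H4.mem_conj_smul_iff.mp (this (H4.mem_conj_smul_iff.mp hz))
      simpa [mul_assoc] using this
    have hH1 : H ≤ MulAut.conj g⁻¹ • M := fun z hz => by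
      rw [H4.mem_conj_smul_iff, inv_inv]; exact hg (H4.conj_mem_conj_smul hz)
    have hxH' : MulAut.conj x • H = H := H4.mem_normalizer_iff_conj_smul.mp (hMN hxM)
    have hH2 : H ≤ MulAut.conj (x * g⁻¹) • M := by
      rw [← H4.conj_smul_conj_smul]
      conv_lhs => rw [← hxH']
      exact pointwise_smul_le_pointwise_smul_iff.mpr hH1
    have hnot : ∀ a : G, a ∉ M → ¬ H ≤ MulAut.conj a • H := fun a ha h => ha (by
      rw [← hNM, H4.mem_normalizer_iff_conj_smul]
      exact (eq_of_le_of_card_ge h (H4.card_conj_smul H a).le).symm)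
    have hg1 : g⁻¹ ∉ M := fun h => hgM (inv_mem_iff.mp h)
    have hg2 : x * g⁻¹ ∉ M := fun h => hg1 ((M.mul_mem_cancel_left hxM).mp h)
    set T := MulAut.conj g⁻¹ • H ⊔ MulAut.conj (x * g⁻¹) • H with hT
    have hHT : H ≤ normalizer (T : Set G) := by
      refine H4.le_normalizer_sup ?_ ?_
      · rw [H86.normalizer_conj_smul, hNM]; exact hH1
      · rw [H86.normalizer_conj_smul, hNM]; exact hH2
    have hT1 := hsm _ hH1 (hnot _ hg1) _ hHT (le_sup_left.trans le_normalizer)
    have hT2 := hsm _ hH2 (hnot _ hg2) _ hHT (le_sup_right.trans le_normalizer)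
    have hTbot : T ≠ ⊥ := fun h => hH (by
      have h1 : MulAut.conj g⁻¹ • H = ⊥ := le_bot_iff.mp (h ▸ le_sup_left)
      rw [← card_eq_one, ← H4.card_conj_smul H g⁻¹, h1, card_bot])
    have hTtop : T ≠ ⊤ := fun h => hcon (g * x * g⁻¹) (by
      have : MulAut.conj g • T = H ⊔ MulAut.conj (g * x * g⁻¹) • H := by
        rw [hT, smul_sup, H4.conj_smul_conj_smul, H4.conj_smul_conj_smul, mul_inv_cancel, map_one,
          one_smul, mul_assoc]
      rw [← this, h, eq_top_iff]
      intro z _
      exact H4.mem_conj_smul_iff.mpr (mem_top _))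
    have hN1 := hnorm T _ hTbot hTtop (H86.isCoatom_conj_smul hmaxM g⁻¹) hT1
    rw [hN1] at hT2
    have hx1 : x ∈ MulAut.conj g⁻¹ • M := by
      rw [H4.mem_conj_smul_iff, inv_inv, ← inv_mem_iff]
      apply hconjM
      intro z hz
      have := hT2 (H4.conj_mem_conj_smul hz)
      rw [H4.mem_conj_smul_iff] at this ⊢
      simpa [mul_assoc] using this
    exact hg1 (hconjM _ (H86.le_of_isCoatom_subgroupOf hHM hmaxH hH1 hxM hxH hx1))
  have hcl : ∀ g : G, (H ⊔ H.map (MulAut.conj g).toMonoidHom) ⊓ M = H := by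
    intro g
    rw [← H4.conj_smul_eq_map]
    rcases H86.eq_or_eq_of_isCoatom_subgroupOf hmaxH (le_inf le_sup_left hHM) inf_le_right
      with h | h
    · exact h
    · have h1 : M ≤ H ⊔ MulAut.conj g • H := h ▸ inf_le_left
      rcases hmaxM.le_iff.mp h1 with h2 | h2
      · exact absurd h2 (hcon g)
      · have := key g (h2 ▸ le_sup_right)
        rw [H4.mem_normalizer_iff_conj_smul.mp (hMN this), sup_idem] at h1
        exact absurd h1 hne
  have h := S3014.result H M hHM hcl hmaxH hmaxM
  rcases (normalClosure_normal (s := (H : Set G))).eq_bot_or_eq_top with h1 | h1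
  · exact hH (le_bot_iff.mp (h1 ▸ le_normalClosure))
  · rw [h1, top_inf_eq] at h
    exact hne h.le

end Cfsg.Agent.S3015
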