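import Cfsg.Agent.H63.PSKit
import Cfsg.Agent.H63.PSMain
import Cfsg.Agent.H37.PsL1
import Cfsg.Agent.H11.PSNrm
import Cfsg.Agent.H66.PsKap
import Cfsg.Agent.H3.PsNum
import Cfsg.Agent.H9.PsLam
import Cfsg.Agent.H9.PsId
import Cfsg.Agent.H57.PsFin
import Cfsg.Agent.H32.PsOne
import Cfsg.Agent.H23.PsPD
import Cfsg.Statements.S3019

set_option autoImplicit false
open Cfsg

namespace Cfsg.Agent.S3019

/-- Let G be a finite group, p a prime and P a Sylow p-subgroup of G. Then G is p-solvable if and only if, for every g ∈ G, the subgroup generated by P and g P g⁻¹ is p-solvable. -/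
theorem result {G : Type*} [Group G] [Finite G] {p : ℕ} [Fact p.Prime] (P : Sylow p G) : Cfsg.IsPSolvable p G ↔ ∀ g : G, Cfsg.IsPSolvable p ↥((P : Subgroup G) ⊔ (P : Subgroup G).map (MulAut.conj g).toMonoidHom) := by
  exact H63.PS.s3019 ⟨H37.PS.l1, H11.PSN.nrm, H66.PsK.kap H63.PS.kit, H3.PS.num H63.PS.kit,
    H57.PsFin.fin H9.PsLam.lam H23.PsPD.pd (H9.PsId.idS H9.PsLam.lam), H32.PsO.one⟩ P

end Cfsg.Agent.S3019
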