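import Cfsg.Statements.S3021
import Cfsg.Agent.H8.SylowIn
import Cfsg.Agent.H52.Fitting

set_option autoImplicit false
open Cfsg

namespace Cfsg.Agent.S3021

theorem mem_normalizer_of_conj_le {G : Type*} [Group G] {H : Subgroup G}
    (hcl : Cfsg.IsExtremelyClosed H) {g : G}
    (h : H.map (MulAut.conj g).toMonoidHom ≤ Subgroup.normalizer (H : Set G)) [Finite G] :
    g ∈ Subgroup.normalizer (H : Set G) := by
  have h1 : H.map (MulAut.conj g).toMonoidHom ≤ H := by
    conv_rhs => rw [← hcl g]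
    exact le_inf le_sup_right h
  exact H8.mem_normalizer_of_conj_smul_le h1

theorem le_normalizer_of_isPGroup {G : Type*} [Group G] [Finite G] {p : ℕ} [Fact p.Prime]
    {H : Subgroup G} (hcl : Cfsg.IsExtremelyClosed H) {Q : Subgroup G} (hQ : IsPGroup p Q)
    (hHQ : H ≤ Q) : Q ≤ Subgroup.normalizer (H : Set G) := by
  by_contra hn
  have hlt : Q ⊓ Subgroup.normalizer (H : Set G) < Q :=
    lt_of_le_of_ne inf_le_left fun e => hn (inf_eq_left.mp e)
  obtain ⟨g, hg, hg'⟩ := SetLike.exists_of_lt (H8.lt_inf_normalizer_of_lt hQ hlt)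
  apply hg'
  refine ⟨hg.1, mem_normalizer_of_conj_le hcl ?_⟩
  rintro _ ⟨x, hx, rfl⟩
  exact ((Subgroup.mem_normalizer_iff.mp hg.2 x).mp ⟨hHQ hx, Subgroup.le_normalizer hx⟩).2

/-- Let G be a finite group, p a prime and H a p-subgroup of G that is extremely closed (for every g, the subgroup generated by H and g H g⁻¹ meets N_G(H) exactly in H). Then every p-subgroup Q of G containing H has N_G(Q) ≤ N_G(H); in particular every Sylow p-subgroup P of G containing H normalizes H, and H is strongly closed in P with respect to G. -/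
theorem result {G : Type*} [Group G] [Finite G] {p : ℕ} [Fact p.Prime] (H : Subgroup G) (hHp : IsPGroup p H) (hcl : Cfsg.IsExtremelyClosed H) : (∀ Q : Subgroup G, IsPGroup p Q → H ≤ Q → Subgroup.normalizer (Q : Set G) ≤ Subgroup.normalizer (H : Set G)) ∧ ∀ P : Sylow p G, H ≤ (P : Subgroup G) → (P : Subgroup G) ≤ Subgroup.normalizer (H : Set G) ∧ Cfsg.IsStronglyClosed H (P : Subgroup G) := by
  refine ⟨fun Q hQ hHQ g hg => mem_normalizer_of_conj_le hcl ?_, fun P hP => ?_⟩
  · rintro _ ⟨x, hx, rfl⟩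
    exact le_normalizer_of_isPGroup hcl hQ hHQ ((Subgroup.mem_normalizer_iff.mp hg x).mp (hHQ hx))
  · have h1 := le_normalizer_of_isPGroup hcl P.isPGroup' hP
    refine ⟨h1, hP, fun x hx g hg => ?_⟩
    rw [← hcl g]
    exact ⟨Subgroup.mem_sup_right ⟨x, hx, rfl⟩, h1 hg⟩

end Cfsg.Agent.S3021
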