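import Cfsg.Statements.S3022
import Cfsg.Agent.H82.TI

set_option autoImplicit false
open Cfsg

namespace Cfsg.Agent.S3022

open Subgroup Cfsg.Agent.H82 Cfsg.Agent.H83

/-- Let G be a finite group all of whose non-abelian simple sections are known simple groups, such that a Sylow 2-subgroup of G lies in exactly one maximal subgroup of G and C_G(O₂(G)) ≤ O₂(G). Let S be a Sylow 2-subgroup of G and A a group of automorphisms of S of odd order. Then some nontrivial A-invariant subgroup of S is normal in G. -/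
theorem result {G : Type*} [Group G] [Finite G] (hK : Cfsg.IsKGroup G) (hirr : ∀ S : Sylow 2 G, ∃! M : Subgroup G, IsCoatom M ∧ (S : Subgroup G) ≤ M) (hchar : Subgroup.centralizer (Cfsg.pCore 2 G : Set G) ≤ Cfsg.pCore 2 G) (S : Sylow 2 G) (A : Subgroup (MulAut ↥(S : Subgroup G))) (hA : Odd (Nat.card A)) : ∃ U : Subgroup G, U ≠ ⊥ ∧ U.Normal ∧ U ≤ (S : Subgroup G) ∧ ∀ a ∈ A, ∀ x : ↥(S : Subgroup G), (x : G) ∈ U → ((a x : ↥(S : Subgroup G)) : G) ∈ U := by
  haveI : Fact (Nat.Prime 2) := ⟨Nat.prime_two⟩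
  obtain ⟨M, hM⟩ := H85.exists_uniqMax_top_iff.2 (hirr S)
  have hT := isSylowIn_top S
  have hH : CharP 2 (⊤ : Subgroup G) := charP_top.2 hchar
  have h0 : (S : Subgroup G) ≠ ⊥ := fun h => hH.pCoreOf_ne_bot (fun h' => hM.lt.not_ge
    (h'.le.trans bot_le)) (le_bot_iff.1 (hT.pCoreOf_le.trans h.le))
  by_cases hd : H85.NoChar ⊤ (S : Subgroup G)
  swap
  · simp only [H85.NoChar, not_forall, not_not] at hd
    obtain ⟨C, a, b, c, d⟩ := hd
    exact ⟨C, b, normalizer_eq_top_iff.1 (top_le_iff.1 d), a, fun α _ x hx =>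
      Ch.mem ⟨a, c⟩ α hx⟩
  obtain ⟨X, m, h, hX, hXM⟩ := exists_ti hT hM hH le_rfl le_normalizer (hT.resOf_sup.symm ▸ hT)
    h0 hd
  have hB := H85.bB_le 2 (S : Subgroup G)
  have hV := h.V_le.trans hB
  have hQ := h.Q_le.trans hB
  have hZ := h.ctr_G_le.trans (inf_le_left.trans hB)
  let I : Subgroup (MulAut (S : Subgroup G)) := (MulAut.conj (G := (S : Subgroup G))).range
  haveI : I.Normal := ⟨by
    rintro _ ⟨s, rfl⟩ α
    exact ⟨α s, by ext x; simp⟩⟩
  obtain ⟨D, h1, h2, h3⟩ := exists_inv_between (V := (ZQ 2 X).subgroupOf S)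
    (Q := (pCoreOf 2 X).subgroupOf S) (A ⊔ I) fun γ hγ => by
      by_contra hn
      have h1 := (h.lg.subgroupOf hB hZ).swap (by
        rw [← map_le_map_iff_of_injective (S : Subgroup G).subtype_injective,
          Subgroup.map_commutator, subgroupOf_map_of_le hQ, subgroupOf_map_of_le hZ]
        exact h.QQ) (characteristic_iff_map_eq.1 (ch_baum 2 (S : Subgroup G)).ch γ) hn
      obtain ⟨a, ha, i, hi, rfl⟩ := mem_sup_of_normal_right.1 hγ
      obtain ⟨t, ht⟩ : (a * i) ^ Nat.card A ∈ I := by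
        rw [← QuotientGroup.eq_one_iff, ← QuotientGroup.mk'_apply, map_pow, map_mul,
          QuotientGroup.mk'_apply I i, (QuotientGroup.eq_one_iff i).2 hi, mul_one, ← map_pow,
          show a ^ Nat.card A = 1 from congrArg Subtype.val (pow_card_eq_one' (x := (⟨a, ha⟩ : A))),
          map_one]
      rw [← map_odd_pow h1 hA, ← ht] at hn
      refine hn ?_
      rintro _ ⟨x, hx, rfl⟩
      exact h.cj_le_Q hH hX (H85.le_norm_bB (le_norm_of_le hT.pCoreOf_le)) (mem_top (t : G))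
        (H85.le_norm_bB le_normalizer t.2) ⟨x, hx, rfl⟩
  obtain ⟨h4, h5⟩ := h.norm_between hM hX hXM hB (D := D.map (S : Subgroup G).subtype)
    (by rw [← subgroupOf_map_of_le hV]; exact map_mono h1) (map_le_iff_le_comap.2 h2)
    (le_normalizer_of_conj_mem (by
      rintro g hg _ ⟨x, hx, rfl⟩
      exact ⟨_, h3 _ (mem_sup_right ⟨⟨g, hg⟩, rfl⟩) x hx, rfl⟩))
  exact ⟨_, h4, normalizer_eq_top_iff.1 (top_le_iff.1 h5), map_subtype_le _, fun a ha x hx =>
    mem_map_of_mem _ (h3 a (mem_sup_left ha) x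
      ((mem_map_iff_mem (S : Subgroup G).subtype_injective).1 hx))⟩

end Cfsg.Agent.S3022
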