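import Cfsg.Statements.S3025
import Cfsg.Agent.H5.UniqueP
import Cfsg.Agent.H52.Fitting
import Cfsg.Agent.H53.Basic

set_option autoImplicit false
open Cfsg

namespace Cfsg.Agent.S3025

open Subgroup

/-- Let F be a finite group and H a nontrivial subgroup of F that is contained in every nontrivial subgroup of F which H normalizes. Then F has a nontrivial normal subgroup N contained in every nontrivial normal subgroup of F (a unique minimal normal subgroup), N is simple, and one of the following holds: C_F(N) = 1; or H = N has prime order p, C_F(N) is cyclic of order a power of p, and F/C_F(N) is cyclic of order dividing p − 1; or H = N has order 2, N is central in F, and F is a generalized quaternion group. -/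
theorem result {F : Type*} [Group F] [Finite F] (H : Subgroup F) (hH : H ≠ ⊥)
    (hmin : ∀ R : Subgroup F, R ≠ ⊥ → H ≤ Subgroup.normalizer (R : Set F) → H ≤ R) :
    ∃ N : Subgroup F, N.Normal ∧ N ≠ ⊥ ∧ (∀ M : Subgroup F, M.Normal → M ≠ ⊥ → N ≤ M) ∧ IsSimpleGroup ↥N ∧
      (Subgroup.centralizer (N : Set F) = ⊥ ∨
       (H = N ∧ (Nat.card N).Prime ∧ IsCyclic ↥(Subgroup.centralizer (N : Set F)) ∧
          (∃ k : ℕ, 1 ≤ k ∧ Nat.card ↥(Subgroup.centralizer (N : Set F)) = Nat.card N ^ k) ∧
          (∃ g : F, Subgroup.centralizer (N : Set F) ⊔ Subgroup.zpowers g = ⊤) ∧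
          (Subgroup.centralizer (N : Set F)).index ∣ Nat.card N - 1) ∨
       (H = N ∧ Nat.card N = 2 ∧ Subgroup.centralizer (N : Set F) = ⊤ ∧
          ∃ k : ℕ, 1 ≤ k ∧ Nonempty (F ≃* QuaternionGroup (2 ^ k)))) := by
  set N := normalClosure (H : Set F) with hN
  have hHN : H ≤ N := le_normalClosure
  have hN1 : N ≠ ⊥ := fun h => hH (le_bot_iff.mp (h ▸ hHN))
  have huniq : ∀ M : Subgroup F, M.Normal → M ≠ ⊥ → N ≤ M := fun M hM hM1 =>
    normalClosure_le_normal (hmin M hM1 (by rw [normalizer_eq_top]; exact le_top))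
  have hs : IsSimpleGroup N := by
    have : Nontrivial N := (nontrivial_iff_ne_bot N).mpr hN1
    refine ⟨fun K hK => ?_⟩
    by_cases hK1 : K = ⊥
    · exact Or.inl hK1
    right
    have h1 : N ≤ normalizer ((K.map N.subtype : Subgroup F) : Set F) :=
      H52.le_normalizer_map_subtype K
    have h2 : N ≤ K.map N.subtype := by
      refine (closure_le _).mpr fun a ha => ?_
      obtain ⟨h, hh, h3⟩ := Group.mem_conjugatesOfSet_iff.mp ha
      obtain ⟨g, rfl⟩ := isConj_iff.mp h3
      have h4 : H ≤ (K.map N.subtype).map (MulAut.conj g⁻¹).toMonoidHom := by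
        refine hmin _ ?_ ?_
        · rw [Ne, map_eq_bot_iff_of_injective _ (MulAut.conj g⁻¹).injective,
            map_eq_bot_iff_of_injective _ (subtype_injective _)]
          exact hK1
        · rw [← H52.map_conj_normalizer]
          intro y hy
          rw [H52.mem_map_conj_iff]
          exact h1 (Normal.conj_mem' inferInstance _ (hHN hy) _)
      have := H52.mem_map_conj_iff.mp (h4 hh)
      rwa [inv_inv] at this
    rw [eq_top_iff]
    intro y _
    obtain ⟨z, hz, e⟩ := h2 y.2
    rwa [← Subtype.ext e]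
  refine ⟨N, inferInstance, hN1, huniq, hs, ?_⟩
  set C := centralizer (N : Set F) with hC
  by_cases hC1 : C = ⊥
  · exact Or.inl hC1
  right
  have hNC : N ≤ C := huniq C inferInstance hC1
  have hab : IsMulCommutative N := H53.isMulCommutative_of_comm fun x hx y hy =>
    (mem_centralizer_iff.mp (hNC hy) x hx)
  have hp : (Nat.card N).Prime := by
    let _ : CommGroup N := { mul_comm := hab.is_comm.comm }
    exact IsSimpleGroup.prime_card
  have := Fact.mk hp
  have hHN' : H = N := by
    rcases (H.subgroupOf N).eq_bot_or_eq_top_of_prime_card with h | h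
    · exact absurd (by rw [← map_subgroupOf_eq_of_le hHN, h, Subgroup.map_bot]) hH
    · exact le_antisymm hHN (subgroupOf_eq_top.mp h)
  have hle : ∀ x ∈ C, x ≠ 1 → N ≤ zpowers x := fun x hx h1 => by
    rw [← hHN']
    refine hmin _ (by simpa using h1) ?_
    rw [hHN']
    exact (le_centralizer_iff.mp (zpowers_le_of_mem hx)).trans (centralizer_le_normalizer _)
  have heq : ∀ x ∈ C, (orderOf x).Prime → N = zpowers x := fun x hx h1 => by
    have h2 := hle x hx (by rintro rfl; simp [Nat.not_prime_one] at h1)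
    refine eq_of_le_of_card_ge h2 ?_
    have := card_dvd_of_le h2
    rw [Nat.card_zpowers] at this ⊢
    exact ((Nat.prime_dvd_prime_iff_eq hp h1).mp this).ge
  have hCp : IsPGroup (Nat.card N) C := by
    refine IsPGroup.of_card (Nat.eq_prime_pow_of_unique_prime_dvd Nat.card_pos.ne' ?_)
    intro q hq hd
    have := Fact.mk hq
    obtain ⟨x, hx⟩ := exists_prime_orderOf_dvd_card' q hd
    rw [← Subgroup.orderOf_coe] at hx
    rw [heq x x.2 (hx ▸ hq), Nat.card_zpowers, hx]
  let φ : F →* MulAut N := MulAut.conjNormal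
  have hker : φ.ker = C := by
    ext g
    rw [MonoidHom.mem_ker, hC, mem_centralizer_iff]
    constructor
    · intro h y hy
      have := congrArg (fun σ : MulAut N => ((σ ⟨y, hy⟩ : N) : F)) h
      change g * y * g⁻¹ = y at this
      conv_lhs => rw [← this]
      group
    · intro h
      ext y
      change g * y * g⁻¹ = y
      rw [← h y y.2]; group
  have hNcyc : IsCyclic N := isCyclic_of_prime_card rfl
  have hidx : C.index ∣ Nat.card N - 1 := by
    rw [← hker, index_ker, ← Nat.totient_prime hp, ← IsCyclic.card_mulAut]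
    exact card_subgroup_dvd_card _
  have hcyc : IsCyclic C → (H = N ∧ (Nat.card N).Prime ∧ IsCyclic C ∧
      (∃ k : ℕ, 1 ≤ k ∧ Nat.card C = Nat.card N ^ k) ∧ (∃ g : F, C ⊔ zpowers g = ⊤) ∧
      C.index ∣ Nat.card N - 1) := fun hc => by
    refine ⟨hHN', hp, hc, ?_, ?_, hidx⟩
    · obtain ⟨k, hk⟩ := hCp.exists_card_eq
      refine ⟨k, Nat.one_le_iff_ne_zero.mpr ?_, hk⟩
      rintro rfl
      exact hC1 (card_eq_one.mp hk)
    · have h1 : IsCyclic (MulAut N) :=
        (IsCyclic.mulAutMulEquiv N).isCyclic.mpr (ZMod.isCyclic_units_prime hp)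
      obtain ⟨⟨_, g, rfl⟩, hg⟩ := (inferInstance : IsCyclic φ.range).exists_generator
      refine ⟨g, eq_top_iff.mpr fun f _ => ?_⟩
      obtain ⟨k, hk⟩ := hg ⟨φ f, f, rfl⟩
      have hk' : φ g ^ k = φ f := congrArg Subtype.val hk
      have : f * (g ^ k)⁻¹ ∈ C := by
        rw [← hker, MonoidHom.mem_ker, map_mul, map_inv, map_zpow, hk', mul_inv_cancel]
      rw [← inv_mul_cancel_right f (g ^ k)]
      exact mul_mem (mem_sup_left this) (mem_sup_right (zpow_mem (mem_zpowers g) k))
  rcases H5.isCyclic_or_quaternion_of_unique hCp (fun x y hx hy => by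
    rw [← Subgroup.orderOf_coe] at hx hy
    have h1 : (x : F) ∈ zpowers (y : F) := by
      rw [← heq y y.2 (hy ▸ hp), heq x x.2 (hx ▸ hp)]; exact mem_zpowers _
    obtain ⟨k, hk⟩ := h1
    exact ⟨k, Subtype.ext hk⟩) with h | ⟨h2, n, ⟨e⟩⟩
  · exact Or.inl (hcyc h)
  · rcases Nat.eq_zero_or_pos n with rfl | hn
    · exact Or.inl (hcyc (e.isCyclic.mpr QuaternionGroup.quaternionGroup_one_isCyclic))
    · have htop : C = ⊤ := by
        rw [h2] at hidx
        exact index_eq_one.mp (Nat.dvd_one.mp hidx)
      exact Or.inr ⟨hHN', h2, htop, n, hn,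
        ⟨(topEquiv.symm.trans (MulEquiv.subgroupCongr htop.symm)).trans e⟩⟩

end Cfsg.Agent.S3025
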