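import Cfsg.Statements.S3027
import Cfsg.Agent.H52.Fitting

set_option autoImplicit false
open Cfsg

namespace Cfsg.Agent.S3027

theorem commutator_sup {G : Type*} [Group G] (D : Subgroup G) [D.Normal]
    (hperf : ⁅(⊤ : Subgroup G), (⊤ : Subgroup G)⁆ ⊔ D = ⊤) {X Y : Subgroup G} (hX : X ⊔ D = ⊤)
    (hY : Y ⊔ D = ⊤) : ⁅X, Y⁆ ⊔ D = ⊤ := by
  have key : ∀ Z : Subgroup G, Z ⊔ D = ⊤ ↔ Z.map (QuotientGroup.mk' D) = ⊤ := by
    intro Z
    constructor
    · intro h
      have := congrArg (Subgroup.map (QuotientGroup.mk' D)) h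
      rwa [Subgroup.map_sup, QuotientGroup.map_mk'_self, sup_bot_eq,
        Subgroup.map_top_of_surjective _ (QuotientGroup.mk'_surjective D)] at this
    · intro h
      have := congrArg (Subgroup.comap (QuotientGroup.mk' D)) h
      rwa [Subgroup.comap_map_eq, QuotientGroup.ker_mk', Subgroup.comap_top] at this
  rw [key] at hperf hX hY ⊢
  rw [Subgroup.map_commutator, Subgroup.map_top_of_surjective _
    (QuotientGroup.mk'_surjective D)] at hperf
  rw [Subgroup.map_commutator, hX, hY, hperf]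

theorem inf_sup {G : Type*} [Group G] (D : Subgroup G) [D.Normal]
    (hperf : ⁅(⊤ : Subgroup G), (⊤ : Subgroup G)⁆ ⊔ D = ⊤) {X : Subgroup G} (hX : X.IsSubnormal) :
    ∀ {Y : Subgroup G}, Y.IsSubnormal → X ⊔ D = ⊤ → Y ⊔ D = ⊤ → (X ⊓ Y) ⊔ D = ⊤ := by
  induction hX with
  | top => intro Y _ _ hY; rwa [top_inf_eq]
  | step X K hXK hK hn ih =>
    intro Y hY
    induction hY with
    | top => intro hX _; rwa [inf_top_eq]
    | step Y L hYL hL hn' ih' =>
      intro hX hY
      have hKD : K ⊔ D = ⊤ := top_le_iff.mp (hX ▸ sup_le_sup_right hXK D)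
      have hLD : L ⊔ D = ⊤ := top_le_iff.mp (hY ▸ sup_le_sup_right hYL D)
      have h1 := ih (Subgroup.IsSubnormal.step Y L hYL hL hn') hKD hY
      have h2 := ih' hX hLD
      have h3 := commutator_sup D hperf h2 h1
      rw [eq_top_iff, ← h3]
      refine sup_le_sup_right ?_ D
      have n1 := H52.le_normalizer_of_subgroupOf_normal hXK hn
      have n2 := H52.le_normalizer_of_subgroupOf_normal hYL hn'
      rw [Subgroup.commutator_le]
      intro a ha b hb
      refine ⟨?_, ?_⟩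
      · have := (Subgroup.mem_normalizer_iff.mp (n1 hb.1) _).mp (X.inv_mem ha.1)
        simpa [commutatorElement_def, mul_assoc] using X.mul_mem ha.1 this
      · have := (Subgroup.mem_normalizer_iff.mp (n2 ha.2) _).mp hb.2
        simpa [commutatorElement_def, mul_assoc] using Y.mul_mem this (Y.inv_mem hb.2)

/-- Let G be a finite group and D a normal subgroup of G such that G/D is perfect (that is, G = G′D). Then among the subnormal subgroups B of G with BD = G there is a least one, and it is normal in G. -/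
theorem result {G : Type*} [Group G] [Finite G] (D : Subgroup G) [D.Normal] (hperf : ⁅(⊤ : Subgroup G), (⊤ : Subgroup G)⁆ ⊔ D = ⊤) :
    ∃ B : Subgroup G, B.Normal ∧ B ⊔ D = ⊤ ∧ ∀ B' : Subgroup G, B'.IsSubnormal → B' ⊔ D = ⊤ → B ≤ B' := by
  obtain ⟨B, ⟨hB1, hB2⟩, hmin⟩ := (wellFounded_lt (α := Subgroup G)).has_min
    {B : Subgroup G | B.IsSubnormal ∧ B ⊔ D = ⊤} ⟨⊤, Subgroup.IsSubnormal.top, top_sup_eq _⟩
  have hle : ∀ B' : Subgroup G, B'.IsSubnormal → B' ⊔ D = ⊤ → B ≤ B' := by
    intro B' h1 h2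
    by_contra hn
    exact hmin (B ⊓ B') ⟨hB1.inf h1, inf_sup D hperf hB1 h1 hB2 h2⟩
      (lt_of_le_of_ne inf_le_left fun e => hn (inf_eq_left.mp e))
  refine ⟨B, ⟨fun x hx g => ?_⟩, hB2, hle⟩
  have h1 : B ≤ B.map (MulAut.conj g⁻¹).toMonoidHom := by
    refine hle _ (hB1.map (MulAut.conj g⁻¹).surjective) ?_
    have := congrArg (Subgroup.map (MulAut.conj g⁻¹).toMonoidHom) hB2
    rwa [Subgroup.map_sup, Subgroup.map_top_of_surjective _ (MulAut.conj g⁻¹).surjective,
      H52.map_conj_eq_of_mem_normalizer (H := D) (by rw [Subgroup.normalizer_eq_top]; trivial)]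
      at this
  simpa using H52.mem_map_conj_iff.mp (h1 hx)

end Cfsg.Agent.S3027
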