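import Cfsg.Statements.S3031
import Cfsg.Agent.H86.HSub
import Cfsg.Agent.H52.Fitting

set_option autoImplicit false
open Cfsg

namespace Cfsg.Agent.S3031

open Subgroup
open scoped commutatorElement Pointwise

/-- Let G be a finite group, p the smallest prime dividing |G| and P a Sylow p-subgroup. Suppose that P is cyclic, or that P has a subgroup D with 1 < |D| < |P| such that every subgroup E of P of order |D|, and also every subgroup E of P of order 4 when |D| = 2, satisfies g E g⁻¹ ∩ N_G(E) ≤ E for all g ∈ G (E is strongly closed in its normalizer with respect to G). Then G has a normal p-complement. -/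
theorem result {G : Type*} [Group G] [Finite G] {p : ℕ} [Fact p.Prime] (hdiv : p ∣ Nat.card G)
    (hmin : ∀ q : ℕ, q.Prime → q ∣ Nat.card G → p ≤ q) (P : Sylow p G)
    (h : IsCyclic ↥(P : Subgroup G) ∨ ∃ D : Subgroup G, D ≤ (P : Subgroup G) ∧ 1 < Nat.card D ∧ Nat.card D < Nat.card (P : Subgroup G) ∧
      ∀ E : Subgroup G, E ≤ (P : Subgroup G) → (Nat.card E = Nat.card D ∨ (Nat.card D = 2 ∧ Nat.card E = 4)) →
        ∀ g : G, E.map (MulAut.conj g).toMonoidHom ⊓ Subgroup.normalizer (E : Set G) ≤ E) :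
    Cfsg.HasNormalPComplement p G := by
  have hp := (Fact.out : p.Prime)
  have hcop : ∀ n : G, (orderOf n).Coprime (p - 1) := by
    intro n
    refine Nat.Coprime.symm ((Nat.coprime_iff_gcd_eq_one).mpr ?_)
    by_contra hne
    obtain ⟨q, hq, hqd⟩ := Nat.exists_prime_and_dvd hne
    have h1 := hmin q hq ((hqd.trans (Nat.gcd_dvd_right _ _)).trans (orderOf_dvd_natCard n))
    have h2 := Nat.le_of_dvd (by have := hp.two_le; omega) (hqd.trans (Nat.gcd_dvd_left _ _))
    have := hp.two_le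
    omega
  have hn : ∀ (n : G) (Q X Y : Subgroup G), IsPGroup p Q → Y ≤ X → X ≤ Q →
      zpowers n ≤ normalizer (X : Set G) → zpowers n ≤ normalizer (Y : Set G) → Y.relIndex X = p →
      ∀ x ∈ X, ⁅x, n⁆ ∈ Y := by
    intro n Q X Y hQ hYX hXQ h1 h2 hr x hx
    have := H7.normal_of_index_eq (hQ.to_le hXQ) hr
    exact H86.comm_mem_of_coprime_pred hYX ((normal_subgroupOf_iff_le_normalizer hYX).mp this) hr
      (h1 (mem_zpowers n)) (h2 (mem_zpowers n)) (hcop n) hx
  rcases h with hc | ⟨D, hDP, hD1, hD2, hE⟩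
  · refine H8.hasNormalPComplement_of_forall_le_centralizes P fun Q hQ n hnQ hnc => ?_
    have hQp := P.isPGroup'.to_le hQ
    have hQc : IsCyclic Q := isCyclic_of_le hQ
    have hz : zpowers n ≤ normalizer (Q : Set G) := zpowers_le_of_mem hnQ
    rw [mem_centralizer_iff]
    intro x hx
    exact (H86.cent_of_max_invariant (mem_zpowers n) hnc hQp hz
      (fun Y hY h1 h2 => hn n Q Q Y hQp hY le_rfl hz h1 h2)
      (fun Y hY _ => hz.trans (H86.normalizer_le_of_isCyclic hQc hY)) x hx).symm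
  obtain ⟨d, hd⟩ := (P.isPGroup'.to_le hDP).exists_card_eq
  obtain ⟨s, hs⟩ := P.isPGroup'.exists_card_eq
  have hinv : ∀ F : Subgroup G, F ≤ (P : Subgroup G) →
      (Nat.card F = Nat.card D ∨ (Nat.card D = 2 ∧ Nat.card F = 4)) → ∀ Q : Subgroup G,
      Q ≤ (P : Subgroup G) → normalizer (Q : Set G) ≤ normalizer ((F ⊓ Q : Subgroup G) : Set G) := by
    intro F hF hc Q hQ g hg
    have h1 := le_normalizer.trans (H86.normalizer_le_of_hsub P.isPGroup' hF (hE F hF hc))
    refine H8.mem_normalizer_of_conj_smul_le fun x hx => ?_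
    rw [H8.mem_conj_smul] at hx
    have hxQ : x ∈ Q := by simpa [mul_assoc] using H53.conj_mem_of_mem_normalizer hg hx.2
    exact ⟨hE F hF hc g ⟨H8.mem_conj_smul.mpr hx.1, h1 (hQ hxQ)⟩, hxQ⟩
  refine H8.hasNormalPComplement_of_inf_pResidual_le_frattini P ?_
  have hmain := H8.sylow_inf_pResidual_le_of_hyperfocal P
    (K := (frattini (P : Subgroup G)).map (P : Subgroup G).subtype)
    (H52.le_normalizer_map_subtype _) ?_
  · intro x hx
    obtain ⟨y, hy, hy'⟩ := hmain ⟨x.2, hx⟩
    rwa [← show y = x from Subtype.ext hy']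
  intro Q hQ _ _ n hnQ hnc hnC a ha
  have hQp := P.isPGroup'.to_le hQ
  obtain ⟨q, hq⟩ := hQp.exists_card_eq
  have hQd : Nat.card Q ≤ Nat.card D := by
    by_contra hlt
    rw [not_le] at hlt
    refine hnC (H86.mem_centralizer_of_fixed_order hQp (mem_zpowers n) hnQ hnc
      (fun X Y => hn n Q X Y hQp) hD1 hlt ?_ fun F hF hc => zpowers_le_of_mem ?_)
    · rw [hd, hq] at hlt ⊢
      exact pow_dvd_pow _ ((Nat.pow_lt_pow_iff_right hp.one_lt).mp hlt).le
    · have := hinv F (hF.trans hQ) hc Q hQ hnQ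
      rwa [inf_eq_left.mpr hF] at this
  obtain ⟨X, hQX, hXP, hX⟩ := H86.exists_between_pow P.isPGroup' hQ (m := d + 1)
    (hQd.trans (by rw [hd]; exact Nat.pow_le_pow_right hp.pos (Nat.le_succ d))) (by
      rw [hd, hs] at hD2; rw [hs]
      exact Nat.pow_le_pow_right hp.pos ((Nat.pow_lt_pow_iff_right hp.one_lt).mp hD2))
  have hm := H53.commutatorElement_mem_of_mem_normalizer ha hnQ
  have he : a * (n * a * n⁻¹)⁻¹ = ⁅a, n⁆ := by rw [commutatorElement_def]; group
  rw [he]
  refine ⟨⟨_, hQ hm⟩, H7.mem_frattini_iff.mpr fun M hM => ?_, rfl⟩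
  set M' : Subgroup G := M.map (P : Subgroup G).subtype with hM'
  suffices hh : ⁅a, n⁆ ∈ M' by
    obtain ⟨y, hy, hy'⟩ := hh
    rwa [show (⟨_, hQ hm⟩ : (P : Subgroup G)) = y from Subtype.ext hy'.symm]
  by_cases hQM : Q ≤ M'
  · exact hQM hm
  have hr : ∀ Y : Subgroup G, Y ≤ (P : Subgroup G) → ¬ Y ≤ M' → (M' ⊓ Y).relIndex Y = p := by
    intro Y hY hYM
    have := H7.normal_of_isCoatom P.isPGroup' hM
    have h1 : (M.relIndex (Y.subgroupOf P)) ∣ p :=
      (relIndex_dvd_index_of_normal _ _).trans (H7.index_of_isCoatom P.isPGroup' hM).dvd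
    have h2 : M.relIndex (Y.subgroupOf P) = M'.relIndex Y := by
      rw [← relIndex_subgroupOf hY, hM', subgroupOf, subgroupOf,
        comap_map_eq_self_of_injective (subtype_injective _)]
    rw [inf_relIndex_right]
    rw [h2] at h1
    exact ((Nat.dvd_prime hp).mp h1).resolve_left fun h => hYM (relIndex_eq_one.mp h)
  have hF : Nat.card (M' ⊓ X : Subgroup G) = Nat.card D := by
    have := H53.card_mul_relIndex (inf_le_right : M' ⊓ X ≤ X)
    rw [hr X hXP fun h => hQM (hQX.trans h), hX, pow_succ, ← hd] at this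
    exact Nat.eq_of_mul_eq_mul_right hp.pos this
  have h1 := hinv _ (inf_le_right.trans hXP) (Or.inl hF) Q hQ hnQ
  rw [inf_assoc, inf_eq_right.mpr hQX] at h1
  exact (hn n Q Q _ hQp inf_le_right le_rfl (zpowers_le_of_mem hnQ) (zpowers_le_of_mem h1)
    (hr Q hQ hQM) a ha).1

end Cfsg.Agent.S3031
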