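import Cfsg.Statements.S3032
import Cfsg.Agent.S3031

set_option autoImplicit false
open Cfsg

namespace Cfsg.Agent.S3032

open Subgroup
open scoped commutatorElement Pointwise

theorem aux {G : Type*} [Group G] [Finite G] (k : ℕ) : ∀ (E : Subgroup G) [E.Normal],
    Nat.card E ≤ k →
    (∀ (p : ℕ), p.Prime → ∀ P : Subgroup G, P ≤ E → IsPGroup p P → ¬ p ∣ P.relIndex E → ¬ IsCyclic ↥P →
      ∃ D : Subgroup G, D ≤ P ∧ 1 < Nat.card D ∧ Nat.card D < Nat.card P ∧
        ∀ F : Subgroup G, F ≤ P → (Nat.card F = Nat.card D ∨ (Nat.card D = 2 ∧ Nat.card F = 4)) →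
          ∀ g : G, F.map (MulAut.conj g).toMonoidHom ⊓ Subgroup.normalizer (F : Set G) ≤ F) →
    H5.SSChain E := by
  induction k with
  | zero => intro E _ h; exact absurd h (by simpa using Nat.card_pos.ne')
  | succ k ih =>
  intro E _ hk h
  by_cases hb : E = ⊥
  · rw [hb]; exact H5.SSChain.bot
  have hE1 : Nat.card E ≠ 1 := fun h => hb (card_eq_one.mp h)
  set p := (Nat.card E).minFac with hpdef
  have hp : p.Prime := Nat.minFac_prime hE1
  have : Fact p.Prime := ⟨hp⟩
  obtain ⟨P₀⟩ : Nonempty (Sylow p E) := inferInstance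
  set P : Subgroup G := (P₀ : Subgroup E).map E.subtype with hP
  have hS : H8.IsSylowIn p P E := H8.isSylowIn_map_subtype P₀
  have hcP : Nat.card P = Nat.card (P₀ : Subgroup E) := card_map_of_injective E.subtype_injective
  have hnpc : HasNormalPComplement p E := by
    refine S3031.result (Nat.minFac_dvd _) (fun q hq hd => Nat.minFac_le_of_dvd hq.two_le hd) P₀ ?_
    by_cases hc : IsCyclic P
    · exact Or.inl (((P₀ : Subgroup E).equivMapOfInjective E.subtype
        E.subtype_injective).isCyclic.mpr hc)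
    obtain ⟨D, hDP, h1, h2, hF⟩ := h p hp P hS.le hS.isPGroup hS.not_dvd hc
    have hcD : Nat.card (D.subgroupOf E) = Nat.card D :=
      Nat.card_congr (subgroupOfEquivOfLe (hDP.trans hS.le)).toEquiv
    refine Or.inr ⟨D.subgroupOf E, ?_, by rwa [hcD], by rwa [hcD, ← hcP], fun F hFP hcF g x hx => ?_⟩
    · intro x hx
      obtain ⟨y, hy, hy'⟩ := hDP hx
      rwa [← show y = x from Subtype.ext hy']
    · have hcF' : Nat.card (F.map E.subtype) = Nat.card F := card_map_of_injective E.subtype_injective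
      rw [hcD, ← hcF'] at hcF
      obtain ⟨y, hy, hy'⟩ := hF _ (map_mono hFP) hcF g (x := x) ⟨by
        obtain ⟨y, hy, rfl⟩ := hx.1
        exact ⟨y, ⟨y, hy, rfl⟩, rfl⟩, le_normalizer_map _ ⟨x, hx.2, rfl⟩⟩
      rwa [← show y = x from Subtype.ext hy']
  set K : Subgroup G := (pResidual p E).map E.subtype with hK
  have hKn : K.Normal := by
    rw [← normalizer_eq_top_iff, eq_top_iff, ← normalizer_eq_top E]
    exact H8.normalizer_le_normalizer_pResidual E
  have hKE : K ≤ E := map_subtype_le _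
  have hKp : ¬ p ∣ Nat.card K := by
    rw [hK, card_map_of_injective E.subtype_injective]
    exact H8.hasNormalPComplement_iff_not_dvd.mp hnpc
  obtain ⟨j, hj⟩ : ∃ j, K.relIndex E = p ^ j := by
    rw [hK, relIndex, subgroupOf, comap_map_eq_self_of_injective E.subtype_injective]
    exact (H8.isPGroup_quotient_pResidual p).exists_card_eq
  have hKc : H5.SSChain K := by
    refine ih K ?_ fun q hq R hRK hRq hRi hRc => h q hq R (hRK.trans hKE) hRq ?_ hRc
    · have := H53.card_lt_of_lt (lt_of_le_of_ne hKE fun h => hKp (h ▸ Nat.minFac_dvd _))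
      omega
    · rw [← relIndex_mul_relIndex R K E hRK hKE, hq.dvd_mul, hj]
      rintro (h1 | h1)
      · exact hRi h1
      · have hqp : q = p := (Nat.prime_dvd_prime_iff_eq hq hp).mp (hq.dvd_of_dvd_pow h1)
        subst hqp
        obtain ⟨i, hi⟩ := hRq.exists_card_eq
        have hi0 : i = 0 := by
          by_contra h0
          exact hKp ((hi ▸ dvd_pow_self _ h0).trans (card_dvd_of_le hRK))
        rw [hi0, pow_zero, card_eq_one] at hi
        exact hRc (hi ▸ inferInstance)
  set φ := QuotientGroup.mk' K with hφ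
  have hker : φ.ker = K := QuotientGroup.ker_mk' K
  have hdec : ∀ g ∈ E, ∃ s ∈ P, φ s = φ g := by
    intro g hg
    obtain ⟨s, hs, c, hc, rfl⟩ := hS.exists_mul_of_forall_coprime_mem (K := K)
      (fun g hg hc => ⟨⟨g, hg⟩, H8.mem_pResidual_of_coprime (by rwa [← Subgroup.orderOf_coe]), rfl⟩) hg
    exact ⟨s, hs, by rw [map_mul, (MonoidHom.mem_ker (f := φ)).mp (hker.ge hc), mul_one]⟩
  have hEP : E.map φ = P.map φ := by
    refine le_antisymm ?_ (map_mono hS.le)
    rintro _ ⟨g, hg, rfl⟩
    exact hdec g hg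
  have hcard : ∀ F : Subgroup G, F ≤ P → Nat.card (F.map φ) = Nat.card F := by
    intro F hF
    have h1 := H53.card_inf_mul_relIndex K F
    have h2 : K ⊓ F = ⊥ := by
      obtain ⟨i, hi⟩ := ((hS.isPGroup.to_le hF).to_le (inf_le_right : K ⊓ F ≤ F)).exists_card_eq
      have hi0 : i = 0 := by
        by_contra h0
        exact hKp ((hi ▸ dvd_pow_self _ h0).trans (card_dvd_of_le inf_le_left))
      rwa [hi0, pow_zero, card_eq_one] at hi
    rw [h2, card_bot, one_mul] at h1
    rw [← relIndex_ker, hker, h1]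
  have hEn : (E.map φ).Normal := Normal.map inferInstance _ (QuotientGroup.mk'_surjective K)
  have h1 : H5.SSChain (E.map φ) := by
    by_cases hc : IsCyclic P
    · have : IsCyclic (E.map φ) := by
        rw [hEP]; exact isCyclic_of_surjective _ (φ.subgroupMap_surjective P)
      exact H5.SSChain.of_isCyclic _
    obtain ⟨D, hDP, h1, h2, hF⟩ := h p hp P hS.le hS.isPGroup hS.not_dvd hc
    refine H86.ssChain_of_fixed_order (p := p) (m := Nat.card D) (hEP ▸ hS.isPGroup.map φ) h1
      (by rwa [hEP, hcard P le_rfl]) (by rw [hEP, hcard P le_rfl]; exact card_dvd_of_le hDP)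
      fun F hFE hcF => ?_
    have hF' : (F.comap φ ⊓ P).map φ = F := by
      refine le_antisymm ((map_mono inf_le_left).trans (map_comap_le _ _)) fun x hx => ?_
      obtain ⟨s, hs, rfl⟩ := (hEP ▸ hFE) hx
      exact ⟨s, ⟨hx, hs⟩, rfl⟩
    have hn := H86.normalizer_le_of_hsub hS.isPGroup inf_le_right
      (hF (F.comap φ ⊓ P) inf_le_right (by rwa [← hcard _ inf_le_right, hF']))
    rw [← normalizer_eq_top_iff, eq_top_iff]
    intro g _
    obtain ⟨g, rfl⟩ := QuotientGroup.mk'_surjective K g
    obtain ⟨e, he, m, hm, rfl⟩ := hS.frattini (g := g) (by rw [normalizer_eq_top]; exact mem_top g)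
    obtain ⟨s, hs, hse⟩ := hdec e he
    rw [← hF']
    refine le_normalizer_map φ ⟨s * m, hn (mul_mem (le_normalizer hs) hm), ?_⟩
    rw [map_mul, hse, ← map_mul]
  have h2 := h1.comap φ (by rw [hker]; exact hKc)
  rwa [comap_map_eq, hker, sup_eq_left.mpr hKE] at h2

/-- Let G be a finite group and E a normal subgroup with G/E supersolvable. Suppose that for every prime p and every non-cyclic Sylow p-subgroup P of E there is a subgroup D of P with 1 < |D| < |P| such that every subgroup F of P of order |D|, and also every subgroup F of P of order 4 when |D| = 2, satisfies g F g⁻¹ ∩ N_G(F) ≤ F for all g ∈ G. Then G is supersolvable. -/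
theorem result {G : Type*} [Group G] [Finite G] (E : Subgroup G) [E.Normal] (hGE : Cfsg.IsSupersolvable (G ⧸ E))
    (h : ∀ (p : ℕ), p.Prime → ∀ P : Subgroup G, P ≤ E → IsPGroup p P → ¬ p ∣ P.relIndex E → ¬ IsCyclic ↥P →
      ∃ D : Subgroup G, D ≤ P ∧ 1 < Nat.card D ∧ Nat.card D < Nat.card P ∧
        ∀ F : Subgroup G, F ≤ P → (Nat.card F = Nat.card D ∨ (Nat.card D = 2 ∧ Nat.card F = 4)) →
          ∀ g : G, F.map (MulAut.conj g).toMonoidHom ⊓ Subgroup.normalizer (F : Set G) ≤ F) :
    Cfsg.IsSupersolvable G := by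
  exact H5.supersolvable_of_quotient (aux _ E le_rfl h) hGE

end Cfsg.Agent.S3032
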