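import Cfsg.Statements.S3044
import Cfsg.Agent.H85.Isolated

set_option autoImplicit false
open Cfsg

namespace Cfsg.Agent.S3044

open Cfsg.Agent.H85 Subgroup

/-- Let G be a finite group, p a prime, S a Sylow p-subgroup of G and P a p-minimal subgroup of G containing S (S is not normal in P and lies in exactly one maximal subgroup of P). Let L be the subgroup generated by N_G(S) and all p-minimal subgroups of G containing S other than P, and suppose P is isolated: O_p(L) is not contained in O_p(P). Put Y for the normal closure of O^p(P) in G. Then G = YL; P is again isolated in the subgroup YS (the subgroup L₀ generated by N_{YS}(S) and the p-minimal subgroups of YS containing S other than P has O_p(L₀) not contained in O_p(P)); and either Y = O^p(P), or p divides |Y/O_p(Y)|, Y/O_p(Y) is generated by its components (a central product of quasisimple groups), and S permutes these components transitively by conjugation. -/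
theorem result {G : Type*} [Group G] [Finite G] {p : ℕ} [Fact p.Prime] (S : Sylow p G) (P : Subgroup G) (hSP : (S : Subgroup G) ≤ P) (hPmin : Cfsg.IsPMinimal p ↥P)
    (L Y : Subgroup G)
    (hL : L = Subgroup.normalizer ((S : Subgroup G) : Set G) ⊔ ⨆ P' : {P' : Subgroup G // (S : Subgroup G) ≤ P' ∧ Cfsg.IsPMinimal p ↥P' ∧ P' ≠ P}, (P' : Subgroup G))
    (hiso : ¬ (Cfsg.pCore p ↥L).map L.subtype ≤ (Cfsg.pCore p ↥P).map P.subtype)
    (hY : Y = Subgroup.normalClosure (((Cfsg.pResidual p ↥P).map P.subtype : Subgroup G) : Set G)) :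
    Y ⊔ L = ⊤ ∧
    ¬ (Cfsg.pCore p ↥((Subgroup.normalizer ((S : Subgroup G) : Set G) ⊓ (Y ⊔ (S : Subgroup G))) ⊔
          ⨆ P' : {P' : Subgroup G // (S : Subgroup G) ≤ P' ∧ P' ≤ Y ⊔ (S : Subgroup G) ∧ Cfsg.IsPMinimal p ↥P' ∧ P' ≠ P}, (P' : Subgroup G))).map
        (Subgroup.subtype _) ≤ (Cfsg.pCore p ↥P).map P.subtype ∧
    ((Cfsg.pResidual p ↥P).map P.subtype = Y ∨
     ∃ _ : (Cfsg.pCore p ↥Y).Normal,
       p ∣ Nat.card (↥Y ⧸ Cfsg.pCore p ↥Y) ∧ Cfsg.layer (↥Y ⧸ Cfsg.pCore p ↥Y) = ⊤ ∧
       ∀ K₁ K₂ : Subgroup (↥Y ⧸ Cfsg.pCore p ↥Y), Cfsg.IsComponent K₁ → Cfsg.IsComponent K₂ →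
         ∃ s ∈ (S : Subgroup G), ((K₂.comap (QuotientGroup.mk' (Cfsg.pCore p ↥Y))).map Y.subtype) = (((K₁.comap (QuotientGroup.mk' (Cfsg.pCore p ↥Y))).map Y.subtype)).map (MulAut.conj s).toMonoidHom) := by
  have h := isoData_of_pmin S hSP hPmin hL hiso
  subst hY
  set U := resOf p P with hU
  set Y := normalClosure (U : Set G) with hY
  refine ⟨?_, fun h1 => hiso (le_trans ?_ h1), ?_⟩
  · rw [eq_top_iff, ← h.sup_eq_top, sup_comm]
    exact sup_le_sup_right le_normalClosure L
  · refine le_pCoreOf (h.QS.trans (le_sup_of_le_left (le_inf le_normalizer le_sup_right))) h.Qp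
      (le_trans ?_ h.LQ)
    rw [hL]
    exact sup_le_sup inf_le_left (iSup_le fun P' => le_iSup_of_le ⟨P', P'.2.1, P'.2.2.2⟩ le_rfl)
  · set π := QuotientGroup.mk' (pCore p G) with hπ
    have hs : Function.Surjective π := QuotientGroup.mk'_surjective _
    have hb := h.map π hs (by
      rw [QuotientGroup.ker_mk']; exact (pCore_le_sylow S).trans h.SL)
    have hYb : normalClosure ((U.map π : Subgroup _) : Set (G ⧸ pCore p G)) = Y.map π := by
      rw [hY, map_normalClosure _ _ hs, coe_map]
    have hO : pCore p (G ⧸ pCore p G) = ⊥ := by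
      rw [← map_pCore π hs (by rw [QuotientGroup.ker_mk']; exact pCore_isPGroup p G),
        Subgroup.map_eq_bot_iff, QuotientGroup.ker_mk']
    by_cases hc : (Nat.card (normalClosure ((U.map π : Subgroup _) : Set (G ⧸ pCore p G)))).Coprime p
    · exact Or.inl (h.eq_normalClosure_of_map ((hb.of_coprime hc).1.trans hYb))
    · right
      obtain ⟨K, -, -, -, h3, h4⟩ := hb.of_not_coprime hO hc
      rw [hYb] at hc h3 h4
      obtain ⟨f, hf, hfr, hfK⟩ := exists_hom_quotient_pCore (p := p) Y
      have hYn : (Y.map π).Normal := Normal.map inferInstance π hs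
      have hcomp : ∀ K : Subgroup (Y ⧸ pCore p Y), IsComponent K → IsComponent (K.map f) := by
        intro K hK
        refine ⟨?_, (H52.isQuasisimple_map_iff_of_injective hf).2 hK.2⟩
        have h5 : K.map f = (K.map f.rangeRestrict).map f.range.subtype := by
          rw [map_map]; rfl
        rw [h5]
        exact (hK.1.map f.rangeRestrict_surjective).trans' (hfr ▸ hYn.isSubnormal)
      refine ⟨inferInstance, ?_, ?_, fun K₁ K₂ hK₁ hK₂ => ?_⟩
      · rw [Nat.coprime_comm, Nat.Prime.coprime_iff_not_dvd Fact.out, not_not, ← hfr] at hc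
        rwa [Nat.card_congr (MonoidHom.ofInjective hf).toEquiv]
      · apply map_injective hf
        rw [← MonoidHom.range_eq_map, hfr]
        refine le_antisymm (hfr ▸ map_le_range f _) (h3.le.trans (sSup_le fun K' hK' => ?_))
        have h5 : K' ≤ f.range := hfr ▸ hK'.2
        rw [← map_comap_eq_self h5]
        refine map_mono (H52.IsComponent.le_layer ⟨hK'.1.1.comap f, ?_⟩)
        rw [← H52.isQuasisimple_map_iff_of_injective hf, map_comap_eq_self h5]
        exact hK'.1.2
      · obtain ⟨_, ⟨s₁, hs₁, rfl⟩, h5⟩ := h4 _ (hcomp K₁ hK₁) (hfr ▸ map_le_range f _)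
        obtain ⟨_, ⟨s₂, hs₂, rfl⟩, h6⟩ := h4 _ (hcomp K₂ hK₂) (hfr ▸ map_le_range f _)
        refine ⟨s₂ * s₁⁻¹, mul_mem hs₂ (inv_mem hs₁), ?_⟩
        rw [hfK, hfK, h5, h6]
        change _ = cj _ _
        ext x
        rw [cj_inf, cj_normal _ Y, mem_inf, mem_inf, mem_cj, mem_comap, mem_comap, mem_cj, mem_cj]
        simp [mul_assoc, hπ]

end Cfsg.Agent.S3044
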