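import Cfsg.Statements.S3045
import Cfsg.Agent.H85.Isolated

set_option autoImplicit false
open Cfsg

namespace Cfsg.Agent.S3045

open Cfsg.Agent.H85 Subgroup

/-- Let G be a finite group, p a prime, S a Sylow p-subgroup of G and P a p-minimal subgroup of G containing S. Let L be the subgroup generated by N_G(S) and all p-minimal subgroups of G containing S other than P, and suppose O_p(L) is not contained in O_p(P). Put Y for the normal closure of O^p(P) in G. Then O^p(P) is contained in the preimage in G of F*(G/O_p(G)); and if Y is solvable, then Y = O^p(P) and Y/O_p(Y) is a t-group of nilpotency class at most 2 for some prime t ≠ p. -/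
theorem result {G : Type*} [Group G] [Finite G] {p : ℕ} [Fact p.Prime] (S : Sylow p G) (P : Subgroup G) (hSP : (S : Subgroup G) ≤ P) (hPmin : Cfsg.IsPMinimal p ↥P)
    (L Y : Subgroup G)
    (hL : L = Subgroup.normalizer ((S : Subgroup G) : Set G) ⊔ ⨆ P' : {P' : Subgroup G // (S : Subgroup G) ≤ P' ∧ Cfsg.IsPMinimal p ↥P' ∧ P' ≠ P}, (P' : Subgroup G))
    (hiso : ¬ (Cfsg.pCore p ↥L).map L.subtype ≤ (Cfsg.pCore p ↥P).map P.subtype)
    (hY : Y = Subgroup.normalClosure (((Cfsg.pResidual p ↥P).map P.subtype : Subgroup G) : Set G)) [hn : (Cfsg.pCore p G).Normal] :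
    (Cfsg.pResidual p ↥P).map P.subtype ≤ (Cfsg.generalizedFittingSubgroup (G ⧸ Cfsg.pCore p G)).comap (QuotientGroup.mk' (Cfsg.pCore p G)) ∧
    (Group.IsSolvable ↥Y → (Cfsg.pResidual p ↥P).map P.subtype = Y ∧
       ∃ _ : (Cfsg.pCore p ↥Y).Normal, ∃ t : ℕ, t.Prime ∧ t ≠ p ∧ IsPGroup t (↥Y ⧸ Cfsg.pCore p ↥Y) ∧
         ∃ _ : Group.IsNilpotent (↥Y ⧸ Cfsg.pCore p ↥Y), Group.nilpotencyClass (↥Y ⧸ Cfsg.pCore p ↥Y) ≤ 2) := by
  have h := isoData_of_pmin S hSP hPmin hL hiso
  subst hY
  set U := resOf p P with hU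
  set Y := normalClosure (U : Set G) with hY
  set π := QuotientGroup.mk' (pCore p G) with hπ
  have hs : Function.Surjective π := QuotientGroup.mk'_surjective _
  have hb := h.map π hs (by
    rw [QuotientGroup.ker_mk']; exact (pCore_le_sylow S).trans h.SL)
  have hYb : normalClosure ((U.map π : Subgroup _) : Set (G ⧸ pCore p G)) = Y.map π := by
    rw [hY, map_normalClosure _ _ hs, coe_map]
  have hO : pCore p (G ⧸ pCore p G) = ⊥ := by
    rw [← map_pCore π hs (by rw [QuotientGroup.ker_mk']; exact pCore_isPGroup p G),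
      Subgroup.map_eq_bot_iff, QuotientGroup.ker_mk']
  refine ⟨map_le_iff_le_comap.1 (hb.le_fstar hO), fun hsol => ?_⟩
  by_cases hc : (Nat.card (normalClosure ((U.map π : Subgroup _) : Set (G ⧸ pCore p G)))).Coprime p
  · obtain ⟨h1, t, ht, htp, h2, h3⟩ := hb.of_coprime hc
    rw [hYb] at h1
    rw [h1] at h2 h3
    obtain ⟨f, hf, hfr, -⟩ := exists_hom_quotient_pCore (p := p) Y
    have := Fact.mk ht
    have h4 : IsPGroup t (Y ⧸ pCore p Y) := by
      rw [← hfr] at h2
      exact h2.of_equiv (MonoidHom.ofInjective hf).symm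
    have := h4.isNilpotent
    refine ⟨h.eq_normalClosure_of_map h1, inferInstance, t, ht, htp, h4, this, ?_⟩
    rw [← Subgroup.lowerCentralSeries_eq_bot_iff_nilpotencyClass_le]
    apply map_injective hf
    change (⁅⁅(⊤ : Subgroup (Y ⧸ pCore p Y)), (⊤ : Subgroup (Y ⧸ pCore p Y))⁆,
      (⊤ : Subgroup (Y ⧸ pCore p Y))⁆).map f = _
    rw [map_commutator, map_commutator, ← MonoidHom.range_eq_map, hfr, h3, Subgroup.map_bot]
  · obtain ⟨K, hK, hKY, -⟩ := hb.of_not_coprime hO hc
    rw [hYb] at hKY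
    exact absurd hKY (H52.IsComponent.not_le_of_isSolvable hK
      (Group.isSolvable_of_surjective (π.subgroupMap_surjective Y)))

end Cfsg.Agent.S3045
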