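import Cfsg.Statements.S3047
import Cfsg.Agent.H86.RankOne
import Cfsg.Agent.H3.Cores

set_option autoImplicit false
open Cfsg

namespace Cfsg.Agent.S3047

open Subgroup
open scoped commutatorElement Pointwise

theorem key {X : Type*} [Group X] [Finite X] {p : ℕ} [Fact p.Prime] {K : Type*} [Group K] [Finite K]
    {U : Subgroup K} {w g h : K} (r : H86.R1 p U w g h)
    (he : Nonempty (pResidual p X ≃* K) ∨ Nonempty (pResidual p X ≃* K ⧸ center K))
    (hO : pCore p X = ⊥) (S : Sylow p X) {z : X} (hz : ∃ j : ℕ, z ^ p ^ j = 1)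
    (hc : ∀ x ∈ normalizer ((S : Subgroup X) : Set X), Commute z x) : z = 1 := by
  rcases he with ⟨⟨e⟩⟩ | ⟨⟨e⟩⟩
  · refine r.eq_one (f := (pResidual p X).subtype.comp e.symm.toMonoidHom) ?_ ?_ hO S hz hc
    · rw [(MonoidHom.ker_eq_bot_iff _).mpr ((pResidual p X).subtype_injective.comp e.symm.injective :
        Function.Injective ((pResidual p X).subtype.comp e.symm.toMonoidHom))]
      exact bot_le
    · rw [MonoidHom.range_comp, MonoidHom.range_eq_top.mpr e.symm.surjective, ← MonoidHom.range_eq_map,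
        range_subtype]
  · refine r.eq_one (f := ((pResidual p X).subtype.comp e.symm.toMonoidHom).comp
      (QuotientGroup.mk' _)) ?_ ?_ hO S hz hc
    · intro k hk
      rw [MonoidHom.mem_ker, MonoidHom.comp_apply] at hk
      have := ((injective_iff_map_eq_one _).mp
        ((pResidual p X).subtype_injective.comp e.symm.injective :
          Function.Injective ((pResidual p X).subtype.comp e.symm.toMonoidHom))) _ hk
      exact (QuotientGroup.eq_one_iff k).mp this
    · rw [MonoidHom.range_comp, MonoidHom.range_eq_top.mpr (QuotientGroup.mk'_surjective _),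
        ← MonoidHom.range_eq_map, MonoidHom.range_comp,
        MonoidHom.range_eq_top.mpr e.symm.surjective, ← MonoidHom.range_eq_map, range_subtype]

/-- Let p ≥ 5 be a prime, G a finite group all of whose composition factors are known simple groups, S a Sylow p-subgroup and P a p-minimal subgroup of G containing S such that O^p(P/O_p(P)) is isomorphic to SL₂(pᵃ), PSL₂(pᵃ), SU₃(pᵃ) or PSU₃(pᵃ) for some a ≥ 1. Let L be the subgroup generated by N_G(S) and the p-minimal subgroups of G containing S other than P. Then either O^p(P) is normal in G, or every p-element of the centre of L lies in O_p(P). -/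
theorem result {G : Type*} [Group G] [Finite G] {p : ℕ} [Fact p.Prime] (hp : 5 ≤ p) (hK : Cfsg.IsCompositionKGroup G)
    (S : Sylow p G) (P : Subgroup G) (hSP : (S : Subgroup G) ≤ P) (hPmin : Cfsg.IsPMinimal p ↥P) [hn : (Cfsg.pCore p ↥P).Normal]
    (hrk1 : ∃ (F : Type) (_ : Field F) (_ : Fintype F) (a : ℕ), 1 ≤ a ∧
      ((Fintype.card F = p ^ a ∧ (Nonempty (↥(Cfsg.pResidual p (↥P ⧸ Cfsg.pCore p ↥P)) ≃* Matrix.SpecialLinearGroup (Fin 2) F) ∨
                                  Nonempty (↥(Cfsg.pResidual p (↥P ⧸ Cfsg.pCore p ↥P)) ≃* Matrix.ProjectiveSpecialLinearGroup (Fin 2) F))) ∨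
       (Fintype.card F = p ^ (2 * a) ∧ (Nonempty (↥(Cfsg.pResidual p (↥P ⧸ Cfsg.pCore p ↥P)) ≃* ↥(Cfsg.SU 3 F (p ^ a))) ∨
                                        Nonempty (↥(Cfsg.pResidual p (↥P ⧸ Cfsg.pCore p ↥P)) ≃* Cfsg.PSU 3 F (p ^ a))))))
    (L : Subgroup G)
    (hL : L = Subgroup.normalizer ((S : Subgroup G) : Set G) ⊔ ⨆ P' : {P' : Subgroup G // (S : Subgroup G) ≤ P' ∧ Cfsg.IsPMinimal p ↥P' ∧ P' ≠ P}, (P' : Subgroup G)) :
    ((Cfsg.pResidual p ↥P).map P.subtype).Normal ∨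
    ∀ z ∈ L ⊓ Subgroup.centralizer (L : Set G), (∃ k : ℕ, orderOf z = p ^ k) → z ∈ (Cfsg.pCore p ↥P).map P.subtype := by
  right
  intro z hz hzo
  have hzp := H86.pow_eq_one_of_orderOf hzo
  have hNL : normalizer ((S : Subgroup G) : Set G) ≤ L := hL ▸ le_sup_left
  have hzc : ∀ x ∈ normalizer ((S : Subgroup G) : Set G), Commute z x := fun x hx =>
    (mem_centralizer_iff.mp hz.2 x (hNL hx)).symm
  have hzS : z ∈ (S : Subgroup G) := by
    refine H86.le_sylow_of_le_normalizer S (H86.isPGroup_zpowers hzp) ?_ (mem_zpowers z)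
    refine le_trans ?_ (centralizer_le_normalizer _)
    intro s hs
    rw [mem_centralizer_iff]
    rintro _ ⟨n, rfl⟩
    exact ((hzc s (le_normalizer hs)).zpow_left n).eq
  let π := QuotientGroup.mk' (pCore p P)
  let T : Sylow p P := S.subtype hSP
  let T' : Sylow p (P ⧸ pCore p P) := T.mapSurjective (QuotientGroup.mk'_surjective (pCore p P))
  have hc : ∀ x ∈ normalizer ((T' : Subgroup (P ⧸ pCore p P)) : Set (P ⧸ pCore p P)),
      Commute (π ⟨z, hSP hzS⟩) x := by
    intro x hx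
    obtain ⟨x, rfl⟩ := QuotientGroup.mk'_surjective (pCore p P) x
    have hxN : (x : G) ∈ normalizer ((S : Subgroup G) : Set G) := by
      refine H86.mem_normalizer_of_conj_mem fun s hs => ?_
      have h1 : π ⟨s, hSP hs⟩ ∈ (T' : Subgroup (P ⧸ pCore p P)) := mem_map_of_mem _ hs
      obtain ⟨t, ht, e⟩ := H4.conj_mem_of_mem_normalizer hx h1
      have h2 : t⁻¹ * (x * ⟨s, hSP hs⟩ * x⁻¹) ∈ pCore p P := QuotientGroup.eq.mp e
      have h3 := mul_mem ht (H86.pCore_le_sylow T h2)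
      rw [mul_inv_cancel_left] at h3
      exact h3
    exact (show Commute (⟨z, hSP hzS⟩ : P) x from Subtype.ext (hzc x hxN).eq).map π
  have hzp' : ∃ j : ℕ, π ⟨z, hSP hzS⟩ ^ p ^ j = 1 := by
    obtain ⟨j, hj⟩ := hzp
    exact ⟨j, by rw [← map_pow, show (⟨z, hSP hzS⟩ : P) ^ p ^ j = 1 from Subtype.ext hj, map_one]⟩
  have hO := H3.pCore_quotient_pCore p P
  have h1 : π ⟨z, hSP hzS⟩ = 1 := by
    obtain ⟨F, _, _, a, ha, ⟨hF, he⟩ | ⟨hF, he⟩⟩ := hrk1
    · obtain ⟨U, w, g, h, r⟩ := H86.exists_R1_SL2 hp hF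
      exact key r he hO T' hzp' hc
    · have hF' : Fintype.card F = (p ^ a) ^ 2 := by rw [hF, mul_comm, pow_mul]
      obtain ⟨U, w, g, h, r⟩ := H86.exists_R1_SU3 hp hF'
      obtain ⟨e1⟩ := (H31.isHerm_hyp3 (H31.isInvol_frobQ hF')).nonempty_sisom_equiv_SU hF'
        (fun _ => rfl) (H31.finrank_fin 3)
      obtain ⟨e2⟩ := H31.nonempty_psu3_equiv hF'
      refine key r ?_ hO T' hzp' hc
      rcases he with ⟨⟨e⟩⟩ | ⟨⟨e⟩⟩
      · exact Or.inl ⟨e.trans e1.symm⟩
      · exact Or.inr ⟨e.trans e2.symm⟩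
  exact ⟨⟨z, hSP hzS⟩, (QuotientGroup.eq_one_iff _).mp h1, rfl⟩

end Cfsg.Agent.S3047
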