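import Cfsg.Statements.S3048
import Cfsg.Agent.S3011
import Cfsg.Agent.S3012
import Cfsg.Agent.S3013
import Cfsg.Agent.H52.Pump
import Cfsg.Agent.H55.Cores
import Cfsg.Agent.H63.Defs

set_option autoImplicit false
universe u
open Cfsg

namespace Cfsg.Agent.S3048

open Subgroup H63 H52
open scoped commutatorElement

section Aux

variable {G : Type u} [Group G] [Finite G] {V : Subgroup G}

/-- A witness against the pair condition. -/
def Bad (W K : Subgroup G) : Prop :=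
  ∃ w ∈ W, ∃ x ∈ K, Odd (orderOf x) ∧ w * x * w⁻¹ = x⁻¹ ∧ ∀ z ∈ W, z * x = x * z → z = 1

theorem mem_of_inv {K : Subgroup G} {w x : G} (ho : Odd (orderOf x)) (hi : w * x * w⁻¹ = x⁻¹)
    (h : w * x * w⁻¹ * x⁻¹ ∈ K) : x ∈ K := by
  rw [hi, ← mul_inv_rev, ← pow_two] at h
  exact H55.mem_of_pow_mem_of_coprime (inv_mem_iff.1 h) (Nat.coprime_two_left.2 ho)

/-- The minimality hypotheses. -/
structure Min (V : Subgroup G) : Prop where
  ea : IsElementaryAbelian 2 V
  ne : V ≠ ⊥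
  sid : IsSidkiPair V
  inf : V ⊓ pCore 2 G = ⊥
  mg : ∀ (H : Type u) [Group H] [Finite H] (W : Subgroup H), Nat.card H < Nat.card G →
    IsElementaryAbelian 2 W → W ≠ ⊥ → IsSidkiPair W → W ⊓ pCore 2 H ≠ ⊥
  mv : ∀ W : Subgroup G, Nat.card W < Nat.card V → IsElementaryAbelian 2 W → W ≠ ⊥ →
    IsSidkiPair W → W ⊓ pCore 2 G ≠ ⊥

variable (h : Min V)
include h

omit [Finite G] in
theorem not_bad {K : Subgroup G} : ¬ Bad V K := fun ⟨w, hw, x, _, ho, hi, hz⟩ => by
  obtain ⟨z, z1, z2, z3⟩ := h.sid x w hw ho hi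
  exact z2 (hz z z1 z3)

theorem bad0 {H W : Subgroup G} (h1 : W ≤ H) (h2 : W ≤ V) (h3 : W ≠ ⊥) (h4 : W ⊓ Op 2 H = ⊥)
    (h5 : H ≠ ⊤ ∨ W ≠ V) : Bad W H := by
  by_contra hc
  have hs : ∀ x ∈ H, ∀ w ∈ W, Odd (orderOf x) → w * x * w⁻¹ = x⁻¹ →
      ∃ z ∈ W, z ≠ 1 ∧ z * x = x * z := fun x hx w hw ho hi => by
    by_contra k
    exact hc ⟨w, hw, x, hx, ho, hi, fun z hz e => by_contra fun e' => k ⟨z, hz, e', e⟩⟩
  have ea := H55.ea_mono h.ea h2
  by_cases e : H = ⊤
  · subst e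
    rw [Op_top] at h4
    exact h.mv W (H7.card_lt_of_lt (lt_of_le_of_ne h2 (h5.resolve_left fun k => k rfl))) ea h3
      (fun x w hw => hs x trivial w hw) h4
  · refine h.mg H (W.subgroupOf H) ?_ ⟨?_, fun a ha => Subtype.ext (ea.2 a ha)⟩
      (fun k => h3 (by rw [← map_subgroupOf_eq_of_le h1, k, Subgroup.map_bot])) ?_ ?_
    · have := H7.card_lt_of_lt (lt_top_iff_ne_top.2 e)
      rwa [card_top] at this
    · exact ⟨⟨fun a b => Subtype.ext (Subtype.ext (H55.ea_comm ea a.2 b.2))⟩⟩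
    · intro x w hw ho hi
      obtain ⟨z, z1, z2, z3⟩ := hs x x.2 w hw (by rwa [orderOf_coe]) (congrArg Subtype.val hi)
      exact ⟨⟨z, h1 z1⟩, z1, fun k => z2 (congrArg Subtype.val k), Subtype.ext z3⟩
    · refine eq_bot_iff.2 fun a ha => ?_
      have : (a : G) ∈ W ⊓ Op 2 H := ⟨ha.1, a, ha.2, rfl⟩
      rw [h4, mem_bot] at this
      exact mem_bot.2 (Subtype.ext this)

theorem bad {K W : Subgroup G} (h0 : Op 2 K = ⊥) (h1 : W ≤ V) (h2 : W ≤ N[K])
    (h3 : W ⊓ C[K] = ⊥) (h4 : K ⊔ W ≠ ⊤ ∨ W ≠ V) : Bad W K := by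
  by_cases e : W = ⊥
  · exact ⟨1, one_mem _, 1, one_mem _, by simp, by simp, fun z hz _ => by rwa [e, mem_bot] at hz⟩
  have n : K ⊔ W ≤ N[K] := sup_le le_normalizer h2
  have c : Op 2 (K ⊔ W) ≤ C[K] := by
    refine commutator_eq_bot_iff_le_centralizer'.1 (eq_bot_iff.2 ?_)
    rw [← h0]
    exact (commutator_le_inf_of_normalizer (le_sup_left.trans (le_normalizer_Op _))
      ((Op_le _).trans n)).trans (H55.le_Op ((H55.Op_isPGroup 2 _).to_le inf_le_right) inf_le_left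
      (H52.le_normalizer_inf le_normalizer (le_sup_left.trans (le_normalizer_Op _))))
  obtain ⟨w, hw, x, hx, ho, hi, hz⟩ := bad0 h (H := K ⊔ W) le_sup_right h1 e
    (eq_bot_iff.2 (h3 ▸ inf_le_inf_left _ c)) h4
  refine ⟨w, hw, x, mem_of_inv ho hi ?_, ho, hi, hz⟩
  rw [sup_comm] at hx
  obtain ⟨a, ha, k, hk, rfl⟩ := (mem_sup_of_le_normalizer h2).1 hx
  have e1 : w * (a * k) * w⁻¹ * (a * k)⁻¹ = (w * a) * k * (w * a)⁻¹ * (a * k⁻¹ * a⁻¹) := by
    calc _ = (w * a) * k * (a * w)⁻¹ * (a * k⁻¹ * a⁻¹) := by group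
      _ = _ := by rw [H55.ea_comm h.ea (h1 ha) (h1 hw)]
  rw [e1]
  exact mul_mem ((mem_normalizer_iff.1 (h2 (mul_mem hw ha)) _).1 hk)
    ((mem_normalizer_iff.1 (h2 ha) _).1 (inv_mem hk))

theorem quo (K : Subgroup G) [K.Normal] (h0 : K ≠ ⊥) (h1 : V ⊓ K = ⊥) :
    ∃ v ∈ V, v ≠ 1 ∧ QuotientGroup.mk' K v ∈ pCore 2 (G ⧸ K) := by
  have := h.mg (G ⧸ K) (V.map (QuotientGroup.mk' K)) (by
      have e := K.card_eq_card_quotient_mul_card_subgroup
      have := one_lt_card_iff_ne_bot K |>.2 h0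
      have : 0 < Nat.card (G ⧸ K) := Nat.card_pos
      nlinarith)
    ⟨⟨⟨by
      rintro ⟨_, a, ha, rfl⟩ ⟨_, b, hb, rfl⟩
      exact Subtype.ext (by
        change QuotientGroup.mk' K a * QuotientGroup.mk' K b =
          QuotientGroup.mk' K b * QuotientGroup.mk' K a
        rw [← map_mul, ← map_mul, H55.ea_comm h.ea ha hb])⟩⟩, by
      rintro _ ⟨a, ha, rfl⟩
      rw [← map_pow, h.ea.2 a ha, map_one]⟩
    (fun e => h.ne (by
      rw [Subgroup.map_eq_bot_iff, QuotientGroup.ker_mk'] at e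
      rwa [inf_eq_left.2 e] at h1))
    (S3012.result V K h.ea h.ne h.sid h1)
  obtain ⟨_, ⟨⟨v, hv, rfl⟩, h2⟩, h3⟩ := H55.exists_ne_one_of_ne_bot this
  exact ⟨v, hv, fun e => h3 (by rw [e, map_one]), h2⟩

theorem o2 : pCore 2 G = ⊥ := by
  by_contra k
  have := pCore_normal (p := 2) (G := G)
  obtain ⟨v, hv, h1, h2⟩ := quo h _ k h.inf
  rw [pCore_quotient_pCore, mem_bot] at h2
  have : v ∈ V ⊓ pCore 2 G := ⟨hv, (QuotientGroup.eq_one_iff v).1 h2⟩
  rw [h.inf, mem_bot] at this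
  exact h1 this

theorem op_sn {K : Subgroup G} (hK : SN K ⊤) : Op 2 K = ⊥ :=
  eq_bot_iff.2 (hK.Op_le.trans (by rw [Op_top, o2 h]))

omit h [Finite G] in
theorem sn_normal (K : Subgroup G) [hK : K.Normal] : SN K ⊤ :=
  SN.of_le_normalizer le_top (normalizer_eq_top K).ge

theorem not_central (K : Subgroup G) [K.Normal] (h0 : K ≠ ⊥) : C[K] ≠ ⊤ := fun e => by
  have hz : K ≤ center G := fun k hk => mem_center_iff.2 fun g => ((e.ge (mem_top g)) k hk).symm
  have key : ∀ v ∈ V, v ∈ fittingSubgroup G → v = 1 := fun v hv hf => by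
    have := H55.le_Op_of_le_Ft (H := ⊤) (H55.isPGroup_zpowers (h.ea.2 v hv))
      (by rw [Ft_top]; exact zpowers_le.2 hf)
    rw [Op_top, o2 h] at this
    exact mem_bot.1 (this (mem_zpowers v))
  obtain ⟨v, hv, h1, h2⟩ := quo h K h0 (eq_bot_iff.2 fun v hv => mem_bot.2
    (key v hv.1 (le_fitting (N := center G) (isNilpotent_of_commutator_eq_bot
      (commutator_eq_bot_iff_le_centralizer.2 (center_le_centralizer _))) (hz hv.2))))
  have := pCore_normal (p := 2) (G := G ⧸ K)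
  have := (pCore_isPGroup (p := 2) (G := G ⧸ K)).isNilpotent
  refine h1 (key v hv (le_fitting (N := (pCore 2 (G ⧸ K)).comap (QuotientGroup.mk' K))
    (Subgroup.isNilpotent_of_ker_le_center ((QuotientGroup.mk' K).subgroupComap _) ?_) h2))
  intro a ha
  have : (a : G) ∈ K := (QuotientGroup.eq_one_iff _).1 (congrArg Subtype.val ha)
  exact mem_center_iff.2 fun g => Subtype.ext (mem_center_iff.1 (hz this) g)

theorem cent (K : Subgroup G) [K.Normal] (h0 : K ≠ ⊥) : V ⊓ C[K] = ⊥ := by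
  by_contra k
  obtain ⟨u, hu, x, hx, ho, hi, hz⟩ : Bad (V ⊓ C[K]) C[K] :=
    bad0 h inf_le_right inf_le_left k (by rw [op_sn h (sn_normal _), inf_bot_eq])
      (Or.inl (not_central h K h0))
  obtain ⟨w, hw, y, hy, ho', hi', hz'⟩ : Bad (V ⊓ C1[x]) K := by
    refine bad h (op_sn h (sn_normal K)) inf_le_left (by rw [normalizer_eq_top]; exact le_top)
      (eq_bot_iff.2 fun a ha => mem_bot.2
        (hz a ⟨ha.1.1, ha.2⟩ (mem_centralizer_singleton_iff.1 ha.1.2))) (Or.inr fun e => k ?_)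
    exact eq_bot_iff.2 fun a ha => mem_bot.2
      (hz a ha (mem_centralizer_singleton_iff.1 (e.ge ha.1).2))
  have s := (S3013.result V h.ea h.ne h.sid w y hw.1 ho' hi' _ rfl).2
  have m1 : x ∈ C1[w] ⊓ C1[y] := ⟨mem_centralizer_singleton_iff.2
    (mem_centralizer_singleton_iff.1 hw.2).symm, mem_centralizer_singleton_iff.2 (hx y hy).symm⟩
  have m2 : u ∈ C1[w] ⊓ C1[y] := ⟨mem_centralizer_singleton_iff.2 (H55.ea_comm h.ea hu.1 hw.1),
    mem_centralizer_singleton_iff.2 (hu.2 y hy).symm⟩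
  obtain ⟨z, z1, z2, z3⟩ := s ⟨x, m1⟩ ⟨u, m2⟩ ⟨m2, hu.1⟩ (by rwa [← orderOf_coe]) (Subtype.ext hi)
  exact z2 (Subtype.ext (hz' z ⟨z1.2, mem_centralizer_singleton_iff.2 (congrArg Subtype.val z3)⟩
    (mem_centralizer_singleton_iff.1 z.2.2)))

theorem gen (K : Subgroup G) [K.Normal] (h0 : K ≠ ⊥) : K ⊔ V = ⊤ := by
  by_contra k
  exact not_bad h (bad h (op_sn h (sn_normal K)) le_rfl (by rw [normalizer_eq_top]; exact le_top)
    (cent h K h0) (Or.inl k))

theorem der (K : Subgroup G) [K.Normal] (h0 : K ≠ ⊥) : ⁅(⊤ : Subgroup G), ⊤⁆ ≤ K := by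
  have e : (⊤ : Subgroup G).map (QuotientGroup.mk' K) = V.map (QuotientGroup.mk' K) := by
    rw [← gen h K h0, Subgroup.map_sup, (Subgroup.map_eq_bot_iff K).2 (QuotientGroup.ker_mk' K).ge,
      bot_sup_eq]
  rw [← QuotientGroup.ker_mk' K, ← Subgroup.map_eq_bot_iff, map_commutator, e, ← map_commutator,
    commutator_eq_bot_iff_le_centralizer.2 (H55.ea_le_centralizer h.ea le_rfl), Subgroup.map_bot]

theorem fit : fittingSubgroup G = ⊥ := by
  by_contra k
  have := fitting_normal (G := G)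
  obtain ⟨M, p, hp, hM, h0, -, ea, hmin⟩ :=
    H3.exists_minimal_normal_elementary_le _ fitting_isSolvable k
  have key : ∀ w ∈ V, w ≠ 1 → ∀ x ∈ M, w * x = x * w → x = 1 := fun w hw w1 x hx e => by
    have hn : (M ⊓ C1[w]).Normal := normalizer_eq_top_iff.1 (top_le_iff.1 ((gen h M h0).ge.trans
      (sup_le (H55.le_normalizer_of_le_centralizer
        ((H55.ea_le_centralizer ea inf_le_left))) (H52.le_normalizer_inf
          (by rw [normalizer_eq_top]; exact le_top)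
          (H55.ea_le_normalizer_centralizer_singleton h.ea hw)))))
    rcases hmin _ hn inf_le_left with e1 | e1
    · exact mem_bot.1 (e1.le ⟨hx, mem_centralizer_singleton_iff.2 e.symm⟩)
    · exact absurd (mem_bot.1 ((cent h M h0).le ⟨hw, fun y hy =>
        mem_centralizer_singleton_iff.1 (e1.ge hy).2⟩)) w1
  obtain ⟨v, hv, v1⟩ := H55.exists_ne_one_of_ne_bot h.ne
  obtain ⟨m, hm, m1⟩ := H55.exists_ne_one_of_ne_bot h0
  have hx : v * m * v⁻¹ * m⁻¹ ∈ M := mul_mem (hM.conj_mem m hm v) (inv_mem hm)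
  have p2 : p ≠ 2 := by
    rintro rfl
    exact h0 (eq_bot_iff.2 (o2 h ▸ le_sSup ⟨hM, H55.ea_isPGroup ea⟩))
  have v2 : v * v = 1 := by rw [← pow_two]; exact h.ea.2 v hv
  obtain ⟨w, hw, w1, e⟩ := h.sid _ v hv ((hp.odd_of_ne_two p2).of_dvd_nat
    (orderOf_dvd_of_pow_eq_one (ea.2 _ hx))) (by
      calc v * (v * m * v⁻¹ * m⁻¹) * v⁻¹ = (v * v) * m * v * (v * v)⁻¹ * m⁻¹ * v⁻¹ := by group
        _ = _ := by rw [v2]; group)
  have := key w hw w1 _ hx e
  exact m1 (key v hv v1 m hm (by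
    calc v * m = (v * m * v⁻¹ * m⁻¹) * (m * v) := by group
      _ = m * v := by rw [this, one_mul]))

theorem ctr {K : Subgroup G} (hK : SN K ⊤) : Z[K] = ⊥ := by
  refine eq_bot_iff.2 (le_trans (H55.le_Ft (isNilpotent_of_commutator_eq_bot
    (commutator_eq_bot_iff_le_centralizer.2 (inf_le_right.trans (centralizer_le inf_le_left))))
    inf_le_left (H52.le_normalizer_inf le_normalizer
      (le_normalizer.trans (normalizer_le_normalizer_centralizer K)))) ?_)
  exact (Ft_mono le_top hK.2).trans (by rw [Ft_top, fit h])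

theorem norm_comp {L : Subgroup G} (hL : IsComponentOf L ⊤) : V ≤ N[L] := by
  by_contra k
  have t : ∀ B : Subgroup G, B ≤ N[(⊤ : Subgroup G)] := fun B => by
    rw [normalizer_eq_top]; exact le_top
  have l0 := IsComponentOf.ne_bot hL
  have := layer_normal (G := G)
  have e0 : layer G ≠ ⊥ := layer_ne_bot_iff.2 ⟨L, isComponentOf_top_iff.1 hL⟩
  have hn : (orbitSup V L).Normal := normalizer_eq_top_iff.1 (top_le_iff.1 ((gen h _ e0).ge.trans
    (sup_le (Ly_top (G := G) ▸ IsComponentOf.Ly_le_normalizer_orbitSup hL (t V))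
      (le_normalizer_orbitSup V L))))
  obtain ⟨B, hB, hle⟩ := H55.exists_hyp_ge (H55.ea_isPGroup h.ea) (inf_le_left : V ⊓ N[L] ≤ V)
    fun e => k (inf_eq_left.1 e)
  by_cases b0 : B = ⊥
  · refine S3011.result V h.ea h.ne h.sid ?_ h.inf
    rw [hB.card, b0, card_bot]
    norm_num
  have sn := IsComponentOf.sn_orbitSup hL (t B)
  obtain ⟨w, hw, x, hx, ho, hi, hz⟩ : Bad B (orbitSup B L) := by
    refine bad h (op_sn h sn) hB.le (le_normalizer_orbitSup B L) (eq_bot_iff.2 fun b hb => ?_)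
      (Or.inr hB.ne)
    refine (cent h (orbitSup V L) fun e => l0 (eq_bot_iff.2 (e ▸ le_orbitSup V L))).le
      ⟨hB.le hb.1, zpowers_le.1 (le_centralizer_iff.1 (orbitSup_le_iff.2 fun u hu => ?_))⟩
    have e1 := cnj_mono u (((le_orbitSup B L).trans (le_centralizer_iff.1 (zpowers_le.2 hb.2))))
    rwa [cnj_eq_iff_mem_normalizer.2 (le_normalizer
      (H55.ea_le_centralizer h.ea (zpowers_le.2 (hB.le hb.1)) hu))] at e1
  obtain ⟨z, z1, z2, z3⟩ := h.sid x w (hB.le hw) ho hi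
  have zB : z ∉ B := fun e => z2 (hz z e z3)
  have c : ⁅orbitSup B L, cnj z (orbitSup B L)⁆ = ⊥ := by
    rw [orbitSup, cnj_sSup]
    refine commutator_sSup_left_eq_bot ?_
    rintro _ ⟨a, ha, rfl⟩
    refine commutator_sSup_right_eq_bot ?_
    rintro _ ⟨_, ⟨b, hb, rfl⟩, rfl⟩
    rw [cnj_cnj]
    refine IsComponentOf.commutator_eq_bot_of_ne (IsComponentOf.cnj_of_mem hL (t ⊤ trivial))
      (IsComponentOf.cnj_of_mem hL (t ⊤ trivial)) fun e => zB ?_
    have e1 : cnj (a⁻¹ * (z * b)) L = L := by rw [← cnj_cnj, ← e, cnj_cnj, inv_mul_cancel, cnj_one]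
    have e2 := hle (mem_inf.2 ⟨mul_mem (inv_mem (hB.le ha)) (mul_mem z1 (hB.le hb)),
      cnj_eq_iff_mem_normalizer.1 e1⟩)
    exact (mul_mem_cancel_right hb).1 ((mul_mem_cancel_left (inv_mem ha)).1 e2)
  have x1 : x = 1 := mem_bot.1 ((ctr h sn).le ⟨hx, commutator_eq_bot_iff_le_centralizer'.1 c (by
    have := conj_mem_cnj (g := z) hx
    rwa [z3, mul_inv_cancel_right] at this)⟩)
  exact b0 (eq_bot_iff.2 fun b hb => mem_bot.2 (hz b hb (by rw [x1, mul_one, one_mul])))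

end Aux

/-- Minimal counterexample reduction for the Sidki pair problem. Let G be a finite group and V a nontrivial elementary abelian 2-subgroup satisfying the Sidki pair condition with V ∩ O₂(G) = 1. Suppose that for every finite group H of smaller order, every nontrivial elementary abelian 2-subgroup W of H satisfying the Sidki pair condition meets O₂(H) nontrivially, and that the same holds in G for every such subgroup W of order smaller than that of V. Then the generalized Fitting subgroup F*(G) is a non-abelian simple group and G = V F*(G). -/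
theorem result {G : Type u} [Group G] [Finite G] (V : Subgroup G) (hV : Cfsg.IsElementaryAbelian 2 V) (hV1 : V ≠ ⊥) (hS : Cfsg.IsSidkiPair V) (hVO : V ⊓ Cfsg.pCore 2 G = ⊥) (hminG : ∀ (H : Type u) [Group H] [Finite H] (W : Subgroup H), Nat.card H < Nat.card G → Cfsg.IsElementaryAbelian 2 W → W ≠ ⊥ → Cfsg.IsSidkiPair W → W ⊓ Cfsg.pCore 2 H ≠ ⊥) (hminV : ∀ W : Subgroup G, Nat.card W < Nat.card V → Cfsg.IsElementaryAbelian 2 W → W ≠ ⊥ → Cfsg.IsSidkiPair W → W ⊓ Cfsg.pCore 2 G ≠ ⊥) : IsSimpleGroup ↥(Cfsg.generalizedFittingSubgroup G) ∧ ¬ IsMulCommutative ↥(Cfsg.generalizedFittingSubgroup G) ∧ V ⊔ Cfsg.generalizedFittingSubgroup G = ⊤ := by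
  have h : Min V := ⟨hV, hV1, hS, hVO, hminG, hminV⟩
  have : Nontrivial G := by
    obtain ⟨v, -, v1⟩ := H55.exists_ne_one_of_ne_bot hV1
    exact ⟨v, 1, v1⟩
  have e : generalizedFittingSubgroup G = layer G := by
    rw [generalizedFittingSubgroup, fit h, sup_bot_eq]
  have e0 : layer G ≠ ⊥ := e ▸ fstar_ne_bot
  have := layer_normal (G := G)
  obtain ⟨L, hL⟩ := layer_ne_bot_iff.1 e0
  have hL' := isComponentOf_top_iff.2 hL
  have hn : L.Normal := normalizer_eq_top_iff.1 (top_le_iff.1 ((gen h _ e0).ge.trans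
    (sup_le (Ly_top (G := G) ▸ IsComponentOf.Ly_le_normalizer hL') (norm_comp h hL'))))
  have e1 : layer G = L := le_antisymm (by
    rw [← Ly_top, ← commutator_Ly_self]
    exact (commutator_mono le_top le_top).trans (der h L (IsComponentOf.ne_bot hL')))
    (le_sSup hL)
  refine ⟨?_, ?_, by rw [e, sup_comm, gen h _ e0]⟩ <;> rw [e, e1]
  · refine IsQuasisimple.isSimpleGroup_of_center_eq_bot hL.2
      ((Subgroup.map_eq_bot_iff_of_injective _ L.subtype_injective).1 ?_)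
    rw [map_center_subtype, ctr h (IsComponentOf.sn hL')]
  · exact IsQuasisimple.not_isMulCommutative hL.2

end Cfsg.Agent.S3048
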