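import Cfsg.Statements.S3053
import Cfsg.Agent.H54.ExtP3

set_option autoImplicit false
open Cfsg

namespace Cfsg.Agent.S3053

/-- Let p be an odd prime and G a finite group with a Sylow p-subgroup P that is extraspecial of order p³ and exponent p². Then the centre of P is strongly closed in P with respect to G: a G-conjugate of an element of Z(P) that lies in P already lies in Z(P). In particular a nontrivial central element of P is conjugate in G to no noncentral element of P. -/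
theorem result {G : Type*} [Group G] [Finite G]
    {p : ℕ} [Fact p.Prime] (hp : p ≠ 2) (P : Sylow p G) (hE : Cfsg.IsExtraspecial p ↥P)
    (hcard : Nat.card P = p ^ 3) (hexp : Monoid.exponent ↥P = p ^ 2) :
    Cfsg.IsStronglyClosed ((Subgroup.center ↥P).map (P : Subgroup G).subtype) (P : Subgroup G) := by
  obtain ⟨z, h, hz⟩ := H54.exists_xs hE hcard
  suffices Cfsg.IsStronglyClosed (Subgroup.zpowers z) (P : Subgroup G) from hz ▸ this
  refine ⟨h.zle, fun w hw g hy => ?_⟩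
  by_contra hyz
  have hP := H85.isSyl_top P
  obtain ⟨v, hvy, hvz⟩ := h.exists_transvection hP hw hy hyz
  set y := g * w * g⁻¹ with hydef
  have hyp : y ^ p = 1 := by rw [hydef, conj_pow, h.pow_of_mem hw]; group
  obtain ⟨t, ht, htz, hty⟩ := h.exists_torus hP hy hyz hyp hvy hvz (a := -1) (by simp)
  rw [H54.zp_neg h.pow, H54.zp_one] at htz
  rw [inv_neg, inv_one, H54.zp_neg hyp, H54.zp_one] at hty
  have hinv : ∀ c ∈ Subgroup.zpowers z, t * c * t⁻¹ = c⁻¹ := by
    rintro _ ⟨n, rfl⟩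
    change t * z ^ n * t⁻¹ = _
    rw [← conj_zpow, htz, inv_zpow]
  have hsq : ∀ c ∈ (P : Subgroup G), c ^ 2 = 1 → c = 1 := fun c hc =>
    H51.eq_one_of_sq_eq_one_of_isPGroup hp P.isPGroup' hc
  have hmulpow : ∀ a ∈ (P : Subgroup G), ∀ b ∈ (P : Subgroup G), (a * b) ^ p = a ^ p * b ^ p := by
    intro a ha b hb
    have hc := h.comm _ (inv_mem hb) _ (inv_mem ha)
    obtain ⟨k, hk⟩ := (Fact.out : p.Prime).dvd_choose_self two_ne_zero
      (lt_of_le_of_ne (Fact.out : p.Prime).two_le hp.symm)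
    rw [H51.mul_pow_of_central_commutator (z := b⁻¹ * a⁻¹ * b⁻¹⁻¹ * a⁻¹⁻¹) (by group)
      (h.cen' ha hc).symm (h.cen' hb hc).symm, hk, pow_mul]
    have := h.pow_of_mem hc
    rw [commutatorElement_def] at this
    rw [this, one_pow, mul_one]
  let K : Subgroup G :=
    { carrier := {a | a ∈ (P : Subgroup G) ∧ a ^ p = 1}
      one_mem' := ⟨one_mem _, one_pow _⟩
      mul_mem' := fun {a b} ha hb => ⟨mul_mem ha.1 hb.1, by rw [hmulpow a ha.1 b hb.1, ha.2, hb.2, one_mul]⟩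
      inv_mem' := fun {a} ha => ⟨inv_mem ha.1, by rw [inv_pow, ha.2, inv_one]⟩ }
  obtain ⟨x, hx, hxp⟩ : ∃ x ∈ (P : Subgroup G), x ^ p ≠ 1 := by
    by_contra hc
    push Not at hc
    have h1 : Monoid.exponent P ∣ p :=
      Monoid.exponent_dvd_of_forall_pow_eq_one fun a => Subtype.ext (hc a a.2)
    replace h1 : p ^ 2 ∣ p := hexp ▸ h1
    have h2 := Nat.le_of_dvd (Fact.out : p.Prime).pos h1
    have h3 := (Fact.out : p.Prime).one_lt
    nlinarith
  have hK : K = (P : Subgroup G) ⊓ Subgroup.centralizer {y} :=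
    h.eq_centralizer (A := K) (fun a ha => ha.1) (fun e => hxp (e.ge hx).2) ⟨h.mem, h.pow⟩ ⟨hy, hyp⟩ hyz
  have hx' : t * x * t⁻¹ ∈ (P : Subgroup G) := (Subgroup.mem_normalizer_iff.mp ht x).mp hx
  have h1 : t * x * t⁻¹ * x ∈ K := ⟨mul_mem hx' hx, by
    rw [hmulpow _ hx' _ hx, conj_pow, hinv _ (h.pow_mem_z hx), inv_mul_cancel]⟩
  rw [hK] at h1
  have h2 := Subgroup.mem_centralizer_singleton_iff.mp h1.2
  set c := x * y * x⁻¹ * y⁻¹ with hcdef
  have hc : c ∈ Subgroup.zpowers z := h.comm x hx y hy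
  have h3 : x * y * x⁻¹ = c * y := by rw [hcdef]; group
  have h4 : t * x * t⁻¹ * y * (t * x * t⁻¹)⁻¹ = c * y := by
    have e : t * x * t⁻¹ * y⁻¹ * (t * x * t⁻¹)⁻¹ = c⁻¹ * y⁻¹ := by
      rw [← hty, ← hinv c hc]
      calc _ = t * (x * y * x⁻¹) * t⁻¹ := by group
        _ = _ := by rw [h3]; group
    calc _ = (t * x * t⁻¹ * y⁻¹ * (t * x * t⁻¹)⁻¹)⁻¹ := by group
      _ = _ := by rw [e, mul_inv_rev, inv_inv, inv_inv, h.cen' hy hc]
  have h5 : c ^ 2 = 1 := by
    have e : y = c * (c * y) := by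
      calc y = t * x * t⁻¹ * x * y * (t * x * t⁻¹ * x)⁻¹ := by rw [h2]; group
        _ = t * x * t⁻¹ * (x * y * x⁻¹) * (t * x * t⁻¹)⁻¹ := by group
        _ = (t * x * t⁻¹ * c * (t * x * t⁻¹)⁻¹) * (t * x * t⁻¹ * y * (t * x * t⁻¹)⁻¹) := by
          rw [h3]; group
        _ = _ := by rw [h4, h.cen' hx' hc, mul_inv_cancel_right]
    rw [← mul_assoc, eq_comm, mul_eq_right] at e
    rw [sq, e]
  have h6 : c = 1 := hsq c (h.zle hc) h5
  rw [h6, one_mul, mul_inv_eq_iff_eq_mul] at h3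
  have h7 : x ∈ K := hK ▸ ⟨hx, Subgroup.mem_centralizer_singleton_iff.mpr h3⟩
  exact hxp h7.2

end Cfsg.Agent.S3053
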