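import Cfsg.Statements.S3054
import Cfsg.Agent.H54.ExtP3B

set_option autoImplicit false
open Cfsg

namespace Cfsg.Agent.S3054

theorem exists_aut {A : Type*} [CommGroup A] [Finite A] {p : ℕ} [hp : Fact p.Prime]
    (hA : Nat.card A = p ^ 2) {y z : A} (hy : orderOf y = p) (hz : z ∉ Subgroup.zpowers y) :
    ∃ φ : MulAut A, orderOf φ = p ∧ φ y = y ∧ φ z = z * y := by
  have hq : Nat.card (A ⧸ Subgroup.zpowers y) = p := by
    have := (Subgroup.zpowers y).index_mul_card
    rw [Nat.card_zpowers, hy, hA, sq] at this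
    exact Nat.eq_of_mul_eq_mul_right hp.out.pos this
  have hz1 : (QuotientGroup.mk z : A ⧸ Subgroup.zpowers y) ≠ 1 := fun e =>
    hz ((QuotientGroup.eq_one_iff z).mp e)
  have hgen : ∀ a : A ⧸ Subgroup.zpowers y, a ∈ Subgroup.zpowers (QuotientGroup.mk z) :=
    fun a => mem_zpowers_of_prime_card hq hz1
  have hord : orderOf y ∣ orderOf (QuotientGroup.mk z : A ⧸ Subgroup.zpowers y) := by
    rw [orderOf_eq_card_of_forall_mem_zpowers hgen, hq, hy]
  let χ : A →* A := (monoidHomOfForallMemZpowers hgen hord).comp (QuotientGroup.mk' _)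
  have hχz : χ z = y := monoidHomOfForallMemZpowers_apply_gen hgen hord
  have hχy : ∀ a ∈ Subgroup.zpowers y, χ a = 1 := fun a ha => by
    change monoidHomOfForallMemZpowers hgen hord (QuotientGroup.mk a) = 1
    rw [(QuotientGroup.eq_one_iff a).mpr ha, map_one]
  have hχm : ∀ a, χ a ∈ Subgroup.zpowers y := fun a => ⟨_, rfl⟩
  let φ : MulAut A :=
    { toFun := fun a => a * χ a
      invFun := fun a => a * (χ a)⁻¹
      left_inv := fun a => by simp [hχy _ (hχm a)]
      right_inv := fun a => by simp [hχy _ (hχm a)]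
      map_mul' := fun a b => by rw [map_mul, mul_mul_mul_comm] }
  have hφ : ∀ a, φ a = a * χ a := fun a => rfl
  have hpow : ∀ (n : ℕ) (a : A), (φ ^ n) a = a * χ a ^ n := by
    intro n a
    induction n with
    | zero => simp
    | succ n ih =>
      rw [pow_succ', MulAut.mul_apply, ih, hφ, map_mul, map_pow, hχy _ (hχm a), one_pow, mul_one,
        pow_succ, mul_assoc]
  have hy1 : y ≠ 1 := fun e => by
    rw [e, orderOf_one] at hy
    exact hp.out.one_lt.ne hy
  refine ⟨φ, orderOf_eq_prime ?_ fun e => hy1 ?_, by rw [hφ, hχy _ (Subgroup.mem_zpowers y), mul_one],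
    by rw [hφ, hχz]⟩
  · ext a
    obtain ⟨n, hn⟩ := hχm a
    rw [hpow, ← hn]
    change a * (y ^ n) ^ p = a
    rw [← zpow_natCast, ← zpow_mul, mul_comm n, zpow_mul, zpow_natCast, ← hy, pow_orderOf_eq_one,
      one_zpow, mul_one]
  · have := hφ z
    rw [e, hχz] at this
    simpa using this


/-- Let p be an odd prime and G a finite group with a Sylow p-subgroup P that is extraspecial of order p³ and exponent p. Suppose P contains three distinct subgroups A of order p² (each is elementary abelian of rank 2) such that every automorphism of A of order p is induced by conjugation by an element of G; equivalently the automorphism group induced on A by its normalizer contains the special linear group of A. Then p ≤ 13. -/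
theorem result {G : Type*} [Group G] [Finite G]
    {p : ℕ} [Fact p.Prime] (hp : p ≠ 2) (P : Sylow p G) (hE : Cfsg.IsExtraspecial p ↥P)
    (hcard : Nat.card P = p ^ 3) (hexp : Monoid.exponent ↥P = p)
    (A : Fin 3 → Subgroup G) (hA : Function.Injective A) (hAP : ∀ i, A i ≤ (P : Subgroup G))
    (hAcard : ∀ i, Nat.card ↥(A i) = p ^ 2)
    (hSL : ∀ i, ∀ φ : MulAut ↥(A i), orderOf φ = p → ∃ g : G, ∀ a : ↥(A i), (φ a : G) = g * (a : G) * g⁻¹) :
    p ≤ 13 := by
  by_contra h13
  push Not at h13
  obtain ⟨z, h, -⟩ := H54.exists_xs hE hcard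
  have hP := H85.isSyl_top P
  have hp1 := (Fact.out : p.Prime).one_lt
  have hpow : ∀ a ∈ (P : Subgroup G), a ^ p = 1 := fun a ha => by
    have := Monoid.pow_exponent_eq_one (⟨a, ha⟩ : P)
    rw [hexp] at this
    exact congrArg Subtype.val this
  have hAne : ∀ i, A i ≠ P := fun i e => by
    have := hAcard i
    rw [e, hcard, Nat.pow_right_inj hp1] at this
    omega
  have hAc : ∀ i, IsMulCommutative (A i) := fun i =>
    IsPGroup.isMulCommutative_of_card_eq_prime_sq (hAcard i)
  have hY : ∀ i, ∃ y ∈ A i, y ∉ Subgroup.zpowers z := fun i => by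
    by_contra hc
    push Not at hc
    have h1 := Subgroup.card_le_of_le (show A i ≤ Subgroup.zpowers z from hc)
    rw [hAcard, h.card_zpowers] at h1
    nlinarith
  choose Y hYA hYz using hY
  have hCne : ∀ i, (P : Subgroup G) ⊓ Subgroup.centralizer {Y i} ≠ P := fun i e =>
    hYz i (h.of_cen _ (hAP i (hYA i)) fun x hx =>
      Subgroup.mem_centralizer_singleton_iff.mp (e.ge hx).2)
  have hAC : ∀ i, A i = (P : Subgroup G) ⊓ Subgroup.centralizer {Y i} := fun i =>
    Subgroup.eq_of_le_of_card_ge (fun a ha => ⟨hAP i ha, Subgroup.mem_centralizer_singleton_iff.mpr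
      (H51.isMulCommutative_iff_forall.mp (hAc i) a ha _ (hYA i))⟩)
      ((h.card_le_sq inf_le_left (hCne i)).trans (hAcard i).ge)
  have hzA : ∀ i, z ∈ A i := fun i => hAC i ▸
    ⟨h.mem, Subgroup.mem_centralizer_singleton_iff.mpr (h.cen _ (hAP i (hYA i))).symm⟩
  have := h.bound hP (by omega) (ι := Fin 3) (by simp) Y (fun i => hAP i (hYA i)) hYz
    (fun i => hpow _ (hAP i (hYA i))) (fun i j hij => hA (by
      have h1 : Y j ∈ A i := hAC i ▸
        ⟨hAP j (hYA j), Subgroup.mem_centralizer_singleton_iff.mpr hij.symm⟩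
      rw [hAC j]
      exact h.eq_centralizer (hAP i) (hAne i) (hzA i) h1 (hYz j)))
    (fun i => by
      let _ : CommGroup (A i) := { (inferInstance : Group (A i)) with
        mul_comm := (hAc i).is_comm.comm }
      have hy1 : Y i ≠ 1 := fun e => hYz i (e ▸ one_mem _)
      have hord : orderOf (Y i) = p := orderOf_eq_prime (hpow _ (hAP i (hYA i))) hy1
      obtain ⟨φ, h1, h2, h3⟩ := exists_aut (hAcard i) (y := ⟨Y i, hYA i⟩) (z := ⟨z, hzA i⟩)
        (by rw [Subgroup.orderOf_mk, hord]) (by
          rintro ⟨n, hn⟩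
          have h4 : Subgroup.zpowers z ≤ Subgroup.zpowers (Y i) :=
            Subgroup.zpowers_le.mpr ⟨n, congrArg Subtype.val hn⟩
          have h5 := Subgroup.eq_of_le_of_card_ge h4 (by
            rw [Nat.card_zpowers, hord, h.card_zpowers])
          exact hYz i (h5 ▸ Subgroup.mem_zpowers _))
      obtain ⟨g, hg⟩ := hSL i φ h1
      exact ⟨g, (hg ⟨Y i, hYA i⟩).symm.trans (congrArg Subtype.val h2),
        (hg ⟨z, hzA i⟩).symm.trans (congrArg Subtype.val h3)⟩)
  omega

end Cfsg.Agent.S3054
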