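import Cfsg.Statements.S3055
import Cfsg.Agent.H54.ExtP3B

set_option autoImplicit false
open Cfsg

namespace Cfsg.Agent.S3055

/-- Let p be an odd prime and G a finite group with a Sylow p-subgroup P that is extraspecial of order p³ and exponent p. If all nonidentity elements of P are conjugate in G, then p ≤ 7. -/
theorem result {G : Type*} [Group G] [Finite G]
    {p : ℕ} [Fact p.Prime] (hp : p ≠ 2) (P : Sylow p G) (hE : Cfsg.IsExtraspecial p ↥P)
    (hcard : Nat.card P = p ^ 3) (hexp : Monoid.exponent ↥P = p)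
    (hconj : ∀ x y : ↥P, x ≠ 1 → y ≠ 1 → ∃ g : G, g * (x : G) * g⁻¹ = (y : G)) :
    p ≤ 7 := by
  by_contra h7
  push Not at h7
  obtain ⟨z, h, -⟩ := H54.exists_xs hE hcard
  have hP := H85.isSyl_top P
  have hpow : ∀ a ∈ (P : Subgroup G), a ^ p = 1 := fun a ha => by
    have := Monoid.pow_exponent_eq_one (⟨a, ha⟩ : P)
    rw [hexp] at this
    exact congrArg Subtype.val this
  obtain ⟨x, hx, y, hy, hxy⟩ := h.exists_basis
  have hY : ∀ j : ZMod p, x * H54.zp y j ∈ (P : Subgroup G) := fun j =>
    mul_mem hx (H54.zp_mem hy j)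
  have hYz : ∀ j : ZMod p, x * H54.zp y j ∉ Subgroup.zpowers z := fun j hj => by
    have := h.cf_cen_left hj hy
    rw [h.cf_mul_left hx (H54.zp_mem hy j) hy, h.cf_zp_left hy hy, hxy, h.cf_self hy] at this
    simp at this
  have hz1 : z ≠ 1 := fun e => by
    have := h.ord
    rw [e, orderOf_one] at this
    omega
  have := h.bound hP h7 (ι := ZMod p) (by rw [ZMod.card]; omega) (fun j => x * H54.zp y j) hY hYz
    (fun j => hpow _ (hY j)) (fun i j hij => by
      rw [← h.cf_eq_zero_iff (hY i) (hY j), h.cf_mul_left hx (H54.zp_mem hy i) (hY j),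
        h.cf_zp_left hy (hY j), h.cf_mul_right hx (H54.zp_mem hy j) hx,
        h.cf_mul_right hx (H54.zp_mem hy j) hy, h.cf_zp_right hy hx, h.cf_zp_right hy hy,
        h.cf_swap hx hy, hxy, h.cf_self hx, h.cf_self hy] at hij
      linear_combination -hij)
    (fun j => by
      obtain ⟨g, hg⟩ := hconj ⟨z, h.mem⟩ ⟨_, hY j⟩ (fun e => hz1 (congrArg Subtype.val e))
        (fun e => hYz j (by rw [show x * H54.zp y j = 1 from congrArg Subtype.val e]; exact one_mem _))
      change g * z * g⁻¹ = x * H54.zp y j at hg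
      have := h.exists_transvection hP (Subgroup.mem_zpowers z) (g := g) (hg ▸ hY j) (hg ▸ hYz j)
      rwa [hg] at this)
  rw [ZMod.card] at this
  omega

end Cfsg.Agent.S3055
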