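import Cfsg.Statements.S3059
import Cfsg.Agent.H82.SPE
import Cfsg.Agent.H8.Residual
import Cfsg.Agent.H98.SylIn

set_option autoImplicit false
open Cfsg

namespace Cfsg.Agent.S3059

open Cfsg.Agent.H82

/-- Let p be a prime and H a strongly p-embedded subgroup of the finite group G in the classical sense: H is proper, p divides the order of H, and H ∩ gHg⁻¹ has order prime to p for every g outside H. Then for every normal subgroup N of G of order divisible by p, G = H · O^p(N), where O^p(N) is the subgroup generated by the elements of N of order prime to p. -/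
theorem result {G : Type*} [Group G] [Finite G]
    (p : ℕ) [Fact p.Prime] (H : Subgroup G) (hH : H ≠ ⊤) (hpH : p ∣ Nat.card H)
    (hse : ∀ g : G, g ∉ H → ¬ p ∣ Nat.card ↥(H ⊓ H.map (MulAut.conj g).toMonoidHom))
    (N : Subgroup G) [N.Normal] (hN : p ∣ Nat.card N) :
    H ⊔ Subgroup.closure {g : G | g ∈ N ∧ (orderOf g).Coprime p} = ⊤ := by
  have hE : SPEElt p H := speElt_iff_classical.2 hse
  have h1 := hE.exists_mul_of_normal hpH N hN
  obtain ⟨P, hP⟩ := hE.norm.exists_sylow_le hpH
  rw [eq_top_iff, ← h1]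
  refine sup_le le_sup_left ?_
  have h2 : H98.SylIn p ((P : Subgroup G) ⊓ N) N :=
    (H98.sylIn_top P).inf_of_normal le_top (by rw [Subgroup.normalizer_eq_top])
  obtain ⟨R, hR⟩ := h2.exists_sylow
  intro n hn
  obtain ⟨h, hh, r, hr, he⟩ := H8.exists_mul_pResidual_of_not_dvd_index (p := p)
    R.not_dvd_index (⟨n, hn⟩ : N)
  have he' : n = (h : G) * (r : G) := congrArg Subtype.val he
  rw [he']
  refine Subgroup.mul_mem _ (Subgroup.mem_sup_left (hP ?_)) (Subgroup.mem_sup_right ?_)
  · rw [hR] at hh
    exact hh.1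
  · rw [← H8.map_subtype_pResidual]
    exact ⟨r, hr, rfl⟩

end Cfsg.Agent.S3059
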