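import Cfsg.Statements.S3062
import Cfsg.Agent.H54.DStar

set_option autoImplicit false
open Cfsg

namespace Cfsg.Agent.S3062

/-- Let S be a finite p-group, J(S) the subgroup generated by the abelian subgroups of S of largest order and Z(J(S)) its centre. Then Z(S) ≤ D*(S) ≤ Z(J(S)), and every maximal normal abelian subgroup of S contains D*(S). -/
theorem result {S : Type*} [Group S] [Finite S] {p : ℕ} [Fact p.Prime]
    (hS : IsPGroup p S) :
    Subgroup.center S ≤ Cfsg.dStar S ∧
    Cfsg.dStar S ≤ Cfsg.thompsonSubgroupA S ⊓ Subgroup.centralizer (Cfsg.thompsonSubgroupA S : Set S) ∧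
    ∀ A : Subgroup S, A.Normal → IsMulCommutative A →
      (∀ B : Subgroup S, B.Normal → IsMulCommutative B → A ≤ B → B = A) → Cfsg.dStar S ≤ A := by
  refine ⟨le_sSup ⟨inferInstance, fun x _ a ha => (Subgroup.mem_center_iff.1 ha x).symm⟩, ?_, ?_⟩
  · have h := H54.dStar_le_sInf_maxEA (hS.to_subgroup ⊤)
    rw [H51.sInf_maxEA_zero, ← H54.dStar_eq] at h
    unfold centerThompsonAOf at h
    rwa [H51.thompsonSubgroupAOf_eq, H51.thompsonSubgroupOf_top, ← H51.thompsonSubgroupA_eq] at h
  · intro A hA hAc hmax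
    rw [H54.dStar_eq]
    exact H54.dStar_le_of_maximal (hS.to_subgroup ⊤) le_top hAc Subgroup.le_normalizer_of_normal
      fun B _ h2 h3 h4 => hmax B (Subgroup.normalizer_eq_top_iff.1 (top_le_iff.1 h2)) h3 h4

end Cfsg.Agent.S3062
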