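import Cfsg.Statements.S3063
import Cfsg.Agent.H54.ThRepl

set_option autoImplicit false
open Cfsg

namespace Cfsg.Agent.S3063

/-- A weak replacement Theorem for metabelian p-groups: let S be a finite p-group whose derived subgroup is abelian and A an abelian subgroup of S of largest possible order. Then the normal closure of A in S contains an abelian subgroup B of the same order as A that is normal in S. -/
theorem result {S : Type*} [Group S] [Finite S] {p : ℕ} [Fact p.Prime]
    (hS : IsPGroup p S) (hmeta : IsMulCommutative ↥(commutator S))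
    (A : Subgroup S) (hA : A ∈ Cfsg.maxAbelianSubgroups S) :
    ∃ B ∈ Cfsg.maxAbelianSubgroups S, B.Normal ∧ B ≤ Subgroup.normalClosure (A : Set S) := by
  rw [H51.maxAbelianSubgroups_eq, ← H51.maxEA_top] at hA ⊢
  obtain ⟨B, ⟨hB, hBN⟩, hmax⟩ := Set.Finite.exists_maximalFor
    (fun B : Subgroup S => B ⊓ commutator S)
    {B | B ∈ H51.maxEA 0 (⊤ : Subgroup S) ∧ B ≤ Subgroup.normalClosure (A : Set S)}
    (Set.toFinite _) ⟨A, hA, Subgroup.le_normalClosure⟩
  refine ⟨B, hB, ⟨fun b hb x => ?_⟩, hBN⟩
  have hMD : H54.commWith B x ≤ commutator S := H54.commWith_le.mpr fun a _ =>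
    Subgroup.commutator_mem_commutator (Subgroup.mem_top a) (Subgroup.mem_top x)
  have hM := H51.isMulCommutative_of_le hmeta hMD
  have hMN : H54.commWith B x ≤ Subgroup.normalClosure (A : Set S) :=
    H54.commWith_le.mpr fun a ha => by
      have := Subgroup.normalClosure_normal.conj_mem _ (inv_mem (hBN ha)) x
      simpa [commutatorElement_def, mul_assoc] using mul_mem (hBN ha) this
  have h1 : B ⊓ commutator S ≤ H54.thRepl B x ⊓ commutator S :=
    le_inf (le_sup_of_le_right (inf_le_inf_left _
      ((H51.isMulCommutative_iff_le_centralizer.mp hmeta).trans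
        (Subgroup.centralizer_le hMD)))) inf_le_right
  have h2 := hmax ⟨H54.thRepl_mem_maxEA hB (Subgroup.mem_top x) hM, H54.thRepl_le hBN hMN⟩ h1
  have h3 := (h2 ⟨Subgroup.mem_sup_left (H54.mem_commWith (inv_mem hb) x),
    hMD (H54.mem_commWith (inv_mem hb) x)⟩).1
  have h5 := mul_mem hb h3
  simpa [commutatorElement_def, mul_assoc] using h5

end Cfsg.Agent.S3063
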