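import Cfsg.Statements.S3064
import Cfsg.Agent.H86.ZStar
import Cfsg.Agent.S0035
import Cfsg.Agent.H5.Frobenius

set_option autoImplicit false
open Cfsg

namespace Cfsg.Agent.S3064

open Subgroup

universe u

theorem step {G : Type*} [Group G] [Finite G] {p : ℕ} [Fact p.Prime] {x : G}
    (px : ∃ k : ℕ, x ^ p ^ k = 1) (hiso : IsIsolated x)
    (hb : ∀ H : Subgroup G, (Nat.card H).Coprime p → (∀ h ∈ H, x * h * x⁻¹ ∈ H) →
      ∀ h ∈ H, x * h = h * x)
    (hmin : ∀ H : Subgroup G, x ∈ H → H ≠ ⊤ → H ≤ centralizer {x}) : x ∈ center G := by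
  by_contra hx
  set M := centralizer ({x} : Set G) with hM
  have hxM : x ∈ M := mem_centralizer_singleton_iff.mpr rfl
  have hZM : center G ≤ M := center_le_centralizer _
  have hti : ∀ g, g ∉ M → ∀ y ∈ M, g⁻¹ * y * g ∈ M → y ∈ center G := by
    intro g hg y hy hy'
    by_contra hyZ
    have h1 : centralizer ({y} : Set G) ≠ ⊤ := fun h0 =>
      hyZ (centralizer_eq_top_iff_subset.mp h0 (Set.mem_singleton y))
    have h2 := hmin _ (mem_centralizer_singleton_iff.mpr
      (mem_centralizer_singleton_iff.mp hy).symm) h1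
    have h3 : g * x * g⁻¹ ∈ centralizer ({y} : Set G) := by
      rw [mem_centralizer_singleton_iff] at hy' ⊢
      calc g * x * g⁻¹ * y = g * (x * (g⁻¹ * y * g)) * g⁻¹ := by group
        _ = _ := by rw [← hy']; group
    have h4 := hiso g (mem_centralizer_singleton_iff.mp (h2 h3)).symm
    refine hg (mem_centralizer_singleton_iff.mpr ?_)
    conv_rhs => rw [← h4]
    group
  let π := QuotientGroup.mk' (center G)
  have hcm : ∀ g, π g ∈ M.map π ↔ g ∈ M := fun g => by
    rw [← mem_comap, comap_map_eq, QuotientGroup.ker_mk', sup_eq_left.mpr hZM]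
  have hF : IsFrobeniusComplement (M.map π) := by
    refine H5.isFrobeniusComplement_iff.mpr ⟨fun h0 => hx ?_, fun h0 => hx ?_, ?_⟩
    · have : π x ∈ M.map π := mem_map_of_mem _ hxM
      rw [h0, mem_bot] at this
      exact (QuotientGroup.eq_one_iff _).mp this
    · rw [mem_center_iff]
      intro g
      exact mem_centralizer_singleton_iff.mp ((hcm g).mp (h0 ▸ mem_top _))
    · rintro g hg _ ⟨y, hy, rfl⟩ hc
      obtain ⟨g, rfl⟩ := QuotientGroup.mk'_surjective _ g
      refine (QuotientGroup.eq_one_iff _).mpr (hti g (fun h0 => hg (mem_map_of_mem _ h0)) y hy ?_)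
      exact (hcm _).mp hc
  obtain ⟨N, -, hN, hc⟩ := S0035.result _ hF
  set K := N.comap π with hK
  obtain ⟨P, hP⟩ := H86.exists_sylow_mem px
  have hPM : (P : Subgroup G) ≤ M := fun y hy =>
    mem_centralizer_singleton_iff.mpr (H86.isolated_commute hiso P.isPGroup' hP hy)
  obtain ⟨Q, hQ⟩ := H1.exists_sylow_eq_subgroupOf_of_isSubnormal
    (Normal.isSubnormal (inferInstance : K.Normal)) P
  have hQZ : ∀ y ∈ (Q : Subgroup K), (y : G) ∈ center G := fun y hy => by
    rw [hQ] at hy
    exact (QuotientGroup.eq_one_iff _).mp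
      (disjoint_def.mp hc.disjoint y.2 (mem_map_of_mem π (hPM hy)))
  have hnpc : HasNormalPComplement p K :=
    H8.hasNormalPComplement_of_normalizer_le_centralizer Q fun g _ =>
      mem_centralizer_iff.mpr fun y hy => Subtype.ext (mem_center_iff.mp (hQZ y hy) g).symm
  have hL : (pResidual p K).map K.subtype ≤ M := by
    intro y hy
    refine mem_centralizer_singleton_iff.mpr (hb _ ?_ (fun h hh => ?_) y hy).symm
    · rw [card_map_of_injective (subtype_injective _)]
      exact H8.hasNormalPComplement_iff_coprime.mp hnpc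
    · exact H53.conj_mem_of_mem_normalizer (H8.normalizer_le_normalizer_pResidual K
        (by rw [normalizer_eq_top]; exact mem_top _)) hh
  have hKM : K ≤ M := fun y hy => by
    obtain ⟨s, hs, r, hr, e⟩ := H8.exists_mul_pResidual_of_not_dvd_index Q.not_dvd_index ⟨y, hy⟩
    have e' : y = s * r := congrArg Subtype.val e
    rw [e']
    exact mul_mem (hZM (hQZ s hs)) (hL ⟨r, hr, rfl⟩)
  have hNM : N ≤ M.map π := fun y hy => by
    obtain ⟨y, rfl⟩ := QuotientGroup.mk'_surjective _ y
    exact mem_map_of_mem _ (hKM hy)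
  have := hc.sup_eq_top
  rw [sup_eq_right.mpr hNM] at this
  exact (H5.isFrobeniusComplement_iff.mp hF).2.1 this

theorem aux {p : ℕ} [Fact p.Prime] (n : ℕ) : ∀ {G : Type u} [Group G] [Finite G],
    Nat.card G = n → ∀ {x : G}, (∃ k : ℕ, x ^ p ^ k = 1) → IsIsolated x →
    (∀ H : Subgroup G, (Nat.card H).Coprime p → (∀ h ∈ H, x * h * x⁻¹ ∈ H) →
      ∀ h ∈ H, x * h = h * x) → x ∈ center G := by
  induction n using Nat.strong_induction_on with
  | _ n ih =>
  intro G _ _ hn x px hiso hb
  refine step px hiso hb fun H hxH hH y hy => ?_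
  have := ih _ (hn ▸ H52.card_lt_card_of_ne_top hH) (G := H) rfl (x := ⟨x, hxH⟩)
    (by obtain ⟨k, hk⟩ := px; exact ⟨k, Subtype.ext hk⟩)
    (fun g hg => Subtype.ext (hiso g (hg.map H.subtype)))
    (fun K hK hn h hh => Subtype.ext (hb (K.map H.subtype)
      (by rwa [card_map_of_injective (subtype_injective _)])
      (by rintro _ ⟨k, hk, rfl⟩; exact ⟨_, hn k hk, rfl⟩) h ⟨h, hh, rfl⟩))
  exact mem_centralizer_singleton_iff.mpr (congrArg Subtype.val (mem_center_iff.mp this ⟨y, hy⟩))

/-- Let S be a Sylow p-subgroup of the finite group G and x an element of S such that (i) x is the only G-conjugate of x lying in S, and (ii) x centralizes every subgroup of order prime to p that it normalizes. Then x lies in the centre of G. -/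
theorem result {G : Type*} [Group G] [Finite G] {p : ℕ} [Fact p.Prime]
    (S : Sylow p G) (x : G) (hx : x ∈ S)
    (hU : ∀ g : G, g⁻¹ * x * g ∈ S → g⁻¹ * x * g = x)
    (hb : ∀ H : Subgroup G, (Nat.card H).Coprime p → (∀ h ∈ H, x * h * x⁻¹ ∈ H) → ∀ h ∈ H, x * h = h * x) :
    x ∈ Subgroup.center G := by
  have hx' : x ∈ (S : Subgroup G) := hx
  have px := H86.pow_eq_one_of_mem S.isPGroup' hx'
  refine aux _ rfl px (fun g hg => ?_) hb
  have hS : (S : Subgroup G) ≤ centralizer {x} := fun s hs => by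
    have := hU s (mul_mem (mul_mem (inv_mem hs) hx') hs)
    rw [mem_centralizer_singleton_iff]
    conv_lhs => rw [← this]
    group
  obtain ⟨c, hc, hc'⟩ := (H86.isSylowIn_of_le S hS).exists_conj
    (zpowers_le_of_mem (mem_centralizer_singleton_iff.mpr hg.symm))
    (H86.isPGroup_zpowers (H86.conj_pow_eq_one px))
  have h1 := hU (c * g)⁻¹ (by
    have h0 : c * (g * x * g⁻¹) * c⁻¹ ∈ S := hc' _ (mem_zpowers _)
    simpa [mul_assoc] using h0)
  rw [mem_centralizer_singleton_iff] at hc
  calc g * x * g⁻¹ = c⁻¹ * ((c * g)⁻¹⁻¹ * x * (c * g)⁻¹) * c := by group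
    _ = c⁻¹ * (x * c) := by rw [h1]; group
    _ = x := by rw [← hc]; group

end Cfsg.Agent.S3064
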