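import Cfsg.Statements.S3065
import Cfsg.Agent.H81.AutSylow
import Cfsg.Agent.S0227

set_option autoImplicit false
open Cfsg

namespace Cfsg.Agent.S3065

open Subgroup Cfsg.Agent.H85 Cfsg.Agent.H81
open scoped Pointwise


/-- Let G be a finite non-abelian simple group with a nontrivial Sylow 2-subgroup S (that is, G has even order). If the automorphism group of S is solvable, then the outer automorphism group Out(G) = Aut(G)/Inn(G) is solvable. -/
theorem result {G : Type*} [Group G] [Finite G] [IsSimpleGroup G]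
    (hG : ¬ IsMulCommutative G) (S : Sylow 2 G) (hS1 : (S : Subgroup G) ≠ ⊥) (hS : Group.IsSolvable (MulAut ↥S)) :
    Group.IsSolvable (Cfsg.Out G) := by
  haveI : Fact (Nat.Prime 2) := ⟨Nat.prime_two⟩
  have hO : ∀ N : Subgroup G, N.Normal → Odd (Nat.card N) → N = ⊥ := by
    intro N hN hodd
    rcases IsSimpleGroup.eq_bot_or_eq_top_of_normal N hN with h | h
    · exact h
    · exfalso
      obtain ⟨z, hz, hz1, hz2⟩ := exists_order_prime_mem S.isPGroup' hS1
      have h1 := Subgroup.orderOf_dvd_natCard N (h ▸ mem_top z)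
      rw [orderOf_eq_prime' hz1 hz2] at h1
      exact (Nat.not_even_iff_odd.mpr hodd) (even_iff_two_dvd.mpr h1)
  let C : Subgroup (MulAut G) :=
    { carrier := {φ | ∀ s : G, s ∈ S → φ s = s}
      mul_mem' := fun {a b} ha hb s hs => by rw [MulAut.mul_apply, hb s hs, ha s hs]
      one_mem' := fun s _ => rfl
      inv_mem' := fun {a} ha s hs => by
        apply a.injective; rw [MulAut.apply_inv_self, ha s hs] }
  haveI hC : Group.IsSolvable C := (S0227.result hO S C (fun φ => Iff.rfl)).2
  let N : Subgroup (MulAut G) := MulAction.stabilizer (MulAut G) (S : Subgroup G)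
  have hN : ∀ φ : N, ∀ s : G, s ∈ (S : Subgroup G) → (φ : MulAut G) s ∈ (S : Subgroup G) := by
    intro φ s hs
    have h1 : (φ : MulAut G) • (S : Subgroup G) = S := φ.2
    rw [← h1]
    exact smul_mem_pointwise_smul s (φ : MulAut G) _ hs
  let ρ : N →* MulAut (S : Subgroup G) := MonoidHom.mk' (fun φ =>
    { toFun := fun s => ⟨(φ : MulAut G) s, hN φ s s.2⟩
      invFun := fun s => ⟨((φ⁻¹ : N) : MulAut G) s, hN φ⁻¹ s s.2⟩
      left_inv := fun s => Subtype.ext (by simp)
      right_inv := fun s => Subtype.ext (by simp)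
      map_mul' := fun a b => Subtype.ext (by simp) }) (fun a b => rfl)
  have hCN : C ≤ N := fun φ hφ => by
    refine le_antisymm ?_ (fun s hs => ?_)
    · rintro _ ⟨s, hs, rfl⟩
      have : φ s = s := hφ s hs
      show φ s ∈ (S : Subgroup G)
      rw [this]; exact hs
    · exact ⟨s, hs, hφ s hs⟩
  haveI : Group.IsSolvable N := by
    refine Group.isSolvable_of_ker_le_range (inclusion hCN) ρ (fun φ hφ => ?_)
    refine ⟨⟨φ, fun s hs => ?_⟩, rfl⟩
    have h1 : ρ φ ⟨s, hs⟩ = ⟨s, hs⟩ := by rw [MonoidHom.mem_ker.mp hφ]; rfl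
    exact congrArg Subtype.val h1
  refine Group.isSolvable_of_surjective (f := (QuotientGroup.mk' (Cfsg.Inn G)).comp N.subtype) ?_
  intro x
  obtain ⟨φ, rfl⟩ := QuotientGroup.mk'_surjective _ x
  obtain ⟨g, hg⟩ := MulAction.exists_smul_eq G (φ • S) S
  refine ⟨⟨MulAut.conj g * φ, ?_⟩, ?_⟩
  · show (MulAut.conj g * φ) • (S : Subgroup G) = S
    rw [mul_smul]
    exact congrArg Sylow.toSubgroup hg
  · show QuotientGroup.mk' (Cfsg.Inn G) (MulAut.conj g * φ) = _
    rw [map_mul, (QuotientGroup.eq_one_iff (MulAut.conj g)).mpr ⟨g, rfl⟩ |>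
      (fun h => (show QuotientGroup.mk' (Cfsg.Inn G) (MulAut.conj g) = 1 from h)), one_mul]

end Cfsg.Agent.S3065
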