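import Cfsg.Statements.S3067
import Cfsg.Agent.H4.CoprimeAction
import Cfsg.Agent.H6.ZStar
import Cfsg.Agent.H86.ZStar

set_option autoImplicit false
open Cfsg

namespace Cfsg.Agent.S3067

open Subgroup
open scoped commutatorElement Pointwise

section amb
variable {Γ : Type*} [Group Γ] [Finite Γ] {K : Subgroup Γ} {a t : Γ}

theorem solvA (a : Γ) : Group.IsSolvable (zpowers a) := H4.isSolvable_of_isMulCommutative _

theorem zp_le_cent {a : Γ} {U : Subgroup Γ} (h : ∀ u ∈ U, Commute u a) :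
    U ≤ centralizer ((zpowers a : Subgroup Γ) : Set Γ) := by
  intro u hu
  rw [mem_centralizer_iff]
  rintro _ ⟨n, rfl⟩
  exact ((h u hu).zpow_right n).symm.eq

theorem comm_of_cent {a u : Γ} (h : u ∈ centralizer ((zpowers a : Subgroup Γ) : Set Γ)) :
    Commute u a := (mem_centralizer_iff.mp h a (mem_zpowers a)).symm

/-- every `a`-invariant 2-subgroup of `K` is centralized by `a` -/
theorem cent_two [K.Normal] (hcop : (Nat.card (zpowers a)).Coprime (Nat.card K))
    (htK : t ∈ K) (ht : orderOf t = 2) (hC : ∀ c ∈ K, Commute c t → Commute c a)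
    {U : Subgroup Γ} (hUK : U ≤ K) (hU : IsPGroup 2 U)
    (hUA : zpowers a ≤ normalizer (U : Set Γ)) : ∀ u ∈ U, Commute u a := by
  have hAK : zpowers a ≤ normalizer (K : Set Γ) := by
    rw [normalizer_eq_top]; exact le_top
  have hta : Commute t a := hC t htK (Commute.refl t)
  have hZ : IsPGroup 2 (zpowers t) := IsPGroup.of_card (n := 1) (by rw [Nat.card_zpowers, ht]; rfl)
  have hZA : zpowers t ≤ centralizer ((zpowers a : Subgroup Γ) : Set Γ) :=
    zp_le_cent (by rintro _ ⟨n, rfl⟩; exact hta.zpow_left n)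
  have hAZ : zpowers a ≤ normalizer ((zpowers t : Subgroup Γ) : Set Γ) :=
    (le_centralizer_iff.mp hZA).trans (centralizer_le_normalizer _)
  obtain ⟨P, hP1, hP2⟩ := H4.exists_invariant_sylow_ge hAK hcop (Or.inl (solvA a)) (p := 2)
    ((zpowers_le).mpr htK) hZ hAZ
  obtain ⟨Q, hQ1, hQ2⟩ := H4.exists_invariant_sylow_ge hAK hcop (Or.inl (solvA a)) (p := 2)
    hUK hU hUA
  have hPp : IsPGroup 2 ((P : Subgroup K).map K.subtype) := P.isPGroup'.map _
  have h2 : (Nat.card (zpowers a)).Coprime 2 := by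
    have : 2 ∣ Nat.card K := by
      have := orderOf_dvd_natCard (⟨t, htK⟩ : K)
      rwa [← orderOf_injective K.subtype K.subtype_injective, coe_subtype, ht] at this
    exact hcop.coprime_dvd_right this
  have hPc : (P : Subgroup K).map K.subtype ≤ centralizer ((zpowers a : Subgroup Γ) : Set Γ) := by
    refine H4.thompson_p_times_q hZ h2 hPp hZA (hP1.trans le_normalizer) hP2 ?_
    refine zp_le_cent fun u hu => hC u (map_subtype_le _ hu.1) ?_
    exact comm_of_cent hu.2
  obtain ⟨c, hc, hcP⟩ := H4.invariant_sylow_conj hAK hcop (Or.inl (solvA a)) P Q hP2 hQ2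
  intro u hu
  have hu' := hQ1 hu
  rw [← hcP, Sylow.pointwise_smul_def, ← H4.conj_smul_map_subtype, H4.mem_conj_smul_iff] at hu'
  have h1 := comm_of_cent (hPc hu')
  have h2 := comm_of_cent hc
  have : u = (c : Γ) * ((c : Γ)⁻¹ * u * c) * (c : Γ)⁻¹ := by group
  rw [this]
  exact (h2.mul_left h1).mul_left h2.inv_left

theorem uniq0 [K.Normal] (hcop : (Nat.card (zpowers a)).Coprime (Nat.card K))
    (htK : t ∈ K) (hC : ∀ c ∈ K, Commute c t → Commute c a) {g : Γ} (hg : g ∈ K)
    (h : Commute t (g * a * g⁻¹)) : Commute g a := by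
  have hta : Commute t a := hC t htK (Commute.refl t)
  -- the coset `C_K(t) g` is `a`-invariant
  have hAD : zpowers a ≤ normalizer ((K ⊓ centralizer ({t} : Set Γ) : Subgroup Γ) : Set Γ) := by
    refine H4.le_normalizer_inf (by rw [normalizer_eq_top]; exact le_top) ?_
    refine H4.le_normalizer_centralizer ?_
    refine le_trans ?_ (centralizer_le_normalizer _)
    rw [zpowers_le, mem_centralizer_singleton_iff]
    exact hta.symm.eq
  have h' : Commute (g⁻¹ * t * g) a := by
    have := h.conj g⁻¹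
    simpa [mul_assoc] using this
  obtain ⟨d, hd, hdg⟩ := H4.exists_mul_mem_centralizer' hAD (H4.coprime_of_le_right hcop inf_le_left)
    (Or.inl (solvA a)) (x := g) (by
      rintro _ ⟨n, rfl⟩
      refine mem_inf.mpr ⟨mul_mem (Normal.conj_mem inferInstance g hg _) (inv_mem hg), ?_⟩
      rw [mem_centralizer_singleton_iff]
      have e1 := (h'.zpow_right n).eq
      have e2 := (hta.zpow_right n).eq
      simp only
      calc a ^ n * g * (a ^ n)⁻¹ * g⁻¹ * t
          = a ^ n * g * ((a ^ n)⁻¹ * (g⁻¹ * t * g) * a ^ n) * (a ^ n)⁻¹ * g⁻¹ := by group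
        _ = a ^ n * g * (g⁻¹ * t * g) * (a ^ n)⁻¹ * g⁻¹ := by
            rw [mul_assoc (a ^ n)⁻¹, e1]; group
        _ = (a ^ n * t) * g * (a ^ n)⁻¹ * g⁻¹ := by group
        _ = t * (a ^ n * g * (a ^ n)⁻¹ * g⁻¹) := by rw [← e2]; group)
  have h1 : Commute d a := hC d hd.1 (mem_centralizer_singleton_iff.mp hd.2)
  have h2 := comm_of_cent hdg
  have : g = d⁻¹ * (d * g) := by group
  rw [this]
  exact h1.inv_left.mul_left h2

/-- `K`-conjugates -/
def Cj (K : Subgroup Γ) (a ω : Γ) : Prop := ∃ g ∈ K, ω = g * a * g⁻¹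

theorem Cj.conj {ω k : Γ} (h : Cj K a ω) (hk : k ∈ K) : Cj K a (k * ω * k⁻¹) := by
  obtain ⟨g, hg, rfl⟩ := h
  exact ⟨k * g, mul_mem hk hg, by group⟩

theorem Cj.mem [K.Normal] {y : Γ} (htK : t ∈ K) (h : Cj K t y) : y ∈ K := by
  obtain ⟨g, hg, rfl⟩ := h
  exact Normal.conj_mem inferInstance t htK g

theorem Cj.sq {y : Γ} (ht : orderOf t = 2) (h : Cj K t y) : y * y = 1 := by
  obtain ⟨g, hg, rfl⟩ := h
  have : t * t = 1 := by rw [← pow_two, ← ht, pow_orderOf_eq_one]
  calc g * t * g⁻¹ * (g * t * g⁻¹) = g * (t * t) * g⁻¹ := by group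
    _ = 1 := by rw [this]; group

theorem uniq [K.Normal] (hcop : (Nat.card (zpowers a)).Coprime (Nat.card K))
    (htK : t ∈ K) (hC : ∀ c ∈ K, Commute c t → Commute c a) {y ω ω' : Γ} (hy : Cj K t y)
    (hω : Cj K a ω) (hω' : Cj K a ω') (h : Commute y ω) (h' : Commute y ω') : ω = ω' := by
  obtain ⟨k, hk, rfl⟩ := hy
  have key : ∀ ν, Cj K a ν → Commute (k * t * k⁻¹) ν → ν = k * a * k⁻¹ := by
    rintro _ ⟨g, hg, rfl⟩ hc
    have h1 : Commute t ((k⁻¹ * g) * a * (k⁻¹ * g)⁻¹) := by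
      have := hc.conj k⁻¹
      simpa [mul_assoc] using this
    have h2 := (uniq0 hcop htK hC (mul_mem (inv_mem hk) hg) h1).eq
    calc g * a * g⁻¹ = k * (k⁻¹ * g * a) * g⁻¹ := by group
      _ = k * a * k⁻¹ := by rw [h2]; group
  rw [key ω hω h, key ω' hω' h']

theorem mid0 [K.Normal] (hcop : (Nat.card (zpowers a)).Coprime (Nat.card K))
    (htK : t ∈ K) (ht : orderOf t = 2) (hC : ∀ c ∈ K, Commute c t → Commute c a)
    {X : Subgroup Γ} (hX : ∀ x ∈ X, Commute x a) {y : Γ} (hyK : y ∈ K) (hy : y * y = 1)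
    (hyX : y ∈ normalizer (X : Set Γ)) :
    ∃ μ, Cj K a μ ∧ Commute y μ ∧ ∀ x ∈ X, Commute x μ := by
  have hAK : zpowers a ≤ normalizer (K : Set Γ) := by
    rw [normalizer_eq_top]; exact le_top
  let M : Subgroup Γ := K ⊓ normalizer (X : Set Γ)
  have hAX : zpowers a ≤ normalizer (X : Set Γ) :=
    (le_centralizer_iff.mp (zp_le_cent hX)).trans (centralizer_le_normalizer _)
  have hAM : zpowers a ≤ normalizer (M : Set Γ) :=
    H4.le_normalizer_inf hAK (H4.normalizer_le_normalizer_normalizer_of_le hAX)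
  obtain ⟨T, hT⟩ := H4.exists_invariant_sylow hAM (H4.coprime_of_le_right hcop inf_le_left)
    (Or.inl (solvA a)) 2
  have hTc := cent_two hcop htK ht hC ((map_subtype_le _).trans inf_le_left) (T.isPGroup'.map _) hT
  have hyM : y ∈ M := mem_inf.mpr ⟨hyK, hyX⟩
  obtain ⟨T', hT'⟩ := H86.exists_sylow_mem (p := 2) (x := (⟨y, hyM⟩ : M))
    ⟨1, Subtype.ext (by simp [pow_two, hy])⟩
  obtain ⟨m, hm⟩ := MulAction.exists_smul_eq M T T'
  have hm' : (m⁻¹ * ⟨y, hyM⟩ * m : M) ∈ (T : Subgroup M) := by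
    rw [← hm, Sylow.smul_def, Sylow.pointwise_smul_def] at hT'
    exact H4.mem_conj_smul_iff.mp hT'
  have h1 : Commute ((m : Γ)⁻¹ * y * m) a := hTc _ ⟨_, hm', rfl⟩
  refine ⟨m * a * (m : Γ)⁻¹, ⟨m, m.2.1, rfl⟩, ?_, fun x hx => ?_⟩
  · have := h1.conj (m : Γ)
    simpa [mul_assoc] using this
  · have h2 := hX _ (H4.inv_conj_mem_of_mem_normalizer m.2.2 hx)
    have := h2.conj (m : Γ)
    simpa [mul_assoc] using this

theorem mid [K.Normal] (hcop : (Nat.card (zpowers a)).Coprime (Nat.card K))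
    (htK : t ∈ K) (ht : orderOf t = 2) (hC : ∀ c ∈ K, Commute c t → Commute c a)
    {y y' ω : Γ} (hy : Cj K t y) (hy' : Cj K t y') (hω : Cj K a ω)
    (h : y * ω * y⁻¹ = y' * ω * y'⁻¹) : ∃ μ, Cj K a μ ∧ Commute y μ ∧ Commute y' μ := by
  obtain ⟨g, hg, rfl⟩ := hω
  have hz := hy.conj (inv_mem hg)
  have hz' := hy'.conj (inv_mem hg)
  generalize hzd : g⁻¹ * y * g⁻¹⁻¹ = z at hz
  generalize hzd' : g⁻¹ * y' * g⁻¹⁻¹ = z' at hz'
  have ey : y = g * z * g⁻¹ := by rw [← hzd]; group
  have ey' : y' = g * z' * g⁻¹ := by rw [← hzd']; group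
  have hzz : z * a * z⁻¹ = z' * a * z'⁻¹ := by
    have : g * (z * a * z⁻¹) * g⁻¹ = g * (z' * a * z'⁻¹) * g⁻¹ := by
      rw [ey, ey'] at h
      calc g * (z * a * z⁻¹) * g⁻¹ = g * z * g⁻¹ * (g * a * g⁻¹) * (g * z * g⁻¹)⁻¹ := by group
        _ = _ := h
        _ = _ := by group
    simpa using this
  have s1 := hz.sq ht
  have s2 := hz'.sq ht
  have i1 : z⁻¹ = z := inv_eq_of_mul_eq_one_right s1
  have i2 : z'⁻¹ = z' := inv_eq_of_mul_eq_one_right s2
  let X : Subgroup Γ := centralizer ({a} : Set Γ) ⊓ centralizer ({z * a * z⁻¹} : Set Γ)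
  have hXz : ∀ x ∈ X, z * x * z⁻¹ ∈ X := by
    intro x hx
    have c1 : Commute x a := mem_centralizer_singleton_iff.mp hx.1
    have c2 : Commute x (z * a * z⁻¹) := mem_centralizer_singleton_iff.mp hx.2
    refine mem_inf.mpr ⟨mem_centralizer_singleton_iff.mpr ?_, mem_centralizer_singleton_iff.mpr ?_⟩
    · have := c2.conj z
      have e : z * (z * a * z⁻¹) * z⁻¹ = a := by
        calc z * (z * a * z⁻¹) * z⁻¹ = (z * z) * a * (z * z)⁻¹ := by group
          _ = a := by rw [s1]; group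
      rw [e] at this
      exact this.eq
    · exact (c1.conj z).eq
  have hzX : z ∈ normalizer (X : Set Γ) := by
    rw [mem_normalizer_iff]
    refine fun x => ⟨hXz x, fun hx => ?_⟩
    have := hXz _ hx
    have e : z * (z * x * z⁻¹) * z⁻¹ = x := by
      calc z * (z * x * z⁻¹) * z⁻¹ = (z * z) * x * (z * z)⁻¹ := by group
        _ = x := by rw [s1]; group
    rwa [e] at this
  obtain ⟨μ, hμ, h1, h2⟩ := mid0 hcop htK ht hC (X := X)
    (fun x hx => mem_centralizer_singleton_iff.mp hx.1) (hz.mem htK) s1 hzX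
  have hzz' : z * z' ∈ X := by
    refine mem_inf.mpr ⟨mem_centralizer_singleton_iff.mpr ?_, mem_centralizer_singleton_iff.mpr ?_⟩
    · calc z * z' * a = z * (z' * a * z'⁻¹) * z' := by group
        _ = (z * z) * a * z⁻¹ * z' := by rw [← hzz]; group
        _ = a * (z * z') := by rw [s1, i1]; group
    · calc z * z' * (z * a * z⁻¹) = z * (z' * z') * a * z'⁻¹ := by rw [hzz]; group
        _ = z * a * (z⁻¹ * z) * z' := by rw [s2, i2]; group
        _ = z * a * z⁻¹ * (z * z') := by group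
  have h3 : Commute z' μ := by
    have : z' = z⁻¹ * (z * z') := by group
    rw [this]
    exact h1.inv_left.mul_left (h2 _ hzz')
  exact ⟨g * μ * g⁻¹, hμ.conj hg, ey ▸ h1.conj g, ey' ▸ h3.conj g⟩

theorem same_action [K.Normal] (hcop : (Nat.card (zpowers a)).Coprime (Nat.card K))
    (htK : t ∈ K) (ht : orderOf t = 2) (hC : ∀ c ∈ K, Commute c t → Commute c a)
    {y y' μ ω : Γ} (hy : Cj K t y) (hy' : Cj K t y') (hμ : Cj K a μ) (hω : Cj K a ω)
    (h : Commute y μ) (h' : Commute y' μ) : y * ω * y⁻¹ = y' * ω * y'⁻¹ := by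
  have hta : Commute t a := hC t htK (Commute.refl t)
  have ex : ∀ ν : {ν // Cj K a ν}, ∃ z, Cj K t z ∧ Commute z ν.1 := by
    rintro ⟨_, g, hg, rfl⟩
    exact ⟨g * t * g⁻¹, ⟨g, hg, rfl⟩, hta.conj g⟩
  choose z hz hzc using ex
  let f : {ν // Cj K a ν} → {ν // Cj K a ν} :=
    fun ν => ⟨z ν * ω * (z ν)⁻¹, hω.conj ((hz ν).mem htK)⟩
  have hinj : Function.Injective f := by
    intro ν ν' e
    obtain ⟨κ, hκ, c1, c2⟩ := mid hcop htK ht hC (hz ν) (hz ν') hω (congrArg Subtype.val e)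
    exact Subtype.ext ((uniq hcop htK hC (hz ν) ν.2 hκ (hzc ν) c1).trans
      (uniq hcop htK hC (hz ν') hκ ν'.2 c2 (hzc ν')))
  have hsurj := Finite.injective_iff_surjective.mp hinj
  have key : ∀ w, Cj K t w → Commute w μ → w * ω * w⁻¹ = (f ⟨μ, hμ⟩).1 := by
    intro w hw hc
    obtain ⟨ν, hν⟩ := hsurj ⟨w * ω * w⁻¹, hω.conj (hw.mem htK)⟩
    obtain ⟨κ, hκ, c1, c2⟩ := mid hcop htK ht hC (hz ν) hw hω (congrArg Subtype.val hν)
    have : ν = ⟨μ, hμ⟩ := Subtype.ext ((uniq hcop htK hC (hz ν) ν.2 hκ (hzc ν) c1).trans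
      (uniq hcop htK hC hw hκ hμ c2 hc))
    rw [← this, hν]
  rw [key y hy h, key y' hy' h']

end amb

/-- Let G be a finite non-abelian simple group, τ an involution of G, and α a nontrivial automorphism of G whose order is coprime to the order of G. Then α moves some element of the centralizer of τ: α does not fix C_G(τ) elementwise. -/
theorem result {G : Type*} [Group G] [Finite G] [IsSimpleGroup G]
    (hG : ¬ IsMulCommutative G) (τ : G) (hτ : orderOf τ = 2) (α : MulAut G) (hα : α ≠ 1)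
    (hcop : (orderOf α).Coprime (Nat.card G)) :
    ∃ c ∈ Subgroup.centralizer ({τ} : Set G), α c ≠ c := by
  by_contra hne
  push Not at hne
  have hZ : center G = ⊥ := by
    rcases (inferInstance : (center G).Normal).eq_bot_or_eq_top with h | h
    · exact h
    · exact absurd ⟨⟨fun x y => ((mem_center_iff.mp (h ▸ mem_top y : y ∈ center G)) x)⟩⟩ hG
  have hinj : Function.Injective (MulAut.conj : G →* MulAut G) := by
    rw [injective_iff_map_eq_one]
    intro g hg
    have : g ∈ center G := mem_center_iff.mpr fun x => by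
      have := DFunLike.congr_fun hg x
      simp only [MulAut.conj_apply, MulAut.one_apply] at this
      rw [mul_inv_eq_iff_eq_mul] at this
      exact this.symm
    rwa [hZ, mem_bot] at this
  have hconj : ∀ (β : MulAut G) (g : G), β * MulAut.conj g * β⁻¹ = MulAut.conj (β g) := by
    intro β g
    ext x
    simp
  have hcomm : ∀ g : G, Commute (MulAut.conj g) α ↔ α g = g := by
    intro g
    constructor
    · intro h
      apply hinj
      rw [← hconj, ← h.eq]; group
    · intro h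
      have := hconj α g
      rw [h, mul_inv_eq_iff_eq_mul] at this
      exact this.symm
  let K : Subgroup (MulAut G) := (MulAut.conj : G →* MulAut G).range
  have hKn : K.Normal := ⟨by
    rintro _ ⟨g, rfl⟩ β
    exact ⟨β g, (hconj β g).symm⟩⟩
  have hcard : Nat.card K = Nat.card G :=
    (Nat.card_congr (MonoidHom.ofInjective hinj).toEquiv).symm
  have hcop' : (Nat.card (zpowers α)).Coprime (Nat.card K) := by
    rw [Nat.card_zpowers, hcard]; exact hcop
  have ht : orderOf (MulAut.conj τ) = 2 := by rw [orderOf_injective _ hinj, hτ]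
  have hC : ∀ c ∈ K, Commute c (MulAut.conj τ) → Commute c α := by
    rintro _ ⟨g, rfl⟩ h
    refine (hcomm g).mpr (hne g (mem_centralizer_singleton_iff.mpr (hinj ?_)))
    rw [map_mul, map_mul]; exact h.eq
  let N : Subgroup G :=
    { carrier := {g | ∀ ω, Cj K α ω → Commute (MulAut.conj g) ω}
      mul_mem' := fun {x y} hx hy ω hω => by
        rw [map_mul]; exact (hx ω hω).mul_left (hy ω hω)
      one_mem' := fun ω hω => by rw [map_one]; exact Commute.one_left _
      inv_mem' := fun {x} hx ω hω => by rw [map_inv]; exact (hx ω hω).inv_left }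
  have hNn : N.Normal := ⟨fun x hx g ω hω => by
    have h1 := hx _ (hω.conj (k := (MulAut.conj g)⁻¹) (inv_mem ⟨g, rfl⟩))
    have := h1.conj (MulAut.conj g)
    rw [map_mul, map_mul, map_inv]
    simpa [mul_assoc] using this⟩
  have hN : N = ⊥ := by
    rcases hNn.eq_bot_or_eq_top with h | h
    · exact h
    · exfalso
      apply hα
      ext g
      have : g ∈ N := h ▸ mem_top g
      exact (hcomm g).mp (this α ⟨1, one_mem _, by group⟩)
  have hiso : IsIsolatedInvolution τ := by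
    refine ⟨hτ, fun g hg => ?_⟩
    have hy : Cj K (MulAut.conj τ) (MulAut.conj (g * τ * g⁻¹)) :=
      ⟨MulAut.conj g, ⟨g, rfl⟩, by rw [map_mul, map_mul, map_inv]⟩
    have hy' : Cj K (MulAut.conj τ) (MulAut.conj τ) := ⟨1, one_mem _, by group⟩
    have ha : Cj K α α := ⟨1, one_mem _, by group⟩
    have c1 : Commute (MulAut.conj (g * τ * g⁻¹)) α :=
      hC _ ⟨_, rfl⟩ (hg.symm.map (MulAut.conj : G →* MulAut G))
    have c2 : Commute (MulAut.conj τ) α := hC _ ⟨_, rfl⟩ (Commute.refl _)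
    have : τ⁻¹ * (g * τ * g⁻¹) ∈ N := by
      intro ω hω
      have e := same_action hcop' ⟨τ, rfl⟩ ht hC hy hy' ha hω c1 c2
      rw [map_mul, map_inv]
      generalize MulAut.conj (g * τ * g⁻¹) = y at e
      generalize MulAut.conj τ = s at e
      show s⁻¹ * y * ω = ω * (s⁻¹ * y)
      calc s⁻¹ * y * ω = s⁻¹ * (y * ω * y⁻¹) * y := by group
        _ = ω * (s⁻¹ * y) := by rw [e]; group
    rw [hN, mem_bot, inv_mul_eq_one] at this
    exact this.symm
  have hO : pPrimeCore 2 G = ⊥ := by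
    rcases (inferInstance : (pPrimeCore 2 G).Normal).eq_bot_or_eq_top with h | h
    · exact h
    · exfalso
      exact H6.not_mem_of_odd (H3.pPrimeCore_coprime (p := 2) (G := G)) hτ (h ▸ mem_top τ)
  have := H6.mem_center_of_isolated hiso hO
  rw [hZ, mem_bot] at this
  rw [this, orderOf_one] at hτ
  exact absurd hτ (by decide)

end Cfsg.Agent.S3067
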