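import Cfsg.Statements.S3072
import Cfsg.Agent.H7.Alperin

set_option autoImplicit false
open Cfsg

namespace Cfsg.Agent.S3072

/-- A strong form of the Alperin–Goldschmidt fusion Theorem. Let P be a Sylow p-subgroup of the finite group G, A a subset of P containing a nonidentity element, and g an element with g⁻¹Ag ⊆ P. Then g = c·x₁⋯xₙ·y with c ∈ C_G(A), y ∈ N_G(P) and, for each i, an element xᵢ and a subgroup Hᵢ ≤ P such that: N_P(Hᵢ) is a Sylow p-subgroup of N_G(Hᵢ); C_P(Hᵢ) ≤ Hᵢ; O_{p',p}(N_G(Hᵢ)) = Hᵢ·C_G(Hᵢ); the Sylow p-subgroups of N_G(Hᵢ)/Hᵢ are not chain-connected through nontrivial intersections (the quotient has a strongly p-embedded subgroup); xᵢ lies in O^p(Xᵢ), where Xᵢ/Hᵢ is the smallest normal subgroup of N_G(Hᵢ)/Hᵢ of order divisible by p; and (x₁⋯xᵢ₋₁)⁻¹A(x₁⋯xᵢ₋₁) ⊆ Hᵢ. -/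
theorem result {G : Type*} [Group G] [Finite G] {p : ℕ} [Fact p.Prime]
    (P : Sylow p G) (A : Set G) (hA : A ⊆ (P : Set G)) (hA1 : ∃ a ∈ A, a ≠ 1)
    (g : G) (hAg : (fun a => g⁻¹ * a * g) '' A ⊆ (P : Set G)) :
    ∃ (n : ℕ) (H X : Fin n → Subgroup G) (x : Fin n → G) (c y : G),
      c ∈ Subgroup.centralizer A ∧ y ∈ Subgroup.normalizer ((P : Subgroup G) : Set G) ∧
      g = c * (List.ofFn x).prod * y ∧
      ∀ i : Fin n,
        H i ≤ (P : Subgroup G) ∧
        ¬ p ∣ ((P : Subgroup G) ⊓ Subgroup.normalizer (H i : Set G)).relIndex (Subgroup.normalizer (H i : Set G)) ∧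
        (P : Subgroup G) ⊓ Subgroup.centralizer (H i : Set G) ≤ H i ∧
        (Cfsg.pPrimePCore p ↥(Subgroup.normalizer (H i : Set G))).map (Subgroup.normalizer (H i : Set G)).subtype =
          H i ⊔ Subgroup.centralizer (H i : Set G) ∧
        ¬ Cfsg.IsSylowChainConnected p
            (↥(Subgroup.normalizer (H i : Set G)) ⧸ (H i).subgroupOf (Subgroup.normalizer (H i : Set G))) ∧
        (H i ≤ X i ∧ X i ≤ Subgroup.normalizer (H i : Set G) ∧
          ((X i).subgroupOf (Subgroup.normalizer (H i : Set G))).Normal ∧ p ∣ (H i).relIndex (X i) ∧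
          ∀ Y : Subgroup G, H i ≤ Y → Y ≤ Subgroup.normalizer (H i : Set G) →
            (Y.subgroupOf (Subgroup.normalizer (H i : Set G))).Normal → p ∣ (H i).relIndex Y → X i ≤ Y) ∧
        x i ∈ (Cfsg.pResidual p ↥(X i)).map (X i).subtype ∧
        (fun a => (((List.ofFn x).take i.val).prod)⁻¹ * a * ((List.ofFn x).take i.val).prod) '' A ⊆ (H i : Set G) := by
  obtain ⟨c, hc, w, y, hy, hw, rfl⟩ := H7.alperin_goldschmidt P hA hAg
  obtain ⟨n, H, x, rfl, hx⟩ := hw.exists_fin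
  choose X hX using fun i => (hx i).1.1.exists_min P.2
  refine ⟨n, H, X, x, c, y, hc, hy, rfl, fun i => ?_⟩
  have hE := (hx i).1.1
  obtain ⟨k1, k2, k3, k4, k5⟩ := hX i
  obtain ⟨c1, c2, -, -⟩ := H7.cores_of_centric P.2 hE.le hE.syl hE.cent
  refine ⟨hE.le, hE.syl.not_dvd, hE.cent, ?_, hE.not_connected P.2,
    ⟨k1, k2, Subgroup.normal_subgroupOf_of_le_normalizer k3, k4, fun Y h1 h2 h3 h4 =>
      k5 Y h1 h2 ((Subgroup.normal_subgroupOf_iff_le_normalizer h2).1 h3) h4⟩,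
    (hx i).1.2 _ k1 k2 k3 k4, (hx i).2⟩
  rw [hE.pPrimePCore_eq P.2]
  exact le_antisymm (sup_le (c1.trans le_sup_right) le_sup_left) (sup_le le_sup_right c2)

end Cfsg.Agent.S3072
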