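import Cfsg.Statements.S3074
import Cfsg.Agent.H54.Qd
import Cfsg.Agent.H89.Heis

set_option autoImplicit false
open Cfsg

namespace Cfsg.Agent.S3074

open scoped commutatorElement in
open Cfsg.Agent.H54 Cfsg.Agent.H54.Aff in
theorem xs (p : ℕ) [hp : Fact p.Prime] (h2 : p ≠ 2) :
    H89.XS p (⟨un (Cfsg.qd p) 0 1 0, un_mem_U _ _ _⟩ : U (Cfsg.qd p)) := by
  have hz : ∀ x : ZMod p, (⟨un (Cfsg.qd p) 0 x 0, un_mem_U _ _ _⟩ : U (Cfsg.qd p)) ∈
      Subgroup.zpowers (⟨un (Cfsg.qd p) 0 1 0, un_mem_U _ _ _⟩ : U (Cfsg.qd p)) := by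
    intro x
    refine ⟨(x.val : ℕ), Subtype.ext ?_⟩
    simp only [zpow_natCast, Subgroup.coe_pow, un_pow]
    simp
  refine ⟨orderOf_eq_prime (Subtype.ext (pow_char_of_mem_U p h2 (un_mem_U _ _ _))) fun h => ?_,
    le_antisymm (fun x hx => ?_) ?_, fun x y => ?_, fun x => ?_⟩
  · exact one_ne_zero (un_eq_one_iff.mp (congrArg Subtype.val h)).2.1
  · have h1 := congrArg (fun M : U (Cfsg.qd p) => e (M : Cfsg.qd p))
      (Subgroup.mem_center_iff.mp hx ⟨un _ 1 0 0, un_mem_U _ _ _⟩)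
    have h3 := congrArg (fun M : U (Cfsg.qd p) => e (M : Cfsg.qd p))
      (Subgroup.mem_center_iff.mp hx ⟨un _ 0 0 1, un_mem_U _ _ _⟩)
    simp [x.2.1] at h1 h3
    have : x = ⟨un (Cfsg.qd p) 0 (e (x : Cfsg.qd p)) 0, un_mem_U _ _ _⟩ :=
      Subtype.ext (by conv_lhs => rw [eq_un_of_mem_U x.2, h1, h3])
    rw [this]; exact hz _
  · rw [Subgroup.zpowers_le, Subgroup.mem_center_iff]
    intro x
    apply Subtype.ext
    simp only [Subgroup.coe_mul]
    rw [eq_un_of_mem_U x.2, un_mul, un_mul]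
    congr 1 <;> ring
  · have : ⁅x, y⁆ = (⟨un (Cfsg.qd p) 0 (b (x : Cfsg.qd p) * f (y : Cfsg.qd p) -
        b (y : Cfsg.qd p) * f (x : Cfsg.qd p)) 0, un_mem_U _ _ _⟩ : U (Cfsg.qd p)) := by
      apply Subtype.ext
      simp only [commutatorElement_def, Subgroup.coe_mul, Subgroup.coe_inv]
      conv_lhs => rw [eq_un_of_mem_U x.2, eq_un_of_mem_U y.2]
      simp only [un_inv, un_mul]
      congr 1 <;> ring
    rw [this]; exact hz _
  · have : x ^ p = 1 := Subtype.ext (pow_char_of_mem_U p h2 x.2)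
    rw [this]; exact Subgroup.one_mem _


/-- Let p be an odd prime. A Sylow p-subgroup of Qd(p), the split extension of an elementary abelian group of order p² by SL₂(p) acting naturally, is extraspecial of order p³ and exponent p. -/
theorem result (p : ℕ) [Fact p.Prime] (hp : p ≠ 2) (P : Sylow p ↥(Cfsg.qd p)) :
    Cfsg.IsExtraspecial p ↥P ∧ Nat.card P = p ^ 3 ∧ Monoid.exponent ↥P = p := by
  obtain ⟨e⟩ := H54.Aff.exists_sylow_equiv_U (Q := Cfsg.qd p) (MulEquiv.refl _) P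
  have hc : Nat.card (H54.Aff.U (Cfsg.qd p)) = p ^ 3 := by rw [H54.Aff.card_U, Nat.card_zmod]
  have h1 : 1 < p := (Fact.out : p.Prime).one_lt
  have hne : p ^ 3 ≠ p := (lt_self_pow₀ h1 (by norm_num)).ne'
  refine ⟨H89.isExtraspecial_of_mulEquiv ((xs p hp).isExtraspecial (hc ▸ hne)) e.symm,
    (Nat.card_congr e.toEquiv).trans hc, ?_⟩
  refine (Monoid.exponent_eq_of_mulEquiv e).trans ?_
  refine Nat.dvd_antisymm (Monoid.exponent_dvd_of_forall_pow_eq_one fun x =>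
    Subtype.ext (H54.Aff.pow_char_of_mem_U p hp x.2)) ?_
  exact (xs p hp).ord.symm.dvd.trans (Monoid.order_dvd_exponent _)

end Cfsg.Agent.S3074
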