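import Cfsg.Statements.S3075
import Cfsg.Agent.H82.SecMod
import Cfsg.Agent.H82.SL2
import Cfsg.Agent.H83.CharP

set_option autoImplicit false
open Cfsg

namespace Cfsg.Agent.S3075

/-- Let p be an odd prime and N a finite group with a normal elementary abelian subgroup A of order p² that is its own centralizer in N, such that N/A is isomorphic to SL₂(p) (over any field F with p elements). Then N splits over A: some subgroup U of N satisfies A ∩ U = 1 and AU = N. -/
theorem result {N : Type*} [Group N] [Finite N] {p : ℕ} [Fact p.Prime] (hp : p ≠ 2)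
    (A : Subgroup N) [A.Normal] (hAcomm : IsMulCommutative A) (hAcard : Nat.card A = p ^ 2) (hAexp : Monoid.exponent ↥A = p)
    (hAself : Subgroup.centralizer (A : Set N) = A)
    {F : Type*} [Field F] [Fintype F] (hF : Fintype.card F = p) (e : N ⧸ A ≃* Matrix.SpecialLinearGroup (Fin 2) F) :
    ∃ U : Subgroup N, A ⊓ U = ⊥ ∧ A ⊔ U = ⊤ := by
  open Subgroup H82 H83 commutatorElement in
  have hpp : p.Prime := Fact.out
  have hc : ∀ a ∈ A, ∀ b ∈ A, a * b = b * a := fun a ha b hb => hAself.ge hb a ha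
  have hAp : ∀ a ∈ A, a ^ p = 1 := fun a ha =>
    congrArg Subtype.val (hAexp ▸ Monoid.pow_exponent_eq_one (⟨a, ha⟩ : A))
  have hA : IsPGroup p A := isPGroup_iff.2 fun a ha => ⟨1, by rw [pow_one, hAp a ha]⟩
  have hcop : Nat.Coprime 2 p := (Nat.coprime_primes Nat.prime_two hpp).2 hp.symm
  have h2 : ∀ a ∈ A, ∀ R : Subgroup N, a * a ∈ R → a ∈ R := fun a ha R h =>
    mem_of_pelt_of_pow_mem (p := p) (k := 1) (n := 2) (by rw [pow_one, hAp a ha])
      (by rwa [pow_two]) hcop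
  let φ : N →* Matrix.SpecialLinearGroup (Fin 2) F := e.toMonoidHom.comp (QuotientGroup.mk' A)
  have hφ : Function.Surjective φ := e.surjective.comp (QuotientGroup.mk'_surjective A)
  have hk : ∀ g, φ g = 1 ↔ g ∈ A := fun g => by simp [φ]
  have hchar : (p : F) = 0 := by rw [← hF]; exact FiniteField.cast_card_eq_zero F
  obtain ⟨t, ht⟩ := hφ (-1)
  have h1 : ∀ g, ⁅g, t⁆ ∈ A := fun g => (hk _).1 (by
    rw [map_commutatorElement, ht, commutatorElement_eq_one_iff_mul_comm]; simp)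
  have ht2 : t * t ∈ A := (hk _).1 (by rw [map_mul, ht]; simp)
  have htA : t ∉ A := fun h => by
    have h3 := congrArg (fun M : Matrix.SpecialLinearGroup (Fin 2) F => M 0 0)
      (ht.symm.trans ((hk t).2 h))
    have h4 : ((2 : ℕ) : F) = 0 := by
      simp only [Matrix.SpecialLinearGroup.coe_neg, Matrix.SpecialLinearGroup.coe_one,
        Matrix.neg_apply, Matrix.one_apply_eq] at h3
      push_cast
      linear_combination -h3
    obtain ⟨a, b, h5⟩ := Nat.isCoprime_iff_coprime.2 hcop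
    have h6 := congrArg (Int.cast : ℤ → F) h5
    push_cast at h6 h4
    rw [h4, hchar] at h6
    simp at h6
  have hn : ∀ a ∈ A, ∀ g, g * a * g⁻¹ ∈ A := fun a ha g => Normal.conj_mem ‹_› a ha g
  by_cases hE : A ⊓ centralizer {t} = ⊥
  · refine ⟨centralizer {t}, hE, eq_top_iff.2 fun g _ => ?_⟩
    obtain ⟨a, ha⟩ := Finite.injective_iff_surjective.1
      (show Function.Injective (fun a : A => (⟨⁅(a : N), t⁆, h1 a⟩ : A)) from fun a b h => by
        have h3 : (a : N) * t * (a : N)⁻¹ * t⁻¹ = b * t * (b : N)⁻¹ * t⁻¹ := congrArg Subtype.val h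
        have h4 : (b : N)⁻¹ * a ∈ A ⊓ centralizer {t} := ⟨A.mul_mem (A.inv_mem b.2) a.2,
          mem_centralizer_singleton_iff.2 (by
            calc (b : N)⁻¹ * a * t = (b : N)⁻¹ * (a * t * (a : N)⁻¹ * t⁻¹) * t * a := by group
              _ = _ := by rw [h3]; group)⟩
        rw [hE, mem_bot, inv_mul_eq_one] at h4
        exact Subtype.ext h4.symm) ⟨_, h1 g⟩
    have h3 : (a : N) * t * (a : N)⁻¹ * t⁻¹ = g * t * g⁻¹ * t⁻¹ := congrArg Subtype.val ha
    rw [← mul_inv_cancel_left (a : N) g]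
    refine mul_mem_sup a.2 (mem_centralizer_singleton_iff.2 ?_)
    calc (a : N)⁻¹ * g * t = (a : N)⁻¹ * (g * t * g⁻¹ * t⁻¹) * t * g := by group
      _ = _ := by rw [← h3]; group
  exfalso
  have key : ∀ g, ∀ a ∈ A, t * (g * a * g⁻¹) * t⁻¹ = g * (t * a * t⁻¹) * g⁻¹ := fun g a ha => by
    have h3 := hc _ (h1 g⁻¹) _ (hn a ha t)
    calc t * (g * a * g⁻¹) * t⁻¹ = g * (⁅g⁻¹, t⁆ * (t * a * t⁻¹) * ⁅g⁻¹, t⁆⁻¹) * g⁻¹ := by
          simp only [commutatorElement_def]; group
      _ = _ := by rw [h3, mul_inv_cancel_right]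
  obtain ⟨u, hu⟩ := hφ (uu 1)
  have hu1 : u ^ p ^ 2 = 1 := by
    rw [pow_two, pow_mul]
    exact hAp _ ((hk _).1 (by rw [map_pow, hu, uu_pow, mul_one, hchar, uu_zero]))
  have cen : ∀ R ≤ A, R ≠ ⊥ → R ≠ A → (∀ a ∈ R, ∀ g, g * a * g⁻¹ ∈ R) →
      R ≤ centralizer (zpowers u : Set N) := fun R h3 h4 h5 h6 => by
    have h7 := inf_centralizer_ne_bot (hA.to_le h3) (isPGroup_zpowers hu1)
      (le_normalizer_of_conj_mem fun g _ a ha => h6 a ha g) h4
    obtain ⟨i, hi, h8⟩ := (Nat.dvd_prime_pow hpp).1 (hAcard ▸ card_dvd_of_le h3)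
    have h9 : i ≠ 2 := fun h => h5 (eq_of_le_of_card_ge h3 (by rw [hAcard, h8, h]))
    have h10 : Nat.card R ∣ p := by
      rw [h8]
      exact (pow_dvd_pow p (by omega : i ≤ 1)).trans (by rw [pow_one])
    rcases (Nat.dvd_prime hpp).1 ((card_dvd_of_le (inf_le_left : R ⊓ centralizer
      (zpowers u : Set N) ≤ R)).trans h10) with h | h
    · exact absurd (card_eq_one.1 h) h7
    · exact (eq_of_le_of_card_ge inf_le_left (h.symm ▸ Nat.le_of_dvd hpp.pos h10)).ge.trans
        inf_le_right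
  let W : Subgroup N :=
    { carrier := {a | a ∈ A ∧ t * a * t⁻¹ = a⁻¹}
      one_mem' := ⟨one_mem _, by simp⟩
      mul_mem' := fun {a b} ha hb => ⟨mul_mem ha.1 hb.1, by
        rw [hc a ha.1 b hb.1, _root_.mul_inv_rev, ← ha.2, ← hb.2, hc b hb.1 a ha.1]; group⟩
      inv_mem' := fun {a} ha => ⟨inv_mem ha.1, by
        rw [← congrArg (·⁻¹) ha.2]; simp only [_root_.mul_inv_rev, inv_inv, mul_assoc]⟩ }
  have hdec : ∀ R : Subgroup N, A ⊓ centralizer {t} ≤ R → W ≤ R → A ≤ R := fun R h3 h4 a ha => by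
    have h5 : t * (t * a * t⁻¹) * t⁻¹ = a := by
      calc t * (t * a * t⁻¹) * t⁻¹ = t * t * a * (t * t)⁻¹ := by group
        _ = a := by rw [hc _ ht2 a ha, mul_inv_cancel_right]
    have h6 := hc a ha _ (hn a ha t)
    refine h2 a ha R ?_
    have : a * a = (a * (t * a * t⁻¹)) * ((t * a * t⁻¹)⁻¹ * a) := by group
    rw [this]
    refine mul_mem (h3 ⟨mul_mem ha (hn a ha t), mem_centralizer_singleton_iff.2 ?_⟩)
      (h4 ⟨mul_mem (inv_mem (hn a ha t)) ha, ?_⟩)
    · calc a * (t * a * t⁻¹) * t = t * (t * a * t⁻¹) * t⁻¹ * (t * a * t⁻¹) * t := by rw [h5]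
        _ = t * ((t * a * t⁻¹) * a) := by group
        _ = _ := by rw [h6]
    · calc t * ((t * a * t⁻¹)⁻¹ * a) * t⁻¹ = (t * (t * a * t⁻¹) * t⁻¹)⁻¹ * (t * a * t⁻¹) := by
            simp only [_root_.mul_inv_rev, inv_inv, mul_assoc, inv_mul_cancel_left]
        _ = _ := by rw [h5]; group
  have hEA : A ⊓ centralizer {t} ≠ A := fun h => htA (hAself.le fun a ha =>
    mem_centralizer_singleton_iff.1 (h.ge ha).2)
  have h3 := hdec _ (cen _ inf_le_left hE hEA fun a ha g => ⟨hn a ha.1 g,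
    mem_centralizer_singleton_iff.2 (by
      rw [mul_inv_eq_iff_eq_mul.1 (key g a ha.1), ← mem_centralizer_singleton_iff.1 ha.2,
        mul_inv_cancel_right])⟩)
    (cen W (fun a ha => ha.1) (fun h => hEA (le_antisymm inf_le_left
      (hdec _ le_rfl (h.le.trans bot_le)))) (fun h => hE (eq_bot_iff.2 fun a ha => h2 a ha.1 _ (by
        have h4 := (h.ge ha.1).2
        rw [← mem_centralizer_singleton_iff.1 ha.2, mul_inv_cancel_right] at h4
        nth_rw 1 [h4]
        simp))) fun a ha g => ⟨hn a ha.1 g, by rw [key g a ha.1, ha.2]; group⟩)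
  have h4 : u ∈ A := hAself.le fun a ha => (h3 ha u (mem_zpowers u)).symm
  have h5 := congrArg (fun M : Matrix.SpecialLinearGroup (Fin 2) F => M 0 1)
    (hu.symm.trans ((hk u).2 h4))
  simp [uu] at h5

end Cfsg.Agent.S3075
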