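import Cfsg.Statements.S3076
import Cfsg.Agent.H7.PPCore

set_option autoImplicit false
open Cfsg

namespace Cfsg.Agent.S3076

/-- Let P be a Sylow p-subgroup of the finite group G and H ≤ P a subgroup with N_P(H) a Sylow p-subgroup of N_G(H). Let N be the preimage in N_G(H) of O_p(N_G(H)/C_G(H)). Then H is a Sylow p-subgroup of N if and only if C_P(H) ≤ H and O_{p',p}(N_G(H)) = H·C_G(H). -/
theorem result {G : Type*} [Group G] [Finite G] {p : ℕ} [Fact p.Prime]
    (P : Sylow p G) (H : Subgroup G) (hHP : H ≤ (P : Subgroup G))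
    (hSyl : ¬ p ∣ ((P : Subgroup G) ⊓ Subgroup.normalizer (H : Set G)).relIndex (Subgroup.normalizer (H : Set G)))
    [hC : ((Subgroup.centralizer (H : Set G)).subgroupOf (Subgroup.normalizer (H : Set G))).Normal] :
    (H ≤ ((Cfsg.pCore p (↥(Subgroup.normalizer (H : Set G)) ⧸
              (Subgroup.centralizer (H : Set G)).subgroupOf (Subgroup.normalizer (H : Set G)))).comap
            (QuotientGroup.mk' _)).map (Subgroup.normalizer (H : Set G)).subtype ∧
      ¬ p ∣ H.relIndex (((Cfsg.pCore p (↥(Subgroup.normalizer (H : Set G)) ⧸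
              (Subgroup.centralizer (H : Set G)).subgroupOf (Subgroup.normalizer (H : Set G)))).comap
            (QuotientGroup.mk' _)).map (Subgroup.normalizer (H : Set G)).subtype)) ↔
    ((P : Subgroup G) ⊓ Subgroup.centralizer (H : Set G) ≤ H ∧
      (Cfsg.pPrimePCore p ↥(Subgroup.normalizer (H : Set G))).map (Subgroup.normalizer (H : Set G)).subtype =
        H ⊔ Subgroup.centralizer (H : Set G)) := by
  set N := Subgroup.normalizer (H : Set G) with hN
  set C := Subgroup.centralizer (H : Set G) with hCdef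
  rw [← H51.opMod_eq_map p N C]
  have hS : H8.IsSylowIn p ((P : Subgroup G) ⊓ N) N := ⟨inf_le_right, P.2.to_inf_left, hSyl⟩
  have hHp : IsPGroup p H := P.2.to_le hHP
  have hNC : N ≤ Subgroup.normalizer (C : Set G) := H7.normalizer_le_normalizer_centralizer H
  have hCN : C ≤ N := Subgroup.centralizer_le_normalizer _
  have hCo : C ≤ H51.opMod p N C := (le_inf hCN le_rfl).trans (H51.inf_le_opMod hNC)
  have hHo : H ≤ H51.opMod p N C := H51.le_opMod_of_isPGroup Subgroup.le_normalizer le_rfl hHp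
  set O := (Cfsg.pPrimeCore p N).map N.subtype with hO
  set Y := (Cfsg.pPrimePCore p N).map N.subtype with hY
  constructor
  · rintro ⟨-, h⟩
    have hHS : H8.IsSylowIn p H (H51.opMod p N C) := ⟨hHo, hHp, h⟩
    have hcent : (P : Subgroup G) ⊓ C ≤ H :=
      hHS.le_of_le_normalizer' P.2.to_inf_left (inf_le_right.trans hCo) (inf_le_right.trans hCN)
    obtain ⟨h1, h2, h3, h4⟩ := H7.cores_of_centric P.2 hHP hS hcent
    refine ⟨hcent, le_antisymm (fun y hy => ?_) (sup_le (le_sup_right.trans h3) (h2.trans h3))⟩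
    have hYo : Y ≤ H51.opMod p N C := by
      refine H51.le_opMod (Subgroup.map_subtype_le _)
        (haveI := H3.pPrimePCore_normal p N; H83.le_norm_map_subtype) ?_
      rintro _ ⟨x, hx, rfl⟩
      obtain ⟨k, hk⟩ := H83.coprime_orderOf_pow_ppow (p := p) x
      exact ⟨k, h1 ⟨x ^ p ^ k, H7.mem_pPrimeCore_of_mem_pPrimePCore (pow_mem hx _) hk, rfl⟩⟩
    obtain ⟨s, hs, k, hk, rfl⟩ := h4 y hy
    have h5 : (P : Subgroup G) ⊓ Y ≤ H := hHS.le_of_le_normalizer' P.2.to_inf_left
      (inf_le_right.trans hYo) (inf_le_right.trans (Subgroup.map_subtype_le _))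
    exact mul_mem (Subgroup.mem_sup_left (h5 hs)) (Subgroup.mem_sup_right (h1 hk))
  · rintro ⟨hcent, hYe⟩
    obtain ⟨h1, h2, h3, h4⟩ := H7.cores_of_centric P.2 hHP hS hcent
    refine ⟨hHo, (H8.isSylowIn_of_maximal hHo hHp fun Q hQ hQo hHQ => ?_).not_dvd⟩
    have hoY : H51.opMod p N C ≤ Y := by
      have e : Y = H51.opMod p N O := by
        have hOn : (O.subgroupOf N) = Cfsg.pPrimeCore p N := H83.map_subtype_subgroupOf _
        haveI : (O.subgroupOf N).Normal := hOn ▸ inferInstance
        rw [H51.opMod_eq_map p N O, hY, H51.pPrimePCore_eq_opMod, ← H51.opMod_top_eq_comap, hOn]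
      rw [e]
      refine H51.opMod_le_of_pow_mem p N fun x hx => ?_
      obtain ⟨k, hk, a, ha, rfl⟩ := (H83.mem_sup_right_norm
        (h1.trans (Subgroup.centralizer_le_normalizer _))).mp (h2 hx.1)
      obtain ⟨j, hj⟩ := H83.isPGroup_iff.mp hHp a ha
      refine ⟨j, ?_⟩
      rw [(Commute.symm (h1 hk a ha) : Commute k a).mul_pow, hj, mul_one]
      exact pow_mem hk _
    intro x hx
    have hx' : x ∈ O ⊔ H := sup_le le_sup_right h2 (hYe ▸ hoY (hQo hx))
    obtain ⟨k, hk, a, ha, rfl⟩ := (H83.mem_sup_right_norm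
      (h1.trans (Subgroup.centralizer_le_normalizer _))).mp hx'
    have hkQ : k ∈ Q := by simpa using mul_mem hx (inv_mem (hHQ ha))
    have := H83.eq_one_of_mem_pgroup hQ hkQ
      (H83.coprime_orderOf_of_mem (H52.coprime_card_map_pPrimeCore_subtype N) hk)
    rw [this, one_mul]
    exact ha

end Cfsg.Agent.S3076
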