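import Cfsg.Statements.S3078
import Cfsg.Agent.H54.DStar

set_option autoImplicit false
open Cfsg

namespace Cfsg.Agent.S3078

/-- A replacement Theorem for abelian subgroups of p-groups, p odd. Let G be a finite p-group with p odd, A an abelian subgroup of G, and B a subgroup of nilpotency class at most 2 with [B, B] ≤ A, such that A normalizes B but B does not normalize A. Then there is an abelian subgroup A* of G of the same order as A with A ∩ B strictly contained in A* ∩ B, A* contained in N_G(A) and in the normal closure of A, the exponent of A* dividing the exponent of A, and with the subgroup generated by the elements of order dividing p in A of order at most that of the corresponding subgroup of A* (the rank of A is at most the rank of A*). -/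
theorem result {G : Type*} [Group G] [Finite G] {p : ℕ} [Fact p.Prime] (hp : p ≠ 2) (hG : IsPGroup p G) (A B : Subgroup G) (hA : IsMulCommutative A) (hB2 : ⁅⁅B, B⁆, B⁆ = ⊥) (hBA : ⁅B, B⁆ ≤ A) (hAB : A ≤ Subgroup.normalizer (B : Set G)) (hBnA : ¬ B ≤ Subgroup.normalizer (A : Set G)) : ∃ Astar : Subgroup G, IsMulCommutative Astar ∧ Nat.card Astar = Nat.card A ∧ A ⊓ B < Astar ⊓ B ∧ Astar ≤ Subgroup.normalizer (A : Set G) ∧ Astar ≤ Subgroup.normalClosure (A : Set G) ∧ Monoid.exponent Astar ∣ Monoid.exponent A ∧ Nat.card (Cfsg.omegaOne p A) ≤ Nat.card (Cfsg.omegaOne p Astar) := by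
  have hS : IsPGroup p ↥(A ⊔ B) := hG.to_subgroup _
  have hSB : A ⊔ B ≤ Subgroup.normalizer (B : Set G) := sup_le hAB Subgroup.le_normalizer
  obtain ⟨b, hb, hbN, hbA⟩ := H51.exists_replacement_elt hS le_sup_right hSB hBnA
  obtain ⟨h1, h2⟩ := H51.replacement hS le_sup_right hSB (fun h => absurd h hp) le_sup_left hA hBA
    hb hbN hbA
  refine ⟨H51.repl A b, h1.comm, h1.card_eq, h1.inf_lt, h1.le_normalizer', ?_, ?_, ?_⟩
  · refine h1.le_sup.trans (sup_le Subgroup.le_normalClosure ?_)
    rintro _ ⟨a, ha, rfl⟩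
    exact (inferInstance : (Subgroup.normalClosure (A : Set G)).Normal).conj_mem _
      (Subgroup.le_normalClosure ha) b⁻¹
  · have hAe : ∀ a ∈ A, a ^ Monoid.exponent A = 1 := fun a ha =>
      congrArg Subtype.val (Monoid.pow_exponent_eq_one (⟨a, ha⟩ : A))
    refine Monoid.exponent_dvd_of_forall_pow_eq_one fun x => Subtype.ext ?_
    exact H51.pow_eq_one_of_mem_repl h1.comm hAe (fun a ha => h2 hp _ a ha (hAe a ha)) x x.2
  · set E := omegaOne p A with hE
    set Y := omegaOne p (H51.repl A b) with hY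
    set A' := A.map (MulAut.conj b).toMonoidHom with hA'
    have hEm : ∀ x, x ∈ E ↔ x ∈ A ∧ x ^ p = 1 := fun x => H51.mem_omegaOne_iff_of_comm hA
    have hconj : ∀ a ∈ A, b⁻¹ * a * b ∈ Subgroup.normalizer (A : Set G) := fun a ha =>
      (H51.conj_mem_of_mem_normalizer' hbN
        ⟨Subgroup.mem_sup_left ha, Subgroup.le_normalizer ha⟩).2
    have hr : A'.relIndex E ≤ A.relIndex Y := by
      refine H53.relIndex_le_of_fibres (fun a => a * b⁻¹ * a⁻¹ * b) ?_ ?_
      · intro a ha
        rw [hEm] at ha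
        exact H51.mem_omegaOne (Subgroup.mem_sup_right (Subgroup.subset_closure ⟨a, ha.1, rfl⟩))
          (h2 hp p a ha.1 ha.2)
      · intro a ha c hc h
        rw [hEm] at ha hc
        have h3 : (b⁻¹ * a * b) * (a⁻¹ * c) * (b⁻¹ * a * b)⁻¹ ∈ A :=
          H51.conj_mem_of_mem_normalizer (hconj a ha.1) (A.mul_mem (A.inv_mem ha.1) hc.1)
        have h4 := A.mul_mem (A.inv_mem h3) h
        refine ⟨_, A.inv_mem h4, ?_⟩
        have h5 : c * a⁻¹ = a⁻¹ * c := H53.comm_of_mem hA hc.1 (A.inv_mem ha.1)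
        refine Eq.trans ?_ h5
        simp only [MulEquiv.toMonoidHom_eq_coe, MonoidHom.coe_coe, MulAut.conj_apply]
        group
    have hc : Nat.card ↥(A' ⊓ E) ≤ Nat.card ↥(A ⊓ Y) := by
      rw [← Subgroup.card_map_of_injective (f := (MulAut.conj b⁻¹).toMonoidHom)
        (MulAut.conj b⁻¹).injective]
      refine Subgroup.card_le_of_le ?_
      rintro _ ⟨_, ⟨⟨a, ha, rfl⟩, hx⟩, rfl⟩
      have he : (MulAut.conj b⁻¹).toMonoidHom ((MulAut.conj b).toMonoidHom a) = a := by
        simp [mul_assoc]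
      rw [he]
      have hx' := (hEm _).1 hx
      refine ⟨ha, H51.mem_omegaOne (Subgroup.mem_sup_left ⟨ha, _, hx'.1, he⟩) ?_⟩
      rw [← he, ← map_pow, hx'.2, map_one]
    rw [← H53.card_inf_mul_relIndex A' E, ← H53.card_inf_mul_relIndex A Y]
    exact Nat.mul_le_mul hc hr

end Cfsg.Agent.S3078
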