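import Cfsg.Statements.S3087
import Mathlib

set_option autoImplicit false
open Cfsg

namespace Cfsg.Agent.S3087

/-- The fixed points of a subgroup. -/
def fix {G V : Type*} [Group G] [AddCommGroup V] {p : ℕ} [Module (ZMod p) V]
    (ρ : Representation (ZMod p) G V) (B : Subgroup G) : AddSubgroup V where
  carrier := {v | ∀ b ∈ B, ρ b v = v}
  zero_mem' := fun b _ => map_zero _
  add_mem' := fun {x y} hx hy b hb => by rw [map_add, hx b hb, hy b hb]
  neg_mem' := fun {x} hx b hb => by rw [map_neg, hx b hb]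

theorem card_fix_inf {G V : Type*} [Group G] [AddCommGroup V] {p : ℕ} [Module (ZMod p) V]
    (ρ : Representation (ZMod p) G V) (B : Subgroup G) (W : Submodule (ZMod p) V) :
    Nat.card {w : W // ∀ b ∈ B, ρ b w = w} = Nat.card ↥(fix ρ B ⊓ W.toAddSubgroup) :=
  Nat.card_congr
    { toFun := fun w => ⟨w.1, w.2, w.1.2⟩
      invFun := fun w => ⟨⟨w.1, w.2.2⟩, w.2.1⟩
      left_inv := fun _ => rfl
      right_inv := fun _ => rfl }

theorem card_mul_relIndex {V : Type*} [AddCommGroup V] (H K : AddSubgroup V) :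
    Nat.card ↥(H ⊓ K) * H.relIndex K = Nat.card K := by
  rw [← AddSubgroup.relIndex_bot_left, ← AddSubgroup.relIndex_bot_left,
    ← AddSubgroup.inf_relIndex_right H K, AddSubgroup.relIndex_mul_relIndex _ _ _ bot_le inf_le_right]

/-- Let p be a prime, G a finite group acting linearly on a finite vector space V over the field with p elements, W a G-invariant subspace, and A a subgroup of G with |A|·|C_V(A)| ≥ |B|·|C_V(B)| for every subgroup B of A. Then |A|·|C_W(A)| ≥ |B|·|C_W(B)| for every subgroup B of A that contains C_A(W); that is, the image of A in the group induced on W satisfies the same maximality condition. -/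
theorem result {G V : Type*} [Group G] [Finite G] [AddCommGroup V] [Finite V] (p : ℕ) [Fact p.Prime] [Module (ZMod p) V]
    (ρ : Representation (ZMod p) G V) (W : Submodule (ZMod p) V) (hW : ∀ g : G, ∀ w ∈ W, ρ g w ∈ W)
    (A : Subgroup G)
    (hP : ∀ B : Subgroup G, B ≤ A →
      Nat.card ↥B * Nat.card {v : V // ∀ b ∈ B, ρ b v = v} ≤ Nat.card ↥A * Nat.card {v : V // ∀ a ∈ A, ρ a v = v})
    (B : Subgroup G) (hBA : B ≤ A) (hCB : ∀ a ∈ A, (∀ w ∈ W, ρ a w = w) → a ∈ B) :
    Nat.card ↥B * Nat.card {w : W // ∀ b ∈ B, ρ b w = w} ≤ Nat.card ↥A * Nat.card {w : W // ∀ a ∈ A, ρ a w = w} := by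
  have h1 := hP B hBA
  change Nat.card B * Nat.card (fix ρ B) ≤ Nat.card A * Nat.card (fix ρ A) at h1
  rw [card_fix_inf, card_fix_inf]
  have hle : fix ρ A ≤ fix ρ B := fun v hv b hb => hv b (hBA hb)
  have h2 := card_mul_relIndex (fix ρ A) (fix ρ B)
  rw [inf_eq_left.2 hle] at h2
  have h3 := card_mul_relIndex (fix ρ A) (fix ρ B ⊓ W.toAddSubgroup)
  rw [← inf_assoc, inf_eq_left.2 hle] at h3
  have h4 : (fix ρ A).relIndex (fix ρ B ⊓ W.toAddSubgroup) ≤ (fix ρ A).relIndex (fix ρ B) :=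
    AddSubgroup.relIndex_le_of_le_right inf_le_left AddSubgroup.FiniteIndex.index_ne_zero
  have h5 : 0 < Nat.card (fix ρ A) := Nat.card_pos
  rw [← h2] at h1
  have h6 : Nat.card B * (fix ρ A).relIndex (fix ρ B) ≤ Nat.card A := by
    apply Nat.le_of_mul_le_mul_right _ h5
    linarith
  rw [← h3]
  calc Nat.card B * (Nat.card ↥(fix ρ A ⊓ W.toAddSubgroup) * (fix ρ A).relIndex (fix ρ B ⊓ W.toAddSubgroup))
      ≤ Nat.card B * (Nat.card ↥(fix ρ A ⊓ W.toAddSubgroup) * (fix ρ A).relIndex (fix ρ B)) := by gcongr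
    _ = (Nat.card B * (fix ρ A).relIndex (fix ρ B)) * Nat.card ↥(fix ρ A ⊓ W.toAddSubgroup) := by ring
    _ ≤ _ := Nat.mul_le_mul_right _ h6

end Cfsg.Agent.S3087
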