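import Cfsg.Statements.S3154
import Cfsg.Agent.H93.L34Cover
import Cfsg.Agent.H2.Gaschutz
import Cfsg.Agent.H15.Even2
import Cfsg.Agent.H72.NG0a

set_option autoImplicit false
open Cfsg

namespace Cfsg.Agent.S3154

open Subgroup H93.L34 H28 Matrix H72

def blk (g : Matrix (Fin 2) (Fin 2) F4) : Matrix (Fin 3) (Fin 3) F4 :=
  !![1, 0, 0; 0, g 0 0, g 0 1; 0, g 1 0, g 1 1]

/-- The Levi complement. -/
def rho0 : SpecialLinearGroup (Fin 2) F4 →* SL4 where
  toFun g := ⟨blk g.1, by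
    have h := g.2
    rw [det_fin_two] at h
    simp [blk, det_fin_three, h]⟩
  map_one' := Subtype.ext (show blk 1 = 1 by decide +kernel)
  map_mul' g h := Subtype.ext (show blk (g.1 * h.1) = blk g.1 * blk h.1 by
    simp [blk, Matrix.mul_fin_three, Matrix.mul_apply, Fin.sum_univ_two])

theorem coe_rho0 (g : SpecialLinearGroup (Fin 2) F4) : (rho0 g).1 = blk g.1 := rfl

def rho : SpecialLinearGroup (Fin 2) F4 →* PS4 := (QuotientGroup.mk' _).comp rho0

theorem rho_norm (g : SpecialLinearGroup (Fin 2) F4) : rho g ∈ normalizer (V1 : Set PS4) := by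
  refine mem_norm ?_
  rintro _ ⟨a, b, rfl⟩
  refine ⟨a * g.1 1 1 - b * g.1 1 0, b * g.1 0 0 - a * g.1 0 1, ?_⟩
  rw [mul_inv_eq_iff_eq_mul]
  change ((rho0 g * u a b 0 : SL4) : PS4) = ((u _ _ 0 * rho0 g : SL4) : PS4)
  congr 1
  have h := g.2
  rw [det_fin_two] at h
  refine Subtype.ext ?_
  rw [Matrix.SpecialLinearGroup.coe_mul, Matrix.SpecialLinearGroup.coe_mul, coe_rho0]
  simp [blk, u, Matrix.mul_fin_three]
  exact ⟨by linear_combination (-a) * h, by linear_combination (-b) * h⟩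

theorem rho_inj {g : SpecialLinearGroup (Fin 2) F4} (h : rho g ∈ V1) : g = 1 := by
  obtain ⟨a, b, h⟩ := h
  obtain ⟨r, hr⟩ := (mk_eq_iff _ _).1 h
  rw [coe_rho0] at hr
  have e := fun i j => congrFun (congrFun hr i) j
  have h0 := e 0 0
  have h1 := e 1 1
  have h2 := e 1 2
  have h3 := e 2 1
  have h4 := e 2 2
  simp [u, blk] at h0 h1 h2 h3 h4
  subst h0
  refine Subtype.ext (Matrix.ext fun i j => ?_)
  rw [one_mul] at h1 h4
  fin_cases i <;> fin_cases j
  exacts [h1.symm, by simpa using h2, by simpa using h3, h4.symm]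

theorem rho_surj {n : PS4} (hn : n ∈ normalizer (V1 : Set PS4)) : ∃ g, (rho g)⁻¹ * n ∈ V1 := by
  obtain ⟨g, rfl⟩ := QuotientGroup.mk_surjective n
  obtain ⟨a, b, h⟩ := (mem_normalizer_iff.1 hn _).1 (⟨1, 0, rfl⟩ : ub 1 0 0 ∈ V1)
  rw [mul_inv_eq_iff_eq_mul] at h
  obtain ⟨r, hr⟩ := (mk_eq_iff (g * u 1 0 0) (u a b 0 * g)).1 h
  rw [Matrix.SpecialLinearGroup.coe_mul, Matrix.SpecialLinearGroup.coe_mul] at hr
  have e := fun i j => congrFun (congrFun hr i) j
  have h1 := e 1 0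
  have h2 := e 1 1
  have h3 := e 1 2
  have h4 := e 2 0
  have h5 := e 2 1
  have h6 := e 2 2
  simp [u, Matrix.mul_apply, Fin.sum_univ_three] at h1 h2 h3 h4 h5 h6
  have hd := g.2
  rw [det_fin_three] at hd
  have hr1 : r = 1 := by
    by_contra hne
    have k : ∀ x : F4, x = r * x → x = 0 := fun x hx =>
      (mul_eq_zero.1 (show (1 - r) * x = 0 by linear_combination hx)).resolve_left
        (sub_ne_zero.2 (Ne.symm hne))
    rw [k _ h1, zero_add] at h2
    rw [k _ h1, k _ h2, k _ h3] at hd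
    simp at hd
  subst hr1
  have z1 : g.1 1 0 = 0 := by linear_combination -h2
  have z2 : g.1 2 0 = 0 := by linear_combination -h5
  rw [z1, z2] at hd
  have h3 : g.1 0 0 ^ 3 = 1 := by
    have : ∀ x : F4, x ≠ 0 → x ^ 3 = 1 := by decide
    exact this _ fun e => by simp [e] at hd
  refine ⟨⟨g.1 0 0 ^ 2 • !![g.1 1 1, g.1 1 2; g.1 2 1, g.1 2 2], ?_⟩,
    g.1 0 0 ^ 2 * g.1 0 1, g.1 0 0 ^ 2 * g.1 0 2, ?_⟩
  · simp [det_fin_two]
    linear_combination g.1 0 0 ^ 3 * hd + h3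
  · rw [inv_mul_eq_iff_eq_mul]
    refine (mk_eq_iff g (rho0 _ * u _ _ 0)).2 ⟨g.1 0 0 ^ 2, Matrix.ext fun i j => ?_⟩
    change (blk _ * (u _ _ 0).1) i j = _
    fin_cases i <;> fin_cases j <;> simp [blk, u, Matrix.mul_fin_three, z1, z2]
    linear_combination -h3

theorem U_norm : U ≤ normalizer (V1 : Set PS4) := by
  rintro _ ⟨a, b, c, rfl⟩
  refine mem_norm ?_
  rintro _ ⟨a', b', rfl⟩
  exact ⟨_, _, by rw [ub_inv, ub_mul, ub_mul, add_zero c, add_self' c]⟩

variable {X : Type*} [Group X] [Finite X] {π : X →* PS4}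

theorem ea1 (h : Cov π) : IsElementaryAbelian 2 (V1.comap π) :=
  H51.isEA_iff.2 ⟨fun _ ha _ hb => h.comm1 ha hb, fun _ ha => by rw [pow_two, h.sq1 ha]⟩

theorem compl (h : Cov π) : ∃ C : Subgroup X, C ≤ normalizer (V1.comap π : Set X) ∧
    C ⊓ V1.comap π = ⊥ ∧ V1.comap π ⊔ C = normalizer (V1.comap π : Set X) ∧
    Nonempty (C ≃* ProjectiveSpecialLinearGroup (Fin 2) F4) := by
  have hN : normalizer (V1.comap π : Set X) = (normalizer (V1 : Set PS4)).comap π :=
    (comap_normalizer_eq_of_surjective V1 h.surj).symm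
  obtain ⟨b₁, hb₁⟩ := h.surj (ub 0 0 1)
  obtain ⟨b₂, hb₂⟩ := h.surj (ub 0 0 w)
  have hb₃ : π (b₁ * b₂) = ub 0 0 (1 + w) := by simp [hb₁, hb₂, ub_mul]
  have ne : ∀ {x c}, π x = ub 0 0 c → c ≠ 0 → π x ∉ V1 := fun e hc ⟨a, b, e'⟩ =>
    hc (ub_inj.1 (e.symm.trans e')).2.2
  have hI : Inv2 b₁ b₂ := ⟨h.sq2 ⟨_, _, hb₁⟩, h.sq2 ⟨_, _, hb₂⟩,
    fun e => ne hb₁ (by decide) (by simp [e]), fun e => ne hb₂ (by decide) (by simp [e]),
    fun e => absurd (ub_inj.1 (hb₁.symm.trans (e ▸ hb₂))).2.2 (by decide),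
    h.comm2 ⟨_, _, hb₁⟩ ⟨_, _, hb₂⟩⟩
  have hT : U.comap π ≤ normalizer (V1.comap π : Set X) := hN ▸ comap_mono U_norm
  have hB : four b₁ b₂ ≤ U.comap π := four_le ⟨_, _, _, hb₁⟩ ⟨_, _, _, hb₂⟩
  have hA : V1.comap π ≤ U.comap π := fun x ⟨a, b, e⟩ => ⟨a, b, 0, e⟩
  set N := normalizer (V1.comap π : Set X) with hNd
  haveI : IsMulCommutative ((V1.comap π).subgroupOf N) := (H51.isEA_subgroupOf (ea1 h) N).1
  obtain ⟨C, hC⟩ := H2.gaschutz_exists ((V1.comap π).subgroupOf N) ((U.comap π).subgroupOf N)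
    (comap_mono hA) (by
      obtain ⟨k, hk⟩ := (H51.isEA_isPGroup (H51.isEA_subgroupOf (ea1 h) N)).exists_card_eq
      rw [hk]
      refine Nat.Coprime.pow_left _ (Nat.Coprime.coprime_dvd_right (Dvd.intro _ (relIndex_mul_index hT)) ?_)
      rw [U.index_comap_of_surjective h.surj, index_U]; decide)
    ((four b₁ b₂).subgroupOf N) (comap_mono hB)
    (le_bot_iff.1 fun x ⟨h1, h2⟩ => Subtype.ext (by
      rcases (hI.mem_iff _).1 h1 with e | e | e | e
      · exact e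
      · exact absurd (e ▸ h2 : π b₁ ∈ V1) (ne hb₁ (by decide))
      · exact absurd (e ▸ h2 : π b₂ ∈ V1) (ne hb₂ (by decide))
      · exact absurd (e ▸ h2 : π (b₁ * b₂) ∈ V1) (ne hb₃ (by decide))))
    (by
      rw [← subgroupOf_sup (hA.trans hT) (hB.trans hT)]
      congr 1
      refine le_antisymm (sup_le hA hB) ?_
      rintro x ⟨a, b, c, e⟩
      obtain ⟨β, hβ, e'⟩ : ∃ β ∈ four b₁ b₂, π β = ub 0 0 c := by
        rcases (by decide : ∀ a : F4, a = 0 ∨ a = 1 ∨ a = w ∨ a = 1 + w) c with rfl | rfl | rfl | rfl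
        exacts [⟨1, one_mem _, by rw [map_one, ub_zero]⟩, ⟨_, left_mem_four _ _, hb₁⟩,
          ⟨_, right_mem_four _ _, hb₂⟩, ⟨_, mul_mem (left_mem_four _ _) (right_mem_four _ _), hb₃⟩]
      rw [← inv_mul_cancel_right x β]
      exact mul_mem_sup ⟨_, _, by rw [map_mul, map_inv, e, e', ub_inv, ub_mul, add_self' c]⟩ hβ)
  refine ⟨C.map N.subtype, map_subtype_le _, ?_, ?_, ?_⟩
  · rw [← map_subgroupOf_eq_of_le (le_normalizer : V1.comap π ≤ N), ← map_inf _ _ _ N.subtype_injective,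
      hC.disjoint.symm.eq_bot, Subgroup.map_bot]
  · conv_lhs => rw [← map_subgroupOf_eq_of_le (le_normalizer : V1.comap π ≤ N)]
    rw [← Subgroup.map_sup, hC.sup_eq_top, ← MonoidHom.range_eq_map, range_subtype]
  let q := QuotientGroup.mk' (V1.subgroupOf (normalizer (V1 : Set PS4)))
  let φ := q.comp (rho.codRestrict _ rho_norm)
  let ψ := q.comp (((π.comp N.subtype).codRestrict _ fun x => hN.le x.2).comp C.subtype)
  have hφ : Function.Bijective φ := ⟨(injective_iff_map_eq_one _).2 fun g hg =>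
    rho_inj ((QuotientGroup.eq_one_iff (rho.codRestrict _ rho_norm g)).1 hg), fun y => by
      obtain ⟨n, rfl⟩ := QuotientGroup.mk_surjective y
      obtain ⟨g, hg⟩ := rho_surj n.2
      exact ⟨g, QuotientGroup.eq.2 hg⟩⟩
  have hψ : Function.Bijective ψ := ⟨(injective_iff_map_eq_one _).2 fun g hg =>
    Subtype.ext (hC.disjoint.le_bot ⟨(QuotientGroup.eq_one_iff
      (((π.comp N.subtype).codRestrict _ fun x => hN.le x.2) g)).1 hg, g.2⟩), fun y => by
      obtain ⟨n, rfl⟩ := QuotientGroup.mk_surjective y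
      obtain ⟨x, hx⟩ := h.surj n
      obtain ⟨⟨c, k⟩, e⟩ := hC.symm.2 ⟨x, hN.ge (show π x ∈ _ from hx ▸ n.2)⟩
      refine ⟨c, QuotientGroup.eq.2 ?_⟩
      change (π c)⁻¹ * n ∈ V1
      rw [← hx, ← show (c : X) * k = x from congrArg Subtype.val e, map_mul, inv_mul_cancel_left]
      exact k.2⟩
  exact ⟨(equivMapOfInjective _ _ N.subtype_injective).symm.trans ((MulEquiv.ofBijective ψ hψ).trans
    ((MulEquiv.ofBijective φ hφ).symm.trans (H15.slEquivPSL (by simp [card_F4]; decide))))⟩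

theorem comap_graph : V1.comap (graph.toMonoidHom.comp π) = V2.comap π := by
  ext x
  refine ⟨fun ⟨a, b, e⟩ => ⟨b, a, graph.injective ?_⟩, fun ⟨a, b, e⟩ => ⟨b, a + 0 * b, ?_⟩⟩
  · rw [graph_ub, zero_mul, add_zero]; exact e
  · exact (congrArg graph e).trans (graph_ub ..)

theorem ident {H : Subgroup X} (hk : π.ker ≤ H) (hU : H ≤ U.comap π)
    (h2 : ∀ x ∈ H, π (x * x) = 1) (hc : Nat.card (H.map π) = 16) :
    H = V1.comap π ∨ H = V2.comap π := by
  have h3 : ∀ {x a b c}, x ∈ H → π x = ub a b c → a = 0 ∨ c = 0 := fun hx e => by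
    have := h2 _ hx
    rw [map_mul, e, ub_mul, ← ub_zero, ub_inj, add_self', add_self', zero_add] at this
    exact mul_eq_zero.1 this.2.1
  have key : ∀ V : Subgroup PS4, Nat.card V = 16 → H ≤ V.comap π → H = V.comap π := fun V h1 h4 => by
    rw [← eq_of_le_of_card_ge (map_le_iff_le_comap.2 h4) (h1.trans hc.symm).le, comap_map_eq_self hk]
  by_cases h4 : H ≤ V1.comap π
  · exact Or.inl (key _ card_V1 h4)
  obtain ⟨y, hy, hy'⟩ := SetLike.not_le_iff_exists.1 h4
  obtain ⟨a', b', c', e'⟩ := hU hy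
  have hc' : c' ≠ 0 := fun e => hy' ⟨a', b', e ▸ e'⟩
  refine Or.inr (key _ card_V2 fun x hx => ?_)
  obtain ⟨a, b, c, e⟩ := hU hx
  refine ⟨b, c, ?_⟩
  rw [e, ub_inj]
  refine ⟨?_, rfl, rfl⟩
  by_contra ha
  have := h3 (H.mul_mem hx hy) (by rw [map_mul, e, e', ub_mul])
  rw [(h3 hx e).resolve_left ha, (h3 hy e').resolve_right hc', add_zero, zero_add] at this
  exact this.elim ha hc'

theorem inf_eq (h : Cov π) : V1.comap π ⊓ V2.comap π =
    (center ↥(V1.comap π ⊔ V2.comap π)).map (V1.comap π ⊔ V2.comap π).subtype := by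
  have hle : V1.comap π ⊔ V2.comap π ≤ U.comap π :=
    sup_le (fun x ⟨a, b, e⟩ => ⟨a, b, 0, e⟩) fun x ⟨a, b, e⟩ => ⟨0, a, b, e⟩
  refine le_antisymm (fun x hx => ⟨⟨x, mem_sup_left hx.1⟩, mem_center_iff.2 fun g =>
    Subtype.ext (h.central (hle g.2) hx.1 hx.2), rfl⟩) ?_
  rintro _ ⟨⟨x, hx⟩, hc, rfl⟩
  obtain ⟨a, b, c, e⟩ := hle hx
  obtain ⟨p, hp⟩ := h.surj (ub 1 0 0)
  obtain ⟨q, hq⟩ := h.surj (ub 0 0 1)
  have h1 : π (p * x) = π (x * p) := congrArg (fun y => π y.1)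
    (mem_center_iff.1 hc ⟨p, mem_sup_left ⟨_, _, hp⟩⟩)
  have h2 : π (q * x) = π (x * q) := congrArg (fun y => π y.1)
    (mem_center_iff.1 hc ⟨q, mem_sup_right ⟨_, _, hq⟩⟩)
  simp only [map_mul, e, hp, hq, ub_mul, ub_inj] at h1 h2
  have hc0 : c = 0 := by linear_combination h1.2.1
  have ha0 : a = 0 := by linear_combination -h2.2.1
  subst hc0 ha0
  exact ⟨⟨_, _, e⟩, _, _, e⟩

/-- Let X be a finite quasisimple group whose centre is an elementary abelian 2-group and whose central quotient is isomorphic to the projective special linear group of dimension 3 over the field with 4 elements. Let T be a Sylow 2-subgroup of X and H ≠ K subgroups of T containing the centre Z(X) whose images in X/Z(X) are elementary abelian of order 16 (the two such subgroups of a Sylow 2-subgroup of the quotient). Then H and K are elementary abelian, H ∩ K is the centre of the subgroup they generate, and each of N_X(H), N_X(K) is a split extension of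 H, respectively K, by the projective special linear group of dimension 2 over the field with 4 elements (there is a complement isomorphic to that group). -/
theorem result {X : Type*} [Group X] [Finite X] (hq : Cfsg.IsQuasisimple X) (hZ : Cfsg.IsElementaryAbelian 2 (Subgroup.center X))
    {F : Type*} [Field F] [Fintype F] (hF : Fintype.card F = 4) (hXL : Nonempty ((X ⧸ Subgroup.center X) ≃* Matrix.ProjectiveSpecialLinearGroup (Fin 3) F))
    (T : Sylow 2 X) (H K : Subgroup X) (hHK : H ≠ K) (hHT : H ≤ T) (hKT : K ≤ T) (hZH : Subgroup.center X ≤ H) (hZK : Subgroup.center X ≤ K)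
    (hH : Cfsg.IsElementaryAbelian 2 (H.map (QuotientGroup.mk' (Subgroup.center X))) ∧ Nat.card ↥(H.map (QuotientGroup.mk' (Subgroup.center X))) = 16)
    (hK : Cfsg.IsElementaryAbelian 2 (K.map (QuotientGroup.mk' (Subgroup.center X))) ∧ Nat.card ↥(K.map (QuotientGroup.mk' (Subgroup.center X))) = 16) :
    Cfsg.IsElementaryAbelian 2 H ∧ Cfsg.IsElementaryAbelian 2 K ∧
      H ⊓ K = (Subgroup.center ↥(H ⊔ K)).map (H ⊔ K).subtype ∧
      (∃ C : Subgroup X, C ≤ Subgroup.normalizer (H : Set X) ∧ C ⊓ H = ⊥ ∧ H ⊔ C = Subgroup.normalizer (H : Set X) ∧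
        Nonempty (↥C ≃* Matrix.ProjectiveSpecialLinearGroup (Fin 2) F)) ∧
      (∃ C : Subgroup X, C ≤ Subgroup.normalizer (K : Set X) ∧ C ⊓ K = ⊥ ∧ K ⊔ C = Subgroup.normalizer (K : Set X) ∧
        Nonempty (↥C ≃* Matrix.ProjectiveSpecialLinearGroup (Fin 2) F)) := by
  obtain ⟨e⟩ := hXL
  obtain ⟨π₀, c₀, k₀⟩ := exists_cov hF (fun x hx => by rw [← pow_two]; exact hZ.2 x hx) e
  obtain ⟨g, hg⟩ := MulAction.exists_smul_eq X T c₀.sylow
  have c := c₀.comp (MulAut.conj (π₀ g))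
  set π := (MulAut.conj (π₀ g)).toMonoidHom.comp π₀ with hπ
  have k : π.ker = center X := k₀ ▸ Subgroup.ext fun x => (MulAut.conj (π₀ g)).map_eq_one_iff
  have hT : (T : Subgroup X) ≤ U.comap π := fun x hx => by
    have : g * x * g⁻¹ ∈ c₀.sylow := hg ▸ smul_mem_pointwise_smul _ (MulAut.conj g) _ hx
    have h2 : π₀ (g * x * g⁻¹) ∈ U := this
    rwa [map_mul, map_mul, map_inv] at h2
  have id : ∀ {H : Subgroup X}, H ≤ T → center X ≤ H →
      IsElementaryAbelian 2 (H.map (QuotientGroup.mk' (center X))) ∧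
        Nat.card ↥(H.map (QuotientGroup.mk' (center X))) = 16 → H = V1.comap π ∨ H = V2.comap π :=
    fun {H} h1 h2 h3 => ident (k ▸ h2) (h1.trans hT) (fun x hx => by
      rw [← MonoidHom.mem_ker, k, ← pow_two, ← QuotientGroup.eq_one_iff]
      exact h3.1.2 _ ⟨x, hx, rfl⟩) (by
      rw [← relIndex_ker, k, ← h3.2, ← relIndex_ker, QuotientGroup.ker_mk'])
  have f := (pslEquiv (equivF4 hF) (Fin 2)).symm
  have e1 := ea1 c
  have e2 := comap_graph (π := π) ▸ ea1 (c.comp graph)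
  have s1 := (compl c).imp fun C h => And.intro h.1 (And.intro h.2.1 (And.intro h.2.2.1
    (h.2.2.2.map (·.trans f))))
  have s2 := (compl (c.comp graph)).imp fun C h =>
    And.intro h.1 (And.intro h.2.1 (And.intro h.2.2.1 (h.2.2.2.map (·.trans f))))
  rw [comap_graph] at s2
  rcases id hHT hZH hH with rfl | rfl <;> rcases id hKT hZK hK with rfl | rfl
  · exact absurd rfl hHK
  · exact ⟨e1, e2, inf_eq c, s1, s2⟩
  · exact ⟨e2, e1, by rw [inf_comm, sup_comm, inf_eq c], s2, s1⟩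
  · exact absurd rfl hHK

end Cfsg.Agent.S3154
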