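import Cfsg.Statements.S3155
import Mathlib.LinearAlgebra.Determinant
import Mathlib.Algebra.Module.ZMod
import Mathlib.LinearAlgebra.Dimension.Constructions
import Mathlib.LinearAlgebra.FreeModule.Finite.Basic

set_option autoImplicit false
open Cfsg

namespace Cfsg.Agent.S3155

/-- Let B be the direct product of three cyclic groups of order 4. Then the automorphism of B inverting every element is not the square of any automorphism of B. -/
theorem result {B : Type*} [CommGroup B] [Finite B] (hB : Nonempty (B ≃* Multiplicative (ZMod 4 × ZMod 4 × ZMod 4)))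
    (τ : B ≃* B) : τ.trans τ ≠ MulEquiv.inv B := by
  obtain ⟨e⟩ := hB
  intro h
  let σ : Multiplicative (ZMod 4 × ZMod 4 × ZMod 4) ≃* Multiplicative (ZMod 4 × ZMod 4 × ZMod 4) :=
    e.symm.trans (τ.trans e)
  have hσ : ∀ x, σ (σ x) = x⁻¹ := by
    intro x
    have := MulEquiv.congr_fun h (e.symm x)
    simp only [MulEquiv.trans_apply, MulEquiv.inv_apply] at this
    simp [σ, this]
  let f : (ZMod 4 × ZMod 4 × ZMod 4) →+ (ZMod 4 × ZMod 4 × ZMod 4) :=
    MonoidHom.toAdditive.toFun σ.toMonoidHom
  let L : (ZMod 4 × ZMod 4 × ZMod 4) →ₗ[ZMod 4] (ZMod 4 × ZMod 4 × ZMod 4) := f.toZModLinearMap 4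
  have hL : L ∘ₗ L = (-1 : ZMod 4) • LinearMap.id := by
    apply LinearMap.ext
    intro x
    have := hσ (Multiplicative.ofAdd x)
    rw [LinearMap.smul_apply, neg_one_smul]
    exact this
  have hdet := congrArg LinearMap.det hL
  rw [LinearMap.det_comp, LinearMap.det_smul, LinearMap.det_id] at hdet
  have hfin : Module.finrank (ZMod 4) (ZMod 4 × ZMod 4 × ZMod 4) = 3 := by
    have : Fact (1 < 4) := ⟨by decide⟩
    rw [Module.finrank_prod, Module.finrank_prod, Module.finrank_self]
  rw [hfin] at hdet
  generalize LinearMap.det L = d at hdet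
  revert d
  decide

end Cfsg.Agent.S3155
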