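import Cfsg.Statements.S3161
import Cfsg.Agent.H2.TH

set_option autoImplicit false
open Cfsg

namespace Cfsg.Agent.S3161

/-- Let Q be a non-abelian finite 2-group admitting commuting automorphisms α of order 2 and ρ of order 2^n − 1, where n ≥ 2, such that the fixed points of α form an elementary abelian subgroup of order 2^n on whose nonidentity elements the group generated by ρ acts transitively. Then Q is isomorphic to a Sylow 2-subgroup of the projective special unitary group of dimension 3 with parameter 2^n (realised over the field with 4^n elements) or of the projective special linear group of dimension 3 over the field with 2^n elements. -/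
theorem result {Q : Type*} [Group Q] [Finite Q] (hQ : IsPGroup 2 Q) (hna : ¬ IsMulCommutative Q) (n : ℕ) (hn : 2 ≤ n)
    (α ρ : MulAut Q) (hα : orderOf α = 2) (hρ : orderOf ρ = 2 ^ n - 1) (hc : Commute α ρ)
    (C : Subgroup Q) (hC : ∀ x : Q, x ∈ C ↔ α x = x) (hCE : Cfsg.IsElementaryAbelian 2 C ∧ Nat.card ↥C = 2 ^ n)
    (htr : ∀ x y : Q, x ∈ C → y ∈ C → x ≠ 1 → y ≠ 1 → ∃ k : ℕ, (ρ ^ k) x = y) :
    (∃ (F : Type) (_ : Field F) (_ : Fintype F), Fintype.card F = 4 ^ n ∧
        ∃ S : Sylow 2 (Cfsg.PSU 3 F (2 ^ n)), Nonempty (Q ≃* ↥(S : Subgroup (Cfsg.PSU 3 F (2 ^ n))))) ∨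
      (∃ (F : Type) (_ : Field F) (_ : Fintype F), Fintype.card F = 2 ^ n ∧
        ∃ S : Sylow 2 (Matrix.ProjectiveSpecialLinearGroup (Fin 3) F), Nonempty (Q ≃* ↥(S : Subgroup (Matrix.ProjectiveSpecialLinearGroup (Fin 3) F)))) := by
  have : Fact (Nat.Prime 2) := ⟨Nat.prime_two⟩
  obtain rfl : C = H2.fx α := Subgroup.ext hC
  obtain ⟨F, _, _, _, ζ, l, h, hF⟩ := H2.exists_TH hQ hn (α := α) (ρ := ρ) (fun x => by
      rw [← MulAut.mul_apply, ← sq, ← hα, pow_orderOf_eq_one]; rfl)
    (by rw [← hρ, pow_orderOf_eq_one]) (fun x => DFunLike.congr_fun hc.eq x)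
    (fun x hx => by rw [← sq, hCE.1.2 x hx]) hCE.2 fun x hx y hy => htr x y hx hy
  rcases h.sylow (by
    by_contra hc; push Not at hc; exact hna ⟨⟨hc⟩⟩) hF with k | ⟨E, _, _, hE, k⟩
  · exact Or.inr ⟨F, inferInstance, inferInstance, hF, default, k _⟩
  · exact Or.inl ⟨E, inferInstance, inferInstance, hE, default, k _⟩


end Cfsg.Agent.S3161
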