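import Cfsg.Statements.S3175
import Cfsg.Agent.H91.RuT2
import Cfsg.Agent.S2007

set_option autoImplicit false
open Cfsg

namespace Cfsg.Agent.S3175

/-- Let G be a finite group whose Sylow 2-subgroup T has order at least 2^14 and whose upper central series has fourth term of order 16; let W be the centralizer in T of the third term, and suppose the Frattini subgroup of W has order at most 8 and lies in every subgroup of W of index at most 16. Then the normalizer of T in G has a normal 2-complement, and W is weakly closed in T with respect to G. -/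
theorem result {G : Type*} [Group G] [Finite G]
    (T : Sylow 2 G) (ha : 2 ^ 14 ≤ Nat.card ↥(T : Subgroup G))
    (hb : Nat.card ↥(Subgroup.upperCentralSeries ↥(T : Subgroup G) 4) = 16)
    (W : Subgroup ↥(T : Subgroup G))
    (hW : W = Subgroup.centralizer ((Subgroup.upperCentralSeries ↥(T : Subgroup G) 3 : Subgroup ↥(T : Subgroup G)) : Set ↥(T : Subgroup G)))
    (hc : Nat.card ↥(frattini ↥W) ≤ 8)
    (hd : ∀ U : Subgroup ↥W, U.index ≤ 16 → frattini ↥W ≤ U) :
    Cfsg.HasNormalPComplement 2 ↥(Subgroup.normalizer ((T : Subgroup G) : Set G)) ∧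
      Cfsg.IsWeaklyClosed (W.map (T : Subgroup G).subtype) (T : Subgroup G) := by
  subst hW
  have h : H91.Ru.Hyp (T : Subgroup G) := ⟨T.isPGroup', ha, hb, hc, hd⟩
  refine ⟨S2007.result T _ le_rfl Subgroup.le_normalizer inf_le_left fun g hg ho => ?_,
    Subgroup.map_subtype_le _, fun g hg => ?_⟩
  · let α : MulAut (T : Subgroup G) := (T : Subgroup G).normalizerMonoidHom ⟨g, hg⟩
    have h1 : α ^ orderOf g = 1 := by
      rw [← map_pow, show (⟨g, hg⟩ : Subgroup.normalizer ((T : Subgroup G) : Set G)) ^ orderOf g = 1
        from Subtype.ext (pow_orderOf_eq_one g), map_one]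
    intro x hx
    have h2 := congrArg Subtype.val (h.aut_eq_one α (Nat.coprime_two_right.1 ho) h1 ⟨x, hx⟩)
    change g * x * g⁻¹ = x at h2
    rw [mul_inv_eq_iff_eq_mul] at h2
    exact h2.symm
  · set W := H91.Ru.Wc (T : Subgroup G)
    set W' := (W.map (T : Subgroup G).subtype).map (MulAut.conj g).toMonoidHom
    have e : W ≃* W'.subgroupOf (T : Subgroup G) :=
      ((W.equivMapOfInjective _ (T : Subgroup G).subtype_injective).trans
        ((W.map (T : Subgroup G).subtype).equivMapOfInjective _ (MulAut.conj g).injective)).trans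
        (Subgroup.subgroupOfEquivOfLe hg).symm
    have h1 := h.eq_of_equiv _ e
    rw [← Subgroup.map_subgroupOf_eq_of_le hg, h1]

end Cfsg.Agent.S3175
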