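import Cfsg.Statements.S3178
import Cfsg.Agent.H87.CyclicSylow

set_option autoImplicit false
open Cfsg

namespace Cfsg.Agent.S3178

/-- Groups with a modular Sylow 2-subgroup have a normal 2-complement. Let S, of order 2^(n+1) with n ≥ 3, be a Sylow 2-subgroup of a finite group G, and suppose S contains an element a of order 2^n and an involution b with b a b⁻¹ = a^(2^(n-1) + 1); so S is the non-abelian 2-group with a cyclic subgroup of index 2 that is neither dihedral, semidihedral nor generalized quaternion. Then G has a normal 2-complement. -/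
theorem result {G : Type*} [Group G] [Finite G]
    (S : Sylow 2 G) (n : ℕ) (hn : 3 ≤ n) (hS : Nat.card ↥(S : Subgroup G) = 2 ^ (n + 1))
    (a b : G) (ha : a ∈ (S : Subgroup G)) (hb : b ∈ (S : Subgroup G))
    (hao : orderOf a = 2 ^ n) (hbo : orderOf b = 2) (hrel : b * a * b⁻¹ = a ^ (2 ^ (n - 1) + 1)) :
    Cfsg.HasNormalPComplement 2 G := by
  have : Fact (Nat.Prime 2) := ⟨Nat.prime_two⟩
  obtain ⟨m, rfl⟩ : ∃ m, n = m + 3 := ⟨n - 3, by omega⟩
  rw [show m + 3 - 1 = m + 2 from rfl] at hrel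
  have hidx : (Subgroup.zpowers a).relIndex S = 2 :=
    H87.relIndex_eq_of_card (Subgroup.zpowers_le.mpr ha) (by rw [Nat.card_zpowers, hao, hS, pow_succ])
  have ha1 : a ^ 2 ^ (m + 3) = 1 := by rw [← hao, pow_orderOf_eq_one]
  have hz1 : a ^ 2 ^ (m + 2) ≠ 1 := fun h => by
    have := Nat.le_of_dvd (by positivity) (orderOf_dvd_of_pow_eq_one h)
    rw [hao, pow_succ] at this
    have : 0 < 2 ^ (m + 2) := by positivity
    omega
  have hz2 : (a ^ 2 ^ (m + 2)) ^ 2 = 1 := by rw [← pow_mul, ← pow_succ, ha1]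
  have hb2 : b ^ 2 = 1 := by rw [← hbo, pow_orderOf_eq_one]
  have hb1 : b ≠ 1 := by rintro rfl; simp at hbo
  have hba : b ∉ Subgroup.zpowers a := by
    rintro ⟨k, rfl⟩
    apply hz1
    have h : a ^ k * a * (a ^ k)⁻¹ = a := by group
    simp only at hrel
    rw [h, pow_succ, eq_comm, mul_eq_right] at hrel
    exact hrel
  have hzinv : ∀ x ∈ Subgroup.zpowers a, x ^ 2 = 1 → x ≠ 1 → x = a ^ 2 ^ (m + 2) :=
    fun x hx hx2 hx1 => H87.eq_of_mem_zpowers_of_sq hx (Subgroup.npow_mem_zpowers a _) hx2 hz2 hx1 hz1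
  have hyb : Commute (a ^ 2 ^ (m + 1)) b := by
    change _ * _ = _ * _
    rw [eq_comm, ← mul_inv_eq_iff_eq_mul, ← conj_pow, hrel, ← pow_mul, add_mul, one_mul, pow_add,
      show 2 ^ (m + 2) * 2 ^ (m + 1) = 2 ^ (m + 3) * 2 ^ m by ring, pow_mul, ha1]
    simp
  have hzb : Commute (a ^ 2 ^ (m + 2)) b := by
    rw [pow_succ, pow_mul]; exact hyb.pow_left 2
  have hzS : (S : Subgroup G) ≤ Subgroup.centralizer {a ^ 2 ^ (m + 2)} := by
    intro s hs
    rw [Subgroup.mem_centralizer_singleton_iff]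
    by_cases hsa : s ∈ Subgroup.zpowers a
    · obtain ⟨k, rfl⟩ := hsa
      exact ((Commute.refl a).zpow_left k).pow_right _
    · have : s * b⁻¹ ∈ Subgroup.zpowers a := by
        rw [H87.mul_mem_iff_of_relIndex_two hidx hs (Subgroup.inv_mem _ hb)]
        simp [hsa, hba]
      obtain ⟨k, hk⟩ := this
      have hs' : s = a ^ k * b := by simp only at hk; rw [hk]; simp
      rw [hs']
      exact (((Commute.refl a).zpow_left k).pow_right _).mul_left hzb.symm
  obtain ⟨K, hKn, hK, hbK⟩ := H87.thompson_transfer_involution (H87.odd_index_sylow S) hidx hb2 (by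
    intro g hg
    have h1 : g * b * g⁻¹ = a ^ 2 ^ (m + 2) :=
      hzinv _ hg (by rw [conj_pow, hb2]; simp) (by simpa using hb1)
    let y := g * a ^ 2 ^ (m + 1) * g⁻¹
    have hy : y ∈ Subgroup.centralizer {a ^ 2 ^ (m + 2)} := by
      rw [Subgroup.mem_centralizer_singleton_iff, ← h1]
      calc y * (g * b * g⁻¹) = g * (a ^ 2 ^ (m + 1) * b) * g⁻¹ := by simp only [y]; group
        _ = _ := by rw [hyb.eq]; simp only [y]; group
    obtain ⟨c, hc, hc'⟩ := H87.exists_conj_mem_sylow S hzS (P := Subgroup.zpowers y)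
      (H8.isPGroup_zpowers_of_pow_eq_one (k := 2) (by
        rw [conj_pow, ← pow_mul, ← pow_add, ha1]; simp)) (Subgroup.zpowers_le.mpr hy)
    have h2 := H87.sq_mem_of_relIndex_two hidx (hc' y (Subgroup.mem_zpowers y))
    rw [conj_pow, conj_pow, ← pow_mul, ← pow_succ] at h2
    have h3 := hzinv _ h2 (by rw [conj_pow, conj_pow, hz2]; simp) (by simpa using hz1)
    rw [Subgroup.mem_centralizer_singleton_iff] at hc
    have h4 : g * a ^ 2 ^ (m + 2) * g⁻¹ = a ^ 2 ^ (m + 2) := by
      rw [mul_inv_eq_iff_eq_mul, ← hc, mul_right_inj] at h3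
      exact h3
    rw [← h4, mul_left_inj, mul_right_inj] at h1
    exact hba (h1 ▸ Subgroup.npow_mem_zpowers a _))
  refine H87.hasNormalPComplement_of_inf_cyclic S (k := 1) hK ?_
  have hcard : Nat.card ↥((S : Subgroup G) ⊓ K) = 2 ^ (m + 3) := by
    have := H87.card_inf_of_index_two hK (S := S) fun h => hbK (h hb)
    rw [hS, pow_succ] at this
    omega
  by_cases haK : a ∈ K
  · rw [H87.eq_zpowers_of_card (H := (S : Subgroup G) ⊓ K) ⟨ha, haK⟩ (by rw [hcard, hao])]
    infer_instance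
  · have hab : a * b ∈ (S : Subgroup G) ⊓ K :=
      ⟨Subgroup.mul_mem _ ha hb, by
        change _ ∈ K
        rw [Subgroup.mul_mem_iff_of_index_two hK]; simp [haK, hbK]⟩
    have h1 : (a * b) ^ 2 = a ^ (2 ^ (m + 2) + 2) := by
      calc (a * b) ^ 2 = a * (b * a * b⁻¹) * b ^ 2 := by rw [pow_two, pow_two]; group
        _ = _ := by rw [hb2, hrel]; group
    have h2 : orderOf (a * b) = 2 ^ (m + 3) := by
      apply orderOf_eq_prime_pow
      · rw [pow_succ', pow_mul, h1, ← pow_mul, add_mul, pow_add,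
          show 2 ^ (m + 2) * 2 ^ (m + 1) = 2 ^ (m + 3) * 2 ^ m by ring, pow_mul, ha1, one_pow, one_mul,
          ← pow_succ']
        exact hz1
      · have := pow_card_eq_one' (G := ↥((S : Subgroup G) ⊓ K)) (x := ⟨_, hab⟩)
        rw [hcard] at this
        exact congrArg Subtype.val this
    rw [H87.eq_zpowers_of_card hab (by rw [hcard, h2])]
    infer_instance

end Cfsg.Agent.S3178
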