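import Cfsg.Statements.S3180
import Cfsg.Agent.H87.Sylow

set_option autoImplicit false
open Cfsg

namespace Cfsg.Agent.S3180

/-- Let P be a Sylow p-subgroup of a finite group J and P₁ a subgroup of P that is weakly closed in P with respect to J. If J acts on a set and two points, each fixed by every element of P₁, lie in one J-orbit, then they lie in one orbit of the normalizer of P₁ in J. -/
theorem result {J : Type*} [Group J] [Finite J]
    {p : ℕ} [Fact p.Prime] (P : Sylow p J) (P₁ : Subgroup J) (hW : Cfsg.IsWeaklyClosed P₁ (P : Subgroup J))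
    {Ω : Type*} [MulAction J Ω] (x y : Ω) (hx : ∀ g ∈ P₁, g • x = x) (hy : ∀ g ∈ P₁, g • y = y)
    (hc : ∃ g : J, g • x = y) :
    ∃ g ∈ Subgroup.normalizer (P₁ : Set J), g • x = y := by
  obtain ⟨g, rfl⟩ := hc
  have hP₁ : IsPGroup p P₁ := P.isPGroup'.to_le hW.1
  set Q : Subgroup J := P₁.map (MulAut.conj g).toMonoidHom with hQdef
  have hQ : IsPGroup p Q := hP₁.map _
  have h1 : P₁ ≤ MulAction.stabilizer J (g • x) := fun a ha => hy a ha
  have h2 : Q ≤ MulAction.stabilizer J (g • x) := by
    rintro _ ⟨a, ha, rfl⟩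
    simp [MulAction.mem_stabilizer_iff, mul_smul, hx a ha]
  obtain ⟨h, hh, T, hT1, hT2⟩ := H87.exists_conj_common_sylow hP₁ h1 hQ h2
  obtain ⟨k, -, hk⟩ := H87.exists_conj_mem_sylow P (K := ⊤) le_top T.isPGroup' le_top
  have key : ∀ u : J, (∀ a ∈ P₁, u * a * u⁻¹ ∈ (P : Subgroup J)) →
      u ∈ Subgroup.normalizer (P₁ : Set J) := by
    intro u hu
    have := hW.2 u (by rintro _ ⟨a, ha, rfl⟩; exact hu a ha)
    rw [Subgroup.mem_normalizer_iff]
    intro a
    constructor
    · intro ha
      rw [← this]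
      exact ⟨a, ha, rfl⟩
    · intro ha
      rw [← this] at ha
      obtain ⟨b, hb, hab⟩ := ha
      have : b = a := by simpa using hab
      rwa [← this]
  have hk1 : k ∈ Subgroup.normalizer (P₁ : Set J) := key k fun a ha => hk a (hT1 ha)
  have hk2 : k * (h * g) ∈ Subgroup.normalizer (P₁ : Set J) := key _ fun a ha => by
    have := hk _ (hT2 (g * a * g⁻¹) ⟨a, ha, rfl⟩)
    simpa [mul_assoc] using this
  refine ⟨h * g, ?_, ?_⟩
  · have := Subgroup.mul_mem _ (Subgroup.inv_mem _ hk1) hk2
    simpa using this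
  · rw [mul_smul]; exact hh

end Cfsg.Agent.S3180
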