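import Cfsg.Statements.S3183
import Cfsg.Agent.H87.Sylow

set_option autoImplicit false
open Cfsg

namespace Cfsg.Agent.S3183

theorem memZ {X : Type*} [Group X] (H : Subgroup X) (z : X) :
    z ∈ (Subgroup.center H).map H.subtype ↔ z ∈ H ∧ ∀ h ∈ H, h * z = z * h := by
  constructor
  · rintro ⟨w, hw, rfl⟩
    exact ⟨w.2, fun h hh => congrArg Subtype.val (Subgroup.mem_center_iff.mp hw ⟨h, hh⟩)⟩
  · rintro ⟨hz, hz'⟩
    exact ⟨⟨z, hz⟩, Subgroup.mem_center_iff.mpr fun h => Subtype.ext (hz' h h.2), rfl⟩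

theorem part1 {G : Type*} [Group G] [Finite G]
    (hCI : ∀ S T : Sylow 2 G, S ≠ T → ∃ U : Sylow 2 G,
      (S : Subgroup G) ⊓ (T : Subgroup G) ≤ (Subgroup.center ↥(U : Subgroup G)).map (U : Subgroup G).subtype)
    (S : Sylow 2 G) :
    (∀ x ∈ (S : Subgroup G), ∀ P : Subgroup G, IsPGroup 2 ↥P → P ≤ Subgroup.centralizer ({x} : Set G) →
        Nat.card ↥P ≤ Nat.card ↥((S : Subgroup G) ⊓ Subgroup.centralizer ({x} : Set G))) := by
  have : Fact (Nat.Prime 2) := ⟨Nat.prime_two⟩
  intro x hx P hP hPC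
  set D := (S : Subgroup G) ⊓ Subgroup.centralizer ({x} : Set G) with hD
  have hD2 : IsPGroup 2 D := S.isPGroup'.to_inf_left
  refine H87.card_le_of_relIndex hD2 inf_le_right ?_ hP hPC
  refine H87.not_dvd_relIndex_of_max hD2 inf_le_right fun Q hQ hDQ hQC => ?_
  obtain ⟨T, hT⟩ := hQ.exists_le_sylow
  by_cases hST : S = T
  · subst hST
    exact le_inf hT hQC
  exfalso
  obtain ⟨U, hU⟩ := hCI S T hST
  have hDU : ∀ d ∈ D, ∀ u ∈ (U : Subgroup G), u * d = d * u := fun d hd =>
    ((memZ _ _).mp (hU ⟨hd.1, hT (hDQ hd)⟩)).2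
  have hne : ¬ (S : Subgroup G) ≤ D := fun h =>
    hST (Sylow.ext (S.is_maximal' T.isPGroup' (h.trans (hDQ.trans hT))).symm)
  obtain ⟨y, hyS, hyD, hyN⟩ := H87.exists_mem_normalizer_not_mem S.isPGroup' inf_le_left hne
  have hUN : (U : Subgroup G) ≤ Subgroup.normalizer (D : Set G) := fun u hu =>
    Subgroup.centralizer_le_normalizer _ fun d hd => (hDU d hd u hu).symm
  obtain ⟨k, hk, hk'⟩ := H87.exists_conj_mem_sylow U hUN
    (P := (S : Subgroup G) ⊓ Subgroup.normalizer (D : Set G)) S.isPGroup'.to_inf_left inf_le_right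
  have h1 := hk' y ⟨hyS, hyN⟩
  have hxD : x ∈ D := ⟨hx, by simp [Subgroup.mem_centralizer_iff]⟩
  have h2 := hDU _ ((Subgroup.mem_normalizer_iff.mp hk x).mp hxD) _ h1
  refine hyD ⟨hyS, Subgroup.mem_centralizer_singleton_iff.mpr ?_⟩
  calc y * x = k⁻¹ * (k * y * k⁻¹ * (k * x * k⁻¹)) * k := by group
    _ = x * y := by rw [h2]; group

/-- Let G be a finite group in which the intersection of any two distinct Sylow 2-subgroups is contained in the centre of some Sylow 2-subgroup, and let S be a Sylow 2-subgroup. Then for every x in S the centralizer of x in S is a Sylow 2-subgroup of the centralizer of x in G (no 2-subgroup centralizing x is larger), and for every other Sylow 2-subgroup T the intersection S ∩ T lies in both the centre of S and the centre of T. -/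
theorem result {G : Type*} [Group G] [Finite G]
    (hCI : ∀ S T : Sylow 2 G, S ≠ T → ∃ U : Sylow 2 G,
      (S : Subgroup G) ⊓ (T : Subgroup G) ≤ (Subgroup.center ↥(U : Subgroup G)).map (U : Subgroup G).subtype)
    (S : Sylow 2 G) :
    (∀ x ∈ (S : Subgroup G), ∀ P : Subgroup G, IsPGroup 2 ↥P → P ≤ Subgroup.centralizer ({x} : Set G) →
        Nat.card ↥P ≤ Nat.card ↥((S : Subgroup G) ⊓ Subgroup.centralizer ({x} : Set G))) ∧
    (∀ T : Sylow 2 G, T ≠ S →
        (S : Subgroup G) ⊓ (T : Subgroup G) ≤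
          (Subgroup.center ↥(S : Subgroup G)).map (S : Subgroup G).subtype ⊓
            (Subgroup.center ↥(T : Subgroup G)).map (T : Subgroup G).subtype) := by
  refine ⟨part1 hCI S, fun T hT => ?_⟩
  have : Fact (Nat.Prime 2) := ⟨Nat.prime_two⟩
  obtain ⟨U, hU⟩ := hCI S T hT.symm
  have key : ∀ V : Sylow 2 G, ∀ x ∈ (S : Subgroup G) ⊓ (T : Subgroup G), x ∈ (V : Subgroup G) →
      x ∈ (Subgroup.center ↥(V : Subgroup G)).map (V : Subgroup G).subtype := by
    intro V x hx hxV
    have h1 := part1 hCI V x hxV U U.isPGroup' fun u hu =>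
      Subgroup.mem_centralizer_singleton_iff.mpr (((memZ _ _).mp (hU hx)).2 u hu)
    have h2 : Nat.card (V : Subgroup G) ≤ Nat.card (U : Subgroup G) := H87.card_le_sylow U V.isPGroup'
    have h3 := Subgroup.eq_of_le_of_card_ge
      (inf_le_left : (V : Subgroup G) ⊓ Subgroup.centralizer ({x} : Set G) ≤ V) (h2.trans h1)
    refine (memZ _ _).mpr ⟨hxV, fun h hh => ?_⟩
    rw [← h3] at hh
    exact Subgroup.mem_centralizer_singleton_iff.mp hh.2
  exact fun x hx => ⟨key S x hx hx.1, key T x hx hx.2⟩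

end Cfsg.Agent.S3183
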