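import Cfsg.Statements.S3184
import Cfsg.Agent.H81.ZCor

set_option autoImplicit false
open Cfsg

namespace Cfsg.Agent.S3184

open Subgroup Cfsg.Agent.H85 Cfsg.Agent.H81

/-- Let G be a finite group in which the intersection of any two distinct Sylow 2-subgroups is contained in the centre of some Sylow 2-subgroup, and let S be a Sylow 2-subgroup. If C is a nontrivial cyclic characteristic subgroup of S, then the involution of C is central modulo the largest normal subgroup of odd order of G: each of its conjugates has the same image in G/O(G). -/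
theorem result {G : Type*} [Group G] [Finite G]
    (hCI : ∀ S T : Sylow 2 G, S ≠ T → ∃ U : Sylow 2 G,
      (S : Subgroup G) ⊓ (T : Subgroup G) ≤ (Subgroup.center ↥(U : Subgroup G)).map (U : Subgroup G).subtype)
    (S : Sylow 2 G) (C : Subgroup ↥(S : Subgroup G)) (hC : C ≠ ⊥) (hCc : IsCyclic ↥C) (hCh : C.Characteristic)
    (c : ↥(S : Subgroup G)) (hc : c ∈ C) (hc2 : orderOf c = 2) :
    ∀ g : G, (QuotientGroup.mk (s := Cfsg.oddCore G) (g * (c : G) * g⁻¹)) =
      QuotientGroup.mk (s := Cfsg.oddCore G) (c : G) := by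
  have hcG : orderOf (c : G) = 2 := by rw [Subgroup.orderOf_coe]; exact hc2
  have hN : ∀ n ∈ normalizer ((S : Subgroup G) : Set G), n * (c : G) * n⁻¹ = c := by
    intro n hn
    have h1 := H3.normalizer_le_normalizer_map_of_characteristic (S : Subgroup G) C hn
    have hcm : (c : G) ∈ C.map (S : Subgroup G).subtype := mem_map_of_mem _ hc
    have h2 : n * (c : G) * n⁻¹ ∈ C.map (S : Subgroup G).subtype := (mem_normalizer_iff.mp h1 _).mp hcm
    have hcyc : IsCyclic (C.map (S : Subgroup G).subtype) :=
      isCyclic_of_surjective _ (C.equivMapOfInjective _ (S : Subgroup G).subtype_injective).surjective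
    exact involution_unique_of_isCyclic hcyc h2 hcm (by rw [H10.orderOf_conj]; exact hcG) hcG
  have hcS : (c : G) ∈ centralizer ((S : Subgroup G) : Set G) := by
    intro s hs
    have := hN s (le_normalizer hs)
    rwa [mul_inv_eq_iff_eq_mul] at this
  have hiso : Cfsg.IsIsolatedInvolution (c : G) := by
    refine ⟨hcG, fun g hg => ?_⟩
    have hc1 := H10.mul_self_of_orderOf_two hcG
    have ht1 : (g * c * g⁻¹) * (g * c * g⁻¹) = 1 :=
      H10.mul_self_of_orderOf_two (by rw [H10.orderOf_conj]; exact hcG)
    have hR := H10.isPGroup_closure_pair hc1 ht1 hg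
    have hR1 : closure ({(c : G), g * c * g⁻¹} : Set G) ≤ centralizer {(c : G)} := by
      rw [closure_le]
      rintro x (rfl | rfl)
      · exact mem_centralizer_singleton_iff.mpr rfl
      · exact mem_centralizer_singleton_iff.mpr hg.symm.eq
    have hR2 : closure ({(c : G), g * c * g⁻¹} : Set G) ≤ centralizer {g * c * g⁻¹} := by
      rw [closure_le]
      rintro x (rfl | rfl)
      · exact mem_centralizer_singleton_iff.mpr hg.eq
      · exact mem_centralizer_singleton_iff.mpr rfl
    obtain ⟨k, -, hk1, hk2⟩ := exists_sylow_le_of_le S (le_centralizer_singleton_iff.mpr hcS) hR hR1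
    have hgS : ((g • S : Sylow 2 G) : Subgroup G) ≤ centralizer {g * c * g⁻¹} := by
      rw [coe_smul_sylow]
      rintro _ ⟨s, hs, rfl⟩
      rw [mem_centralizer_singleton_iff]
      have := hcS s hs
      simp only [MulEquiv.coe_toMonoidHom, MulAut.conj_apply]
      calc g * s * g⁻¹ * (g * c * g⁻¹) = g * (s * c) * g⁻¹ := by group
        _ = _ := by rw [this]; group
    obtain ⟨l, -, hl1, hl2⟩ := exists_sylow_le_of_le (g • S) hgS hR hR2
    have m1 : (c : G) ∈ closure ({(c : G), g * c * g⁻¹} : Set G) := subset_closure (by simp)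
    have m2 : g * c * g⁻¹ ∈ closure ({(c : G), g * c * g⁻¹} : Set G) := subset_closure (by simp)
    by_cases h : k • S = l • g • S
    · exact eq_of_central_of_normalizer_fix S (k • S) hcS hN (le_centralizer_singleton_iff.mp hk2)
        (le_centralizer_singleton_iff.mp (h ▸ hl2))
    · obtain ⟨U, hU⟩ := hCI _ _ h
      have hcen : ∀ x ∈ (center (U : Subgroup G)).map (U : Subgroup G).subtype,
          x ∈ centralizer ((U : Subgroup G) : Set G) := by
        rintro _ ⟨x, hx, rfl⟩ u hu
        exact congrArg Subtype.val (mem_center_iff.mp hx ⟨u, hu⟩)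
      exact eq_of_central_of_normalizer_fix S U hcS hN (hcen _ (hU ⟨hk1 m1, hl1 m1⟩))
        (hcen _ (hU ⟨hk1 m2, hl1 m2⟩))
  intro g
  rw [QuotientGroup.eq]
  have h1 := H6.zstar G hiso g
  have hci := H10.inv_eq_of_orderOf_two hcG
  convert inv_mem h1 using 1
  simp only [mul_inv_rev, inv_inv, hci, mul_assoc]

end Cfsg.Agent.S3184
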