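import Cfsg.Statements.S3190
import Cfsg.Agent.H87.Sylow

set_option autoImplicit false
open Cfsg

namespace Cfsg.Agent.S3190

/-- Let p be an odd prime and, inside a finite group, let P be a p-subgroup normalized by a Klein four-group T. Let R be a subgroup of P, normal in P and normalized by T, such that P is the product of R with the centralizer of T in P. If T centralizes the centre of P, then T centralizes the centre of R. -/
theorem result {X : Type*} [Group X] [Finite X]
    {p : ℕ} (hp : p.Prime) (hodd : Odd p) (P T R : Subgroup X) (hP : IsPGroup p ↥P) (hT : IsKleinFour ↥T)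
    (hTP : T ≤ Subgroup.normalizer (P : Set X)) (hRP : R ≤ P) (hRn : (R.subgroupOf P).Normal)
    (hTR : T ≤ Subgroup.normalizer (R : Set X)) (hfac : R ⊔ (P ⊓ Subgroup.centralizer (T : Set X)) = P)
    (hZ : T ≤ Subgroup.centralizer (((Subgroup.center ↥P).map P.subtype : Subgroup X) : Set X)) :
    T ≤ Subgroup.centralizer (((Subgroup.center ↥R).map R.subtype : Subgroup X) : Set X) := by
  have : Fact p.Prime := ⟨hp⟩
  have memZ : ∀ (H : Subgroup X) (z : X), z ∈ (Subgroup.center H).map H.subtype ↔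
      z ∈ H ∧ ∀ h ∈ H, h * z = z * h := by
    intro H z
    constructor
    · rintro ⟨w, hw, rfl⟩
      exact ⟨w.2, fun h hh => congrArg Subtype.val (Subgroup.mem_center_iff.mp hw ⟨h, hh⟩)⟩
    · rintro ⟨hz, hz'⟩
      exact ⟨⟨z, hz⟩, Subgroup.mem_center_iff.mpr fun h => Subtype.ext (hz' h h.2), rfl⟩
  intro t ht
  have ht2 : t * t = 1 := by
    have := IsKleinFour.mul_self (⟨t, ht⟩ : T)
    exact congrArg Subtype.val this
  have htinv : t⁻¹ = t := inv_eq_of_mul_eq_one_right ht2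
  have hRn' : ∀ x ∈ P, ∀ r ∈ R, x * r * x⁻¹ ∈ R := by
    intro x hx r hr
    have := hRn.conj_mem ⟨r, hRP hr⟩ (by simpa [Subgroup.mem_subgroupOf] using hr) ⟨x, hx⟩
    simpa [Subgroup.mem_subgroupOf] using this
  -- the subgroup of elements of `Z(R)` inverted by `t`
  let W : Subgroup X :=
    { carrier := {z | (z ∈ R ∧ ∀ h ∈ R, h * z = z * h) ∧ t * z * t⁻¹ = z⁻¹}
      one_mem' := ⟨⟨R.one_mem, by simp⟩, by simp⟩
      mul_mem' := by
        rintro a b ⟨⟨ha, ha'⟩, ha''⟩ ⟨⟨hb, hb'⟩, hb''⟩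
        refine ⟨⟨R.mul_mem ha hb, fun h hh => ?_⟩, ?_⟩
        · rw [← mul_assoc, ha' h hh, mul_assoc, hb' h hh, mul_assoc]
        · calc t * (a * b) * t⁻¹ = (t * a * t⁻¹) * (t * b * t⁻¹) := by group
            _ = (b * a)⁻¹ := by rw [ha'', hb'']; group
            _ = (a * b)⁻¹ := by rw [ha' b hb]
      inv_mem' := by
        rintro a ⟨⟨ha, ha'⟩, ha''⟩
        refine ⟨⟨R.inv_mem ha, fun h hh => ?_⟩, ?_⟩
        · exact (Commute.inv_right (ha' h hh : Commute h a) : Commute h a⁻¹)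
        · calc t * a⁻¹ * t⁻¹ = (t * a * t⁻¹)⁻¹ := by group
            _ = _ := by rw [ha''] }
  have hWR : W ≤ R := fun z hz => hz.1.1
  have hWn : P ≤ Subgroup.normalizer (W : Set X) := by
    rw [← hfac, sup_le_iff]
    constructor
    · intro r hr
      apply Subgroup.centralizer_le_normalizer
      intro w hw
      exact (hw.1.2 r hr).symm
    · rintro c ⟨hcP, hc⟩
      have hct : t * c = c * t := hc t ht
      have key : ∀ c ∈ P, t * c = c * t → ∀ w ∈ W, c * w * c⁻¹ ∈ W := by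
        rintro c hcP hct w ⟨⟨hw, hw'⟩, hw''⟩
        refine ⟨⟨hRn' c hcP w hw, fun h hh => ?_⟩, ?_⟩
        · have := hw' _ (hRn' c⁻¹ (P.inv_mem hcP) h hh)
          calc h * (c * w * c⁻¹) = c * (c⁻¹ * h * c⁻¹⁻¹ * w) * c⁻¹ := by group
            _ = _ := by rw [this]; group
        · calc t * (c * w * c⁻¹) * t⁻¹ = (t * c) * w * (t * c)⁻¹ := by group
            _ = c * (t * w * t⁻¹) * c⁻¹ := by rw [hct]; group
            _ = _ := by rw [hw'']; group
      rw [Subgroup.mem_normalizer_iff]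
      intro w
      refine ⟨key c hcP hct w, fun hw => ?_⟩
      have := key c⁻¹ (P.inv_mem hcP) (Commute.inv_right (hct : Commute t c)) _ hw
      simpa [mul_assoc] using this
  have hW : W = ⊥ := by
    by_contra hW
    obtain ⟨w, hw, hw1, hwc⟩ := H87.exists_fixed_mem hP (hP.to_le (hWR.trans hRP))
      (fun x hx w hw => (Subgroup.mem_normalizer_iff.mp (hWn hx) w).mp hw) hW
    have h1 : w * t = t * w := hZ ht w ((memZ P w).mpr ⟨hRP (hWR hw), hwc⟩)
    have h2 : w = w⁻¹ := by rw [← hw.2, ← h1]; group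
    have h3 : w ^ 2 = 1 := by rw [pow_two]; nth_rewrite 2 [h2]; simp
    have h4 := hP.orderOf_coprime (n := 2) (Nat.Coprime.symm (by simpa using hodd))
      ⟨w, hRP (hWR hw)⟩
    rw [Subgroup.orderOf_mk] at h4
    have h5 := Nat.Coprime.eq_one_of_dvd h4 (orderOf_dvd_of_pow_eq_one h3)
    exact hw1 (orderOf_eq_one_iff.mp h5)
  intro z hz
  obtain ⟨hzR, hzc⟩ := (memZ R z).mp hz
  have htn : ∀ r ∈ R, t * r * t⁻¹ ∈ R := fun r hr =>
    (Subgroup.mem_normalizer_iff.mp (hTR ht) r).mp hr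
  have hz' : ∀ h ∈ R, h * (t * z * t⁻¹) = (t * z * t⁻¹) * h := by
    intro h hh
    have := hzc _ (htn h hh)
    rw [htinv] at this ⊢
    calc h * (t * z * t) = (t * t) * h * (t * z * t) := by rw [ht2, one_mul]
      _ = t * (t * h * t * z) * t := by simp only [mul_assoc]
      _ = t * z * t * h * (t * t) := by rw [this]; simp only [mul_assoc]
      _ = _ := by rw [ht2, mul_one]
  have hw : z⁻¹ * (t * z * t⁻¹) ∈ W := by
    refine ⟨⟨R.mul_mem (R.inv_mem hzR) (htn z hzR), fun h hh => ?_⟩, ?_⟩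
    · exact ((Commute.inv_right (hzc h hh : Commute h z)).mul_right (hz' h hh : Commute h _) :
        Commute h _)
    · have h1 : t * (z⁻¹ * (t * z * t⁻¹)) * t⁻¹ = (t * z * t⁻¹)⁻¹ * (t * t) * z * (t * t)⁻¹ := by
        group
      rw [h1, ht2]; group
  rw [hW, Subgroup.mem_bot] at hw
  have : t * z * t⁻¹ = z := by
    calc t * z * t⁻¹ = z * (z⁻¹ * (t * z * t⁻¹)) := by group
      _ = z := by rw [hw, mul_one]
  rw [mul_inv_eq_iff_eq_mul] at this
  exact this.symm

end Cfsg.Agent.S3190
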