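import Cfsg.Statements.S3200
import Cfsg.Agent.H87.AutTwo
import Cfsg.Agent.S0143
import Cfsg.Agent.H2.Hall
import Cfsg.Agent.H4.CoprimeAction
import Cfsg.Agent.H7.PBasic

set_option autoImplicit false
open Cfsg
open Pointwise

namespace Cfsg.Agent.S3200

universe u

theorem solv (n : ℕ) : ∀ (H : Type u) [Group H] [Finite H], Nat.card H = n →
    ∀ (C : Subgroup H), IsMulCommutative C → (∃ k, C.index ∣ 2 ^ k) → Group.IsSolvable H := by
  have : Fact (Nat.Prime 2) := ⟨Nat.prime_two⟩
  induction n using Nat.strong_induction_on with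
  | _ n ih =>
  intro H _ _ hn C hC ⟨k, hk⟩
  by_cases hC1 : C = ⊥
  · rw [hC1, Subgroup.index_bot] at hk
    exact H4.isSolvable_of_isPGroup (IsPGroup.of_card_dvd_pow hk)
  obtain ⟨⟨c, hc⟩, hc1⟩ := Subgroup.ne_bot_iff_exists_ne_one.mp hC1
  have hc1' : c ≠ 1 := fun h => hc1 (Subtype.ext h)
  have : Nontrivial H := ⟨⟨c, 1, hc1'⟩⟩
  by_cases hs : IsSimpleGroup H
  · have hle : C ≤ Subgroup.centralizer {c} := fun x hx =>
      Subgroup.mem_centralizer_singleton_iff.mpr (H7.commute_of_mem hC hx hc)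
    obtain ⟨j, -, hj⟩ := (Nat.dvd_prime_pow Nat.prime_two).mp
      ((Subgroup.index_dvd_of_le hle).trans hk)
    have hp := S0143.result 2 j Nat.prime_two c hc1' hj
    have : Fact (Nat.card H).Prime := ⟨hp⟩
    have := isCyclic_of_prime_card (p := Nat.card H) rfl
    exact H4.isSolvable_of_isMulCommutative H
  obtain ⟨N, hN, hN1, hN2⟩ : ∃ N : Subgroup H, N.Normal ∧ N ≠ ⊥ ∧ N ≠ ⊤ := by
    by_contra hcon
    push Not at hcon
    exact hs ⟨fun N hN => or_iff_not_imp_left.mpr (hcon N hN)⟩
  rw [Group.isSolvable_iff_subgroup_quotient N]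
  constructor
  · refine ih _ (hn ▸ H7.card_lt_of_ne_top hN2) N rfl (C.subgroupOf N) inferInstance ⟨k, ?_⟩
    refine Dvd.dvd.trans ?_ hk
    change C.relIndex N ∣ _
    have h1 := H3.card_sup_mul_card_inf C N
    have h2 : C.relIndex N = C.relIndex (C ⊔ N) := by
      have h3 := H3.card_inf_mul_relIndex C N
      have h4 := H3.card_mul_relIndex (le_sup_left : C ≤ C ⊔ N)
      rw [← h3, ← h4] at h1
      have h5 : 0 < Nat.card C * Nat.card ↥(C ⊓ N) := Nat.mul_pos Nat.card_pos Nat.card_pos
      exact Nat.eq_of_mul_eq_mul_left h5 (by linarith)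
    rw [h2]
    exact Subgroup.relIndex_dvd_index_of_le le_sup_left
  · refine ih _ ?_ (H ⧸ N) rfl (C.map (QuotientGroup.mk' N)) inferInstance
      ⟨k, (Subgroup.index_map_dvd _ (QuotientGroup.mk'_surjective N)).trans hk⟩
    rw [← hn, ← N.card_mul_index, ← Subgroup.index_eq_card]
    have h1 : 1 < Nat.card N := Subgroup.one_lt_card_iff_ne_bot _ |>.mpr hN1
    have h2 : 0 < N.index := Nat.pos_of_ne_zero Subgroup.index_ne_zero_of_finite
    nlinarith

theorem compl {L : Type*} [Group L] [Finite L] (P : Sylow 2 L) (D : Subgroup L)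
    (h1 : ¬ 2 ∣ Nat.card D) {k : ℕ} (h2 : D.index ∣ 2 ^ k) :
    Subgroup.IsComplement' (P : Subgroup L) D := by
  have : Fact (Nat.Prime 2) := ⟨Nat.prime_two⟩
  obtain ⟨j, -, hj⟩ := (Nat.dvd_prime_pow Nat.prime_two).mp h2
  have hcop : (Nat.card D).Coprime 2 := ((Nat.Prime.coprime_iff_not_dvd Nat.prime_two).mpr h1).symm
  have h3 : Nat.card P = D.index := by
    rw [P.card_eq_multiplicity, ← D.card_mul_index, hj,
      Nat.factorization_mul Nat.card_pos.ne' (by positivity)]
    simp [Nat.factorization_eq_zero_of_not_dvd h1, Nat.Prime.factorization_pow Nat.prime_two]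
  refine Subgroup.isComplement'_of_coprime (by rw [h3, mul_comm, D.card_mul_index]) ?_
  rw [h3, hj]
  exact (hcop.pow_right j).symm

/-- Let H be a finite group in which a Sylow 2-subgroup has an abelian complement (an abelian subgroup meeting it trivially whose product with it is all of H). Then H is solvable, and every subgroup and every quotient group of H again has a Sylow 2-subgroup with an abelian complement. -/
theorem result {H : Type*} [Group H] [Finite H]
    (S : Sylow 2 H) (C : Subgroup H) (hC : IsMulCommutative ↥C) (hSC : Subgroup.IsComplement' (S : Subgroup H) C) :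
    Group.IsSolvable H ∧
    (∀ L : Subgroup H, ∃ (P : Sylow 2 ↥L) (D : Subgroup ↥L), IsMulCommutative ↥D ∧ Subgroup.IsComplement' (P : Subgroup ↥L) D) ∧
    (∀ (N : Subgroup H) [N.Normal], ∃ (P : Sylow 2 (H ⧸ N)) (D : Subgroup (H ⧸ N)),
      IsMulCommutative ↥D ∧ Subgroup.IsComplement' (P : Subgroup (H ⧸ N)) D) := by
  have : Fact (Nat.Prime 2) := ⟨Nat.prime_two⟩
  obtain ⟨k, hk⟩ := S.isPGroup'.exists_card_eq
  have hCi : C.index = 2 ^ k := by rw [hSC.index_eq_card, hk]
  have hCo : ¬ 2 ∣ Nat.card C := by rw [← hSC.symm.index_eq_card]; exact S.not_dvd_index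
  have hsol : Group.IsSolvable H := solv _ H rfl C hC ⟨k, hCi.dvd⟩
  refine ⟨hsol, fun L => ?_, fun N _ => ?_⟩
  · obtain ⟨D, hD⟩ := H2.exists_isPiHall {p | p ≠ 2} L
    rw [H2.isPiHall_iff] at hD
    have hCH : IsPiHall {p | p ≠ 2} C := by
      rw [H2.isPiHall_iff, hCi]
      refine ⟨fun p hp h => ?_, H2.isPiNum_prime_pow Nat.prime_two (by simp) k⟩
      rintro rfl; exact hCo h
    obtain ⟨g, hg⟩ := H2.le_conj_isPiHall (K := D.map L.subtype) hCH (by
      rw [H3.card_map_subtype]; exact hD.1)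
    have hDc : IsMulCommutative D := H7.isMulCommutative_of_forall fun x hx y hy => by
      have : IsMulCommutative ↥(MulAut.conj g • C) :=
        inferInstanceAs (IsMulCommutative (C.map (MulAut.conj g).toMonoidHom))
      exact Subtype.ext (H7.commute_of_mem this (hg ⟨x, hx, rfl⟩) (hg ⟨y, hy, rfl⟩))
    refine ⟨default, D, hDc, compl _ D (fun h => hD.1 2 Nat.prime_two h rfl)
      (k := D.index.factorization 2) ?_⟩
    rw [Nat.eq_prime_pow_of_unique_prime_dvd (n := D.index) (p := 2)
      Subgroup.index_ne_zero_of_finite (fun hd h => by simpa using hD.2 _ hd h)]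
    simp [Nat.Prime.factorization_pow Nat.prime_two]
  · exact ⟨default, C.map (QuotientGroup.mk' N), inferInstance, compl _ _
      (fun h => hCo (h.trans (Subgroup.card_map_dvd _ _))) (k := k)
      (hCi ▸ Subgroup.index_map_dvd _ (QuotientGroup.mk'_surjective N))⟩

end Cfsg.Agent.S3200
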