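import Cfsg.Statements.S3201
import Cfsg.Agent.H87.QuatLift
import Cfsg.Agent.H3.Frattini
import Cfsg.Agent.H81.Basic

set_option autoImplicit false
open Cfsg

namespace Cfsg.Agent.S3201

/-- Let S be a finite 2-group whose centre Z(S) has n ≥ 2 distinct maximal subgroups C₁, …, Cₙ with trivial intersection such that each quotient S/Cᵢ is a non-abelian group with exactly one involution (a generalized quaternion group). Then S is the internal direct product of an elementary abelian subgroup and a non-abelian subgroup with exactly one involution. -/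
theorem result {S : Type*} [Group S] [Finite S]
    (hS : IsPGroup 2 S) (n : ℕ) (hn : 2 ≤ n) (C : Fin n → Subgroup ↥(Subgroup.center S))
    (hCmax : ∀ i, IsCoatom (C i)) (hCinj : Function.Injective C) (hCint : ⨅ i, C i = ⊥)
    (hCq : ∀ i, ∃ (_ : ((C i).map (Subgroup.center S).subtype).Normal),
      ¬ IsMulCommutative (S ⧸ (C i).map (Subgroup.center S).subtype) ∧
      ∃! x : S ⧸ (C i).map (Subgroup.center S).subtype, orderOf x = 2) :
    ∃ E Q : Subgroup S, Cfsg.IsInternalDirectProduct E Q ⊤ ∧ Cfsg.IsElementaryAbelian 2 E ∧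
      ¬ IsMulCommutative ↥Q ∧ ∃! x : ↥Q, orderOf x = 2 := by
  have : Fact (Nat.Prime 2) := ⟨Nat.prime_two⟩
  have hidx : ∀ i, (C i).index = 2 := fun i =>
    H3.index_coatom_of_isPGroup (hS.to_subgroup (Subgroup.center S)) (hCmax i)
  have hmem : ∀ i (x : S) (hx : x ∈ (Subgroup.center S)), x ∈ (C i).map (Subgroup.center S).subtype ↔ (⟨x, hx⟩ : (Subgroup.center S)) ∈ C i := by
    intro i x hx
    constructor
    · rintro ⟨y, hy, rfl⟩; exact hy
    · intro h; exact ⟨_, h, rfl⟩
  have hone : ∀ x : (Subgroup.center S), (∀ i, x ∈ C i) → x = 1 := by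
    intro x hx
    rw [← Subgroup.mem_bot, ← hCint, Subgroup.mem_iInf]; exact hx
  have hZ2 : ∀ x ∈ (Subgroup.center S), x * x = 1 := by
    intro x hx
    have := hone (⟨x, hx⟩ * ⟨x, hx⟩) fun i => by
      rw [Subgroup.mul_mem_iff_of_index_two (hidx i)]
    exact congrArg Subtype.val this
  -- squares of non-central elements which are central avoid every `C i`
  have hsq : ∀ x : S, x ∉ (Subgroup.center S) → ∀ hx : x * x ∈ (Subgroup.center S), ∀ i, (⟨x * x, hx⟩ : (Subgroup.center S)) ∉ C i := by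
    intro x hxZ hx i hi
    obtain ⟨hN, -, hu⟩ := hCq i
    obtain ⟨u, hu'⟩ : ∃ u : (Subgroup.center S), u ∉ C i := by
      by_contra h
      push Not at h
      exact (hCmax i).1 (eq_top_iff.mpr fun u _ => h u)
    have h1 : orderOf (QuotientGroup.mk' ((C i).map (Subgroup.center S).subtype) x) = 2 := by
      refine orderOf_eq_prime ?_ fun h => hxZ ?_
      · rw [pow_two, ← map_mul, QuotientGroup.mk'_apply, QuotientGroup.eq_one_iff, hmem i _ hx]
        exact hi
      · exact Subgroup.map_subtype_le _ ((QuotientGroup.eq_one_iff x).mp h)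
    have h2 : orderOf (QuotientGroup.mk' ((C i).map (Subgroup.center S).subtype) u) = 2 := by
      refine orderOf_eq_prime ?_ fun h => hu' ?_
      · rw [pow_two, ← map_mul, hZ2 u u.2, map_one]
      · exact (hmem i u u.2).mp ((QuotientGroup.eq_one_iff _).mp h)
    have h3 := hu.unique h2 h1
    rw [QuotientGroup.mk'_eq_mk'] at h3
    obtain ⟨c, hc, rfl⟩ := h3
    exact hxZ ((Subgroup.center S).mul_mem u.2 (Subgroup.map_subtype_le _ hc))
  have hsq2 : ∀ x y : S, x ∉ (Subgroup.center S) → y ∉ (Subgroup.center S) → x * x ∈ (Subgroup.center S) → y * y ∈ (Subgroup.center S) → x * x = y * y := by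
    intro x y hx hy hx2 hy2
    have := hone (⟨x * x, hx2⟩ * ⟨y * y, hy2⟩) fun i => by
      rw [Subgroup.mul_mem_iff_of_index_two (hidx i)]
      exact iff_of_false (hsq x hx hx2 i) (hsq y hy hy2 i)
    have h1 : x * x * (y * y) = 1 := congrArg Subtype.val this
    exact mul_right_cancel (h1.trans (hZ2 _ hy2).symm)
  let i0 : Fin n := ⟨0, by omega⟩
  obtain ⟨hN, hna, hu⟩ := hCq i0
  set N := (C i0).map (Subgroup.center S).subtype with hNdef
  have hNZ : N ≤ (Subgroup.center S) := Subgroup.map_subtype_le _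
  obtain ⟨m, a, b, ha, hb, hab, hba, hall⟩ := H87.exists_quat_gens (hS.to_quotient N) hna hu
  obtain ⟨a, rfl⟩ := QuotientGroup.mk'_surjective N a
  obtain ⟨b, rfl⟩ := QuotientGroup.mk'_surjective N b
  set π := QuotientGroup.mk' N with hπ
  have hζ : orderOf (π a ^ 2 ^ (m + 1)) = 2 := by
    rw [orderOf_pow_of_dvd (by positivity) (ha ▸ Dvd.intro_left _ rfl), ha,
      Nat.mul_div_cancel _ (by positivity)]
  have hcen : ∀ x : S, π x = π a ^ 2 ^ (m + 1) → x ∈ (Subgroup.center S) := by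
    intro x hx
    obtain ⟨u, hu'⟩ : ∃ u : (Subgroup.center S), u ∉ C i0 := by
      by_contra h
      push Not at h
      exact (hCmax i0).1 (eq_top_iff.mpr fun u _ => h u)
    have h2 : orderOf (π u) = 2 := by
      refine orderOf_eq_prime ?_ fun h => hu' ?_
      · rw [pow_two, ← map_mul, hZ2 u u.2, map_one]
      · exact (hmem i0 u u.2).mp ((QuotientGroup.eq_one_iff _).mp h)
    have h3 := (hu.unique h2 hζ).trans hx.symm
    rw [QuotientGroup.mk'_eq_mk'] at h3
    obtain ⟨c, hc, rfl⟩ := h3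
    exact (Subgroup.center S).mul_mem u.2 (hNZ hc)
  have hnc : ∀ x : S, π x * π x = π a ^ 2 ^ (m + 1) → x ∉ (Subgroup.center S) ∧ x * x ∈ (Subgroup.center S) := by
    intro x hx
    refine ⟨fun h => ?_, hcen _ (by rw [map_mul, hx])⟩
    rw [← map_mul, hZ2 x h, map_one] at hx
    rw [← hx, orderOf_one] at hζ
    omega
  have h1 := hnc b hb
  have h2 := hnc (a * b) (by
    rw [map_mul, ← hb]
    calc π a * π b * (π a * π b) = π a * (π b * π a * (π b)⁻¹) * (π b * π b) := by group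
      _ = _ := by rw [hab]; group)
  have h3 := hnc (a ^ 2 ^ m) (by rw [map_pow, ← pow_add, pow_succ]; ring_nf)
  have hab' : b * a * b⁻¹ = a⁻¹ := by
    have := hsq2 _ _ h2.1 h1.1 h2.2 h1.2
    calc b * a * b⁻¹ = a⁻¹ * (a * b * (a * b)) * b⁻¹ * b⁻¹ := by group
      _ = a⁻¹ := by rw [this]; group
  have hb' : b * b = a ^ 2 ^ (m + 1) := by
    rw [hsq2 _ _ h1.1 h3.1 h1.2 h3.2, ← pow_add, pow_succ]; ring_nf
  have hz1 : b * b ∉ N := fun h => hsq b h1.1 h1.2 i0 ((hmem i0 _ h1.2).mp h)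
  have hzo : orderOf (b * b) = 2 := orderOf_eq_prime (by rw [pow_two, hZ2 _ h1.2])
    (fun h => hz1 (h ▸ N.one_mem))
  set Q := Subgroup.closure ({a, b} : Set S) with hQ
  have haQ : a ∈ Q := Subgroup.subset_closure (by simp)
  have hbQ : b ∈ Q := Subgroup.subset_closure (by simp)
  have hQu : ∀ x ∈ Q, orderOf x = 2 → x = b * b := by
    intro x hx hx2
    rcases (H9.mem_closure_pair_iff_of_inverts hab' (hb' ▸ Subgroup.npow_mem_zpowers a _) x).mp hx
      with ⟨k, rfl⟩ | ⟨k, rfl⟩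
    · exact H81.involution_unique_of_isCyclic (R := Subgroup.zpowers a) inferInstance
        ⟨k, rfl⟩ (hb' ▸ Subgroup.npow_mem_zpowers a _) hx2 hzo
    · exfalso
      have h4 : (a ^ k * b) * (a ^ k * b) = b * b := by
        calc (a ^ k * b) * (a ^ k * b) = a ^ k * (b * a ^ k * b⁻¹) * (b * b) := by group
          _ = _ := by rw [H9.conj_zpow_of_inverts hab']; group
      rw [H9.mul_self_of_orderOf_two hx2] at h4
      exact hz1 (h4 ▸ N.one_mem)
  refine ⟨N, Q, ⟨le_top, le_top, fun x hx y _ => (Subgroup.mem_center_iff.mp (hNZ hx) y).symm,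
    ?_, ?_⟩, ⟨⟨⟨fun x y => Subtype.ext (Subgroup.mem_center_iff.mp (hNZ y.2) x)⟩⟩,
    fun x hx => by rw [pow_two, hZ2 x (hNZ hx)]⟩, fun hc => ?_,
    ⟨⟨b * b, Q.mul_mem hbQ hbQ⟩, by rw [← hzo]; exact Subgroup.orderOf_mk _ _, fun y hy =>
      Subtype.ext (hQu y y.2 (by rw [Subgroup.orderOf_coe, hy]))⟩⟩
  · rw [eq_bot_iff]
    rintro x ⟨hxN, hxQ⟩
    by_contra hx1
    exact hz1 (hQu x hxQ (orderOf_eq_prime (by rw [pow_two, hZ2 x (hNZ hxN)]) hx1) ▸ hxN)
  · rw [eq_top_iff]
    intro g _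
    rcases hall (π g) with ⟨k, hk⟩ | ⟨k, hk⟩
    · rw [← map_zpow, eq_comm, QuotientGroup.mk'_eq_mk'] at hk
      obtain ⟨e, he, rfl⟩ := hk
      exact Subgroup.mul_mem _ (Subgroup.mem_sup_right (Q.zpow_mem haQ k))
        (Subgroup.mem_sup_left he)
    · rw [← map_zpow, ← map_mul, eq_comm, QuotientGroup.mk'_eq_mk'] at hk
      obtain ⟨e, he, rfl⟩ := hk
      exact Subgroup.mul_mem _ (Subgroup.mem_sup_right (Q.mul_mem (Q.zpow_mem haQ k) hbQ))
        (Subgroup.mem_sup_left he)
  · have h4 : b * a = a * b := congrArg Subtype.val (hc.is_comm.comm (⟨b, hbQ⟩ : Q) ⟨a, haQ⟩)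
    rw [h4, mul_inv_cancel_right] at hab'
    have h5 : π a ^ 2 = 1 := by
      rw [pow_two, ← map_mul]
      nth_rewrite 1 [hab']
      rw [inv_mul_cancel, map_one]
    have h6 := Nat.le_of_dvd (by norm_num) (orderOf_dvd_of_pow_eq_one h5)
    have h7 : 2 ^ 1 ≤ 2 ^ (m + 1) := Nat.pow_le_pow_right (by norm_num) (by omega)
    omega

end Cfsg.Agent.S3201
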