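import Cfsg.Statements.S3202
import Cfsg.Agent.H87.QuatLift

set_option autoImplicit false
open Cfsg

namespace Cfsg.Agent.S3202

/-- Let S be a finite 2-group of 2-rank exactly 2 and D a maximal subgroup of the centre of S such that S/D is a non-abelian group with exactly one involution (a generalized quaternion group). Then S has a nontrivial cyclic characteristic subgroup. -/
theorem result {S : Type*} [Group S]
    [Finite S] (hS : IsPGroup 2 S) (hr2 : Cfsg.PRankLE 2 2 S) (hr1 : ¬ Cfsg.PRankLE 2 1 S)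
    (D : Subgroup ↥(Subgroup.center S)) (hD : IsCoatom D)
    (hq : ∃ (_ : (D.map (Subgroup.center S).subtype).Normal),
      ¬ IsMulCommutative (S ⧸ D.map (Subgroup.center S).subtype) ∧
      ∃! x : S ⧸ D.map (Subgroup.center S).subtype, orderOf x = 2) :
    ∃ C : Subgroup S, C ≠ ⊥ ∧ IsCyclic ↥C ∧ C.Characteristic := by
  obtain ⟨hN, hna, hu⟩ := hq
  set N := D.map (Subgroup.center S).subtype with hNdef
  have hNZ : N ≤ Subgroup.center S := Subgroup.map_subtype_le D
  obtain ⟨n, a, b, -, -, hab, -, hall⟩ := H87.exists_quat_gens (hS.to_quotient N) hna hu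
  obtain ⟨a, rfl⟩ := QuotientGroup.mk'_surjective N a
  obtain ⟨b, rfl⟩ := QuotientGroup.mk'_surjective N b
  have hall' : ∀ g : S, ∃ e ∈ Subgroup.center S, ∃ k : ℤ, g = a ^ k * e ∨ g = a ^ k * b * e := by
    intro g
    rcases hall (QuotientGroup.mk' N g) with ⟨k, hk⟩ | ⟨k, hk⟩
    · rw [← map_zpow, eq_comm, QuotientGroup.mk'_eq_mk'] at hk
      obtain ⟨e, he, rfl⟩ := hk
      exact ⟨e, hNZ he, k, Or.inl rfl⟩
    · rw [← map_zpow, ← map_mul, eq_comm, QuotientGroup.mk'_eq_mk'] at hk
      obtain ⟨e, he, rfl⟩ := hk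
      exact ⟨e, hNZ he, k, Or.inr rfl⟩
  rw [← map_inv, ← map_inv, ← map_mul, ← map_mul, eq_comm, QuotientGroup.mk'_eq_mk'] at hab
  obtain ⟨d, hd, hab⟩ := hab
  have hdc : ∀ g, Commute g d := fun g => Subgroup.mem_center_iff.mp (hNZ hd) g
  set c := a⁻¹ * a⁻¹ * d with hc
  have hac : Commute a c :=
    ((Commute.refl a).inv_right.mul_right (Commute.refl a).inv_right).mul_right (hdc a)
  have hbc : b * c * b⁻¹ = c⁻¹ := by
    calc b * c * b⁻¹ = (b * a * b⁻¹)⁻¹ * (b * a * b⁻¹)⁻¹ * (b * d * b⁻¹) := by rw [hc]; group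
      _ = (a⁻¹ * d)⁻¹ * (a⁻¹ * d)⁻¹ * d := by rw [hab, (hdc b).eq]; group
      _ = d⁻¹ * a * (d⁻¹ * (a * d)) := by group
      _ = c⁻¹ := by rw [(hdc a).eq, hc]; simp only [mul_inv_rev, inv_inv, inv_mul_cancel_left, mul_assoc]
  have hM : (Subgroup.zpowers c).Normal := by
    refine ⟨?_⟩
    rintro _ ⟨j, rfl⟩ g
    obtain ⟨e, he, k, rfl | rfl⟩ := hall' g
    · have h1 : Commute (a ^ k * e) (c ^ j) := (hac.zpow_zpow k j).mul_left
        (show Commute e (c ^ j) from (Subgroup.mem_center_iff.mp he _).symm)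
      simp only [h1.eq, mul_inv_cancel_right]
      exact ⟨j, rfl⟩
    · have h1 : Commute e (c ^ j) := (Subgroup.mem_center_iff.mp he _).symm
      refine ⟨-j, ?_⟩
      calc c ^ (-j) = a ^ k * c ^ (-j) * (a ^ k)⁻¹ := by
            rw [(hac.zpow_zpow k (-j)).eq, mul_inv_cancel_right]
        _ = a ^ k * (b * c ^ j * b⁻¹) * (a ^ k)⁻¹ := by rw [H9.conj_zpow_of_inverts hbc]
        _ = a ^ k * b * (c ^ j * e) * (a ^ k * b * e)⁻¹ := by group
        _ = _ := by rw [← h1.eq]; group
  have hle : commutator S ≤ Subgroup.zpowers c := by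
    rw [← Subgroup.Normal.quotient_commutative_iff_commutator_le]
    let π := QuotientGroup.mk' (Subgroup.zpowers c)
    have hcab : Commute (π a) (π b) := by
      have h1 : π c = 1 := (QuotientGroup.eq_one_iff c).mpr (Subgroup.mem_zpowers c)
      have h2 : b * a = a * c * b := by
        rw [hc, ← mul_assoc, ← mul_assoc, mul_inv_cancel, one_mul, hab]; group
      change π a * π b = π b * π a
      rw [← map_mul π b a, h2, map_mul, map_mul, h1, mul_one]
    have hcen : ∀ e ∈ Subgroup.center S, ∀ x, Commute (π e) x := by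
      intro e he x
      obtain ⟨x, rfl⟩ := QuotientGroup.mk'_surjective _ x
      exact (show Commute e x from (Subgroup.mem_center_iff.mp he x).symm).map π
    have h1 : ∀ g, Commute (π g) (π a) ∧ Commute (π g) (π b) := by
      intro g
      obtain ⟨e, he, k, rfl | rfl⟩ := hall' g
      · rw [map_mul, map_zpow]
        exact ⟨((Commute.refl _).zpow_left k).mul_left (hcen e he _),
          (hcab.zpow_left k).mul_left (hcen e he _)⟩
      · rw [map_mul, map_mul, map_zpow]
        exact ⟨(((Commute.refl _).zpow_left k).mul_left hcab.symm).mul_left (hcen e he _),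
          ((hcab.zpow_left k).mul_left (Commute.refl _)).mul_left (hcen e he _)⟩
    refine ⟨⟨fun x y => ?_⟩⟩
    obtain ⟨x, rfl⟩ := QuotientGroup.mk'_surjective _ x
    obtain ⟨y, rfl⟩ := QuotientGroup.mk'_surjective _ y
    change Commute (π x) (π y)
    obtain ⟨e, he, k, rfl | rfl⟩ := hall' y
    · rw [map_mul, map_zpow]
      exact ((h1 x).1.zpow_right k).mul_right (hcen e he _).symm
    · rw [map_mul, map_mul, map_zpow]
      exact (((h1 x).1.zpow_right k).mul_right (h1 x).2).mul_right (hcen e he _).symm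
  refine ⟨commutator S, fun h => hna ?_, Subgroup.isCyclic_of_le hle, inferInstance⟩
  rw [Subgroup.Normal.quotient_commutative_iff_commutator_le, h]
  exact bot_le

end Cfsg.Agent.S3202
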