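import Cfsg.Statements.S3208
import Cfsg.Agent.H87.Sylow

set_option autoImplicit false
open Cfsg

namespace Cfsg.Agent.S3208

/-- Let j be an involution of a finite group G, H a subgroup of G, and T a Sylow 2-subgroup of H ∩ C_G(j) containing j such that ⟨j⟩ is a characteristic subgroup of T. Then T is a Sylow 2-subgroup of H. -/
theorem result {G : Type*} [Group G] [Finite G]
    (j : G) (hj : orderOf j = 2) (H T : Subgroup G) (hT : T ≤ H ⊓ Subgroup.centralizer ({j} : Set G)) (h2 : IsPGroup 2 ↥T)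
    (hSyl : ¬ 2 ∣ T.relIndex (H ⊓ Subgroup.centralizer ({j} : Set G))) (hjT : j ∈ T)
    (hchar : ((Subgroup.zpowers j).subgroupOf T).Characteristic) :
    ¬ 2 ∣ T.relIndex H := by
  intro hdvd
  have : Fact (Nat.Prime 2) := ⟨Nat.prime_two⟩
  obtain ⟨Q, hQ, hTQ, hQH, hne, hQN⟩ :=
    H87.exists_normalizing_of_dvd_relIndex h2 (hT.trans inf_le_left) hdvd
  refine hSyl (H87.dvd_relIndex_of_lt hQ hTQ hne (le_inf hQH ?_))
  intro x hx
  have hxN := hQN hx
  -- conjugation by `x` is an automorphism of `T`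
  let φ : T ≃* T := T.normalizerMonoidHom ⟨x, hxN⟩
  have hφ : ∀ t : T, (φ t : G) = x * t * x⁻¹ := fun t => rfl
  have hj' : (⟨j, hjT⟩ : T) ∈ (Subgroup.zpowers j).subgroupOf T := by
    simp [Subgroup.mem_subgroupOf]
  have hmem : φ ⟨j, hjT⟩ ∈ (Subgroup.zpowers j).subgroupOf T := by
    have := (Subgroup.characteristic_iff_map_le.mp hchar) φ
    exact this ⟨_, hj', rfl⟩
  rw [Subgroup.mem_subgroupOf, hφ] at hmem
  change x * j * x⁻¹ ∈ _ at hmem
  rw [Subgroup.mem_centralizer_singleton_iff]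
  obtain ⟨k, hk⟩ := Subgroup.mem_zpowers_iff.mp hmem
  have hj2 : j ^ 2 = 1 := by rw [← hj]; exact pow_orderOf_eq_one j
  have hj1 : j ≠ 1 := by rintro rfl; simp at hj
  rcases Int.even_or_odd' k with ⟨m, rfl | rfl⟩
  · exfalso
    have : j ^ (2 * m) = 1 := by rw [zpow_mul]; norm_cast; simp [hj2]
    rw [this] at hk
    apply hj1
    have := congrArg (fun y => x⁻¹ * y * x) hk
    simpa [mul_assoc] using this.symm
  · have : j ^ (2 * m + 1) = j := by rw [zpow_add, zpow_mul]; norm_cast; simp [hj2]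
    rw [this] at hk
    rw [eq_comm, mul_inv_eq_iff_eq_mul] at hk
    exact hk

end Cfsg.Agent.S3208
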