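import Cfsg.Statements.S3209
import Cfsg.Agent.H87.SL2Odd
import Cfsg.Agent.H1.Card
import Cfsg.Agent.H87.CyclicSylow

set_option autoImplicit false
open Cfsg

namespace Cfsg.Agent.S3209

/-- Let L₁ ≅ SL₂(q₁) and L₂ ≅ SL₂(q₂), q₁ and q₂ odd, be elementwise-commuting subgroups of a finite group meeting in ⟨j⟩ for an involution j. Then L₁L₂ has exactly two conjugacy classes of involutions: the central involution j, and one further class (there is an involution x ≠ j in L₁L₂, and every involution of L₁L₂ other than j is conjugate to x by an element of L₁L₂). -/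
theorem result {G : Type*} [Group G] [Finite G]
    {F₁ : Type*} [Field F₁] [Fintype F₁] {F₂ : Type*} [Field F₂] [Fintype F₂]
    (hF₁ : Odd (Fintype.card F₁)) (hF₂ : Odd (Fintype.card F₂)) (L₁ L₂ : Subgroup G)
    (e₁ : ↥L₁ ≃* Matrix.SpecialLinearGroup (Fin 2) F₁) (e₂ : ↥L₂ ≃* Matrix.SpecialLinearGroup (Fin 2) F₂)
    (hc : ∀ x ∈ L₁, ∀ y ∈ L₂, x * y = y * x) (j : G) (hj : orderOf j = 2) (hm : L₁ ⊓ L₂ = Subgroup.zpowers j) :
    ∃ x ∈ L₁ ⊔ L₂, orderOf x = 2 ∧ x ≠ j ∧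
      ∀ y ∈ L₁ ⊔ L₂, orderOf y = 2 → y = j ∨ ∃ g ∈ L₁ ⊔ L₂, g * x * g⁻¹ = y := by
  have h21 := H87.two_ne_zero_of_odd_card hF₁
  have h22 := H87.two_ne_zero_of_odd_card hF₂
  have hjm : j ∈ L₁ ⊓ L₂ := hm ▸ Subgroup.mem_zpowers j
  have hjj : j * j = 1 := by rw [← pow_two, ← hj, pow_orderOf_eq_one]
  have hj1 : j ≠ 1 := by rintro rfl; simp at hj
  have hN : L₁ ≤ Subgroup.normalizer (L₂ : Set G) :=
    fun x hx => Subgroup.centralizer_le_normalizer _ (fun y hy => (hc x hx y hy).symm)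
  have hint : ∀ x ∈ L₁, x ∈ L₂ → x = 1 ∨ x = j := by
    intro x h1 h2
    obtain ⟨k, rfl⟩ : x ∈ Subgroup.zpowers j := hm ▸ ⟨h1, h2⟩
    refine H87.sl2_sq_eq_one h21 e₁ hjm.1 hj h1 ?_
    rw [← Commute.mul_zpow (Commute.refl j), hjj, one_zpow]
  obtain ⟨a₀, ha₀, ha₀2⟩ := H87.sl2_exists_sq h21 e₁ hjm.1 hj
  obtain ⟨b₀, hb₀, hb₀2⟩ := H87.sl2_exists_sq h22 e₂ hjm.2 hj
  have hsq : ∀ a ∈ L₁, ∀ b ∈ L₂, (a * b) * (a * b) = (a * a) * (b * b) := by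
    intro a ha b hb
    rw [mul_assoc, ← mul_assoc b, ← hc a ha b hb]; group
  have hnot : a₀ * b₀ ∉ L₂ := by
    intro h
    rcases hint a₀ ha₀ ((L₂.mul_mem_cancel_right hb₀).mp h) with h | h
    · rw [h, mul_one] at ha₀2; exact hj1 ha₀2.symm
    · rw [h, hjj] at ha₀2; exact hj1 ha₀2.symm
  refine ⟨a₀ * b₀, Subgroup.mul_mem_sup ha₀ hb₀, orderOf_eq_prime (by
    rw [pow_two, hsq _ ha₀ _ hb₀, ha₀2, hb₀2, hjj]) (fun h => hnot (h ▸ L₂.one_mem)),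
    fun h => hnot (h ▸ hjm.2), fun y hy hy2 => ?_⟩
  obtain ⟨a, ha, b, hb, rfl⟩ := (H1.mem_sup_of_le_normalizer hN).mp hy
  have h1 : (a * a) * (b * b) = 1 := by rw [← hsq a ha b hb, ← pow_two, ← hy2, pow_orderOf_eq_one]
  have h2 : a * a ∈ L₂ := by
    rw [eq_inv_of_mul_eq_one_left h1]; exact L₂.inv_mem (L₂.mul_mem hb hb)
  rcases hint _ (L₁.mul_mem ha ha) h2 with h | h
  · left
    rw [h, one_mul] at h1
    have hy1 : a * b ≠ 1 := by intro h; simp [h] at hy2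
    rcases H87.sl2_sq_eq_one h21 e₁ hjm.1 hj ha h with rfl | rfl <;>
    rcases H87.sl2_sq_eq_one h22 e₂ hjm.2 hj hb h1 with rfl | rfl <;> simp_all
  · right
    have h3 : b * b = j := by
      rw [h] at h1
      exact mul_left_cancel (h1.trans hjj.symm)
    obtain ⟨g₁, hg₁, e1⟩ := H87.sl2_conj_of_sq hF₁ e₁ hjm.1 hj ha₀ ha ha₀2 h
    obtain ⟨g₂, hg₂, e2⟩ := H87.sl2_conj_of_sq hF₂ e₂ hjm.2 hj hb₀ hb hb₀2 h3
    refine ⟨g₁ * g₂, Subgroup.mul_mem_sup hg₁ hg₂, ?_⟩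
    calc g₁ * g₂ * (a₀ * b₀) * (g₁ * g₂)⁻¹ = g₁ * (g₂ * a₀) * b₀ * g₂⁻¹ * g₁⁻¹ := by group
      _ = g₁ * a₀ * ((g₂ * b₀ * g₂⁻¹) * g₁⁻¹) := by rw [← hc a₀ ha₀ g₂ hg₂]; group
      _ = a * b := by rw [e2, ← hc _ (L₁.inv_mem hg₁) b hb, ← e1]; group

end Cfsg.Agent.S3209
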