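import Cfsg.Statements.S3211
import Cfsg.Agent.H81.ZSup
import Cfsg.Agent.H81.SL2Four

set_option autoImplicit false
open Cfsg

namespace Cfsg.Agent.S3211

open Subgroup Cfsg.Agent.H81 Cfsg.Agent.H85

structure Hyp {G : Type*} [Group G] (L₁ L₂ : Subgroup G) (j n : G) : Prop where
  h1 : SL2Like L₁ j
  h2 : SL2Like L₂ j
  hc : ∀ x ∈ L₁, ∀ y ∈ L₂, x * y = y * x
  jj : j * j = 1
  j1 : j ≠ 1
  meet : ∀ x ∈ L₁, x ∈ L₂ → x = 1 ∨ x = j
  nn : n * n = j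
  s12 : ∀ x ∈ L₁, n * x * n⁻¹ ∈ L₂
  s21 : ∀ x ∈ L₂, n⁻¹ * x * n ∈ L₁
  cov : ∀ c, Commute j c → c ∈ L₁ ⊔ L₂ ∨ c * n⁻¹ ∈ L₁ ⊔ L₂

theorem mem_sup_iff {G : Type*} [Group G] {L₁ L₂ : Subgroup G}
    (hc : ∀ x ∈ L₁, ∀ y ∈ L₂, x * y = y * x) {x : G} :
    x ∈ L₁ ⊔ L₂ ↔ ∃ a ∈ L₁, ∃ b ∈ L₂, a * b = x := by
  refine mem_sup_of_le_normalizer (le_trans ?_ (centralizer_le_normalizer _))
  intro y hy x hx
  exact hc x hx y hy

namespace Hyp
variable {G : Type*} [Group G] {L₁ L₂ : Subgroup G} {j n : G}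

theorem c1 (h : Hyp L₁ L₂ j n) {x : G} (hx : x ∈ L₁) : Commute j x := (h.hc x hx j h.h2.mem).symm
theorem c2 (h : Hyp L₁ L₂ j n) {x : G} (hx : x ∈ L₂) : Commute j x := h.hc j h.h1.mem x hx

theorem cn (h : Hyp L₁ L₂ j n) : Commute j n := by
  rw [← h.nn]; exact (Commute.refl n).mul_left (Commute.refl n)

theorem s21' (h : Hyp L₁ L₂ j n) {x : G} (hx : x ∈ L₂) : n * x * n⁻¹ ∈ L₁ := by
  have h1 := h.s21 x hx
  have h2 : n * x * n⁻¹ = j * (n⁻¹ * x * n) * j⁻¹ := by rw [← h.nn]; group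
  rw [h2]
  exact L₁.mul_mem (L₁.mul_mem h.h1.mem h1) (L₁.inv_mem h.h1.mem)

theorem meet' (h : Hyp L₁ L₂ j n) {x y : G} (hx : x ∈ L₁) (hy : y ∈ L₂)
    (e : x * y = 1 ∨ x * y = j) : x = 1 ∨ x = j := by
  refine h.meet x hx ?_
  rcases e with e | e
  · rw [eq_inv_of_mul_eq_one_left e]; exact L₂.inv_mem hy
  · rw [eq_mul_inv_of_mul_eq e]; exact L₂.mul_mem h.h2.mem (L₂.inv_mem hy)

theorem inv_mem_L (h : Hyp L₁ L₂ j n) {x : G} (hx : Commute j x) (hxx : x * x = 1) :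
    x ∈ L₁ ⊔ L₂ := by
  rcases h.cov x hx with e | e
  · exact e
  exfalso
  obtain ⟨a, ha, b, hb, hab⟩ := (mem_sup_iff h.hc).1 e
  have hx' : x = a * b * n := by rw [hab]; group
  set m := n * b * n⁻¹ with hm
  have hm1 : m ∈ L₁ := h.s21' hb
  have ha2 : n * a * n⁻¹ ∈ L₂ := h.s12 a ha
  have hb' : b = n * m * n⁻¹ := by
    have := (h.c2 hb).eq
    rw [← h.nn] at this
    calc b = n * n * b * n⁻¹ * n⁻¹ := by rw [this]; group
      _ = n * m * n⁻¹ := by rw [hm]; group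
  have hba : b * (n * a * n⁻¹) = n * (m * a) * n⁻¹ := by
    conv_lhs => rw [hb']
    group
  have key : (a * m) * (n * (m * a) * n⁻¹) = j := by
    have e1 := h.hc m hm1 _ (L₂.mul_mem hb ha2)
    calc (a * m) * (n * (m * a) * n⁻¹) = a * (m * (b * (n * a * n⁻¹))) := by rw [hba]; group
      _ = a * (b * (n * a * n⁻¹) * m) := by rw [e1]
      _ = (a * b * n) * (a * b * n) * (n * n)⁻¹ := by rw [hm]; group
      _ = j := by rw [← hx', hxx, h.nn, one_mul, inv_eq_of_mul_eq_one_right h.jj]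
  have h3 := h.meet' (L₁.mul_mem ha hm1) (h.s12 _ (L₁.mul_mem hm1 ha)) (Or.inr key)
  have h4 : m * a = a * m := by
    rcases h3 with e1 | e1
    · rw [e1, mul_eq_one_comm.1 e1]
    · calc m * a = a⁻¹ * (a * m) * a := by group
        _ = a⁻¹ * (j * a) := by rw [e1]; group
        _ = j := by rw [(h.c1 ha).eq]; group
        _ = a * m := e1.symm
  rw [h4] at key
  rcases h3 with e1 | e1
  · rw [e1] at key; exact h.j1 (by rw [← key]; group)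
  · rw [e1, ← h.cn.eq, mul_inv_cancel_right, h.jj] at key
    exact h.j1 key.symm

theorem inv_form (h : Hyp L₁ L₂ j n) {x : G} (hx : Commute j x) (hxx : x * x = 1) (h1 : x ≠ 1)
    (hj : x ≠ j) : ∃ a ∈ L₁, ∃ b ∈ L₂, a * a = j ∧ b * b = j ∧ a * b = x := by
  obtain ⟨a, ha, b, hb, rfl⟩ := (mem_sup_iff h.hc).1 (h.inv_mem_L hx hxx)
  have e : (a * a) * (b * b) = 1 := by
    calc (a * a) * (b * b) = a * (a * b) * b := by group
      _ = a * (b * a) * b := by rw [h.hc a ha b hb]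
      _ = 1 := by rw [← hxx]; group
  rcases h.meet' (L₁.mul_mem ha ha) (L₂.mul_mem hb hb) (Or.inl e) with e1 | e1
  · exfalso
    rw [e1, one_mul] at e
    rcases h.h1.uniq a ha e1 with rfl | rfl <;> rcases h.h2.uniq b hb e with rfl | rfl
    · exact h1 (by simp)
    · exact hj (by simp)
    · exact hj (by simp)
    · exact h1 h.jj
  · refine ⟨a, ha, b, hb, e1, ?_, rfl⟩
    rw [e1] at e
    rw [eq_inv_of_mul_eq_one_right e, inv_eq_of_mul_eq_one_right h.jj]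

theorem inv_conj (h : Hyp L₁ L₂ j n) {x y : G} (hx : Commute j x) (hxx : x * x = 1) (h1 : x ≠ 1)
    (hj : x ≠ j) (hy : Commute j y) (hyy : y * y = 1) (h1' : y ≠ 1) (hj' : y ≠ j) :
    ∃ c, Commute j c ∧ c * x * c⁻¹ = y := by
  obtain ⟨a, ha, b, hb, e1, e2, rfl⟩ := h.inv_form hx hxx h1 hj
  obtain ⟨a', ha', b', hb', e1', e2', rfl⟩ := h.inv_form hy hyy h1' hj'
  obtain ⟨c, hc, rfl⟩ := h.h1.conj a ha a' ha' e1 e1'
  obtain ⟨d, hd, rfl⟩ := h.h2.conj b hb b' hb' e2 e2'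
  refine ⟨c * d, (h.c1 hc).mul_right (h.c2 hd), ?_⟩
  have f1 := h.hc a ha d hd
  have f2 := h.hc c⁻¹ (L₁.inv_mem hc) _ hb'
  calc c * d * (a * b) * (c * d)⁻¹ = c * (d * a) * b * d⁻¹ * c⁻¹ := by group
    _ = c * a * ((d * b * d⁻¹) * c⁻¹) := by rw [← f1]; group
    _ = c * a * c⁻¹ * (d * b * d⁻¹) := by rw [← f2]; group

theorem pow_mem (h : Hyp L₁ L₂ j n) {a b : G} (ha : a ∈ L₁) (hb : b ∈ L₂) (haa : a * a = j)
    (hbb : b * b = j) {k : ℕ} (H1 : ∀ t ∈ L₁, Commute a t → t ^ (4 * k) = 1)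
    (H2 : ∀ t ∈ L₂, Commute b t → t ^ (4 * k) = 1) {y : G} (hy : y ∈ L₁ ⊔ L₂)
    (hc : Commute (a * b) y) : y ^ (2 * k) = 1 ∨ y ^ (2 * k) = j := by
  obtain ⟨x₁, h₁, x₂, h₂, rfl⟩ := (mem_sup_iff h.hc).1 hy
  have c12 : Commute x₁ x₂ := h.hc _ h₁ _ h₂
  have hai : a⁻¹ = j * a := by
    rw [inv_eq_iff_mul_eq_one, ← mul_assoc, ← (h.c1 ha).eq, mul_assoc, haa, h.jj]
  have hbi : b⁻¹ = j * b := by
    rw [inv_eq_iff_mul_eq_one, ← mul_assoc, ← (h.c2 hb).eq, mul_assoc, hbb, h.jj]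
  have m1 : x₁ * a * x₁⁻¹ * a⁻¹ ∈ L₁ :=
    L₁.mul_mem (L₁.mul_mem (L₁.mul_mem h₁ ha) (L₁.inv_mem h₁)) (L₁.inv_mem ha)
  have m2 : x₂ * b * x₂⁻¹ * b⁻¹ ∈ L₂ :=
    L₂.mul_mem (L₂.mul_mem (L₂.mul_mem h₂ hb) (L₂.inv_mem h₂)) (L₂.inv_mem hb)
  have e : (x₁ * a * x₁⁻¹ * a⁻¹) * (x₂ * b * x₂⁻¹ * b⁻¹) = 1 := by
    have f1 := h.hc (x₁⁻¹ * a⁻¹) (L₁.mul_mem (L₁.inv_mem h₁) (L₁.inv_mem ha)) _ m2
    have f2 := h.hc a ha x₂ h₂
    have f3 := h.hc x₁⁻¹ (L₁.inv_mem h₁) b⁻¹ (L₂.inv_mem hb)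
    calc (x₁ * a * x₁⁻¹ * a⁻¹) * (x₂ * b * x₂⁻¹ * b⁻¹)
        = x₁ * a * ((x₁⁻¹ * a⁻¹) * (x₂ * b * x₂⁻¹ * b⁻¹)) := by group
      _ = x₁ * (a * x₂) * b * x₂⁻¹ * (b⁻¹ * x₁⁻¹) * a⁻¹ := by rw [f1]; group
      _ = (x₁ * x₂ * (a * b)) * (a * b * (x₁ * x₂))⁻¹ := by rw [f2, ← f3]; group
      _ = 1 := by rw [hc.eq]; group
  rcases h.meet' m1 m2 (Or.inl e) with e1 | e1
  · rw [e1, one_mul] at e
    have k1 : Commute a x₁ := by
      have : x₁ * a = a * x₁ := by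
        calc x₁ * a = (x₁ * a * x₁⁻¹ * a⁻¹) * (a * x₁) := by group
          _ = a * x₁ := by rw [e1, one_mul]
      exact this.symm
    have k2 : Commute b x₂ := by
      have : x₂ * b = b * x₂ := by
        calc x₂ * b = (x₂ * b * x₂⁻¹ * b⁻¹) * (b * x₂) := by group
          _ = b * x₂ := by rw [e, one_mul]
      exact this.symm
    have p1 := h.h1.uniq (x₁ ^ (2 * k)) (L₁.pow_mem h₁ _)
      (by rw [← pow_add, ← H1 x₁ h₁ k1]; congr 1; ring)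
    have p2 := h.h2.uniq (x₂ ^ (2 * k)) (L₂.pow_mem h₂ _)
      (by rw [← pow_add, ← H2 x₂ h₂ k2]; congr 1; ring)
    rw [c12.mul_pow]
    rcases p1 with p1 | p1 <;> rcases p2 with p2 | p2 <;> rw [p1, p2]
    · left; simp
    · right; simp
    · right; simp
    · left; exact h.jj
  · rw [e1] at e
    have e2 : x₂ * b * x₂⁻¹ * b⁻¹ = j := by
      rw [eq_inv_of_mul_eq_one_right e, inv_eq_of_mul_eq_one_right h.jj]
    have k1 := h.h1.anti x₁ h₁ a ha haa (by rw [hai, ← e1]; group)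
    have k2 := h.h2.anti x₂ h₂ b hb hbb (by rw [hbi, ← e2]; group)
    left
    rw [pow_mul, c12.mul_pow, pow_two, pow_two, k1, k2, h.jj, one_pow]

theorem isolated [Finite G] (h : Hyp L₁ L₂ j n) (g : G) (hc : Commute j (g * j * g⁻¹)) :
    g * j * g⁻¹ = j := by
  by_contra hne
  have conj_sq : ∀ k : G, k * j * k⁻¹ * (k * j * k⁻¹) = 1 := fun k => by
    calc k * j * k⁻¹ * (k * j * k⁻¹) = k * (j * j) * k⁻¹ := by group
      _ = 1 := by rw [h.jj]; group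
  have conj_ne : ∀ k : G, k * j * k⁻¹ ≠ 1 := fun k e => h.j1 (by
    calc j = k⁻¹ * (k * j * k⁻¹) * k := by group
      _ = 1 := by rw [e]; group)
  obtain ⟨c, hcj, hcu⟩ := h.inv_conj hc (conj_sq g) (conj_ne g) hne (y := g⁻¹ * j * g⁻¹⁻¹)
    (by
      have := comm_conj' g⁻¹ hc
      rw [show g⁻¹ * (g * j * g⁻¹) * g⁻¹⁻¹ = j by group] at this
      exact this.symm) (conj_sq _) (conj_ne _)
    (fun e => hne (by conv_lhs => rw [← e]
                      group))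
  set u := g * j * g⁻¹ with hu
  have q1 : g * c * j * (g * c)⁻¹ = u := by
    rw [hu, mul_assoc g c j, ← hcj.eq]; group
  have q2 : g * c * u * (g * c)⁻¹ = j := by
    calc g * c * u * (g * c)⁻¹ = g * (c * u * c⁻¹) * g⁻¹ := by group
      _ = j := by rw [hcu]; group
  generalize g * c = f at q1 q2
  obtain ⟨a, ha, b, hb, haa, hbb, hab⟩ := h.inv_form hc (conj_sq g) (conj_ne g) hne
  have huu : u * u = 1 := conj_sq g
  set T := L₁ ⊓ centralizer ({a} : Set G) with hT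
  have haT : a ∈ T := ⟨ha, mem_cent_iff_comm.2 (Commute.refl a)⟩
  have ha4 : orderOf a = 2 ^ (1 + 1) := by
    haveI : Fact (Nat.Prime 2) := ⟨Nat.prime_two⟩
    refine orderOf_eq_prime_pow (by rw [pow_one, pow_two, haa]; exact h.j1) ?_
    rw [show 2 ^ (1 + 1) = 2 * 2 by norm_num, pow_mul, pow_two a, haa, pow_two, h.jj]
  obtain ⟨k, hk⟩ : 4 ∣ Monoid.exponent T := by
    have := Monoid.order_dvd_exponent (⟨a, haT⟩ : T)
    rwa [← orderOf_coe, ha4] at this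
  have H1 : ∀ t ∈ L₁, Commute a t → t ^ (4 * k) = 1 := by
    intro t ht hc
    have := Monoid.pow_exponent_eq_one (⟨t, ht, mem_cent_iff_comm.2 hc⟩ : T)
    rw [hk] at this
    exact congrArg Subtype.val this
  have H2 : ∀ t ∈ L₂, Commute b t → t ^ (4 * k) = 1 := by
    intro t ht hc
    obtain ⟨d, hd, hdb⟩ := h.h2.conj _ (h.s12 a ha) b hb (by
      calc n * a * n⁻¹ * (n * a * n⁻¹) = n * (a * a) * n⁻¹ := by group
        _ = j := by rw [haa, ← h.cn.eq]; group) hbb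
    have h1 : n⁻¹ * (d⁻¹ * t * d) * n ∈ L₁ :=
      h.s21 _ (L₂.mul_mem (L₂.mul_mem (L₂.inv_mem hd) ht) hd)
    have h2 : Commute a (n⁻¹ * (d⁻¹ * t * d) * n) := by
      have := comm_conj' (d * n)⁻¹ hc
      rw [← hdb] at this
      convert this using 1 <;> group
    have h3 := H1 _ h1 h2
    rw [show n⁻¹ * (d⁻¹ * t * d) * n = (d * n)⁻¹ * t * (d * n)⁻¹⁻¹ by group, conj_pow] at h3
    calc t ^ (4 * k) = (d * n) * ((d * n)⁻¹ * t ^ (4 * k) * (d * n)⁻¹⁻¹) * (d * n)⁻¹ := by group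
      _ = 1 := by rw [h3]; group
  have hk0 : 0 < k := by
    have := Monoid.exponent_pos.2 (Monoid.ExponentExists.of_finite (G := T))
    omega
  obtain ⟨t, ht⟩ : ∃ t : T, t ^ (2 * k) ≠ 1 := by
    by_contra hcon
    push Not at hcon
    have := Monoid.exponent_min' (2 * k) (by omega) hcon
    omega
  have ht1 : (t : G) ∈ L₁ := t.2.1
  have hta : Commute a t := mem_cent_iff_comm.1 t.2.2
  have htj : (t : G) ^ (2 * k) = j := by
    rcases h.h1.uniq _ (L₁.pow_mem ht1 (2 * k))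
      (by rw [← pow_add, ← H1 t ht1 hta]; congr 1; ring) with e | e
    · exact absurd (Subtype.ext e) ht
    · exact e
  have inv_sq : ∀ x : G, x * x = j → x⁻¹ * x⁻¹ = j := fun x hx => by
    rw [← mul_inv_rev, hx, inv_eq_of_mul_eq_one_right h.jj]
  obtain ⟨w₁, hw₁, e₁⟩ := h.h1.conj a ha a⁻¹ (L₁.inv_mem ha) haa (inv_sq a haa)
  obtain ⟨w₂, hw₂, e₂⟩ := h.h2.conj b hb b⁻¹ (L₂.inv_mem hb) hbb (inv_sq b hbb)
  have outer : ∀ x ∈ L₁, x * a * x⁻¹ = a⁻¹ → f * (x * w₂) * f⁻¹ ∈ L₁ ⊔ L₂ := by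
    intro x hx e
    have k1 := h.h1.anti x hx a ha haa e
    have k2 := h.h2.anti w₂ hw₂ b hb hbb e₂
    have c0 : Commute x w₂ := h.hc _ hx _ hw₂
    refine h.inv_mem_L ?_ ?_
    · rw [← q2]
      refine comm_conj' f ?_
      have f1 := h.hc a ha w₂ hw₂
      have f2 := h.hc x⁻¹ (L₁.inv_mem hx) b⁻¹ (L₂.inv_mem hb)
      have f3 := h.hc a⁻¹ (L₁.inv_mem ha) b⁻¹ (L₂.inv_mem hb)
      have : x * w₂ * u * (x * w₂)⁻¹ = u := by
        calc x * w₂ * u * (x * w₂)⁻¹ = x * (w₂ * a) * b * w₂⁻¹ * x⁻¹ := by rw [← hab]; group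
          _ = x * a * ((w₂ * b * w₂⁻¹) * x⁻¹) := by rw [← f1]; group
          _ = (x * a * x⁻¹) * b⁻¹ := by rw [e₂, ← f2]; group
          _ = u⁻¹ := by rw [e, f3, ← hab]; group
          _ = u := inv_eq_of_mul_eq_one_right huu
      exact mem_cent_iff_comm.1 (conj_eq_iff_mem_cent.1 this)
    · calc f * (x * w₂) * f⁻¹ * (f * (x * w₂) * f⁻¹) = f * (x * w₂) ^ 2 * f⁻¹ := by
            rw [pow_two]; group
        _ = 1 := by rw [c0.mul_pow, pow_two, pow_two, k1, k2, h.jj]; group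
  have y1 := outer (t * w₁) (L₁.mul_mem ht1 hw₁) (by
    calc t * w₁ * a * (t * w₁)⁻¹ = t * (w₁ * a * w₁⁻¹) * (t : G)⁻¹ := by group
      _ = a⁻¹ := by rw [e₁, ← hta.inv_left.eq]; group)
  have y2 := outer w₁ hw₁ e₁
  have y3 : f * t * f⁻¹ ∈ L₁ ⊔ L₂ := by
    have := (L₁ ⊔ L₂).mul_mem y1 ((L₁ ⊔ L₂).inv_mem y2)
    convert this using 1; group
  have y4 := h.pow_mem ha hb haa hbb H1 H2 y3 (by
    rw [hab, ← q1]; exact comm_conj' f (h.c1 ht1))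
  rw [conj_pow, htj, q1] at y4
  rcases y4 with e | e
  · exact conj_ne g e
  · exact hne e

end Hyp


/-- Let G be a finite group with subgroups L₁ ≅ SL₂(q₁) and L₂ ≅ SL₂(q₂), q₁ and q₂ odd prime powers, which commute elementwise and meet in ⟨j⟩ for an involution j, and suppose L₁L₂ has index 2 in C_G(j). If some n ∈ C_G(j) with n² = j interchanges L₁ and L₂ under conjugation (so that C_G(j) = L₁L₂⟨n⟩), then G = C_G(j)O(G). -/
theorem result {G : Type*} [Group G] [Finite G]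
    {F₁ : Type*} [Field F₁] [Fintype F₁] {F₂ : Type*} [Field F₂] [Fintype F₂]
    (hF₁ : Odd (Fintype.card F₁)) (hF₂ : Odd (Fintype.card F₂)) (L₁ L₂ : Subgroup G)
    (e₁ : ↥L₁ ≃* Matrix.SpecialLinearGroup (Fin 2) F₁) (e₂ : ↥L₂ ≃* Matrix.SpecialLinearGroup (Fin 2) F₂)
    (hc : ∀ x ∈ L₁, ∀ y ∈ L₂, x * y = y * x) (j : G) (hj : orderOf j = 2) (hm : L₁ ⊓ L₂ = Subgroup.zpowers j)
    (hle : L₁ ⊔ L₂ ≤ Subgroup.centralizer ({j} : Set G)) (hi : (L₁ ⊔ L₂).relIndex (Subgroup.centralizer ({j} : Set G)) = 2) (n : G) (hn : n ∈ Subgroup.centralizer ({j} : Set G))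
    (hn2 : n ^ 2 = j) (hswap : L₁.map (MulAut.conj n).toMonoidHom = L₂) :
    Subgroup.centralizer ({j} : Set G) ⊔ Cfsg.oddCore G = ⊤ := by
  have hj1 : j ∈ L₁ ⊓ L₂ := hm ▸ mem_zpowers j
  have h1 := sl2Like_of_equiv hF₁ e₁ hj hj1.1
  have h2 := sl2Like_of_equiv hF₂ e₂ hj hj1.2
  have jj : j * j = 1 := H9.mul_self_of_orderOf_two hj
  have j1 : j ≠ 1 := H9.ne_one_of_orderOf_two hj
  have meet : ∀ x ∈ L₁, x ∈ L₂ → x = 1 ∨ x = j := by
    intro x hx hx'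
    have : x ∈ zpowers j := hm ▸ (⟨hx, hx'⟩ : x ∈ L₁ ⊓ L₂)
    obtain ⟨i, rfl⟩ := this
    refine h1.uniq _ hx ?_
    rw [← (Commute.refl j).mul_zpow, jj, one_zpow]
  have s12 : ∀ x ∈ L₁, n * x * n⁻¹ ∈ L₂ := fun x hx => hswap ▸ ⟨x, hx, rfl⟩
  have hnL : n ∉ L₁ ⊔ L₂ := by
    intro hnL
    obtain ⟨a, ha, b, hb, hab⟩ := (mem_sup_iff hc).1 hnL
    obtain ⟨l, hl, hll⟩ := h1.ex
    have h3 : n * l * n⁻¹ ∈ L₁ := by
      have : n * l * n⁻¹ = a * l * a⁻¹ := by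
        calc n * l * n⁻¹ = a * (b * l) * b⁻¹ * a⁻¹ := by rw [← hab]; group
          _ = a * l * a⁻¹ := by rw [← hc l hl b hb]; group
      rw [this]
      exact L₁.mul_mem (L₁.mul_mem ha hl) (L₁.inv_mem ha)
    have h4 : n * l * n⁻¹ * (n * l * n⁻¹) = j := by
      calc n * l * n⁻¹ * (n * l * n⁻¹) = n * (l * l) * n⁻¹ := by group
        _ = j := by rw [hll, mem_cent_singleton.1 hn]; group
    rcases meet _ h3 (s12 l hl) with e | e
    · rw [e] at h4; exact j1 (by rw [← h4, one_mul])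
    · rw [e, jj] at h4; exact j1 h4.symm
  have H : Hyp L₁ L₂ j n := by
    refine ⟨h1, h2, hc, jj, j1, meet, by rw [← pow_two, hn2], s12, ?_, ?_⟩
    · intro x hx
      rw [← hswap] at hx
      obtain ⟨y, hy, rfl⟩ := hx
      change n⁻¹ * (n * y * n⁻¹) * n ∈ L₁
      rwa [show n⁻¹ * (n * y * n⁻¹) * n = y by group]
    · intro c hc
      by_cases e : c ∈ L₁ ⊔ L₂
      · exact Or.inl e
      · right
        have := (mul_mem_iff_of_index_two (H := (L₁ ⊔ L₂).subgroupOf (centralizer ({j} : Set G))) hi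
          (a := ⟨c, mem_cent_iff_comm.2 hc⟩) (b := ⟨n⁻¹, inv_mem hn⟩)).2 (by
            simp only [mem_subgroupOf, inv_mem_iff]
            exact ⟨fun h => absurd h e, fun h => absurd h hnL⟩)
        exact this
  exact cent_sup_core_of_isolated ⟨hj, H.isolated⟩

end Cfsg.Agent.S3211
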