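import Cfsg.Statements.S3213
import Cfsg.Agent.H28.Act
import Cfsg.Agent.H28.Transport

set_option autoImplicit false
open Cfsg

namespace Cfsg.Agent.S3213
open Matrix Module

/-- Two by two matrices as quadruples. -/
abbrev T := ZMod 5 × ZMod 5 × ZMod 5 × ZMod 5

/-- The product of matrices. -/
def mu (p q : T) : T := (p.1 * q.1 + p.2.1 * q.2.2.1, p.1 * q.2.1 + p.2.1 * q.2.2.2,
  p.2.2.1 * q.1 + p.2.2.2 * q.2.2.1, p.2.2.1 * q.2.1 + p.2.2.2 * q.2.2.2)

/-- The entries. -/
def toT (x : SpecialLinearGroup (Fin 2) (ZMod 5)) : T := (x 0 0, x 0 1, x 1 0, x 1 1)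

theorem toT_mul (x y : SpecialLinearGroup (Fin 2) (ZMod 5)) : toT (x * y) = mu (toT x) (toT y) := by
  simp [toT, mu, Matrix.mul_apply, Fin.sum_univ_two]

theorem toT_one {x : SpecialLinearGroup (Fin 2) (ZMod 5)} : toT x = (1, 0, 0, 1) ↔ x = 1 := by
  refine ⟨fun h => ?_, fun h => by simp [h, toT]⟩
  simp only [toT, Prod.mk.injEq] at h
  ext i j
  fin_cases i <;> fin_cases j <;> simp [h]

/-- The square. -/
def sq (p : T) : T := mu p p

theorem key : ∀ a b c d : ZMod 5, a * d - b * c = 1 →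
    mu (sq (a, b, c, d)) (a, b, c, d) = (1, 0, 0, 1) → (a, b, c, d) ≠ ((1, 0, 0, 1) : T) →
    ∃ s t : ZMod 5, ∀ u, u = sq (mu (a, b, c, d) (mu (mu (1 + s * t, s, t, 1) (a, b, c, d))
      (1, -s, -t, 1 + s * t))) → u ≠ (1, 0, 0, 1) ∧ mu (sq (sq u)) u = (1, 0, 0, 1) := by
  simp only [forall_eq]
  decide +kernel

theorem five0 (x : SpecialLinearGroup (Fin 2) (ZMod 5)) (h : x ^ 3 = 1) (h1 : x ≠ 1) :
    ∃ g, (x * (g * x * g⁻¹)) ^ 2 ≠ 1 ∧ ((x * (g * x * g⁻¹)) ^ 2) ^ 5 = 1 := by
  obtain ⟨s, t, h2⟩ := key (x 0 0) (x 0 1) (x 1 0) (x 1 1) ((det_fin_two _).symm.trans x.det_coe)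
    (by rw [pow_three', ← toT_one, toT_mul, toT_mul] at h; exact h) (mt toT_one.1 h1)
  let g : SpecialLinearGroup (Fin 2) (ZMod 5) := ⟨!![1 + s * t, s; t, 1], by simp [det_fin_two]⟩
  have e1 : toT g = (1 + s * t, s, t, 1) := rfl
  have e2 : toT g⁻¹ = (1, -s, -t, 1 + s * t) := by
    have : (g⁻¹).1 = !![1, -s; -t, 1 + s * t] := adjugate_fin_two_of _ _ _ _
    unfold toT
    rw [this]
    rfl
  obtain ⟨h3, h4⟩ := h2 (toT ((x * (g * x * g⁻¹)) ^ 2)) (by
    rw [pow_two, toT_mul, toT_mul, toT_mul, toT_mul, e1, e2]; rfl)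
  refine ⟨g, mt toT_one.2 h3, ?_⟩
  generalize (x * (g * x * g⁻¹)) ^ 2 = u at *
  rw [← toT_one, show u ^ 5 = u * u * (u * u) * u by simp only [pow_succ, pow_zero, one_mul, mul_assoc], toT_mul, toT_mul, toT_mul]
  exact h4

theorem five {K : Type*} [Field K] [Fintype K] (hK : Fintype.card K = 5)
    (x : SpecialLinearGroup (Fin 2) K) (h : orderOf x = 3) :
    ∃ g, (x * (g * x * g⁻¹)) ^ 2 ≠ 1 ∧ ((x * (g * x * g⁻¹)) ^ 2) ^ 5 = 1 := by
  have := Fact.mk Nat.prime_five
  let e := H28.slEquiv (H28.equivZMod 5 hK) (Fin 2)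
  obtain ⟨g, h1, h2⟩ := five0 (e x) (by rw [← map_pow, ← h, pow_orderOf_eq_one, map_one])
    (fun h1 => by rw [e.map_eq_one_iff.1 h1, orderOf_one] at h; omega)
  obtain ⟨g, rfl⟩ := e.surjective g
  refine ⟨g, fun h3 => h1 ?_, e.map_eq_one_iff.1 ?_⟩
  · have := congrArg e h3
    simpa using this
  · simpa using h2

section
variable {F V : Type*} [Field F] [AddCommGroup V] [Module F V] [FiniteDimensional F V]

theorem ker_mul (f g : V →ₗ[F] V) :
    finrank F (LinearMap.ker (f * g)) ≤ finrank F (LinearMap.ker f) + finrank F (LinearMap.ker g) := by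
  have h1 := LinearMap.finrank_range_add_finrank_ker (g.domRestrict (LinearMap.ker (f * g)))
  have h2 : LinearMap.range (g.domRestrict (LinearMap.ker (f * g))) ≤ LinearMap.ker f := by
    rintro _ ⟨v, rfl⟩
    exact v.2
  have h3 := Submodule.finrank_mono h2
  have h4 : (LinearMap.ker (g.domRestrict (LinearMap.ker (f * g)))).map
      (LinearMap.ker (f * g)).subtype ≤ LinearMap.ker g := by
    rintro _ ⟨v, hv, rfl⟩
    exact hv
  have h5 := Submodule.finrank_mono h4
  rw [Submodule.finrank_map_subtype_eq] at h5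
  omega

theorem iso (B : V →ₗ[F] V →ₗ[F] F) (hB : ∀ v, B v v = 0) {W : Submodule F V} (hW : finrank F W = 2)
    {e : V} (he : e ∈ W) (h0 : e ≠ 0) (h1 : ∀ w ∈ W, B e w = 0) (h2 : ∀ w ∈ W, B w e = 0)
    {v w : V} (hv : v ∈ W) (hw : w ∈ W) : B v w = 0 := by
  by_cases h : LinearIndependent F ![e, v]
  · have h3 : Submodule.span F (Set.range ![e, v]) = W := by
      refine Submodule.eq_of_le_of_finrank_eq (Submodule.span_le.2 ?_)
        (by rw [finrank_span_eq_card h, hW]; rfl)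
      rintro _ ⟨i, rfl⟩
      fin_cases i
      exacts [he, hv]
    rw [← h3, Matrix.range_cons_cons_empty, Submodule.mem_span_pair] at hw
    obtain ⟨a, b, rfl⟩ := hw
    simp [hB, h2 v hv]
  · rw [LinearIndependent.pair_iff' h0] at h
    push Not at h
    obtain ⟨a, rfl⟩ := h
    simp [h1 w hw]

end

theorem fix5 {F ι : Type*} [Field F] [Fintype F] (hF : Fintype.card F = 3) [Fintype ι] [DecidableEq ι]
    (hι : Fintype.card ι = 4) {A : Matrix ι ι F} (h5 : A ^ 5 = 1) (h1 : A ≠ 1) :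
    LinearMap.ker (toLin' A - LinearMap.id) = ⊥ := by
  classical
  have := Fact.mk Nat.prime_five
  have h2 := Equiv.Perm.card_fixedPoints_modEq (f := (A.mulVec : Function.End (ι → F))) (p := 5) (n := 1)
    (by
      funext v
      show A.mulVec (A.mulVec (A.mulVec (A.mulVec (A.mulVec v)))) = v
      simp only [mulVec_mulVec]
      rw [show A * (A * (A * (A * A))) = A ^ 5 by noncomm_ring, h5, one_mulVec])
  have h3 : Fintype.card (Function.fixedPoints (A.mulVec : Function.End (ι → F))) =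
      3 ^ finrank F (LinearMap.ker (toLin' A - LinearMap.id)) := by
    rw [← hF, ← Module.card_eq_pow_finrank]
    exact Fintype.card_congr (Equiv.subtypeEquivRight fun v => by
      simp [Function.IsFixedPt, sub_eq_zero])
  have h4 : finrank F (ι → F) = 4 := by simp [hι]
  have h6 := Submodule.finrank_le (LinearMap.ker (toLin' A - LinearMap.id))
  rw [h3, Fintype.card_fun, hF, hι] at h2
  have h7 : finrank F (LinearMap.ker (toLin' A - LinearMap.id)) ≠ 4 := fun h => h1 (by
    have := LinearMap.ker_eq_top.1 (Submodule.eq_top_of_finrank_eq (h.trans h4.symm))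
    exact toLin'.injective (by rw [sub_eq_zero.1 this, toLin'_one]))
  rw [← Submodule.finrank_eq_zero]
  generalize finrank F (LinearMap.ker (toLin' A - LinearMap.id)) = k at *
  rw [h4] at h6
  interval_cases k <;> first | rfl | exact absurd h2 (by decide) | exact absurd rfl h7


/-- Let F be the field with 3 elements and K the field with 5 elements. For every injective homomorphism φ from SL₂(K) into the symplectic group Sp₄(F) (4 × 4 matrices g with g J gᵀ = J for the standard alternating matrix J) and every element x of order 3 of SL₂(K), the vectors of F⁴ fixed by φ(x) form a 2-dimensional subspace that is totally isotropic for the alternating form defined by J. -/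
theorem result {F : Type*} [Field F] [Fintype F] (hF : Fintype.card F = 3)
    {K : Type*} [Field K] [Fintype K] (hK : Fintype.card K = 5)
    (φ : Matrix.SpecialLinearGroup (Fin 2) K →* ↥(Matrix.symplecticGroup (Fin 2) F)) (hφ : Function.Injective φ)
    (x : Matrix.SpecialLinearGroup (Fin 2) K) (hx : orderOf x = 3) :
    Module.finrank F ↥(LinearMap.ker (Matrix.toLin' ((φ x : Matrix (Fin 2 ⊕ Fin 2) (Fin 2 ⊕ Fin 2) F)) - LinearMap.id)) = 2 ∧
      ∀ v w : Fin 2 ⊕ Fin 2 → F, (φ x : Matrix (Fin 2 ⊕ Fin 2) (Fin 2 ⊕ Fin 2) F).mulVec v = v →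
        (φ x : Matrix (Fin 2 ⊕ Fin 2) (Fin 2 ⊕ Fin 2) F).mulVec w = w →
          dotProduct v ((Matrix.J (Fin 2) F).mulVec w) = 0 := by
  have c3 : CharP F 3 := charP_of_card_eq_prime (p := 3) (hp := ⟨Nat.prime_three⟩) hF
  have := Fact.mk Nat.prime_three
  obtain ⟨g, g1, g2⟩ := five hK x hx
  let A : SpecialLinearGroup (Fin 2) K →* Matrix (Fin 2 ⊕ Fin 2) (Fin 2 ⊕ Fin 2) F :=
    (Matrix.symplecticGroup (Fin 2) F).subtype.comp φ
  have hA : Function.Injective A := Subtype.val_injective.comp hφ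
  have m : ∀ (y) (v : Fin 2 ⊕ Fin 2 → F),
      v ∈ LinearMap.ker (toLin' (A y) - LinearMap.id) ↔ (A y).mulVec v = v := fun y v => by
    simp [sub_eq_zero]
  have h1 := fix5 hF (by simp) (A := A ((x * (g * x * g⁻¹)) ^ 2)) (by rw [← map_pow, g2, map_one])
    fun h => g1 (hA (h.trans (map_one A).symm))
  have h4 : finrank F (Fin 2 ⊕ Fin 2 → F) = 4 := by simp
  show finrank F (LinearMap.ker (toLin' (A x) - LinearMap.id)) = 2 ∧ ∀ v w, (A x).mulVec v = v →
    (A x).mulVec w = w → _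
  set W := LinearMap.ker (toLin' (A x) - LinearMap.id) with hW
  have h2 : W ⊓ W.map (toLin' (A g)) = ⊥ := by
    rw [eq_bot_iff, ← h1]
    rintro _ ⟨k1, v, k2, rfl⟩
    have k3 := (m _ _).1 k1
    have k4 := (m _ _).1 k2
    rw [toLin'_apply] at k3
    have k5 : (A (x * (g * x * g⁻¹))).mulVec ((A g).mulVec v) = (A g).mulVec v := by
      rw [mulVec_mulVec, ← map_mul, mul_assoc, inv_mul_cancel_right, map_mul, map_mul, ← mulVec_mulVec,
        ← mulVec_mulVec, k4, k3]
    rw [m, toLin'_apply, pow_two, map_mul, ← mulVec_mulVec, k5, k5]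
  have h3 : finrank F (W.map (toLin' (A g))) = finrank F W :=
    (Submodule.equivMapOfInjective _ (fun a b h => by
      have := congrArg (A g⁻¹).mulVec h
      rwa [toLin'_apply, toLin'_apply, mulVec_mulVec, mulVec_mulVec, ← map_mul, inv_mul_cancel, map_one,
        one_mulVec, one_mulVec] at this) W).finrank_eq.symm
  have h5 := Submodule.finrank_sup_add_finrank_inf_eq W (W.map (toLin' (A g)))
  have h6 := Submodule.finrank_le (W ⊔ W.map (toLin' (A g)))
  rw [h2, finrank_bot, h3] at h5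
  set N : (Fin 2 ⊕ Fin 2 → F) →ₗ[F] (Fin 2 ⊕ Fin 2 → F) := toLin' (A x) - LinearMap.id with hN
  have h7 : N * (N * N) = 0 := by
    have k1 : (A x - 1) ^ 3 = 0 := by
      rw [sub_pow_char_of_commute 3 (Commute.one_right _), ← map_pow, ← hx, pow_orderOf_eq_one, map_one,
        one_pow, sub_self]
    have k2 : N = toLin' (A x - 1) := by rw [map_sub, toLin'_one]
    rw [k2, Module.End.mul_eq_comp, Module.End.mul_eq_comp, ← toLin'_mul, ← toLin'_mul, ← pow_three, k1,
      map_zero]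
  have h8 := ker_mul N (N * N)
  have h9 := ker_mul N N
  rw [h7, LinearMap.ker_zero, finrank_top, ← hW] at h8
  rw [← hW] at h9
  have h10 : finrank F W = 2 := by omega
  refine ⟨h10, fun v w hv hw => ?_⟩
  obtain ⟨u, u1, u2⟩ : ∃ u, N u ≠ 0 ∧ N u ∈ W := by
    obtain ⟨a, ha⟩ : ∃ a, N a ≠ 0 := by
      by_contra k
      push Not at k
      have : W = ⊤ := eq_top_iff.2 fun a _ => k a
      rw [this, finrank_top] at h10
      omega
    by_cases k : N (N a) = 0
    · exact ⟨a, ha, k⟩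
    · exact ⟨N a, k, LinearMap.congr_fun h7 a⟩
  let B : (Fin 2 ⊕ Fin 2 → F) →ₗ[F] (Fin 2 ⊕ Fin 2 → F) →ₗ[F] F := Matrix.toLinearMap₂' F (J (Fin 2) F)
  have hB : ∀ a b, B a b = a ⬝ᵥ (J (Fin 2) F).mulVec b := fun a b => toLinearMap₂'_apply' _ _ _
  have hI : ∀ a b, B ((A x).mulVec a) ((A x).mulVec b) = B a b := fun a b => by
    have k : (A x)ᵀ * J (Fin 2) F * A x = J (Fin 2) F := SymplecticGroup.mem_iff'.1 (φ x).2
    rw [hB, hB, ← vecMul_transpose, ← dotProduct_mulVec, mulVec_mulVec, mulVec_mulVec, k]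
  have hu : N u = (A x).mulVec u - u := rfl
  rw [← hB]
  refine iso B (fun a => ?_) h10 u2 u1 (fun a ha => ?_) (fun a ha => ?_) ((m _ _).2 hv) ((m _ _).2 hw)
  · rw [hB]
    simp [J, dotProduct, mulVec, Fintype.sum_sum_type, one_apply]
    ring
  · rw [hu, map_sub, LinearMap.sub_apply, ← hI u a, (m _ _).1 ha, sub_self]
  · rw [hu, map_sub, ← hI a u, (m _ _).1 ha, sub_self]

end Cfsg.Agent.S3213
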