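import Cfsg.Statements.S3215
import Cfsg.Agent.H3.Fitting
import Cfsg.Agent.H8.Residual
import Cfsg.Agent.H4.CoprimeAction
import Cfsg.Agent.H5.Semiregular
import Cfsg.Agent.H5.UniqueP
import Cfsg.Agent.H2.Hall

set_option autoImplicit false
open Cfsg

namespace Cfsg.Agent.S3215

open Subgroup
open scoped commutatorElement

theorem exists_inv {G : Type*} [Group G] [Finite G] {y : G} (hy : y ≠ 1) {k : ℕ}
    (hk : y ^ 2 ^ k = 1) : ∃ t ∈ zpowers y, orderOf t = 2 := by
  have h2 : 2 ∣ Nat.card (zpowers y) := by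
    rw [Nat.card_zpowers]
    have := orderOf_dvd_of_pow_eq_one hk
    obtain ⟨j, -, hj⟩ := (Nat.dvd_prime_pow Nat.prime_two).mp this
    rcases j with _ | j
    · exact absurd (orderOf_eq_one_iff.mp (by simpa using hj)) hy
    · rw [hj]; exact dvd_pow_self 2 (by omega)
  exact H3.exists_mem_orderOf_eq_prime Nat.prime_two h2

theorem K1 {H : Type*} [Group H] [Finite H] (hsol : Group.IsSolvable H)
    (hO : Cfsg.oddCore H = ⊥)
    (hI : ∀ t : H, orderOf t = 2 → Cfsg.HasNormalPComplement 2 ↥(Subgroup.centralizer ({t} : Set H)))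
    {x t : H} (hx : (orderOf x).Coprime 2) (ht : orderOf t = 2) (hc : x * t = t * x) : x = 1 := by
  have : Fact (Nat.Prime 2) := ⟨Nat.prime_two⟩
  set Y := Cfsg.pCore 2 H with hY
  have hYp : IsPGroup 2 Y := H3.pCore_isPGroup 2 H
  have hYn : Y.Normal := inferInstance
  set C := Subgroup.centralizer ({t} : Set H) with hC
  have hxC : x ∈ C := by
    rw [hC, mem_centralizer_singleton_iff]; exact hc
  have h1 : (⟨x, hxC⟩ : C) ∈ centralizer ((Y.subgroupOf C : Subgroup C) : Set C) := by
    apply H8.HasNormalPComplement.mem_centralizer (hI t ht) (hYp.comap_subtype)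
    · rw [normalizer_eq_top]; trivial
    · rw [← orderOf_injective C.subtype C.subtype_injective]; exact hx
  have h2 : Y ≤ centralizer ((zpowers x : Subgroup H) : Set H) := by
    apply H4.thompson_p_times_q (p := 2) (P := zpowers t) (Q := zpowers x) (U := Y)
    · exact IsPGroup.of_card (n := 1) (by rw [Nat.card_zpowers, ht]; rfl)
    · rw [Nat.card_zpowers]; exact hx
    · exact hYp
    · rw [zpowers_le, mem_centralizer_iff]
      rintro _ ⟨n, rfl⟩
      exact (Commute.zpow_left (show Commute x t from hc) n)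
    · rw [normalizer_eq_top]; exact le_top
    · rw [normalizer_eq_top]; exact le_top
    · rintro y ⟨hy, hyt⟩
      have hyC : y ∈ C := by
        rw [hC, mem_centralizer_singleton_iff]
        exact (hyt t (mem_zpowers t)).symm
      have := h1 ⟨y, hyC⟩ hy
      have h3 : y * x = x * y := congrArg Subtype.val this
      rintro _ ⟨n, rfl⟩
      exact (Commute.zpow_left (show Commute x y from h3.symm) n)
  have h3 : x ∈ Y := by
    apply H3.centralizer_pCore_le hO
    intro y hy
    exact (h2 hy x (mem_zpowers x)).symm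
  obtain ⟨k, hk⟩ := hYp ⟨x, h3⟩
  have hk' : x ^ 2 ^ k = 1 := congrArg Subtype.val hk
  have := orderOf_dvd_of_pow_eq_one hk'
  exact orderOf_eq_one_iff.mp (Nat.Coprime.eq_one_of_dvd (hx.pow_right k) this)

/-- Let H be a finite solvable group with no nontrivial normal subgroup of odd order in which the centralizer of every involution has a normal 2-complement. Let X be a Hall 2'-subgroup of H (odd order, index a power of 2) and Y = O₂(H). Then no non-identity element of X commutes with a non-identity element of Y (so for X ≠ 1 the group XY is a Frobenius group with kernel Y), every Sylow subgroup of X is cyclic, XY is normal in H, and H/XY is a cyclic 2-group. -/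
theorem result {H : Type*} [Group H] [Finite H] (hsol : Group.IsSolvable H)
    (hO : Cfsg.oddCore H = ⊥)
    (hI : ∀ t : H, orderOf t = 2 → Cfsg.HasNormalPComplement 2 ↥(Subgroup.centralizer ({t} : Set H)))
    (X : Subgroup H) (hXodd : Odd (Nat.card X)) (hXidx : ∃ k : ℕ, X.index = 2 ^ k) :
    (∀ x ∈ X, x ≠ 1 → ∀ y ∈ Cfsg.pCore 2 H, y ≠ 1 → x * y ≠ y * x) ∧
      (∀ (p : ℕ) [Fact p.Prime] (P : Sylow p ↥X), IsCyclic ↥(P : Subgroup ↥X)) ∧
      (X ⊔ Cfsg.pCore 2 H).Normal ∧
      ∀ hN : (X ⊔ Cfsg.pCore 2 H).Normal, IsCyclic (H ⧸ (X ⊔ Cfsg.pCore 2 H)) ∧ IsPGroup 2 (H ⧸ (X ⊔ Cfsg.pCore 2 H)) := by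
  have : Fact (Nat.Prime 2) := ⟨Nat.prime_two⟩
  set Y := Cfsg.pCore 2 H with hY
  have hYp : IsPGroup 2 Y := H3.pCore_isPGroup 2 H
  have hYn : Y.Normal := inferInstance
  have hXc : (Nat.card X).Coprime 2 := (Nat.coprime_two_right.mpr hXodd)
  have hxo : ∀ x ∈ X, (orderOf x).Coprime 2 := fun x hx =>
    Nat.Coprime.coprime_dvd_left (Subgroup.orderOf_dvd_natCard X hx) hXc
  have K2 : ∀ x : H, (orderOf x).Coprime 2 → ∀ y : H, y ≠ 1 → (∃ k, y ^ 2 ^ k = 1) →
      x * y = y * x → x = 1 := by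
    rintro x hx y hy ⟨k, hk⟩ hc
    obtain ⟨t, ⟨n, rfl⟩, ht⟩ := exists_inv hy hk
    exact K1 hsol hO hI hx ht (Commute.zpow_right (show Commute x y from hc) n)
  have P1 : ∀ x ∈ X, x ≠ 1 → ∀ y ∈ Y, y ≠ 1 → x * y ≠ y * x := by
    intro x hx hx1 y hy hy1 hc
    obtain ⟨k, hk⟩ := hYp ⟨y, hy⟩
    exact hx1 (K2 x (hxo x hx) y hy1 ⟨k, congrArg Subtype.val hk⟩ hc)
  have hZ : IsZGroup X := by
    by_cases hY1 : Y = ⊥
    · have hC := H3.centralizer_pCore_le (p := 2) hO
      rw [← hY, hY1] at hC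
      have : X = ⊥ := by
        rw [eq_bot_iff]
        intro x _
        apply hC
        intro y hy
        rw [SetLike.mem_coe, Subgroup.mem_bot] at hy
        simp [hy]
      have : Subsingleton X := by rw [this]; infer_instance
      infer_instance
    · have : Nontrivial Y := (Subgroup.nontrivial_iff_ne_bot Y).mpr hY1
      have hN : X ≤ Subgroup.normalizer (Y : Set H) := by rw [normalizer_eq_top]; exact le_top
      letI := H5.conjAction X Y hN
      refine H5.Semireg.isZGroup_of_odd (K := Y) (H5.semireg_conjAction hN ?_) ?_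
      · intro a ha ha1
        rw [eq_bot_iff]
        rintro y ⟨hy, hyc⟩
        by_contra hy1
        exact P1 a ha ha1 y hy hy1 (hyc a rfl)
      · exact (Nat.Prime.coprime_iff_not_dvd Nat.prime_two).mp hXc.symm
  -- the quotient
  set π := QuotientGroup.mk' Y with hπ
  have hπs : Function.Surjective π := QuotientGroup.mk'_surjective Y
  set F := Cfsg.fittingSubgroup (H ⧸ Y) with hF
  have hFn : F.Normal := H3.fitting_normal _
  have hFodd : (Nat.card F).Coprime 2 := by
    have h1 := H3.fitting_le_pCore_sup_pPrimeCore (G := H ⧸ Y) (p := 2)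
    rw [H3.pCore_quotient_pCore, bot_sup_eq] at h1
    exact H3.coprime_card_of_le h1 (H3.pPrimeCore_coprime 2 _)
  have hXH : Cfsg.IsPiHall {p | p ≠ 2} X := by
    refine ⟨fun p hp hd h2 => ?_, fun p hp h2 hd => ?_⟩
    · subst h2
      exact (Nat.Prime.coprime_iff_not_dvd Nat.prime_two).mp hXc.symm hd
    · obtain ⟨k, hk⟩ := hXidx
      rw [hk] at hd
      exact h2 ((Nat.prime_dvd_prime_iff_eq hp Nat.prime_two).mp (hp.dvd_of_dvd_pow hd))
  have hFX : F ≤ X.map π := by
    apply H2.normal_le_of_isPiHall (H2.isPiHall_map hπs hXH)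
    intro p hp hd h2
    subst h2
    exact (Nat.Prime.coprime_iff_not_dvd Nat.prime_two).mp hFodd.symm hd
  have hFc : IsCyclic F := by
    have h1 : IsZGroup (X.map π) := IsZGroup.of_surjective (f := π.subgroupMap X)
      (π.subgroupMap_surjective X)
    have h2 : IsZGroup F := IsZGroup.of_injective (f := Subgroup.inclusion hFX)
      (Subgroup.inclusion_injective hFX)
    have h3 : Group.IsNilpotent F := H3.fitting_isNilpotent _
    infer_instance
  have hCF : centralizer (F : Set (H ⧸ Y)) ≤ F := H3.centralizer_fitting_le _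
  have hcomm : ∀ a b : H ⧸ Y, ⁅a, b⁆ ∈ F := by
    intro a b
    apply hCF
    let _ := (hFc.mulAutMulEquiv _).toMonoidHom.commGroupOfInjective (hFc.mulAutMulEquiv _).injective
    have h1 : MulAut.conjNormal (H := F) ⁅a, b⁆ = 1 := by
      rw [map_commutatorElement, commutatorElement_eq_one_iff_mul_comm, mul_comm]
    intro f hf
    have h2 := congrArg (fun φ : MulAut F => ((φ ⟨f, hf⟩ : F) : H ⧸ Y)) h1
    simp only [MulAut.conjNormal_apply, MulAut.one_apply] at h2
    rw [← mul_inv_eq_iff_eq_mul.mp h2]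
  have hcomap : (X.map π).comap π = X ⊔ Y := by
    rw [comap_map_eq, hπ, QuotientGroup.ker_mk']
  have hmem : ∀ g : H, g ∈ X ⊔ Y ↔ π g ∈ X.map π := by
    intro g; rw [← hcomap, mem_comap]
  have hXYn : (X ⊔ Y).Normal := by
    refine ⟨fun n hn g => ?_⟩
    have : g * n * g⁻¹ = ⁅g, n⁆ * n := by group
    rw [this]
    refine Subgroup.mul_mem _ ?_ hn
    rw [hmem, map_commutatorElement]
    exact hFX (hcomm _ _)
  refine ⟨P1, fun p _ P => inferInstance, hXYn, fun hN => ?_⟩
  have hP2 : IsPGroup 2 (H ⧸ (X ⊔ Y)) := by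
    obtain ⟨k, hk⟩ := hXidx
    have h1 : (X ⊔ Y).index ∣ 2 ^ k := hk ▸ Subgroup.index_dvd_of_le le_sup_left
    obtain ⟨j, -, hj⟩ := (Nat.dvd_prime_pow Nat.prime_two).mp h1
    exact IsPGroup.of_card hj
  refine ⟨?_, hP2⟩
  have hcm : IsMulCommutative (H ⧸ (X ⊔ Y)) := by
    refine ⟨⟨fun a b => ?_⟩⟩
    obtain ⟨a, rfl⟩ := QuotientGroup.mk'_surjective _ a
    obtain ⟨b, rfl⟩ := QuotientGroup.mk'_surjective _ b
    rw [← commutatorElement_eq_one_iff_mul_comm, ← map_commutatorElement, QuotientGroup.mk'_apply,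
      QuotientGroup.eq_one_iff, hmem, map_commutatorElement]
    exact hFX (hcomm _ _)
  -- every involution lifts to an element inverting `F`
  have key : ∀ w : H ⧸ (X ⊔ Y), orderOf w = 2 → ∃ u : H, (u : H ⧸ (X ⊔ Y)) = w ∧
      ∀ f ∈ F, π u * f * (π u)⁻¹ = f⁻¹ := by
    intro w hw
    obtain ⟨g, rfl⟩ := QuotientGroup.mk'_surjective _ w
    obtain ⟨u, b, -, -, hg, ⟨k, hk⟩, hb⟩ := H8.exists_pPart_mul_pPrimePart 2 g
    have hb1 : QuotientGroup.mk' (X ⊔ Y) b = 1 := by
      obtain ⟨j, hj⟩ := hP2 (QuotientGroup.mk' (X ⊔ Y) b)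
      have h1 := orderOf_dvd_of_pow_eq_one hj
      have h2 := orderOf_map_dvd (QuotientGroup.mk' (X ⊔ Y)) b
      exact orderOf_eq_one_iff.mp (Nat.Coprime.eq_one_of_dvd
        ((Nat.Coprime.coprime_dvd_left h2 hb).pow_right j) h1)
    have hu : QuotientGroup.mk' (X ⊔ Y) u = QuotientGroup.mk' (X ⊔ Y) g := by
      rw [hg, map_mul, hb1, mul_one]
    refine ⟨u, hu, ?_⟩
    have hu2 : π u ^ 2 = 1 := by
      have h1 : u ^ 2 ∈ X ⊔ Y := by
        rw [← QuotientGroup.eq_one_iff, ← QuotientGroup.mk'_apply, map_pow, hu, ← hw,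
          pow_orderOf_eq_one]
      rw [hmem, map_pow] at h1
      have h2 := Subgroup.orderOf_dvd_natCard _ h1
      have h3 : (Nat.card (X.map π)).Coprime 2 :=
        Nat.Coprime.coprime_dvd_left (X.card_map_dvd π) hXc
      have h4 : (π u ^ 2) ^ 2 ^ k = 1 := by
        rw [← pow_mul, mul_comm, pow_mul, ← map_pow π u, hk, map_one, one_pow]
      exact orderOf_eq_one_iff.mp (Nat.Coprime.eq_one_of_dvd
        ((Nat.Coprime.coprime_dvd_left h2 h3).pow_right k) (orderOf_dvd_of_pow_eq_one h4))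
    have hfix : ∀ f ∈ F, π u * f = f * π u → f = 1 := by
      intro f hf hc
      obtain ⟨x, hx, rfl⟩ := hFX hf
      obtain ⟨n, hn, hnc⟩ := H4.exists_centralizer_of_fixed_mod (A := zpowers x) (N := Y) (k := u)
        (by rw [normalizer_eq_top]; exact le_top)
        (by
          obtain ⟨j, hj⟩ := hYp.exists_card_eq
          rw [hj, Nat.card_zpowers]; exact (hxo x hx).pow_right j)
        (Or.inr inferInstance)
        (by
          rintro _ ⟨m, rfl⟩
          rw [← QuotientGroup.eq_one_iff, ← QuotientGroup.mk'_apply, ← hπ, map_commutatorElement,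
            commutatorElement_eq_one_iff_commute, map_zpow]
          exact Commute.zpow_left (show Commute (π x) (π u) from hc.symm) m)
      have hnu : π (n * u) = π u := by
        rw [map_mul, hπ, QuotientGroup.mk'_apply, (QuotientGroup.eq_one_iff n).mpr hn, one_mul]
      have h1 : n * u ≠ 1 := by
        intro h
        have h2 : u ∈ X ⊔ Y := by
          rw [hmem, ← hnu, h, map_one]; exact Subgroup.one_mem _
        have h3 : QuotientGroup.mk' (X ⊔ Y) g = 1 := by
          rw [← hu, QuotientGroup.mk'_apply, QuotientGroup.eq_one_iff]; exact h2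
        rw [h3, orderOf_one] at hw
        omega
      have h2 : (n * u) ^ 2 ∈ Y := by
        rw [← QuotientGroup.eq_one_iff, ← QuotientGroup.mk'_apply, ← hπ, map_pow, hnu, hu2]
      obtain ⟨j, hj⟩ := hYp ⟨_, h2⟩
      have hj' : ((n * u) ^ 2) ^ 2 ^ j = 1 := congrArg Subtype.val hj
      have := K2 x (hxo x hx) (n * u) h1 ⟨j + 1, by rw [pow_succ', pow_mul, hj']⟩
        (hnc x (mem_zpowers x))
      rw [this, map_one]
    intro f hf
    have hf' : π u * f * (π u)⁻¹ ∈ F := hFn.conj_mem f hf _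
    have hab : f * (π u * f * (π u)⁻¹) = (π u * f * (π u)⁻¹) * f := by
      let _ := hFc.commGroup
      exact congrArg Subtype.val (mul_comm (⟨f, hf⟩ : F) ⟨_, hf'⟩)
    have hui : (π u)⁻¹ = π u := by
      rw [inv_eq_iff_mul_eq_one, ← pow_two, hu2]
    have := hfix _ (F.mul_mem hf hf') (by
      have h3 : π u * π u = 1 := by rw [← pow_two, hu2]
      conv_lhs => rw [hab]
      rw [hui]
      calc π u * (π u * f * π u * f) = (π u * π u) * f * π u * f := by group
        _ = f * π u * f * (π u * π u) := by rw [h3]; group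
        _ = f * (π u * f * π u) * π u := by group)
    exact eq_inv_of_mul_eq_one_right this
  apply H5.isCyclic_of_comm_of_unique_prime
  intro p hp a b ha hb
  have hp2 : p = 2 := by
    obtain ⟨j, hj⟩ := hP2 a
    have := orderOf_dvd_of_pow_eq_one hj
    rw [ha] at this
    exact (Nat.prime_dvd_prime_iff_eq hp Nat.prime_two).mp (hp.dvd_of_dvd_pow this)
  subst hp2
  obtain ⟨u, rfl, hu⟩ := key a ha
  obtain ⟨v, rfl, hv⟩ := key b hb
  have : (u : H ⧸ (X ⊔ Y)) = v := by
    rw [QuotientGroup.eq, hmem]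
    apply hFX
    apply hCF
    intro f hf
    have h1 := hu f hf
    have h2 := hv f hf
    rw [map_mul, map_inv]
    have h3 : π u * f * (π u)⁻¹ = π v * f * (π v)⁻¹ := by rw [h1, h2]
    have h4 := hu f⁻¹ (F.inv_mem hf)
    have h5 : f * (π u)⁻¹ = (π u)⁻¹ * f⁻¹ := by
      rw [← h1]; group
    have h6 : f⁻¹ * π v = π v * f := by
      rw [← h2]; group
    rw [← mul_assoc, h5, mul_assoc, h6, mul_assoc]
  rw [this]
  exact mem_zpowers _

end Cfsg.Agent.S3215
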