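import Cfsg.Statements.S3225
import Cfsg.Agent.H87.Transfer

set_option autoImplicit false
open Cfsg

namespace Cfsg.Agent.S3225

/-- Let G be a finite group of even order with no subgroup of index 2, S a Sylow 2-subgroup of G and M a subgroup of index 2 in S such that, for some n ≥ 1, every element of S outside M has order greater than 2^(n−1). Then every element of S of order 2ⁿ is conjugate in G to an element of M. -/
theorem result {G : Type*} [Group G] [Finite G] (hev : Even (Nat.card G))
    (hG : ∀ H : Subgroup G, H.index ≠ 2) (S : Sylow 2 G) (M : Subgroup G) (hMS : M ≤ (S : Subgroup G)) (hM : M.relIndex (S : Subgroup G) = 2)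
    (n : ℕ) (hn : 1 ≤ n) (hord : ∀ y ∈ (S : Subgroup G), y ∉ M → 2 ^ (n - 1) < orderOf y)
    (x : G) (hx : x ∈ (S : Subgroup G)) (hxn : orderOf x = 2 ^ n) :
    ∃ g : G, g * x * g⁻¹ ∈ M := by
  by_contra hcon
  push Not at hcon
  obtain ⟨K, -, hK, -⟩ := H87.thompson_transfer (H87.odd_index_sylow S) hM (x := x) (n := n)
    (by rw [← hxn, pow_orderOf_eq_one]) hcon (fun g k hk hg => by
      by_contra hgM
      have h1 := hord _ hg hgM
      have h2 : orderOf (g * x ^ 2 ^ k * g⁻¹) ∣ 2 ^ (n - 1) := by
        apply orderOf_dvd_of_pow_eq_one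
        rw [conj_pow, ← pow_mul, ← pow_add]
        obtain ⟨c, hc⟩ : 2 ^ n ∣ 2 ^ (k + (n - 1)) := pow_dvd_pow 2 (by omega)
        rw [hc, pow_mul, ← hxn, pow_orderOf_eq_one]
        simp
      exact absurd (Nat.le_of_dvd (by positivity) h2) (by omega))
  exact hG K hK

end Cfsg.Agent.S3225
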