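import Cfsg.Statements.S3244
import Cfsg.Agent.H81.SCN2
import Cfsg.Agent.H83.Misc
import Cfsg.Agent.H10.Isolated

set_option autoImplicit false
open Cfsg

namespace Cfsg.Agent.S3244

open Subgroup Cfsg.Agent.H81 Cfsg.Agent.H85

section
variable {G : Type*} [Group G] [Finite G]

theorem norm_zpowers {t : G} (ht : orderOf t = 2) :
    normalizer ((zpowers t : Subgroup G) : Set G) = centralizer {t} := by
  apply le_antisymm
  · intro n hn
    rcases mem_zpowers_two (H9.mul_self_of_orderOf_two ht) (nconj_mem hn (mem_zpowers t)) with e | e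
    · exact absurd (by calc t = n⁻¹ * (n * t * n⁻¹) * n := by group
        _ = 1 := by rw [e]; group) (H9.ne_one_of_orderOf_two ht)
    · exact conj_eq_iff_mem_cent.1 e
  · rw [← H52.centralizer_zpowers]; exact centralizer_le_normalizer _

theorem pg_zpowers {t : G} (ht : t * t = 1) : IsPGroup 2 (zpowers t) :=
  isPGroup_of_sq (fun e he => by
    rcases mem_zpowers_two ht he with rfl | rfl
    · simp
    · exact ht)

theorem comm_of_fpf {Y : Subgroup G} (hY : Odd (Nat.card Y)) {z : G} (hz : z * z = 1)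
    (hn : z ∈ normalizer (Y : Set G)) (h : ∀ y ∈ Y, Commute z y → y = 1) {x y : G} (hx : x ∈ Y)
    (hy : y ∈ Y) : Commute x y := by
  have hzi : z⁻¹ = z := inv_eq_of_mul_eq_one_right hz
  have inv : ∀ y ∈ Y, z * y * z⁻¹ = y⁻¹ := by
    intro y hy
    have ht : y * z * y⁻¹ * (y * z * y⁻¹) = 1 := by
      calc y * z * y⁻¹ * (y * z * y⁻¹) = y * (z * z) * y⁻¹ := by group
        _ = 1 := by rw [hz]; group
    have hm : y * z * y⁻¹ * z ∈ Y := by
      have := Y.mul_mem hy (nconj_mem hn (Y.inv_mem hy))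
      rwa [hzi, ← mul_assoc, ← mul_assoc] at this
    obtain ⟨k, hk⟩ := H10.exists_pow_conj_of_odd hz ht (odd_ord_of_mem hY hm)
    have h1 := H10.conj_pow_of_inverts (H10.inverts_mul_right hz ht) k
    have h2 : y⁻¹ * (y * z * y⁻¹ * z) ^ k = 1 := by
      refine h _ (Y.mul_mem (Y.inv_mem hy) (Y.pow_mem hm k))
        (mem_cent_iff_comm.1 (conj_eq_iff_mem_cent.1 ?_))
      calc y⁻¹ * (y * z * y⁻¹ * z) ^ k * z * (y⁻¹ * (y * z * y⁻¹ * z) ^ k)⁻¹
          = y⁻¹ * ((y * z * y⁻¹ * z) ^ k * z * ((y * z * y⁻¹ * z) ^ k)⁻¹) * y := by group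
        _ = z := by rw [hk]; group
    rw [← inv_mul_eq_one.1 h2] at h1
    exact h1
  have e := inv _ (Y.mul_mem (Y.inv_mem hx) (Y.inv_mem hy))
  rw [show z * (x⁻¹ * y⁻¹) * z⁻¹ = (z * x⁻¹ * z⁻¹) * (z * y⁻¹ * z⁻¹) by group,
    inv _ (Y.inv_mem hx), inv _ (Y.inv_mem hy)] at e
  exact (by simpa using e : x * y = y * x)

theorem inv_eq_bot (S : Sylow 2 G) {A : Subgroup G} (hA : IsSCN (S : Subgroup G) A)
    (hA3 : ¬ PRankLE 2 2 A)
    (hinv : ∀ X : Subgroup G, Odd (Nat.card X) → (S : Subgroup G) ≤ normalizer (X : Set G) → X = ⊥)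
    (hcon : ∀ t : G, orderOf t = 2 → IsPConstrained 2 (centralizer ({t} : Set G)))
    {Y : Subgroup G} (hY : Odd (Nat.card Y)) (hAY : A ≤ normalizer (Y : Set G)) : Y = ⊥ := by
  haveI : Fact (Nat.Prime 2) := ⟨Nat.prime_two⟩
  have hA2 : ¬ PRankLE 2 1 A := fun h => hA3 (fun B h1 h2 => (h B h1 h2).trans (by norm_num))
  have hab : A ≤ centralizer (A : Set G) := hA.2.2.ge.trans inf_le_right
  obtain ⟨z, b, h⟩ := exists_NF S.isPGroup' hA hA2
  have cm : ∀ a ∈ A, ∀ a' ∈ A, Commute a a' := fun a ha a' ha' => hab ha' a ha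
  have hAc : ∀ d ∈ A, A ≤ centralizer {d} := fun d hd => le_centralizer_singleton_iff.2 (hab hd)
  have hz : centralizerPPrimeCore 2 z = ⊥ := hinv _ (odd_card_Opp _)
    ((le_centralizer_singleton_iff.2 h.zc).trans (H86.theta_norm z))
  have k1 : ∀ {Y : Subgroup G}, Odd (Nat.card Y) → ∀ d, Odd (Nat.card ↥(Y ⊓ centralizer {d})) :=
    fun hY d => hY.of_dvd_nat (card_dvd_of_le inf_le_left)
  have k2 : ∀ {Y : Subgroup G}, A ≤ normalizer (Y : Set G) → ∀ d ∈ A,
      A ≤ normalizer ((Y ⊓ centralizer {d} : Subgroup G) : Set G) := fun hAY d hd =>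
    le_normalizer_inf hAY ((hAc d hd).trans le_normalizer)
  have th : ∀ {Y : Subgroup G}, Odd (Nat.card Y) → A ≤ normalizer (Y : Set G) → ∀ d ∈ A,
      orderOf d = 2 → ∀ y ∈ Y, Commute d y → y ∈ centralizerPPrimeCore 2 d :=
    fun hY hAY d hd hd2 y hy hc => le_Opp_of_scn_two S hA hA2 hcon (hcon d hd2) (hAc d hd)
      (k1 hY d) (k2 hAY d hd) inf_le_right ⟨hy, mem_cent_iff_comm.2 hc⟩
  have fpf : ∀ {Y : Subgroup G}, Odd (Nat.card Y) → A ≤ normalizer (Y : Set G) → ∀ y ∈ Y,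
      Commute z y → y = 1 := fun hY hAY y hy hc => by
    have := th hY hAY z h.zA h.oz y hy hc
    rwa [hz, mem_bot] at this
  obtain ⟨c, hc, hcn⟩ : ∃ c ∈ omegaTwo A hab, ¬ (c = 1 ∨ c = z ∨ c = b ∨ c = z * b) := by
    by_contra hcon
    push Not at hcon
    classical
    have h8 := le_card_omegaTwo hab hA3
    have h1 : ((omegaTwo A hab : Subgroup G) : Set G) ⊆ (({1, z, b, z * b} : Finset G) : Set G) := by
      intro x hx
      have := hcon x hx
      simp only [Finset.coe_insert, Finset.coe_singleton, Set.mem_insert_iff,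
        Set.mem_singleton_iff]
      tauto
    have h2 := Set.ncard_le_ncard h1 (Finset.finite_toSet _)
    rw [Set.ncard_coe_finset] at h2
    have h3 : ({1, z, b, z * b} : Finset G).card ≤ 4 := Finset.card_le_four
    have h4 : Nat.card (omegaTwo A hab) = ((omegaTwo A hab : Subgroup G) : Set G).ncard := rfl
    omega
  have hcA : c ∈ A := hc.1
  have sq : ∀ a ∈ A, ∀ a' ∈ A, a * a = 1 → a' * a' = 1 → a * a' * (a * a') = 1 :=
    fun a ha a' ha' e e' => ((omegaTwo A hab).mul_mem ⟨ha, e⟩ ⟨ha', e'⟩).2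
  -- the pieces
  let Cls : Subgroup G → G → Prop := fun Y y =>
    y ∈ Y ∧ (Commute b y ∨ Commute (z * b) y) ∧ (Commute c y ∨ Commute (z * c) y)
  have dec : ∀ {Y : Subgroup G}, Odd (Nat.card Y) → A ≤ normalizer (Y : Set G) →
      ∀ K : Subgroup G, (∀ y, Cls Y y → y ∈ K) → Y ≤ K := by
    intro Y hY hAY K hK
    have step : ∀ β ∈ A, (β = b ∨ β = z * b) → ∀ y ∈ Y, Commute β y → y ∈ K := by
      intro β hβ hβ' y hy hc'
      obtain ⟨c₁, h₁, c₃, h₃, c₂, h₂, e₁, e₃, e₂, rfl⟩ :=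
        four_factorization (k1 hY β) (k2 hAY β hβ h.zA) (k2 hAY β hβ hcA) h.zz hc.2
          (cm z h.zA c hcA) (x := y) ⟨hy, mem_cent_iff_comm.2 hc'⟩
      rw [fpf hY hAY c₁ h₁.1 e₁, one_mul]
      have f : ∀ x ∈ Y ⊓ centralizer {β}, Commute b x ∨ Commute (z * b) x := fun x hx => by
        rcases hβ' with rfl | rfl
        · exact Or.inl (mem_cent_iff_comm.1 hx.2)
        · exact Or.inr (mem_cent_iff_comm.1 hx.2)
      exact K.mul_mem (hK _ ⟨h₃.1, f _ h₃, Or.inr e₃⟩) (hK _ ⟨h₂.1, f _ h₂, Or.inl e₂⟩)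
    intro y hy
    obtain ⟨c₁, h₁, c₃, h₃, c₂, h₂, e₁, e₃, e₂, rfl⟩ :=
      four_factorization hY (hAY h.zA) (hAY h.bA) h.zz h.bb (cm z h.zA b h.bA) hy
    rw [fpf hY hAY c₁ h₁ e₁, one_mul]
    exact K.mul_mem (step _ (A.mul_mem h.zA h.bA) (Or.inr rfl) _ h₃ e₃)
      (step _ h.bA (Or.inl rfl) _ h₂ e₂)
  have zA := h.zA
  have bA := h.bA
  have ord : ∀ d : G, d * d = 1 → d ≠ 1 → orderOf d = 2 := fun d e e' =>
    H9.orderOf_eq_two_iff.2 ⟨e', e⟩
  have zi : z⁻¹ = z := inv_eq_of_mul_eq_one_right h.zz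
  have bi : b⁻¹ = b := inv_eq_of_mul_eq_one_right h.bb
  have o1 : orderOf c = 2 := ord _ hc.2 (fun e => hcn (Or.inl e))
  have o2 : orderOf (z * c) = 2 := ord _ (sq _ zA _ hcA h.zz hc.2) (fun e => hcn (Or.inr (Or.inl
    (by rw [eq_inv_of_mul_eq_one_right e, zi]))))
  have o3 : orderOf (b * c) = 2 := ord _ (sq _ bA _ hcA h.bb hc.2) (fun e => hcn (Or.inr (Or.inr
    (Or.inl (by rw [eq_inv_of_mul_eq_one_right e, bi])))))
  have o4 : orderOf (z * b * c) = 2 := ord _ (sq _ (A.mul_mem zA bA) _ hcA (h.mul hA.1).bb hc.2)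
    (fun e => hcn (Or.inr (Or.inr (Or.inr (by
      rw [eq_inv_of_mul_eq_one_right e, inv_eq_of_mul_eq_one_right (h.mul hA.1).bb])))))
  have e3 : b * c = z * b * (z * c) := by
    calc b * c = (z * z) * b * c := by rw [h.zz, one_mul]
      _ = z * (z * b) * c := by group
      _ = z * (b * z) * c := by rw [(cm z zA b bA).eq]
      _ = z * b * (z * c) := by group
  have e4 : z * b * c = b * (z * c) := by rw [(cm z zA b bA).eq]; group
  have comm : ∀ {Y₁ Y₂ : Subgroup G}, Odd (Nat.card Y₁) → A ≤ normalizer (Y₁ : Set G) →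
      Odd (Nat.card Y₂) → A ≤ normalizer (Y₂ : Set G) → Y₁ ≤ centralizer (Y₂ : Set G) := by
    intro Y₁ Y₂ hY₁ hA₁ hY₂ hA₂
    refine dec hY₁ hA₁ _ (fun y₁ hy₁ => ?_)
    have : Y₂ ≤ centralizer {y₁} := by
      refine dec hY₂ hA₂ _ (fun y₂ hy₂ => mem_cent_iff_comm.2 ?_)
      have fin : ∀ d ∈ A, orderOf d = 2 → Commute d y₁ → Commute d y₂ → Commute y₁ y₂ :=
        fun d hd hd2 c1 c2 => comm_of_fpf (Y := centralizerPPrimeCore 2 d) (odd_card_Opp _) h.zz
          (H86.theta_norm d (hAc d hd zA))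
          (fpf (odd_card_Opp _) ((hAc d hd).trans (H86.theta_norm d)))
          (th hY₁ hA₁ d hd hd2 _ hy₁.1 c1) (th hY₂ hA₂ d hd hd2 _ hy₂.1 c2)
      obtain ⟨-, p1 | p1, q1 | q1⟩ := hy₁ <;> obtain ⟨-, p2 | p2, q2 | q2⟩ := hy₂ <;>
        first
          | exact fin _ bA h.ob p1 p2
          | exact fin _ (A.mul_mem zA bA) (h.mul hA.1).ob p1 p2
          | exact fin _ hcA o1 q1 q2
          | exact fin _ (A.mul_mem zA hcA) o2 q1 q2
          | exact fin _ (A.mul_mem bA hcA) o3 (p1.mul_left q1) (e3 ▸ p2.mul_left q2)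
          | exact fin _ (A.mul_mem bA hcA) o3 (e3 ▸ p1.mul_left q1) (p2.mul_left q2)
          | exact fin _ (A.mul_mem (A.mul_mem zA bA) hcA) o4 (p1.mul_left q1) (e4 ▸ p2.mul_left q2)
          | exact fin _ (A.mul_mem (A.mul_mem zA bA) hcA) o4 (e4 ▸ p1.mul_left q1) (p2.mul_left q2)
    exact le_centralizer_singleton_iff.1 this
  obtain ⟨M, hYM, ⟨hM, hAM⟩, hmax⟩ := exists_maximal_subgroup
    (fun Y : Subgroup G => Odd (Nat.card Y) ∧ A ≤ normalizer (Y : Set G)) ⟨hY, hAY⟩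
  have hall : ∀ Y : Subgroup G, Odd (Nat.card Y) → A ≤ normalizer (Y : Set G) → Y ≤ M := by
    intro Y hY hAY
    have h1 : Y ⊔ M = M := hmax _ ⟨Nat.coprime_two_right.1 (H3.coprime_card_sup_of_le_normalizer
      ((comm hY hAY hM hAM).trans (centralizer_le_normalizer _)) (Nat.coprime_two_right.2 hY)
      (Nat.coprime_two_right.2 hM)), le_normalizer_sup hAY hAM⟩ le_sup_right
    exact le_sup_left.trans h1.le
  have hM0 : M = ⊥ := by
    refine hinv M hM (fun s hs => mem_normalizer_of_cj_le (hall _ (by rwa [card_cj]) ?_))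
    rw [← cj_normalizer, ← cj_eq_of_mem_normalizer (hA.2.1 hs)]
    exact cj_mono s hAM
  exact le_bot_iff.1 (hM0 ▸ hYM)

theorem theta_eq_bot (S : Sylow 2 G) {A : Subgroup G} (hA : IsSCN (S : Subgroup G) A)
    (hA3 : ¬ PRankLE 2 2 A)
    (hinv : ∀ X : Subgroup G, Odd (Nat.card X) → (S : Subgroup G) ≤ normalizer (X : Set G) → X = ⊥)
    (hcon : ∀ t : G, orderOf t = 2 → IsPConstrained 2 (centralizer ({t} : Set G)))
    {u : G} (hu : orderOf u = 2) : centralizerPPrimeCore 2 u = ⊥ := by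
  haveI : Fact (Nat.Prime 2) := ⟨Nat.prime_two⟩
  have hab : A ≤ centralizer (A : Set G) := hA.2.2.ge.trans inf_le_right
  have hAc : ∀ d ∈ A, A ≤ centralizer {d} := fun d hd => le_centralizer_singleton_iff.2 (hab hd)
  suffices H : ∀ u ∈ (S : Subgroup G), orderOf u = 2 → centralizerPPrimeCore 2 u = ⊥ by
    obtain ⟨g, -, hg⟩ := (isSyl_top S).exists_cj_le
      (pg_zpowers (H9.mul_self_of_orderOf_two hu)) le_top
    have := H _ (hg (conj_mem_cj (mem_zpowers u))) (by rw [H9.orderOf_conj', hu])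
    rw [← H86.theta_conj] at this
    exact (cj_eq_bot_iff g).1 this
  intro u huS hu
  have h4 := card_centralizer_ge (isEA_omegaTwo hab) (w := u) (by rw [← hu, pow_orderOf_eq_one])
    (normalizer_le_omegaTwo hab (hA.2.1 huS)) (k := 1) (le_card_omegaTwo hab hA3)
  set D := omegaTwo A hab ⊓ centralizer {u}
  obtain ⟨d₁, h₁, n₁⟩ : ∃ d ∈ D, d ≠ 1 := by
    by_contra hc
    push Not at hc
    rw [(eq_bot_iff_forall D).2 hc, card_bot] at h4
    norm_num at h4
  obtain ⟨d₂, h₂, n₂⟩ : ∃ d ∈ D, d ∉ zpowers d₁ := by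
    by_contra hc
    push Not at hc
    have := card_le_of_le (show D ≤ zpowers d₁ from hc)
    rw [Nat.card_zpowers, H9.orderOf_eq_two_iff.2 ⟨n₁, h₁.1.2⟩] at this
    omega
  have key : ∀ d ∈ D, d ≠ 1 → ∀ c ∈ centralizerPPrimeCore 2 u, Commute d c → c = 1 := by
    intro d hd hd1 c hc hdc
    have hd2 : orderOf d = 2 := H9.orderOf_eq_two_iff.2 ⟨hd1, hd.1.2⟩
    have h1 := H86.theta_inf_le_Opp (hcon d hd2) (a := u)
      (mem_cent_iff_comm.2 (mem_cent_iff_comm.1 hd.2).symm)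
      (pg_zpowers (H9.mul_self_of_orderOf_two hu)) ⟨hc, mem_cent_iff_comm.2 hdc⟩
    rwa [inv_eq_bot S hA hA3 hinv hcon (odd_card_Opp _)
      ((hAc d hd.1.1).trans (H52.le_normalizer_Opp _)), mem_bot] at h1
  rw [eq_bot_iff]
  intro y hy
  obtain ⟨c₁, m₁, c₃, m₃, c₂, m₂, e₁, e₃, e₂, rfl⟩ :=
    four_factorization (Y := centralizerPPrimeCore 2 u) (odd_card_Opp _)
      (H86.theta_norm u h₁.2) (H86.theta_norm u h₂.2) h₁.1.2 h₂.1.2 (hab h₂.1.1 d₁ h₁.1.1) hy
  rw [key _ h₁ n₁ _ m₁ e₁, key _ h₂ (fun e => n₂ (e ▸ one_mem _)) _ m₂ e₂,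
    key _ (D.mul_mem h₁ h₂) (fun e => n₂ (by
      rw [eq_inv_of_mul_eq_one_right e]; exact inv_mem (mem_zpowers _))) _ m₃ e₃]
  simp

/-- `u` is the only involution centralizing a Sylow 2-subgroup of `C(u)` inside `C(u)`. -/
def Good (u : G) : Prop :=
  orderOf u = 2 ∧ ∀ v : G, orderOf v = 2 → Commute u v → ∀ R, IsSyl 2 R (centralizer {u}) →
    v ∈ centralizer (R : Set G) → v = u

theorem Good.conj {u : G} (h : Good u) (g : G) : Good (g * u * g⁻¹) := by
  refine ⟨by rw [H9.orderOf_conj', h.1], fun v hv hc R hR hvR => ?_⟩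
  have h1 := hR.cj g⁻¹
  have h2 : cj g⁻¹ (centralizer {g * u * g⁻¹}) = centralizer {u} := by
    rw [← H86.map_conj_centralizer_singleton]; exact cj_inv_cj g _
  rw [h2] at h1
  have h3 := h.2 (g⁻¹ * v * g⁻¹⁻¹) (by rw [H9.orderOf_conj', hv]) (by
    have := comm_conj' g⁻¹ hc
    rwa [show g⁻¹ * (g * u * g⁻¹) * g⁻¹⁻¹ = u by group] at this) _ h1
    (by rw [← cj_centralizer]; exact conj_mem_cj hvR)
  rw [← h3]; group

theorem final (hloc : ∀ D : Subgroup G, IsPGroup 2 D → D ≠ ⊥ →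
      ∃ u, Good u ∧ normalizer (D : Set G) ≤ centralizer {u})
    {u : G} (hu : Good u) : IsIsolatedInvolution u := by
  haveI : Fact (Nat.Prime 2) := ⟨Nat.prime_two⟩
  refine ⟨hu.1, fun g hc => ?_⟩
  by_contra hne
  let F : Subgroup G → Prop := fun R => IsPGroup 2 R ∧ ∃ u₁ u₂ : G, Good u₁ ∧ Good u₂ ∧ u₁ ≠ u₂ ∧
    u₁ ∈ R ∧ u₂ ∈ R ∧ R ≤ centralizer {u₁} ∧ R ≤ centralizer {u₂}
  have h0 : F (closure {u, g * u * g⁻¹}) := by
    refine ⟨H10.isPGroup_closure_pair (H9.mul_self_of_orderOf_two hu.1)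
      (H9.mul_self_of_orderOf_two (hu.conj g).1) hc, u, _, hu, hu.conj g, fun e => hne e.symm,
      subset_closure (by simp), subset_closure (by simp), ?_, ?_⟩
    · rw [closure_le]
      rintro x (rfl | rfl)
      · exact mem_cent_iff_comm.2 (Commute.refl _)
      · exact mem_cent_iff_comm.2 hc
    · rw [closure_le]
      rintro x (rfl | rfl)
      · exact mem_cent_iff_comm.2 hc.symm
      · exact mem_cent_iff_comm.2 (Commute.refl _)
  obtain ⟨R, -, ⟨hR, u₁, u₂, g₁, g₂, hne', m₁, m₂, c₁, c₂⟩, hmax⟩ := exists_maximal_subgroup F h0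
  obtain ⟨u₃, g₃, h₃⟩ := hloc R hR (fun e => by
    rw [e, mem_bot] at m₁
    exact H9.ne_one_of_orderOf_two g₁.1 m₁)
  have key : ∀ a b : G, Good a → orderOf b = 2 → a ≠ b → a ∈ R → b ∈ R → R ≤ centralizer {a} →
      R ≤ centralizer {b} → u₃ = a := by
    intro a b ga ob hab ma mb ca cb
    obtain ⟨T, hT, hRT⟩ := exists_isSyl_ge hR ca
    have hlt : R < T := lt_of_le_of_ne hRT (fun e => hab (ga.2 b ob (mem_cent_iff_comm.1 (ca mb))
      T hT (le_centralizer_singleton_iff.1 (e ▸ cb))).symm)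
    have h1 := lt_inf_normalizer_of_lt hT.isPGroup hlt
    by_contra hn
    have h2 : T ⊓ normalizer (R : Set G) ≤ centralizer {u₃} := inf_le_right.trans h₃
    have h3 : F ((T ⊓ normalizer (R : Set G)) ⊔ zpowers u₃) := by
      refine ⟨IsPGroup.to_sup_of_normal_left' hT.isPGroup.to_inf_left
        (pg_zpowers (H9.mul_self_of_orderOf_two g₃.1))
        (zpowers_le.2 (centralizer_le_normalizer _ (le_centralizer_singleton_iff.1 h2))),
        u₃, a, g₃, ga, hn, mem_sup_right (mem_zpowers _), mem_sup_left (h1.le ma),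
        sup_le h2 (zpowers_le.2 (mem_cent_iff_comm.2 (Commute.refl _))),
        sup_le (inf_le_left.trans hT.le) (zpowers_le.2 (mem_cent_iff_comm.2
          (mem_cent_iff_comm.1 (h2 (h1.le ma))).symm))⟩
    have h4 := hmax _ h3 (h1.le.trans le_sup_left)
    exact absurd (h1.trans_le (le_sup_left.trans h4.le)) (lt_irrefl _)
  exact hne' ((key u₁ u₂ g₁ g₂.1 hne' m₁ m₂ c₁ c₂).symm.trans
    (key u₂ u₁ g₂ g₁.1 (Ne.symm hne') m₂ m₁ c₂ c₁))

end


/-- Say that a finite group G is of characteristic 2 type in the early sense when a Sylow 2-subgroup S of G has a self-centralizing normal subgroup of rank at least 3, S normalizes no nontrivial subgroup of odd order, and every 2-local subgroup of G is 2-constrained. If G is a non-abelian simple group of characteristic 2 type in this sense, then for some maximal 2-local subgroup M of G the centre of O₂(M) is not cyclic. -/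
theorem result {G : Type*} [Group G] [Finite G] [IsSimpleGroup G]
    (hG : ¬ IsMulCommutative G) (S : Sylow 2 G) (A : Subgroup G) (hA : Cfsg.IsSCN (S : Subgroup G) A) (hA3 : ¬ Cfsg.PRankLE 2 2 ↥A)
    (hinv : ∀ X : Subgroup G, Odd (Nat.card ↥X) → (S : Subgroup G) ≤ Subgroup.normalizer (X : Set G) → X = ⊥)
    (hcon : ∀ T : Subgroup G, IsPGroup 2 ↥T → T ≠ ⊥ → Cfsg.IsPConstrained 2 ↥(Subgroup.normalizer (T : Set G))) :
    ∃ M : Subgroup G, Cfsg.IsMaximalTwoLocal M ∧ ¬ IsCyclic ↥(Subgroup.center ↥(Cfsg.pCore 2 ↥M)) := by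
  haveI : Fact (Nat.Prime 2) := ⟨Nat.prime_two⟩
  by_contra hcyc
  push Not at hcyc
  have hcon' : ∀ t : G, orderOf t = 2 → IsPConstrained 2 (centralizer ({t} : Set G)) := by
    intro t ht
    rw [← norm_zpowers ht]
    exact hcon _ (pg_zpowers (H9.mul_self_of_orderOf_two ht))
      (fun e => H9.ne_one_of_orderOf_two ht (zpowers_eq_bot.1 e))
  have hloc : ∀ D : Subgroup G, IsPGroup 2 D → D ≠ ⊥ →
      ∃ u, Good u ∧ normalizer (D : Set G) ≤ centralizer {u} := by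
    intro D hD hD1
    obtain ⟨M, hle, ⟨T, hT, hT1, hMT⟩, hmax⟩ := exists_maximal_subgroup IsTwoLocal
      (H := normalizer (D : Set G)) ⟨D, hD, hD1, rfl⟩
    have hc := hcyc M ⟨⟨T, hT, hT1, hMT⟩, hmax⟩
    have hTQ : T ≤ pCoreOf 2 M := le_pCoreOf (hMT ▸ le_normalizer) hT hMT.le
    set Q := pCoreOf 2 M with hQ
    have hZ : IsCyclic ↥(Q ⊓ centralizer (Q : Set G)) := by
      let f : center (pCore 2 M) →* G := M.subtype.comp ((pCore 2 M).subtype.comp (center _).subtype)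
      have hf : Q ⊓ centralizer (Q : Set G) ≤ f.range := by
        rintro _ ⟨⟨x, hx, rfl⟩, hc⟩
        refine ⟨⟨⟨x, hx⟩, mem_center_iff.2 (fun y => Subtype.ext (Subtype.ext ?_))⟩, rfl⟩
        exact hc _ ⟨y, y.2, rfl⟩
      haveI : IsCyclic f.range := isCyclic_of_surjective f.rangeRestrict f.rangeRestrict_surjective
      exact isCyclic_of_le hf
    obtain ⟨u, huQ, huc, hu1, hu2⟩ := exists_central_order_prime (pCoreOf_isPGroup 2 M)
      (fun e => hT1 (le_bot_iff.1 (e ▸ hTQ)))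
    have hu : orderOf u = 2 := orderOf_eq_prime' hu1 hu2
    have hMn : M ≤ normalizer ((Q ⊓ centralizer (Q : Set G) : Subgroup G) : Set G) :=
      le_normalizer_inf (le_normalizer_pCoreOf 2 M)
        ((le_normalizer_pCoreOf 2 M).trans (normalizer_le_normalizer_centralizer _))
    have hMu : M ≤ centralizer {u} := fun m hm => conj_eq_iff_mem_cent.1
      (involution_unique_of_isCyclic hZ (nconj_mem (hMn hm) ⟨huQ, huc⟩) ⟨huQ, huc⟩
        (by rw [H9.orderOf_conj', hu]) hu)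
    have hM : centralizer {u} = M := hmax _ ⟨zpowers u, pg_zpowers (H9.mul_self_of_orderOf_two hu),
      fun e => hu1 (zpowers_eq_bot.1 e), (norm_zpowers hu).symm⟩ hMu
    refine ⟨u, ⟨hu, fun v hv huv R hR hvR => ?_⟩, hle.trans hMu⟩
    have hch : H83.CharP 2 (centralizer ({u} : Set G)) :=
      H83.charP_iff_constrained.2 ⟨hcon' u hu, H52.map_subtype_eq_bot_iff.1
        (theta_eq_bot S hA hA3 hinv hcon' hu)⟩
    rw [hM] at hch hR
    have hQR : Q ≤ R := hR.ge_of_le_normalizer (pCoreOf_isPGroup 2 M) (pCoreOf_le 2 M)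
      (hR.le.trans (le_normalizer_pCoreOf 2 M))
    have hvc : v ∈ centralizer (Q : Set G) := centralizer_le hQR hvR
    exact involution_unique_of_isCyclic hZ
      ⟨hch ⟨hM ▸ mem_cent_iff_comm.2 huv, hvc⟩, hvc⟩ ⟨huQ, huc⟩ hv hu
  have hA1 : A ≠ ⊥ := by
    rintro rfl
    apply hA3
    intro B _ _
    have := (card_subgroup_dvd_card B)
    rw [card_bot, Nat.dvd_one] at this
    rw [this]; norm_num
  obtain ⟨u, hu, -⟩ := hloc A (S.isPGroup'.to_le hA.1) hA1
  exact hG ⟨⟨comm_of_simple_of_isolated (final hloc hu)⟩⟩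

end Cfsg.Agent.S3244
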