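import Cfsg.Statements.S3246
import Cfsg.Agent.H83.Misc
import Cfsg.Agent.H81.Basic
import Cfsg.Agent.H81.Four
import Cfsg.Agent.H4.CoprimeGen

set_option autoImplicit false
open Cfsg

namespace Cfsg.Agent.S3246

open Subgroup Cfsg.Agent.H83
open scoped commutatorElement

theorem aux {G : Type*} [Group G] [Finite G] [Fact (Nat.Prime 2)] {S X : Subgroup G}
    (hS : IsSylowIn 2 S ⊤) (hX : (Nat.card X).Coprime 2) (hSX : S ≤ normalizer (X : Set G))
    {v z : G} (hz : z * z = 1) (hzS : z ∈ centralizer (S : Set G))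
    (hv : ∀ s ∈ S, ⁅s, v⁆ ∈ zpowers z) (hC : CharP 2 (centralizer ({v} : Set G))) :
    X ⊓ centralizer {v} = ⊥ := by
  set H := centralizer ({v} : Set G)
  have hzp : ∀ y ∈ zpowers z, y = 1 ∨ y = z := by
    rintro y ⟨n, rfl⟩
    have h2 : z ^ (2 : ℤ) = 1 := by rw [zpow_two]; exact hz
    rcases Int.even_or_odd' n with ⟨k, rfl | rfl⟩
    · left; simp only [zpow_mul, h2, one_zpow]
    · right; simp only [zpow_add, zpow_mul, h2, one_zpow, one_mul, zpow_one]
  have h1 : Nat.card S ≤ 2 * Nat.card (S ⊓ H : Subgroup G) := by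
    refine card_le_two_mul_of_mul_mem inf_le_left fun a ha b hb ha' hb' => ⟨S.mul_mem ha hb, ?_⟩
    have key : ∀ a ∈ S, a ∉ S ⊓ H → a * v * a⁻¹ = z * v := by
      intro a ha ha'
      rcases hzp _ (hv a ha) with e | e
      · exact absurd ⟨ha, mem_cent_singleton.mpr
          (commutatorElement_eq_one_iff_mul_comm.mp e).symm⟩ ha'
      · rw [← e, commutatorElement_def]; group
    refine mem_cent_singleton.mpr ?_
    have e1 := key a ha ha'
    have e2 := key b hb hb'
    have e3 := hzS a ha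
    calc v * (a * b) = z * z * v * (a * b) := by rw [hz, one_mul]
      _ = z * (a * v * a⁻¹) * (a * b) := by rw [e1]; group
      _ = (z * a) * v * b := by group
      _ = a * (z * v) * b := by rw [← e3]; group
      _ = a * b * v := by rw [← e2]; group
  obtain ⟨S₁, hS₁, hle⟩ := exists_isSylowIn_ge (inf_le_right : S ⊓ H ≤ H)
    (hS.isPGroup.to_le inf_le_left)
  have h2 : Nat.card S₁ ≤ 2 * Nat.card (S ⊓ H : Subgroup G) :=
    (hS.card_le le_top hS₁.isPGroup).trans h1
  rw [eq_bot_iff]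
  rintro y ⟨hyX, hyH⟩
  have hc := coprime_orderOf_of_mem hX hyX
  have hQ := pCoreOf_isPGroup (p := 2) H
  have h3 : y ∈ centralizer ((pCoreOf 2 H ⊓ S : Subgroup G) : Set G) := by
    intro q hq
    rw [← commutatorElement_eq_one_iff_mul_comm]
    refine eq_one_of_mem_pgroup hQ ?_ (coprime_orderOf_of_mem hX ?_)
    · exact comm_le_left ((zpowers_le.mpr hyH).trans (le_norm_pCoreOf H))
        (commutator_mem_commutator hq.1 (mem_zpowers y))
    · exact comm_le_right hSX (commutator_mem_commutator hq.2 hyX)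
  refine hC.eq_one hyH hc (mem_cent_of_stable hc (hQ.to_le inf_le_left) h3 fun q hq => ?_)
  have hq' : y * q⁻¹ * y⁻¹ ∈ pCoreOf 2 H := conj_mem (le_norm_pCoreOf H) hyH (inv_mem hq)
  have e : ⁅q, y⁆ = q * (y * q⁻¹ * y⁻¹) := by rw [commutatorElement_def]; group
  by_cases hqS : q ∈ S
  · rw [commutatorElement_eq_one_iff_mul_comm.mpr (h3 q ⟨hq, hqS⟩)]
    exact one_mem _
  · rw [e]
    refine ⟨mul_mem hq hq', (mul_mem_of_card_le_two_mul hle h2 (hS₁.pCoreOf_le hq)
      (hS₁.pCoreOf_le hq') (fun h => hqS h.1) fun h => hqS ?_).1⟩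
    have := h3 _ ⟨hq', h.1⟩
    have e2 : y * q⁻¹ * y⁻¹ = q⁻¹ := by
      apply mul_left_cancel (a := y)
      rw [← this]; group
    rw [e2] at h
    exact inv_mem_iff.mp h.1

/-- Let G be a finite group whose Sylow 2-subgroup S has a self-centralizing normal subgroup of rank at least 3. Suppose that either every maximal 2-local subgroup of G is 2-constrained with no nontrivial normal subgroup of odd order, or the centralizer of every involution of G is 2-constrained with no nontrivial normal subgroup of odd order. Then S normalizes no nontrivial subgroup of G of odd order and every 2-local subgroup of G is 2-constrained. -/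
theorem result {G : Type*} [Group G] [Finite G]
    (S : Sylow 2 G) (A : Subgroup G) (hA : Cfsg.IsSCN (S : Subgroup G) A) (hA3 : ¬ Cfsg.PRankLE 2 2 ↥A)
    (h : (∀ M : Subgroup G, Cfsg.IsMaximalTwoLocal M → Cfsg.IsPConstrained 2 ↥M ∧ Cfsg.oddCore ↥M = ⊥) ∨
      (∀ t : G, orderOf t = 2 → Cfsg.IsPConstrained 2 ↥(Subgroup.centralizer ({t} : Set G)) ∧
        Cfsg.oddCore ↥(Subgroup.centralizer ({t} : Set G)) = ⊥)) :
    (∀ X : Subgroup G, Odd (Nat.card ↥X) → (S : Subgroup G) ≤ Subgroup.normalizer (X : Set G) → X = ⊥) ∧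
      (∀ T : Subgroup G, IsPGroup 2 ↥T → T ≠ ⊥ → Cfsg.IsPConstrained 2 ↥(Subgroup.normalizer (T : Set G))) := by
  haveI : Fact (Nat.Prime 2) := ⟨Nat.prime_two⟩
  have hS := isSylowIn_top S
  obtain ⟨V, hVA, hV, hV8⟩ := H81.not_pRankLE_iff.mp hA3
  have hloc : ∀ T : Subgroup G, IsPGroup 2 T → T ≠ ⊥ → CharP 2 (normalizer (T : Set G)) := by
    intro T hT hT1
    rcases h with h | h
    · obtain ⟨M, h1, h2, h4⟩ := H81.exists_maximal_subgroup
        (fun M : Subgroup G => IsTwoLocal M) (H := normalizer (T : Set G)) ⟨T, hT, hT1, rfl⟩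
      exact (charP_iff_constrained.mpr (h M ⟨h2, h4⟩)).norm_of_cent_le hT (le_normalizer.trans h1)
        ((centralizer_le_normalizer _).trans h1)
    · obtain ⟨⟨z, hz⟩, hz1⟩ := ne_bot_iff_exists_ne_one.mp (OZ_ne_bot hT hT1)
      obtain ⟨a, b, c⟩ := mem_OZ.mp hz
      exact charP_norm_of_elt hT a b (charP_iff_constrained.mpr
        (h z (orderOf_eq_prime c fun e => hz1 (Subtype.ext e))))
  refine ⟨fun X hX hSX => ?_, fun T hT hT1 => (charP_iff_constrained.mp (hloc T hT hT1)).1⟩
  have hXc : (Nat.card X).Coprime 2 := Nat.coprime_two_right.mpr hX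
  have hAc : A ≤ centralizer (A : Set G) := hA.2.2.ge.trans inf_le_right
  set E := omegaOne 2 A
  have hE : IsElementaryAbelian 2 E := EA_omegaOne hAc
  have hES : E ≤ S := (omegaOne_le A).trans hA.1
  have hSE : (S : Subgroup G) ≤ normalizer (E : Set G) := norm_omegaOne hA.2.1
  have hVE : V ≤ E := le_omegaOne hVA (isEA_iff.mp hV).2
  have hE8 : 8 ≤ Nat.card E := by
    have := card_le_of_le hVE
    omega
  have hE0 : E ≠ ⊥ := by
    intro e; rw [e, card_bot] at hE8; omega
  obtain ⟨⟨z, hzE, hzS⟩, hz1⟩ := ne_bot_iff_exists_ne_one.mp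
    (inf_centralizer_ne_bot (EA_isPGroup hE) hS.isPGroup hSE hE0)
  have hz1' : z ≠ 1 := fun e => hz1 (Subtype.ext e)
  have hz2 : z ^ 2 = 1 := (isEA_iff.mp hE).2 z hzE
  have hSz : (S : Subgroup G) ≤ normalizer (zpowers z : Set G) :=
    le_norm_of_le_cent (mem_cent_iff_le.mp hzS)
  have hlt : zpowers z < E := by
    refine lt_of_le_of_ne (zpowers_le.mpr hzE) fun e => ?_
    rw [← e, Nat.card_zpowers, orderOf_eq_prime hz2 hz1'] at hE8
    omega
  obtain ⟨u, huE, hu, hc⟩ := exists_central_mod hS.isPGroup (EA_isPGroup hE) hSE hSz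
    (hES.trans hSz) hlt
  set U := zpowers z ⊔ zpowers u
  have hUE : U ≤ E := sup_le hlt.le (zpowers_le.mpr huE)
  have hU : IsElementaryAbelian 2 U := EA_mono hE hUE
  haveI : IsMulCommutative U := hU.1
  have hU4 : Nat.card U = 4 := by
    rw [H81.card_sup_zpowers ((isEA_iff.mp hE).2 u huE) hu (hSz (hES huE)), Nat.card_zpowers,
      orderOf_eq_prime hz2 hz1']
  have hnc : ¬ IsCyclic U := by
    intro hcyc
    have h1 := IsCyclic.exponent_eq_card (α := U)
    have h2 : Monoid.exponent U ∣ 2 := Monoid.exponent_dvd_of_forall_pow_eq_one fun x =>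
      Subtype.ext ((isEA_iff.mp hU).2 x x.2)
    rw [h1, hU4] at h2
    omega
  have hUc : U ≤ centMod S S (zpowers z) hSz := by
    refine sup_le (le_centMod.mpr ⟨hlt.le.trans hES, comm_le_right hSz⟩) ?_
    exact zpowers_le.mpr (mem_centMod.mpr ⟨hES huE, fun s hs => hc s (mem_sup_left hs)⟩)
  rw [eq_bot_iff]
  refine H4.le_of_centralizer_singleton_le hnc ((hUE.trans hES).trans hSX)
    (H4.coprime_card_of_isPGroup hXc (EA_isPGroup hU)).symm fun v hv hv1 => ?_
  refine (aux hS hXc hSX (by rw [← pow_two]; exact hz2) hzS (mem_centMod.mp (hUc hv)).2 ?_).le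
  rw [← centralizer_zpowers]
  exact charP_cent_of_norm (hloc _ ((EA_isPGroup hU).to_le (zpowers_le.mpr hv))
    (by simpa using hv1))

end Cfsg.Agent.S3246
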