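import Cfsg.Statements.S3265
import Cfsg.Agent.H98.OddInv

set_option autoImplicit false
open Cfsg

namespace Cfsg.Agent.S3265

open Equiv Equiv.Perm Finset H98.OddInv

/-- Let n ≥ 5 and let X be a conjugacy class of involutions of the symmetric group of degree n. The graph on X joining two distinct involutions whose product has odd order is connected and has diameter exactly 2. -/
theorem result (n : ℕ) (hn : 5 ≤ n) (t : Equiv.Perm (Fin n)) (ht : orderOf t = 2) :
    (SimpleGraph.fromRel fun x y : {x : Equiv.Perm (Fin n) // IsConj t x} =>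
        Odd (orderOf (x.1 * y.1))).Connected ∧
      (SimpleGraph.fromRel fun x y : {x : Equiv.Perm (Fin n) // IsConj t x} =>
        Odd (orderOf (x.1 * y.1))).diam = 2 := by
  set Γ := SimpleGraph.fromRel fun x y : {x : Equiv.Perm (Fin n) // IsConj t x} =>
        Odd (orderOf (x.1 * y.1)) with hΓ
  have hc : Fintype.card (Fin n) = n := Fintype.card_fin n
  have ht2 : t * t = 1 := by rw [← pow_two, ← ht, pow_orderOf_eq_one]
  have ht1 : t ≠ 1 := fun h => by rw [h, orderOf_one] at ht; omega
  have hsq : ∀ x : {x : Equiv.Perm (Fin n) // IsConj t x},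
      x.1 * x.1 = 1 ∧ x.1.support.card = t.support.card := by
    rintro ⟨x, hx⟩
    obtain ⟨g, rfl⟩ := isConj_iff.1 hx
    refine ⟨?_, card_support_conj⟩
    calc g * t * g⁻¹ * (g * t * g⁻¹) = g * (t * t) * g⁻¹ := by group
      _ = 1 := by rw [ht2]; group
  have h1 : Γ.ediam ≤ 2 := by
    refine SimpleGraph.ediam_le_of_edist_le fun x y => ?_
    obtain ⟨z, k1, k2, k3⟩ := exists_common (by omega) (hsq x).1 (hsq y).1
      ((hsq x).2.trans (hsq y).2.symm)
    have key : ∀ u v : {x : Equiv.Perm (Fin n) // IsConj t x}, Odd (orderOf (u.1 * v.1)) →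
        Γ.edist u v ≤ 1 := fun u v h => by
      rw [SimpleGraph.edist_le_one_iff_adj_or_eq]
      by_cases e : u = v
      · exact Or.inr e
      · exact Or.inl ((SimpleGraph.fromRel_adj _ _ _).2 ⟨e, Or.inl h⟩)
    set w : {x : Equiv.Perm (Fin n) // IsConj t x} := ⟨z, x.2.trans (isConj_of_odd (hsq x).1 k1 k2)⟩
    calc Γ.edist x y ≤ Γ.edist x w + Γ.edist w y := SimpleGraph.edist_triangle
      _ ≤ 1 + 1 := add_le_add (key x w k2) (by rw [SimpleGraph.edist_comm]; exact key y w k3)
      _ = 2 := one_add_one_eq_two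
  obtain ⟨s, hs1, hs2, hs3⟩ : ∃ s, IsConj t s ∧ s ≠ t ∧ t * s = s * t := by
    obtain ⟨a, ha⟩ := nonempty_iff_ne_empty.2 (mt support_eq_empty_iff.1 ht1)
    rw [mem_support] at ha
    by_cases h : ∃ c, t c ≠ c ∧ c ≠ a ∧ c ≠ t a
    · obtain ⟨c, k1, k2, k3⟩ := h
      have k4 : t c ≠ a := fun e => k3 (by rw [← e, inv2 ht2])
      have k5 : t c ≠ t a := fun e => k2 (t.injective e)
      have e1 : swap (t a) c * t * (swap (t a) c)⁻¹ = swap (t a) c * swap a (t c) * t := by
        rw [mul_assoc, mul_assoc, swap_inv]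
        congr 1
        rw [← mul_inv_eq_iff_eq_mul, ← swap_apply_apply, inv2 ht2]
      refine ⟨_, isConj_iff.2 ⟨swap (t a) c, rfl⟩, fun e => ?_, ?_⟩
      · have := congrArg (fun f : Perm (Fin n) => f a) e
        simp only [Perm.mul_apply, swap_inv] at this
        rw [swap_apply_of_ne_of_ne ha.symm k2.symm, swap_apply_left] at this
        exact k3 this
      · rw [e1, ← mul_assoc, mul_left_inj, ← mul_inv_eq_iff_eq_mul,
          show t * (swap (t a) c * swap a (t c)) * t⁻¹ =
            (t * swap (t a) c * t⁻¹) * (t * swap a (t c) * t⁻¹) by group,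
          ← swap_apply_apply, ← swap_apply_apply, inv2 ht2, inv2 ht2, ← mul_inv_eq_iff_eq_mul,
          ← swap_apply_apply, swap_apply_of_ne_of_ne ha k5.symm, swap_apply_of_ne_of_ne k2 k1.symm]
    · push Not at h
      obtain ⟨c, hc, d, hd, hcd⟩ := one_lt_card.1 (show 1 < ({a, t a}ᶜ : Finset (Fin n)).card by
        have := card_le_two (a := a) (b := t a)
        rw [card_compl]; omega)
      simp only [mem_compl, mem_insert, mem_singleton, not_or] at hc hd
      have e1 : t = swap a (t a) := by
        ext p : 1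
        by_cases k1 : p = a
        · rw [k1, swap_apply_left]
        by_cases k2 : p = t a
        · rw [k2, swap_apply_right, inv2 ht2]
        rw [swap_apply_of_ne_of_ne k1 k2]
        by_contra k3
        exact k2 (h p k3 k1)
      have f1 : t c = c := by by_contra k; exact hc.2 (h c k hc.1)
      have f2 : t d = d := by by_contra k; exact hd.2 (h d k hd.1)
      refine ⟨swap c d, e1 ▸ isConj_swap ha.symm hcd, fun e => ?_, ?_⟩
      · have := congrArg (fun f : Perm (Fin n) => f c) e
        simp only [swap_apply_left, f1] at this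
        exact hcd this.symm
      · rw [← mul_inv_eq_iff_eq_mul, ← swap_apply_apply, f1, f2]
  have h2 : 2 ≤ Γ.ediam := by
    refine le_trans ?_ (SimpleGraph.edist_le_ediam (u := ⟨t, IsConj.refl t⟩) (v := ⟨s, hs1⟩))
    have hs4 := (hsq ⟨s, hs1⟩).1
    have h3 : orderOf (t * s) = 2 := by
      refine orderOf_eq_prime ?_ fun e => hs2 ?_
      · rw [pow_two, mul_assoc, ← mul_assoc s, ← hs3, mul_assoc, hs4, mul_one, ht2]
      · rw [← inv_eq_of_mul_eq_one_right e, inv_eq_of_mul_eq_one_right ht2]
    by_contra hlt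
    rw [not_le, ← one_add_one_eq_two, ENat.lt_add_one_iff (by simp),
      SimpleGraph.edist_le_one_iff_adj_or_eq, SimpleGraph.fromRel_adj] at hlt
    rcases hlt with ⟨-, h | h⟩ | h
    · simp only [h3] at h; exact absurd h (by decide)
    · simp only [← hs3, h3] at h; exact absurd h (by decide)
    · exact hs2 (congrArg Subtype.val h).symm
  have h3 : Γ.ediam = 2 := le_antisymm h1 h2
  haveI : Nonempty {x : Equiv.Perm (Fin n) // IsConj t x} := ⟨⟨t, IsConj.refl t⟩⟩
  exact ⟨SimpleGraph.connected_of_ediam_ne_top (by rw [h3]; simp), by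
    rw [SimpleGraph.diam, h3]; rfl⟩

end Cfsg.Agent.S3265
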