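import Cfsg.Statements.S3266
import Cfsg.Agent.H98.OddInv
import Cfsg.Agent.H29.Binary

set_option autoImplicit false
open Cfsg

namespace Cfsg.Agent.S3266

open Matrix
open scoped MatrixGroups

section
variable {F : Type*} [Field F]

/-- projection to `PSL₂` -/
abbrev mk : SL(2, F) →* PSL(2, F) := QuotientGroup.mk' _

theorem cmul (A B : SL(2, F)) : (A * B).1 = A.1 * B.1 := rfl

theorem cpow (A : SL(2, F)) (n : ℕ) : (A ^ n).1 = A.1 ^ n := Matrix.SpecialLinearGroup.coe_pow A n

theorem det2 (M : SL(2, F)) : M.1 0 0 * M.1 1 1 - M.1 0 1 * M.1 1 0 = 1 := by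
  rw [← det_fin_two]; exact M.2

theorem mk_eq_one {M : SL(2, F)} : mk M = 1 ↔ ∃ c : F, M.1 = c • 1 := by
  rw [QuotientGroup.mk'_apply, QuotientGroup.eq_one_iff, Matrix.SpecialLinearGroup.mem_center_iff]
  constructor
  · rintro ⟨r, -, h⟩
    exact ⟨r, by rw [← h, scalar_apply, smul_one_eq_diagonal]⟩
  · rintro ⟨c, h⟩
    refine ⟨c, ?_, by rw [h, scalar_apply, smul_one_eq_diagonal]⟩
    have := M.2
    rwa [h, det_smul, det_one, mul_one] at this

theorem cayley (M : SL(2, F)) : M.1 * M.1 = M.1.trace • M.1 - 1 := by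
  have := det2 M
  ext i j
  fin_cases i <;> fin_cases j <;> simp [mul_apply, Fin.sum_univ_two, trace_fin_two]
  · linear_combination -this
  · ring
  · ring
  · linear_combination -this

/-- elements of trace `τ` have odd order in `PSL₂` -/
def O (τ : F) : Prop := ∀ M : SL(2, F), M.1.trace = τ → Odd (orderOf (mk M))

theorem odd_of_pow {M : SL(2, F)} {n : ℕ} (hn : Odd n) {c : F} (h : M.1 ^ n = c • 1) :
    Odd (orderOf (mk M)) :=
  hn.of_dvd_nat (orderOf_dvd_of_pow_eq_one (by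
    rw [← map_pow, mk_eq_one]; exact ⟨c, by rw [cpow, h]⟩))

theorem O_one {τ : F} (h : τ ^ 2 = 1) : O τ := fun M hM => by
  refine odd_of_pow (n := 3) (by decide) (c := -τ) ?_
  rw [pow_three, cayley, mul_sub, mul_smul_comm, cayley, hM, smul_sub, smul_smul, ← pow_two, h]
  simp

theorem O_two [Fintype F] (h2 : (2 : F) ≠ 0) {τ : F} (h : τ ^ 2 = 4) : O τ := fun M hM => by
  obtain ⟨p, hp⟩ := CharP.exists F
  have hpr := CharP.char_is_prime F p
  have hp2 : p ≠ 2 := by rintro rfl; exact h2 (CharP.cast_eq_zero F 2)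
  have key : ∀ n : ℕ, M.1 ^ n = (τ / 2) ^ n • ((1 - n : F) • 1 + (n * (τ / 2)) • M.1) := by
    intro n
    induction n with
    | zero => simp
    | succ n ih =>
      rw [pow_succ, ih, smul_mul_assoc, add_mul, smul_mul_assoc, smul_mul_assoc, cayley, hM, one_mul]
      have h3 : τ / 2 * (τ / 2) = 1 := by field_simp; linear_combination h
      have h4 : τ = 2 * (τ / 2) := by field_simp
      generalize τ / 2 = e at *
      subst h4
      push_cast
      match_scalars
      · linear_combination (e ^ n * (n - 1) : F) * h3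
      · ring
  exact odd_of_pow (hpr.odd_of_ne_two hp2) (c := (τ / 2) ^ p) (by rw [key]; simp)

theorem O_split [Fintype F] (h : Fintype.card F % 4 = 3) {μ : F} (hμ : μ ≠ 0) : O (μ + μ⁻¹) := by
  have h2 : (2 : F) ≠ 0 := Ring.two_ne_zero fun e => by
    have := FiniteField.even_card_of_char_two e; omega
  by_cases h1 : μ - μ⁻¹ = 0
  · refine O_two h2 ?_
    have := mul_inv_cancel₀ hμ
    linear_combination (μ - μ⁻¹) * h1 + 4 * this
  intro M hM
  have key : ∀ n : ℕ, (μ - μ⁻¹) • M.1 ^ (n + 1) =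
      (μ ^ (n + 1) - μ⁻¹ ^ (n + 1)) • M.1 - (μ ^ n - μ⁻¹ ^ n) • 1 := by
    intro n
    induction n with
    | zero => simp
    | succ n ih =>
      rw [pow_succ M.1, ← smul_mul_assoc, ih, sub_mul, smul_mul_assoc, smul_mul_assoc, cayley, hM,
        one_mul]
      have := mul_inv_cancel₀ hμ
      generalize μ⁻¹ = ν at *
      match_scalars
      · linear_combination (μ ^ n - ν ^ n) * this
      · ring
  obtain ⟨k, hk⟩ : ∃ k, Fintype.card F - 1 = (2 * k + 1) + (2 * k + 1) :=
    ⟨Fintype.card F / 4, by omega⟩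
  have h3 := FiniteField.pow_card_sub_one_eq_one μ hμ
  rw [hk, pow_add] at h3
  have h4 : μ ^ (2 * k + 1) - μ⁻¹ ^ (2 * k + 1) = 0 := by
    rw [inv_pow, sub_eq_zero]; exact eq_inv_of_mul_eq_one_left h3
  have h5 := key (2 * k)
  rw [h4, zero_smul, zero_sub] at h5
  refine odd_of_pow (odd_two_mul_add_one k) (c := -(μ - μ⁻¹)⁻¹ * (μ ^ (2 * k) - μ⁻¹ ^ (2 * k))) ?_
  rw [← inv_smul_smul₀ h1 (M.1 ^ (2 * k + 1)), h5, smul_neg, smul_smul, neg_mul, neg_smul]

theorem O_char_two [Fintype F] (h2 : (2 : F) = 0) {τ : F} (h : τ ≠ 0) : O τ := fun M hM => by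
  have key : ∀ n : ℕ, ∃ a b : F, M.1 ^ n = a • M.1 + b • 1 := by
    intro n
    induction n with
    | zero => exact ⟨0, 1, by simp⟩
    | succ n ih =>
      obtain ⟨a, b, ih⟩ := ih
      refine ⟨a * τ + b, -a, ?_⟩
      rw [pow_succ, ih, add_mul, smul_mul_assoc, smul_mul_assoc, cayley, hM, one_mul]
      module
  by_contra hc
  obtain ⟨j, hj⟩ := Nat.not_odd_iff_even.1 hc
  have h0 := orderOf_pos (mk M)
  obtain ⟨a, b, hab⟩ := key j
  obtain ⟨c, hc'⟩ := mk_eq_one.1 (show mk (M ^ (j + j)) = 1 by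
    rw [map_pow, ← hj, pow_orderOf_eq_one])
  rw [cpow, pow_add, hab, add_mul, mul_add, mul_add, smul_mul_smul_comm,
    smul_mul_smul_comm, smul_mul_smul_comm, smul_mul_smul_comm, cayley, hM] at hc'
  have h3 := congrArg (fun N => trace (N * M.1)) hc'
  have h4 : a = 0 := by
    simp only [mul_one, one_mul, add_mul, smul_mul_assoc, sub_mul, cayley, hM, trace_add,
      trace_smul, trace_sub, trace_one, smul_eq_mul, Fintype.card_fin, Nat.cast_ofNat] at h3
    have h5 := congrArg trace hc'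
    simp only [mul_one, one_mul, hM, trace_add,
      trace_smul, trace_sub, trace_one, smul_eq_mul, Fintype.card_fin, Nat.cast_ofNat] at h5
    have : (a * τ) ^ 2 = 0 := by linear_combination h5 + (a * a - a * b * τ - b * b + c) * h2
    simpa [h] using this
  have h5 : mk M ^ j = 1 := by
    rw [← map_pow, mk_eq_one]
    exact ⟨b, by rw [cpow, hab, h4, zero_smul, zero_add]⟩
  have := Nat.le_of_dvd (by omega) (orderOf_dvd_of_pow_eq_one h5)
  omega

theorem Dlem {A B : SL(2, F)} (hA : A.1.trace = 0) (hB : B.1.trace = 0) {u s t w : F}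
    (hu : (A.1 * B.1).trace = u) (h4 : 4 - u ^ 2 ≠ 0)
    (hw : w ^ 2 = 4 - u ^ 2 - s ^ 2 - t ^ 2 - u * s * t) :
    ∃ Z : SL(2, F), Z.1.trace = 0 ∧ (A.1 * Z.1).trace = s ∧ (B.1 * Z.1).trace = t := by
  have dA := det2 A
  have dB := det2 B
  simp only [trace_fin_two, mul_apply, Fin.sum_univ_two] at hA hB hu
  have eA : A.1 1 1 = -A.1 0 0 := by linear_combination hA
  have eB : B.1 1 1 = -B.1 0 0 := by linear_combination hB
  rw [eA] at dA hu
  rw [eB] at dB hu
  have gen : ∀ α β γ : F, (α • A.1 + β • B.1 + γ • (A.1 * B.1 - B.1 * A.1)).det =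
      α ^ 2 + β ^ 2 - α * β * u + γ ^ 2 * (4 - u ^ 2) ∧
      (α • A.1 + β • B.1 + γ • (A.1 * B.1 - B.1 * A.1)).trace = 0 ∧
      (A.1 * (α • A.1 + β • B.1 + γ • (A.1 * B.1 - B.1 * A.1))).trace = -2 * α + β * u ∧
      (B.1 * (α • A.1 + β • B.1 + γ • (A.1 * B.1 - B.1 * A.1))).trace = α * u - 2 * β := by
    intro α β γ
    simp only [det_fin_two, trace_fin_two, mul_apply, Fin.sum_univ_two, Matrix.add_apply,
      Matrix.smul_apply, Matrix.sub_apply, smul_eq_mul, eA, eB]
    subst hu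
    refine ⟨?_, by ring, ?_, ?_⟩
    · linear_combination (α ^ 2 + 4 * γ ^ 2 * (B.1 0 0 * -B.1 0 0 - B.1 0 1 * B.1 1 0)) * dA +
        (β ^ 2 + 4 * γ ^ 2) * dB
    · linear_combination (-2 * α) * dA
    · linear_combination (-2 * β) * dB
  obtain ⟨g1, g2, g3, g4⟩ := gen ((-2 * s - u * t) / (4 - u ^ 2)) ((-2 * t - u * s) / (4 - u ^ 2))
    (w / (4 - u ^ 2))
  refine ⟨⟨_, g1.trans ?_⟩, g2, g3.trans ?_, g4.trans ?_⟩
  · field_simp
    linear_combination (4 - u ^ 2) * hw
  · field_simp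
    ring
  · field_simp
    ring

theorem cubic [Fintype F] (hq : 7 < Fintype.card F) (h1 : ¬ IsSquare (-1 : F)) {κ e1 e2 e3 : F}
    (hκ : κ ≠ 0) (h12 : e1 ≠ e2) : ∃ b, ¬ IsSquare (κ * ((b - e1) * (b - e2) * (b - e3))) := by
  classical
  by_contra hc
  push Not at hc
  have key : ∀ b, b ≠ e1 → b ≠ e2 → b ≠ e3 → IsSquare ((e1 + e2 - e3 - b) / (b - e3)) := by
    intro b k1 k2 k3
    obtain ⟨x, hx⟩ := hc b
    obtain ⟨y, hy⟩ := hc (e1 + e2 - b)
    rw [← sub_ne_zero] at k1 k2 k3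
    refine ⟨x * y / (κ * (b - e1) * (b - e2) * (b - e3)), ?_⟩
    field_simp
    linear_combination (κ * ((e1 + e2 - b - e1) * (e1 + e2 - b - e2) * (e1 + e2 - b - e3))) * hx +
      x * x * hy
  set T : Finset F := {e1, e2, e3}ᶜ with hT
  have hTc : Fintype.card F ≤ T.card + 3 := by
    have := Finset.card_le_three (a := e1) (b := e2) (c := e3)
    rw [hT, Finset.card_compl]; omega
  have hmem : ∀ b ∈ T, b ≠ e1 ∧ b ≠ e2 ∧ b ≠ e3 := fun b hb => by simpa [hT] using hb
  by_cases h3 : e1 + e2 - e3 = e3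
  · obtain ⟨b, hb⟩ := Finset.card_pos.1 (show 0 < T.card by omega)
    obtain ⟨k1, k2, k3⟩ := hmem b hb
    have := key b k1 k2 k3
    rw [h3, show (e3 - b) / (b - e3) = -1 by rw [← sub_ne_zero] at k3; field_simp; ring] at this
    exact h1 this
  set S : Finset F := Finset.univ.filter IsSquare with hS
  have h4 : T.card ≤ S.card := by
    refine Finset.card_le_card_of_injOn (fun b => (e1 + e2 - e3 - b) / (b - e3)) (fun b hb => ?_)
      fun b hb c hc h => ?_
    · obtain ⟨k1, k2, k3⟩ := hmem b hb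
      simpa [hS] using key b k1 k2 k3
    · have k1 := sub_ne_zero.2 (hmem b hb).2.2
      have k2 := sub_ne_zero.2 (hmem c hc).2.2
      simp only at h
      rw [div_eq_div_iff k1 k2] at h
      refine mul_left_cancel₀ (sub_ne_zero.2 h3) ?_
      linear_combination -h
  have h5 : (S ∩ S.image fun x => -x) ⊆ {0} := by
    intro x hx
    obtain ⟨k1, k2⟩ := Finset.mem_inter.1 hx
    obtain ⟨y, k3, rfl⟩ := Finset.mem_image.1 k2
    simp only [hS, Finset.mem_filter, Finset.mem_univ, true_and] at k1 k3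
    by_contra h0
    have h6 : y ≠ 0 := by simpa using h0
    have := k1.div k3
    rw [neg_div, div_self h6] at this
    exact h1 this
  have h6 := Finset.card_union_add_card_inter S (S.image fun x => -x)
  rw [Finset.card_image_of_injective _ neg_injective] at h6
  have h7 := Finset.card_le_card h5
  have h8 := Finset.card_le_univ (S ∪ S.image fun x => -x)
  rw [Finset.card_singleton] at h7
  omega

theorem sum_sq [Fintype F] (h : Fintype.card F % 2 = 1) (c : F) : ∃ x y : F, x ^ 2 + y ^ 2 = c := by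
  obtain ⟨a, b, hab⟩ := FiniteField.exists_root_sum_quadratic (f := Polynomial.X ^ 2)
    (g := Polynomial.X ^ 2 - Polynomial.C c) (Polynomial.degree_X_pow 2)
    (Polynomial.degree_X_pow_sub_C (by decide) _) h
  refine ⟨a, b, ?_⟩
  simp at hab
  linear_combination hab

theorem exists_stw [Fintype F] (hF : 4 ≤ Fintype.card F) (h2 : (2 : F) ≠ 0) (u : F) :
    O u ∨ ∃ s t w : F, O s ∧ O t ∧ w ^ 2 = 4 - u ^ 2 - s ^ 2 - t ^ 2 - u * s * t := by
  classical
  have o2 : O (2 : F) := O_two h2 (by norm_num)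
  by_cases h1 : IsSquare (-1 : F)
  · obtain ⟨i, hi⟩ := h1
    exact Or.inr ⟨2, 2, i * (u + 2), o2, o2, by linear_combination -(u + 2) ^ 2 * hi⟩
  have h3 : Fintype.card F % 4 = 3 := by
    by_contra h; exact h1 (FiniteField.isSquare_neg_one_iff.2 h)
  have o1 : O (1 : F) := O_one (by norm_num)
  have o1' : O (-1 : F) := O_one (by norm_num)
  by_cases h7 : Fintype.card F = 7
  · have h8 : (7 : F) = 0 := by
      have := FiniteField.cast_card_eq_zero F
      rwa [h7] at this
    have h9 := FiniteField.pow_card u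
    rw [h7] at h9
    have h10 : u * ((u ^ 2 - 1) * ((u ^ 2 - 4) * ((u - 3) * (u + 3)))) = 0 := by
      linear_combination h9 + (-2 * u ^ 5 + 7 * u ^ 3 - 5 * u) * h8
    simp only [mul_eq_zero] at h10
    rcases h10 with h | h | h | h | h
    · exact Or.inr ⟨1, 1, 3, o1, o1, by rw [h]; linear_combination h8⟩
    · exact Or.inl (O_one (by linear_combination h))
    · exact Or.inl (O_two h2 (by linear_combination h))
    · obtain rfl : u = 3 := by linear_combination h
      exact Or.inr ⟨1, 1, 2, o1, o1, by linear_combination 2 * h8⟩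
    · obtain rfl : u = -3 := by linear_combination h
      exact Or.inr ⟨1, -1, 2, o1, o1', by linear_combination 2 * h8⟩
  right
  obtain ⟨α, δ, hαδ⟩ := sum_sq (F := F) (by omega) ((u / 2) ^ 2 - 1)
  obtain ⟨β, γ, e1, e2⟩ : ∃ β γ : F, u = γ - β ∧ α ^ 2 + β * γ + 1 = 0 :=
    ⟨δ - u / 2, δ + u / 2, by field_simp; ring, by linear_combination hαδ⟩
  have hγ : γ ≠ 0 := by
    rintro rfl
    exact h1 ⟨α, by linear_combination -e2⟩
  have hβ : β ≠ 0 := by
    rintro rfl
    exact h1 ⟨α, by linear_combination -e2⟩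
  obtain ⟨b, hb⟩ : ∃ b, ¬ IsSquare (b * (α * b + β) * (γ * b - α)) := by
    by_cases hα : α = 0
    · subst hα
      exact ⟨1, by rwa [show 1 * (0 * 1 + β) * (γ * 1 - 0) = -1 by linear_combination e2]⟩
    · obtain ⟨b, hb⟩ := cubic (by omega) h1 (mul_ne_zero hα hγ) (e1 := 0) (e2 := -β / α)
        (e3 := α / γ) (by simp [eq_comm, hα, hβ])
      refine ⟨b, ?_⟩
      convert hb using 2
      field_simp
      ring
  have hf : b * (α * b + β) * (γ * b - α) ≠ 0 := fun e => hb (e ▸ IsSquare.zero)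
  obtain ⟨e, he⟩ : IsSquare (-(b * (α * b + β) * (γ * b - α))) := by
    rw [← quadraticChar_one_iff_isSquare (neg_ne_zero.2 hf), neg_eq_neg_one_mul, map_mul,
      quadraticChar_neg_one_iff_not_isSquare.2 h1, quadraticChar_neg_one_iff_not_isSquare.2 hb]
    norm_num
  have he0 : e ≠ 0 := by rintro rfl; exact hf (by linear_combination -he)
  have hP : α * b + β ≠ 0 := fun h => hf (by rw [h]; ring)
  have hR : γ * b - α ≠ 0 := fun h => hf (by rw [h]; ring)
  obtain ⟨c, hc0, hc⟩ : ∃ c : F, c ≠ 0 ∧ c ^ 2 * (γ * b - α) = -b * (α * b + β) :=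
    ⟨e / (γ * b - α), div_ne_zero he0 hR, by field_simp; linear_combination -he⟩
  have h5 := O_split h3 (μ := -((α * b + β) / c)) (neg_ne_zero.2 (div_ne_zero hP hc0))
  rw [show -((α * b + β) / c) + (-((α * b + β) / c))⁻¹ = γ * c - β / c by
    field_simp; linear_combination -α * hc - c ^ 2 * e2] at h5
  refine ⟨_, _, α * (c - c⁻¹), O_split h3 (neg_ne_zero.2 hc0), h5, ?_⟩
  subst e1
  field_simp
  linear_combination (c ^ 2 - 1) ^ 2 * e2

theorem exists_Z [Fintype F] (hF : 4 ≤ Fintype.card F) {A B : SL(2, F)} (hA : A.1.trace = 0)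
    (hB : B.1.trace = 0) (hA1 : mk A ≠ 1) (hB1 : mk B ≠ 1) :
    ∃ Z : SL(2, F), Z.1.trace = 0 ∧ O (A.1 * Z.1).trace ∧ O (B.1 * Z.1).trace := by
  by_cases h2 : (2 : F) = 0
  · have key : ∀ C : SL(2, F), C.1.trace = 0 → mk C ≠ 1 → ¬ (C.1 0 1 = 0 ∧ C.1 1 0 = 0) := by
      rintro C k1 k2 ⟨k3, k4⟩
      refine k2 (mk_eq_one.2 ⟨C.1 0 0, ?_⟩)
      rw [trace_fin_two] at k1
      ext i j
      fin_cases i <;> fin_cases j <;> simp [k3, k4]
      linear_combination k1 - C.1 0 0 * h2
    have a1 := key A hA hA1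
    have b1 := key B hB hB1
    obtain ⟨x, y, k1, k2⟩ : ∃ x y : F, A.1 0 1 * y + A.1 1 0 * x ≠ 0 ∧
        B.1 0 1 * y + B.1 1 0 * x ≠ 0 := by
      by_contra hc
      push Not at hc
      have c1 := hc 1 0
      have c2 := hc 0 1
      have c3 := hc 1 1
      simp only [mul_one, mul_zero, add_zero, zero_add] at c1 c2 c3
      by_cases d1 : A.1 0 1 = 0 <;> by_cases d2 : A.1 1 0 = 0
      · exact a1 ⟨d1, d2⟩
      · have := c3 (by rwa [d1, zero_add])
        rw [c1 d2, add_zero] at this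
        exact b1 ⟨this, c1 d2⟩
      · have := c3 (by rwa [d2, add_zero])
        rw [c2 d1, zero_add] at this
        exact b1 ⟨c2 d1, this⟩
      · exact b1 ⟨c2 d1, c1 d2⟩
    have hr : ringChar F = 2 := by
      by_contra h; exact Ring.two_ne_zero h h2
    obtain ⟨z, hz⟩ := FiniteField.isSquare_of_char_two hr (1 + x * y)
    rw [trace_fin_two] at hA hB
    refine ⟨⟨!![z, x; y, z], by rw [det_fin_two_of]; linear_combination -hz⟩, ?_,
      O_char_two h2 ?_, O_char_two h2 ?_⟩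
    · simp only [trace_fin_two_of]; linear_combination z * h2
    · convert k1 using 1
      simp [trace_fin_two, mul_apply, Fin.sum_univ_two]
      linear_combination z * hA
    · convert k2 using 1
      simp [trace_fin_two, mul_apply, Fin.sum_univ_two]
      linear_combination z * hB
  have h3 : O (A.1 * B.1).trace → ∃ Z : SL(2, F), Z.1.trace = 0 ∧ O (A.1 * Z.1).trace ∧
      O (B.1 * Z.1).trace := fun h =>
    ⟨B, hB, h, O_two h2 (by rw [cayley, hB]; simp; norm_num)⟩
  by_cases h4 : 4 - (A.1 * B.1).trace ^ 2 = 0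
  · exact h3 (O_two h2 (by linear_combination -h4))
  rcases exists_stw hF h2 (A.1 * B.1).trace with h | ⟨s, t, w, k1, k2, k3⟩
  · exact h3 h
  · obtain ⟨Z, l1, l2, l3⟩ := Dlem hA hB rfl h4 k3
    exact ⟨Z, l1, l2 ▸ k1, l3 ▸ k2⟩

theorem sq_of_trace {Z : SL(2, F)} (h : Z.1.trace = 0) : mk Z * mk Z = 1 := by
  rw [← map_mul, mk_eq_one]
  exact ⟨-1, by rw [cmul, cayley, h]; simp⟩

theorem trace_of_sq {Z : SL(2, F)} (h : mk Z * mk Z = 1) (h1 : mk Z ≠ 1) : Z.1.trace = 0 := by
  by_contra h0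
  rw [← map_mul, mk_eq_one, cmul, cayley] at h
  obtain ⟨c, hc⟩ := h
  refine h1 (mk_eq_one.2 ⟨(Z.1.trace)⁻¹ * (c + 1), ?_⟩)
  rw [mul_smul, add_smul, ← hc, one_smul, sub_add_cancel, inv_smul_smul₀ h0]

theorem exists_pair [Fintype F] (hF : 4 ≤ Fintype.card F) :
    ∃ A B : SL(2, F), A.1.trace = 0 ∧ B.1.trace = 0 ∧ (A * B).1.trace = 0 ∧ mk A ≠ 1 ∧ mk B ≠ 1 ∧
      mk (A * B) ≠ 1 := by
  classical
  have ne : ∀ C : SL(2, F), C.1 0 1 ≠ 0 ∨ C.1 0 0 ≠ C.1 1 1 → mk C ≠ 1 := fun C h e => by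
    obtain ⟨c, hc⟩ := mk_eq_one.1 e
    simp [hc] at h
  by_cases h2 : (2 : F) = 0
  · obtain ⟨k, -, hk⟩ := Finset.exists_mem_notMem_of_card_lt_card (s := ({0, -1} : Finset F))
      (t := Finset.univ) (by
        have := Finset.card_le_two (a := (0 : F)) (b := -1)
        rw [Finset.card_univ]; omega)
    simp only [Finset.mem_insert, Finset.mem_singleton, not_or] at hk
    refine ⟨⟨!![1, 1; 0, 1], by simp [det_fin_two_of]⟩, ⟨!![1, k; 0, 1], by simp [det_fin_two_of]⟩,
      ?_, ?_, ?_, ne _ (by simp), ne _ (by simp [hk.1]), ne _ (Or.inl ?_)⟩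
    · simp only [trace_fin_two_of]; linear_combination h2
    · simp only [trace_fin_two_of]; linear_combination h2
    · erw [cmul]; simp [trace_fin_two]; linear_combination h2
    · erw [cmul]; simpa [add_eq_zero_iff_eq_neg] using hk.2
  · have hr : ringChar F ≠ 2 := fun e => h2 (by
      have := ringChar.Nat.cast_ringChar (R := F)
      rwa [e] at this)
    obtain ⟨x, y, hxy⟩ := sum_sq (FiniteField.odd_card_of_char_ne_two hr) (-1 : F)
    have h3 : y ≠ 0 ∨ x ≠ 0 := by
      by_contra h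
      push Not at h
      simp [h.1, h.2] at hxy
    have h4 : ∀ v : F, v ≠ 0 → v ≠ -v := fun v hv e => mul_ne_zero h2 hv (by linear_combination e)
    refine ⟨⟨!![0, 1; -1, 0], by simp [det_fin_two_of]⟩,
      ⟨!![x, y; y, -x], by rw [det_fin_two_of]; linear_combination -hxy⟩,
      by simp [trace_fin_two], by simp [trace_fin_two], by erw [cmul]; simp [trace_fin_two],
      ne _ (by simp),
      ne _ ?_, ne _ ?_⟩
    · simpa using h3.imp_right (h4 x)
    · erw [cmul]; simpa using (h3.imp_left (h4 y)).symm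

end

/-- Let F be a finite field with at least 4 elements and let X be a conjugacy class of involutions of PSL(2, F). The graph on X joining two distinct involutions whose product has odd order is connected and has diameter exactly 2. -/
theorem result {F : Type*} [Field F] [Fintype F] (hF : 4 ≤ Fintype.card F)
    (t : Matrix.ProjectiveSpecialLinearGroup (Fin 2) F) (ht : orderOf t = 2) :
    (SimpleGraph.fromRel fun x y : {x : Matrix.ProjectiveSpecialLinearGroup (Fin 2) F // IsConj t x} =>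
        Odd (orderOf (x.1 * y.1))).Connected ∧
      (SimpleGraph.fromRel fun x y : {x : Matrix.ProjectiveSpecialLinearGroup (Fin 2) F // IsConj t x} =>
        Odd (orderOf (x.1 * y.1))).diam = 2 := by
  set Γ := SimpleGraph.fromRel fun x y : {x : PSL(2, F) // IsConj t x} =>
        Odd (orderOf (x.1 * y.1)) with hΓ
  have ht2 : t * t = 1 := by have := pow_orderOf_eq_one t; rwa [ht, pow_two] at this
  have ht1 : t ≠ 1 := fun h => by rw [h, orderOf_one] at ht; omega
  have hsq : ∀ x : {x : PSL(2, F) // IsConj t x}, x.1 * x.1 = 1 ∧ x.1 ≠ 1 := by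
    rintro ⟨x, hx⟩
    obtain ⟨g, rfl⟩ := isConj_iff.1 hx
    refine ⟨?_, fun h => ht1 (by simpa using h)⟩
    calc g * t * g⁻¹ * (g * t * g⁻¹) = g * (t * t) * g⁻¹ := by group
      _ = 1 := by rw [ht2]; group
  have h1 : Γ.ediam ≤ 2 := by
    refine SimpleGraph.ediam_le_of_edist_le fun x y => ?_
    obtain ⟨A, hA⟩ : ∃ A, mk A = x.1 := QuotientGroup.mk'_surjective _ x.1
    obtain ⟨B, hB⟩ : ∃ B, mk B = y.1 := QuotientGroup.mk'_surjective _ y.1
    obtain ⟨a1, a2⟩ := hsq x
    obtain ⟨b1, b2⟩ := hsq y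
    rw [← hA] at a1 a2
    rw [← hB] at b1 b2
    obtain ⟨Z, k1, k2, k3⟩ := exists_Z hF (trace_of_sq a1 a2) (trace_of_sq b1 b2) a2 b2
    have k4 := k2 (A * Z) rfl
    have k5 := k3 (B * Z) rfl
    rw [map_mul, hA] at k4
    rw [map_mul, hB] at k5
    have key : ∀ u v : {x : PSL(2, F) // IsConj t x}, Odd (orderOf (u.1 * v.1)) →
        Γ.edist u v ≤ 1 := fun u v h => by
      rw [SimpleGraph.edist_le_one_iff_adj_or_eq]
      by_cases e : u = v
      · exact Or.inr e
      · exact Or.inl ((SimpleGraph.fromRel_adj _ _ _).2 ⟨e, Or.inl h⟩)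
    set w : {x : PSL(2, F) // IsConj t x} :=
      ⟨mk Z, x.2.trans (H98.OddInv.isConj_of_odd (hsq x).1 (sq_of_trace k1) k4)⟩
    calc Γ.edist x y ≤ Γ.edist x w + Γ.edist w y := SimpleGraph.edist_triangle
      _ ≤ 1 + 1 := add_le_add (key x w k4) (by rw [SimpleGraph.edist_comm]; exact key y w k5)
      _ = 2 := one_add_one_eq_two
  have h2 : 2 ≤ Γ.ediam := by
    obtain ⟨A, B, a1, b1, c1, a2, b2, c2⟩ := exists_pair hF
    refine le_trans ?_ (SimpleGraph.edist_le_ediam
      (u := ⟨mk A, H29.psl_invol_isConj _ _ ht1 a2 ht2 (sq_of_trace a1)⟩)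
      (v := ⟨mk B, H29.psl_invol_isConj _ _ ht1 b2 ht2 (sq_of_trace b1)⟩))
    have h3 : orderOf (mk A * mk B) = 2 := by
      rw [← map_mul]
      exact orderOf_eq_prime (by rw [pow_two, sq_of_trace c1]) c2
    have h4 : orderOf (mk B * mk A) = 2 := by
      refine Eq.trans ?_ h3
      rw [← orderOf_inv, _root_.mul_inv_rev, inv_eq_of_mul_eq_one_right (sq_of_trace a1),
        inv_eq_of_mul_eq_one_right (sq_of_trace b1)]
    by_contra hlt
    rw [not_le, ← one_add_one_eq_two (R := ℕ∞), ENat.lt_add_one_iff (by simp),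
      SimpleGraph.edist_le_one_iff_adj_or_eq, SimpleGraph.fromRel_adj] at hlt
    rcases hlt with ⟨-, h | h⟩ | h
    · simp only [h3] at h; exact absurd h (by decide)
    · simp only [h4] at h; exact absurd h (by decide)
    · have h5 : mk A = mk B := congrArg Subtype.val h
      exact c2 (by rw [map_mul, h5, sq_of_trace b1])
  have h3 : Γ.ediam = 2 := le_antisymm h1 h2
  haveI : Nonempty {x : PSL(2, F) // IsConj t x} := ⟨⟨t, IsConj.refl t⟩⟩
  exact ⟨SimpleGraph.connected_of_ediam_ne_top (by rw [h3]; simp), by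
    rw [SimpleGraph.diam, h3]; rfl⟩

end Cfsg.Agent.S3266
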