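import Cfsg.Statements.S3269
import Cfsg.Agent.H81.ZCor

set_option autoImplicit false
open Cfsg

namespace Cfsg.Agent.S3269

open Subgroup Cfsg.Agent.H85 Cfsg.Agent.H81
open scoped commutatorElement

theorem quat_inv (n : ℕ) (hn : 1 ≤ n) {x y : QuaternionGroup (2 ^ n)} (hx : orderOf x = 2)
    (hy : orderOf y = 2) : x = y := by
  have key : ∀ x : QuaternionGroup (2 ^ n), orderOf x = 2 →
      x = QuaternionGroup.a ((2 ^ n : ℕ) : ZMod (2 * 2 ^ n)) := by
    intro x hx
    haveI : NeZero (2 ^ n) := ⟨by positivity⟩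
    cases x with
    | xa i => rw [QuaternionGroup.orderOf_xa] at hx; omega
    | a i =>
      have h1 := H10.mul_self_of_orderOf_two hx
      have h2 := H10.ne_one_of_orderOf_two hx
      rw [QuaternionGroup.a_mul_a, QuaternionGroup.one_def] at h1
      have h3 : i + i = 0 := QuaternionGroup.a.inj h1
      have h4 : i ≠ 0 := fun h => h2 (by rw [h]; rfl)
      congr 1
      have h5 : ((i.val + i.val : ℕ) : ZMod (2 * 2 ^ n)) = 0 := by
        push_cast; simpa using h3
      rw [ZMod.natCast_eq_zero_iff] at h5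
      have h6 : i.val < 2 * 2 ^ n := ZMod.val_lt i
      have h7 : i.val ≠ 0 := fun h => h4 ((ZMod.val_eq_zero i).mp h)
      obtain ⟨k, hk⟩ := h5
      have h8 : k = 1 := by
        rcases k with _ | _ | k
        · omega
        · rfl
        · exfalso; nlinarith [Nat.pos_of_ne_zero (NeZero.ne (2 ^ n))]
      subst h8
      have : i.val = 2 ^ n := by omega
      exact (ZMod.natCast_zmod_val i).symm.trans (by rw [this])
  rw [key x hx, key y hy]

theorem quat_noncomm (n : ℕ) (hn : 1 ≤ n) : ∃ x y : QuaternionGroup (2 ^ n), x * y ≠ y * x := by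
  refine ⟨QuaternionGroup.a 1, QuaternionGroup.xa 0, fun h => ?_⟩
  rw [QuaternionGroup.a_mul_xa, QuaternionGroup.xa_mul_a] at h
  have h1 := QuaternionGroup.xa.inj h
  have h2 : ((2 : ℕ) : ZMod (2 * 2 ^ n)) = 0 := by
    push_cast; linear_combination -h1
  rw [ZMod.natCast_eq_zero_iff] at h2
  have := Nat.le_of_dvd (by norm_num) h2
  have h3 : 2 ^ 1 ≤ 2 ^ n := Nat.pow_le_pow_right (by norm_num) hn
  omega


/-- Let G be a finite group whose Sylow 2-subgroup S is an internal direct product Q × R with Q generalized quaternion (of order at least 8) and R a subgroup all of whose involutions are central in R. Then G is not simple. In particular no finite simple group has a Sylow 2-subgroup that is a direct product of one or more generalized quaternion groups. -/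
theorem result {G : Type*} [Group G] [Finite G]
    (S : Sylow 2 G) (Q R : Subgroup G) (hQR : Cfsg.IsInternalDirectProduct Q R (S : Subgroup G))
    (n : ℕ) (hn : 1 ≤ n) (eQ : ↥Q ≃* QuaternionGroup (2 ^ n))
    (hR : ∀ r ∈ R, orderOf r = 2 → ∀ s ∈ R, r * s = s * r) :
    ¬ IsSimpleGroup G := by
  intro hsimple
  classical
  obtain ⟨hQS, hRS, hcomm, hinf, hsup⟩ := hQR
  have hQu : ∀ x ∈ Q, ∀ y ∈ Q, orderOf x = 2 → orderOf y = 2 → x = y := by
    intro x hx y hy h1 h2
    have := quat_inv n hn (x := eQ ⟨x, hx⟩) (y := eQ ⟨y, hy⟩)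
      (by rw [MulEquiv.orderOf_eq, ← Subgroup.orderOf_coe]; exact h1)
      (by rw [MulEquiv.orderOf_eq, ← Subgroup.orderOf_coe]; exact h2)
    exact congrArg Subtype.val (eQ.injective this)
  have hQnc : ∃ x ∈ Q, ∃ y ∈ Q, x * y ≠ y * x := by
    obtain ⟨x, y, h⟩ := quat_noncomm n hn
    refine ⟨_, (eQ.symm x).2, _, (eQ.symm y).2, fun h' => h ?_⟩
    have : eQ.symm x * eQ.symm y = eQ.symm y * eQ.symm x := Subtype.ext h'
    simpa using congrArg eQ this
  have hQQ : ⁅Q, Q⁆ ≤ Q := commutator_le.mpr fun x hx y hy => by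
    rw [commutatorElement_def]
    exact mul_mem (mul_mem (mul_mem hx hy) (inv_mem hx)) (inv_mem hy)
  have hQQne : ⁅Q, Q⁆ ≠ ⊥ := by
    intro h
    obtain ⟨x, hx, y, hy, hxy⟩ := hQnc
    exact hxy ((commutator_eq_bot_iff_le_centralizer.mp h hy) x hx)
  obtain ⟨z, hzQQ, hz1, hz2⟩ := exists_order_prime_mem (S.isPGroup'.to_le (hQQ.trans hQS)) hQQne
  have hz : orderOf z = 2 := orderOf_eq_prime' hz1 hz2
  have hzQ := hQQ hzQQ
  have hRn : R ≤ normalizer (Q : Set G) := fun r hr => centralizer_le_normalizer _ (fun q hq => hcomm q hq r hr)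
  have hdec : ∀ s ∈ (S : Subgroup G), ∃ q ∈ Q, ∃ r ∈ R, q * r = s := fun s hs =>
    (mem_sup_of_le_normalizer hRn).mp (hsup ▸ hs)
  have hQR1 : ∀ x ∈ Q, x ∈ R → x = 1 := fun x h1 h2 => by
    have : x ∈ Q ⊓ R := ⟨h1, h2⟩
    rwa [hinf, mem_bot] at this
  have hzc : ∀ q ∈ Q, q * z = z * q := fun q hq => by
    have := hQu _ (mul_mem (mul_mem hq hzQ) (inv_mem hq)) _ hzQ (by rw [H10.orderOf_conj]; exact hz) hz
    rwa [mul_inv_eq_iff_eq_mul] at this
  -- all involutions of S are central
  have hcen : ∀ s ∈ (S : Subgroup G), s * s = 1 → s ∈ centralizer ((S : Subgroup G) : Set G) := by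
    intro s hs hs2
    obtain ⟨q, hq, r, hr, rfl⟩ := hdec s hs
    have h1 : (q * q) * (r * r) = 1 := by
      calc q * q * (r * r) = q * (q * r) * r := by group
        _ = q * (r * q) * r := by rw [hcomm q hq r hr]
        _ = q * r * (q * r) := by group
        _ = 1 := hs2
    have h2 : q * q = 1 := hQR1 _ (mul_mem hq hq) (by
      rw [eq_inv_of_mul_eq_one_left h1]; exact inv_mem (mul_mem hr hr))
    have h3 : r * r = 1 := by rwa [h2, one_mul] at h1
    have hqc : ∀ q' ∈ Q, q' * q = q * q' := by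
      intro q' hq'
      by_cases h : q = 1
      · simp [h]
      · rw [hQu q hq z hzQ (H10.orderOf_eq_two_of h2 h) hz]; exact hzc q' hq'
    have hrc : ∀ r' ∈ R, r' * r = r * r' := by
      intro r' hr'
      by_cases h : r = 1
      · simp [h]
      · exact (hR r hr (H10.orderOf_eq_two_of h3 h) r' hr').symm
    intro t ht
    obtain ⟨q', hq', r', hr', rfl⟩ := hdec t ht
    have c1 : Commute q' q := hqc q' hq'
    have c2 : Commute r' r := hrc r' hr'
    have c3 : Commute q' r := hcomm q' hq' r hr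
    have c4 : Commute r' q := (hcomm q hq r' hr').symm
    exact ((c1.mul_right c3).mul_left (c4.mul_right c2)).eq
  have hQn : (S : Subgroup G) ≤ normalizer (Q : Set G) := hsup ▸ sup_le le_normalizer hRn
  have hRn' : (S : Subgroup G) ≤ normalizer (R : Set G) := hsup ▸ sup_le
    (fun q hq => centralizer_le_normalizer _ (fun r hr => (hcomm q hq r hr).symm)) le_normalizer
  -- conjugates of z under N(S)
  have hconj : ∀ m ∈ normalizer ((S : Subgroup G) : Set G), m * z * m⁻¹ = z ∨ m * z * m⁻¹ ∈ R := by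
    intro m hm
    have hQ'S : cj m Q ≤ (S : Subgroup G) := cj_le_of_mem_normalizer hQS hm
    have hQ'n : (S : Subgroup G) ≤ normalizer ((cj m Q : Subgroup G) : Set G) := by
      rw [← cj_normalizer]
      calc (S : Subgroup G) = cj m S := (cj_eq_of_mem_normalizer hm).symm
        _ ≤ _ := map_mono hQn
    by_cases h : cj m Q ⊓ R = ⊥
    · left
      have hc : ∀ x ∈ cj m Q, ∀ r ∈ R, x * r = r * x := by
        intro x hx r hr
        have : x * r * x⁻¹ * r⁻¹ ∈ cj m Q ⊓ R := by
          refine ⟨?_, R.mul_mem ((mem_normalizer_iff.mp (hRn' (hQ'S hx)) r).mp hr) (R.inv_mem hr)⟩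
          have := (cj m Q).mul_mem hx
            ((mem_normalizer_iff.mp (hQ'n (hRS hr)) x⁻¹).mp ((cj m Q).inv_mem hx))
          simpa [mul_assoc] using this
        rw [h, mem_bot, mul_inv_eq_one, mul_inv_eq_iff_eq_mul] at this
        exact this
      have hle : ⁅cj m Q, cj m Q⁆ ≤ Q := by
        rw [commutator_le]
        intro x hx y hy
        obtain ⟨q, hq, r, hr, hx'⟩ := hdec x (hQ'S hx)
        obtain ⟨q', hq', r', hr', hy'⟩ := hdec y (hQ'S hy)
        have c1 : Commute r r' := by
          have a1 : Commute x r' := hc x hx r' hr'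
          have a2 : Commute q r' := hcomm q hq r' hr'
          have := a2.inv_left.mul_left a1
          rwa [← hx', inv_mul_cancel_left] at this
        have c2 : Commute r q := (hcomm q hq r hr).symm
        have c3 : Commute r q' := (hcomm q' hq' r hr).symm
        have c4 : Commute r' q := (hcomm q hq r' hr').symm
        have c5 : Commute r' q' := (hcomm q' hq' r' hr').symm
        have e : ⁅x, y⁆ = ⁅q, q'⁆ := by
          rw [← hx', ← hy', commutatorElement_def, commutatorElement_def]
          have d1 : q * r * (q' * r') * (q * r)⁻¹ = q * (q' * r') * q⁻¹ := by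
            rw [mul_assoc q r, (c3.mul_right c1).eq]; group
          rw [d1]
          have d2 : r' * q⁻¹ = q⁻¹ * r' := c4.inv_right.eq
          calc q * (q' * r') * q⁻¹ * (q' * r')⁻¹ = q * q' * (r' * q⁻¹) * r'⁻¹ * q'⁻¹ := by group
            _ = _ := by rw [d2]; group
        rw [e]
        exact hQQ (commutator_mem_commutator hq hq')
      refine hQu _ (hle ?_) _ hzQ (by rw [H10.orderOf_conj]; exact hz) hz
      rw [← cj_commutator]; exact conj_mem_cj hzQQ
    · right
      obtain ⟨a, ⟨haQ, haR⟩, ha1, ha2⟩ :=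
        exists_order_prime_mem (S.isPGroup'.to_le (inf_le_right.trans hRS)) h
      have h1 : m⁻¹ * a * m = z := hQu _ (mem_cj.mp haQ) _ hzQ (by
        have := H10.orderOf_conj m⁻¹ a
        rw [inv_inv] at this; rw [this]; exact orderOf_eq_prime' ha1 ha2) hz
      rw [← h1]
      simpa [mul_assoc] using haR
  -- the product over the orbit
  let A : Subgroup G := (S : Subgroup G) ⊓ centralizer ((S : Subgroup G) : Set G)
  letI : CommGroup A := { (inferInstance : Group A) with
    mul_comm := fun a b => Subtype.ext (b.2.2 a a.2.1) }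
  have hAn : normalizer ((S : Subgroup G) : Set G) ≤ normalizer (A : Set G) :=
    le_normalizer_inf le_rfl (normalizer_le_normalizer_centralizer _)
  have hzA : z ∈ A := ⟨hQS hzQ, hcen z (hQS hzQ) (H10.mul_self_of_orderOf_two hz)⟩
  letI : Fintype A := Fintype.ofFinite A
  let O : Finset A := Finset.univ.filter
    (fun a => ∃ m ∈ normalizer ((S : Subgroup G) : Set G), (a : G) = m * z * m⁻¹)
  let w : A := ∏ a ∈ O, a
  have hzO : (⟨z, hzA⟩ : A) ∈ O := by
    simp only [O, Finset.mem_filter, Finset.mem_univ, true_and]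
    exact ⟨1, one_mem _, by simp⟩
  have hw2 : w * w = 1 := by
    rw [← Finset.prod_mul_distrib]
    refine Finset.prod_eq_one fun a ha => Subtype.ext ?_
    obtain ⟨m, -, hm⟩ := (Finset.mem_filter.mp ha).2
    show (a : G) * a = 1
    rw [hm]
    exact H10.mul_self_of_orderOf_two (by rw [H10.orderOf_conj]; exact hz)
  have hw1 : w ≠ 1 := by
    intro h
    have h1 : w = ⟨z, hzA⟩ * ∏ a ∈ O.erase ⟨z, hzA⟩, a := (Finset.mul_prod_erase O (fun a => a) hzO).symm
    have h2 : (∏ a ∈ O.erase ⟨z, hzA⟩, a) ∈ R.subgroupOf A := by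
      refine Subgroup.prod_mem _ fun a ha => ?_
      obtain ⟨hne, ha⟩ := Finset.mem_erase.mp ha
      obtain ⟨m, hmN, hm⟩ := (Finset.mem_filter.mp ha).2
      rcases hconj m hmN with h3 | h3
      · exact absurd (Subtype.ext (hm.trans h3)) hne
      · rw [mem_subgroupOf, hm]; exact h3
    rw [h] at h1
    rw [← inv_eq_iff_mul_eq_one.mpr h1.symm, inv_mem_iff, mem_subgroupOf] at h2
    exact hz1 (hQR1 z hzQ h2)
  have hwN : ∀ m ∈ normalizer ((S : Subgroup G) : Set G), m * (w : G) * m⁻¹ = w := by
    intro m hm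
    let σ : A ≃* A := A.normalizerMonoidHom ⟨m, hAn hm⟩
    have hσ : ∀ a : A, (σ a : G) = m * a * m⁻¹ := fun a => rfl
    rw [← hσ]
    congr 1
    rw [map_prod]
    refine Finset.prod_equiv σ.toEquiv (fun a => ?_) (fun _ _ => rfl)
    simp only [O, Finset.mem_filter, Finset.mem_univ, true_and]
    constructor
    · rintro ⟨k, hk, h⟩
      refine ⟨m * k, mul_mem hm hk, ?_⟩
      show (σ a : G) = _
      rw [hσ, h]; group
    · rintro ⟨k, hk, h⟩
      refine ⟨m⁻¹ * k, mul_mem (inv_mem hm) hk, ?_⟩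
      have h' : (σ a : G) = _ := h
      rw [hσ] at h'
      calc (a : G) = m⁻¹ * (m * a * m⁻¹) * m := by group
        _ = _ := by rw [h']; group
  have hwo : orderOf (w : G) = 2 :=
    H10.orderOf_eq_two_of (congrArg Subtype.val hw2) (fun h => hw1 (Subtype.ext h))
  have hiso := H10.Isolated.of_sylow S hwo (fun g hg =>
    eq_of_central_of_normalizer_fix S S w.2.2 hwN w.2.2 (hcen _ hg
      (H10.mul_self_of_orderOf_two (by rw [H10.orderOf_conj]; exact hwo))))
  obtain ⟨x, -, y, -, hxy⟩ := hQnc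
  exact hxy (comm_of_simple_of_isolated hiso x y)

end Cfsg.Agent.S3269
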