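import Cfsg.Statements.S3279
import Cfsg.Agent.H81.Odd
import Cfsg.Agent.H81.Four
import Cfsg.Agent.H81.AutSylow
import Cfsg.Agent.H87.Transfer
import Cfsg.Agent.H87.CyclicSylow
import Cfsg.Agent.H9.SelfCent
import Cfsg.Agent.H54.Comm

set_option autoImplicit false
open Cfsg

namespace Cfsg.Agent.S3279

open Subgroup Cfsg.Agent.H85 Cfsg.Agent.H81
open scoped commutatorElement

variable {G : Type*} [Group G] [Finite G]

/-- at most three involutions commute with `x` -/
def Few (x : G) : Prop := ∀ a b c d : G, orderOf a = 2 → orderOf b = 2 → orderOf c = 2 → orderOf d = 2 →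
  Commute x a → Commute x b → Commute x c → Commute x d → a ≠ b → a ≠ c → b ≠ c → d = a ∨ d = b ∨ d = c

theorem few_of_card {x : G}
    (h3 : Nat.card {u : ↥(Subgroup.centralizer ({x} : Set G)) // orderOf u = 2} ≤ 3) : Few x := by
  classical
  intro a b c d ha hb hc hd ca cb cc cd hab hac hbc
  by_contra hne
  push Not at hne
  obtain ⟨h1, h2, h4⟩ := hne
  let mk : ∀ a : G, orderOf a = 2 → Commute x a →
      {u : ↥(Subgroup.centralizer ({x} : Set G)) // orderOf u = 2} := fun a ha ca =>
    ⟨⟨a, mem_cent_singleton.mpr ca.symm.eq⟩, by rw [← Subgroup.orderOf_coe]; exact ha⟩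
  have hmk : ∀ a ha ca b hb cb, a ≠ b → mk a ha ca ≠ mk b hb cb := fun a ha ca b hb cb h h' =>
    h (congrArg (fun u => (u.1 : G)) h')
  haveI := Fintype.ofFinite {u : ↥(Subgroup.centralizer ({x} : Set G)) // orderOf u = 2}
  have : ({mk d hd cd, mk a ha ca, mk b hb cb, mk c hc cc} : Finset _).card = 4 := by
    rw [Finset.card_insert_of_notMem (by simp [hmk, h1, h2, h4]),
      Finset.card_insert_of_notMem (by simp [hmk, hab, hac]),
      Finset.card_insert_of_notMem (by simp [hmk, hbc]), Finset.card_singleton]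
  have h5 := Finset.card_le_univ ({mk d hd cd, mk a ha ca, mk b hb cb, mk c hc cc} : Finset _)
  rw [this, ← Nat.card_eq_fintype_card] at h5
  omega

theorem comm_conj {x a : G} (g : G) (h : Commute (g * x * g⁻¹) a) : Commute x (g⁻¹ * a * g) := by
  show x * (g⁻¹ * a * g) = g⁻¹ * a * g * x
  calc _ = g⁻¹ * (g * x * g⁻¹ * a) * g := by group
    _ = _ := by rw [h.eq]; group

theorem Few.conj {x : G} (h : Few x) (g : G) : Few (g * x * g⁻¹) := by
  intro a b c d ha hb hc hd ca cb cc cd hab hac hbc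
  have o : ∀ a : G, orderOf a = 2 → orderOf (g⁻¹ * a * g) = 2 := fun a ha => by
    have := H10.orderOf_conj g⁻¹ a
    rw [inv_inv] at this; rw [this, ha]
  have := h _ _ _ _ (o a ha) (o b hb) (o c hc) (o d hd) (comm_conj g ca) (comm_conj g cb)
    (comm_conj g cc) (comm_conj g cd) (by simpa using hab) (by simpa using hac) (by simpa using hbc)
  simpa using this

theorem klein_cases {U : Subgroup G} (hU : IsKleinFour U) {a b c : G} (ha : a ∈ U) (hb : b ∈ U)
    (hc : c ∈ U) (ha1 : a ≠ 1) (hb1 : b ≠ 1) (hab : a ≠ b) : c = 1 ∨ c = a ∨ c = b ∨ c = a * b := by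
  by_contra h
  push Not at h
  obtain ⟨h1, h2, h3, h4⟩ := h
  have := IsKleinFour.eq_mul_of_ne_all (G := U) (x := ⟨a, ha⟩) (y := ⟨b, hb⟩) (z := ⟨c, hc⟩)
    (fun h => ha1 (congrArg Subtype.val h)) (fun h => hb1 (congrArg Subtype.val h))
    (fun h => hab (congrArg Subtype.val h)) (fun h => h1 (congrArg Subtype.val h))
    (fun h => h2 (congrArg Subtype.val h)) (fun h => h3 (congrArg Subtype.val h))
  exact h4 (congrArg Subtype.val this)

theorem not_isolated [IsSimpleGroup G] (hG : ¬ ∀ a b : G, a * b = b * a) (S : Sylow 2 G) {z : G}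
    (hz : orderOf z = 2) : ∃ g : G, g * z * g⁻¹ ∈ (S : Subgroup G) ∧ g * z * g⁻¹ ≠ z := by
  by_contra h
  push Not at h
  exact hG (comm_of_simple_of_isolated (H10.Isolated.of_sylow S hz h))

theorem transfer_into [IsSimpleGroup G] (hG : ¬ ∀ a b : G, a * b = b * a) (S : Sylow 2 G)
    {M : Subgroup G} (hM : M.relIndex (S : Subgroup G) = 2) {x : G} (hx : orderOf x = 2) :
    ∃ g : G, g * x * g⁻¹ ∈ M := by
  by_contra h
  push Not at h
  obtain ⟨K, hK, hK2, -⟩ := H87.thompson_transfer_involution (H87.odd_index_sylow S) hM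
    (by rw [sq, H10.mul_self_of_orderOf_two hx]) h
  rcases IsSimpleGroup.eq_bot_or_eq_top_of_normal K hK with h | h
  · rw [h, index_bot] at hK2
    haveI : Fact (Nat.Prime 2) := ⟨Nat.prime_two⟩
    haveI := isCyclic_of_prime_card hK2
    exact hG (fun a b => mul_comm' a b)
  · rw [h, index_top] at hK2; omega

/-- the case of a normal four-subgroup -/
theorem caseA [IsSimpleGroup G] (hG : ¬ ∀ a b : G, a * b = b * a) (S : Sylow 2 G) {U : Subgroup G}
    (hU : IsKleinFour U) (hUS : U ≤ S) (hn : (S : Subgroup G) ≤ normalizer (U : Set G)) {x z : G}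
    (hxU : x ∈ U) (hx : orderOf x = 2) (hF : Few x) (hzU : z ∈ U) (hz : orderOf z = 2)
    (hzc : ∀ s ∈ (S : Subgroup G), s * z = z * s)
    (hnc : ∀ g : G, g * x * g⁻¹ ≠ z) : False := by
  haveI : Fact (Nat.Prime 2) := ⟨Nat.prime_two⟩
  have hx1 := H10.ne_one_of_orderOf_two hx
  have hz1 := H10.ne_one_of_orderOf_two hz
  have hx2 := H10.mul_self_of_orderOf_two hx
  have hz2 := H10.mul_self_of_orderOf_two hz
  have hxz : x ≠ z := by simpa using hnc 1
  have cxz : Commute x z := hzc x (hUS hxU)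
  have hU4 := fun c hc => klein_cases hU hxU hzU (c := c) hc hx1 hz1 hxz
  have hxzo : orderOf (x * z) = 2 := H10.orderOf_eq_two_of
    (by rw [← sq, cxz.mul_pow, sq, sq, hx2, hz2, one_mul])
    (fun h => hxz (by rw [eq_inv_of_mul_eq_one_left h, H10.inv_eq_of_orderOf_two hz]))
  have hinv : ∀ d, orderOf d = 2 → Commute x d → d ∈ U := fun d hd cd => by
    rcases hF x z (x * z) d hx hz hxzo hd (Commute.refl x) cxz ((Commute.refl x).mul_right cxz) cd hxz
      (by simpa using hz1) (by simpa using hx1) with h | h | h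
    · rw [h]; exact hxU
    · rw [h]; exact hzU
    · rw [h]; exact U.mul_mem hxU hzU
  have hact : ∀ s ∈ (S : Subgroup G), s * x * s⁻¹ = x ∨ s * x * s⁻¹ = x * z := fun s hs => by
    rcases hU4 _ (nconj_mem (hn hs) hxU) with h | h | h | h
    · exact absurd (by simpa using h) hx1
    · exact Or.inl h
    · exact absurd h (hnc s)
    · exact Or.inr h
  have hsq : ∀ s ∈ (S : Subgroup G), Commute x (s * s) := fun s hs => by
    have : (s * s) * x * (s * s)⁻¹ = x := by
      rcases hact s hs with h | h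
      · calc _ = s * (s * x * s⁻¹) * s⁻¹ := by group
          _ = x := by rw [h, h]
      · calc _ = s * (s * x * s⁻¹) * s⁻¹ := by group
          _ = s * (x * z) * s⁻¹ := by rw [h]
          _ = (s * x * s⁻¹) * (s * z * s⁻¹) := by group
          _ = x := by rw [h, hzc s hs, mul_inv_cancel_right, mul_assoc, hz2, mul_one]
    exact (mul_inv_eq_iff_eq_mul.mp this).symm
  obtain ⟨g, hgS, hgz⟩ := not_isolated hG S hz
  set u := g * z * g⁻¹ with hu
  have huo : orderOf u = 2 := by rw [hu, H10.orderOf_conj]; exact hz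
  have hu2 := H10.mul_self_of_orderOf_two huo
  -- an involution of `U` conjugate to `z` is `z`
  have hex : ∃ s ∈ (S : Subgroup G), s * x * s⁻¹ = x * z := by
    by_contra h
    push Not at h
    have h1 : ∀ s ∈ (S : Subgroup G), s * x * s⁻¹ = x := fun s hs => (hact s hs).resolve_right (h s hs)
    have h2 : u ∈ U := hinv u huo (mul_inv_eq_iff_eq_mul.mp (h1 u hgS)).symm
    rcases hU4 u h2 with h3 | h3 | h3 | h3
    · exact H10.ne_one_of_orderOf_two huo h3
    · exact hnc g⁻¹ (by rw [← h3, hu]; group)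
    · exact hgz h3
    · -- `x` is isolated
      obtain ⟨k, hkS, hkx⟩ := not_isolated hG S hx
      have ko : orderOf (k * x * k⁻¹) = 2 := by rw [H10.orderOf_conj]; exact hx
      rcases hU4 _ (hinv _ ko (mul_inv_eq_iff_eq_mul.mp (h1 _ hkS)).symm) with h4 | h4 | h4 | h4
      · exact H10.ne_one_of_orderOf_two ko h4
      · exact hkx h4
      · exact hnc k h4
      · exact hnc (g⁻¹ * k) (by
          calc g⁻¹ * k * x * (g⁻¹ * k)⁻¹ = g⁻¹ * (k * x * k⁻¹) * g := by group
            _ = z := by rw [h4, ← h3, hu]; group)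
  have hconjz : ∀ k : G, k * z * k⁻¹ ∈ U → k * z * k⁻¹ = z := fun k hk => by
    rcases hU4 _ hk with h3 | h3 | h3 | h3
    · exact absurd (by simpa using h3) hz1
    · exact absurd (by rw [← h3]; group) (hnc k⁻¹)
    · exact h3
    · obtain ⟨s, -, hs⟩ := hex
      exact absurd (by
        calc k⁻¹ * s * x * (k⁻¹ * s)⁻¹ = k⁻¹ * (s * x * s⁻¹) * k := by group
          _ = z := by rw [hs, ← h3]; group) (hnc (k⁻¹ * s))
  have hux : u * x * u⁻¹ = x * z := (hact u hgS).resolve_left fun h =>
    hgz (hconjz g (hinv u huo (mul_inv_eq_iff_eq_mul.mp h).symm))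
  set T := (S : Subgroup G) ⊓ centralizer {x} with hT
  have hUT : U ≤ T := fun c hc => ⟨hUS hc, mem_cent_singleton.mpr (by
    rcases hU4 c hc with rfl | rfl | rfl | rfl
    · simp
    · rfl
    · exact cxz.symm.eq
    · exact ((Commute.refl x).mul_left cxz.symm).eq)⟩
  by_cases hTU : T ≤ U
  · have hTi : T.relIndex (S : Subgroup G) = 2 := by
      rw [relIndex_eq_two_iff]
      refine ⟨u, hgS, fun b hb => ?_⟩
      have e : b * u * x * (b * u)⁻¹ = (b * x * b⁻¹) * z := by
        calc _ = b * (u * x * u⁻¹) * b⁻¹ := by group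
          _ = (b * x * b⁻¹) * (b * z * b⁻¹) := by rw [hux]; group
          _ = _ := by rw [hzc b hb, mul_inv_cancel_right]
      rcases hact b hb with h | h
      · refine Or.inr ⟨⟨hb, conj_eq_iff_mem_cent.mp h⟩, fun h' => hz1 ?_⟩
        have := conj_eq_iff_mem_cent.mpr h'.2
        rwa [e, h, mul_eq_left] at this
      · refine Or.inl ⟨⟨S.1.mul_mem hb hgS, conj_eq_iff_mem_cent.mp ?_⟩, fun h' => hz1 ?_⟩
        · rw [e, h, mul_assoc, hz2, mul_one]
        · have := conj_eq_iff_mem_cent.mpr h'.2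
          rwa [h, mul_eq_left] at this
    have hsq' : (u * x) ^ 2 = z := by
      calc (u * x) ^ 2 = (u * x * u⁻¹) * (u * u) * x := by rw [sq]; group
        _ = z := by rw [hux, hu2, mul_one, cxz.eq, mul_assoc, hx2, mul_one]
    have ho : orderOf (u * x) = 2 ^ (1 + 1) := orderOf_eq_prime_pow (by rw [pow_one, hsq']; exact hz1)
      (by rw [show 2 ^ (1 + 1) = 2 * 2 by norm_num, pow_mul, hsq', sq, hz2])
    have hQS : zpowers (u * x) ≤ (S : Subgroup G) := zpowers_le.mpr (S.1.mul_mem hgS (hUS hxU))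
    have hcard : Nat.card (S : Subgroup G) = Nat.card (zpowers (u * x)) * 2 := by
      have hTS : T ≤ (S : Subgroup G) := inf_le_left
      rw [H8.card_eq_card_mul_relIndex hTS, hTi, le_antisymm hTU hUT, hU.card_four,
        Nat.card_zpowers, ho]; norm_num
    obtain ⟨k, hk⟩ := transfer_into hG S (H87.relIndex_eq_of_card hQS hcard) hx
    have ko : orderOf (k * x * k⁻¹) = 2 := by rw [H10.orderOf_conj]; exact hx
    exact hnc k (H87.eq_of_mem_zpowers_of_sq hk (hsq' ▸ pow_mem (mem_zpowers _) 2)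
      (by rw [sq, H10.mul_self_of_orderOf_two ko]) (by rw [sq, hz2]) (H10.ne_one_of_orderOf_two ko) hz1)
  -- `z` is a square in `C_S(u)`
  have hTn : zpowers u ≤ normalizer (T : Set G) := by
    refine zpowers_le.mpr (mem_normalizer_of_cj_le ?_)
    rintro _ ⟨t, ht, rfl⟩
    refine ⟨S.1.mul_mem (S.1.mul_mem hgS ht.1) (S.1.inv_mem hgS), mem_cent_singleton.mpr ?_⟩
    have c1 : Commute t (x * z) := (show Commute t x from mem_cent_singleton.mp ht.2).mul_right (hzc t ht.1)
    have e : x = u * (x * z) * u⁻¹ := by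
      rw [← hux]
      calc x = (u * u) * x * (u * u)⁻¹ := by rw [hu2]; group
        _ = _ := by group
    show u * t * u⁻¹ * x = x * (u * t * u⁻¹)
    rw [e]
    calc u * t * u⁻¹ * (u * (x * z) * u⁻¹) = u * (t * (x * z)) * u⁻¹ := by group
      _ = _ := by rw [c1.eq]; group
  obtain ⟨t, htT, htU, ht⟩ := H54.exists_not_mem_commutator_mem_of_isPGroup
    (S.isPGroup'.to_le inf_le_left) (S.isPGroup'.to_le (zpowers_le.mpr hgS)) hTn hTU
  have hv := ht u (mem_sup_left (mem_zpowers u))
  have hui : u⁻¹ = u := H10.inv_eq_of_orderOf_two huo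
  obtain ⟨t', ht'T, ht'U, ht'u⟩ : ∃ t' ∈ T, t' ∉ U ∧ Commute t' u := by
    have ctx : Commute t x := mem_cent_singleton.mp htT.2
    have huv : u * ⁅t, u⁆ * u⁻¹ = ⁅t, u⁆⁻¹ := by
      simp only [commutatorElement_def, mul_inv_rev, inv_inv]
      calc u * (t * u * t⁻¹ * u⁻¹) * u⁻¹ = u * t * u * t⁻¹ * (u * u)⁻¹ := by group
        _ = _ := by rw [hu2, hui]; group
    rcases hU4 _ hv with h | h | h | h
    · exact ⟨t, htT, htU, commutatorElement_eq_one_iff_mul_comm.mp h⟩
    · rw [h, hux, H10.inv_eq_of_orderOf_two hx, mul_eq_left] at huv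
      exact absurd huv hz1
    · refine ⟨t * x, T.mul_mem htT (hUT hxU), fun h' => htU ((U.mul_mem_cancel_right hxU).mp h'), ?_⟩
      rw [commutatorElement_def] at h
      have e1 : t * u = z * u * t := by rw [← h]; group
      have e2 : u * x = x * z * u := by rw [← hux]; group
      have c1 : Commute (t * x) z := (show Commute t z from hzc t htT.1).mul_left cxz
      show t * x * u = u * (t * x)
      apply mul_left_cancel (a := z)
      calc z * (t * x * u) = (z * (t * x)) * u := by group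
        _ = t * (x * z * u) := by rw [← c1.eq]; group
        _ = (t * u) * x := by rw [← e2]; group
        _ = _ := by rw [e1]; group
    · have : u * (x * z) * u⁻¹ = x := by
        calc u * (x * z) * u⁻¹ = (u * x * u⁻¹) * (u * z * u⁻¹) := by group
          _ = x := by rw [hux, hzc u hgS, mul_inv_cancel_right, mul_assoc, hz2, mul_one]
      rw [h, this, H10.inv_eq_of_orderOf_two hxzo, eq_comm, mul_eq_left] at huv
      exact absurd huv hz1
  obtain ⟨w, hwS, hwu, hwz⟩ : ∃ w ∈ (S : Subgroup G), Commute w u ∧ w * w = z := by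
    obtain ⟨k, hk⟩ := S.isPGroup' ⟨t' ^ 2, pow_mem ht'T.1 2⟩
    have hk' : (t' ^ 2) ^ 2 ^ k = 1 := congrArg Subtype.val hk
    have h1 : t' ^ 2 ≠ 1 := fun h => ht'U (by
      by_cases h0 : t' = 1
      · rw [h0]; exact U.one_mem
      · exact hinv _ (H10.orderOf_eq_two_of (by rw [← sq, h]) h0) (mem_cent_singleton.mp ht'T.2).symm)
    obtain ⟨n, hn1, hn2⟩ := exists_pow_order_prime hk' h1
    have e : t' ^ n * t' ^ n = (t' ^ 2) ^ n := by rw [← pow_mul, two_mul, pow_add]
    refine ⟨t' ^ n, pow_mem ht'T.1 n, ht'u.pow_left n, ?_⟩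
    have cu : Commute u ((t' ^ 2) ^ n) := (ht'u.symm.pow_right 2).pow_right n
    rw [e]
    rcases hU4 _ (hinv _ (orderOf_eq_prime' hn1 hn2) (by rw [← e]; exact hsq _ (pow_mem ht'T.1 n)))
      with h | h | h | h
    · exact absurd h hn1
    · rw [h] at cu
      rw [cu.eq, mul_inv_cancel_right, eq_comm, mul_eq_left] at hux
      exact absurd hux hz1
    · exact h
    · rw [h] at cu
      have : Commute u x := by
        have := cu.mul_right (show Commute u z from hzc u hgS).inv_right
        rwa [mul_inv_cancel_right] at this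
      rw [this.eq, mul_inv_cancel_right, eq_comm, mul_eq_left] at hux
      exact absurd hux hz1
  have hSz : (S : Subgroup G) ≤ centralizer {z} := fun s hs => mem_cent_singleton.mpr (hzc s hs)
  obtain ⟨c, hc, hcle⟩ := (isSyl_of_sylow_le S hSz).exists_cj_le (Q := zpowers (g⁻¹ * w * g))
    (by
      have := isPGroup_cj g⁻¹ (S.isPGroup'.to_le (zpowers_le.mpr hwS))
      rwa [cj_zpowers, inv_inv] at this)
    (zpowers_le.mpr (mem_cent_singleton.mpr (comm_conj g hwu.symm).symm.eq))
  have h1 : c * (g⁻¹ * w * g) * c⁻¹ ∈ (S : Subgroup G) := hcle (conj_mem_cj (mem_zpowers _))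
  have e : (c * (g⁻¹ * w * g) * c⁻¹) * (c * (g⁻¹ * w * g) * c⁻¹) = (c * g⁻¹) * z * (c * g⁻¹)⁻¹ := by
    rw [← hwz]; group
  have h2 := hconjz (c * g⁻¹) (hinv _ (by rw [H10.orderOf_conj]; exact hz) (by rw [← e]; exact hsq _ h1))
  apply hgz
  have h3 := conj_eq_iff_mem_cent.mpr ((centralizer {z}).inv_mem hc)
  calc g * z * g⁻¹ = g * (c⁻¹ * z * c⁻¹⁻¹) * g⁻¹ := by rw [h3]
    _ = g * (c⁻¹ * ((c * g⁻¹) * z * (c * g⁻¹)⁻¹) * c⁻¹⁻¹) * g⁻¹ := by rw [h2]
    _ = z := by group


/-- Let G be a finite simple group and x an involution of G whose centralizer contains at most three involutions. Then C_G(x) contains a Sylow 2-subgroup of G, and all involutions of G are conjugate. -/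
theorem result {G : Type*} [Group G] [Finite G] [IsSimpleGroup G] (x : G) (hx : orderOf x = 2)
    (h3 : Nat.card {u : ↥(Subgroup.centralizer ({x} : Set G)) // orderOf u = 2} ≤ 3) :
    (∃ S : Sylow 2 G, (S : Subgroup G) ≤ Subgroup.centralizer ({x} : Set G)) ∧
      ∀ u v : G, orderOf u = 2 → orderOf v = 2 → IsConj u v := by
  haveI : Fact (Nat.Prime 2) := ⟨Nat.prime_two⟩
  have hF := few_of_card h3
  have hinS : ∀ (S : Sylow 2 G) (u : G), orderOf u = 2 → ∃ g : G, g * u * g⁻¹ ∈ (S : Subgroup G) := by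
    intro S u hu
    obtain ⟨g, -, hg⟩ := (isSyl_top S).exists_cj_le (Q := zpowers u) (H8.isPGroup_zpowers_of_pow_eq_one
      (k := 1) (by rw [pow_one, sq, H10.mul_self_of_orderOf_two hu])) le_top
    exact ⟨g, hg (conj_mem_cj (mem_zpowers u))⟩
  by_cases hG : ∀ a b : G, a * b = b * a
  · refine ⟨⟨default, fun s _ => mem_cent_singleton.mpr (hG _ _)⟩, fun u v hu hv => ?_⟩
    haveI : (zpowers u).Normal := ⟨fun a ha g => by rw [hG g a, mul_inv_cancel_right]; exact ha⟩
    rcases IsSimpleGroup.eq_bot_or_eq_top_of_normal (zpowers u) inferInstance with h | h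
    · exact absurd (zpowers_eq_bot.mp h) (H10.ne_one_of_orderOf_two hu)
    · rw [H87.eq_of_mem_zpowers_of_sq (mem_zpowers u) (h ▸ mem_top v)
        (by rw [sq, H10.mul_self_of_orderOf_two hu]) (by rw [sq, H10.mul_self_of_orderOf_two hv])
        (H10.ne_one_of_orderOf_two hu) (H10.ne_one_of_orderOf_two hv)]
  have hcentral : ∃ S : Sylow 2 G, (S : Subgroup G) ≤ centralizer ({x} : Set G) := by
    by_contra hnc
    push Not at hnc
    let S : Sylow 2 G := default
    have hnc' : ∀ g : G, ¬ ∀ s ∈ (S : Subgroup G), s * (g * x * g⁻¹) = (g * x * g⁻¹) * s := by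
      intro g h
      apply hnc (g⁻¹ • S)
      rw [coe_smul_sylow]
      intro s hs
      rw [mem_cj, inv_inv] at hs
      have := comm_conj g (show Commute (g * x * g⁻¹) _ from (h _ hs).symm)
      rw [mem_cent_singleton]
      simpa [mul_assoc] using this.symm.eq
    by_cases hfour : ∃ E : Subgroup (S : Subgroup G), E.Normal ∧ IsKleinFour E
    · obtain ⟨E, hEn, hE⟩ := hfour
      set U := E.map (S : Subgroup G).subtype with hUdef
      have hU : IsKleinFour U := by
        let e := equivMapOfInjective E _ (S : Subgroup G).subtype_injective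
        exact ⟨by rw [← Nat.card_congr e.toEquiv]; exact hE.card_four,
          by rw [← Monoid.exponent_eq_of_mulEquiv e]; exact hE.exponent_two⟩
      have hUS : U ≤ S := map_subtype_le _
      have hn : (S : Subgroup G) ≤ normalizer (U : Set G) := fun s hs => mem_normalizer_of_cj_le (by
        rintro _ ⟨_, ⟨e, he, rfl⟩, rfl⟩
        exact ⟨_, hEn.conj_mem e he ⟨s, hs⟩, rfl⟩)
      have hU2 : ∀ a ∈ U, a * a = 1 := fun a ha => congrArg Subtype.val (IsKleinFour.mul_self (⟨a, ha⟩ : U))
      have hUc : ∀ a ∈ U, ∀ b ∈ U, Commute a b := fun a ha b hb =>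
        congrArg Subtype.val (mul_comm_of_sq (fun r : U => by rw [sq, IsKleinFour.mul_self]) ⟨a, ha⟩ ⟨b, hb⟩)
      have hUne : U ≠ ⊥ := fun h => by
        have := hU.card_four
        rw [h, card_bot] at this; omega
      obtain ⟨z, hzU, hzc, hz1, hz2⟩ := exists_fixed_of_normalized S.isPGroup' (S.isPGroup'.to_le hUS) hn hUne
      have hzo : orderOf z = 2 := orderOf_eq_prime' hz1 hz2
      obtain ⟨y, hyU, hy⟩ : ∃ y ∈ U, y ∉ zpowers z := by
        by_contra h
        push Not at h
        have := card_le_of_le (show U ≤ zpowers z from h)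
        rw [hU.card_four, Nat.card_zpowers, hzo] at this; omega
      have hy1 : y ≠ 1 := fun h => hy (h ▸ one_mem _)
      have hyz : y ≠ z := fun h => hy (h ▸ mem_zpowers z)
      have hU4 := fun c hc => klein_cases hU hyU hzU (c := c) hc hy1 hz1 hyz
      have hact : ∀ s ∈ (S : Subgroup G), s * y * s⁻¹ = y ∨ s * y * s⁻¹ = y * z := fun s hs => by
        rcases hU4 _ (nconj_mem (hn hs) hyU) with h | h | h | h
        · exact absurd (by simpa using h) hy1
        · exact Or.inl h
        · exfalso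
          apply hyz
          calc y = s⁻¹ * (s * y * s⁻¹) * s := by group
            _ = z := by rw [h, mul_assoc, ← hzc s hs]; group
        · exact Or.inr h
      obtain ⟨g, hg⟩ : ∃ g : G, Commute (g * x * g⁻¹) y ∧ g * x * g⁻¹ ∈ (S : Subgroup G) := by
        by_cases hall : ∀ s ∈ (S : Subgroup G), s * y * s⁻¹ = y
        · obtain ⟨g, hg⟩ := hinS S x hx
          exact ⟨g, mul_inv_eq_iff_eq_mul.mp (hall _ hg), hg⟩
        push Not at hall
        obtain ⟨u, huS, hu⟩ := hall
        have hu' := (hact u huS).resolve_left hu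
        have hTi : ((S : Subgroup G) ⊓ centralizer {y}).relIndex (S : Subgroup G) = 2 := by
          rw [relIndex_eq_two_iff]
          refine ⟨u, huS, fun b hb => ?_⟩
          have e : b * u * y * (b * u)⁻¹ = (b * y * b⁻¹) * z := by
            calc _ = b * (u * y * u⁻¹) * b⁻¹ := by group
              _ = (b * y * b⁻¹) * (b * z * b⁻¹) := by rw [hu']; group
              _ = _ := by rw [hzc b hb, mul_inv_cancel_right]
          rcases hact b hb with h | h
          · refine Or.inr ⟨⟨hb, conj_eq_iff_mem_cent.mp h⟩, fun h' => hz1 ?_⟩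
            have := conj_eq_iff_mem_cent.mpr h'.2
            rwa [e, h, mul_eq_left] at this
          · refine Or.inl ⟨⟨S.1.mul_mem hb huS, conj_eq_iff_mem_cent.mp ?_⟩, fun h' => hz1 ?_⟩
            · rw [e, h, mul_assoc, hU2 z hzU, mul_one]
            · have := conj_eq_iff_mem_cent.mpr h'.2
              rwa [h, mul_eq_left] at this
        obtain ⟨g, hg⟩ := transfer_into hG S hTi hx
        exact ⟨g, mem_cent_singleton.mp hg.2, hg.1⟩
      have hgo : orderOf (g * x * g⁻¹) = 2 := by rw [H10.orderOf_conj]; exact hx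
      have cz : Commute (g * x * g⁻¹) z := hzc _ hg.2
      have hyo := H10.orderOf_eq_two_of (hU2 y hyU) hy1
      have hyzo := H10.orderOf_eq_two_of (hU2 _ (U.mul_mem hyU hzU))
        (fun h => hyz (by rw [eq_inv_of_mul_eq_one_left h, H10.inv_eq_of_orderOf_two hzo]))
      have hxU : g * x * g⁻¹ ∈ U := by
        rcases hF.conj g y z (y * z) _ hyo hzo hyzo hgo hg.1 cz (hg.1.mul_right cz) (Commute.refl _) hyz
          (by simpa using hz1) (by simpa using hy1) with h | h | h
        · rw [h]; exact hyU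
        · rw [h]; exact hzU
        · rw [h]; exact U.mul_mem hyU hzU
      refine caseA hG S hU hUS hn hxU hgo (hF.conj g) hzU hzo hzc fun k hk => hnc' (k * g) ?_
      have : k * g * x * (k * g)⁻¹ = z := by rw [← hk]; group
      rw [this]; exact hzc
    · push Not at hfour
      rcases H9.isCyclic_or_MC_of_no_normal_four S.isPGroup' hfour with h | ⟨a, b, n, h, -⟩
      · obtain ⟨g, hg⟩ := hinS S x hx
        exact hnc' g fun s hs => congrArg Subtype.val (mul_comm' (⟨s, hs⟩ : (S : Subgroup G)) ⟨_, hg⟩)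
      · have h5 : (zpowers (a : G)).relIndex (S : Subgroup G) = 2 := by
          have h6 := h.relIndex_zpowers
          rw [relIndex_top_right] at h6
          refine Eq.trans (congrArg Subgroup.index ?_) h6
          ext c
          rw [mem_subgroupOf]
          exact ⟨fun ⟨i, hi⟩ => ⟨i, Subtype.ext hi⟩, fun ⟨i, hi⟩ => ⟨i, congrArg Subtype.val hi⟩⟩
        obtain ⟨g, hg⟩ := transfer_into hG S h5 hx
        have hgo : orderOf (g * x * g⁻¹) = 2 := by rw [H10.orderOf_conj]; exact hx
        have hz : g * x * g⁻¹ = ((a ^ 2 ^ n : (S : Subgroup G)) : G) :=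
          H87.eq_of_mem_zpowers_of_sq hg (pow_mem (mem_zpowers _) _)
            (by rw [sq, H10.mul_self_of_orderOf_two hgo])
            (by rw [sq]; exact congrArg Subtype.val h.z_mul_z) (H10.ne_one_of_orderOf_two hgo)
            (fun h' => h.z_ne_one (Subtype.ext h'))
        refine hnc' g fun s hs => ?_
        rw [hz]
        exact congrArg Subtype.val (h.commute_z (s := ⟨s, hs⟩) (mem_top _)).symm.eq
  refine ⟨hcentral, ?_⟩
  obtain ⟨S, hS⟩ := hcentral
  have hSc : ∀ s ∈ (S : Subgroup G), Commute x s := fun s hs => (mem_cent_singleton.mp (hS hs)).symm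
  have hxS : x ∈ (S : Subgroup G) := by
    have := (isSyl_of_sylow_le S hS).ge_of_le_normalizer (Q := zpowers x)
      (H8.isPGroup_zpowers_of_pow_eq_one (k := 1) (by rw [pow_one, sq, H10.mul_self_of_orderOf_two hx]))
      (zpowers_le.mpr (mem_cent_singleton.mpr rfl)) (fun s hs => by
        rw [← cj_eq_iff_mem_normalizer, cj_zpowers, conj_eq_iff_mem_cent.mpr (hS hs)])
    exact this (mem_zpowers x)
  obtain ⟨g, hgS, hgx⟩ := not_isolated hG S hx
  have hgo : orderOf (g * x * g⁻¹) = 2 := by rw [H10.orderOf_conj]; exact hx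
  have key : ∀ u : G, orderOf u = 2 → IsConj x u := by
    intro u hu
    by_contra hxu
    obtain ⟨k, hk⟩ := hinS S u hu
    have hko : orderOf (k * u * k⁻¹) = 2 := by rw [H10.orderOf_conj]; exact hu
    obtain ⟨m, hmS, hm⟩ := not_isolated hG S hko
    have hmo : orderOf (m * (k * u * k⁻¹) * m⁻¹) = 2 := by rw [H10.orderOf_conj]; exact hko
    have c1 : IsConj u (k * u * k⁻¹) := isConj_iff.mpr ⟨k, rfl⟩
    have c2 : IsConj u (m * (k * u * k⁻¹) * m⁻¹) := c1.trans (isConj_iff.mpr ⟨m, rfl⟩)
    have c3 : IsConj x (g * x * g⁻¹) := isConj_iff.mpr ⟨g, rfl⟩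
    rcases hF x _ _ _ hx hgo hko hmo (Commute.refl x) (hSc _ hgS) (hSc _ hk) (hSc _ hmS) hgx.symm
      (fun h => hxu (h ▸ c1.symm)) (fun h => hxu (c3.trans (h ▸ c1.symm))) with h | h | h
    · exact hxu (h ▸ c2.symm)
    · exact hxu (c3.trans (h ▸ c2.symm))
    · exact hm h
  exact fun u v hu hv => (key u hu).symm.trans (key v hv)


end Cfsg.Agent.S3279
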