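import Cfsg.Statements.S3283
import Cfsg.Agent.H69.XN3
import Cfsg.Agent.H49.Simp

set_option autoImplicit false
open Cfsg

namespace Cfsg.Agent.S3283

/-- Let G be a finite group with an involution z whose centralizer M has Q = O₂(M) extraspecial of order 2⁹ with C_M(Q) ≤ Q, and M/Q isomorphic to S₃ × A₆ or to S₃ × S₆. Then G is not simple. -/
theorem result {G : Type*} [Group G] [Finite G] (z : G) (hz : orderOf z = 2)
    (hQ : Cfsg.IsExtraspecial 2 ↥(Cfsg.pCore 2 ↥(Subgroup.centralizer ({z} : Set G)))) (hQ9 : Nat.card ↥(Cfsg.pCore 2 ↥(Subgroup.centralizer ({z} : Set G))) = 2 ^ 9)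
    (hCQ : Subgroup.centralizer ((Cfsg.pCore 2 ↥(Subgroup.centralizer ({z} : Set G))) : Set ↥(Subgroup.centralizer ({z} : Set G))) ≤ Cfsg.pCore 2 ↥(Subgroup.centralizer ({z} : Set G)))
    (hMQ : Nonempty (↥(Subgroup.centralizer ({z} : Set G)) ⧸ Cfsg.pCore 2 ↥(Subgroup.centralizer ({z} : Set G)) ≃* (Equiv.Perm (Fin 3) × ↥(alternatingGroup (Fin 6)))) ∨
      Nonempty (↥(Subgroup.centralizer ({z} : Set G)) ⧸ Cfsg.pCore 2 ↥(Subgroup.centralizer ({z} : Set G)) ≃* (Equiv.Perm (Fin 3) × Equiv.Perm (Fin 6)))) :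
    ¬ IsSimpleGroup G := by
  have hz1 : z ≠ 1 := (H49.orderOf_two_iff.1 hz).1
  have hE : Cfsg.IsExtraspecial 2 (H49.O2C z) :=
    (H49.isExtraspecial_map_iff (Subgroup.subtype_injective _)).2 hQ
  obtain ⟨z', hz'⟩ := H49.exists_XS hE
  have ez : z = z' := by
    have hm : (⟨z, Subgroup.mem_centralizer_singleton_iff.2 rfl⟩ :
        Subgroup.centralizer ({z} : Set G)) ∈ Cfsg.pCore 2 _ :=
      hCQ (Subgroup.mem_centralizer_iff.2 fun y _ =>
        Subtype.ext (Subgroup.mem_centralizer_singleton_iff.1 y.2))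
    refine (hz'.cent z ⟨_, hm, rfl⟩ ?_).resolve_left hz1
    rintro _ ⟨y, -, rfl⟩
    exact (Subgroup.mem_centralizer_singleton_iff.1 y.2).symm
  have hl : H49.LX (H49.O2C z) z := H49.LX.of_O2C hz1 hE fun c hc => by
    have cz : c ∈ Subgroup.centralizer ({z} : Set G) := Subgroup.mem_centralizer_singleton_iff.2
      (Subgroup.mem_centralizer_iff.1 hc z (ez ▸ hz'.mem)).symm
    exact ⟨⟨c, cz⟩, hCQ (Subgroup.mem_centralizer_iff.2 fun y hy =>
      Subtype.ext (Subgroup.mem_centralizer_iff.1 hc y ⟨y, hy, rfl⟩)), rfl⟩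
  have hc : Nat.card (H49.O2C z) = 512 := by
    rw [Subgroup.card_map_of_injective (Subgroup.subtype_injective _), hQ9]; rfl
  rcases hMQ with ⟨⟨e⟩⟩ | ⟨⟨e⟩⟩
  · obtain ⟨π, h, hs⟩ := H69.XV.exists_Hy hl hc rfl
      (((MonoidHom.id (Equiv.Perm (Fin 3))).prodMap (alternatingGroup (Fin 6)).subtype).comp
        e.toMonoidHom) (by
        refine Function.Injective.comp (g := Prod.map id Subtype.val) ?_ e.injective
        exact Function.injective_id.prodMap Subtype.val_injective)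
    refine H69.XV.not_simple_S6 h (fun k hk => hs _ ⟨e.symm (1, ⟨k, hk⟩), by simp⟩)
      (hs _ ⟨e.symm (Equiv.swap 0 1 * Equiv.swap 1 2, 1), by simp⟩)
  · obtain ⟨π, h, hs⟩ := H69.XV.exists_Hy hl hc rfl e.toMonoidHom e.injective
    exact H69.XV.not_simple_S6 h (fun k _ => hs _ ⟨e.symm _, e.apply_symm_apply _⟩)
      (hs _ ⟨e.symm _, e.apply_symm_apply _⟩)

end Cfsg.Agent.S3283
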