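import Cfsg.Statements.S3284
import Cfsg.Agent.H69.XN3
import Cfsg.Agent.H49.Simp

set_option autoImplicit false
open Cfsg

namespace Cfsg.Agent.S3284

/-- There is no non-abelian finite simple group with an involution z whose centralizer M has generalized Fitting subgroup Q = F*(M) extraspecial of order 2⁹ and M/Q isomorphic to the subgroup of S₃ × S₆ consisting of the pairs of permutations with equal sign (a group (3 × A₆)·2 in which an involution outside 3 × A₆ induces S₃ on the first factor and S₆ on the second). -/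
theorem result {G : Type*} [Group G] [Finite G] [IsSimpleGroup G] (hG : ¬ IsMulCommutative G) (z : G) (hz : orderOf z = 2)
    [hn : (Cfsg.generalizedFittingSubgroup ↥(Subgroup.centralizer ({z} : Set G))).Normal]
    (hQ : Cfsg.IsExtraspecial 2 ↥(Cfsg.generalizedFittingSubgroup ↥(Subgroup.centralizer ({z} : Set G)))) (hQ9 : Nat.card ↥(Cfsg.generalizedFittingSubgroup ↥(Subgroup.centralizer ({z} : Set G))) = 2 ^ 9)
    (e : (↥(Subgroup.centralizer ({z} : Set G)) ⧸ Cfsg.generalizedFittingSubgroup ↥(Subgroup.centralizer ({z} : Set G))) ≃*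
      ↥(MonoidHom.ker (Equiv.Perm.sign.comp (MonoidHom.fst (Equiv.Perm (Fin 3)) (Equiv.Perm (Fin 6))) *
          Equiv.Perm.sign.comp (MonoidHom.snd (Equiv.Perm (Fin 3)) (Equiv.Perm (Fin 6)))))) :
    False := by
  have hz1 : z ≠ 1 := (H49.orderOf_two_iff.1 hz).1
  obtain ⟨hl, hO⟩ := H49.LX.of_fstar hz1 rfl
    ((H49.isExtraspecial_map_iff (Subgroup.subtype_injective _)).2 hQ)
  have hN := Subgroup.map_injective (Subgroup.subtype_injective _) hO
  have hc : Nat.card (H49.O2C z) = 512 := by
    rw [Subgroup.card_map_of_injective (Subgroup.subtype_injective _), ← hN, hQ9]; rfl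
  rw [hO] at hl
  obtain ⟨π, h, hs⟩ := H69.XV.exists_Hy hl hc hN ((Subgroup.subtype _).comp e.toMonoidHom)
    ((Subgroup.subtype_injective _).comp e.injective)
  refine H69.XV.not_simple_S6 h (fun k hk => hs _ ⟨e.symm ⟨(1, k), ?_⟩, by simp⟩)
    (hs _ ⟨e.symm ⟨(Equiv.swap 0 1 * Equiv.swap 1 2, 1), ?_⟩, by simp⟩) inferInstance
  · simp [MonoidHom.mem_ker, hk]
  · simp [MonoidHom.mem_ker]

end Cfsg.Agent.S3284
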