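import Cfsg.Statements.S3303
import Cfsg.Agent.S3305
import Cfsg.Agent.H87.AutTwo
import Cfsg.Agent.H3.Fitting

set_option autoImplicit false
open Cfsg

namespace Cfsg.Agent.S3303

/-- Let G be a finite solvable group in which the intersection of any two distinct Sylow 2-subgroups is cyclic. Then G/O(G) has a normal Sylow 2-subgroup, where O(G) is the largest normal subgroup of odd order. -/
theorem result {G : Type*} [Group G] [Finite G] (hs : Group.IsSolvable G)
    (hC : ∀ S T : Sylow 2 G, S ≠ T → IsCyclic ↥((S : Subgroup G) ⊓ (T : Subgroup G))) :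
    ∃ P : Sylow 2 (G ⧸ Cfsg.oddCore G), (P : Subgroup (G ⧸ Cfsg.oddCore G)).Normal := by
  have : Fact (Nat.Prime 2) := ⟨Nat.prime_two⟩
  have h1 := S3305.result hC (Cfsg.oddCore G)
  obtain ⟨P⟩ : Nonempty (Sylow 2 (G ⧸ Cfsg.oddCore G)) := inferInstance
  refine ⟨P, ?_⟩
  by_contra hn
  obtain ⟨T, hT⟩ : ∃ T : Sylow 2 (G ⧸ Cfsg.oddCore G), P ≠ T := by
    by_contra h
    push Not at h
    have : Subsingleton (Sylow 2 (G ⧸ Cfsg.oddCore G)) := ⟨fun a b => (h a).symm.trans (h b)⟩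
    exact hn (Sylow.normal_of_subsingleton P)
  have h2 := h1 P T hT
  have h3 : IsCyclic (Cfsg.pCore 2 (G ⧸ Cfsg.oddCore G)) :=
    Subgroup.isCyclic_of_le (le_inf (H3.pCore_le_sylow P) (H3.pCore_le_sylow T))
  have h4 := H87.isPGroup_of_aut_pCore
    (H3.centralizer_pCore_le (H3.pPrimeCore_quotient_pPrimeCore 2 G))
    (H87.isPGroup_mulAut_of_isCyclic (H3.pCore_isPGroup 2 _))
  apply hn
  have : (P : Subgroup (G ⧸ Cfsg.oddCore G)) = ⊤ :=
    (P.is_maximal' (h4.to_subgroup ⊤) le_top).symm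
  rw [this]; infer_instance

end Cfsg.Agent.S3303
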