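import Cfsg.Statements.S3306
import Mathlib
import Cfsg.Agent.H87.BlockInv
import Cfsg.Agent.H87.Quat
import Cfsg.Agent.H87.CyclicSylow
import Cfsg.Agent.H87.Sylow
import Cfsg.Agent.H87.SylowLift
import Cfsg.Agent.H9.MaxClass
import Cfsg.Agent.H6.ZStar
import Cfsg.Agent.H4.CoprimeAction
import Cfsg.Agent.H3.Fitting
import Cfsg.Agent.S0205

set_option autoImplicit false
open Cfsg

namespace Cfsg.Agent.S3306

open Subgroup
open scoped commutatorElement Pointwise

set_option linter.unusedSectionVars false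

section core

variable {G : Type*} [Group G] [Finite G]

theorem comparable {H : Subgroup G} (hH : IsPGroup 2 H) (hc : IsCyclic H) {a b : G} (ha : a ∈ H)
    (hb : b ∈ H) : a ∈ zpowers b ∨ b ∈ zpowers a := by
  obtain ⟨c, rfl⟩ := (Subgroup.isCyclic_iff_exists_zpowers_eq_top H).mp hc
  obtain ⟨m, hm⟩ := IsPGroup.iff_card.mp hH
  rw [Nat.card_zpowers] at hm
  obtain ⟨r, -, h1⟩ := H9.exists_eq_zpowers_pow Nat.prime_two hm (zpowers_le.mpr ha)
  obtain ⟨s, -, h2⟩ := H9.exists_eq_zpowers_pow Nat.prime_two hm (zpowers_le.mpr hb)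
  rcases le_total r s with h | h
  · right
    obtain ⟨k, rfl⟩ := Nat.exists_eq_add_of_le h
    rw [← zpowers_le, h1, h2, zpowers_le, pow_add, pow_mul]
    exact pow_mem (mem_zpowers _) _
  · left
    obtain ⟨k, rfl⟩ := Nat.exists_eq_add_of_le h
    rw [← zpowers_le, h1, h2, zpowers_le, pow_add, pow_mul]
    exact pow_mem (mem_zpowers _) _

theorem mem_sylow_of_mem_normalizer (S : Sylow 2 G) {d : G} {k : ℕ} (hd : d ^ 2 ^ k = 1)
    (hn : d ∈ normalizer ((S : Subgroup G) : Set G)) : d ∈ (S : Subgroup G) := by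
  have h1 := H10.isPGroup_zpowers_of_pow hd
  have h2 := S.is_maximal' (IsPGroup.to_sup_of_normal_left' S.isPGroup' h1 (zpowers_le.mpr hn))
    le_sup_left
  rw [← h2]
  exact mem_sup_right (mem_zpowers d)

/-- The configuration to be refuted. -/
structure Cfg (v : G) : Prop where
  ci : ∀ S T : Sylow 2 G, S ≠ T → IsCyclic ↥((S : Subgroup G) ⊓ (T : Subgroup G))
  core : pPrimeCore 2 G = ⊥
  gen : pCore 2 G = zpowers v
  two : ∃ S T : Sylow 2 G, S ≠ T
  nc : ¬ zpowers v ≤ center G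

namespace Cfg

variable {v : G}

theorem normal (h : Cfg v) : (zpowers v).Normal := h.gen ▸ inferInstance

theorem mem_sylow (h : Cfg v) (S : Sylow 2 G) : v ∈ (S : Subgroup G) :=
  H3.pCore_le_sylow S (h.gen ▸ mem_zpowers v)

theorem ord (h : Cfg v) : ∃ m, orderOf v = 2 ^ m := by
  obtain ⟨m, hm⟩ := H3.exists_card_pCore (p := 2) (G := G)
  exact ⟨m, by rwa [h.gen, Nat.card_zpowers] at hm⟩

theorem conj_mem (h : Cfg v) (g : G) : g * v * g⁻¹ ∈ zpowers v :=
  h.normal.conj_mem _ (mem_zpowers v) g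

theorem central_of_sq (h : Cfg v) {d : G} (hd : d ∈ zpowers v) (h2 : d * d = 1) :
    d ∈ center G := by
  rw [mem_center_iff]
  intro g
  by_cases h1 : d = 1
  · simp [h1]
  have := H87.eq_of_mem_zpowers_of_sq (h.normal.conj_mem _ hd g) hd
    (by rw [conj_pow, pow_two, h2]; group) (by rw [pow_two, h2]) (by simpa using h1) h1
  exact mul_inv_eq_iff_eq_mul.mp this

theorem sq_ne (h : Cfg v) : v * v ≠ 1 := fun h2 =>
  h.nc (zpowers_le.mpr (h.central_of_sq (mem_zpowers v) h2))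

theorem odd_comm (h : Cfg v) {g : G} (hg : Odd (orderOf g)) : g ∈ centralizer ({v} : Set G) := by
  obtain ⟨m, hm⟩ := h.ord
  exact mem_centralizer_singleton_iff.mpr (H9.commute_of_odd_of_normalizes hm hg (h.conj_mem g))

theorem cnormal (h : Cfg v) : (centralizer ({v} : Set G)).Normal := by
  refine ⟨fun c hc g => ?_⟩
  rw [mem_centralizer_singleton_iff] at hc ⊢
  obtain ⟨k, hk⟩ := h.conj_mem g⁻¹
  simp only at hk
  have h1 : Commute c (g⁻¹ * v * g⁻¹⁻¹) := hk ▸ Commute.zpow_right hc k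
  calc g * c * g⁻¹ * v = g * (c * (g⁻¹ * v * g⁻¹⁻¹)) * g⁻¹ := by group
    _ = g * ((g⁻¹ * v * g⁻¹⁻¹) * c) * g⁻¹ := by rw [h1.eq]
    _ = _ := by group

theorem comm_mem (h : Cfg v) (a b : G) : ⁅a, b⁆ ∈ centralizer ({v} : Set G) := by
  obtain ⟨i, hi⟩ := h.conj_mem a⁻¹
  obtain ⟨j, hj⟩ := h.conj_mem b⁻¹
  simp only at hi hj
  have h1 : b⁻¹ * (a⁻¹ * v * a⁻¹⁻¹) * b⁻¹⁻¹ = a⁻¹ * (b⁻¹ * v * b⁻¹⁻¹) * a⁻¹⁻¹ := by
    rw [← hi, ← hj, ← conj_zpow, ← conj_zpow, ← hi, ← hj, ← zpow_mul, ← zpow_mul, mul_comm]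
  rw [mem_centralizer_singleton_iff, commutatorElement_def]
  calc a * b * a⁻¹ * b⁻¹ * v = a * b * (a⁻¹ * (b⁻¹ * v * b⁻¹⁻¹) * a⁻¹⁻¹) * a⁻¹ * b⁻¹ := by group
    _ = a * b * (b⁻¹ * (a⁻¹ * v * a⁻¹⁻¹) * b⁻¹⁻¹) * a⁻¹ * b⁻¹ := by rw [h1]
    _ = _ := by group

theorem index_pow (h : Cfg v) : ∃ k, (centralizer ({v} : Set G)).index = 2 ^ k := by
  haveI := h.cnormal
  apply IsPGroup.iff_card.mp
  intro x
  obtain ⟨g, rfl⟩ := QuotientGroup.mk_surjective x
  obtain ⟨i, j, k, h1, h2, h3⟩ := H87.exists_two_odd_parts g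
  refine ⟨k, ?_⟩
  rw [← h1, ← QuotientGroup.mk_pow, (Commute.pow_pow_self g i j).mul_pow, h2, one_mul,
    QuotientGroup.eq_one_iff]
  exact pow_mem (h.odd_comm h3) _

theorem lemA (h : Cfg v) {S T : Sylow 2 G} (hST : S ≠ T) {d j : G} (hS : d ∈ (S : Subgroup G))
    (hT : d ∈ (T : Subgroup G)) (hj : j ∈ centralizer ({v} : Set G)) (hd : j * d * j⁻¹ = d⁻¹) :
    d ∈ zpowers v ∧ d * d = 1 := by
  rw [mem_centralizer_singleton_iff] at hj
  rcases comparable (S.isPGroup'.to_inf_left) (h.ci S T hST) (a := d) (b := v) ⟨hS, hT⟩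
    ⟨h.mem_sylow S, h.mem_sylow T⟩ with h1 | ⟨k, hk⟩
  · refine ⟨h1, ?_⟩
    obtain ⟨k, rfl⟩ := h1
    have := (Commute.zpow_right hj k).eq
    simp only at hd ⊢
    rw [this, mul_inv_cancel_right] at hd
    nth_rewrite 1 [hd]
    exact inv_mul_cancel _
  · exfalso
    simp only at hk
    have h2 := H10.conj_zpow_of_inverts hd k
    rw [hk, hj, mul_inv_cancel_right] at h2
    apply h.sq_ne
    nth_rewrite 1 [h2]
    exact inv_mul_cancel _

theorem comm_of_two (h : Cfg v) {S T : Sylow 2 G} (hST : S ≠ T) {d : G}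
    (hS : d ∈ (S : Subgroup G)) (hT : d ∈ (T : Subgroup G)) : d ∈ centralizer ({v} : Set G) := by
  rw [mem_centralizer_singleton_iff]
  rcases comparable (S.isPGroup'.to_inf_left) (h.ci S T hST) (a := d) (b := v) ⟨hS, hT⟩
    ⟨h.mem_sylow S, h.mem_sylow T⟩ with ⟨k, rfl⟩ | ⟨k, rfl⟩
  · exact (Commute.zpow_self v k).eq
  · exact (Commute.self_zpow d k).eq

/-- The involutions centralizing `v` outside `⟨v⟩`. -/
def J (v : G) (j : G) : Prop := j ∈ centralizer ({v} : Set G) ∧ j * j = 1 ∧ j ∉ zpowers v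

theorem J_conj (h : Cfg v) {j : G} (hj : J v j) (g : G) : J v (g * j * g⁻¹) := by
  refine ⟨h.cnormal.conj_mem _ hj.1 g, ?_, fun h1 => hj.2.2 ?_⟩
  · calc g * j * g⁻¹ * (g * j * g⁻¹) = g * (j * j) * g⁻¹ := by group
      _ = 1 := by rw [hj.2.1]; group
  · have := h.normal.conj_mem _ h1 g⁻¹
    simpa [mul_assoc] using this

theorem J_unique (h : Cfg v) {j : G} (hj : J v j) {S T : Sylow 2 G} (hS : j ∈ (S : Subgroup G))
    (hT : j ∈ (T : Subgroup G)) : S = T := by
  by_contra hST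
  exact hj.2.2 (h.lemA hST hS hT hj.1 (by
    rw [mul_inv_cancel_right, inv_eq_of_mul_eq_one_right hj.2.1])).1

theorem lemB (h : Cfg v) {j : G} (hj : J v j) {S : Sylow 2 G} (hS : j ∈ (S : Subgroup G)) {d : G}
    {k : ℕ} (hd : d ^ 2 ^ k = 1) (hjd : j * d * j⁻¹ = d⁻¹) : d ∈ (S : Subgroup G) := by
  have h1 : j * d * (j * d) = 1 := by
    calc j * d * (j * d) = j * d * j⁻¹ * (j * j) * d := by group
      _ = 1 := by rw [hjd, hj.2.1]; group
  have h2 : j * (j * d) = d := by rw [← mul_assoc, hj.2.1, one_mul]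
  obtain ⟨T, hT⟩ := (H9.isPGroup_closure_involutions hj.2.1 h1 (n := k)
    (by rw [h2, hd])).exists_le_sylow
  have h3 : j ∈ (T : Subgroup G) := hT (subset_closure (by simp))
  have h4 : j * d ∈ (T : Subgroup G) := hT (subset_closure (by simp))
  rw [h.J_unique hj hS h3, ← h2]
  exact mul_mem h3 h4

theorem exists_J (h : Cfg v) (S : Sylow 2 G) : ∃ u ∈ (S : Subgroup G), J v u := by
  by_contra hcon
  push Not at hcon
  haveI := h.cnormal
  have hvR : v ∈ (S : Subgroup G) ⊓ centralizer ({v} : Set G) :=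
    ⟨h.mem_sylow S, mem_centralizer_singleton_iff.mpr rfl⟩
  have hV : ∀ x ∈ (S : Subgroup G) ⊓ centralizer ({v} : Set G), x * x = 1 → x ∈ zpowers v := by
    intro x hx h2
    by_contra h3
    exact hcon x hx.1 ⟨hx.2, h2, h3⟩
  have hcyc : IsCyclic ↥((S : Subgroup G) ⊓ centralizer ({v} : Set G)) := by
    rcases H87.isCyclic_or_quaternion_of_inv_unique (S.isPGroup'.to_inf_left) (fun x hx y hy h1 h2 =>
      H87.eq_of_mem_zpowers_of_sq (hV x hx (H10.mul_self_of_orderOf_two h1))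
        (hV y hy (H10.mul_self_of_orderOf_two h2)) (by rw [← h1, pow_orderOf_eq_one])
        (by rw [← h2, pow_orderOf_eq_one]) (H10.ne_one_of_orderOf_two h1)
        (H10.ne_one_of_orderOf_two h2)) with h1 | ⟨n, hn, ⟨e⟩⟩
    · exact h1
    · exfalso
      obtain ⟨a, b, ha, hb, hab, hba, hall⟩ := H9.exists_gens_of_equiv_quaternion e
      have hcv : ∀ x : ↥((S : Subgroup G) ⊓ centralizer ({v} : Set G)),
          x * ⟨v, hvR⟩ = ⟨v, hvR⟩ * x := fun x =>
        Subtype.ext (mem_centralizer_singleton_iff.mp x.2.2)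
      apply h.sq_ne
      rcases hall ⟨v, hvR⟩ with ⟨k, hk⟩ | ⟨k, hk⟩
      · have h2 := H10.conj_zpow_of_inverts hab k
        rw [← hk, hcv, mul_inv_cancel_right] at h2
        have h3 : (⟨v, hvR⟩ : ↥((S : Subgroup G) ⊓ centralizer ({v} : Set G))) * ⟨v, hvR⟩ = 1 := by
          nth_rewrite 1 [h2]
          exact inv_mul_cancel _
        exact congrArg Subtype.val h3
      · exfalso
        have h2 := hcv a
        rw [hk, ← mul_assoc, (Commute.self_zpow a k).eq, mul_assoc, mul_assoc,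
          mul_right_inj] at h2
        rw [← h2, mul_inv_cancel_right] at hab
        have h3 : a ^ 2 = 1 := by
          rw [pow_two]; nth_rewrite 1 [hab]; exact inv_mul_cancel _
        have h4 := Nat.le_of_dvd (by norm_num) (orderOf_dvd_of_pow_eq_one h3)
        have h5 : 2 ^ 1 ≤ 2 ^ n := Nat.pow_le_pow_right (by norm_num) hn
        omega
  obtain ⟨k, hk⟩ := h.index_pow
  have h1 := H6.isPGroup_of_npc (H87.hasNormalPComplement_of_inf_cyclic S hk hcyc) h.core
  obtain ⟨P, Q, hPQ⟩ := h.two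
  exact hPQ (Sylow.ext ((P.is_maximal' (h1.to_subgroup ⊤) le_top).symm.trans
    (Q.is_maximal' (h1.to_subgroup ⊤) le_top)))

theorem exists_swap (h : Cfg v) {S T : Sylow 2 G} (hST : S ≠ T) {u t : G} (hu : J v u)
    (ht : J v t) (huS : u ∈ (S : Subgroup G)) (htT : t ∈ (T : Subgroup G)) :
    ∃ j d : G, J v j ∧ d ∈ zpowers v ∧ d * d = 1 ∧ j * u * j⁻¹ = d * t ∧ j • S = T ∧ j • T = S := by
  obtain ⟨r, d, e, k, hr, hd, -, -, hdk, -, -, hrd, -, htd, -⟩ := H87.dihedral_split hu.2.1 ht.2.1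
  have hinv := H9.left_inverts_mul hu.2.1 ht.2.1
  have hud : u * d * u⁻¹ = d⁻¹ := by
    obtain ⟨i, rfl⟩ := hd; exact H10.conj_zpow_of_inverts hinv i
  have hur : u * r * u⁻¹ = r⁻¹ := by
    obtain ⟨i, rfl⟩ := hr; exact H10.conj_zpow_of_inverts hinv i
  obtain ⟨hdV, hd2⟩ := h.lemA hST (h.lemB hu huS hdk hud) (h.lemB ht htT hdk htd) hu.1 hud
  have hdT : d ∈ (T : Subgroup G) := h.lemB ht htT hdk htd
  have h1 : u * r * u * (u * r)⁻¹ = d * t := by
    calc u * r * u * (u * r)⁻¹ = (u * r * u⁻¹) * u * (u * r * u⁻¹)⁻¹ * (t * t) := by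
          rw [ht.2.1]; group
      _ = d * t := by rw [hur, ← hrd]; group
  have h2 : u * r * (u * r) = 1 := by
    calc u * r * (u * r) = (u * r * u⁻¹) * (u * u) * r := by group
      _ = 1 := by rw [hur, hu.2.1]; group
  have h3 : (u * r) • S = T := by
    apply h.J_unique (h.J_conj hu (u * r))
    · change _ ∈ (u * r) • S
      rw [H10.mem_smul_sylow]
      rw [show (u * r)⁻¹ * (u * r * u * (u * r)⁻¹) * (u * r) = u by group]
      exact huS
    · rw [h1]; exact mul_mem hdT htT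
  refine ⟨u * r, d, ⟨mul_mem hu.1 (zpowers_le.mpr (mul_mem hu.1 ht.1) hr), h2, fun h4 => ?_⟩,
    hdV, hd2, h1, h3, by rw [← h3, smul_smul, h2, one_smul]⟩
  apply hST
  rw [← h3]
  exact (Sylow.smul_eq_iff_mem_normalizer.mpr
    (le_normalizer (zpowers_le.mpr (h.mem_sylow S) h4))).symm

theorem false (h : Cfg v) : False := by
  obtain ⟨S, T, hST⟩ := h.two
  haveI := h.cnormal
  obtain ⟨u₀, hu₀S, hu₀⟩ := h.exists_J S
  obtain ⟨t, htT, ht⟩ := h.exists_J T
  obtain ⟨j₀, -, hj₀, -, -, -, hj₀S, hj₀T⟩ := h.exists_swap hST hu₀ ht hu₀S htT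
  set D := normalizer ((S : Subgroup G) : Set G) ⊓ normalizer ((T : Subgroup G) : Set G) with hD
  have hmemD : ∀ g, g ∈ D ↔ g • S = S ∧ g • T = T := fun g => by
    rw [hD, mem_inf, Sylow.smul_eq_iff_mem_normalizer, Sylow.smul_eq_iff_mem_normalizer]
    rfl
  have h2D : ∀ d ∈ D, ∀ k, d ^ 2 ^ k = 1 → d ∈ (S : Subgroup G) ⊓ T := fun d hd k hk =>
    ⟨mem_sylow_of_mem_normalizer S hk hd.1, mem_sylow_of_mem_normalizer T hk hd.2⟩
  have hsyl : H8.IsSylowIn 2 ((S : Subgroup G) ⊓ T) D :=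
    H8.isSylowIn_of_maximal (inf_le_inf le_normalizer le_normalizer) S.isPGroup'.to_inf_left
      fun Q hQ hQD _ x hx => by
        obtain ⟨k, hk⟩ := hQ ⟨x, hx⟩
        exact h2D x (hQD hx) k (congrArg Subtype.val hk)
  have hnpc := H87.hasNormalPComplement_of_isSylowIn_cyclic hsyl (h.ci S T hST)
  set E := (pPrimeCore 2 D).map D.subtype with hE
  have hED : E ≤ D := map_subtype_le _
  have hEodd : (Nat.card E).Coprime 2 := H3.map_pPrimeCore_coprime D
  have hoddE : ∀ e ∈ D, Odd (orderOf e) → e ∈ E := fun e he ho =>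
    ⟨⟨e, he⟩, H3.le_pPrimeCore (H8.hasNormalPComplement_iff_coprime.mp hnpc)
      (H8.mem_pResidual_of_coprime (by
        rw [← Subgroup.orderOf_coe]; exact Nat.coprime_two_right.mpr ho)), rfl⟩
  have hj₀E : j₀ ∈ normalizer (E : Set G) := by
    apply H3.normalizer_le_normalizer_map_pPrimeCore D
    apply H10.mem_normalizer_of_conj_mem
    intro x hx
    rw [hmemD] at hx ⊢
    have e1 : j₀⁻¹ • S = T := by rw [inv_smul_eq_iff, hj₀T]
    have e2 : j₀⁻¹ • T = S := by rw [inv_smul_eq_iff, hj₀S]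
    rw [mul_smul, mul_smul, mul_smul, mul_smul, e1, e2, hx.1, hx.2]
    exact ⟨hj₀T, hj₀S⟩
  -- `E` is transitive on the involutions of `S` modulo `v`
  have htrans : ∀ u u', J v u → J v u' → u ∈ (S : Subgroup G) → u' ∈ (S : Subgroup G) →
      ∃ e ∈ E, ∃ c ∈ zpowers v, c * c = 1 ∧ e * u * e⁻¹ = c * u' := by
    intro u u' hu hu' huS hu'S
    obtain ⟨j, d, hj, hdV, hd2, hjd, hjS, hjT⟩ := h.exists_swap hST hu ht huS htT
    obtain ⟨j', d', hj', hd'V, hd'2, hjd', hj'S, hj'T⟩ := h.exists_swap hST hu' ht hu'S htT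
    have hdc := mem_center_iff.mp (h.central_of_sq hdV hd2)
    have hd'c := mem_center_iff.mp (h.central_of_sq hd'V hd'2)
    have hmD : j' * j ∈ D := by
      rw [hmemD, mul_smul, mul_smul, hjS, hjT]; exact ⟨hj'T, hj'S⟩
    obtain ⟨-, d₁, e, k, -, hd₁, he, hde, hdk, heo, -, -, -, hjd₁, -⟩ :=
      H87.dihedral_split hj'.2.1 hj.2.1
    have h1 := h2D d₁ (zpowers_le.mpr hmD hd₁) k hdk
    obtain ⟨h2, h3⟩ := h.lemA hST h1.1 h1.2 hj.1 hjd₁
    have hd₁c := mem_center_iff.mp (h.central_of_sq h2 h3)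
    refine ⟨e, hoddE e (zpowers_le.mpr hmD he) heo, d * d', mul_mem hdV hd'V, ?_, ?_⟩
    · calc d * d' * (d * d') = d * (d' * d) * d' := by group
        _ = d * d * (d' * d') := by rw [hdc d']; group
        _ = 1 := by rw [hd2, hd'2, one_mul]
    · have h4 : j' * t * j'⁻¹ = d' * u' := by
        have h5 : t = d' * (j' * u' * j'⁻¹) := by rw [hjd', ← mul_assoc, hd'2, one_mul]
        calc j' * t * j'⁻¹ = (j' * d') * (j' * u' * j'⁻¹) * j'⁻¹ := by rw [h5]; group
          _ = d' * (j' * j') * u' * (j' * j')⁻¹ := by rw [hd'c j']; group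
          _ = d' * u' := by rw [hj'.2.1]; group
      calc e * u * e⁻¹ = (e * u * e⁻¹ * d₁) * d₁⁻¹ := by group
        _ = (d₁ * e) * u * (d₁ * e)⁻¹ := by rw [hd₁c]; group
        _ = j' * (j * u * j⁻¹) * j'⁻¹ := by rw [hde]; group
        _ = (j' * d) * t * j'⁻¹ := by rw [hjd]; group
        _ = d * (j' * t * j'⁻¹) := by rw [hdc j']; group
        _ = d * d' * u' := by rw [h4, mul_assoc]
  -- an element of `S` centralizing `E` but not `v`
  obtain ⟨s, hsS, hsE, hsC⟩ : ∃ s ∈ (S : Subgroup G), s ∈ centralizer (E : Set G) ∧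
      s ∉ centralizer ({v} : Set G) := by
    by_contra hcon
    push Not at hcon
    obtain ⟨n, hn⟩ := IsPGroup.iff_card.mp S.isPGroup'
    have h1 := H4.commutator_sup_centralizer (A := E) (K := (S : Subgroup G))
      (hED.trans inf_le_left) (by rw [hn]; exact hEodd.pow_right n)
      (Or.inr (by haveI := S.isPGroup'.isNilpotent; infer_instance))
    have h2 : (S : Subgroup G) ≤ centralizer ({v} : Set G) := by
      rw [← h1, sup_le_iff]
      exact ⟨commutator_le.mpr fun a _ b _ => h.comm_mem a b, fun x hx => hcon x hx.1 hx.2⟩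
    obtain ⟨k, hk⟩ := h.index_pow
    have h3 := S.not_dvd_index
    have h4 : k = 0 := by
      by_contra h5
      exact h3 ((hk ▸ dvd_pow_self 2 h5 : 2 ∣ _).trans (index_dvd_of_le h2))
    rw [h4, pow_zero, index_eq_one] at hk
    apply h.nc
    rw [zpowers_le, mem_center_iff]
    intro g
    exact mem_centralizer_singleton_iff.mp (hk ▸ mem_top g)
  obtain ⟨k, hk, T', h1, h2⟩ := H87.exists_conj_common_sylow (p := 2) (K := normalizer (E : Set G))
    (S.isPGroup'.to_le (zpowers_le.mpr hsS)) (zpowers_le.mpr (centralizer_le_normalizer _ hsE))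
    (H10.isPGroup_zpowers_of_pow (k := 1) (by simpa [pow_two] using hj₀.2.1))
    (zpowers_le.mpr hj₀E)
  have hT' : S = T' := by
    by_contra h3
    exact hsC (h.comm_of_two h3 hsS (h1 (mem_zpowers s)))
  subst hT'
  have hwS := h2 j₀ (mem_zpowers j₀)
  have hw := h.J_conj hj₀ k
  have hwE : k * j₀ * k⁻¹ ∈ normalizer (E : Set G) := mul_mem (mul_mem hk hj₀E) (inv_mem hk)
  set w := k * j₀ * k⁻¹
  have hall : ∀ u, J v u → u ∈ (S : Subgroup G) → ∃ c ∈ zpowers v, c * c = 1 ∧ w = c * u := by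
    intro u hu huS
    obtain ⟨e, he, c, hc, hc2, h3⟩ := htrans w u hw hu hwS huS
    refine ⟨c, hc, hc2, ?_⟩
    rw [← h3]
    have h4 : e * w * e⁻¹ * w⁻¹ ∈ E := by
      rw [mul_assoc, mul_assoc, ← mul_assoc w]
      exact mul_mem he ((mem_normalizer_iff.mp hwE _).mp (inv_mem he))
    have h5 : e * w * e⁻¹ * w⁻¹ ∈ (S : Subgroup G) :=
      mul_mem ((mem_normalizer_iff.mp (hED he).1 _).mp hwS) (inv_mem hwS)
    obtain ⟨n, hn⟩ := IsPGroup.iff_orderOf.mp S.isPGroup' ⟨_, h5⟩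
    rw [← Subgroup.orderOf_coe] at hn
    have h6 := Nat.Coprime.coprime_dvd_left (H10.orderOf_dvd_card_of_mem h4) (hEodd.pow_right n)
    simp only at hn
    rw [← hn, Nat.coprime_self, orderOf_eq_one_iff, mul_inv_eq_one] at h6
    exact h6.symm
  -- pass to the quotient by the central involution
  let Z : Subgroup G := zpowers v ⊓ center G
  haveI : Z.Normal := H3.normal_of_le_center inf_le_right
  have hZ2 : ∀ z ∈ Z, ∃ n, z ^ 2 ^ n = 1 := fun z hz => by
    obtain ⟨n, hn⟩ := S.isPGroup' ⟨z, zpowers_le.mpr (h.mem_sylow S) hz.1⟩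
    exact ⟨n, congrArg Subtype.val hn⟩
  have hiso : IsIsolatedInvolution (QuotientGroup.mk w : G ⧸ Z) := by
    refine ⟨H10.orderOf_eq_two_of (by rw [← QuotientGroup.mk_mul, hw.2.1]; rfl)
      (fun h3 => hw.2.2 ((QuotientGroup.eq_one_iff w).mp h3).1), fun g hg => ?_⟩
    obtain ⟨g, rfl⟩ := QuotientGroup.mk_surjective g
    have hw' := h.J_conj hw g
    rw [← QuotientGroup.mk_inv, ← QuotientGroup.mk_mul, ← QuotientGroup.mk_mul] at hg ⊢
    set w' := g * w * g⁻¹
    have h3 : (w * w') ^ 2 ∈ Z := by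
      rw [← QuotientGroup.eq_one_iff, QuotientGroup.mk_pow, QuotientGroup.mk_mul, hg.mul_pow,
        ← QuotientGroup.mk_pow, ← QuotientGroup.mk_pow, pow_two, pow_two, hw.2.1, hw'.2.1]
      simp
    obtain ⟨n, hn⟩ := hZ2 _ h3
    obtain ⟨T', hT'⟩ := (H9.isPGroup_closure_involutions hw.2.1 hw'.2.1 (n := n + 1)
      (by rw [pow_succ', pow_mul, hn])).exists_le_sylow
    have h4 := h.J_unique hw hwS (hT' (subset_closure (by simp)))
    subst h4
    obtain ⟨c, hc, hc2, h5⟩ := hall w' hw' (hT' (subset_closure (by simp)))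
    have h6 : (QuotientGroup.mk c : G ⧸ Z) = 1 :=
      (QuotientGroup.eq_one_iff c).mpr ⟨hc, h.central_of_sq hc hc2⟩
    conv_rhs => rw [h5, QuotientGroup.mk_mul, h6, one_mul]
  have hcen := H6.mem_center_of_isolated hiso
    (H6.pPrimeCore_quotient_eq_bot_of_le_center Z inf_le_right h.core)
  obtain ⟨g, hg⟩ := MulAction.exists_smul_eq G S T
  apply hST
  apply h.J_unique hw hwS
  rw [← hg]
  change _ ∈ g • S
  rw [H10.mem_smul_sylow]
  have h3 : w⁻¹ * (g⁻¹ * w * g) ∈ Z := by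
    rw [← QuotientGroup.eq, QuotientGroup.mk_mul _ (g⁻¹ * w), QuotientGroup.mk_mul _ g⁻¹ w, mul_assoc,
      ← mem_center_iff.mp hcen, QuotientGroup.mk_inv, inv_mul_cancel_left]
  have := mul_mem hwS (zpowers_le.mpr (h.mem_sylow S) h3.1)
  rw [mul_inv_cancel_left] at this
  exact this

end Cfg

theorem core_result (hO : pPrimeCore 2 G = ⊥)
    (hC : ∀ S T : Sylow 2 G, S ≠ T → IsCyclic ↥((S : Subgroup G) ⊓ (T : Subgroup G)))
    (h2 : ∃ S T : Sylow 2 G, S ≠ T) : IsCyclic (pCore 2 G) ∧ pCore 2 G ≤ center G := by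
  have h1 : IsCyclic (pCore 2 G) := by
    obtain ⟨S, T, hST⟩ := h2
    haveI := hC S T hST
    exact Subgroup.isCyclic_of_le (le_inf (H3.pCore_le_sylow S) (H3.pCore_le_sylow T))
  refine ⟨h1, ?_⟩
  obtain ⟨v, hv⟩ := (Subgroup.isCyclic_iff_exists_zpowers_eq_top _).mp h1
  by_contra h3
  exact Cfg.false (v := v) ⟨hC, hO, hv.symm, h2, hv ▸ h3⟩

end core

/-- Let G be a finite nonsolvable group in which any two distinct Sylow 2-subgroups intersect in a cyclic group, and let N be a solvable normal subgroup of G. Then the image of N in G/O(G) is a cyclic 2-group contained in the centre of G/O(G) (O(G) the largest normal subgroup of odd order). In other words the solvable radical of G is V·O(G) with V a cyclic 2-group central modulo O(G). -/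
theorem result {G : Type*} [Group G] [Finite G] (hns : ¬ Group.IsSolvable G)
    (hC : ∀ S T : Sylow 2 G, S ≠ T → IsCyclic ↥((S : Subgroup G) ⊓ (T : Subgroup G)))
    (N : Subgroup G) [N.Normal] (hN : Group.IsSolvable ↥N) :
    IsCyclic ↥(N.map (QuotientGroup.mk' (Cfsg.oddCore G))) ∧ IsPGroup 2 ↥(N.map (QuotientGroup.mk' (Cfsg.oddCore G))) ∧
      N.map (QuotientGroup.mk' (Cfsg.oddCore G)) ≤ Subgroup.center (G ⧸ Cfsg.oddCore G) := by
  have hf := QuotientGroup.mk'_surjective (oddCore G)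
  have hO : pPrimeCore 2 (G ⧸ oddCore G) = ⊥ := H3.pPrimeCore_quotient_pPrimeCore 2 G
  have hC' : ∀ S T : Sylow 2 (G ⧸ oddCore G), S ≠ T →
      IsCyclic ↥((S : Subgroup (G ⧸ oddCore G)) ⊓ T) := by
    intro S' T' hne
    obtain ⟨S, T, hS, hT, hST⟩ := H87.exists_sylow_pair_map hf S' T'
    haveI := hC S T (by rintro rfl; exact hne (Sylow.ext (hS.symm.trans hT)))
    rw [← hST]
    exact isCyclic_of_surjective _ (MonoidHom.subgroupMap_surjective _ _)
  have h2 : ∃ S T : Sylow 2 (G ⧸ oddCore G), S ≠ T := by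
    by_contra hcon
    push Not at hcon
    apply hns
    obtain ⟨S⟩ : Nonempty (Sylow 2 (G ⧸ oddCore G)) := inferInstance
    haveI : Subsingleton (Sylow 2 (G ⧸ oddCore G)) := ⟨hcon⟩
    haveI := S.normal_of_subsingleton
    haveI : Group.IsSolvable ((G ⧸ oddCore G) ⧸ (S : Subgroup (G ⧸ oddCore G))) :=
      S0205.result (Nat.odd_iff.mpr (Nat.two_dvd_ne_zero.mp S.not_dvd_index))
    haveI := S.isPGroup'.isNilpotent
    haveI : Group.IsSolvable (G ⧸ oddCore G) :=
      Group.isSolvable_of_ker_le_range (S : Subgroup (G ⧸ oddCore G)).subtype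
        (QuotientGroup.mk' (S : Subgroup (G ⧸ oddCore G)))
        (by rw [QuotientGroup.ker_mk', range_subtype])
    haveI : Group.IsSolvable (oddCore G) :=
      S0205.result (Nat.coprime_two_right.mp (H3.pPrimeCore_coprime 2 G))
    exact Group.isSolvable_of_ker_le_range (oddCore G).subtype (QuotientGroup.mk' (oddCore G))
      (by rw [QuotientGroup.ker_mk', range_subtype])
  obtain ⟨h3, h4⟩ := core_result hO hC' h2
  set N' := N.map (QuotientGroup.mk' (oddCore G)) with hN'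
  haveI : N'.Normal := Normal.map inferInstance _ hf
  haveI : Group.IsSolvable N' := Group.isSolvable_of_surjective (MonoidHom.subgroupMap_surjective _ N)
  have h5 : pPrimeCore 2 N' = ⊥ := by
    have := H3.map_pPrimeCore_le_pPrimeCore (p := 2) N'
    rwa [hO, le_bot_iff, map_eq_bot_iff_of_injective _ N'.subtype_injective] at this
  have h6 : N' ≤ pCore 2 (G ⧸ oddCore G) := by
    intro x hx
    apply H3.map_pCore_le_pCore N'
    refine ⟨⟨x, hx⟩, H3.centralizer_pCore_le h5 fun y hy => Subtype.ext ?_, rfl⟩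
    exact (mem_center_iff.mp (h4 (H3.map_pCore_le_pCore N' ⟨y, hy, rfl⟩)) x).symm
  exact ⟨Subgroup.isCyclic_of_le h6, (H3.pCore_isPGroup 2 _).to_le h6, h6.trans h4⟩

end Cfsg.Agent.S3306
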