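import Cfsg.Statements.S3317
import Cfsg.Agent.H83.J4R3

set_option autoImplicit false
open Cfsg

namespace Cfsg.Agent.S3317

/-- Let G be a finite group of characteristic 2 type with an element x of order 3 whose centralizer is the perfect sixfold cover of M₂₂ (perfect, cyclic centre of order 6, central quotient isomorphic to M₂₂). Suppose G is not 3-normal: the centre of some Sylow 3-subgroup S has a conjugate lying in S other than itself. Then G is of Janko-four type: some involution z has centralizer H whose largest normal 2-subgroup E is extraspecial of order 2^13 containing its centralizer in H, with a normal subgroup N ≥ E of H, N/E of order 3, H/N the automorphism group of M₂₂, and a subgroup P ≤ N of order 3 with C_E(P) = ⟨z⟩, N_H(P) ≠ C_H(P) and P ≤ C_H(P)′. -/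
theorem result {G : Type*} [Group G] [Finite G] (h2 : Cfsg.IsCharacteristicTwoType G) (x : G) (hx : orderOf x = 3) (hperf : ⁅(⊤ : Subgroup ↥(Subgroup.centralizer ({x} : Set G))), (⊤ : Subgroup ↥(Subgroup.centralizer ({x} : Set G)))⁆ = ⊤) (hZ : IsCyclic ↥(Subgroup.center ↥(Subgroup.centralizer ({x} : Set G)))) (hZc : Nat.card ↥(Subgroup.center ↥(Subgroup.centralizer ({x} : Set G))) = 6) (e : ↥(Subgroup.centralizer ({x} : Set G)) ⧸ Subgroup.center ↥(Subgroup.centralizer ({x} : Set G)) ≃* ↥Cfsg.Spor.M22) (S : Sylow 3 G) (g : G) (hng : ((Subgroup.center ↥(S : Subgroup G)).map (S : Subgroup G).subtype).map (MulAut.conj g).toMonoidHom ≤ (S : Subgroup G)) (hne : ((Subgroup.center ↥(S : Subgroup G)).map (S : Subgroup G).subtype).map (MulAut.conj g).toMonoidHom ≠ ((Subgroup.center ↥(S : Subgroup G)).map (S : Subgroup G).subtype)) :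
    Cfsg.IsOfJankoFourType G := by
  obtain ⟨z, ⟨h⟩, z1⟩ := H83.J4.exists_cov hx hperf (Or.inr hZc) e
  have z1 := z1 hZc
  obtain ⟨g, yC, yn⟩ := h.exists_g S g hng hne
  have hN : Subgroup.normalizer (Subgroup.zpowers z : Set G) = Subgroup.centralizer {z} := by
    apply le_antisymm
    · intro n hn
      rcases (H49.mem_zpowers_invol h.zz).mp
        (H49.conj_mem_of_mem_normalizer hn (Subgroup.mem_zpowers z)) with e | e
      · exact absurd (by simpa using e) z1
      · exact Subgroup.mem_centralizer_singleton_iff.mpr (mul_inv_eq_iff_eq_mul.mp e)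
    · rw [← H49.centralizer_zpowers']
      exact Subgroup.centralizer_le_normalizer _
  have c2 := h2.2 (Subgroup.zpowers z) (H83.isPGroup_zpowers (k := 1) (by rw [pow_one, pow_two, h.zz]))
    (by simpa using z1)
  rw [hN] at c2
  let H := Subgroup.centralizer ({z} : Set G)
  haveI : (pCore 2 H).Normal := Subgroup.sSup_normal _ fun _ h => h.1
  have zH : z ∈ H := Subgroup.mem_centralizer_singleton_iff.mpr rfl
  have key : ∀ c, (∀ q ∈ (pCore 2 H).map H.subtype, q * c = c * q) → c ∈ H →
      c ∈ (pCore 2 H).map H.subtype := fun c hc hH =>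
    ⟨⟨c, hH⟩, c2 fun q hq => Subtype.ext (hc q ⟨q, hq, rfl⟩), rfl⟩
  have hc : ∀ q ∈ (pCore 2 H).map H.subtype, q * z = z * q := fun q hq =>
    Subgroup.mem_centralizer_singleton_iff.mp (Subgroup.map_subtype_le _ hq)
  have zQ := key z hc zH
  have p2 : IsPGroup 2 ((pCore 2 H).map H.subtype) := (H3.pCore_isPGroup 2 H).map _
  obtain ⟨k, -⟩ := h.hyp_of_normal yC yn p2 (fun c hc => H49.mem_normalizer_of_conj_mem (by
      rintro _ ⟨q, hq, rfl⟩
      exact ⟨_, (inferInstance : (pCore 2 H).Normal).conj_mem q hq ⟨c, hc⟩, rfl⟩)) zQ z1 hc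
    (fun e => by
      have := key x (fun q hq => by
        rw [e] at hq
        rcases (H49.mem_zpowers_invol h.zz).mp hq with rfl | rfl
        · simp
        · exact (h.cz x rfl).symm) (Subgroup.mem_centralizer_singleton_iff.mpr (h.cz x rfl))
      exact h.x1 (H83.eq_one_of_mem_pgroup p2 this (by rw [hx]; norm_num)))
    (fun c hc' => key c hc' (Subgroup.mem_centralizer_singleton_iff.mpr (hc' z zQ).symm))
  exact k.isType

end Cfsg.Agent.S3317
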