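import Cfsg.Statements.S3341
import Cfsg.Agent.H57.CC9

set_option autoImplicit false
open Cfsg

namespace Cfsg.Agent.S3341

open Subgroup Cfsg.Agent.H57 Cfsg.Agent.H63 Cfsg.Agent.H67

/-- Let G be a finite simple group whose Sylow 3-subgroup S is elementary abelian of order 9, such that G has more than one conjugacy class of elements of order 3 and C_G(s) = S for every non-identity s in S. Then G is isomorphic to the alternating group of degree 6. -/
theorem result {G : Type*} [Group G] [Finite G] [IsSimpleGroup G]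
    (P : Sylow 3 G) (S : Subgroup G) (hSP : S = P) (hcomm : IsMulCommutative S) (hexp : ∀ a ∈ S, a ^ 3 = 1)
    (hcard : Nat.card S = 9)
    (hclasses : ∃ a b : G, orderOf a = 3 ∧ orderOf b = 3 ∧ ∀ g : G, g * a * g⁻¹ ≠ b)
    (hcent : ∀ s ∈ S, s ≠ 1 → Subgroup.centralizer ({s} : Set G) = S) :
    Nonempty (G ≃* alternatingGroup (Fin 6)) := by
  subst hSP
  have : Fact (Nat.Prime 3) := ⟨Nat.prime_three⟩
  have h : CCS P := hcent
  have hd : 9 ∣ Nat.card G := hcard ▸ (P : Subgroup G).card_subgroup_dvd_card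
  have hG : ¬ IsMulCommutative G := H58.not_comm_of_not_prime fun hp => by
    rcases hp.eq_one_or_self_of_dvd 9 hd with e | e
    · omega
    · rw [← e] at hp; norm_num at hp
  have hconj : ∀ a : G, orderOf a = 3 → ∃ s ∈ (P : Subgroup G), s ≠ 1 ∧ IsConj a s := by
    intro a ha
    obtain ⟨Q, hQ⟩ := (H58.isPGroup_zpowers_of_orderOf_eq ha).exists_le_sylow
    obtain ⟨g, rfl⟩ := MulAction.exists_smul_eq G P Q
    refine ⟨_, (H58.mem_smul_sylow_iff P g a).1 (hQ (mem_zpowers a)), ?_,
      isConj_iff.2 ⟨g⁻¹, by rw [inv_inv]⟩⟩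
    intro e
    have : a = 1 := by simpa [mul_assoc] using congrArg (fun x => g * x * g⁻¹) e
    rw [this] at ha; simp at ha
  obtain ⟨a, b, ha, hb, hab⟩ := hclasses
  obtain ⟨s, hs, s1, cs⟩ := hconj a ha
  obtain ⟨t, ht, t1, ct⟩ := hconj b hb
  have hst : ¬ IsConj s t := fun e => by
    obtain ⟨g, hg⟩ := isConj_iff.1 ((cs.trans e).trans ct.symm)
    exact hab g hg
  have h1 := h.card_normalizer hcard hs s1
  have h2 := h.card_normalizer hcard ht t1
  have h3 := Set.ncard_union_eq (s := {y | IsConj s y ∧ y ∈ (P : Subgroup G)})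
    (t := {y | IsConj t y ∧ y ∈ (P : Subgroup G)})
    (Set.disjoint_left.2 fun y h1 h2 => hst (h1.1.trans h2.1.symm))
  have h4 := Set.ncard_le_ncard (s := {y | IsConj s y ∧ y ∈ (P : Subgroup G)} ∪
    {y | IsConj t y ∧ y ∈ (P : Subgroup G)}) (t := {y : G | y ≠ 1 ∧ y ∈ (P : Subgroup G)}) (by
      rintro y (hy | hy)
      · exact ⟨by rintro rfl; exact s1 (by simpa using hy.1), hy.2⟩
      · exact ⟨by rintro rfl; exact t1 (by simpa using hy.1), hy.2⟩)
  rw [H58.ncard_subgroup_ne_one, hcard] at h4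
  have h5 : 0 < Nat.card N[(P : Subgroup G)] := Nat.card_pos
  have h6 := h.not_eighteen hcard hexp
  have h7 : Nat.card N[(P : Subgroup G)] ≠ 27 := fun e => by
    have h8 := (normalizer ((P : Subgroup G) : Set G)).card_subgroup_dvd_card
    rw [e, ← (P : Subgroup G).card_mul_index, hcard] at h8
    exact P.not_dvd_index (by omega)
  have h8 : Nat.card N[(P : Subgroup G)] ≠ 9 := fun e => by
    refine H58.not_normalizer_le_centralizer hG P (by omega) ?_
    exact (eq_of_le_of_card_ge (le_normalizer (H := (P : Subgroup G))) (by omega)).ge.trans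
      (le_centralizer _)
  refine (h.normal_or_A6 hcard hexp (by omega)).resolve_left fun hn => ?_
  rcases hn.eq_bot_or_eq_top with e | e
  · rw [e] at hcard; simp at hcard
  · exact H58.ne_top_of_isPGroup hG P.isPGroup' e

end Cfsg.Agent.S3341
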