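import Cfsg.Statements.S3349

set_option autoImplicit false
open Cfsg

namespace Cfsg.Agent.S3349

/-- Let Q be a finite extraspecial p-group and α an automorphism of Q fixing every element of some maximal abelian subgroup of Q. Then the order of α is a power of p. -/
theorem result {Q : Type*} [Group Q] [Finite Q]
    (p : ℕ) [Fact p.Prime] (hQ : Cfsg.IsExtraspecial p Q) (α : MulAut Q)
    (A : Subgroup Q) (hA : IsMulCommutative A) (hmax : ∀ B : Subgroup Q, A ≤ B → IsMulCommutative B → B = A)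
    (hfix : ∀ a ∈ A, α a = a) :
    ∃ k : ℕ, orderOf α = p ^ k := by
  have hZA : Subgroup.centralizer (A : Set Q) ≤ A := by
    intro c hc
    have h1 : IsMulCommutative ↥(A ⊔ Subgroup.zpowers c) := by
      rw [← Subgroup.le_centralizer_iff_isMulCommutative, Subgroup.le_centralizer_iff, sup_le_iff,
        Subgroup.le_centralizer_iff, Subgroup.le_centralizer_iff (H := Subgroup.zpowers c), sup_le_iff,
        sup_le_iff]
      exact ⟨⟨Subgroup.le_centralizer A, Subgroup.zpowers_le.2 hc⟩,
        Subgroup.le_centralizer_iff.1 (Subgroup.zpowers_le.2 hc), Subgroup.le_centralizer _⟩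
    rw [← hmax _ le_sup_left h1]
    exact Subgroup.mem_sup_right (Subgroup.mem_zpowers c)
  have hconj : ∀ x : Q, ∀ a ∈ A, x * a * x⁻¹ ∈ A := by
    intro x a ha
    have h1 : x * a * x⁻¹ * a⁻¹ ∈ Subgroup.center Q := by
      rw [← hQ.1.2.2]; exact Subgroup.commutator_mem_commutator (Subgroup.mem_top _) (Subgroup.mem_top _)
    have h2 := A.mul_mem (hZA (Subgroup.center_le_centralizer _ h1)) ha
    simpa using h2
  have h1 : ∀ x : Q, x⁻¹ * α x ∈ A := by
    intro x
    apply hZA
    intro a ha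
    have h2 := hfix _ (hconj x a ha)
    rw [map_mul, map_mul, map_inv, hfix a ha] at h2
    calc a * (x⁻¹ * α x) = x⁻¹ * (x * a * x⁻¹) * α x := by group
      _ = x⁻¹ * (α x * a * (α x)⁻¹) * α x := by rw [h2]
      _ = _ := by group
  have h2 : ∀ (n : ℕ) (x : Q), (α ^ n) x = x * (x⁻¹ * α x) ^ n := by
    intro n x
    induction n with
    | zero => simp
    | succ n ih =>
      rw [pow_succ', MulAut.mul_apply, ih, map_mul, hfix _ (A.pow_mem (h1 x) n), pow_succ',
        ← mul_assoc, mul_inv_cancel_left]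
  obtain ⟨k, hk⟩ := IsPGroup.iff_card.1 hQ.1.1
  have h3 : α ^ p ^ k = 1 := by
    ext x
    rw [h2, ← hk, pow_card_eq_one', mul_one]; rfl
  obtain ⟨j, -, hj⟩ := (Nat.dvd_prime_pow Fact.out).1 (orderOf_dvd_of_pow_eq_one h3)
  exact ⟨j, hj⟩

end Cfsg.Agent.S3349
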