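import Cfsg.Statements.S3389
import Cfsg.Agent.H62.Derangement

set_option autoImplicit false
open Cfsg

namespace Cfsg.Agent.S3389

open MulAction in
theorem exists_prime_pow_fix {G : Type*} [Group G] [Finite G] (g : G) (hg : g ≠ 1) :
    ∃ p m : ℕ, p.Prime ∧ orderOf (g ^ m) = p := by
  have ho : orderOf g ≠ 1 := by simpa using hg
  obtain ⟨p, hp, m, hm⟩ := Nat.exists_prime_and_dvd ho
  have hpos : 0 < orderOf g := orderOf_pos g
  have hm0 : m ≠ 0 := by rintro rfl; omega
  refine ⟨p, m, hp, ?_⟩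
  rw [orderOf_pow_of_dvd hm0 ⟨p, by rw [hm, mul_comm]⟩, hm, Nat.mul_div_cancel _ (Nat.pos_of_ne_zero hm0)]

open MulAction in
theorem even_card {G : Type*} [Group G] [Finite G] {Ω : Type*} [Finite Ω] [MulAction G Ω]
    (htr : IsPretransitive G Ω)
    (hfix : ∀ g : G, g ≠ 1 → Nat.card (fixedBy Ω g) ≤ 2) (g : G) (hg : g ≠ 1)
    (hg2 : Nat.card (fixedBy Ω g) = 2) : 2 ∣ Nat.card G := by
  rw [Nat.card_coe_set_eq, Set.ncard_eq_two] at hg2
  obtain ⟨a, b, hab, hg2⟩ := hg2
  have key : ∀ x : G, x ≠ 1 → x • a = a → x • b = b → ∀ c, x • c = c → c = a ∨ c = b := by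
    intro x hx ha hb c hc
    have h1 : ({a, b} : Set Ω) ⊆ fixedBy Ω x := by
      rintro _ (rfl | rfl)
      · exact ha
      · exact hb
    have h2 := hfix x hx
    rw [Nat.card_coe_set_eq, ← Set.ncard_pair hab] at h2
    have h3 := Set.eq_of_subset_of_ncard_le h1 h2
    have : c ∈ ({a, b} : Set Ω) := h3 ▸ hc
    exact this
  obtain ⟨p, m, hp, hm⟩ := exists_prime_pow_fix g hg
  have := Fact.mk hp
  have hga : g • a = a := by
    have : a ∈ fixedBy Ω g := hg2 ▸ Set.mem_insert _ _
    exact this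
  have hgb : g • b = b := by
    have : b ∈ fixedBy Ω g := hg2 ▸ Set.mem_insert_of_mem _ rfl
    exact this
  have hua : g ^ m ∈ stabilizer G a := (stabilizer G a).pow_mem hga m
  have hub : (g ^ m) • b = b := (stabilizer G b).pow_mem hgb m
  have hu1 : g ^ m ≠ 1 := by
    intro h
    rw [h, orderOf_one] at hm
    exact hp.one_lt.ne hm
  have hup : IsPGroup p (Subgroup.zpowers (⟨g ^ m, hua⟩ : stabilizer G a)) := by
    apply IsPGroup.of_card (n := 1)
    rw [Nat.card_zpowers, pow_one, ← hm, ← Subgroup.orderOf_coe]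
  obtain ⟨P, hP⟩ := hup.exists_le_sylow
  have huP : (⟨g ^ m, hua⟩ : stabilizer G a) ∈ P := hP (Subgroup.mem_zpowers _)
  have hnt : Nontrivial P := ⟨⟨⟨_, huP⟩, 1, fun h => hu1 (congrArg (fun x : P => ((x : stabilizer G a) : G)) h)⟩⟩
  have := P.isPGroup'.center_nontrivial
  obtain ⟨⟨z, hz⟩, hz1⟩ := exists_ne (1 : Subgroup.center P)
  have hz1' : ((z : stabilizer G a) : G) ≠ 1 := fun h => hz1 (Subtype.ext (Subtype.ext (Subtype.ext h)))
  have hcomm : ∀ y : stabilizer G a, y ∈ P → (y : G) * ((z : stabilizer G a) : G) = ((z : stabilizer G a) : G) * y := by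
    intro y hy
    exact congrArg (fun x : P => ((x : stabilizer G a) : G)) (Subgroup.mem_center_iff.1 hz ⟨y, hy⟩)
  have hza : ((z : stabilizer G a) : G) • a = a := (z : stabilizer G a).2
  have hzb : ((z : stabilizer G a) : G) • b = b := by
    rcases key (g ^ m) hu1 hua hub (((z : stabilizer G a) : G) • b) (by
      rw [smul_smul, hcomm _ huP, mul_smul, hub]) with h | h
    · exact absurd (smul_left_cancel _ (h.trans hza.symm)).symm hab
    · exact h
  have hPb : ∀ y : stabilizer G a, y ∈ P → (y : G) • b = b := by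
    intro y hy
    rcases key _ hz1' hza hzb ((y : G) • b) (by
      rw [smul_smul, ← hcomm _ hy, mul_smul, hzb]) with h | h
    · have h' : (y : G) • b = (y : G) • a := h.trans y.2.symm
      rw [smul_left_cancel_iff] at h'
      exact absurd h'.symm hab
    · exact h
  obtain ⟨x, hx⟩ := exists_smul_eq G a b
  -- the conjugate of P by x⁻¹ lies in the stabiliser of a
  let f : P →* stabilizer G a :=
    { toFun := fun y => ⟨x⁻¹ * ((y : stabilizer G a) : G) * x, by
        rw [mem_stabilizer_iff, mul_smul, hx, mul_smul, hPb _ y.2, ← hx, inv_smul_smul]⟩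
      map_one' := by simp
      map_mul' := fun y y' => by apply Subtype.ext; simp [mul_assoc] }
  have hf : IsPGroup p f.range := P.isPGroup'.of_surjective f.rangeRestrict f.rangeRestrict_surjective
  obtain ⟨Q, hQ⟩ := hf.exists_le_sylow
  obtain ⟨y, hy⟩ := exists_smul_eq (stabilizer G a) Q P
  have h1 : y * f z * y⁻¹ ∈ P := by
    have : y * f z * y⁻¹ ∈ y • Q :=
      Subgroup.smul_mem_pointwise_smul _ (MulAut.conj y) _ (hQ ⟨z, rfl⟩)
    rwa [hy] at this
  have h2 := hPb _ h1
  have h3 : ((z : stabilizer G a) : G) • (x * (y : G)⁻¹) • b = (x * (y : G)⁻¹) • b := by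
    have e : ((y * f z * y⁻¹ : stabilizer G a) : G) = (x * (y : G)⁻¹)⁻¹ * ((z : stabilizer G a) : G) * (x * (y : G)⁻¹) := by
      simp [f, mul_assoc]
    rw [e, mul_smul, mul_smul, inv_smul_eq_iff] at h2
    exact h2
  have h4 : (x * (y : G)⁻¹) • a = b := by
    rw [mul_smul, show (y : G)⁻¹ • a = a from (y⁻¹).2, hx]
  have h5 : (x * (y : G)⁻¹) • b = a := by
    rcases key _ hz1' hza hzb _ h3 with h | h
    · exact h
    · rw [← h4, smul_left_cancel_iff] at h
      rw [h4] at h
      exact absurd h.symm hab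
  by_contra hodd
  obtain ⟨n, hn⟩ : Odd (Nat.card G) := Nat.odd_iff.2 (by omega)
  have h6 : ((x * (y : G)⁻¹) ^ 2) ∈ stabilizer G a := by
    rw [mem_stabilizer_iff, sq, mul_smul, h4, h5]
  have h7 := (stabilizer G a).pow_mem h6 n
  have h8 : (x * (y : G)⁻¹) ^ Nat.card G = 1 := pow_card_eq_one'
  rw [hn, pow_succ', pow_mul] at h8
  have h9 : ((x * (y : G)⁻¹) * ((x * (y : G)⁻¹) ^ 2) ^ n) • a = a := by rw [h8, one_smul]
  rw [mul_smul, mem_stabilizer_iff.1 h7, h4] at h9
  exact hab h9.symm


/-- Let G be a finite group acting faithfully and transitively on a finite set Ω with fixity k ≥ 1: every non-identity element fixes at most k points and some non-identity element fixes exactly k points. Then |Z(G)| divides k; if k = 2 then |G| is even; and for every prime p > k dividing |G| and every point α, either p does not divide |G_α| or G_α contains a Sylow p-subgroup of G. -/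
theorem result {G : Type*} [Group G] [Finite G] {Ω : Type*} [Fintype Ω] [MulAction G Ω] [FaithfulSMul G Ω]
    (htr : MulAction.IsPretransitive G Ω) (k : ℕ) (hk : 1 ≤ k)
    (hfix : ∀ g : G, g ≠ 1 → Nat.card (MulAction.fixedBy Ω g) ≤ k) (hex : ∃ g : G, g ≠ 1 ∧ Nat.card (MulAction.fixedBy Ω g) = k) :
    Nat.card (Subgroup.center G) ∣ k ∧ (k = 2 → 2 ∣ Nat.card G) ∧
      ∀ (p : ℕ), p.Prime → k < p → p ∣ Nat.card G → ∀ α : Ω,
        ¬ p ∣ Nat.card (MulAction.stabilizer G α) ∨ ¬ p ∣ (MulAction.stabilizer G α).index := by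
  obtain ⟨g, hg, hgk⟩ := hex
  refine ⟨?_, fun h2 => even_card htr (h2 ▸ hfix) g hg (h2 ▸ hgk), ?_⟩
  · rw [← hgk, Nat.card_coe_set_eq]
    apply H62.dvd_ncard_of_dvd_orbits (H := Subgroup.center G) _ _ (Set.toFinite _)
    · intro z x hx
      show g • (z : G) • x = (z : G) • x
      rw [smul_smul, Subgroup.mem_center_iff.1 z.2 g, mul_smul, show g • x = x from hx]
    · intro x _
      have h1 : MulAction.stabilizer (Subgroup.center G) x = ⊥ := by
        rw [eq_bot_iff]
        intro z hz
        apply Subtype.ext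
        apply H62.eq_one_of_conj_smul_eq (z : G) x
        intro k
        rw [mul_assoc, ← Subgroup.mem_center_iff.1 z.2 k, inv_mul_cancel_left]
        exact hz
      rw [← H62.card_orbit_mul_card_stabilizer x, h1, Subgroup.card_bot, mul_one]
  · intro p hp hkp _ α
    have := Fact.mk hp
    by_cases hd : p ∣ Nat.card (MulAction.stabilizer G α)
    swap
    · exact Or.inl hd
    right
    obtain ⟨u, hu⟩ := exists_prime_orderOf_dvd_card' p hd
    have hu1 : (u : G) ≠ 1 := by
      intro h
      rw [← Subgroup.orderOf_coe, h, orderOf_one] at hu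
      exact hp.one_lt.ne hu
    have hup : IsPGroup p (Subgroup.zpowers (u : G)) := by
      apply IsPGroup.of_card (n := 1)
      rw [Nat.card_zpowers, pow_one, ← hu, Subgroup.orderOf_coe]
    obtain ⟨P, hP⟩ := hup.exists_le_sylow
    have huP : (u : G) ∈ P := hP (Subgroup.mem_zpowers _)
    suffices h : (P : Subgroup G) ≤ MulAction.stabilizer G α from
      fun h' => P.not_dvd_index (h'.trans (Subgroup.index_dvd_of_le h))
    by_contra hle
    have hlt : (MulAction.stabilizer G α).subgroupOf P < ⊤ := by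
      rwa [lt_top_iff_ne_top, Ne, Subgroup.subgroupOf_eq_top]
    have := P.isPGroup'.isNilpotent
    obtain ⟨r, hr1, hr2⟩ := SetLike.exists_of_lt (Group.normalizerCondition_of_isNilpotent _ hlt)
    have hrp : IsPGroup p (Subgroup.zpowers r) := P.isPGroup'.to_subgroup _
    obtain ⟨n, hn⟩ := hrp.card_orbit α
    have hsub : MulAction.orbit (Subgroup.zpowers r) α ⊆ MulAction.fixedBy Ω (u : G) := by
      rintro _ ⟨y, rfl⟩
      have hy : (y : P) ∈ Subgroup.normalizer (((MulAction.stabilizer G α).subgroupOf P : Subgroup P) : Set P) :=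
        (Subgroup.zpowers_le.2 hr1) y.2
      have h1 := (Subgroup.mem_normalizer_iff''.1 hy ⟨u, huP⟩).1 u.2
      have h2 : (((y : P) : G)⁻¹ * u * ((y : P) : G)) • α = α := h1
      rw [mul_smul, mul_smul, inv_smul_eq_iff] at h2
      exact h2
    have h3 := (Nat.card_le_card_of_injective _ (Set.inclusion_injective hsub)).trans (hfix u hu1)
    have hn0 : n = 0 := by
      by_contra h
      have : p ≤ p ^ n := Nat.le_self_pow h p
      omega
    rw [hn0, pow_zero] at hn
    have h4 := (Nat.card_eq_one_iff_unique.1 hn).1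
    have h5 := Subsingleton.elim (⟨_, MulAction.mem_orbit α (⟨r, Subgroup.mem_zpowers r⟩ : Subgroup.zpowers r)⟩ : MulAction.orbit (Subgroup.zpowers r) α) ⟨α, MulAction.mem_orbit_self α⟩
    exact hr2 (congrArg Subtype.val h5)

end Cfsg.Agent.S3389
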