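import Cfsg.Statements.S3391
import Cfsg.Agent.H39.SzPart

set_option autoImplicit false
open Cfsg

namespace Cfsg.Agent.S3391

theorem sq_mem {G Ω : Type*} [Group G] [MulAction G Ω] [Finite Ω]
    (hfix : ∀ g : G, g ≠ 1 → Nat.card (MulAction.fixedBy Ω g) ≤ 2) {α : Ω} {X : Subgroup G}
    (hX : X ≤ MulAction.stabilizer G α) {x : G} (hx : x ∈ X) (h1 : x ≠ 1) {n : G}
    (hn : n ∈ Subgroup.normalizer (X : Set G)) :
    n * n ∈ MulAction.stabilizer G α ∧ ∀ n' ∈ Subgroup.normalizer (X : Set G),
      n ∉ MulAction.stabilizer G α → n' ∉ MulAction.stabilizer G α →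
      n⁻¹ * n' ∈ MulAction.stabilizer G α := by
  have key : ∀ k ∈ Subgroup.normalizer (X : Set G), k • α ∈ MulAction.fixedBy Ω x := by
    intro k hk
    have : (k⁻¹ * x * k) • α = α := hX ((Subgroup.mem_normalizer_iff''.mp hk x).mp hx)
    rw [mul_smul, mul_smul, inv_smul_eq_iff] at this
    exact this
  have three : ∀ a ∈ MulAction.fixedBy Ω x, ∀ b ∈ MulAction.fixedBy Ω x, a ≠ α → b ≠ α → a = b := by
    intro a ha b hb h2 h3
    by_contra h4
    have h5 : ({α, a, b} : Set Ω) ⊆ MulAction.fixedBy Ω x := by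
      rintro c (rfl | rfl | rfl)
      · exact hX hx
      · exact ha
      · exact hb
    have h6 := Set.ncard_le_ncard h5
    rw [Set.ncard_eq_three.mpr ⟨α, a, b, h2.symm, h3.symm, h4, rfl⟩] at h6
    have := hfix x h1
    rw [Nat.card_coe_set_eq] at this
    omega
  constructor
  · by_contra h
    have h2 : n • α ≠ α := fun e => h (by rw [MulAction.mem_stabilizer_iff, mul_smul, e, e])
    have := three _ (key _ hn) _ (key _ (Subgroup.mul_mem _ hn hn)) h2 h
    rw [mul_smul, smul_left_cancel_iff] at this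
    exact h2 this.symm
  · intro n' hn' h2 h3
    rw [MulAction.mem_stabilizer_iff, mul_smul, inv_smul_eq_iff]
    exact three _ (key _ hn') _ (key _ hn) h3 h2

theorem odd_mem {G Ω : Type*} [Group G] [MulAction G Ω] [Finite Ω]
    (hfix : ∀ g : G, g ≠ 1 → Nat.card (MulAction.fixedBy Ω g) ≤ 2) {α : Ω} {X : Subgroup G}
    (hX : X ≤ MulAction.stabilizer G α) {x : G} (hx : x ∈ X) (h1 : x ≠ 1) {n : G}
    (hn : n ∈ Subgroup.normalizer (X : Set G)) (ho : Odd (orderOf n)) :
    n ∈ MulAction.stabilizer G α := by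
  obtain ⟨k, hk⟩ := ho
  have := Subgroup.pow_mem _ (sq_mem hfix hX hx h1 hn).1 (k + 1)
  rwa [← pow_two, ← pow_mul, show 2 * (k + 1) = orderOf n + 1 by omega, pow_succ,
    pow_orderOf_eq_one, one_mul] at this

theorem mem_norm {G : Type*} [Group G] {x n : G} (h : n ∈ Subgroup.centralizer {x}) :
    n ∈ Subgroup.normalizer ((Subgroup.zpowers x : Subgroup G) : Set G) := by
  apply Subgroup.centralizer_le_normalizer
  rintro _ ⟨k, rfl⟩
  exact (Commute.zpow_left (Subgroup.mem_centralizer_singleton_iff.mp h).symm k).eq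

theorem aux {G : Type*} [Group G] {F : Type*} [Field F] [H39.SzField F] (S : H39.Model G F)
    {Ω : Type*} [Finite Ω] [MulAction G Ω]
    (hfix : ∀ g : G, g ≠ 1 → Nat.card (MulAction.fixedBy Ω g) ≤ 2) (α : Ω)
    (h0 : MulAction.stabilizer G α ≠ ⊥) (h1 : MulAction.stabilizer G α ≠ ⊤) :
    (∃ g, MulAction.stabilizer G α = (S.twist g).B) ∨
      Nat.card (MulAction.stabilizer G α) = Nat.card F - 1 := by
  have := H39.SzField.finite F
  have := S.finite
  rcases Nat.even_or_odd (Nat.card (MulAction.stabilizer G α)) with h | h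
  · left
    obtain ⟨z, hz⟩ := exists_prime_orderOf_dvd_card' 2 (even_iff_two_dvd.mp h)
    rw [← Subgroup.orderOf_coe] at hz
    have hz1 : (z : G) ≠ 1 := fun e => by simp [e] at hz
    obtain ⟨g, hg⟩ := S.exists_twist_mem_Z (x := z) (by rw [← pow_two, ← hz, pow_orderOf_eq_one])
    refine ⟨g, ?_⟩
    generalize S.twist g = S at hg
    have hZ : S.Z ≤ MulAction.stabilizer G α := by
      rintro _ ⟨b, rfl⟩
      obtain ⟨a, rfl⟩ := S.mul_θ_surj b
      rw [← S.u_sq a 0]
      refine (sq_mem hfix (X := Subgroup.zpowers (z : G)) (by simp) (Subgroup.mem_zpowers _) hz1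
        (mem_norm ?_)).1
      rw [S.centralizer_of_mem_Z hg hz1]
      exact S.u_mem_U _ _
    have hodd : ∀ n ∈ S.B, Odd (orderOf n) → n ∈ MulAction.stabilizer G α := fun n hn ho =>
      odd_mem hfix hZ hg hz1 (by rw [S.normalizer_Z]; exact hn) ho
    have hh : ∀ k, S.h k ∈ MulAction.stabilizer G α := fun k =>
      hodd _ (S.h_mem_B k) (S.odd_orderOf_of_mem_H (S.h_mem_H k))
    have hB : S.B ≤ MulAction.stabilizer G α := by
      intro x hx
      obtain ⟨a, b, l, rfl⟩ := S.mem_B.mp hx
      refine Subgroup.mul_mem _ ?_ (hh l)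
      obtain ⟨k, hk⟩ := H39.SzField.exists_unit_ne F
      obtain ⟨c, d, e⟩ := S.exists_conj_h a b hk
      have := hodd (S.u a b * S.h k) (S.mem_B.mpr ⟨_, _, _, rfl⟩) (by
        rw [e, H39.orderOf_conj']
        exact S.odd_orderOf_of_mem_H (S.h_mem_H k))
      simpa using Subgroup.mul_mem _ this (Subgroup.inv_mem _ (hh k))
    exact (S.isCoatom_B.le_iff.mp hB).resolve_left h1
  · right
    have hcent : ∀ x ∈ MulAction.stabilizer G α, x ≠ 1 →
        Subgroup.centralizer {x} ≤ MulAction.stabilizer G α := by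
      intro x hx hx1 n hn
      refine odd_mem hfix (X := Subgroup.zpowers x) (by simpa using hx) (Subgroup.mem_zpowers _) hx1
        (mem_norm hn) ?_
      exact (S.odd_card_centralizer hx1 (h.of_dvd_nat (Subgroup.orderOf_dvd_natCard _ hx))).of_dvd_nat
        (Subgroup.orderOf_dvd_natCard _ hn)
    have hfree : ∀ x ∈ MulAction.stabilizer G α, ¬ S.IsFree x := by
      intro x hx hf
      have hc := hf.card_normalizer
      set N := Subgroup.normalizer ((Subgroup.centralizer {x} : Subgroup G) : Set G) with hN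
      have h2 : (MulAction.stabilizer G α).relIndex N ∣ 2 := by
        by_cases e : N ≤ MulAction.stabilizer G α
        · rw [Subgroup.relIndex_eq_one.mpr e]
          exact one_dvd _
        · obtain ⟨n, hn, hn'⟩ := SetLike.not_le_iff_exists.mp e
          apply dvd_of_eq
          rw [Subgroup.relIndex, Subgroup.index_eq_two_iff']
          refine ⟨⟨n, hn⟩⁻¹, fun b => ?_⟩
          by_cases hb : (b : G) ∈ MulAction.stabilizer G α
          · refine Or.inr ⟨hb, fun e => hn' ?_⟩
            simpa using Subgroup.mul_mem _ hb (Subgroup.inv_mem _ (Subgroup.mem_subgroupOf.mp e))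
          · exact Or.inl ⟨(sq_mem hfix (hcent x hx hf.ne_one)
              (Subgroup.mem_centralizer_singleton_iff.mpr rfl) hf.ne_one hn).2 b b.2 hn' hb, hb⟩
      have h3 := ((MulAction.stabilizer G α).subgroupOf N).card_mul_index
      have h4 : Odd (Nat.card ((MulAction.stabilizer G α).subgroupOf N)) := by
        apply h.of_dvd_nat
        rw [← Subgroup.card_map_of_injective N.subtype_injective, Subgroup.subgroupOf_map_subtype]
        exact Subgroup.card_dvd_of_le inf_le_left
      rw [hc] at h3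
      obtain ⟨k, hk⟩ := h4
      rw [hk] at h3
      rw [Subgroup.relIndex] at h2
      rcases (Nat.dvd_prime Nat.prime_two).mp h2 with e | e <;> rw [e] at h3 <;> omega
    apply Nat.dvd_antisymm
    · have h2 := Subgroup.card_subgroup_dvd_card (MulAction.stabilizer G α)
      rw [S.card_eq] at h2
      refine Nat.Coprime.dvd_of_dvd_mul_left ?_ (Nat.Coprime.dvd_of_dvd_mul_right ?_ h2)
      · obtain ⟨m, -, hm⟩ := H39.SzField.exists_card (F := F)
        rw [hm, ← pow_mul]
        exact (Nat.coprime_two_right.mpr h).pow_right _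
      · refine Nat.coprime_of_dvd fun p hp h3 h4 => ?_
        have := Fact.mk hp
        obtain ⟨x, hx⟩ := exists_prime_orderOf_dvd_card' p h3
        rw [← Subgroup.orderOf_coe] at hx
        refine hfree x x.2 (S.isFree_of_orderOf_dvd (fun e => ?_) (hx ▸ h4))
        rw [e, orderOf_one] at hx
        exact hp.one_lt.ne hx
    · obtain ⟨x, hx⟩ := (Subgroup.ne_bot_iff_exists_ne_one).mp h0
      have hx1 : (x : G) ≠ 1 := fun e => hx (Subtype.ext e)
      rcases S.dichotomy_of_odd hx1 (h.of_dvd_nat (Subgroup.orderOf_dvd_natCard _ x.2)) with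
        ⟨g, e⟩ | e
      · rw [← (S.twist g).card_H, ← (S.twist g).centralizer_of_mem_H e hx1]
        exact Subgroup.card_dvd_of_le (hcent x x.2 hx1)
      · exact absurd e (hfree x x.2)

/-- Let q = 2^{2m+1} ≥ 8 and let G be isomorphic to the Suzuki group Sz(q). If G acts faithfully and transitively on a finite set Ω with fixity 2 (every non-identity element fixes at most two points, and some fixes exactly two), then either |Ω| = q² + 1 and the action is 2-transitive, or |Ω| = q²(q² + 1) and the point stabilizers have order q − 1. -/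
theorem result {G : Type*} [Group G] [Finite G] (F : Type) [Field F] [Fintype F] (m : ℕ) (hm : 1 ≤ m) (hF : Fintype.card F = 2 ^ (2 * m + 1))
    (e : G ≃* ↥(Cfsg.Lie.Sz F (2 ^ (m + 1)))) {Ω : Type*} [Fintype Ω] [MulAction G Ω] [FaithfulSMul G Ω] (htr : MulAction.IsPretransitive G Ω)
    (hfix : ∀ g : G, g ≠ 1 → Nat.card (MulAction.fixedBy Ω g) ≤ 2) (hex : ∃ g : G, g ≠ 1 ∧ Nat.card (MulAction.fixedBy Ω g) = 2) :
    (Fintype.card Ω = Fintype.card F ^ 2 + 1 ∧ MulAction.IsMultiplyPretransitive G Ω 2) ∨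
    (Fintype.card Ω = Fintype.card F ^ 2 * (Fintype.card F ^ 2 + 1) ∧ ∀ α : Ω, Nat.card (MulAction.stabilizer G α) = Fintype.card F - 1) := by
  have := H39.szField_of_card hm hF
  set S := (H39.lieModel hF).comap e
  obtain ⟨x, hx1, hx⟩ := hex
  have hne : ∀ α : Ω, MulAction.stabilizer G α ≠ ⊥ ∧ MulAction.stabilizer G α ≠ ⊤ := by
    intro α
    constructor
    · have : Nonempty (MulAction.fixedBy Ω x) := (Nat.card_pos_iff.mp (by omega)).1
      obtain ⟨β, hβ⟩ := this
      obtain ⟨g, rfl⟩ := MulAction.exists_smul_eq G α β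
      intro h
      have : g⁻¹ * x * g ∈ MulAction.stabilizer G α := by
        rw [MulAction.mem_stabilizer_iff, mul_smul, mul_smul, inv_smul_eq_iff]
        exact hβ
      rw [h, Subgroup.mem_bot] at this
      exact H39.conj_ne_one hx1 g this
    · intro h
      apply hx1
      apply FaithfulSMul.eq_of_smul_eq_smul (α := Ω)
      intro β
      obtain ⟨g, rfl⟩ := MulAction.exists_smul_eq G α β
      have h1 : x * g ∈ MulAction.stabilizer G α := h ▸ Subgroup.mem_top _
      have h2 : g ∈ MulAction.stabilizer G α := h ▸ Subgroup.mem_top _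
      rw [one_smul, ← mul_smul, h1, h2]
  have hcard : ∀ α : Ω, Nat.card (MulAction.stabilizer G α) * Fintype.card Ω = Nat.card G := by
    intro α
    rw [← Nat.card_eq_fintype_card, ← MulAction.index_stabilizer_of_transitive G α,
      Subgroup.card_mul_index]
  by_cases hc : ∃ α : Ω, ∃ g, MulAction.stabilizer G α = (S.twist g).B
  · left
    obtain ⟨α, g, hg⟩ := hc
    generalize S.twist g = S at hg
    constructor
    · rw [← Nat.card_eq_fintype_card, ← MulAction.index_stabilizer_of_transitive G α, hg, S.index_B,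
        Nat.card_eq_fintype_card]
    · rw [MulAction.is_two_pretransitive_iff]
      have key : ∀ a b : G, a • α = b • α ↔
          a • (H39.Model.Pt.inf : S.Pt) = b • H39.Model.Pt.inf := by
        intro a b
        rw [← inv_smul_eq_iff, ← mul_smul, ← MulAction.mem_stabilizer_iff, hg, S.mem_B', mul_smul,
          inv_smul_eq_iff]
      intro a b c d hab hcd
      obtain ⟨a, rfl⟩ := MulAction.exists_smul_eq G α a
      obtain ⟨b, rfl⟩ := MulAction.exists_smul_eq G α b
      obtain ⟨c, rfl⟩ := MulAction.exists_smul_eq G α c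
      obtain ⟨d, rfl⟩ := MulAction.exists_smul_eq G α d
      obtain ⟨k, h1, h2⟩ := S.exists_smul_pair' ((key a b).not.mp hab) ((key c d).not.mp hcd)
      exact ⟨k, by rw [← mul_smul, key, mul_smul, h1], by rw [← mul_smul, key, mul_smul, h2]⟩
  · right
    have h2 : ∀ α : Ω, Nat.card (MulAction.stabilizer G α) = Fintype.card F - 1 := fun α => by
      rw [← Nat.card_eq_fintype_card]
      exact (aux S hfix α (hne α).1 (hne α).2).resolve_left fun h => hc ⟨α, h⟩
    refine ⟨?_, h2⟩
    have : Nonempty (MulAction.fixedBy Ω x) := (Nat.card_pos_iff.mp (by omega)).1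
    obtain ⟨β, -⟩ := this
    have h3 := hcard β
    have h8 := H39.SzField.eight_le F
    rw [h2, S.card_eq, Nat.card_eq_fintype_card] at h3
    rw [Nat.card_eq_fintype_card] at h8
    apply Nat.eq_of_mul_eq_mul_left (show 0 < Fintype.card F - 1 by omega)
    rw [h3]
    ring

end Cfsg.Agent.S3391
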