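import Cfsg.Statements.S3399
import Cfsg.Agent.H8.PrH

set_option autoImplicit false
open Cfsg

namespace Cfsg.Agent.S3399

/-- Let G be a transitive permutation group of finite degree n and K a nontrivial subgroup of G that is pronormal in G (K and gKg⁻¹ are conjugate inside ⟨K, gKg⁻¹⟩ for every g ∈ G). If K fixes exactly f points, then f ≤ (n − 1)/2, that is, 2f + 1 ≤ n. -/
theorem result (n : ℕ) (G : Subgroup (Equiv.Perm (Fin n)))
    (htrans : ∀ a b : Fin n, ∃ g ∈ G, g a = b)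
    (K : Subgroup (Equiv.Perm (Fin n))) (hKG : K ≤ G) (hK : K ≠ ⊥)
    (hpro : ∀ g ∈ G, ∃ w ∈ K ⊔ K.map (MulAut.conj g).toMonoidHom,
      K.map (MulAut.conj w).toMonoidHom = K.map (MulAut.conj g).toMonoidHom) :
    2 * Nat.card {a : Fin n // ∀ k ∈ K, k a = a} + 1 ≤ n := by
  classical
  have hP : Cfsg.Agent.H8.Pr.Pron (K.subgroupOf G) := by
    intro g L hKL hg
    obtain ⟨w, hw, hww⟩ := hpro g g.2
    have h1 : K ⊔ K.map (MulAut.conj (g : Equiv.Perm (Fin n))).toMonoidHom ≤ L.map G.subtype := by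
      apply sup_le
      · exact fun k hk => ⟨⟨k, hKG hk⟩, hKL hk, rfl⟩
      · rintro _ ⟨k, hk, rfl⟩
        exact ⟨_, hg ⟨k, hKG hk⟩ hk, rfl⟩
    obtain ⟨w', hw', rfl⟩ := h1 hw
    refine ⟨w', hw', Subgroup.mem_normalizer_iff.2 fun h => ?_⟩
    have h2 : ∀ x : Equiv.Perm (Fin n), (w' : Equiv.Perm (Fin n))⁻¹ * x * w' ∈ K ↔
        (g : Equiv.Perm (Fin n))⁻¹ * x * g ∈ K := by
      intro x
      have h3 : x ∈ K.map (MulAut.conj (G.subtype w')).toMonoidHom ↔
          x ∈ K.map (MulAut.conj (g : Equiv.Perm (Fin n))).toMonoidHom := by rw [hww]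
      rw [Subgroup.mem_map_equiv, Subgroup.mem_map_equiv] at h3
      simpa using h3
    have h4 := h2 ((g : Equiv.Perm (Fin n)) * h * (g : Equiv.Perm (Fin n))⁻¹)
    simp only [Subgroup.mem_subgroupOf, SetLike.mem_coe]
    constructor
    · intro hh
      have := h4.2 (by simpa [mul_assoc] using hh)
      simpa [mul_assoc] using this
    · intro hh
      have := h4.1 (by simpa [mul_assoc] using hh)
      simpa [mul_assoc] using this
  have hm : ∀ a : Fin n, a ∈ Cfsg.Agent.H8.Pr.fx (K.subgroupOf G) (Fin n) ↔ ∀ k ∈ K, k a = a := by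
    intro a
    rw [Cfsg.Agent.H8.Pr.mem_fx]
    exact ⟨fun h k hk => h ⟨k, hKG hk⟩ hk, fun h k hk => h k hk⟩
  have h := Cfsg.Agent.H8.Pr.main n G (Fin n) (K.subgroupOf G) (Fintype.card_fin n) (fun a b => by
    obtain ⟨g, hg, hab⟩ := htrans a b
    exact ⟨⟨g, hg⟩, hab⟩) hP (by
    by_contra hn
    push Not at hn
    apply hK
    rw [eq_bot_iff]
    intro k hk
    rw [Subgroup.mem_bot]
    ext a
    rw [(hm a).1 (hn a) k hk]; rfl)
  have h2 : Nat.card {a : Fin n // ∀ k ∈ K, k a = a} =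
      (Cfsg.Agent.H8.Pr.fx (K.subgroupOf G) (Fin n)).card := by
    rw [← Fintype.card_coe, ← Nat.card_eq_fintype_card]
    exact Nat.card_congr (Equiv.subtypeEquivRight fun a => (hm a).symm)
  rw [h2]; exact h

end Cfsg.Agent.S3399
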