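import Cfsg.Statements.S3413
import Cfsg.Agent.H13.M11Crit

set_option autoImplicit false
open Cfsg

namespace Cfsg.Agent.S3413

theorem c1 (G : Type*) [Group G] [Finite G] : Nat.card {h : G // h ≠ 1} + 1 = Nat.card G := by
  classical
  have := Fintype.ofFinite G
  simp only [Nat.card_eq_fintype_card, Fintype.card_subtype_compl, Fintype.card_unique]
  have := Fintype.card_pos (α := G)
  omega

theorem c2 (G : Type*) [Group G] [Finite G] (x : G) :
    Nat.card {h : {h : G // h ≠ 1} // x * h = h * x} + 1 =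
      Nat.card (Subgroup.centralizer ({x} : Set G)) := by
  rw [← c1 (Subgroup.centralizer ({x} : Set G))]
  congr 1
  exact Nat.card_congr
    ⟨fun h => ⟨⟨h.1.1, Subgroup.mem_centralizer_singleton_iff.2 h.2.symm⟩,
        fun e => h.1.2 (congrArg Subtype.val e)⟩,
      fun h => ⟨⟨h.1.1, fun e => h.2 (Subtype.ext e)⟩,
        (Subgroup.mem_centralizer_singleton_iff.1 h.1.2).symm⟩, fun _ => rfl, fun _ => rfl⟩

theorem c3 (G : Type*) [Group G] (x : G) (hx : x ≠ 1)
    (h : Nat.card (Subgroup.centralizer ({x} : Set G)) = 11) : orderOf x = 11 :=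
  H58.orderOf_eq_of_mem_of_card_prime (by norm_num) h
    (Subgroup.mem_centralizer_singleton_iff.2 rfl) hx

theorem hne (G : Type*) [Group G] (x : G) (hx : orderOf x = 11) : x ≠ 1 := fun h => by
  rw [h, orderOf_one] at hx; omega

/-- Let H be a finite group whose commuting graph (vertices the non-identity elements, two joined when they commute) is isomorphic to that of the Mathieu group M_11: there is a bijection between the non-identity elements of H and of M_11 under which two elements commute exactly when their images do. Then H ≅ M_11. -/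
theorem result {H : Type*} [Group H] [Finite H]
    (f : {h : H // h ≠ 1} ≃ {g : ↥Cfsg.Spor.M11 // g ≠ 1})
    (hf : ∀ x y : {h : H // h ≠ 1}, (x : H) * y = y * x ↔ ((f x) : ↥Cfsg.Spor.M11) * (f y) = (f y) * (f x)) :
    Nonempty (H ≃* ↥Cfsg.Spor.M11) := by
  have := H13.M11.fact11
  have hfin : Finite ↥Cfsg.Spor.M11 := inferInstance
  have hcard : Nat.card H = 7920 := by
    rw [← H74.card_M11, ← c1 H, ← c1 ↥Cfsg.Spor.M11, Nat.card_congr f]
  have hc : ∀ x : {h : H // h ≠ 1}, Nat.card (Subgroup.centralizer ({(x : H)} : Set H)) =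
      Nat.card (Subgroup.centralizer ({((f x) : ↥Cfsg.Spor.M11)} : Set ↥Cfsg.Spor.M11)) := fun x => by
    rw [← c2, ← c2]
    congr 1
    exact Nat.card_congr (f.subtypeEquiv fun y => hf x y)
  have hM := H13.M11.selfCent_M11
  have hH : H58.SelfCent 11 H := by
    obtain ⟨y, hy⟩ := exists_prime_orderOf_dvd_card' (G := ↥Cfsg.Spor.M11) 11
      (by rw [H74.card_M11]; norm_num)
    have h1 := hc (f.symm ⟨y, hne _ y hy⟩)
    rw [f.apply_symm_apply, hM.1.card_centralizer hy] at h1
    have h2 := c3 _ _ (f.symm ⟨y, hne _ y hy⟩).2 h1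
    refine H58.selfCent_of_elem h2 (Subgroup.eq_of_le_of_card_ge ?_ ?_).symm
    · exact Subgroup.zpowers_le.2 (Subgroup.mem_centralizer_singleton_iff.2 rfl)
    · rw [h1, Nat.card_zpowers, h2]
  have he : Nat.card {g : H // orderOf g = 11} =
      Nat.card {g : ↥Cfsg.Spor.M11 // orderOf g = 11} :=
    Nat.card_congr
      ⟨fun g => ⟨f ⟨g.1, hne _ _ g.2⟩, c3 _ _ (f _).2 ((hc _).symm.trans (hH.card_centralizer g.2))⟩,
        fun g => ⟨f.symm ⟨g.1, hne _ _ g.2⟩, c3 _ _ (f.symm _).2
          ((hc _).trans (by rw [f.apply_symm_apply]; exact hM.1.card_centralizer g.2))⟩,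
        fun g => by simp, fun g => by simp⟩
  obtain ⟨P⟩ : Nonempty (Sylow 11 H) := inferInstance
  obtain ⟨Q⟩ : Nonempty (Sylow 11 ↥Cfsg.Spor.M11) := inferInstance
  rw [H13.Crit.card_orderOf_prime P (hH.card P), H13.Crit.card_orderOf_prime Q (hM.1.card Q),
    hM.2] at he
  exact H13.isoM11_of_isM11 ⟨H13.M11.simple_of_card_sylow hcard (by omega), hcard⟩

end Cfsg.Agent.S3413
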