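import Cfsg.Statements.S3415
import Cfsg.Agent.H49.BN2Red
import Cfsg.Agent.H49.BN2Q4p
import Cfsg.Agent.H49.BN2H6l
import Cfsg.Agent.H49.BN2H6t
import Cfsg.Agent.H49.BN2Mix
import Cfsg.Agent.H49.BN2O8l
import Cfsg.Agent.H21.BN2Poly1
import Cfsg.Agent.H21.BN2Ms
import Cfsg.Agent.H47.BnG1
import Cfsg.Agent.H47.BnG2
import Cfsg.Agent.H47.BnRed
import Cfsg.Agent.H52.BN2P0
import Cfsg.Agent.H16.BnHig
import Cfsg.Agent.H16.BnPoly2
import Cfsg.Agent.H89.BnT1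
import Cfsg.Agent.H89.BnZt
import Cfsg.Agent.H11.BnSph
import Cfsg.Agent.H57.BnO8f
import Cfsg.Agent.H82.BnCe4
import Cfsg.Agent.H12.BnN3
-- import your own Cfsg.Agent.* helpers here

set_option autoImplicit false
open Cfsg

namespace Cfsg.Agent.S3415

/-- Let G be a finite group with an irreducible (B,N)-pair of rank at least 2 such that B contains no non-trivial normal subgroup of G, and write H = B ∩ N. If U and U' are nilpotent normal subgroups of B with UH = B = U'H, then U = U': the splitting of a split (B,N)-pair is unique. -/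
theorem result {G : Type*} [Group G] [Finite G]
    (P : Cfsg.BNPair G) (h2 : 2 ≤ P.rank) (hirr : P.Irreducible) (hcore : P.B.normalCore = ⊥)
    (U U' : Subgroup G) (hU : U ≤ P.B) (hU' : U' ≤ P.B)
    (hUn : ∀ b ∈ P.B, ∀ u ∈ U, b * u * b⁻¹ ∈ U) (hU'n : ∀ b ∈ P.B, ∀ u ∈ U', b * u * b⁻¹ ∈ U')
    (hUnil : Group.IsNilpotent U) (hU'nil : Group.IsNilpotent U')
    (hUH : U ⊔ (P.B ⊓ P.N) = P.B) (hU'H : U' ⊔ (P.B ⊓ P.N) = P.B) : U = U' := by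
  exact H49.BN2.goal
    ⟨@H47.BnG1.g1, @H11.BnS.sph, @H11.BnS.o8c, @H47.BnG2.g2, @H52.BN2P0.p0Stmt, @H89.BnZt.zt,
      @H89.BnT1.t1, @H21.BN2M.ms, @H49.BN2.Mix.invStmt, @H12.BnN3.n3Stmt, @H82.BnCe4.ce4,
      @H49.BN2.O8L.ce68Stmt, @H49.BN2.Mix.q4uStmt, @H49.BN2.Mix.q4lStmt, @H49.BN2.Q4P.q4pStmt,
      @H49.BN2.H6L.h6lStmt, @H49.BN2.H6T.h6tStmt, @H49.BN2.H6T.h6pStmt, @H49.BN2.O8L.o8lStmt,
      @H16.BnHig.hig, @H57.O8f.o8f⟩
    @H21.BN2P.poly1 @H16.BnPoly2.poly2 @H47.BnRed.red P h2 hirr hcore U U' hU hU' hUn hU'n hUnil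
    hU'nil hUH hU'H

end Cfsg.Agent.S3415
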