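import Cfsg.Statements.S3430
import Cfsg.Agent.H88.PrimPart

set_option autoImplicit false
open Cfsg

namespace Cfsg.Agent.S3430

theorem of_part {q n m : ℕ} (hq : 2 ≤ q) (hn : 2 ≤ n) (h1 : m ∣ q ^ n - 1)
    (h2 : ∀ i : ℕ, 1 ≤ i → i < n → Nat.Coprime m (q ^ i - 1)) (h3 : n + 1 < m) :
    ∃ p : ℕ, p.Prime ∧ p ∣ q ^ n - 1 ∧ (∀ i : ℕ, 1 ≤ i → i < n → ¬ p ∣ q ^ i - 1) ∧
      (n + 1 < p ∨ p ^ 2 ∣ q ^ n - 1) := by
  have hnd : ∀ p : ℕ, p.Prime → p ∣ m → ∀ i : ℕ, 1 ≤ i → i < n → ¬ p ∣ q ^ i - 1 :=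
    fun p hp hpm i hi hin h => hp.one_lt.ne' (Nat.eq_one_of_dvd_coprimes (h2 i hi hin) hpm h)
  by_contra hc
  push Not at hc
  have key : ∀ p : ℕ, p.Prime → p ∣ m → p = n + 1 := by
    intro p hp hpm
    have hle := (hc p hp (hpm.trans h1) (hnd p hp hpm)).1
    by_contra hne
    haveI := Fact.mk hp
    have hq1 : ∀ i : ℕ, 1 ≤ q ^ i := fun i => Nat.one_le_pow _ _ (by omega)
    have hcast : ∀ i : ℕ, p ∣ q ^ i - 1 ↔ (q : ZMod p) ^ i = 1 := by
      intro i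
      rw [← ZMod.natCast_eq_zero_iff, Nat.cast_sub (hq1 i), sub_eq_zero]
      simp
    have hq0 : (q : ZMod p) ≠ 0 := by
      intro h0
      have := (hcast n).1 (hpm.trans h1)
      rw [h0, zero_pow (by omega)] at this
      exact zero_ne_one this
    have := hp.two_le
    exact hnd p hp hpm (p - 1) (by omega) (by omega) ((hcast _).2 (ZMod.pow_card_sub_one_eq_one hq0))
  obtain ⟨p, hp, hpm⟩ := Nat.exists_prime_and_dvd (n := m) (by omega)
  obtain ⟨a, rfl⟩ := hpm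
  have hpn := key p hp (dvd_mul_right _ _)
  have ha : a ≠ 1 := by
    rintro rfl
    omega
  obtain ⟨r, hr, hra⟩ := Nat.exists_prime_and_dvd ha
  have hrn := key r hr (hra.mul_left _)
  refine (hc p hp ((dvd_mul_right _ _).trans h1) (hnd p hp (dvd_mul_right _ _))).2 (Dvd.dvd.trans ?_ h1)
  rw [pow_two]
  exact Nat.mul_dvd_mul_left _ (by rw [hpn, ← hrn]; exact hra)

/-- Let q, n ≥ 2 be integers. Unless (n = 2 and q + 1 = 2^s·3^t for some s ≥ 0 and t ≤ 1), or (q = 2 and n ∈ {4, 6, 10, 12, 18}), or (q = 3 and n ∈ {4, 6}), or (q, n) = (5, 6), there is a prime p dividing q^n − 1 but no q^i − 1 with 1 ≤ i < n (a primitive prime divisor), such that p > n + 1 or p² divides q^n − 1. -/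
theorem result (q n : ℕ) (hq : 2 ≤ q) (hn : 2 ≤ n)
    (h1 : ¬ (n = 2 ∧ ∃ s t : ℕ, t ≤ 1 ∧ q + 1 = 2 ^ s * 3 ^ t))
    (h2 : ¬ (q = 2 ∧ (n = 4 ∨ n = 6 ∨ n = 10 ∨ n = 12 ∨ n = 18)))
    (h3 : ¬ (q = 3 ∧ (n = 4 ∨ n = 6))) (h4 : ¬ (q = 5 ∧ n = 6)) :
    ∃ p : ℕ, p.Prime ∧ p ∣ q ^ n - 1 ∧ (∀ i : ℕ, 1 ≤ i → i < n → ¬ p ∣ q ^ i - 1) ∧ (n + 1 < p ∨ p ^ 2 ∣ q ^ n - 1) := by
  rcases hn.eq_or_lt with rfl | hn3
  · have hsq : q ^ 2 - 1 = (q + 1) * (q - 1) := by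
      rw [← Nat.sq_sub_sq]
    have hnd : ∀ p : ℕ, p.Prime → p ≠ 2 → p ∣ q + 1 → ∀ i : ℕ, 1 ≤ i → i < 2 → ¬ p ∣ q ^ i - 1 := by
      intro p hp hp2 hpq i hi hi2 h
      obtain rfl : i = 1 := by omega
      rw [pow_one] at h
      have h2 : p ∣ 2 := by
        have := Nat.dvd_sub hpq h
        rwa [show q + 1 - (q - 1) = 2 by omega] at this
      exact hp2 ((Nat.prime_dvd_prime_iff_eq hp Nat.prime_two).1 h2)
    obtain ⟨s, a, ha, hs⟩ := Nat.exists_eq_pow_mul_and_not_dvd (n := q + 1) (by omega) 2 (by norm_num)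
    have ha0 : a ≠ 0 := by
      rintro rfl
      exact ha (dvd_zero _)
    obtain ⟨t, b, hb, ht⟩ := Nat.exists_eq_pow_mul_and_not_dvd ha0 3 (by norm_num)
    by_cases hb1 : b = 1
    · have ht2 : 2 ≤ t := by
        by_contra hc
        exact h1 ⟨rfl, s, t, by omega, by rw [hs, ht, hb1, mul_one]⟩
      have h9 : 3 ^ 2 ∣ q + 1 := by
        rw [hs, ht]
        exact ((pow_dvd_pow 3 ht2).mul_right _).mul_left _
      have h3' : 3 ∣ q + 1 := (dvd_pow_self 3 two_ne_zero).trans h9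
      refine ⟨3, Nat.prime_three, ?_, hnd 3 Nat.prime_three (by norm_num) h3', Or.inr ?_⟩
      · rw [hsq]; exact h3'.mul_right _
      · rw [hsq]; exact h9.mul_right _
    · obtain ⟨p, hp, hpb⟩ := Nat.exists_prime_and_dvd hb1
      have hpa : p ∣ a := ht ▸ hpb.mul_left _
      have hpq : p ∣ q + 1 := hs ▸ hpa.mul_left _
      have hp2 : p ≠ 2 := fun h => ha (h ▸ hpa)
      have hp3 : p ≠ 3 := fun h => hb (h ▸ hpb)
      have := hp.five_le_of_ne_two_of_ne_three hp2 hp3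
      refine ⟨p, hp, ?_, hnd p hp hp2 hpq, Or.inl (by omega)⟩
      rw [hsq]; exact hpq.mul_right _
  by_cases hE : (q, n) ∈ H88.primExc
  · simp only [H88.primExc, List.mem_cons, Prod.mk.injEq, List.not_mem_nil, or_false] at hE
    rcases hE with ⟨rfl, rfl⟩ | ⟨rfl, rfl⟩ | ⟨rfl, rfl⟩ | ⟨rfl, rfl⟩ | ⟨rfl, rfl⟩ | ⟨rfl, rfl⟩ |
      ⟨rfl, rfl⟩ | ⟨rfl, rfl⟩ | ⟨rfl, rfl⟩ | ⟨rfl, rfl⟩ | ⟨rfl, rfl⟩ | ⟨rfl, rfl⟩ | ⟨rfl, rfl⟩
    · simp at h2
    · simp at h2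
    · simp at h2
    · simp at h2
    · simp at h2
    · simp at h3
    · simp at h3
    · simp at h4
    · exact of_part (m := 7) hq hn (by norm_num) (fun i hi hj => by interval_cases i <;> norm_num)
        (by norm_num)
    · exact of_part (m := 17) hq hn (by norm_num) (fun i hi hj => by interval_cases i <;> norm_num)
        (by norm_num)
    · exact of_part (m := 41) hq hn (by norm_num) (fun i hi hj => by interval_cases i <;> norm_num)
        (by norm_num)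
    · exact of_part (m := 7) hq hn (by norm_num) (fun i hi hj => by interval_cases i <;> norm_num)
        (by norm_num)
    · exact of_part (m := 13) hq hn (by norm_num) (fun i hi hj => by interval_cases i <;> norm_num)
        (by norm_num)
  · obtain ⟨m, hm1, hm2, hm3⟩ := H88.exists_large_primitive hq hn3 hE
    exact of_part hq hn hm1 hm2 (by omega)

end Cfsg.Agent.S3430
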