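import Cfsg.Statements.S3498
-- import your own Cfsg.Agent.* helpers here

set_option autoImplicit false
open Cfsg

namespace Cfsg.Agent.S3498

/-- A maximal subgroup of a finite almost simple group does not have prime order. Here G is almost simple in the sense that it has a non-abelian simple normal subgroup T with trivial centralizer. -/
theorem result {G : Type*} [Group G] [Finite G] (T : Subgroup G) [T.Normal] (hT : IsSimpleGroup T) (hTc : ¬ IsMulCommutative T)
    (hC : Subgroup.centralizer (T : Set G) = ⊥) (H : Subgroup G) (hmax : IsCoatom H) : ¬ (Nat.card H).Prime := by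
  intro hp
  set p := Nat.card H with hpdef
  have := Fact.mk hp
  have hHp : IsPGroup p H := IsPGroup.of_card (n := 1) (by rw [pow_one])
  have hHc : IsCyclic H := isCyclic_of_prime_card rfl
  have hTnt : T ≠ ⊥ := (Subgroup.nontrivial_iff_ne_bot T).1 hT.toNontrivial
  have hsimp : ∀ N : Subgroup G, T ≤ Subgroup.normalizer (N : Set G) → T ≤ N ∨ Disjoint T N := by
    intro N hN
    have := Subgroup.normal_subgroupOf_of_le_normalizer hN
    rcases hT.eq_bot_or_eq_top_of_normal (N.subgroupOf T) this with h | h
    · right; rw [Subgroup.subgroupOf_eq_bot] at h; exact h.symm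
    · left; rwa [Subgroup.subgroupOf_eq_top] at h
  have hTH : ¬ T ≤ H := by
    intro h
    apply hTc
    have := Subgroup.isCyclic_of_le h
    infer_instance
  have hH1 : H ≠ ⊥ := by
    intro h
    rw [hpdef, h, Subgroup.card_bot] at hp
    exact Nat.not_prime_one hp
  have hnorm : Subgroup.normalizer (H : Set G) = H := by
    by_contra hne
    have h1 := hmax.2 _ (lt_of_le_of_ne Subgroup.le_normalizer (Ne.symm hne))
    have hN : H.Normal := Subgroup.normalizer_eq_top_iff.1 h1
    rcases hsimp H (h1 ▸ le_top) with h | h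
    · exact hTH h
    · apply hH1
      rw [eq_bot_iff, ← hC]
      intro x hx
      rw [Subgroup.mem_centralizer_iff]
      intro t ht
      exact (Subgroup.commute_of_normal_of_disjoint T H inferInstance hN h t x ht hx).eq
  obtain ⟨P, hP⟩ := hHp.exists_le_sylow
  have hPH : (P : Subgroup G) = H := by
    by_contra hne
    have hlt : H.subgroupOf P < ⊤ := by
      rw [lt_top_iff_ne_top, Ne, Subgroup.subgroupOf_eq_top]
      exact fun h => hne (le_antisymm h hP)
    have := P.isPGroup'.isNilpotent
    obtain ⟨r, hr1, hr2⟩ := SetLike.exists_of_lt (Group.normalizerCondition_of_isNilpotent _ hlt)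
    rw [← Subgroup.subgroupOf_normalizer_eq hP, hnorm] at hr1
    exact hr2 hr1
  have hPC : Subgroup.normalizer ((P : Subgroup G) : Set G) ≤ Subgroup.centralizer ((P : Subgroup G) : Set G) := by
    rw [hPH, hnorm]
    exact Subgroup.le_centralizer H
  have hK := MonoidHom.ker_transferSylow_isComplement' P hPC
  set K := (MonoidHom.transferSylow P hPC).ker with hKdef
  have hpK : ¬ p ∣ Nat.card K := MonoidHom.not_dvd_card_ker_transferSylow P hPC
  have hTK : T ≤ K := by
    rcases hsimp K (Subgroup.le_normalizer_of_normal) with h | h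
    · exact h
    · exfalso
      apply hTc
      have hPc : IsCyclic (P : Subgroup G) := Subgroup.isCyclic_of_le hPH.le
      letI : CommGroup P := IsCyclic.commGroup
      have hinj : Function.Injective ((MonoidHom.transferSylow P hPC).comp T.subtype) := by
        rw [← MonoidHom.ker_eq_bot_iff, eq_bot_iff]
        intro x hx
        have : (x : G) ∈ T ⊓ K := ⟨x.2, hx⟩
        rw [h.eq_bot] at this
        exact Subtype.ext this
      have := isCyclic_of_injective _ hinj
      infer_instance
  have hpT : ¬ p ∣ Nat.card T := fun h => hpK (h.trans (Subgroup.card_dvd_of_le hTK))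
  have hT1 : Nat.card T ≠ 1 := by rwa [Ne, Subgroup.card_eq_one]
  obtain ⟨q, hq, hqT⟩ := Nat.exists_prime_and_dvd hT1
  have := Fact.mk hq
  obtain ⟨Q⟩ : Nonempty (Sylow q T) := inferInstance
  set Q' := (Q : Subgroup T).map T.subtype with hQ'
  have hF := Sylow.normalizer_sup_eq_top Q
  rw [← hQ'] at hF
  set N := Subgroup.normalizer (Q' : Set G) with hN
  have hidx : ¬ p ∣ N.index := by
    intro h
    apply hpT
    have e1 : N.index = N.relIndex T := by
      have a1 := Subgroup.relIndex_mul_index (inf_le_left : N ⊓ T ≤ N)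
      have a2 := Subgroup.relIndex_mul_index (inf_le_right : N ⊓ T ≤ T)
      have a3 := Subgroup.relIndex_sup_right N T
      rw [hF, Subgroup.relIndex_top_right] at a3
      rw [Subgroup.inf_relIndex_left, ← a3] at a1
      rw [Subgroup.inf_relIndex_right, ← a1, mul_comm] at a2
      exact (Nat.eq_of_mul_eq_mul_left (Nat.pos_of_ne_zero Subgroup.index_ne_zero_of_finite) a2).symm
    exact h.trans (e1 ▸ Subgroup.relIndex_dvd_card N T)
  -- H fixes a coset of N
  have hfix : ∃ x : G ⧸ N, x ∈ MulAction.fixedPoints H (G ⧸ N) :=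
    hHp.nonempty_fixed_point_of_prime_not_dvd_card (G ⧸ N) hidx
  obtain ⟨x, hx⟩ := hfix
  obtain ⟨g, rfl⟩ := QuotientGroup.mk_surjective x
  have hHN : H ≤ Subgroup.normalizer ((Q'.map (MulAut.conj g).toMonoidHom : Subgroup G) : Set G) := by
    rw [← Subgroup.map_equiv_normalizer_eq]
    intro h hh
    have h1 := hx ⟨h, hh⟩
    have h2 : ((h * g : G) : G ⧸ N) = g := h1
    rw [eq_comm, QuotientGroup.eq] at h2
    exact ⟨_, h2, by simp [mul_assoc]⟩
  set R := Q'.map (MulAut.conj g).toMonoidHom with hR
  have hRT : R ≤ T := by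
    rintro _ ⟨y, hy, rfl⟩
    exact (inferInstance : T.Normal).conj_mem y (Subgroup.map_subtype_le _ hy) g
  have hRq : IsPGroup q R := (Q.isPGroup'.map _).map _
  have hR1 : R ≠ ⊥ := by
    rw [hR, Ne, Subgroup.map_eq_bot_iff_of_injective _ (MulAut.conj g).injective, hQ',
      Subgroup.map_eq_bot_iff_of_injective _ T.subtype_injective]
    exact Q.ne_bot_of_dvd_card hqT
  have hRH : ¬ R ≤ H := by
    intro h
    have h1 : R ≤ T ⊓ H := le_inf hRT h
    have h2 : Nat.card ↥(T ⊓ H) ∣ p := Subgroup.card_dvd_of_le inf_le_right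
    rcases (Nat.dvd_prime hp).1 h2 with h3 | h3
    · rw [Subgroup.card_eq_one] at h3
      exact hR1 (le_bot_iff.1 (h3 ▸ h1))
    · exact hpT (h3 ▸ Subgroup.card_dvd_of_le inf_le_left)
  have hRn : Subgroup.normalizer (R : Set G) = ⊤ := by
    apply hmax.2
    refine lt_of_le_of_ne hHN (fun h => hRH ?_)
    rw [h]; exact Subgroup.le_normalizer
  rcases hsimp R (hRn ▸ le_top) with h | h
  · have hTq : IsPGroup q T := hRq.to_le h
    have := hT.toNontrivial
    have h1 := hTq.center_nontrivial
    rcases hT.eq_bot_or_eq_top_of_normal (Subgroup.center T) inferInstance with h2 | h2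
    · rw [h2] at h1
      exact not_nontrivial _ h1
    · exact hTc (Subgroup.center_eq_top_iff.1 h2)
  · exact hR1 (h.eq_bot_of_ge hRT)

end Cfsg.Agent.S3498
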