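import Cfsg.Statements.S3504
-- import your own Cfsg.Agent.* helpers here

set_option autoImplicit false
open Cfsg

namespace Cfsg.Agent.S3504

theorem cycleType_eq {n : ℕ} (g : Equiv.Perm (Fin n)) (hg : (orderOf g).Prime) (hd : ∀ i, g i ≠ i) :
    orderOf g ∣ n ∧ g.cycleType = Multiset.replicate (n / orderOf g) (orderOf g) := by
  obtain ⟨k, hk⟩ := Equiv.Perm.cycleType_prime_order hg
  have h1 := g.sum_cycleType
  have h2 : g.support = Finset.univ := by
    ext i; simpa using hd i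
  rw [h2, Finset.card_univ, Fintype.card_fin, hk, Multiset.sum_replicate, smul_eq_mul] at h1
  refine ⟨⟨k + 1, by rw [mul_comm]; exact h1.symm⟩, ?_⟩
  rw [hk]
  congr 1
  exact (Nat.div_eq_of_eq_mul_left hg.pos h1.symm).symm

theorem exists_der {n : ℕ} (hn : 0 < n) (p : ℕ) (hp : p.Prime) (hpn : p ∣ n) :
    ∃ g : Equiv.Perm (Fin n), orderOf g = p ∧ ∀ i, g i ≠ i := by
  have hsum : (Multiset.replicate (n / p) p).sum = n := by
    rw [Multiset.sum_replicate, smul_eq_mul, Nat.div_mul_cancel hpn]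
  obtain ⟨g, hg⟩ := (Equiv.Perm.exists_with_cycleType_iff (Fin n) (m := Multiset.replicate (n / p) p)).2
    ⟨by rw [hsum, Fintype.card_fin], fun a ha => by rw [Multiset.eq_of_mem_replicate ha]; exact hp.two_le⟩
  have hpos : n / p ≠ 0 := (Nat.div_pos (Nat.le_of_dvd hn hpn) hp.pos).ne'
  refine ⟨g, ?_, ?_⟩
  · rw [← Equiv.Perm.lcm_cycleType, hg]
    apply Nat.dvd_antisymm
    · rw [Multiset.lcm_dvd]
      intro b hb
      rw [Multiset.eq_of_mem_replicate hb]
    · exact Multiset.dvd_lcm (Multiset.mem_replicate.2 ⟨hpos, rfl⟩)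
  · have h1 := g.sum_cycleType
    rw [hg, hsum] at h1
    have h2 : g.support = Finset.univ := by
      apply Finset.eq_univ_of_card
      rw [← h1, Fintype.card_fin]
    intro i
    rw [← Equiv.Perm.mem_support, h2]
    exact Finset.mem_univ i


/-- For n ≥ 5, the fixed-point-free permutations of prime order in the symmetric group of degree n form a single conjugacy class if and only if n is a prime power. -/
theorem result (n : ℕ) (hn : 5 ≤ n) :
    Nat.card {c : ConjClasses (Equiv.Perm (Fin n)) // ∃ g : Equiv.Perm (Fin n), ConjClasses.mk g = c ∧ (orderOf g).Prime ∧ ∀ i : Fin n, g i ≠ i} = 1 ↔ IsPrimePow n := by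
  rw [isPrimePow_iff_unique_prime_dvd, Nat.card_eq_one_iff_unique]
  constructor
  · rintro ⟨hsub, ⟨c, g, hc, hg, hd⟩⟩
    refine ⟨orderOf g, ⟨hg, (cycleType_eq g hg hd).1⟩, ?_⟩
    rintro q ⟨hq, hqn⟩
    obtain ⟨g', hg', hd'⟩ := exists_der (by omega) q hq hqn
    have := hsub.elim ⟨c, g, hc, hg, hd⟩ ⟨ConjClasses.mk g', g', rfl, hg' ▸ hq, hd'⟩
    have h2 : c = ConjClasses.mk g' := congrArg Subtype.val this
    rw [← hc, ConjClasses.mk_eq_mk_iff_isConj, Equiv.Perm.isConj_iff_cycleType_eq] at h2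
    rw [← hg', ← Equiv.Perm.lcm_cycleType, ← h2, Equiv.Perm.lcm_cycleType]
  · rintro ⟨p, ⟨hp, hpn⟩, huniq⟩
    refine ⟨⟨?_⟩, ?_⟩
    · rintro ⟨c, g, hc, hg, hd⟩ ⟨c', g', hc', hg', hd'⟩
      apply Subtype.ext
      show c = c'
      obtain ⟨e1, e2⟩ := cycleType_eq g hg hd
      obtain ⟨e1', e2'⟩ := cycleType_eq g' hg' hd'
      rw [← hc, ← hc', ConjClasses.mk_eq_mk_iff_isConj, Equiv.Perm.isConj_iff_cycleType_eq, e2, e2',
        huniq _ ⟨hg, e1⟩, huniq _ ⟨hg', e1'⟩]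
    · obtain ⟨g, hg, hd⟩ := exists_der (by omega) p hp hpn
      exact ⟨⟨ConjClasses.mk g, g, rfl, hg ▸ hp, hd⟩⟩

end Cfsg.Agent.S3504
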