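import Cfsg.Statements.S3508
import Cfsg.Agent.H62.ElemAb
import Cfsg.Agent.H62.PermBasic

set_option autoImplicit false
open Cfsg

namespace Cfsg.Agent.S3508

/-- Let a finite group G act faithfully on a set Ω with p ^ m points (p prime) and have an elementary abelian normal p-subgroup N acting regularly on Ω (so G is a group of affine transformations of an m-dimensional space over the field with p elements). If G contains an element of order p ^ r with r ≥ 1, then p ^ (r − 1) ≤ m. In particular an element of order p ^ m forces m ≤ 2, and m ≤ 1 when p is odd. -/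
theorem result {G : Type*} [Group G] [Finite G] {Ω : Type*} [Fintype Ω] [MulAction G Ω] [FaithfulSMul G Ω] (p m : ℕ) (hp : p.Prime) (hcard : Fintype.card Ω = p ^ m)
    (N : Subgroup G) [N.Normal] (hNc : IsMulCommutative N) (hNp : ∀ n ∈ N, n ^ p = 1)
    (hNtr : MulAction.IsPretransitive N Ω) (hNreg : ∀ ω : Ω, MulAction.stabilizer N ω = ⊥)
    (g : G) (r : ℕ) (hr : 1 ≤ r) (hg : orderOf g = p ^ r) :
    p ^ (r - 1) ≤ m ∧ (r = m → m ≤ 2 ∧ (2 < p → m ≤ 1)) := by
  have := Fact.mk hp
  have main : p ^ (r - 1) ≤ m := by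
    by_contra hlt
    push Not at hlt
    obtain ⟨d, ι, ρ, hd, hinj, hmem, hsurj, h0, hadd, hρ⟩ := H62.exists_conjRep N hNc hNp
    have hne : Nonempty Ω := by
      rw [← Fintype.card_pos_iff, hcard]; exact pow_pos hp.pos m
    obtain ⟨a⟩ := hne
    have hdm : d = m := by
      have := H62.card_eq_card_mul_card_stabilizer (G := N) a
      rw [hNreg, Subgroup.card_bot, mul_one, Nat.card_eq_fintype_card (α := Ω), hcard, hd] at this
      exact Nat.pow_right_injective hp.two_le this
    have hreg : ∀ v w, ι v • a = ι w • a → v = w := by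
      intro v w h
      apply hinj
      have : (⟨ι w, hmem w⟩⁻¹ * ⟨ι v, hmem v⟩ : N) ∈ MulAction.stabilizer N a := by
        show ((ι w)⁻¹ * ι v) • a = a
        rw [mul_smul, h, inv_smul_smul]
      rw [hNreg, Subgroup.mem_bot, inv_mul_eq_one] at this
      exact (congrArg Subtype.val this).symm
    have htr : ∀ x : Ω, ∃ v, ι v • a = x := by
      intro x
      obtain ⟨n, hn⟩ := MulAction.exists_smul_eq N a x
      obtain ⟨v, hv⟩ := hsurj n n.2
      exact ⟨v, by rw [hv]; exact hn⟩
    obtain ⟨c, hc⟩ := htr (g • a)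
    let T : Module.End (ZMod p) ((Fin d → ZMod p) × ZMod p) :=
      LinearMap.prod ((ρ g).toLinearMap.coprod (LinearMap.toSpanSingleton _ _ c)) (LinearMap.snd _ _ _)
    have hT : ∀ v, T (v, 1) = (ρ g v + c, 1) := fun v => by simp [T]
    have hpow : ∀ (j : ℕ) v, ((T ^ j) (v, 1)).2 = 1 ∧ ι ((T ^ j) (v, 1)).1 • a = g ^ j • ι v • a := by
      intro j v
      induction j with
      | zero => simp
      | succ j ih =>
        rw [pow_succ', Module.End.mul_apply]
        generalize (T ^ j) (v, 1) = x at ih ⊢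
        obtain ⟨x1, x2⟩ := x
        obtain ⟨rfl, ih⟩ := ih
        rw [hT]
        refine ⟨rfl, ?_⟩
        rw [hadd, mul_smul, hc, hρ, mul_smul, inv_smul_smul, mul_smul, ih, pow_succ', mul_smul]
    have h1 : T ^ p ^ r = 1 := by
      have h2 : ∀ v, (T ^ p ^ r) (v, 1) = (v, 1) := by
        intro v
        obtain ⟨e1, e2⟩ := hpow (p ^ r) v
        rw [← hg, pow_orderOf_eq_one, one_smul, hg] at e2
        exact Prod.ext (hreg _ _ e2) e1
      apply LinearMap.ext
      rintro ⟨v, t⟩
      have : ((v, t) : (Fin d → ZMod p) × ZMod p) = (v, 1) + (t - 1) • (0, 1) := by simp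
      rw [this, map_add, map_smul, h2, h2]
      simp
    have h3 := H62.pow_prime_pow_eq_one_of_finrank_le p T r (r - 1) h1 (by
      rw [Module.finrank_prod, Module.finrank_fin_fun, Module.finrank_self]; omega)
    have h4 : g ^ p ^ (r - 1) = 1 := by
      apply FaithfulSMul.eq_of_smul_eq_smul (α := Ω)
      intro x
      obtain ⟨v, rfl⟩ := htr x
      rw [← (hpow _ v).2, h3, one_smul]
      rfl
    have h5 := Nat.le_of_dvd (pow_pos hp.pos _) (orderOf_dvd_of_pow_eq_one h4)
    rw [hg, Nat.pow_le_pow_iff_right hp.one_lt] at h5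
    omega
  refine ⟨main, fun hrm => ?_⟩
  subst hrm
  obtain ⟨s, rfl⟩ : ∃ s, r = s + 1 := ⟨r - 1, by omega⟩
  rw [Nat.add_sub_cancel] at main
  constructor
  · by_contra h
    have h1 : 2 ^ s ≤ p ^ s := Nat.pow_le_pow_left hp.two_le _
    obtain ⟨t, rfl⟩ : ∃ t, s = t + 2 := ⟨s - 2, by omega⟩
    have : t < 2 ^ t := Nat.lt_two_pow_self
    rw [pow_add] at h1
    omega
  · intro h2
    by_contra h
    have h1 : 3 ^ s ≤ p ^ s := Nat.pow_le_pow_left h2 _
    obtain ⟨t, rfl⟩ : ∃ t, s = t + 1 := ⟨s - 1, by omega⟩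
    have : t < 3 ^ t := Nat.lt_pow_self (by norm_num)
    rw [pow_add] at h1
    omega

end Cfsg.Agent.S3508
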