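import Cfsg.Statements.S3511
-- import your own Cfsg.Agent.* helpers here

set_option autoImplicit false
open Cfsg

namespace Cfsg.Agent.S3511

/-- Let a finite group G act faithfully on a set Ω. If every element of G of square-free order has a regular cycle (an orbit of the cyclic group it generates with trivial stabilizer), then every element of G has a regular cycle. -/
theorem result {G : Type*} [Group G] [Finite G] {Ω : Type*} [MulAction G Ω] [FaithfulSMul G Ω]
    (h : ∀ g : G, Squarefree (orderOf g) → ∃ ω : Ω, MulAction.stabilizer (Subgroup.zpowers g) ω = ⊥) (g : G) :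
    ∃ ω : Ω, MulAction.stabilizer (Subgroup.zpowers g) ω = ⊥ := by
  classical
  have hn : 0 < orderOf g := orderOf_pos g
  obtain ⟨m, hm⟩ := UniqueFactorizationMonoid.radical_dvd_self (a := orderOf g)
  have hm0 : m ≠ 0 := by rintro rfl; omega
  have hord : orderOf (g ^ m) = UniqueFactorizationMonoid.radical (orderOf g) := by
    rw [orderOf_pow_of_dvd hm0 ⟨_, by rw [mul_comm]; exact hm⟩]
    exact Nat.div_eq_of_eq_mul_left (Nat.pos_of_ne_zero hm0) hm
  obtain ⟨ω, hω⟩ := h (g ^ m) (hord ▸ UniqueFactorizationMonoid.squarefree_radical)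
  refine ⟨ω, ?_⟩
  rw [eq_bot_iff]
  intro x hx
  rw [Subgroup.mem_bot]
  by_contra hx1
  have ho : orderOf x ≠ 1 := by simpa using hx1
  obtain ⟨p, hp, e, he⟩ := Nat.exists_prime_and_dvd ho
  have hpos : 0 < orderOf x := orderOf_pos x
  have he0 : e ≠ 0 := by rintro rfl; omega
  have hy1 : x ^ e ≠ 1 := by
    intro h1
    have := Nat.le_of_dvd (Nat.pos_of_ne_zero he0) (orderOf_dvd_of_pow_eq_one h1)
    have := hp.two_le
    nlinarith [Nat.pos_of_ne_zero he0]
  have hyp : (x ^ e) ^ p = 1 := by rw [← pow_mul, mul_comm, ← he, pow_orderOf_eq_one]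
  obtain ⟨j, hj⟩ := (mem_zpowers_iff_mem_range_orderOf (x := g) (y := ((x ^ e : Subgroup.zpowers g) : G))).1 (x ^ e).2 |> Finset.mem_image.1
  have hj2 : g ^ j = ((x ^ e : Subgroup.zpowers g) : G) := hj.2
  have hpn : p ∣ orderOf g := by
    have h1 : orderOf x ∣ orderOf g := by
      rw [← Nat.card_zpowers g]; exact orderOf_dvd_natCard x
    exact Dvd.dvd.trans ⟨e, he⟩ h1
  obtain ⟨r, hr⟩ := (UniqueFactorizationMonoid.dvd_radical_iff_of_irreducible hp.prime.irreducible hn.ne').2 hpn
  have hdvd : orderOf g ∣ j * p := by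
    apply orderOf_dvd_of_pow_eq_one
    rw [pow_mul, hj2, ← Subgroup.coe_pow, hyp, Subgroup.coe_one]
  have hmj : m ∣ j := by
    rw [hm, hr, mul_comm j p, mul_assoc] at hdvd
    exact Dvd.dvd.trans (Dvd.intro_left r rfl) (Nat.dvd_of_mul_dvd_mul_left hp.pos hdvd)
  obtain ⟨k, hk⟩ := hmj
  have hmem : ((x ^ e : Subgroup.zpowers g) : G) ∈ Subgroup.zpowers (g ^ m) :=
    ⟨k, by simp only [zpow_natCast]; rw [← hj2, hk, pow_mul]⟩
  have : (⟨_, hmem⟩ : Subgroup.zpowers (g ^ m)) ∈ MulAction.stabilizer (Subgroup.zpowers (g ^ m)) ω :=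
    (MulAction.stabilizer (Subgroup.zpowers g) ω).pow_mem hx e
  rw [hω, Subgroup.mem_bot] at this
  have h3 : ((x ^ e : Subgroup.zpowers g) : G) = 1 := congrArg Subtype.val this
  exact hy1 (Subtype.ext h3)

end Cfsg.Agent.S3511
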