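import Cfsg.Statements.S3514
import Cfsg.Agent.H62.PermBasic

set_option autoImplicit false
open Cfsg

namespace Cfsg.Agent.S3514

theorem relIndex_sup_of_le_normalizer {G : Type*} [Group G] (H N : Subgroup G)
    (h : H ≤ Subgroup.normalizer (N : Set G)) : N.relIndex (H ⊔ N) = N.relIndex H :=
  letI := Subgroup.normal_subgroupOf_of_le_normalizer h
  letI := Subgroup.normal_subgroupOf_sup_of_le_normalizer h
  (Nat.card_congr (QuotientGroup.quotientInfEquivProdNormalizerQuotient H N h).toEquiv).symm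

theorem relIndex_sup_of_le_normalizer' {G : Type*} [Group G] [Finite G] (H N : Subgroup G)
    (h : H ≤ Subgroup.normalizer (N : Set G)) : H.relIndex (H ⊔ N) = H.relIndex N := by
  have e1 := Subgroup.relIndex_mul_relIndex (H ⊓ N) H (H ⊔ N) inf_le_left le_sup_left
  have e2 := Subgroup.relIndex_mul_relIndex (H ⊓ N) N (H ⊔ N) inf_le_right le_sup_right
  rw [Subgroup.inf_relIndex_left] at e1
  rw [Subgroup.inf_relIndex_right, relIndex_sup_of_le_normalizer H N h, ← e1, mul_comm] at e2
  exact (Nat.eq_of_mul_eq_mul_left (Nat.pos_of_ne_zero Subgroup.index_ne_zero_of_finite) e2).symm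


/-- Let p be a prime, V a finite vector space over the field with p elements, and H a group of linear transformations of V all of whose orbits on V have size coprime to p. (i) Every normal subgroup K of H has all its orbits on V of size coprime to p. (ii) If N is a group of linear transformations of V of order coprime to p that is normalized by H, then the group generated by N and H has all its orbits on V of size coprime to p. -/
theorem result (p : ℕ) [Fact p.Prime] {V : Type*} [AddCommGroup V] [Module (ZMod p) V] [Finite V]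
    (H : Subgroup (V ≃ₗ[ZMod p] V)) (hH : ∀ v : V, ¬ p ∣ Nat.card {u : V | ∃ h ∈ H, h v = u}) :
    (∀ K : Subgroup (V ≃ₗ[ZMod p] V), K ≤ H → H ≤ Subgroup.normalizer (K : Set (V ≃ₗ[ZMod p] V)) →
        ∀ v : V, ¬ p ∣ Nat.card {u : V | ∃ k ∈ K, k v = u}) ∧
    (∀ N : Subgroup (V ≃ₗ[ZMod p] V), ¬ p ∣ Nat.card N → H ≤ Subgroup.normalizer (N : Set (V ≃ₗ[ZMod p] V)) →
        ∀ v : V, ¬ p ∣ Nat.card {u : V | ∃ x ∈ N ⊔ H, x v = u}) := by
  have hfin : Finite (V ≃ₗ[ZMod p] V) :=
    Finite.of_injective (fun e : V ≃ₗ[ZMod p] V => (e : V → V)) DFunLike.coe_injective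
  have horb : ∀ (K : Subgroup (V ≃ₗ[ZMod p] V)) (v : V), Nat.card {u : V | ∃ k ∈ K, k v = u} =
      (MulAction.stabilizer (V ≃ₗ[ZMod p] V) v).relIndex K := by
    intro K v
    rw [← H62.card_orbit_subgroup_eq_relIndex]
    congr 2
    ext u
    constructor
    · rintro ⟨k, hk, rfl⟩
      exact ⟨⟨k, hk⟩, rfl⟩
    · rintro ⟨k, rfl⟩
      exact ⟨k, k.2, rfl⟩
  simp only [horb] at hH ⊢
  refine ⟨fun K hK hHK v hd => hH v (hd.trans ?_), fun N hN hHN v hd => ?_⟩
  · set S := MulAction.stabilizer (V ≃ₗ[ZMod p] V) v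
    have e1 := relIndex_sup_of_le_normalizer' (S ⊓ H) K (inf_le_right.trans hHK)
    have e2 : (S ⊓ H).relIndex K = S.relIndex K := by
      rw [← Subgroup.inf_relIndex_right (S ⊓ H) K, inf_assoc, inf_eq_right.2 hK,
        Subgroup.inf_relIndex_right]
    have e3 := Subgroup.relIndex_mul_relIndex (S ⊓ H) (S ⊓ H ⊔ K) H le_sup_left (sup_le inf_le_right hK)
    rw [e1, e2, Subgroup.inf_relIndex_right] at e3
    exact ⟨_, e3.symm⟩
  · set S := MulAction.stabilizer (V ≃ₗ[ZMod p] V) v
    have e1 := relIndex_sup_of_le_normalizer' H N hHN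
    have e2 := Subgroup.relIndex_mul_relIndex (S ⊓ H) H (H ⊔ N) inf_le_right le_sup_left
    rw [Subgroup.inf_relIndex_right, e1] at e2
    have e3 : S.relIndex (H ⊔ N) ∣ (S ⊓ H).relIndex (H ⊔ N) :=
      Subgroup.relIndex_dvd_of_le_left _ inf_le_left
    rw [sup_comm] at hd
    have := hd.trans e3
    rw [← e2] at this
    rcases (Nat.Prime.dvd_mul Fact.out).1 this with h | h
    · exact hH v h
    · exact hN (h.trans (Subgroup.relIndex_dvd_card H N))

end Cfsg.Agent.S3514
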