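import Cfsg.Statements.S3515
import Cfsg.Agent.H62.Affine

set_option autoImplicit false
open Cfsg

namespace Cfsg.Agent.S3515

theorem hall : ∀ x : Fin 2 → ZMod 2, x = 0 ∨ x = Pi.single 0 1 ∨ x = Pi.single 1 1 ∨ x = 1 := by
  decide

theorem hne : (0 : Fin 2 → ZMod 2) ≠ 1 ∧ (Pi.single 0 1 : Fin 2 → ZMod 2) ≠ 1 ∧
    (Pi.single 1 1 : Fin 2 → ZMod 2) ≠ 1 := by
  decide


/-- Every primitive affine permutation group of degree p² is 3-closed. Let p be a prime and G a group of permutations of the plane V = F_p² consisting of affine maps x ↦ Ax + b, containing all translations, and acting primitively on V. Then any permutation σ of V that agrees on every triple of points with some element of G (σ preserves every G-orbit on ordered triples) already lies in G. -/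
theorem result (p : ℕ) [Fact p.Prime] (G : Subgroup (Equiv.Perm (Fin 2 → ZMod p)))
    (haff : (G : Set (Equiv.Perm (Fin 2 → ZMod p))) ⊆ {τ : Equiv.Perm (Fin 2 → ZMod p) | ∃ (A : (Fin 2 → ZMod p) ≃ₗ[ZMod p] (Fin 2 → ZMod p)) (b : Fin 2 → ZMod p), ∀ x, τ x = A x + b})
    (htrans : ∀ b : Fin 2 → ZMod p, ∃ g ∈ G, ∀ x, g x = x + b) (hprim : MulAction.IsPreprimitive G (Fin 2 → ZMod p))
    (σ : Equiv.Perm (Fin 2 → ZMod p)) (hσ : (∀ t : Fin 3 → (Fin 2 → ZMod p), ∃ g ∈ G, ∀ i, σ (t i) = g (t i))) : σ ∈ G := by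
  obtain ⟨g, hg, h⟩ := hσ ![0, Pi.single 0 1, Pi.single 1 1]
  have h0 : σ 0 = g 0 := h 0
  have h1 : σ (Pi.single 0 1) = g (Pi.single 0 1) := h 1
  have h2 : σ (Pi.single 1 1) = g (Pi.single 1 1) := h 2
  suffices σ = g by rw [this]; exact hg
  by_cases hp : p = 2
  · subst hp
    have h3 : σ 1 = g 1 := by
      obtain ⟨y, hy⟩ := g.surjective (σ 1)
      rcases hall y with rfl | rfl | rfl | rfl
      · rw [← h0] at hy; exact absurd (σ.injective hy) hne.1
      · rw [← h1] at hy; exact absurd (σ.injective hy) hne.2.1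
      · rw [← h2] at hy; exact absurd (σ.injective hy) hne.2.2
      · exact hy.symm
    ext1 x
    rcases hall x with rfl | rfl | rfl | rfl <;> assumption
  · obtain ⟨A, b, hA⟩ := H62.affine_of_three_approx hp σ (fun t => by
      obtain ⟨g, hg, h⟩ := hσ t
      obtain ⟨A, b, hA⟩ := haff hg
      exact ⟨A, b, fun i => by rw [h i, hA]⟩)
    obtain ⟨B, c, hB⟩ := haff hg
    simp only [hA, hB, map_zero, zero_add] at h0 h1 h2
    subst h0
    have hAB : (A : (Fin 2 → ZMod p) →ₗ[ZMod p] (Fin 2 → ZMod p)) = B := by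
      apply LinearMap.pi_ext'
      intro i
      ext1
      fin_cases i
      · simpa using h1
      · simpa using h2
    ext1 x
    rw [hA, hB]
    congr 1
    exact LinearMap.congr_fun hAB x

end Cfsg.Agent.S3515
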