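import Cfsg.Statements.S3516
import Cfsg.Agent.H62.Affine

set_option autoImplicit false
open Cfsg

namespace Cfsg.Agent.S3516

/-- Let p be an odd prime, d ≥ 3, and G a group of affine permutations x ↦ Ax + b of V = F_p^d containing all translations and all maps x ↦ Ax with A of determinant 1. Then the 3-closure of G is the full affine group: a permutation σ of V agrees on every triple of points with some element of G if and only if σ is an affine map. -/
theorem result (p : ℕ) [Fact p.Prime] (hp : p ≠ 2) (d : ℕ) (hd : 3 ≤ d) (G : Subgroup (Equiv.Perm (Fin d → ZMod p)))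
    (haff : (G : Set (Equiv.Perm (Fin d → ZMod p))) ⊆ {τ : Equiv.Perm (Fin d → ZMod p) | ∃ (A : (Fin d → ZMod p) ≃ₗ[ZMod p] (Fin d → ZMod p)) (b : Fin d → ZMod p), ∀ x, τ x = A x + b})
    (htrans : ∀ b : Fin d → ZMod p, ∃ g ∈ G, ∀ x, g x = x + b)
    (hsl : ∀ A : (Fin d → ZMod p) ≃ₗ[ZMod p] (Fin d → ZMod p), LinearMap.det (A : (Fin d → ZMod p) →ₗ[ZMod p] (Fin d → ZMod p)) = 1 → ∃ g ∈ G, ∀ x, g x = A x)
    (σ : Equiv.Perm (Fin d → ZMod p)) :
    (∀ t : Fin 3 → (Fin d → ZMod p), ∃ g ∈ G, ∀ i, σ (t i) = g (t i)) ↔ σ ∈ {τ : Equiv.Perm (Fin d → ZMod p) | ∃ (A : (Fin d → ZMod p) ≃ₗ[ZMod p] (Fin d → ZMod p)) (b : Fin d → ZMod p), ∀ x, τ x = A x + b} := by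
  constructor
  · intro hσ
    exact H62.affine_of_three_approx hp σ (fun t => by
      obtain ⟨g, hg, h⟩ := hσ t
      obtain ⟨A, b, hA⟩ := haff hg
      exact ⟨A, b, fun i => by rw [h i, hA]⟩)
  · rintro ⟨A, b, hA⟩ t
    have hW : Submodule.span (ZMod p) ({t 1 - t 0, t 2 - t 0} : Set (Fin d → ZMod p)) ≠ ⊤ := by
      intro h
      have h1 := finrank_span_finset_le_card (R := ZMod p) ({t 1 - t 0, t 2 - t 0} : Finset (Fin d → ZMod p))
      have h2 : ({t 1 - t 0, t 2 - t 0} : Finset (Fin d → ZMod p)).card ≤ 2 := Finset.card_le_two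
      rw [Set.finrank, Finset.coe_pair, h, finrank_top, Module.finrank_fin_fun] at h1
      omega
    have hdet : LinearMap.det (A : (Fin d → ZMod p) →ₗ[ZMod p] (Fin d → ZMod p)) ≠ 0 :=
      A.isUnit_det'.ne_zero
    obtain ⟨D, hD, hDW⟩ := H62.exists_linearEquiv_det_eq_fix _ hW _ (inv_ne_zero hdet)
    obtain ⟨g, hg, hgx⟩ := hsl (D.trans A) (by
      rw [LinearEquiv.coe_trans, LinearMap.det_comp, hD, mul_inv_cancel₀ hdet])
    obtain ⟨s, hs, hsx⟩ := htrans (A (t 0) - A (D (t 0)) + b)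
    have e1 := hDW (t 1 - t 0) (Submodule.subset_span (by simp))
    have e2 := hDW (t 2 - t 0) (Submodule.subset_span (by simp))
    have e1' := congrArg A e1
    have e2' := congrArg A e2
    simp only [map_sub] at e1' e2'
    refine ⟨s * g, G.mul_mem hs hg, fun i => ?_⟩
    simp only [Equiv.Perm.coe_mul, Function.comp_apply, hsx, hgx, hA, LinearEquiv.trans_apply]
    fin_cases i
    · show A (t 0) + b = A (D (t 0)) + _
      abel
    · show A (t 1) + b = A (D (t 1)) + _
      linear_combination (exp := 1) -e1'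
    · show A (t 2) + b = A (D (t 2)) + _
      linear_combination (exp := 1) -e2'

end Cfsg.Agent.S3516
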