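import Cfsg.Statements.S3517
import Cfsg.Agent.H62.PermBasic

set_option autoImplicit false
open Cfsg

namespace Cfsg.Agent.S3517

theorem one_vec {V : Type*} [AddCommGroup V] [Module (ZMod 2) V] (u u' : V) (h : u = 0 ↔ u' = 0) :
    ∃ A : V ≃ₗ[ZMod 2] V, A u = u' := by
  by_cases hu : u = 0
  · exact ⟨LinearEquiv.refl _ _, by rw [hu, h.1 hu]; rfl⟩
  · have hu' : u' ≠ 0 := fun h' => hu (h.2 h')
    obtain ⟨A, hA⟩ := H62.exists_linearEquiv_of_linearIndependent (K := ZMod 2) (ι := Unit)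
      (u := fun _ => u) (v := fun _ => u') (linearIndependent_unique_iff.2 hu)
      (linearIndependent_unique_iff.2 hu')
    exact ⟨A, hA ()⟩

theorem li_pair {V : Type*} [AddCommGroup V] [Module (ZMod 2) V] (u v : V) (hu : u ≠ 0) (hv : v ≠ 0)
    (huv : u ≠ v) : LinearIndependent (ZMod 2) ![u, v] := by
  rw [LinearIndependent.pair_iff' hu]
  intro a
  fin_cases a
  · show (0 : ZMod 2) • u ≠ v
    simpa using hv.symm
  · show (1 : ZMod 2) • u ≠ v
    simpa using huv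

theorem two_vec {V : Type*} [AddCommGroup V] [Module (ZMod 2) V] (u v u' v' : V)
    (h1 : u = 0 ↔ u' = 0) (h2 : v = 0 ↔ v' = 0) (h3 : u = v ↔ u' = v') :
    ∃ A : V ≃ₗ[ZMod 2] V, A u = u' ∧ A v = v' := by
  by_cases hu : u = 0
  · obtain ⟨A, hA⟩ := one_vec v v' h2
    exact ⟨A, by rw [hu, h1.1 hu, map_zero], hA⟩
  by_cases hv : v = 0
  · obtain ⟨A, hA⟩ := one_vec u u' h1
    exact ⟨A, hA, by rw [hv, h2.1 hv, map_zero]⟩
  by_cases huv : u = v
  · obtain ⟨A, hA⟩ := one_vec u u' h1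
    exact ⟨A, hA, by rw [← huv, ← h3.1 huv, hA]⟩
  obtain ⟨A, hA⟩ := H62.exists_linearEquiv_of_linearIndependent (li_pair u v hu hv huv)
    (li_pair u' v' (fun h => hu (h1.2 h)) (fun h => hv (h2.2 h)) (fun h => huv (h3.2 h)))
  exact ⟨A, hA 0, hA 1⟩


/-- For d ≥ 3, the 3-closure of the affine group AGL_d(2) acting on F_2^d is the full symmetric group: every permutation of F_2^d agrees on every ordered triple of points with some affine map (AGL_d(2) is 3-transitive). -/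
theorem result (d : ℕ) (hd : 3 ≤ d) (σ : Equiv.Perm (Fin d → ZMod 2)) (t : Fin 3 → (Fin d → ZMod 2)) :
    ∃ (A : (Fin d → ZMod 2) ≃ₗ[ZMod 2] (Fin d → ZMod 2)) (b : Fin d → ZMod 2), ∀ i, σ (t i) = A (t i) + b := by
  obtain ⟨A, h1, h2⟩ := two_vec (t 1 - t 0) (t 2 - t 0) (σ (t 1) - σ (t 0)) (σ (t 2) - σ (t 0))
    (by simp [sub_eq_zero]) (by simp [sub_eq_zero]) (by simp)
  refine ⟨A, σ (t 0) - A (t 0), fun i => ?_⟩
  rw [map_sub] at h1 h2
  fin_cases i
  · simp
  · show σ (t 1) = A (t 1) + _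
    linear_combination (exp := 1) -h1
  · show σ (t 2) = A (t 2) + _
    linear_combination (exp := 1) -h2

end Cfsg.Agent.S3517
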