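import Cfsg.Statements.S3518
import Cfsg.Agent.H59.PrimeDeg
import Cfsg.Agent.S3524

set_option autoImplicit false
open Cfsg

namespace Cfsg.Agent.S3518

/-- The 2-closure of a permutation group. -/
def closure2 {Ω : Type*} (G : Subgroup (Equiv.Perm Ω)) : Subgroup (Equiv.Perm Ω) where
  carrier := {σ | ∀ x y : Ω, ∃ g ∈ G, σ x = g x ∧ σ y = g y}
  one_mem' := fun _ _ => ⟨1, G.one_mem, rfl, rfl⟩
  mul_mem' := by
    intro σ τ hσ hτ x y
    obtain ⟨g, hg, h1, h2⟩ := hτ x y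
    obtain ⟨k, hk, h3, h4⟩ := hσ (τ x) (τ y)
    exact ⟨k * g, G.mul_mem hk hg, by simp [← h1, h3], by simp [← h2, h4]⟩
  inv_mem' := by
    intro σ hσ x y
    obtain ⟨g, hg, h1, h2⟩ := hσ (σ⁻¹ x) (σ⁻¹ y)
    refine ⟨g⁻¹, G.inv_mem hg, ?_, ?_⟩
    · rw [Equiv.Perm.eq_inv_iff_eq, ← h1]; simp
    · rw [Equiv.Perm.eq_inv_iff_eq, ← h2]; simp

theorem aff_eq {p : ℕ} [Fact p.Prime] (σ τ : Equiv.Perm (ZMod p)) (a b c d : ZMod p)
    (hσ : ∀ x, σ x = a * x + b) (hτ : ∀ x, τ x = c * x + d) (h0 : σ 0 = τ 0) (h1 : σ 1 = τ 1) :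
    σ = τ := by
  simp only [hσ, hτ, mul_zero, zero_add, mul_one] at h0 h1
  subst h0
  rw [add_left_inj] at h1
  subst h1
  ext1 x
  rw [hσ, hτ]

theorem exists_aff {p : ℕ} [Fact p.Prime] (a : ZMod p) (ha : a ≠ 0) (b : ZMod p) :
    ∃ g ∈ Cfsg.affineGroup (ZMod p), ∀ x, g x = a * x + b :=
  ⟨(Equiv.mulLeft₀ a ha).trans (Equiv.addRight b), ⟨Units.mk0 a ha, b, fun x => rfl⟩, fun x => rfl⟩


/-- Closures of subgroups of the one-dimensional affine group. Let p be a prime and G a group of permutations of F_p lying in the affine group AGL₁(p) = {x ↦ ax + b, a ≠ 0} and containing all translations. (1) If G is a proper subgroup of AGL₁(p), then G is 2-closed: a permutation of F_p agreeing on every ordered pair of points with some element of G lies in G. (2) Every permutation of F_p agrees on every ordered pair with some element of AGL₁(p) (the 2-closure of AGL₁(p) is the symmetric group). (3) AGL₁(p) is 3-closed: a permutation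 agreeing on every ordered triple with some affine map is affine. -/
theorem result (p : ℕ) [Fact p.Prime] (G : Subgroup (Equiv.Perm (ZMod p))) (hG : G ≤ Cfsg.affineGroup (ZMod p))
    (htrans : ∀ b : ZMod p, ∃ g ∈ G, ∀ x, g x = x + b) :
    (G ≠ Cfsg.affineGroup (ZMod p) → ∀ σ : Equiv.Perm (ZMod p), (∀ t : Fin 2 → ZMod p, ∃ g ∈ G, ∀ i, σ (t i) = g (t i)) → σ ∈ G) ∧
    (∀ σ : Equiv.Perm (ZMod p), (∀ t : Fin 2 → ZMod p, ∃ g ∈ Cfsg.affineGroup (ZMod p), ∀ i, σ (t i) = g (t i))) ∧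
    (∀ σ : Equiv.Perm (ZMod p), (∀ t : Fin 3 → ZMod p, ∃ g ∈ Cfsg.affineGroup (ZMod p), ∀ i, σ (t i) = g (t i)) → σ ∈ Cfsg.affineGroup (ZMod p)) := by
  refine ⟨fun hne σ hσ => ?_, fun σ t => ?_, fun σ hσ => ?_⟩
  · have hσ' : σ ∈ closure2 G := by
      intro x y
      obtain ⟨g, hg, h⟩ := hσ ![x, y]
      exact ⟨g, hg, h 0, h 1⟩
    have hle : G ≤ closure2 G := fun g hg x y => ⟨g, hg, rfl, rfl⟩
    have htr : MulAction.IsPretransitive (closure2 G) (ZMod p) := ⟨fun x y => by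
      obtain ⟨g, hg, h⟩ := htrans (y - x)
      exact ⟨⟨g, hle hg⟩, by show g x = y; rw [h]; ring⟩⟩
    obtain ⟨t, ht, htx⟩ := htrans 1
    rcases H59.isAff_or_two_pretransitive (G := closure2 G) (Ω := ZMod p) (t := ⟨t, hle ht⟩)
      (e := Equiv.refl _) (fun x => htx x) with h | h
    · obtain ⟨a, b, hab⟩ := h ⟨σ, hσ'⟩
      obtain ⟨g, hg, h0, h1⟩ := hσ' 0 1
      obtain ⟨c, d, hcd⟩ := hG hg
      rw [aff_eq σ g a b c d hab hcd h0 h1]
      exact hg
    · exfalso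
      apply hne
      refine le_antisymm hG ?_
      rintro τ ⟨a, b, hab⟩
      rw [MulAction.is_two_pretransitive_iff] at h
      obtain ⟨s, hs0, hs1⟩ := h (a := 0) (b := 1) (c := τ 0) (d := τ 1) zero_ne_one
        (τ.injective.ne zero_ne_one)
      obtain ⟨g, hg, h0, h1⟩ := s.2 0 1
      obtain ⟨c, d, hcd⟩ := hG hg
      rw [aff_eq τ g a b c d hab hcd (hs0.symm.trans h0) (hs1.symm.trans h1)]
      exact hg
  · by_cases h : t 0 = t 1
    · obtain ⟨g, hg, hx⟩ := exists_aff (1 : ZMod p) one_ne_zero (σ (t 0) - t 0)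
      refine ⟨g, hg, fun i => ?_⟩
      fin_cases i
      · show σ (t 0) = g (t 0)
        rw [hx]; ring
      · show σ (t 1) = g (t 1)
        rw [hx, ← h]; ring
    · have h1 : t 1 - t 0 ≠ 0 := sub_ne_zero.2 (Ne.symm h)
      have h2 : σ (t 1) - σ (t 0) ≠ 0 := sub_ne_zero.2 (σ.injective.ne (Ne.symm h))
      obtain ⟨g, hg, hx⟩ := exists_aff ((σ (t 1) - σ (t 0)) / (t 1 - t 0)) (div_ne_zero h2 h1)
        (σ (t 0) - (σ (t 1) - σ (t 0)) / (t 1 - t 0) * t 0)
      refine ⟨g, hg, fun i => ?_⟩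
      fin_cases i
      · show σ (t 0) = g (t 0)
        rw [hx]; ring
      · show σ (t 1) = g (t 1)
        rw [hx]; field_simp; ring
  · refine S3524.result _ 2 ![0, 1] ?_ σ hσ
    rintro g ⟨a, b, hab⟩ h
    exact aff_eq g 1 a b 1 0 hab (fun x => by simp) (h 0) (h 1)

end Cfsg.Agent.S3518
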