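import Cfsg.Statements.S3532
import Cfsg.Agent.H57.Frob

set_option autoImplicit false
open Cfsg

namespace Cfsg.Agent.S3532

open Cfsg.Agent.H57

theorem solvable_prod' {X Y : Type*} [Group X] [Group Y] [Group.IsSolvable X]
    [Group.IsSolvable Y] : Group.IsSolvable (X × Y) :=
  solvable_of_ker_le_range (MonoidHom.inl X Y) (MonoidHom.snd X Y)
    (fun x hx => ⟨x.1, Prod.ext rfl (Eq.symm hx)⟩)

/-- Let q ≥ 4 be a prime power and L = PSL(2,q). There is a finite solvable group with the same set of element orders as L × L (so L × L is not determined by its spectrum). -/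
theorem result {F : Type*} [Field F] [Fintype F] (hF : 4 ≤ Fintype.card F) :
    ∃ (H : Type) (_ : Group H) (_ : Finite H), Group.IsSolvable H ∧
      Set.range (orderOf : H → ℕ) = Set.range (orderOf : Matrix.ProjectiveSpecialLinearGroup (Fin 2) F × Matrix.ProjectiveSpecialLinearGroup (Fin 2) F → ℕ) := by
  classical
  obtain ⟨p, hp⟩ := CharP.exists F
  obtain ⟨k, hpp, hk⟩ := FiniteField.card F p
  set q := Fintype.card F with hq
  have hpq : p ∣ q := by rw [hk]; exact dvd_pow_self p k.ne_zero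
  set a := (q - 1) / Nat.gcd 2 (q - 1) with ha
  set b := (q + 1) / Nat.gcd 2 (q + 1) with hb
  have ha1 : a ∣ q - 1 := Nat.div_dvd_of_dvd (Nat.gcd_dvd_right _ _)
  have hb1 : b ∣ q + 1 := Nat.div_dvd_of_dvd (Nat.gcd_dvd_right _ _)
  have ha0 : 0 < a := Nat.pos_of_dvd_of_pos ha1 (by omega)
  have hb0 : 0 < b := Nat.pos_of_dvd_of_pos hb1 (by omega)
  have hap : a.Coprime p := by
    refine Nat.Coprime.coprime_dvd_left ha1 (Nat.Coprime.coprime_dvd_right hpq ?_)
    have : q = (q - 1) + 1 := by omega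
    conv_rhs => rw [this]
    simp
  have hbp : b.Coprime p := by
    refine Nat.Coprime.coprime_dvd_left hb1 (Nat.Coprime.coprime_dvd_right hpq ?_)
    simp
  obtain ⟨X, _, _, hXs, hX, -⟩ := exists_frobenius_cyclic hpp ha0 hap
  obtain ⟨Y, _, _, hYs, hY, -⟩ := exists_frobenius_cyclic hpp hb0 hbp
  refine ⟨X × Y, inferInstance, inferInstance, solvable_prod', ?_⟩
  have hs := spec_psl2 (F := F) p
  rw [← hq, ← ha, ← hb] at hs
  apply Set.Subset.antisymm
  · intro n hn
    obtain ⟨x, hx, y, hy, rfl⟩ := mem_spec_prod.1 hn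
    rw [hX] at hx
    rw [hY] at hy
    refine mem_spec_prod.2 ⟨x, ?_, y, ?_, rfl⟩ <;> rw [hs]
    · rcases hx with h | h
      · exact Or.inl h
      · exact Or.inr (Or.inl h)
    · rcases hy with h | h
      · exact Or.inl h
      · exact Or.inr (Or.inr h)
  · intro n hn
    obtain ⟨x, hx, y, hy, rfl⟩ := mem_spec_prod.1 hn
    rw [hs] at hx hy
    have k1 : ∀ u v, (u ∣ p ∨ u ∣ a) → (v ∣ p ∨ v ∣ b) → Nat.lcm u v ∈ spec (X × Y) :=
      fun u v hu hv => mem_spec_prod.2 ⟨u, by rw [hX]; exact hu, v, by rw [hY]; exact hv, rfl⟩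
    have k2 : ∀ u v, (u ∣ p ∨ u ∣ a) → (v ∣ p ∨ v ∣ b) → Nat.lcm v u ∈ spec (X × Y) :=
      fun u v hu hv => by rw [Nat.lcm_comm]; exact k1 u v hu hv
    rcases hx with hx | hx | hx <;> rcases hy with hy | hy | hy
    · exact k1 _ _ (Or.inl hx) (Or.inl hy)
    · exact k2 _ _ (Or.inr hy) (Or.inl hx)
    · exact k1 _ _ (Or.inl hx) (Or.inr hy)
    · exact k1 _ _ (Or.inr hx) (Or.inl hy)
    · have := k1 _ 1 (Or.inr (Nat.lcm_dvd hx hy)) (Or.inl (one_dvd _))
      rwa [Nat.lcm_one_right] at this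
    · exact k1 _ _ (Or.inr hx) (Or.inr hy)
    · exact k2 _ _ (Or.inl hy) (Or.inr hx)
    · exact k2 _ _ (Or.inr hy) (Or.inr hx)
    · have := k1 1 _ (Or.inl (one_dvd _)) (Or.inr (Nat.lcm_dvd hx hy))
      rwa [Nat.lcm_one_left] at this

end Cfsg.Agent.S3532
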