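import Cfsg.Statements.S3547
import Cfsg.Agent.H62.Derangement

set_option autoImplicit false
open Cfsg

namespace Cfsg.Agent.S3547

/-- Let G act faithfully and transitively on a finite set Ω, let D be the subgroup generated by the derangements, and let r_G and r_D be the numbers of orbits of G and of D on ordered pairs of points (the permutation ranks). Then r_D − 1 = (r_G − 1)·[G : D]. -/
theorem result {G Ω : Type*} [Group G] [Finite G] [MulAction G Ω] [FaithfulSMul G Ω] [Finite Ω]
    (htrans : MulAction.IsPretransitive G Ω) :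
    Nat.card (MulAction.orbitRel.Quotient ↥(Subgroup.closure {g : G | ∀ ω : Ω, g • ω ≠ ω}) (Ω × Ω)) - 1 =
      (Nat.card (MulAction.orbitRel.Quotient G (Ω × Ω)) - 1) * (Subgroup.closure {g : G | ∀ ω : Ω, g • ω ≠ ω}).index := by
  classical
  set D := Subgroup.closure {g : G | ∀ ω : Ω, g • ω ≠ ω} with hD
  obtain ⟨h1, h2⟩ := H62.transitive_and_fix_one (X := Ω) D
    H62.exists_fixed_of_notMem_closure_derangements
  have : Fintype G := Fintype.ofFinite G
  have hG := H62.sum_card_fixedBy G (Ω × Ω)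
  rw [← Finset.sum_filter_add_sum_filter_not Finset.univ (· ∈ D), H62.sum_card_fixedBy_subgroup] at hG
  have h3 : ∑ g ∈ Finset.univ.filter (fun g => ¬ g ∈ D), Nat.card (MulAction.fixedBy (Ω × Ω) g) =
      (Finset.univ.filter (fun g => ¬ g ∈ D)).card := by
    rw [Finset.card_eq_sum_ones]
    refine Finset.sum_congr rfl (fun g hg => ?_)
    rw [H62.card_fixedBy_prod, h2 g (Finset.mem_filter.1 hg).2, one_pow]
  have h4 : Nat.card G = Nat.card D + (Finset.univ.filter (fun g => ¬ g ∈ D)).card := by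
    rw [Nat.card_eq_fintype_card, ← Finset.card_univ,
      ← Finset.card_filter_add_card_filter_not (fun g => g ∈ D)]
    congr 1
    rw [Nat.card_eq_fintype_card, Fintype.card_subtype]
  rw [h3] at hG
  have h5 := D.index_mul_card
  have hDpos : 0 < Nat.card D := Nat.card_pos
  rcases isEmpty_or_nonempty Ω with hΩ | hΩ
  · have e1 : Nat.card (MulAction.orbitRel.Quotient D (Ω × Ω)) = 0 := by
      have : IsEmpty (MulAction.orbitRel.Quotient D (Ω × Ω)) := ⟨fun q => hΩ.elim q.out.1⟩
      exact Nat.card_of_isEmpty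
    have e2 : Nat.card (MulAction.orbitRel.Quotient G (Ω × Ω)) = 0 := by
      have : IsEmpty (MulAction.orbitRel.Quotient G (Ω × Ω)) := ⟨fun q => hΩ.elim q.out.1⟩
      exact Nat.card_of_isEmpty
    rw [e1, e2]; simp
  have e1 : 1 ≤ Nat.card (MulAction.orbitRel.Quotient D (Ω × Ω)) := by
    have : Nonempty (MulAction.orbitRel.Quotient D (Ω × Ω)) := ⟨Quotient.mk _ (Classical.arbitrary _)⟩
    exact Nat.card_pos
  have e2 : 1 ≤ Nat.card (MulAction.orbitRel.Quotient G (Ω × Ω)) := by
    have : Nonempty (MulAction.orbitRel.Quotient G (Ω × Ω)) := ⟨Quotient.mk _ (Classical.arbitrary _)⟩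
    exact Nat.card_pos
  obtain ⟨a, ha⟩ := Nat.exists_eq_add_of_le' e1
  obtain ⟨b, hb⟩ := Nat.exists_eq_add_of_le' e2
  rw [ha, hb] at hG ⊢
  simp only [Nat.add_sub_cancel]
  apply Nat.eq_of_mul_eq_mul_right hDpos
  rw [mul_assoc, h5]
  nlinarith

end Cfsg.Agent.S3547
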