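import Cfsg.Statements.S3548
import Cfsg.Agent.H62.Derangement

set_option autoImplicit false
open Cfsg

namespace Cfsg.Agent.S3548

/-- Let G act faithfully and transitively on a finite set with n ≥ 2 points and let D be the subgroup generated by the derangements. Then the index of D in G divides n − 1, and if it equals n − 1 then n is a prime power. -/
theorem result {G Ω : Type*} [Group G] [Finite G] [MulAction G Ω] [FaithfulSMul G Ω] [Finite Ω]
    (htrans : MulAction.IsPretransitive G Ω) (hΩ : 2 ≤ Nat.card Ω) :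
    (Subgroup.closure {g : G | ∀ ω : Ω, g • ω ≠ ω}).index ∣ Nat.card Ω - 1 ∧
    ((Subgroup.closure {g : G | ∀ ω : Ω, g • ω ≠ ω}).index = Nat.card Ω - 1 → IsPrimePow (Nat.card Ω)) := by
  set D := Subgroup.closure {g : G | ∀ ω : Ω, g • ω ≠ ω} with hD
  have hnt : Nontrivial Ω := Finite.one_lt_card_iff_nontrivial.1 hΩ
  have hDex : ∀ g : G, g ∉ D → ∃ x : Ω, g • x = x := H62.exists_fixed_of_notMem_closure_derangements
  obtain ⟨h1, h2⟩ := H62.transitive_and_fix_one (X := Ω) D hDex
  have hDn : D.Normal := H62.closure_derangements_normal G Ω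
  refine ⟨H62.index_dvd_card_sub_one D hDex, fun hidx => ?_⟩
  obtain ⟨a⟩ : Nonempty Ω := inferInstance
  -- suborbits have full length
  have hfull : ∀ b : Ω, b ≠ a → MulAction.orbit (MulAction.stabilizer G a) b = {a}ᶜ := by
    intro b hb
    have hd := H62.index_dvd_card_suborbit D a b (H62.inf_stabilizer_le_of_fix_one D h2 hb.symm)
    have hsub : MulAction.orbit (MulAction.stabilizer G a) b ⊆ {a}ᶜ := by
      rintro _ ⟨h, rfl⟩ h'
      simp only [Set.mem_singleton_iff] at h'
      have h3 : (h : G) • b = (h : G) • a := h'.trans h.2.symm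
      exact hb (smul_left_cancel _ h3)
    apply Set.eq_of_subset_of_ncard_le hsub
    rw [Set.ncard_compl, Set.ncard_singleton, ← hidx, ← Nat.card_coe_set_eq]
    have : Nonempty (MulAction.orbit (MulAction.stabilizer G a) b) := ⟨⟨b, MulAction.mem_orbit_self b⟩⟩
    exact Nat.le_of_dvd Nat.card_pos hd
  -- D ∩ G_a is trivial
  have hDa : ∀ g ∈ D, g • a = a → g = 1 := by
    intro g hg hga
    apply FaithfulSMul.eq_of_smul_eq_smul (α := Ω)
    intro b
    rw [one_smul]
    by_cases hb : b = a
    · rw [hb, hga]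
    have e1 : (MulAction.stabilizer G b).relIndex (MulAction.stabilizer G a) = D.index := by
      rw [← H62.card_orbit_subgroup_eq_relIndex, hfull b hb, Nat.card_coe_set_eq, Set.ncard_compl,
        Set.ncard_singleton, hidx]
    have e2 := H62.relIndex_stabilizer_of_transitive D a
    have hle : MulAction.stabilizer G b ⊓ MulAction.stabilizer G a ≤ D ⊓ MulAction.stabilizer G a :=
      le_inf (H62.inf_stabilizer_le_of_fix_one D h2 hb) inf_le_right
    have e3 := Subgroup.relIndex_mul_relIndex _ _ _ hle (inf_le_right : D ⊓ MulAction.stabilizer G a ≤ _)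
    rw [Subgroup.inf_relIndex_right, Subgroup.inf_relIndex_right, e1, e2] at e3
    have e4 : (MulAction.stabilizer G b ⊓ MulAction.stabilizer G a).relIndex (D ⊓ MulAction.stabilizer G a) = 1 := by
      have hpos : 0 < D.index := Nat.pos_of_ne_zero Subgroup.index_ne_zero_of_finite
      exact Nat.eq_of_mul_eq_mul_right hpos (by rw [e3, one_mul])
    rw [Subgroup.relIndex_eq_one] at e4
    exact (e4 ⟨hg, hga⟩).1
  have hcard : Nat.card D = Nat.card Ω := by
    rw [H62.card_eq_card_mul_card_stabilizer (G := D) a]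
    have : MulAction.stabilizer D a = ⊥ := by
      rw [eq_bot_iff]
      intro g hg
      exact Subtype.ext (hDa g g.2 hg)
    rw [this, Subgroup.card_bot, mul_one]
  have hD1 : Nat.card D ≠ 1 := by omega
  obtain ⟨p, hp, hpd⟩ := Nat.exists_prime_and_dvd hD1
  have := Fact.mk hp
  obtain ⟨x, hx⟩ := exists_prime_orderOf_dvd_card' p hpd
  have hx1 : x ≠ 1 := by
    rintro rfl
    rw [orderOf_one] at hx
    exact hp.one_lt.ne hx
  have hpg : IsPGroup p D := by
    intro y
    by_cases hy : y = 1
    · exact ⟨0, by simp [hy]⟩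
    refine ⟨1, ?_⟩
    have hxa : (x : G) • a ≠ a := fun h => hx1 (Subtype.ext (hDa x x.2 h))
    have hya : (y : G) • a ≠ a := fun h => hy (Subtype.ext (hDa y y.2 h))
    have : (y : G) • a ∈ MulAction.orbit (MulAction.stabilizer G a) ((x : G) • a) := by
      rw [hfull _ hxa]; exact hya
    obtain ⟨h, hh⟩ := this
    have hh' : (h : G) • (x : G) • a = (y : G) • a := hh
    have hha : (h : G)⁻¹ • a = a := (h⁻¹).2
    have e : (y : G)⁻¹ * ((h : G) * x * (h : G)⁻¹) = 1 := by
      apply hDa _ (D.mul_mem (D.inv_mem y.2) (hDn.conj_mem _ x.2 _))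
      rw [mul_smul, mul_smul, mul_smul, hha, hh', inv_smul_smul]
    rw [inv_mul_eq_one] at e
    apply Subtype.ext
    have hxp : (x : G) ^ p = 1 := by
      rw [← hx, ← Subgroup.coe_pow, pow_orderOf_eq_one, Subgroup.coe_one]
    simp only [pow_one, SubmonoidClass.coe_pow, OneMemClass.coe_one]
    rw [e, conj_pow, hxp]; simp
  obtain ⟨k, hk⟩ := IsPGroup.iff_card.1 hpg
  rw [← hcard, hk]
  refine ⟨p, k, hp.prime, ?_, rfl⟩
  rcases Nat.eq_zero_or_pos k with rfl | h
  · simp at hk; exact absurd (by simpa using hk) hD1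
  · exact h

end Cfsg.Agent.S3548
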