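import Cfsg.Statements.S3560
import Cfsg.Agent.H60.Jordan

set_option autoImplicit false
open Cfsg

namespace Cfsg.Agent.S3560

open MulAction

/-- Automorphisms of the Hamming graph, in coordinates `c`. -/
def hammingAut {α ι β : Type*} (c : α ≃ (ι → β)) : Subgroup (Equiv.Perm α) where
  carrier := {σ | ∀ x y, (∃ i, ∀ j, j ≠ i → c (σ x) j = c (σ y) j) ↔
    ∃ i, ∀ j, j ≠ i → c x j = c y j}
  one_mem' := fun _ _ => Iff.rfl
  mul_mem' := fun {σ τ} hσ hτ x y => (hσ (τ x) (τ y)).trans (hτ x y)
  inv_mem' := fun {σ} hσ x y => by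
    have := hσ (σ⁻¹ x) (σ⁻¹ y)
    simp only [Equiv.Perm.coe_inv, Equiv.apply_symm_apply] at this
    exact this.symm

theorem exists_mem_hammingAut {α ι β : Type*} (c : α ≃ (ι → β)) (π : Equiv.Perm ι)
    (τ : ι → Equiv.Perm β) : ∃ σ : hammingAut c, ∀ x j, c (σ • x) j = τ j (c x (π j)) := by
  let ρ : Equiv.Perm (ι → β) := (Equiv.arrowCongr π.symm (Equiv.refl β)).trans (Equiv.piCongrRight τ)
  have hρ : ∀ x j, c ((c.symm.permCongr ρ) x) j = τ j (c x (π j)) := fun x j => by simp [ρ]
  refine ⟨⟨c.symm.permCongr ρ, fun x y => ?_⟩, hρ⟩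
  simp only [hρ, EmbeddingLike.apply_eq_iff_eq]
  constructor
  · rintro ⟨i, hi⟩
    refine ⟨π i, fun j hj => ?_⟩
    have := hi (π.symm j) (fun h => hj (by rw [← h, Equiv.apply_symm_apply]))
    rwa [Equiv.apply_symm_apply] at this
  · rintro ⟨i, hi⟩
    exact ⟨π.symm i, fun j hj => hi _ (fun h => hj (by rw [← h, Equiv.symm_apply_apply]))⟩

theorem hammingAut_isPreprimitive {α ι β : Type*} [Finite ι] [Finite β] (c : α ≃ (ι → β))
    (hβ : 3 ≤ Nat.card β) : IsPreprimitive (hammingAut c) α := by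
  classical
  have := Fintype.ofFinite β
  have h2 : ∀ a b a' b' : β, a ≠ b → a' ≠ b' → ∃ τ : Equiv.Perm β, τ a = a' ∧ τ b = b' :=
    fun a b a' b' h h' => H60.exists_smul_pair (Equiv.Perm.isMultiplyPretransitive β 2) h h'
  have htr : IsPretransitive (hammingAut c) α := ⟨fun x y => by
    obtain ⟨σ, hσ⟩ := exists_mem_hammingAut c 1 fun j => Equiv.swap (c x j) (c y j)
    exact ⟨σ, c.injective (funext fun j => by rw [hσ]; simp)⟩⟩
  refine ⟨fun {B} hB => ?_⟩
  rw [IsTrivialBlock, or_iff_not_imp_left, Set.not_subsingleton_iff]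
  rintro ⟨x, hx, y, hy, hxy⟩
  obtain ⟨i, hi⟩ : ∃ i, c x i ≠ c y i := by
    by_contra h
    push Not at h
    exact hxy (c.injective (funext h))
  obtain ⟨z, -, hz⟩ := Finset.exists_mem_notMem_of_card_lt_card (s := {c x i, c y i})
    (t := Finset.univ) (lt_of_le_of_lt Finset.card_le_two (by
      rw [Finset.card_univ, ← Nat.card_eq_fintype_card]; omega))
  simp only [Finset.mem_insert, Finset.mem_singleton, not_or] at hz
  obtain ⟨σ, hσ⟩ := exists_mem_hammingAut c 1 (Function.update 1 i (Equiv.swap (c y i) z))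
  have hσx : σ • x = x := c.injective (funext fun j => by
    rw [hσ]
    by_cases hj : j = i
    · subst hj
      simp [Equiv.swap_apply_of_ne_of_ne hi (Ne.symm hz.1)]
    · simp [hj])
  have hy' : σ • y ∈ B := H60.IsBlock.smul_mem_of_smul_mem hB hx (hσx.symm ▸ hx) hy
  have hadj : ∀ u ∈ B, ∀ (j : ι) (w : β), c.symm (Function.update (c u) j w) ∈ B := by
    intro u hu j w
    by_cases hw : c u j = w
    · rwa [← hw, Function.update_eq_self, Equiv.symm_apply_apply]
    obtain ⟨τ, h1, h3⟩ := h2 _ _ _ _ (Ne.symm hz.2) hw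
    obtain ⟨ρ, hρ⟩ := exists_mem_hammingAut c (Equiv.swap i j)
      (Function.update (fun k => Equiv.swap (c y (Equiv.swap i j k)) (c u k)) j τ)
    have h4 : ρ • y = u := c.injective (funext fun k => by
      rw [hρ]
      by_cases hk : k = j
      · subst hk
        simp [h1]
      · simp [hk])
    have h5 := H60.IsBlock.smul_mem_of_smul_mem hB hy (h4.symm ▸ hu) hy'
    convert h5 using 1
    refine c.injective (funext fun k => ?_)
    rw [hρ, hσ, Equiv.apply_symm_apply]
    by_cases hk : k = j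
    · subst hk
      simp [h3]
    · have : Equiv.swap i j k ≠ i := fun h => hk (by
        rw [Equiv.swap_apply_eq_iff, Equiv.swap_apply_left] at h; exact h)
      simp [hk, this]
  refine Set.eq_univ_of_forall fun v => ?_
  have key : ∀ s : Finset ι, c.symm (s.piecewise (c v) (c y)) ∈ B := by
    intro s
    induction s using Finset.induction_on with
    | empty => simpa using hy
    | insert j s _ ih =>
      have := hadj _ ih j (c v j)
      rwa [Equiv.apply_symm_apply, ← Finset.piecewise_insert] at this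
  have := Fintype.ofFinite ι
  simpa using key Finset.univ

/-- Let K be a finite group isomorphic to a direct product of r ≥ 2 groups all of the same order m ≥ 3. Then K is not a B-group: there is a primitive but not doubly transitive permutation group (on some finite set) containing a regular subgroup isomorphic to K. -/
theorem result {K : Type*} [Group K] [Finite K] {ι : Type*} [Fintype ι] (F : ι → Type*) [∀ i, Group (F i)]
    (hr : 2 ≤ Fintype.card ι) (m : ℕ) (hm : 3 ≤ m) (hcard : ∀ i, Nat.card (F i) = m) (e : K ≃* (∀ i, F i)) :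
    ∃ (n : ℕ) (G R : Subgroup (Equiv.Perm (Fin n))), R ≤ G ∧ Nonempty (↥R ≃* K) ∧
      MulAction.IsPretransitive ↥R (Fin n) ∧ (∀ a : Fin n, MulAction.stabilizer ↥R a = ⊥) ∧
      MulAction.IsPreprimitive ↥G (Fin n) ∧ ¬ MulAction.IsMultiplyPretransitive ↥G (Fin n) 2 := by
  classical
  have hfin : ∀ i, Finite (F i) := fun i => Nat.finite_of_card_ne_zero (by rw [hcard]; omega)
  let b : ∀ i, F i ≃ Fin m := fun i => Finite.equivFinOfCardEq (hcard i)
  let E : K ≃ Fin (Nat.card K) := Finite.equivFin K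
  let c : Fin (Nat.card K) ≃ (ι → Fin m) := E.symm.trans (e.toEquiv.trans (Equiv.piCongrRight b))
  have hc : ∀ x j, c x j = b j (e (E.symm x) j) := fun x j => rfl
  let ρ : K →* Equiv.Perm (Fin (Nat.card K)) := E.permCongrHom.toMonoidHom.comp (toPermHom K K)
  have hρ : ∀ k x, ρ k x = E (k * E.symm x) := fun k x => rfl
  have hinj : Function.Injective ρ := E.permCongrHom.injective.comp toPerm_injective
  refine ⟨Nat.card K, hammingAut c, ρ.range, ?_, ⟨(MonoidHom.ofInjective hinj).symm⟩, ⟨fun x y => ?_⟩,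
    fun a => ?_, hammingAut_isPreprimitive c (by simpa using hm), fun h2 => ?_⟩
  · rintro _ ⟨k, rfl⟩ x y
    simp only [hc, hρ, Equiv.symm_apply_apply, map_mul, Pi.mul_apply,
      EmbeddingLike.apply_eq_iff_eq, mul_right_inj]
  · refine ⟨⟨ρ (E.symm y * (E.symm x)⁻¹), _, rfl⟩, ?_⟩
    change ρ _ x = y
    rw [hρ, inv_mul_cancel_right, Equiv.apply_symm_apply]
  · rw [eq_bot_iff]
    rintro ⟨_, k, rfl⟩ hk
    have h1 : E (k * E.symm a) = a := hk
    rw [← Equiv.eq_symm_apply, mul_eq_right] at h1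
    subst h1
    exact Subtype.ext (map_one ρ)
  · obtain ⟨i, j, hij⟩ := Fintype.exists_pair_of_one_lt_card (α := ι) (by omega)
    let u : Fin m := ⟨0, by omega⟩
    let v : Fin m := ⟨1, by omega⟩
    have huv : u ≠ v := by simp [u, v]
    obtain ⟨σ, h3, h4⟩ := H60.exists_smul_pair h2 (a := c.symm fun _ => u)
      (b := c.symm (Function.update (fun _ => u) i v)) (c := c.symm fun _ => u)
      (d := c.symm fun _ => v)
      (fun h => huv (by simpa using congrFun (c.symm.injective h) i))
      (fun h => huv (congrFun (c.symm.injective h) i))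
    obtain ⟨k, hk⟩ := (σ.2 (c.symm fun _ => u) (c.symm (Function.update (fun _ => u) i v))).2
      ⟨i, fun k hk => by simp [hk]⟩
    change ∀ l, l ≠ k → c (σ • _) l = c (σ • _) l at hk
    rw [h3, h4] at hk
    simp only [Equiv.apply_symm_apply] at hk
    by_cases hki : k = i
    · exact huv (hk j (hki ▸ hij.symm))
    · exact huv (hk i (Ne.symm hki))

end Cfsg.Agent.S3560
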