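import Cfsg.Statements.S3572
import Cfsg.Agent.H59.SchurDih2

set_option autoImplicit false
open Cfsg

namespace Cfsg.Agent.S3572

open DihedralGroup in
/-- The dihedral group as an extension of its rotation group. -/
def dih (m : ℕ) : H59.Schur.Dih (Multiplicative (ZMod m)) (DihedralGroup m) where
  ι := { toFun := fun c => r c.toAdd, map_one' := rfl, map_mul' := fun _ _ => rfl }
  s := sr 0
  inj := fun c d h => Multiplicative.toAdd.injective (r.inj h)
  s_sq := by simp
  conj := fun c => by
    show sr 0 * r c.toAdd = r (c⁻¹).toAdd * sr 0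
    simp
  ne := fun c h => by simp at h
  cover := by
    rintro (i | i)
    · exact ⟨Multiplicative.ofAdd i, Or.inl rfl⟩
    · exact ⟨Multiplicative.ofAdd (-i), Or.inr (by
        show sr i = r (-i) * sr 0
        simp)⟩

/-- A finite primitive permutation group containing a dihedral subgroup that acts regularly (transitively with trivial point stabilizers) is doubly transitive. -/
theorem result {G Ω : Type*} [Group G] [Finite G] [MulAction G Ω] [FaithfulSMul G Ω] [Finite Ω]
    (hprim : MulAction.IsPreprimitive G Ω) (D : Subgroup G) (m : ℕ) (hD : Nonempty (↥D ≃* DihedralGroup m))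
    (hDreg : MulAction.IsPretransitive ↥D Ω ∧ ∀ a : Ω, MulAction.stabilizer ↥D a = ⊥) :
    MulAction.IsMultiplyPretransitive G Ω 2 := by
  obtain ⟨e⟩ := hD
  have := hDreg.1
  rcases isEmpty_or_nonempty Ω with hΩ | ⟨⟨ω⟩⟩
  · exact MulAction.is_two_pretransitive_iff.2 fun {a} => (hΩ.false a).elim
  have : Finite (DihedralGroup m) := Finite.of_equiv _ e.toEquiv
  exact H59.Schur.two_pretransitive_of_dih (dih m) _ ω
    (H59.Schur.bijective_of_regular D ω (hDreg.2 ω) e.symm)

end Cfsg.Agent.S3572
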