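import Cfsg.Statements.S3573
-- import your own Cfsg.Agent.* helpers here

set_option autoImplicit false
open Cfsg

namespace Cfsg.Agent.S3573

open Equiv Equiv.Perm Finset in
theorem exists_invariant_subset_support {α : Type*} [Fintype α] [DecidableEq α] (σ : Perm α)
    (hσ : (orderOf σ).Prime) (a : ℕ) (ha : a ≤ σ.cycleType.card) :
    ∃ s : Finset α, s ⊆ σ.support ∧ s.card = a * orderOf σ ∧ ∀ x ∈ s, σ x ∈ s := by
  have hc : σ.cycleFactorsFinset.card = σ.cycleType.card := by
    simp [cycleType]
  obtain ⟨T, hT, hTa⟩ := Finset.exists_subset_card_eq (s := σ.cycleFactorsFinset) (n := a) (by omega)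
  obtain ⟨k, hk⟩ := cycleType_prime_order hσ
  refine ⟨T.biUnion (fun c => c.support), ?_, ?_, ?_⟩
  · intro x hx
    obtain ⟨c, hc, hxc⟩ := Finset.mem_biUnion.1 hx
    exact mem_cycleFactorsFinset_support_le (hT hc) hxc
  · rw [Finset.card_biUnion, ← hTa, ← smul_eq_mul, ← Finset.sum_const]
    · refine Finset.sum_congr rfl (fun c hc => ?_)
      have : c.support.card ∈ σ.cycleType := by
        rw [cycleType_def]
        exact Multiset.mem_map_of_mem _ (hT hc)
      rw [hk] at this
      exact Multiset.eq_of_mem_replicate this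
    · intro c hc d hd hcd
      exact (σ.cycleFactorsFinset_pairwise_disjoint (hT hc) (hT hd) hcd).disjoint_support
  · intro x hx
    obtain ⟨c, hc, hxc⟩ := Finset.mem_biUnion.1 hx
    exact Finset.mem_biUnion.2 ⟨c, hc, (mem_cycleFactorsFinset_support (hT hc) x).2 hxc⟩

open Equiv Equiv.Perm Finset in
theorem main (n k : ℕ) (hkn : k ≤ n) (r : ℕ) (hr : r.Prime) (hrn : r ≤ n) :
    (∀ σ : Equiv.Perm (Fin n), orderOf σ = r → ∃ s : Finset (Fin n), s.card = k ∧ s.image σ = s) ↔
      k % r ≤ n % r := by
  have := Fact.mk hr
  constructor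
  · intro h
    have hsum : (Multiset.replicate (n / r) r).sum = n / r * r := by
      rw [Multiset.sum_replicate, smul_eq_mul]
    obtain ⟨g, hg⟩ := (Equiv.Perm.exists_with_cycleType_iff (Fin n) (m := Multiset.replicate (n / r) r)).2
      ⟨by rw [hsum, Fintype.card_fin]; exact Nat.div_mul_le_self n r,
        fun a ha => by rw [Multiset.eq_of_mem_replicate ha]; exact hr.two_le⟩
    have hpos : n / r ≠ 0 := (Nat.div_pos hrn hr.pos).ne'
    have hord : orderOf g = r := by
      rw [← Equiv.Perm.lcm_cycleType, hg]
      apply Nat.dvd_antisymm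
      · rw [Multiset.lcm_dvd]
        intro b hb
        rw [Multiset.eq_of_mem_replicate hb]
      · exact Multiset.dvd_lcm (Multiset.mem_replicate.2 ⟨hpos, rfl⟩)
    obtain ⟨s, hs, hsg⟩ := h g hord
    have hmem : ∀ x, g x ∈ s ↔ x ∈ s := by
      intro x
      conv_lhs => rw [← hsg]
      simp
    have h1 : (g.subtypePerm hmem) ^ r ^ 1 = 1 := by
      rw [pow_one, subtypePerm_pow]
      ext x
      simp [← hord]
    have h2 := card_compl_support_modEq h1
    have h3 : ((g.subtypePerm hmem).support)ᶜ.card ≤ (g.support)ᶜ.card := by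
      apply Finset.card_le_card_of_injOn Subtype.val
      · intro x hx
        simp only [coe_compl, Set.mem_compl_iff, mem_coe, mem_support, ne_eq, not_not] at hx ⊢
        exact congrArg Subtype.val hx
      · intro x _ y _ hxy
        exact Subtype.ext hxy
    have h4 := g.sum_cycleType
    rw [hg, hsum] at h4
    rw [Finset.card_compl (s := g.support), ← h4, Fintype.card_fin] at h3
    rw [Fintype.card_coe, hs] at h2
    have h5 := Nat.div_add_mod' n r
    have h6 := Nat.mod_lt n hr.pos
    rw [← h2, Nat.mod_eq_of_lt (by omega)]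
    omega
  · intro h σ hσ
    obtain ⟨c, hc⟩ := cycleType_prime_order (hσ ▸ hr : (orderOf σ).Prime)
    have h4 := σ.sum_cycleType
    rw [hc, Multiset.sum_replicate, smul_eq_mul, hσ] at h4
    have h5 : σ.support.card ≤ n := by simpa using Finset.card_le_univ σ.support
    obtain ⟨s, hs1, hs2, hs3⟩ := exists_invariant_subset_support σ (hσ ▸ hr) (min (c + 1) (k / r))
      (by rw [hc, Multiset.card_replicate]; exact min_le_left _ _)
    rw [hσ] at hs2
    have h6 := Nat.div_add_mod' k r
    have h7 : min (c + 1) (k / r) * r ≤ k :=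
      (Nat.mul_le_mul_right _ (min_le_right _ _)).trans (Nat.div_mul_le_self k r)
    have h8 : k - s.card ≤ (σ.support)ᶜ.card := by
      rw [Finset.card_compl, Fintype.card_fin, ← h4, hs2]
      rcases le_total (c + 1) (k / r) with h9 | h9
      · rw [min_eq_left h9]; omega
      · rw [min_eq_right h9]
        have h10 : (n - (c + 1) * r) % r = n % r := by
          conv_rhs => rw [show n = (n - (c + 1) * r) + (c + 1) * r by omega]
          rw [Nat.add_mul_mod_self_right]
        have := Nat.mod_le (n - (c + 1) * r) r
        omega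
    obtain ⟨t, ht1, ht2⟩ := Finset.exists_subset_card_eq h8
    refine ⟨s ∪ t, ?_, ?_⟩
    · rw [Finset.card_union_of_disjoint, ht2]
      · omega
      · exact Finset.disjoint_of_subset_left hs1 (Finset.disjoint_of_subset_right ht1 disjoint_compl_right)
    · apply Finset.eq_of_subset_of_card_le
      · intro y hy
        obtain ⟨x, hx, rfl⟩ := Finset.mem_image.1 hy
        rcases Finset.mem_union.1 hx with hx | hx
        · exact Finset.mem_union_left _ (hs3 x hx)
        · have := ht1 hx
          simp only [mem_compl, mem_support, ne_eq, not_not] at this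
          rw [this]
          exact Finset.mem_union_right _ hx
      · rw [Finset.card_image_of_injective _ σ.injective]


/-- Let 1 ≤ k with 2k < n and consider the symmetric group of degree n acting on the k-subsets of an n-set. Let r be a prime dividing the number C(n,k) of k-subsets. If r is odd, then every permutation of order r fixes some k-subset if and only if r ≤ k and the remainder of k modulo r is at most the remainder of n modulo r. If r = 2, then every involution fixes some k-subset if and only if k is even or n is odd. -/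
theorem result (n k : ℕ) (hk : 1 ≤ k) (hkn : 2 * k < n) (r : ℕ) (hr : r.Prime) (hrd : r ∣ Nat.choose n k) :
    (r ≠ 2 → ((∀ σ : Equiv.Perm (Fin n), orderOf σ = r → ∃ s : Finset (Fin n), s.card = k ∧ s.image σ = s) ↔
      (r ≤ k ∧ k % r ≤ n % r))) ∧
    (r = 2 → ((∀ σ : Equiv.Perm (Fin n), orderOf σ = 2 → ∃ s : Finset (Fin n), s.card = k ∧ s.image σ = s) ↔
      (Even k ∨ Odd n))) := by
  have := Fact.mk hr
  have hrn : r ≤ n := by
    have h1 : r ∣ n.factorial := by
      rw [← Nat.choose_mul_factorial_mul_factorial (show k ≤ n by omega), mul_assoc]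
      exact hrd.mul_right _
    exact (hr.dvd_factorial).1 h1
  have hmain := main n k (by omega) r hr hrn
  refine ⟨fun _ => ?_, fun h2 => ?_⟩
  · rw [hmain]
    refine ⟨fun h => ⟨?_, h⟩, fun h => h.2⟩
    by_contra hlt
    push Not at hlt
    have h1 := Choose.choose_modEq_choose_mod_mul_choose_div_nat (n := n) (k := k) (p := r)
    rw [Nat.div_eq_of_lt hlt, Nat.choose_zero_right, mul_one] at h1
    have h2 := (Nat.ModEq.dvd_iff h1 dvd_rfl).1 hrd
    have h3 : r ∣ (n % r).factorial := by
      rw [← Nat.choose_mul_factorial_mul_factorial h, mul_assoc]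
      exact h2.mul_right _
    have := (hr.dvd_factorial).1 h3
    have := Nat.mod_lt n hr.pos
    omega
  · subst h2
    rw [hmain, Nat.even_iff, Nat.odd_iff]
    omega

end Cfsg.Agent.S3573
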