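import Cfsg.Statements.S3593
import Cfsg.Agent.H13.M12Rec

set_option autoImplicit false
open Cfsg

namespace Cfsg.Agent.S3593

/-- Let M be the Mathieu group M₁₂ (order 95040). If a finite group G has the same order as M and the same set of values of the function 'number of elements of order n' (taken over the element orders n that occur), then G is isomorphic to M. -/
theorem result {G : Type*} [Group G] [Finite G]
    (hcard : Nat.card G = Nat.card ↥Cfsg.Spor.M12)
    (hnse : {c : ℕ | 0 < c ∧ ∃ n : ℕ, c = Nat.card {g : G // orderOf g = n}} =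
      {c : ℕ | 0 < c ∧ ∃ n : ℕ, c = Nat.card {g : ↥Cfsg.Spor.M12 // orderOf g = n}}) :
    Nonempty (G ≃* ↥Cfsg.Spor.M12) := by
  have := H13.M11.fact11
  have := Fintype.ofFinite G
  have := H74.simple_M12
  have := Fintype.ofFinite Spor.M12
  rw [H74.card_M12] at hcard
  obtain ⟨P⟩ : Nonempty (Sylow 11 G) := inferInstance
  obtain ⟨P0⟩ : Nonempty (Sylow 11 Spor.M12) := inferInstance
  obtain ⟨h1, h2, -⟩ := H13.M12.data11 H74.card_M12 P0
  have h := H13.Crit.card_sylow_eq_of_nse (by norm_num) h1 P (H13.M12.card11 hcard P) hnse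
  have h3 := H58.card_normalizer_mul_card_sylow P
  rw [h, h2, hcard] at h3
  refine H13.isoM12_of_isM12 ⟨H13.Crit.isSimpleGroup_of_card_normalizer P (H13.M12.card11 hcard P)
    (e := 5) (by norm_num) ?_ (hcard ▸ H13.M12.noFpf11) Nat.prime_two (by rw [hcard]; norm_num)
    (by norm_num), hcard⟩
  change Nat.card (Subgroup.normalizer (P : Set G)) = 55
  omega

end Cfsg.Agent.S3593
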