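import Cfsg.Statements.S3599
import Cfsg.Agent.H57.Frob

set_option autoImplicit false
open Cfsg

namespace Cfsg.Agent.S3599

open Cfsg.Agent.H57

/-- `G` has a normal subgroup of exponent `r` modulo which all orders are prime to `r`. -/
def R (G : Type*) [Group G] (r : ℕ) : Prop :=
  ∃ (W : Subgroup G) (m : ℕ), W.Normal ∧ (∀ w ∈ W, w ^ r = 1) ∧ m.Coprime r ∧ ∀ x : G, x ^ m ∈ W

theorem R.sub {G : Type*} [Group G] {r : ℕ} (h : R G r) (H : Subgroup G) : R H r := by
  obtain ⟨W, m, hW, h1, h2, h3⟩ := h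
  exact ⟨W.subgroupOf H, m, hW.subgroupOf H, fun w hw => Subtype.ext (h1 w hw), h2,
    fun x => h3 x⟩

theorem R.surj {G K : Type*} [Group G] [Group K] {r : ℕ} (h : R G r) (f : G →* K)
    (hf : Function.Surjective f) : R K r := by
  obtain ⟨W, m, hW, h1, h2, h3⟩ := h
  refine ⟨W.map f, m, hW.map f hf, ?_, h2, ?_⟩
  · rintro _ ⟨w, hw, rfl⟩
    rw [← map_pow, h1 w hw, map_one]
  · intro x
    obtain ⟨y, rfl⟩ := hf x
    exact ⟨y ^ m, h3 y, map_pow f y m⟩

theorem mem_of_pow_mem {G : Type*} [Group G] {W : Subgroup G} {x : G} {m : ℕ}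
    (hm : m.Coprime (orderOf x)) (h : x ^ m ∈ W) : x ∈ W := by
  obtain ⟨k, hk⟩ := exists_pow_eq_self_of_coprime hm
  rw [← hk]
  exact W.pow_mem h k

theorem R.mul_mem {G : Type*} [Group G] {r s : ℕ} (hr : R G r) (hs : R G s) (hrs : r.Coprime s)
    (h1 : r ∈ spec G) (h2 : s ∈ spec G) : r * s ∈ spec G := by
  obtain ⟨W, m, hW, a1, a2, a3⟩ := hr
  obtain ⟨W', m', hW', b1, b2, b3⟩ := hs
  obtain ⟨x, rfl⟩ := h1
  obtain ⟨y, rfl⟩ := h2
  have hx : x ∈ W := mem_of_pow_mem a2 (a3 x)
  have hy : y ∈ W' := mem_of_pow_mem b2 (b3 y)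
  have hd : Disjoint W W' := by
    rw [Subgroup.disjoint_def]
    intro z hz hz'
    rw [← orderOf_eq_one_iff]
    exact Nat.eq_one_of_dvd_coprimes hrs (orderOf_dvd_of_pow_eq_one (a1 z hz))
      (orderOf_dvd_of_pow_eq_one (b1 z hz'))
  exact ⟨x * y, (Subgroup.commute_of_normal_of_disjoint W W' hW hW' hd x y hx hy).orderOf_mul_eq_mul_orderOf_of_coprime hrs⟩

theorem exists_critical (Ω : Set ℕ) (P : Set ℕ) (G : Type) [Group G] [Finite G] (hG : spec G = Ω)
    (hP : ∀ r ∈ P, R G r) :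
    ∃ (K : Type) (_ : Group K) (_ : Fintype K), spec K = Ω ∧ (∀ r ∈ P, R K r) ∧
      ∀ (H : Subgroup K) (N : Subgroup H) [N.Normal], (H ≠ ⊤ ∨ N ≠ ⊥) → spec (H ⧸ N) ≠ Ω := by
  classical
  have hex : ∃ n, ∃ (K : Type) (_ : Group K) (_ : Finite K), spec K = Ω ∧ (∀ r ∈ P, R K r) ∧
      Nat.card K = n := ⟨_, G, inferInstance, inferInstance, hG, hP, rfl⟩
  obtain ⟨K, _, _, h1, h2, h3⟩ := Nat.find_spec hex
  refine ⟨K, inferInstance, Fintype.ofFinite K, h1, h2, ?_⟩
  intro H N _ hHN hs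
  have := Nat.find_min' hex ⟨H ⧸ N, inferInstance, inferInstance, hs,
    fun r hr => ((h2 r hr).sub H).surj (QuotientGroup.mk' N) (QuotientGroup.mk'_surjective N), rfl⟩
  rw [← h3] at this
  have e1 := Subgroup.card_eq_card_quotient_mul_card_subgroup N
  have e2 : Nat.card H ≤ Nat.card K := Subgroup.card_le_card_group H
  have e3 : 0 < Nat.card N := Nat.card_pos
  have e4 : 0 < Nat.card (H ⧸ N) := Nat.card_pos
  rcases hHN with h | h
  · apply h
    apply Subgroup.eq_top_of_le_card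
    nlinarith
  · apply h
    rw [← Subgroup.card_le_one_iff_eq_bot]
    nlinarith

theorem orderOf_pi {ι : Type*} [Fintype ι] {X : ι → Type*} [∀ i, Group (X i)] (f : ∀ i, X i)
    (h : Pairwise fun i j => (orderOf (f i)).Coprime (orderOf (f j))) :
    orderOf f = ∏ i, orderOf (f i) := by
  apply Nat.dvd_antisymm
  · apply orderOf_dvd_of_pow_eq_one
    funext i
    rw [Pi.pow_apply, Pi.one_apply, ← orderOf_dvd_iff_pow_eq_one]
    exact Finset.dvd_prod_of_mem _ (Finset.mem_univ i)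
  · apply Fintype.prod_dvd_of_isRelPrime
    · intro i j hij
      exact Nat.coprime_iff_isRelPrime.1 (h hij)
    · intro i
      exact orderOf_map_dvd (Pi.evalMonoidHom X i) f

/-- A finite group is critical with respect to a set Ω of natural numbers when its set of element orders is Ω while no proper section H/N (H a subgroup, N normal in H, (H, N) ≠ (whole group, 1)) has Ω as its set of element orders. Let s ≥ 1 and let p(j,0), p(j,1) (j < s) be 2s pairwise distinct primes, and let Ω be the set of all products c(0)·…·c(s−1) with each c(j) ∈ {1, p(j,0), p(j,1)}. Then there are 2^s pairwise non-isomorphic finite groups critical with respect to Ω. -/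
theorem result (s : ℕ) (hs : 1 ≤ s) (p : Fin s → Fin 2 → ℕ)
    (hp : ∀ j i, (p j i).Prime) (hinj : ∀ j i j' i', p j i = p j' i' → j = j' ∧ i = i') :
    ∃ (G : Fin (2 ^ s) → Type) (_ : ∀ a, Group (G a)) (_ : ∀ a, Fintype (G a)),
      (∀ a b, a ≠ b → ¬ Nonempty (G a ≃* G b)) ∧
      ∀ a, Set.range (orderOf : (G a) → ℕ) = {m : ℕ | ∃ c : Fin s → ℕ, (∀ j, c j = 1 ∨ c j = p j 0 ∨ c j = p j 1) ∧ m = ∏ j, c j} ∧
      ∀ (H : Subgroup (G a)) (N : Subgroup ↥H) [N.Normal], (H ≠ ⊤ ∨ N ≠ ⊥) → Set.range (orderOf : (↥H ⧸ N) → ℕ) ≠ {m : ℕ | ∃ c : Fin s → ℕ, (∀ j, c j = 1 ∨ c j = p j 0 ∨ c j = p j 1) ∧ m = ∏ j, c j} := by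
  classical
  set Ω : Set ℕ := {m : ℕ | ∃ c : Fin s → ℕ, (∀ j, c j = 1 ∨ c j = p j 0 ∨ c j = p j 1) ∧ m = ∏ j, c j}
    with hΩ
  have hcop : ∀ j i j' i', (j ≠ j' ∨ i ≠ i') → (p j i).Coprime (p j' i') := by
    intro j i j' i' h
    rw [Nat.coprime_primes (hp _ _) (hp _ _)]
    intro h'
    have := hinj _ _ _ _ h'
    tauto
  have hrev : ∀ i : Fin 2, i.rev ≠ i := by decide
  have main : ∀ φ : Fin s → Fin 2, ∃ (K : Type) (_ : Group K) (_ : Fintype K), spec K = Ω ∧
      (∀ r ∈ Set.range (fun j => p j (φ j)), R K r) ∧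
      ∀ (H : Subgroup K) (N : Subgroup H) [N.Normal], (H ≠ ⊤ ∨ N ≠ ⊥) → spec (H ⧸ N) ≠ Ω := by
    intro φ
    have hX := fun j => exists_frobenius_cyclic (hp j (φ j)) (hp j (φ j).rev).pos
      (hcop j _ j _ (Or.inr (hrev _)))
    choose X iX fX _ hsX V hVn _ hV1 hV2 using hX
    have hsX' : ∀ j n, n ∈ spec (X j) ↔ n = 1 ∨ n = p j 0 ∨ n = p j 1 := by
      intro j n
      rw [hsX j]
      simp only [Set.mem_setOf_eq, Nat.dvd_prime (hp _ _)]
      generalize φ j = i
      fin_cases i <;> simp <;> tauto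
    have hpair : ∀ c : Fin s → ℕ, (∀ j, c j = 1 ∨ c j = p j 0 ∨ c j = p j 1) →
        Pairwise fun i j => (c i).Coprime (c j) := by
      intro c hc i j hij
      rcases hc i with h | h | h <;> rcases hc j with h' | h' | h' <;> rw [h, h'] <;>
        first | exact hcop _ _ _ _ (Or.inl hij) | simp
    apply exists_critical Ω _ (∀ j, X j)
    · ext n
      constructor
      · rintro ⟨f, rfl⟩
        have hc : ∀ j, orderOf (f j) = 1 ∨ orderOf (f j) = p j 0 ∨ orderOf (f j) = p j 1 :=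
          fun j => (hsX' j _).1 ⟨f j, rfl⟩
        exact ⟨_, hc, orderOf_pi f (hpair _ hc)⟩
      · rintro ⟨c, hc, rfl⟩
        have : ∀ j, ∃ x : X j, orderOf x = c j := fun j => (hsX' j _).2 (hc j)
        choose f hf using this
        refine ⟨f, ?_⟩
        rw [orderOf_pi f (by simp only [hf]; exact hpair c hc)]
        simp only [hf]
    · rintro _ ⟨j, rfl⟩
      refine ⟨Subgroup.pi Set.univ (fun i => if i = j then V i else ⊥),
        p j (φ j).rev * ∏ i ∈ Finset.univ.erase j, (p i 0 * p i 1), ⟨?_⟩, ?_, ?_, ?_⟩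
      · intro n hn g
        rw [Subgroup.mem_pi] at hn ⊢
        intro i hi
        have := hn i hi
        by_cases h : i = j
        · simp only [if_pos h] at this ⊢
          exact (hVn i).conj_mem _ this _
        · simp only [if_neg h, Subgroup.mem_bot] at this ⊢
          simp [this]
      · intro w hw
        funext i
        have := (Subgroup.mem_pi _).1 hw i (Set.mem_univ i)
        by_cases h : i = j
        · subst h
          simp only [if_true] at this
          exact hV1 i _ this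
        · simp only [if_neg h, Subgroup.mem_bot] at this
          simp [this]
      · apply Nat.Coprime.mul_left (hcop j _ j _ (Or.inr (hrev _)))
        apply Nat.Coprime.prod_left
        intro i hi
        have hij := Finset.ne_of_mem_erase hi
        exact Nat.Coprime.mul_left (hcop _ _ _ _ (Or.inl hij)) (hcop _ _ _ _ (Or.inl hij))
      · intro x
        rw [Subgroup.mem_pi]
        intro i _
        by_cases h : i = j
        · subst h
          simp only [if_true, Pi.pow_apply]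
          rw [pow_mul]
          exact (V i).pow_mem (hV2 i _) _
        · simp only [if_neg h, Subgroup.mem_bot, Pi.pow_apply]
          rw [← orderOf_dvd_iff_pow_eq_one]
          apply Dvd.dvd.mul_left
          refine Dvd.dvd.trans ?_ (Finset.dvd_prod_of_mem _ (Finset.mem_erase.2 ⟨h, Finset.mem_univ i⟩))
          rcases (hsX' i _).1 ⟨x i, rfl⟩ with h | h | h <;> rw [h] <;> simp
  choose K iK fK h1 h2 h3 using main
  let e : (Fin s → Fin 2) ≃ Fin (2 ^ s) := finFunctionFinEquiv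
  refine ⟨fun a => K (e.symm a), fun a => iK _, fun a => fK _, ?_, fun a => ⟨h1 _, h3 _⟩⟩
  rintro a b hab ⟨f⟩
  have hne : e.symm a ≠ e.symm b := fun h => hab (e.symm.injective h)
  obtain ⟨j, hj⟩ := Function.ne_iff.1 hne
  have hmem : ∀ i, p j i ∈ Ω := by
    intro i
    refine ⟨fun k => if k = j then p j i else 1, ?_, by simp⟩
    intro k
    by_cases h : k = j
    · subst h
      fin_cases i <;> simp
    · simp [h]
  have r1 := (h2 (e.symm a) _ ⟨j, rfl⟩).surj f.toMonoidHom f.surjective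
  have r2 := h2 (e.symm b) _ ⟨j, rfl⟩
  have := r1.mul_mem r2 (hcop _ _ _ _ (Or.inr hj)) (by rw [h1]; exact hmem _)
    (by rw [h1]; exact hmem _)
  rw [h1] at this
  obtain ⟨c, hc, hc'⟩ := this
  have key : ∀ i, p j i ∣ ∏ k, c k → c j = p j i := by
    intro i hi
    obtain ⟨k, -, hk⟩ := (Prime.dvd_finset_prod_iff (hp j i).prime _).1 hi
    rcases hc k with h | h | h
    · rw [h] at hk; exact absurd (Nat.dvd_one.1 hk) (hp j i).ne_one
    · rw [h] at hk
      have := (Nat.prime_dvd_prime_iff_eq (hp _ _) (hp _ _)).1 hk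
      obtain ⟨rfl, -⟩ := hinj _ _ _ _ this
      rw [h, this]
    · rw [h] at hk
      have := (Nat.prime_dvd_prime_iff_eq (hp _ _) (hp _ _)).1 hk
      obtain ⟨rfl, -⟩ := hinj _ _ _ _ this
      rw [h, this]
  have k1 := key (e.symm a j) (hc' ▸ Dvd.intro _ rfl)
  have k2 := key (e.symm b j) (hc' ▸ Dvd.intro_left _ rfl)
  exact hj (hinj _ _ _ _ (k1.symm.trans k2)).2

end Cfsg.Agent.S3599
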