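import Cfsg.Statements.S3619
import Cfsg.Agent.H60.Marggraff

set_option autoImplicit false
open Cfsg

namespace Cfsg.Agent.S3619

/-- Let G act faithfully on a finite set in such a way that every non-trivial normal subgroup of G is transitive (G is quasiprimitive). Let Γ be a subset with more than one point and not the whole set, such that the pointwise stabilizer of the complement of Γ acts transitively on Γ (a Jordan set). If that pointwise stabilizer acts primitively on Γ, then G is k-fold transitive where k is one more than the number of points outside Γ (the Jordan set is a trivial one). -/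
theorem result {G Ω : Type*} [Group G] [Finite G] [MulAction G Ω] [FaithfulSMul G Ω] [Finite Ω]
    (hqp : ∀ N : Subgroup G, N.Normal → N ≠ ⊥ → MulAction.IsPretransitive ↥N Ω)
    (Γ : Set Ω) (hΓ1 : 1 < Γ.ncard) (hΓ2 : Γ.ncard < Nat.card Ω)
    (hJ : MulAction.IsPretransitive ↥(fixingSubgroup G Γᶜ) ↥(SubMulAction.ofFixingSubgroup G Γᶜ))
    (hJp : MulAction.IsPreprimitive ↥(fixingSubgroup G Γᶜ) ↥(SubMulAction.ofFixingSubgroup G Γᶜ)) :
    MulAction.IsMultiplyPretransitive G Ω (Nat.card Ω - Γ.ncard + 1) := by
  have h := H60.isJordan_iff.2 hJ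
  have htr := h.isPretransitive_of_qp hqp hΓ1
  have hc := Set.ncard_add_ncard_compl Γ
  have hG : MulAction.IsPreprimitive G Ω := by
    refine ⟨fun {B} hB => ?_⟩
    by_contra hnt
    rw [MulAction.IsTrivialBlock, not_or, Set.not_subsingleton_iff] at hnt
    obtain ⟨hBn, hBu⟩ := hnt
    obtain ⟨b, hb⟩ := hBn.nonempty
    obtain ⟨c, hc⟩ := (Set.ncard_pos (s := Γ)).1 (by omega)
    obtain ⟨k, rfl⟩ := htr.exists_smul_eq b c
    have h1 := h.block_subset hqp hΓ1 hB hBn.nonempty hBu hc (Set.smul_mem_smul_set hb)
    rcases H60.subsingleton_or_compl_of_isPreprimitive_fixing hJp (B := (k • ·) '' B)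
      (fun x hx => not_not.2 (h1 hx))
      (fun g _ a ha hga y hy => H60.IsBlock.smul_mem_of_smul_mem (hB.translate k) ha hga hy)
      with h2 | h2
    · exact (hBn.image (MulAction.injective k)).not_subsingleton h2
    · exact h.not_subset_block hqp hΓ1 hB hBn.nonempty hBu k fun x hx => h2 x (not_not.2 hx)
  have h1 := hG.isMultiplyPreprimitive (s := Γᶜ) (n := Γᶜ.ncard - 1) (by omega) (by omega) hJp
  rw [show Nat.card Ω - Γ.ncard + 1 = Γᶜ.ncard - 1 + 2 by omega]
  exact h1.isMultiplyPretransitive

end Cfsg.Agent.S3619
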