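import Cfsg.Statements.S3621
import Cfsg.Agent.H53.TCAsm
import Cfsg.Agent.H98.TcRed
import Cfsg.Agent.H87.TCImp
import Cfsg.Agent.H65.TcAdd
import Cfsg.Agent.H14.TCCen
import Cfsg.Agent.H3.TcLin
import Cfsg.Agent.H64.TcLoc
import Cfsg.Agent.H91.TcN2
import Cfsg.Agent.H83.TcAtt
import Cfsg.Agent.H75.TcNo
import Cfsg.Agent.H5.TcCsc
import Cfsg.Agent.H57.TcEN
import Cfsg.Agent.H90.TcEncI
import Cfsg.Agent.H37.TcE3
import Cfsg.Agent.H47.TcE2

set_option autoImplicit false
open Cfsg

namespace Cfsg.Agent.S3621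

/-- Let G be a solvable group of permutations of a finite set. Then every group H of permutations of the set with the property that for each h in H and each three points a, b, c there is an element of G agreeing with h at a, b and c (that is, every subgroup of the 3-closure of G) is solvable. -/
theorem result {Ω : Type*} [Finite Ω] (G : Subgroup (Equiv.Perm Ω)) (hG : Group.IsSolvable ↥G)
    (H : Subgroup (Equiv.Perm Ω))
    (hH : ∀ h ∈ H, ∀ a b c : Ω, ∃ g ∈ G, g a = h a ∧ g b = h b ∧ g c = h c) :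
    Group.IsSolvable ↥H := by
  exact H98.TC.final (H98.TC.red (H53.TC.irrStep H98.TC.ac H87.TCI.imp
    (H65.TcAdd.add H65.TcAdd.hua)
    (H3.TcLin.lin (H64.TcLoc.loc (H75.TC.normOdd H5.TC.csc) (H91.TcN2.normTwo H5.TC.csc)
      H57.TcN.encN H90.TcE.encI H37.TcE.enc3 H83.TcA.att H47.TcE2.enc2 H14.TC.idx H14.TC.cen))))
    G hG H hH

end Cfsg.Agent.S3621
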