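import Cfsg.Statements.S3626
import Cfsg.Agent.H39.ReeInst
import Cfsg.Agent.H39.ReeCube

set_option autoImplicit false
open Cfsg

namespace Cfsg.Agent.S3626

/-- Let R be the small Ree group over the field with q = 3^(2m+1) ≥ 27 elements. Then there are finite groups of arbitrarily large order with exactly the same set of element orders as R × R × R. -/
theorem result {K : Type*} [Field K] [Fintype K] {m : ℕ} (hm : 1 ≤ m) (hK : Fintype.card K = 3 ^ (2 * m + 1)) (N : ℕ) :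
    ∃ (H : Type) (_ : Group H) (_ : Fintype H), N < Fintype.card H ∧
      Set.range (orderOf : H → ℕ) = Set.range (orderOf : ↥(Cfsg.Lie.twistedG2 K (3 ^ m)) × ↥(Cfsg.Lie.twistedG2 K (3 ^ m)) × ↥(Cfsg.Lie.twistedG2 K (3 ^ m)) → ℕ) := by
  obtain ⟨S, -⟩ := H39.exists_ree hK
  have := H39.reeField_of_card hm hK
  have := S.finite
  have hF : Nat.card K = 3 ^ (2 * m + 1) := by rw [Nat.card_eq_fintype_card, hK]
  have : Finite (S.Ext (N + 1)) := Finite.of_equiv _ SemidirectProduct.equivProd.symm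
  rw [← S.range_orderOf hF N]
  have h := S.lt_card_ext (N + 1)
  have h1 : N < Nat.card (↥(Cfsg.Lie.twistedG2 K (3 ^ m)) × ↥(Cfsg.Lie.twistedG2 K (3 ^ m)) ×
      S.Ext (N + 1)) := by
    rw [Nat.card_prod, Nat.card_prod, ← mul_assoc]
    exact lt_of_lt_of_le (by omega) (Nat.le_mul_of_pos_left _ (Nat.mul_pos Nat.card_pos Nat.card_pos))
  set Γ := ↥(Cfsg.Lie.twistedG2 K (3 ^ m)) × ↥(Cfsg.Lie.twistedG2 K (3 ^ m)) × S.Ext (N + 1)
  have := Fintype.ofFinite (Shrink.{0} Γ)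
  refine ⟨Shrink.{0} Γ, inferInstance, this, ?_, ?_⟩
  · rwa [← Nat.card_eq_fintype_card, ← Nat.card_congr (equivShrink.{0} Γ)]
  · ext d
    constructor
    · rintro ⟨x, rfl⟩
      exact ⟨Shrink.mulEquiv x, MulEquiv.orderOf_eq _ _⟩
    · rintro ⟨x, rfl⟩
      exact ⟨Shrink.mulEquiv.symm x, MulEquiv.orderOf_eq _ _⟩

end Cfsg.Agent.S3626
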