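import Cfsg.Statements.S3627
import Cfsg.Agent.H57.Frob
import Cfsg.Agent.H57.SpecPerm
import Cfsg.Agent.H46.J1

set_option autoImplicit false
open Cfsg

namespace Cfsg.Agent.S3627

open Cfsg.Agent.H57

/-- all least common multiples of two lists. -/
def lcms (a b : List ℕ) : List ℕ := (a.flatMap fun x => b.map fun y => Nat.lcm x y).dedup

theorem spec_prod_lcms {G H : Type*} [Group G] [Group H] {l₁ l₂ : List ℕ}
    (h₁ : spec G = {k | k ∈ l₁}) (h₂ : spec H = {k | k ∈ l₂}) :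
    spec (G × H) = {k | k ∈ lcms l₁ l₂} := by
  refine spec_prod_list h₁ h₂ _ (fun a ha b hb => ?_) (fun k hk => ?_)
  · simp only [lcms, List.mem_dedup, List.mem_flatMap, List.mem_map]
    exact ⟨a, ha, b, hb, rfl⟩
  · simp only [lcms, List.mem_dedup, List.mem_flatMap, List.mem_map] at hk
    obtain ⟨a, ha, b, hb, rfl⟩ := hk
    exact ⟨a, ha, b, hb, rfl⟩

theorem exists_frob {r : ℕ} (hr : r.Prime) (h2 : r ≠ 2) :
    ∃ (X : Type) (_ : Group X) (_ : Finite X), Group.IsSolvable X ∧ spec X = {k | k ∈ [1, 2, r]} := by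
  obtain ⟨X, _, _, hX, h, -⟩ := exists_frobenius_cyclic Nat.prime_two hr.pos
    ((Nat.coprime_primes hr Nat.prime_two).2 h2)
  refine ⟨X, inferInstance, inferInstance, hX, ?_⟩
  rw [h]
  ext k
  simp only [Set.mem_setOf_eq, Nat.dvd_prime hr, Nat.dvd_prime Nat.prime_two, List.mem_cons,
    List.not_mem_nil, or_false]
  tauto

/-- Let J be the first Janko group. Then there are finite groups of arbitrarily large order with exactly the same set of element orders as J × J × J × J. -/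
theorem result (N : ℕ) : ∃ (H : Type) (_ : Group H) (_ : Fintype H), N < Fintype.card H ∧
      Set.range (orderOf : H → ℕ) = Set.range (orderOf : ↥Cfsg.Spor.J1 × ↥Cfsg.Spor.J1 × ↥Cfsg.Spor.J1 × ↥Cfsg.Spor.J1 → ℕ) := by
  have hJ : spec ↥Cfsg.Spor.J1 = {k | k ∈ [1, 2, 3, 5, 6, 7, 10, 11, 15, 19]} := by
    refine Cfsg.Agent.H46.J1.spectrum.trans ?_
    ext k; simp
  have h4 := spec_prod_lcms hJ (spec_prod_lcms hJ (spec_prod_lcms hJ hJ))
  obtain ⟨X₁, _, _, s₁, e₁⟩ := exists_frob (r := 3) (by norm_num) (by norm_num)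
  obtain ⟨X₂, _, _, s₂, e₂⟩ := exists_frob (r := 5) (by norm_num) (by norm_num)
  obtain ⟨X₃, _, _, s₃, e₃⟩ := exists_frob (r := 7) (by norm_num) (by norm_num)
  obtain ⟨X₄, _, _, s₄, e₄⟩ := exists_frob (r := 11) (by norm_num) (by norm_num)
  obtain ⟨X₅, _, _, s₅, e₅⟩ := exists_frob (r := 19) (by norm_num) (by norm_num)
  have h5 := spec_prod_lcms e₁ (spec_prod_lcms e₂ (spec_prod_lcms e₃ (spec_prod_lcms e₄ e₅)))
  have hs : Group.IsSolvable (X₁ × X₂ × X₃ × X₄ × X₅) := inferInstance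
  have hne : (⊤ : Subgroup (X₁ × X₂ × X₃ × X₄ × X₅)) ≠ ⊥ := by
    obtain ⟨g, hg⟩ : 2 ∈ spec (X₁ × X₂ × X₃ × X₄ × X₅) := by
      rw [h5]; change _ ∈ lcms _ _; decide +kernel
    intro h
    have : g = 1 := Subgroup.mem_bot.1 (h ▸ Subgroup.mem_top g)
    rw [this, orderOf_one] at hg
    norm_num at hg
  obtain ⟨H, iH, fH, h1, h2⟩ := exists_large_isospectral_of_solvable ⊤ hne inferInstance N
  refine ⟨H, iH, fH, h1, h2.trans (h5.trans (Eq.trans ?_ h4.symm))⟩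
  ext k
  exact ⟨fun h => (by decide +kernel : ∀ k ∈ lcms [1, 2, 3] (lcms [1, 2, 5] (lcms [1, 2, 7]
      (lcms [1, 2, 11] [1, 2, 19]))), k ∈ lcms [1, 2, 3, 5, 6, 7, 10, 11, 15, 19]
      (lcms [1, 2, 3, 5, 6, 7, 10, 11, 15, 19] (lcms [1, 2, 3, 5, 6, 7, 10, 11, 15, 19]
      [1, 2, 3, 5, 6, 7, 10, 11, 15, 19]))) k h,
    fun h => (by decide +kernel : ∀ k ∈ lcms [1, 2, 3, 5, 6, 7, 10, 11, 15, 19]
      (lcms [1, 2, 3, 5, 6, 7, 10, 11, 15, 19] (lcms [1, 2, 3, 5, 6, 7, 10, 11, 15, 19]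
      [1, 2, 3, 5, 6, 7, 10, 11, 15, 19])), k ∈ lcms [1, 2, 3] (lcms [1, 2, 5] (lcms [1, 2, 7]
      (lcms [1, 2, 11] [1, 2, 19])))) k h⟩

end Cfsg.Agent.S3627
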