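import Cfsg.Statements.S3639
import Cfsg.Agent.H39.SzPart

set_option autoImplicit false
open Cfsg

namespace Cfsg.Agent.S3639

open Matrix in
/-- The action on `n` copies of the natural module. -/
def act {G : Type*} [Group G] {F : Type*} [Field F] (S : H39.Model G F) (n : ℕ) :
    G →* MulAut (Multiplicative (Fin n → Fin 4 → F)) where
  toFun g := AddEquiv.toMultiplicative
    { toFun := fun v i => S.mat g *ᵥ v i
      invFun := fun v i => S.mat g⁻¹ *ᵥ v i
      left_inv := fun v => by
        ext1 i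
        simp [Matrix.mulVec_mulVec, ← map_mul]
      right_inv := fun v => by
        ext1 i
        simp [Matrix.mulVec_mulVec, ← map_mul]
      map_add' := fun v w => by
        ext1 i
        simp [Matrix.mulVec_add] }
  map_one' := by
    ext v i j
    simp [AddEquiv.toMultiplicative]
  map_mul' g h := by
    ext v i j
    simp [AddEquiv.toMultiplicative]

theorem aux {G : Type*} [Group G] {F : Type*} [Field F] [H39.SzField F] (S : H39.Model G F)
    (n : ℕ) (r s : ℕ) (hr : r.Prime) (hs : s.Prime) (hrs : r ≠ s)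
    (y : Multiplicative (Fin n → Fin 4 → F) ⋊[act S n] G) (hy : orderOf y = r * s) :
    ∃ x : G, orderOf x = r * s := by
  have := S.charP
  have hsq : ∀ v : Multiplicative (Fin n → Fin 4 → F), v ^ 2 = 1 := by
    intro v
    ext i j
    simp
    exact Or.inl S.two_eq_zero
  have h1 : orderOf y.right ∣ r * s := hy ▸ orderOf_map_dvd SemidirectProduct.rightHom y
  have h2 : y ^ orderOf y.right ∈ (SemidirectProduct.rightHom (φ := act S n)).ker := by
    rw [MonoidHom.mem_ker, map_pow]
    exact pow_orderOf_eq_one _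
  rw [← SemidirectProduct.range_inl_eq_ker_rightHom] at h2
  obtain ⟨v, hv⟩ := h2
  by_cases hv1 : v = 1
  · refine ⟨y.right, Nat.dvd_antisymm h1 ?_⟩
    rw [← hy]
    apply orderOf_dvd_of_pow_eq_one
    rw [← hv, hv1, map_one]
  exfalso
  have h3 : r * s ∣ orderOf y.right * 2 := by
    rw [← hy]
    apply orderOf_dvd_of_pow_eq_one
    rw [pow_mul, ← hv, ← map_pow, hsq, map_one]
  have h4 : ¬ r * s ∣ orderOf y.right := by
    intro e
    apply hv1
    apply SemidirectProduct.inl_injective (φ := act S n)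
    rw [hv, map_one, ← orderOf_dvd_iff_pow_eq_one, hy]
    exact e
  have h5 : orderOf y.right ≠ 1 ∧ Odd (orderOf y.right) := by
    obtain ⟨c, hc⟩ := h1
    have hpos : 0 < orderOf y.right := Nat.pos_of_ne_zero fun e => by
      rw [e, zero_mul] at hc
      exact (mul_ne_zero hr.ne_zero hs.ne_zero) hc
    rw [hc] at h3 h4
    have hc2 : c ∣ 2 := (Nat.mul_dvd_mul_iff_left hpos).mp h3
    have hc3 : c = 2 := by
      rcases (Nat.dvd_prime Nat.prime_two).mp hc2 with e | e
      · rw [e, mul_one] at h4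
        exact absurd dvd_rfl h4
      · exact e
    subst hc3
    have : 2 ∣ r * s := Dvd.intro_left _ hc.symm
    rcases (Nat.Prime.dvd_mul Nat.prime_two).mp this with e | e
    · have e' := (Nat.prime_dvd_prime_iff_eq Nat.prime_two hr).mp e
      subst e'
      have : orderOf y.right = s := by omega
      rw [this]
      exact ⟨hs.one_lt.ne', hs.odd_of_ne_two hrs.symm⟩
    · have e' := (Nat.prime_dvd_prime_iff_eq Nat.prime_two hs).mp e
      subst e'
      have : orderOf y.right = r := by omega
      rw [this]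
      exact ⟨hr.one_lt.ne', hr.odd_of_ne_two hrs⟩
  have h6 : y * SemidirectProduct.inl v = SemidirectProduct.inl v * y := by
    rw [hv]
    exact (Commute.self_pow y _).eq
  have h7 := congrArg SemidirectProduct.left h6
  simp only [SemidirectProduct.mul_left, SemidirectProduct.left_inl, SemidirectProduct.right_inl,
    map_one, MulAut.one_apply] at h7
  rw [mul_comm v, mul_right_inj] at h7
  apply hv1
  ext1
  ext1 i
  exact S.eq_zero_of_fixed_of_odd (fun e => h5.1 (orderOf_eq_one_iff.mpr e)) h5.2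
    (congrFun (congrArg Multiplicative.toAdd h7) i)

/-- Let S be the Suzuki group over the field with q = 2^(2m+1) ≥ 8 elements. Then there are finite groups of arbitrarily large order with the same prime graph as S. -/
theorem result {F : Type*} [Field F] [Fintype F] {m : ℕ} (hm : 1 ≤ m) (hF : Fintype.card F = 2 ^ (2 * m + 1)) (N : ℕ) :
    ∃ (H : Type) (_ : Group H) (_ : Fintype H), N < Fintype.card H ∧ ((∀ r : ℕ, r.Prime → (r ∣ Nat.card ↥(Cfsg.Lie.Sz F (2 ^ (m + 1))) ↔ r ∣ Nat.card H)) ∧
      (∀ r s : ℕ, r.Prime → s.Prime → r ≠ s → ((∃ x : ↥(Cfsg.Lie.Sz F (2 ^ (m + 1))), orderOf x = r * s) ↔ (∃ y : H, orderOf y = r * s)))) := by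
  have := H39.szField_of_card hm hF
  set S := H39.lieModel hF
  have := S.finite
  have : Finite (Multiplicative (Fin N → Fin 4 → F) ⋊[act S N] ↥(Cfsg.Lie.Sz F (2 ^ (m + 1)))) :=
    Finite.of_equiv _ SemidirectProduct.equivProd.symm
  obtain ⟨H, _, _, ⟨e⟩⟩ := Finite.exists_type_univ_nonempty_mulEquiv.{_, 0}
    (Multiplicative (Fin N → Fin 4 → F) ⋊[act S N] ↥(Cfsg.Lie.Sz F (2 ^ (m + 1))))
  have hc : Nat.card H = (2 ^ (2 * m + 1)) ^ (4 * N) * Nat.card ↥(Cfsg.Lie.Sz F (2 ^ (m + 1))) := by
    rw [← Nat.card_congr e.toEquiv, SemidirectProduct.card, Nat.card_eq_fintype_card]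
    simp [hF, pow_mul]
  refine ⟨H, inferInstance, inferInstance, ?_, fun r hr => ?_, fun r s hr hs hrs => ?_⟩
  · rw [← Nat.card_eq_fintype_card, hc, ← pow_mul]
    calc N < 2 ^ N := Nat.lt_two_pow_self
      _ ≤ 2 ^ ((2 * m + 1) * (4 * N)) := Nat.pow_le_pow_right (by norm_num) (by nlinarith)
      _ ≤ _ := Nat.le_mul_of_pos_right _ Nat.card_pos
  · rw [hc]
    refine ⟨fun h => h.mul_left _, fun h => ?_⟩
    rcases (Nat.Prime.dvd_mul hr).mp h with h | h
    · rw [S.card_eq, Nat.card_eq_fintype_card, hF, mul_assoc]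
      exact (dvd_pow (hr.dvd_of_dvd_pow h) two_ne_zero).mul_right _
    · exact h
  · constructor
    · rintro ⟨x, hx⟩
      refine ⟨e (SemidirectProduct.inr x), ?_⟩
      rw [MulEquiv.orderOf_eq, orderOf_injective _ SemidirectProduct.inr_injective, hx]
    · rintro ⟨y, hy⟩
      exact aux S N r s hr hs hrs (e.symm y) (by rw [MulEquiv.orderOf_eq, hy])

end Cfsg.Agent.S3639
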