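import Cfsg.Statements.S3662
import Cfsg.Agent.H29.G2Ord
import Cfsg.Agent.H29.AffRep

set_option autoImplicit false
open Cfsg

namespace Cfsg.Agent.S3662

/-- The prime graph of a finite group has the prime divisors of its order as vertices, two distinct primes p, q being joined when the group has an element of order pq; two groups have the same prime graph when they have the same prime divisors and the same joined pairs. Let F be the field with 4 elements and L the Chevalley group of type G₂ over F. There are finite groups of arbitrarily large order with the same prime graph as L. -/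
theorem result {F : Type*} [Field F] [Fintype F] (hF : Fintype.card F = 4) (N : ℕ) :
    ∃ (H : Type) (_ : Group H) (_ : Finite H), N < Nat.card H ∧
      ((∀ p : ℕ, p.Prime → (p ∣ Nat.card ↥(Cfsg.Lie.chevG2.group F) ↔ p ∣ Nat.card H)) ∧
      (∀ p q : ℕ, p.Prime → q.Prime → p ≠ q → ((∃ g : ↥(Cfsg.Lie.chevG2.group F), orderOf g = p * q) ↔ (∃ g : H, orderOf g = p * q)))) := by
  have hF' : Fintype.card F = 2 ^ 2 := hF
  have : CharP F 2 := charP_of_card_eq_prime_pow hF'
  obtain ⟨e⟩ := H29.nonempty_g2Iso F
  have : Finite (H24.autZ F) := Finite.of_injective _ H29.autMat_injective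
  have : Finite (Cfsg.Lie.chevG2.group F) := Finite.of_equiv _ e.symm.toEquiv
  have hs : ∀ {n} N, H29.G2Ord 2 (2 ^ 2) N → n ∣ N → n ∈ H57.spec (H24.autZ F) := fun N h h' =>
    H57.mem_spec_of_dvd (H29.exists_orderOf_eq_g2Ord Nat.prime_two hF' h) h'
  refine H29.exists_large_of_subquot (H29.autEnd F) (A := LinearMap.ker H24.zT)
    (B := F ∙ H24.zE) (fun g x hx => (H24.autZ_zT_zN g x).1.trans hx) (fun g x hx => ?_)
    (fun h => ?_) Nat.prime_two (hs 8 (by simp [H29.G2Ord]) (by norm_num))
    (fun g h1 h2 x h3 h4 h5 => ?_) (H57.samePrimeGraph_of_spec (H57.spec_congr e)) N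
  · obtain ⟨c, rfl⟩ := Submodule.mem_span_singleton.1 hx
    rw [map_smul, H29.autEnd_apply, H24.autZ_zE]
    exact hx
  · obtain ⟨c, hc⟩ := Submodule.mem_span_singleton.1 (h (show H24.zT (H29.zb 1) = 0 by
      simp [H24.zT_apply]))
    simpa [H24.zE] using congrFun hc 1
  let K := AlgebraicClosure F
  let f := algebraMap F K
  obtain ⟨y, a, b, c, ht, h6⟩ := H29.exists_isTor (s := H29.extAut f g) (n := orderOf g)
    (mt (CharP.cast_eq_zero_iff K 2 _).1 fun h =>
      h2 ((Nat.prime_dvd_prime_iff_eq Nat.prime_two h1).1 h).symm)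
    (by rw [← map_pow, pow_orderOf_eq_one, map_one])
  rcases h6 with rfl | h6
  · have := ht.pow_of_one (p := 2) (k := 2) ((H29.isFrob_comp (φ := iterateFrobenius K 2 2)
      (by norm_num) fun _ => rfl).conj y) fun x => by
        simp only [H29.autZ_mul_apply, H29.autZ_apply_inv]
        rw [H29.extAut_frob f fun c => by
          rw [iterateFrobenius_def, ← map_pow, ← hF', FiniteField.pow_card]]
    simp only [← MulAut.conj_inv_apply, ← map_pow, map_eq_one_iff _ (MulEquiv.injective _),
      map_eq_one_iff _ (H29.extAut_injective f), ← orderOf_dvd_iff_pow_eq_one] at this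
    rcases this with h | h
    · exact hs (2 * (2 ^ 2 - 1)) (by simp [H29.G2Ord]) (Nat.mul_dvd_mul_right h 2)
    · exact hs (2 * (2 ^ 2 + 1)) (by simp [H29.G2Ord]) (Nat.mul_dvd_mul_right h 2)
  · have h7 := ht.fix_eq h6 (x := y⁻¹.1 (f ∘ x)) (by
      rw [H29.autZ_mul_apply, H29.autZ_mul_apply, H29.autZ_apply_inv, H29.extAut_comp,
        show g.1 x = x from h4])
    have h8 : y⁻¹.1 (f ∘ x) 0 + y⁻¹.1 (f ∘ x) 7 = 0 := by
      rw [← H24.zT_apply, (H24.autZ_zT_zN _ _).1, H24.zT_apply, Function.comp_apply,
        Function.comp_apply, ← map_add, ← H24.zT_apply, show H24.zT x = 0 from h3, map_zero]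
    rw [← CharTwo.add_eq_zero.1 h8] at h7
    generalize y⁻¹.1 (f ∘ x) 0 = t at h7
    have h9 : f ∘ x = t • H24.zE := by
      rw [← H29.autZ_apply_inv y (f ∘ x), h7, ← H24.autZ_zE y, ← map_smul, H29.zE_eq, H29.smul_zk]
      simp
    refine absurd (Submodule.mem_span_singleton.2 ⟨x 0, funext fun i => f.injective ?_⟩) h5
    have h10 := congrFun h9 0
    have h11 := congrFun h9 i
    fin_cases i <;> simp_all [H24.zE]

end Cfsg.Agent.S3662
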