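import Cfsg.Statements.S3663
import Cfsg.Agent.H29.G2Ord
import Cfsg.Agent.H29.U34

set_option autoImplicit false
open Cfsg

namespace Cfsg.Agent.S3663

/-- The prime graph of a finite group has the prime divisors of its order as vertices, two distinct primes p, q being joined when the group has an element of order pq; two groups have the same prime graph when they have the same prime divisors and the same joined pairs. Let F be the field with 16 elements and L = PSU(3,4) realised over F. There are finite groups of arbitrarily large order with the same prime graph as L. -/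
theorem result {F : Type*} [Field F] [Fintype F] (hF : Fintype.card F = 16) (N : ℕ) :
    ∃ (H : Type) (_ : Group H) (_ : Finite H), N < Nat.card H ∧
      ((∀ p : ℕ, p.Prime → (p ∣ Nat.card (Cfsg.PSU 3 F 4) ↔ p ∣ Nat.card H)) ∧
      (∀ p q : ℕ, p.Prime → q.Prime → p ≠ q → ((∃ g : (Cfsg.PSU 3 F 4), orderOf g = p * q) ↔ (∃ g : H, orderOf g = p * q)))) := by
  open H28 H29 in
  exact by
    have hz : Subgroup.center (SU 3 H29.F16 4) = ⊥ := Subgroup.eq_bot_of_card_eq _
      (H31.card_center_SU (F := H29.F16) (q := 4) H29.card_F16 (by norm_num))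
    let e : PSU 3 F 4 ≃* SU 3 H29.F16 4 :=
      (H28.psuEquiv (FiniteField.ringEquivOfCardEq (hF.trans H29.card_F16.symm)) 3 4).trans
        ((QuotientGroup.quotientMulEquivOfEq hz).trans QuotientGroup.quotientBot)
    have : CharP H29.F16 2 := charP_of_card_eq_prime_pow (f := 4) H29.card_F16
    obtain ⟨-, h15, h10, -⟩ := H29.models_three (H76.models_su (AlgebraicClosure H29.F16) 2
      (q := 4) H29.card_F16 3) (by norm_num)
    have : Fact (Nat.Prime 5) := ⟨by norm_num⟩
    refine H29.exists_large_of_subquot (F := ZMod 5) _ H29.blockA_inv H29.blockB_inv H29.not_blockA_le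
      this.out (H57.mem_spec_of_dvd h10 (by norm_num)) (fun g h1 h2 f h3 h4 h5 => ?_)
      (H57.samePrimeGraph_of_spec (H57.spec_congr e)) N
    have h6 := orderOf_dvd_natCard g
    rw [H29.card_SU34, show 62400 = 2 ^ 6 * 3 * 5 ^ 2 * 13 from rfl, h1.dvd_mul, h1.dvd_mul,
      h1.dvd_mul, h1.prime.dvd_pow_iff_dvd (by norm_num), h1.prime.dvd_pow_iff_dvd (by norm_num),
      Nat.prime_dvd_prime_iff_eq h1 (by norm_num), Nat.prime_dvd_prime_iff_eq h1 (by norm_num),
      Nat.prime_dvd_prime_iff_eq h1 (by norm_num), Nat.prime_dvd_prime_iff_eq h1 (by norm_num)] at h6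
    rcases h6 with ((h | h) | h) | h
    · rw [h]; exact h10
    · rw [h]; exact h15
    · exact absurd h h2
    · exact absurd (H29.mem_blockB_of_orderOf h h3 h4) h5

end Cfsg.Agent.S3663
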