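import Cfsg.Statements.S3670
import Cfsg.Agent.H22.U33
import Cfsg.Agent.H57.SpecCH
import Cfsg.Agent.H58.BrData
import Cfsg.Agent.H14.Clifford
import Cfsg.Agent.H11.PermChar

set_option autoImplicit false
open Cfsg

namespace Cfsg.Agent.S3670


open Cfsg.Agent.H57

theorem aff_mem {R : Type} [CommRing R] [Finite R] (ψ : AddChar R ℂ) (hψ : ψ.IsPrimitive) :
    Nat.card Rˣ ∈ charDegrees (Aff Rˣ R) := by
  classical
  have := Fintype.ofFinite (Aff Rˣ R)
  let N : Subgroup (Aff Rˣ R) := (Aff.proj : Aff Rˣ R →* Rˣ).ker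
  have hN : ∀ n : N, n.1.g = 1 := fun n => n.2
  let θ : N → ℂ := fun n => ψ n.1.v
  have hθ : IsIrrCharacter N θ := by
    refine H11.isIrrCharacter_of_map_mul (by simp [θ]) fun a b => ?_
    simp [θ, hN a, AddChar.map_add_eq_mul]
  have hirr : IsIrrCharacter _ (indFun N θ) := by
    rw [H14.isIrr_indFun_iff_inertia_le N hθ]
    intro g hg
    rw [H14.mem_inertia'] at hg
    have h1 : ψ.mulShift (g.g : R) = ψ.mulShift 1 := by
      ext r
      have := hg ⟨⟨r, 1⟩, rfl⟩
      simpa [θ, Units.smul_def, smul_smul] using this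
    exact Units.ext (AddChar.to_mulShift_inj_of_isPrimitive hψ h1)
  have hd : charDegree (indFun N θ) = Nat.card Rˣ := by
    rw [H24.deg_indFun N (H11.isCharacter_of_irr hθ), H24.deg_eq (n := 1) (by simp [θ]), mul_one,
      Subgroup.index_ker, MonoidHom.range_eq_top.2 (fun u => ⟨⟨0, u⟩, rfl⟩), Subgroup.card_top]
  exact hd ▸ H24.deg_mem_cd hirr

theorem aff_solv {R : Type} [CommRing R] : Group.IsSolvable (Aff Rˣ R) :=
  Group.isSolvable_of_ker_le_range (Aff.inl : Multiplicative R →* Aff Rˣ R) Aff.proj (by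
    rintro ⟨v, g⟩ hg
    obtain rfl : g = 1 := hg
    exact ⟨Multiplicative.ofAdd v, rfl⟩)

theorem mul_mem_prod {G H : Type*} [Group G] [Group H] [Finite G] [Finite H] {a b : ℕ}
    (ha : a ∈ charDegrees G) (hb : b ∈ charDegrees H) : a * b ∈ charDegrees (G × H) := by
  obtain ⟨φ, hφ, rfl⟩ := H24.mem_cd.1 ha
  obtain ⟨ψ, hψ, rfl⟩ := H24.mem_cd.1 hb
  refine H24.mem_cd.2 ⟨_, H11.isIrrCharacter_prod_mul hφ hψ, H24.deg_eq ?_⟩
  simp [H24.irr_deg hφ, H24.irr_deg hψ]

theorem shape {G : Type*} [Group G] [Finite G] (hc : Nat.card G = 6048)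
    (h1 : ∃ d ∈ charDegrees G, 6 ∣ d) (h2 : ∃ d ∈ charDegrees G, 14 ∣ d)
    (h3 : ∃ d ∈ charDegrees G, 21 ∣ d) :
    degreePrimes G = {2, 3, 7} ∧ ∀ p q, (degreeGraph G).Adj p q ↔
      p ≠ q ∧ p ∈ ({2, 3, 7} : Set ℕ) ∧ q ∈ ({2, 3, 7} : Set ℕ) := by
  have key : ∀ p, p.Prime → ∀ d ∈ charDegrees G, p ∣ d → p ∈ ({2, 3, 7} : Set ℕ) := by
    intro p hp d hd hpd
    have h := hpd.trans (H24.dvd_card_of_mem_cd hd)
    rw [hc, show 6048 = 2 ^ 5 * (3 ^ 3 * 7) by norm_num, hp.dvd_mul, hp.dvd_mul] at h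
    rcases h with h | h | h
    · exact Or.inl ((Nat.prime_dvd_prime_iff_eq hp Nat.prime_two).1 (hp.dvd_of_dvd_pow h))
    · exact Or.inr (Or.inl
        ((Nat.prime_dvd_prime_iff_eq hp Nat.prime_three).1 (hp.dvd_of_dvd_pow h)))
    · exact Or.inr (Or.inr ((Nat.prime_dvd_prime_iff_eq hp (by norm_num)).1 h))
  obtain ⟨a, ha, ha'⟩ := h1
  obtain ⟨b, hb, hb'⟩ := h2
  obtain ⟨c, hc, hc'⟩ := h3
  refine ⟨Set.ext fun p => ⟨fun ⟨hp, d, hd, h⟩ => key p hp d hd h, ?_⟩, fun p q => ⟨?_, ?_⟩⟩
  · rintro (rfl | rfl | rfl)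
    · exact ⟨Nat.prime_two, a, ha, by omega⟩
    · exact ⟨Nat.prime_three, a, ha, by omega⟩
    · exact ⟨by norm_num, b, hb, by omega⟩
  · rintro ⟨hne, hp, hq, d, hd, h⟩
    exact ⟨hne, key p hp d hd ((dvd_mul_right _ _).trans h),
      key q hq d hd ((dvd_mul_left _ _).trans h)⟩
  · rintro ⟨hne, rfl | rfl | rfl, rfl | rfl | rfl⟩ <;>
    first
    | exact absurd rfl hne
    | exact ⟨hne, by norm_num, by norm_num, a, ha, ha'⟩
    | exact ⟨hne, by norm_num, by norm_num, b, hb, hb'⟩
    | exact ⟨hne, by norm_num, by norm_num, c, hc, hc'⟩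

theorem six {G : Type*} [Group G] [Finite G] (hc : Nat.card G = 6048) (hperf : commutator G = ⊤)
    (h14 : 14 ∉ spec G) (h21 : 21 ∉ spec G) : ∃ d ∈ charDegrees G, 6 ∣ d := by
  classical
  have := Fintype.ofFinite G
  have : Fact (Nat.Prime 7) := ⟨by norm_num⟩
  obtain ⟨P⟩ : Nonempty (Sylow 7 G) := inferInstance
  have hP : Nat.card P = 7 := by
    rw [P.card_eq_multiplicity, hc]
    have : Nat.factorization 6048 7 = 1 := by
      rw [show 6048 = 7 * 864 by norm_num, Nat.factorization_mul (by norm_num) (by norm_num)]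
      simp [Nat.factorization_eq_zero_of_not_dvd, (by norm_num : Nat.Prime 7).factorization_self]
    rw [this]; rfl
  obtain ⟨x, hx, hx1⟩ := H58.exists_mem_ne_one hP
  have ox : orderOf x = 7 := by
    have : orderOf (⟨x, hx⟩ : (P : Subgroup G)) ∣ 7 := (orderOf_dvd_natCard _).trans hP.dvd
    rw [Subgroup.orderOf_mk] at this
    rcases (Nat.dvd_prime (by norm_num)).1 this with h | h
    · exact absurd (orderOf_eq_one_iff.1 h) hx1
    · exact h
  have hno : ∀ r : ℕ, r.Prime → r ≠ 7 → 7 * r ∉ spec G →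
      ¬ r ∣ Nat.card (Subgroup.centralizer ((P : Subgroup G) : Set G)) := by
    intro r hr h7 hs hd
    have : Fact r.Prime := ⟨hr⟩
    obtain ⟨y, hy⟩ := exists_prime_orderOf_dvd_card' r hd
    have hcm : Commute x y := Subgroup.mem_centralizer_iff.1 y.2 x hx
    rw [← Subgroup.orderOf_coe] at hy
    refine hs ⟨x * y, ?_⟩
    rw [hcm.orderOf_mul_eq_mul_orderOf_of_coprime, ox, hy]
    rw [ox, hy]
    exact (Nat.coprime_primes (by norm_num) hr).2 h7.symm
  have hC : (Subgroup.centralizer ((P : Subgroup G) : Set G)).index = 864 := by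
    have h1 := Subgroup.card_mul_index (Subgroup.centralizer ((P : Subgroup G) : Set G))
    have h2 := hno 2 Nat.prime_two (by norm_num) h14
    have h3 := hno 3 Nat.prime_three (by norm_num) h21
    have h4 : 7 ∣ Nat.card (Subgroup.centralizer ((P : Subgroup G) : Set G)) := by
      refine ox.symm.dvd.trans (Subgroup.orderOf_dvd_natCard _ ?_)
      rw [← H58.centralizer_singleton_eq hP hx hx1, Subgroup.mem_centralizer_singleton_iff]
    have h5 : Nat.card (Subgroup.centralizer ((P : Subgroup G) : Set G)) ∣ 7 := by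
      have h6 : Nat.card (Subgroup.centralizer ((P : Subgroup G) : Set G)) ∣ 2 ^ 5 * (3 ^ 3 * 7) := by
        rw [show 2 ^ 5 * (3 ^ 3 * 7) = 6048 by norm_num, ← hc]
        exact Subgroup.card_subgroup_dvd_card _
      exact (Nat.Coprime.pow_right 3 ((Nat.prime_three.coprime_iff_not_dvd.2 h3).symm)).dvd_of_dvd_mul_left
        ((Nat.Coprime.pow_right 5 ((Nat.prime_two.coprime_iff_not_dvd.2 h2).symm)).dvd_of_dvd_mul_left h6)
    rw [Nat.dvd_antisymm h5 h4, hc] at h1
    omega
  obtain ⟨e, t, he, he2, het, ⟨D⟩⟩ := H58.exists_brData hperf P hP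
  have h1 := H58.index_centralizer_sylow P
  rw [hC, he] at h1
  have h2 := card_sylow_modEq_one 7 G
  obtain rfl : e = 3 := by
    have : e ≤ 6 := Nat.le_of_dvd (by norm_num) ⟨t, het.symm⟩
    unfold Nat.ModEq at h2
    have h3 : e ∣ 6 := ⟨t, het.symm⟩
    interval_cases e <;> omega
  obtain rfl : t = 2 := by omega
  by_contra hcon
  push Not at hcon
  have hz : ¬ 6 ∣ D.z := by
    obtain ⟨θ, hθ⟩ := Finset.card_pos.1 (by rw [D.cardY]; norm_num : 0 < D.Y.card)
    rw [← D.degY θ hθ]
    exact hcon _ ⟨θ, rfl⟩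
  have hzd := D.z_dvd hP (by norm_num)
  rw [hC] at hzd
  have hX : ∀ χ ∈ D.X, χ ≠ H21.triv G →
      D.sg χ * charDegree χ.1 = 8 ∨ D.sg χ * charDegree χ.1 = -27 := by
    intro χ hχ hne
    have a1 := D.degX_dvd hP hχ
    have a2 := D.fixDim_X hP hχ
    have a3 := hcon _ ⟨χ, rfl⟩
    have a4 : charDegree χ.1 ≠ 1 := fun h => hne (H58.eq_triv_of_deg_one hperf h)
    have a5 := H58.charDegree_sq_le χ
    rw [hC] at a1
    rw [hc] at a5
    generalize charDegree χ.1 = d at *
    have a6 : d ≤ 77 := by nlinarith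
    rcases D.sg_pm χ hχ with h | h <;> rw [h] at a2 ⊢ <;> push_cast at a2 <;>
      interval_cases d <;> omega
  have hdeg := D.deg_eq (by norm_num)
  rw [← Finset.add_sum_erase _ _ D.triv_mem, D.sg_triv hP] at hdeg
  obtain ⟨a, b, hab, hE⟩ := Finset.card_eq_two.1 (by
    rw [Finset.card_erase_of_mem D.triv_mem, D.cardX] : (D.X.erase (H21.triv G)).card = 2)
  have ha : a ∈ D.X.erase (H21.triv G) := by rw [hE]; simp
  have hb : b ∈ D.X.erase (H21.triv G) := by rw [hE]; simp
  rw [hE, Finset.sum_pair hab, H24.deg_eq (n := 1) (by simp [H21.triv])] at hdeg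
  have ha' := hX a (Finset.mem_of_mem_erase ha) (Finset.ne_of_mem_erase ha)
  have hb' := hX b (Finset.mem_of_mem_erase hb) (Finset.ne_of_mem_erase hb)
  have : D.z = 17 ∨ D.z = 18 ∨ D.z = 53 := by
    rcases D.eps_pm with h | h <;> rw [h] at hdeg <;> omega
  rcases this with h | h | h <;> rw [h] at hz hzd <;> omega

/-- The character degree graph of a finite group has as vertices the primes dividing some irreducible complex character degree, two distinct primes being joined when their product divides some irreducible character degree; two groups have the same character degree graph when they have the same vertices and the same joined pairs. Let F be the field with 9 elements and L = PSU(3,3) realised over F (order 6048). There is a finite solvable group of order 6048 with the same character degree graph as L; so L is not determined by its order together with its character degree graph. -/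
theorem result {F : Type*} [Field F] [Fintype F] (hF : Fintype.card F = 9) :
    ∃ (H : Type) (_ : Group H) (_ : Fintype H), Group.IsSolvable H ∧ Nat.card H = 6048 ∧ Cfsg.degreePrimes H = Cfsg.degreePrimes (Cfsg.PSU 3 F 3) ∧ Cfsg.degreeGraph H = Cfsg.degreeGraph (Cfsg.PSU 3 F 3) := by
  classical
  have hF' : Fintype.card F = 3 ^ 2 := hF
  have : Fact (Nat.Prime 2) := ⟨Nat.prime_two⟩
  have c8 : Nat.card (GaloisField 2 3) = 8 := GaloisField.card 2 3 (by norm_num)
  have u8 : Nat.card (GaloisField 2 3)ˣ = 7 := by rw [Nat.card_units, c8]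
  have u9 : Nat.card (ZMod 9)ˣ = 6 := by
    rw [Nat.card_eq_fintype_card, ZMod.card_units_eq_totient]; decide
  have := Fintype.ofFinite (GaloisField 2 3)
  have m7 := aff_mem _ (AddChar.FiniteField.primitiveChar_to_Complex_isPrimitive (GaloisField 2 3))
  have m6 := aff_mem _ (ZMod.isPrimitive_stdAddChar 9)
  rw [u8] at m7
  rw [u9] at m6
  have m42 := mul_mem_prod (mul_mem_prod m7 m6) (H24.one_mem_cd (G := Multiplicative (ZMod 2)))
  have hc : Nat.card ((H57.Aff (GaloisField 2 3)ˣ (GaloisField 2 3) × H57.Aff (ZMod 9)ˣ (ZMod 9)) ×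
      Multiplicative (ZMod 2)) = 6048 := by
    rw [Nat.card_prod, Nat.card_prod, H57.Aff.card_aff, H57.Aff.card_aff, c8, u8, u9]; simp
  obtain ⟨s1, s2⟩ := shape hc ⟨_, m42, by norm_num⟩ ⟨_, m42, by norm_num⟩ ⟨_, m42, by norm_num⟩
  have cP := H22.U33.card_psu hF'
  have : Finite (PSU 3 F 3) := Nat.finite_of_card_ne_zero (by rw [cP]; norm_num)
  obtain ⟨e⟩ := H22.U33.nonempty_equiv hF'
  have hs := H31.isSimpleGroup_PSU hF' (n := 3) le_rfl (by norm_num)
  have hsp := H57.spec_psu3_of_card hF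
  have hperf : commutator (PSU 3 F 3) = ⊤ := by
    rcases hs.eq_bot_or_eq_top_of_normal (commutator _) inferInstance with h | h
    · exfalso
      have h7 : 7 ∈ H57.spec (PSU 3 F 3) := by rw [hsp]; simp
      have h2 : 2 ∈ H57.spec (PSU 3 F 3) := by rw [hsp]; simp
      obtain ⟨x, hx⟩ := h7
      obtain ⟨y, hy⟩ := h2
      have hcm : Commute x y := by
        rw [← commutatorElement_eq_one_iff_commute, ← Subgroup.mem_bot, ← h]
        exact Subgroup.commutator_mem_commutator (Subgroup.mem_top _) (Subgroup.mem_top _)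
      have : 14 ∈ H57.spec (PSU 3 F 3) :=
        ⟨x * y, by rw [hcm.orderOf_mul_eq_mul_orderOf_of_coprime (by rw [hx, hy]; norm_num), hx, hy]⟩
      rw [hsp] at this; simp at this
    · exact h
  have hperf' : commutator (H22.U33.GG (H31.frobQ hF')) = ⊤ := by
    have h1 := map_commutator_eq _ e.symm.toMonoidHom
    rw [hperf, MonoidHom.range_eq_top.2 e.symm.surjective, Subgroup.map_top_of_surjective _
      e.symm.surjective] at h1
    exact h1.symm
  have := Fintype.ofFinite (H22.U33.GG (H31.frobQ hF'))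
  have m28 := H22.U33.mem_28 hF'
  have m21 := H22.U33.mem_21 hF' hperf'
  rw [H24.cd_eq_of_mulEquiv e] at m28 m21
  obtain ⟨t1, t2⟩ := shape cP (six cP hperf (by rw [hsp]; simp) (by rw [hsp]; simp))
    ⟨_, m28, by norm_num⟩ ⟨_, m21, by norm_num⟩
  have := aff_solv (R := GaloisField 2 3)
  have := aff_solv (R := ZMod 9)
  refine ⟨_, inferInstance, Fintype.ofFinite _, inferInstance, hc, s1.trans t1.symm, ?_⟩
  ext p q
  rw [s2, t2]

end Cfsg.Agent.S3670
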