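import Cfsg.Statements.S3674
import Cfsg.Agent.H2.NcE
import Cfsg.Agent.S2608

set_option autoImplicit false
open Cfsg

namespace Cfsg.Agent.S3674

/-- The non-commuting graph of a finite non-abelian group has the non-central elements as vertices, two of them joined when they do not commute. Let F be the field with 3 elements, n ≥ 5 odd, and M = PΩ⁺(2n,F). If the non-commuting graph of a finite group G is isomorphic to that of M (a bijection between the non-central elements of G and of M under which two elements commute exactly when their images do), then G is isomorphic to M. -/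
theorem result {F : Type*} [Field F] [Fintype F] (hF : Fintype.card F = 3)
    {n : ℕ} (hn : 5 ≤ n) (hodd : Odd n) {G : Type*} [Group G] [Finite G]
    (φ : {g : G // g ∉ Subgroup.center G} ≃ {m : Cfsg.POmega F (Cfsg.quadFormPlus n F) // m ∉ Subgroup.center (Cfsg.POmega F (Cfsg.quadFormPlus n F))})
    (hφ : ∀ x y : {g : G // g ∉ Subgroup.center G}, Commute x.1 y.1 ↔ Commute (φ x).1 (φ y).1) :
    Nonempty (G ≃* Cfsg.POmega F (Cfsg.quadFormPlus n F)) := by
  have C := H2.Nc.ctx_qPlus hF hn hodd
  obtain ⟨j⟩ := H2.Nc.iso_ker C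
  obtain ⟨φ', hφ'⟩ := H2.Nc.transport j φ hφ
  obtain ⟨hc, ψ, hψ⟩ := C.aut φ' hφ'
  have cj := Nat.card_congr j.toEquiv
  have : Finite (H30.O (H30.qPlus F n)) := H55.WoG.fin
  have : Finite (Cfsg.POmega F (Cfsg.quadFormPlus n F)) := Finite.of_equiv _ j.toEquiv.symm
  have : IsSimpleGroup (Cfsg.POmega F (Cfsg.quadFormPlus n F)) :=
    H30.isSimpleGroup_POmega (H30.qPlus_nondegenerate n)
      (by rw [Fintype.card_sum, Fintype.card_fin]; omega)
  have : Fact (Nat.Prime 3) := ⟨Nat.prime_three⟩
  have o := S2608.result (F := F) (p := 3) (f := 1) (m := n) le_rfl (by rw [hF]; rfl) (by decide)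
    (by omega)
  rw [if_neg (by omega), if_pos ⟨by decide, hodd⟩] at o
  obtain ⟨o⟩ := o
  refine H2.Nc.iso_of_aut (cj ▸ C.big) (fun m hm => j.injective ?_) ?_ (hc.trans cj.symm)
    ((MulAut.congr j.symm).toMonoidHom.comp ψ) ((MulAut.congr j.symm).injective.comp hψ)
  · refine (C.cen' _ fun k => ?_).trans (map_one j).symm
    obtain ⟨k, rfl⟩ := j.surjective k
    exact (map_mul j _ _).symm.trans ((congrArg j (hm k)).trans (map_mul j _ _))
  · rw [Nat.card_congr o.toEquiv]
    simp

end Cfsg.Agent.S3674
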