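import Cfsg.Statements.S3678
import Cfsg.Agent.H57.SpecSL2

set_option autoImplicit false
open Cfsg

namespace Cfsg.Agent.S3678

open Cfsg.Agent.H57

/-- The prime graph of a finite group has the prime divisors of its order as vertices, two distinct primes p, q being joined when the group has an element of order pq; two groups have the same prime graph when they have the same prime divisors and the same joined pairs. Let F be the field with 7 elements. There are finite groups of arbitrarily large order with the same prime graph as PSL(2,F) (the graph on {2, 3, 7} with no edges, which is also the prime graph of PSL(2,8)). -/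
theorem result {F : Type*} [Field F] [Fintype F] (hF : Fintype.card F = 7) (N : ℕ) :
    ∃ (H : Type) (_ : Group H) (_ : Finite H), N < Nat.card H ∧
      ((∀ p : ℕ, p.Prime → (p ∣ Nat.card (Matrix.ProjectiveSpecialLinearGroup (Fin 2) F) ↔ p ∣ Nat.card H)) ∧
      (∀ p q : ℕ, p.Prime → q.Prime → p ≠ q → ((∃ g : (Matrix.ProjectiveSpecialLinearGroup (Fin 2) F), orderOf g = p * q) ↔ (∃ g : H, orderOf g = p * q)))) := by
  classical
  haveI : CharP F 7 := charP_of_card (n := 1) (by norm_num) hF
  letI : Fintype (GaloisField 2 3) := Fintype.ofFinite _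
  have h7 := spec_psl2 (F := F) 7
  have h8 := spec_psl2 (F := GaloisField 2 3) 2
  rw [hF] at h7
  rw [card_galoisField 2 3 (by norm_num)] at h8
  norm_num at h7 h8
  have key : SamePrimeGraph (PSL2 F) (PSL2 (GaloisField 2 3)) := by
    apply samePrimeGraph_of_mem_spec
    · intro p hp
      rw [h7, h8]
      simp only [Set.mem_setOf_eq]
      have e4 : p ∣ 4 ↔ p ∣ 2 := by
        rw [show 4 = 2 ^ 2 by norm_num]; exact hp.prime.dvd_pow_iff_dvd (by norm_num)
      have e9 : p ∣ 9 ↔ p ∣ 3 := by
        rw [show 9 = 3 ^ 2 by norm_num]; exact hp.prime.dvd_pow_iff_dvd (by norm_num)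
      rw [e4, e9]; tauto
    · intro p q hp hq hpq
      rw [h7, h8]
      simp only [Set.mem_setOf_eq]
      have k : ∀ r e : ℕ, r.Prime → ¬ p * q ∣ r ^ e := by
        intro r e hr h
        have h1 := (Nat.prime_dvd_prime_iff_eq hp hr).1
          (hp.dvd_of_dvd_pow ((Dvd.intro _ rfl).trans h))
        have h2 := (Nat.prime_dvd_prime_iff_eq hq hr).1
          (hq.dvd_of_dvd_pow ((Dvd.intro_left _ rfl).trans h))
        exact hpq (h1.trans h2.symm)
      have k1 := k 7 1 (by norm_num)
      have k2 := k 3 1 (by norm_num)
      have k3 := k 2 2 (by norm_num)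
      have k4 := k 2 1 (by norm_num)
      have k5 := k 3 2 (by norm_num)
      norm_num at k1 k2 k3 k4 k5
      tauto
  obtain ⟨H, _, _, h1, h2⟩ := Aff.exists_large_samePrimeGraph_aff
    (key.trans (samePrimeGraph_aff_sl2 (GaloisField 2 3))) N
  exact ⟨H, inferInstance, inferInstance, by rwa [Nat.card_eq_fintype_card], h2⟩

end Cfsg.Agent.S3678
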