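import Cfsg.Statements.S3684
import Cfsg.Agent.H62.PermBasic
import Cfsg.Agent.S0206

set_option autoImplicit false
open Cfsg

namespace Cfsg.Agent.S3684

/-- Let a finite group G act faithfully and primitively on a set Ω, and suppose the stabilizer of a point a has an orbit of length 2. Then the stabilizer of a has order 2 and G is isomorphic to the dihedral group of order 2p for some prime p. -/
theorem result {G Ω : Type*} [Group G] [Finite G] [MulAction G Ω] [FaithfulSMul G Ω] [Finite Ω]
    (hprim : MulAction.IsPreprimitive G Ω) (a b : Ω) (h2 : Nat.card (MulAction.orbit (MulAction.stabilizer G a) b) = 2) :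
    Nat.card (MulAction.stabilizer G a) = 2 ∧ ∃ p : ℕ, p.Prime ∧ Nonempty (G ≃* DihedralGroup p) := by
  have hab : a ≠ b := by
    rintro rfl
    rw [H62.card_orbit_subgroup_eq_relIndex, Subgroup.relIndex_self] at h2
    omega
  rw [H62.card_orbit_subgroup_eq_relIndex] at h2
  set A := MulAction.stabilizer G a with hA
  set B := MulAction.stabilizer G b with hB
  have hAB : Nat.card A = Nat.card B := H62.card_stabilizer_eq a b
  have hi : A.index = B.index := by
    rw [hA, hB, MulAction.index_stabilizer_of_transitive, MulAction.index_stabilizer_of_transitive]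
  have h2' : A.relIndex B = 2 := by
    have e1 := Subgroup.relIndex_mul_index (inf_le_left : A ⊓ B ≤ A)
    have e2 := Subgroup.relIndex_mul_index (inf_le_right : A ⊓ B ≤ B)
    rw [Subgroup.inf_relIndex_left, h2, hi] at e1
    rw [Subgroup.inf_relIndex_right, ← e1] at e2
    exact Nat.eq_of_mul_eq_mul_right (Nat.pos_of_ne_zero Subgroup.index_ne_zero_of_finite) e2
  have hK : A ⊓ B = ⊥ := by
    apply H62.eq_bot_of_normalized_by_two hab _ inf_le_left
    · have : ((A ⊓ B).subgroupOf A).Normal := by
        apply Subgroup.normal_of_index_eq_two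
        rw [← h2, ← Subgroup.inf_relIndex_left A B]; rfl
      exact Subgroup.le_normalizer_of_normal_subgroupOf inf_le_left
    · have : ((A ⊓ B).subgroupOf B).Normal := by
        apply Subgroup.normal_of_index_eq_two
        rw [← h2', ← Subgroup.inf_relIndex_right A B]; rfl
      exact Subgroup.le_normalizer_of_normal_subgroupOf inf_le_right
  have hA2 : Nat.card A = 2 := by
    rw [← h2, ← Subgroup.inf_relIndex_left A B, hK, Subgroup.relIndex_bot_left]
  have hB2 : Nat.card B = 2 := hAB ▸ hA2
  have hne : A ≠ B := by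
    intro h
    rw [h, Subgroup.relIndex_self] at h2
    omega
  have hsup : A ⊔ B = ⊤ := H62.stabilizer_sup_eq_top hne
  have gen : ∀ C : Subgroup G, Nat.card C = 2 → ∃ s : G, orderOf s = 2 ∧ C = Subgroup.zpowers s := by
    intro C hC
    have := Fact.mk Nat.prime_two
    have hc : IsCyclic C := isCyclic_of_prime_card hC
    obtain ⟨s, hs⟩ := (Subgroup.isCyclic_iff_exists_zpowers_eq_top C).1 hc
    exact ⟨s, by rw [← Nat.card_zpowers, hs, hC], hs.symm⟩
  obtain ⟨s, hs, hAs⟩ := gen A hA2
  obtain ⟨t, ht, hBt⟩ := gen B hB2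
  have hst : s ≠ t := by
    rintro rfl
    exact hne (hAs.trans hBt.symm)
  have hcl : Subgroup.closure ({s, t} : Set G) = ⊤ := by
    rw [← hsup, hAs, hBt, Subgroup.zpowers_eq_closure, Subgroup.zpowers_eq_closure,
      ← Subgroup.closure_union]
    rfl
  obtain ⟨e⟩ := S0206.result s t hs ht hst
  have e' : G ≃* DihedralGroup (orderOf (s * t)) :=
    (Subgroup.topEquiv.symm.trans (MulEquiv.subgroupCongr hcl.symm)).trans e
  refine ⟨hA2, orderOf (s * t), ?_, ⟨e'⟩⟩
  have hcardG : Nat.card G = 2 * orderOf (s * t) := by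
    rw [Nat.card_congr e'.toEquiv, DihedralGroup.nat_card]
  have hΩ : Nat.card Ω = orderOf (s * t) := by
    have := H62.card_eq_card_mul_card_stabilizer (G := G) a
    rw [← hA, hA2, hcardG] at this
    omega
  have hs2 : s * s = 1 := by rw [← sq, ← hs, pow_orderOf_eq_one]
  have ht2 : t * t = 1 := by rw [← sq, ← ht, pow_orderOf_eq_one]
  have hsi : s⁻¹ = s := inv_eq_of_mul_eq_one_right hs2
  have hti : t⁻¹ = t := inv_eq_of_mul_eq_one_right ht2
  have ho : orderOf (s * t) ≠ 1 := by
    rw [Ne, orderOf_eq_one_iff, mul_eq_one_iff_eq_inv, hti]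
    exact hst
  obtain ⟨p, hp, m, hm⟩ := Nat.exists_prime_and_dvd ho
  have hpos : 0 < orderOf (s * t) := orderOf_pos _
  have hm0 : m ≠ 0 := by rintro rfl; omega
  have hord : orderOf ((s * t) ^ m) = p := by
    rw [orderOf_pow_of_dvd hm0 ⟨p, by rw [hm, mul_comm]⟩, hm, Nat.mul_div_cancel _ (Nat.pos_of_ne_zero hm0)]
  have hN : (Subgroup.zpowers ((s * t) ^ m)).Normal := by
    rw [← Subgroup.normalizer_eq_top_iff, eq_top_iff, ← hcl, Subgroup.closure_le]
    have key : ∀ u : G, u * (s * t) * u⁻¹ = (s * t)⁻¹ →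
        u ∈ Subgroup.normalizer (Subgroup.zpowers ((s * t) ^ m) : Set G) := by
      intro u hu
      rw [Subgroup.mem_normalizer_iff_map_conj_eq, MonoidHom.map_zpowers]
      show Subgroup.zpowers (u * (s * t) ^ m * u⁻¹) = _
      rw [← conj_pow, hu, inv_pow, Subgroup.zpowers_inv]
    rintro u (rfl | rfl)
    · apply key
      rw [mul_inv_rev, hti, hsi, ← mul_assoc, hs2, one_mul]
    · apply key
      rw [mul_inv_rev, hti, hsi, mul_assoc, mul_assoc, ht2, mul_one]
  have htr : MulAction.IsPretransitive (Subgroup.zpowers ((s * t) ^ m)) Ω := by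
    apply MulAction.IsQuasiPreprimitive.isPretransitive_of_normal
    intro hfix
    have h1 : Subgroup.zpowers ((s * t) ^ m) ≤ MulAction.stabilizer G a := by
      intro x hx
      have : a ∈ MulAction.fixedPoints (Subgroup.zpowers ((s * t) ^ m)) Ω := by
        rw [hfix]; trivial
      exact this ⟨x, hx⟩
    have h3 := H62.normal_eq_bot_of_le_stabilizer _ hN a h1
    rw [Subgroup.zpowers_eq_bot] at h3
    rw [h3, orderOf_one] at hord
    exact hp.one_lt.ne hord
  have hdvd := H62.card_eq_card_mul_card_stabilizer (G := Subgroup.zpowers ((s * t) ^ m)) a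
  rw [Nat.card_zpowers, hord, hΩ] at hdvd
  have := (Nat.dvd_prime hp).1 ⟨_, hdvd⟩
  rcases this with h | h
  · exact absurd h ho
  · rw [h]; exact hp

end Cfsg.Agent.S3684
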