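import Cfsg.Statements.S3696
import Cfsg.Agent.H62.PermBasic

set_option autoImplicit false
open Cfsg

namespace Cfsg.Agent.S3696

theorem ineq1 (s x : ℕ) (hs : 1 ≤ s) (hx : 2 ^ s ≤ x) : x * s ^ s ≤ x ^ s := by
  obtain ⟨t, rfl⟩ : ∃ t, s = t + 1 := ⟨s - 1, by omega⟩
  have h1 : t + 1 ≤ 2 ^ t := Nat.lt_two_pow_self
  rw [pow_succ' x]
  apply Nat.mul_le_mul_left
  calc (t + 1) ^ (t + 1) ≤ (2 ^ t) ^ (t + 1) := Nat.pow_le_pow_left h1 _
    _ = (2 ^ (t + 1)) ^ t := by rw [← pow_mul, ← pow_mul, mul_comm]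
    _ ≤ x ^ t := Nat.pow_le_pow_left hx _

theorem ineq2 (s t x y : ℕ) (hs : 1 ≤ s) :
    x ^ s * y ^ t * (s + t) ^ (s + t) ≤ (x + y) ^ (s + t) * (s ^ s * t ^ t) := by
  rcases Nat.eq_zero_or_pos t with rfl | ht
  · simp only [pow_zero, mul_one, add_zero]
    exact Nat.mul_le_mul_right _ (Nat.pow_le_pow_left (Nat.le_add_right x y) _)
  have hs' : (0 : ℝ) < s := by exact_mod_cast hs
  have ht' : (0 : ℝ) < t := by exact_mod_cast ht
  have hst : (0 : ℝ) < s + t := by positivity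
  have h := Real.geom_mean_le_arith_mean2_weighted (w₁ := s / (s + t)) (w₂ := t / (s + t))
    (p₁ := x / s) (p₂ := y / t) (by positivity) (by positivity) (by positivity) (by positivity)
    (by field_simp)
  have h2 := pow_le_pow_left₀ (by positivity) h (s + t)
  rw [mul_pow, ← Real.rpow_natCast, ← Real.rpow_natCast (_ ^ _), ← Real.rpow_mul (by positivity),
    ← Real.rpow_mul (by positivity)] at h2
  have e1 : (s : ℝ) / (s + t) * ((s + t : ℕ) : ℝ) = s := by push_cast; field_simp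
  have e2 : (t : ℝ) / (s + t) * ((s + t : ℕ) : ℝ) = t := by push_cast; field_simp
  have e3 : (s : ℝ) / (s + t) * (x / s) + t / (s + t) * (y / t) = (x + y) / (s + t) := by field_simp
  rw [e1, e2, e3, Real.rpow_natCast, Real.rpow_natCast, div_pow, div_pow, div_pow, div_mul_div_comm,
    div_le_div_iff₀ (by positivity) (by positivity)] at h2
  exact_mod_cast h2

theorem main {A Ω : Type*} [CommGroup A] [Finite A] [MulAction A Ω] [Finite Ω] (p : ℕ) (hp : p.Prime)
    (hA : IsPGroup p A) (B : Subgroup A) (S : Set Ω) (k : ℕ) (hinv : ∀ b ∈ B, ∀ x ∈ S, b • x ∈ S)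
    (hfaith : ∀ b ∈ B, (∀ x ∈ S, b • x = x) → b = 1)
    (hk : Nat.card ↥(B ⊓ (powMonoidHom p : A →* A).ker) = p ^ k) :
    Nat.card B * k ^ k ≤ S.ncard ^ k := by
  have := Fact.mk hp
  induction k using Nat.strong_induction_on generalizing B S with
  | _ k ih =>
  set E := (powMonoidHom p : A →* A).ker with hE
  rcases Nat.eq_zero_or_pos k with rfl | hkpos
  · simp only [pow_zero, mul_one]
    rw [pow_zero, Subgroup.card_eq_one] at hk
    by_contra hB
    obtain ⟨m, hm⟩ := IsPGroup.iff_card.1 (hA.to_subgroup B)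
    have : p ∣ Nat.card B := by
      rw [hm]
      apply dvd_pow_self
      rintro rfl
      exact hB (by rw [hm, pow_zero])
    obtain ⟨x, hx⟩ := exists_prime_orderOf_dvd_card' p this
    have h1 : (x : A) ∈ B ⊓ E := ⟨x.2, by
      show (x : A) ^ p = 1
      rw [← hx, ← Subgroup.coe_pow, pow_orderOf_eq_one, Subgroup.coe_one]⟩
    rw [hk, Subgroup.mem_bot] at h1
    have : x = 1 := Subtype.ext h1
    rw [this, orderOf_one] at hx
    exact hp.one_lt.ne hx
  have hne : B ⊓ E ≠ ⊥ := by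
    intro h
    rw [h, Subgroup.card_bot] at hk
    exact (Nat.one_lt_pow hkpos.ne' hp.one_lt).ne hk
  obtain ⟨⟨e, he⟩, he1⟩ := Subgroup.ne_bot_iff_exists_ne_one.1 hne
  have he1' : e ≠ 1 := fun h => he1 (Subtype.ext h)
  obtain ⟨x, hxS, hx⟩ : ∃ x ∈ S, e • x ≠ x := by
    by_contra h
    push Not at h
    exact he1' (hfaith e he.1 h)
  set T := MulAction.stabilizer A x with hT
  have hlt : (B ⊓ T) ⊓ E < B ⊓ E := by
    refine lt_of_le_of_ne (inf_le_inf_right _ inf_le_left) (fun h => ?_)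
    rw [← h] at he
    exact hx he.1.2
  obtain ⟨t, -, ht⟩ := (Nat.dvd_prime_pow hp).1 (hk ▸ Subgroup.card_dvd_of_le hlt.le)
  have htk : t < k := by
    have h1 := Subgroup.card_le_of_le hlt.le
    have h2 : Nat.card ↥((B ⊓ T) ⊓ E) ≠ Nat.card ↥(B ⊓ E) := fun h =>
      hlt.ne (Subgroup.eq_of_le_of_card_ge hlt.le h.ge)
    rw [ht, hk] at h1 h2
    exact (Nat.pow_lt_pow_iff_right hp.one_lt).1 (lt_of_le_of_ne h1 h2)
  have hsub : MulAction.orbit B x ⊆ S := by
    rintro _ ⟨b, rfl⟩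
    exact hinv b b.2 x hxS
  have ih' := ih t htk (B ⊓ T) (S \ MulAction.orbit B x) (by
      rintro b hb y ⟨hy, hy'⟩
      refine ⟨hinv b hb.1 y hy, fun h' => hy' ?_⟩
      obtain ⟨c, hc⟩ := h'
      refine ⟨⟨b, hb.1⟩⁻¹ * c, ?_⟩
      show (b⁻¹ * (c : A)) • x = y
      rw [mul_smul, show (c : A) • x = b • y from hc, inv_smul_smul])
    (by
      intro b hb h
      apply hfaith b hb.1
      intro y hy
      by_cases hy' : y ∈ MulAction.orbit B x
      · obtain ⟨c, rfl⟩ := hy'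
        show b • (c : A) • x = (c : A) • x
        rw [smul_smul, mul_comm, mul_smul, show b • x = x from hb.2]
      · exact h y ⟨hy, hy'⟩) ht
  obtain ⟨s, rfl⟩ : ∃ s, k = s + t := ⟨k - t, by omega⟩
  have hs : 1 ≤ s := by omega
  have hcard := Set.ncard_sdiff_add_ncard_of_subset hsub (Set.toFinite S)
  have hx1 : (MulAction.orbit B x).ncard = T.relIndex B := by
    rw [← Nat.card_coe_set_eq, H62.card_orbit_subgroup_eq_relIndex]
  have hB : Nat.card B = T.relIndex B * Nat.card ↥(B ⊓ T) := by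
    rw [← Subgroup.inf_relIndex_left, Subgroup.relIndex, ← Subgroup.index_mul_card ((B ⊓ T).subgroupOf B),
      Nat.card_congr (Subgroup.subgroupOfEquivOfLe (inf_le_left : B ⊓ T ≤ B)).toEquiv]
  have hBE : Nat.card ↥(B ⊓ E) = T.relIndex (B ⊓ E) * Nat.card ↥((B ⊓ T) ⊓ E) := by
    rw [← Subgroup.inf_relIndex_left, Subgroup.relIndex,
      ← Subgroup.index_mul_card (((B ⊓ E) ⊓ T).subgroupOf (B ⊓ E)),
      Nat.card_congr (Subgroup.subgroupOfEquivOfLe (inf_le_left : (B ⊓ E) ⊓ T ≤ (B ⊓ E))).toEquiv,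
      inf_right_comm]
  have hps : T.relIndex (B ⊓ E) = p ^ s := by
    rw [hk, ht, pow_add] at hBE
    exact (Nat.eq_of_mul_eq_mul_right (pow_pos hp.pos t) hBE).symm
  have hle : 2 ^ s ≤ T.relIndex B := by
    calc 2 ^ s ≤ p ^ s := Nat.pow_le_pow_left hp.two_le _
      _ = T.relIndex (B ⊓ E) := hps.symm
      _ ≤ T.relIndex B := Subgroup.relIndex_le_of_le_right inf_le_left Subgroup.index_ne_zero_of_finite
  have i1 := ineq1 s _ hs hle
  have i2 := ineq2 s t (T.relIndex B) (S \ MulAction.orbit B x).ncard hs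
  rw [← hcard, hx1, hB, add_comm (S \ MulAction.orbit B x).ncard]
  have hpos : 0 < s ^ s * t ^ t := by
    apply Nat.mul_pos (pow_pos hs s)
    rcases Nat.eq_zero_or_pos t with rfl | h
    · simp
    · exact pow_pos h t
  apply Nat.le_of_mul_le_mul_right _ hpos
  refine le_trans ?_ i2
  calc T.relIndex B * Nat.card ↥(B ⊓ T) * (s + t) ^ (s + t) * (s ^ s * t ^ t)
      = (T.relIndex B * s ^ s) * (Nat.card ↥(B ⊓ T) * t ^ t) * (s + t) ^ (s + t) := by ring
    _ ≤ _ := Nat.mul_le_mul_right _ (Nat.mul_le_mul i1 ih')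


/-- Let p be a prime, Ω a finite set with n ≥ p elements, and A an abelian p-subgroup of the symmetric group on Ω whose elements of order dividing p number p^k (so k is the rank of A). Then |A| · k^k ≤ n^k, that is, |A| ≤ (n/k)^k. -/
theorem result {Ω : Type*} [Fintype Ω] [DecidableEq Ω]
    (p : ℕ) (hp : p.Prime) (hn : p ≤ Fintype.card Ω) (A : Subgroup (Equiv.Perm Ω)) (hA : IsPGroup p A) (hab : IsMulCommutative A)
    (k : ℕ) (hk : Nat.card {x : A // x ^ p = 1} = p ^ k) :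
    Nat.card A * k ^ k ≤ Fintype.card Ω ^ k := by
  letI : CommGroup A := { mul_comm := fun a b => hab.is_comm.comm a b }
  have := main (A := A) (Ω := Ω) p hp hA ⊤ Set.univ k (fun _ _ _ _ => trivial)
    (fun b _ h => Subtype.ext (Equiv.ext fun x => h x trivial)) (by
      rw [← hk, top_inf_eq]
      rfl)
  rwa [Subgroup.card_top, Set.ncard_univ, Nat.card_eq_fintype_card (α := Ω)] at this

end Cfsg.Agent.S3696
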