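import Cfsg.Statements.S3703
import Cfsg.Agent.H57.GK
import Cfsg.Agent.S0035
import Cfsg.Agent.S0039

set_option autoImplicit false
open Cfsg

namespace Cfsg.Agent.S3703

/-- Let N be a normal subgroup of the finite group G such that G/N is a Frobenius group with kernel F and cyclic complement H, where the order of F is coprime to that of N and F is not contained in the image of C_G(N) in G/N. Then G has an element of order p·#H for some prime p dividing the order of N. (A standard tool in recognising groups by their element orders.) -/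
theorem result {G : Type*} [Group G] [Finite G] (N : Subgroup G) [N.Normal]
    (Fb Hb : Subgroup (G ⧸ N)) [Fb.Normal] (hHb : Cfsg.IsFrobeniusComplement Hb) (hker : Cfsg.frobeniusKernel Hb = (Fb : Set (G ⧸ N)))
    (hcyc : IsCyclic Hb) (hcop : (Nat.card Fb).Coprime (Nat.card N))
    (hnot : ¬ Fb ≤ (Subgroup.centralizer (N : Set G)).map (QuotientGroup.mk' N)) :
    ∃ p : ℕ, p.Prime ∧ p ∣ Nat.card N ∧ ∃ g : G, orderOf g = p * Nat.card Hb := by
  open Cfsg.Agent.H63 Cfsg.Agent.H67 Cfsg.Agent.H57 in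
  by_contra hcon
  obtain ⟨K, hK, -, hcompl⟩ := Cfsg.Agent.S0035.result Hb hHb
  obtain rfl : Fb = K := SetLike.coe_injective (hker.symm.trans hK.symm)
  have hFb : Fb ≠ ⊥ := by rintro rfl; exact hnot bot_le
  have hfpf0 := (Cfsg.Agent.S0039.result Fb Hb hcompl hFb hHb.1).1 hHb
  have hfpf : ∀ g : G ⧸ N, g ∉ Fb → ∀ f ∈ Fb, g * f = f * g → f = 1 := by
    intro g hg f hf hc
    rw [← SetLike.mem_coe, ← hker] at hg
    simp only [Cfsg.frobeniusKernel, Set.mem_setOf_eq, not_or, not_forall, not_not] at hg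
    obtain ⟨hg1, c, hc'⟩ := hg
    rw [Subgroup.mem_pointwise_smul_iff_inv_smul_mem] at hc'
    have h1 : c⁻¹ * g * c ∈ Hb := by simpa using hc'
    have h2 : c⁻¹ * f * c ∈ Fb ⊓ Subgroup.centralizer {c⁻¹ * g * c} := by
      refine ⟨by simpa using (inferInstance : Fb.Normal).conj_mem f hf c⁻¹,
        Subgroup.mem_centralizer_singleton_iff.2 ?_⟩
      calc c⁻¹ * f * c * (c⁻¹ * g * c) = c⁻¹ * (f * g) * c := by group
        _ = c⁻¹ * (g * f) * c := by rw [hc]
        _ = _ := by group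
    rw [hfpf0 _ h1 (by
      intro h; apply hg1
      calc g = c * (c⁻¹ * g * c) * c⁻¹ := by group
        _ = 1 := by rw [h]; group), Subgroup.mem_bot] at h2
    calc f = c * (c⁻¹ * f * c) * c⁻¹ := by group
      _ = 1 := by rw [h2]; group
  set π := QuotientGroup.mk' N with hπ
  have hπs : Function.Surjective π := QuotientGroup.mk'_surjective N
  obtain ⟨⟨h₀, hh₀⟩, hgen⟩ := hcyc.exists_generator
  have hord : orderOf h₀ = Nat.card Hb := by
    rw [← orderOf_eq_card_of_forall_mem_zpowers hgen, Subgroup.orderOf_mk]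
  set n := Nat.card Hb with hn
  have hn2 : 1 < n := Subgroup.one_lt_card_iff_ne_bot _ |>.2 hHb.1
  let ψ := QuotientGroup.mk' Fb
  have hpow : ∀ y : G, ψ (π y) = ψ h₀ → ∀ i, π y ^ i ∈ Fb ↔ n ∣ i := by
    intro y hy i
    rw [← QuotientGroup.eq_one_iff, ← hord, orderOf_dvd_iff_pow_eq_one]
    change ψ (π y ^ i) = 1 ↔ _
    rw [map_pow, hy, ← map_pow]
    change ((h₀ ^ i : G ⧸ N) : (G ⧸ N) ⧸ Fb) = 1 ↔ _
    rw [QuotientGroup.eq_one_iff]
    exact ⟨fun h => Subgroup.disjoint_def.1 hcompl.disjoint h (Hb.pow_mem hh₀ i),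
      fun h => h ▸ Fb.one_mem⟩
  have hy1 : ∀ y : G, ψ (π y) = ψ h₀ → y ^ n = 1 := by
    intro y hy
    by_contra hne
    apply hcon
    refine exists_orderOf_mul_of_pow_ne (y := y) ?_ ?_ hne
    · rw [← hpow y hy, ← map_pow, pow_orderOf_eq_one, map_one]; exact Fb.one_mem
    · rw [← QuotientGroup.eq_one_iff]
      change π (y ^ n) = 1
      rw [map_pow]
      refine hfpf (π y) ?_ _ ((hpow y hy n).2 dvd_rfl) (Commute.self_pow _ _)
      have := (hpow y hy 1).not.2 (Nat.not_dvd_of_pos_of_lt one_pos hn2)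
      rwa [pow_one] at this
  let F : Subgroup G := Fb.comap π
  have hNF : N ≤ F := QuotientGroup.le_comap_mk' N Fb
  obtain ⟨r, hr, hrd, R, hR, hRC⟩ : ∃ r : ℕ, r.Prime ∧ r ∣ Nat.card Fb ∧ ∃ R, IsSyl r R F ∧
      ¬ R ≤ C[N] := by
    by_contra h
    push Not at h
    refine hnot (le_of_forall_syl_le fun q hq hd => ?_)
    haveI := Fact.mk hq
    obtain ⟨R, hR⟩ := exists_syl (p := q) F
    refine ⟨R.map π, ?_, Subgroup.map_mono (h q hq hd R hR)⟩
    have := hall_map hR π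
    rwa [Subgroup.map_comap_eq_self_of_surjective hπs] at this
  haveI := Fact.mk hr
  have hRN : (Nat.card R).Coprime (Nat.card N) := by
    obtain ⟨k, hk⟩ := IsPGroup.iff_card.1 (syl_isPGroup hR)
    rw [hk]
    exact Nat.Coprime.pow_left _ (hcop.coprime_dvd_left hrd)
  obtain ⟨p, hp, P, hP, hRP, hRPC⟩ : ∃ p : ℕ, p.Prime ∧ ∃ P, IsSyl p P N ∧ R ≤ N[P] ∧
      ¬ R ≤ C[P] := by
    by_contra h
    push Not at h
    refine hRC (Subgroup.le_centralizer_iff.1 (le_of_forall_syl_le fun q hq _ => ?_))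
    haveI := Fact.mk hq
    obtain ⟨P, hP⟩ := Cfsg.Agent.H4.exists_invariant_sylow (A := R) (K := N)
      Subgroup.le_normalizer_of_normal hRN (Or.inl (isSolvable_of_isPGroup hr (syl_isPGroup hR))) q
    exact ⟨_, syl_map_sylow P, Subgroup.le_centralizer_iff.1 (h q hq _ (syl_map_sylow P) hP)⟩
  haveI := Fact.mk hp
  have f2 := frattini_isMul (M := ⊤) ⟨le_top, Subgroup.le_normalizer_of_normal⟩ hP
  have hR' : IsSyl r R (F ⊓ N[P]) := hall_of_le hR (le_inf hR.1 hRP) inf_le_left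
  have f3 := frattini_isMul (M := N[P]) (N := F ⊓ N[P])
    ⟨inf_le_right, le_normalizer_inf Subgroup.le_normalizer_of_normal Subgroup.le_normalizer⟩ hR'
  obtain ⟨g₀, hg₀⟩ := hπs h₀
  obtain ⟨a, ha, b, hb, rfl⟩ := f2.2.2 g₀ (Subgroup.mem_top _)
  obtain ⟨c, hc, h, hh, rfl⟩ := f3.2.2 b hb.2
  have hF1 : ∀ x ∈ F, ψ (π x) = 1 := fun x hx => (QuotientGroup.eq_one_iff _).2 hx
  have hh' : ψ (π h) = ψ h₀ := by
    rw [← hg₀, map_mul, map_mul, map_mul, map_mul, hF1 a (hNF ha), hF1 c hc.1, one_mul, one_mul]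
  refine hRPC (le_cent_of_norm_trivial (n := n) (by omega) (syl_isPGroup hP).isNilpotent hRP hh.1 hh.2
    (hRN.coprime_dvd_right (Subgroup.card_dvd_of_le hP.1)) ?_ ?_)
  · intro i h0 hi ρ hρ hc
    have h1 := hfpf (π h ^ i) ((hpow h hh' i).not.2 (Nat.not_dvd_of_pos_of_lt h0 hi)) (π ρ)
      (hR.1 hρ) (by rw [← map_pow, ← map_mul, hc, map_mul])
    exact Subgroup.disjoint_def.1 (Subgroup.disjoint_of_coprime_natCard hRN) hρ
      ((QuotientGroup.eq_one_iff _).1 h1)
  · intro v hv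
    rw [hy1 h hh', hy1 _ (by rw [map_mul, map_mul, hF1 v (hNF (hP.1 hv)), one_mul, hh'])]

end Cfsg.Agent.S3703
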