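import Cfsg.Statements.S3708
import Cfsg.Agent.H31.PhanRec

set_option autoImplicit false
open Cfsg

namespace Cfsg.Agent.S3708

open Cfsg.Agent.H31

/-- Phan's recognition of unitary groups. Let F be a finite field with q² elements, q > 4, and n ≥ 2. Let G be a group generated by subgroups U_0, …, U_{n−1}, each isomorphic to the special unitary group SU(2, q²) (determinant-one isometries of the standard Hermitian form in two variables over F), and let D_i ≤ U_i be cyclic subgroups of order q + 1. Suppose that U_i and U_j commute elementwise whenever the indices differ by at least 2, that the subgroup generated by U_i and U_{i+1} is isomorphic to SU(3, q²) for each i, and that D_i and D_j commute elementwise for all i, j. Then G is a homomorphic image of SU(n+1, q²). (Generation of G by the U_i is part of the hypothesis; G is not assumed finite.) -/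
theorem result {G : Type*} [Group G] (n : ℕ) (hn : 2 ≤ n)
    (F : Type*) [Field F] [Fintype F] (q : ℕ) (hq : 4 < q) (hF : Fintype.card F = q ^ 2)
    (U : Fin n → Subgroup G) (e : ∀ i, ↥(Cfsg.SU 2 F q) ≃* ↥(U i)) (hgen : ⨆ i, U i = ⊤)
    (D : Fin n → Subgroup G) (hD : ∀ i, D i ≤ U i ∧ IsCyclic ↥(D i) ∧ Nat.card ↥(D i) = q + 1)
    (h1 : ∀ i j : Fin n, (i : ℕ) + 2 ≤ j → ∀ x ∈ U i, ∀ y ∈ U j, x * y = y * x)
    (h2 : ∀ i j : Fin n, (i : ℕ) + 1 = j → Nonempty (↥(U i ⊔ U j) ≃* ↥(Cfsg.SU 3 F q)))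
    (h3 : ∀ i j : Fin n, i ≠ j → ∀ x ∈ D i, ∀ y ∈ D j, x * y = y * x) :
    ∃ f : ↥(Cfsg.SU (n + 1) F q) →* G, Function.Surjective f := by
  have hD' : ∀ i, ∃ d ∈ D i, d ≠ 1 ∧ d ^ (q + 1) = 1 := fun i => by
    have : Nontrivial (D i) := by
      have := Nat.finite_of_card_ne_zero (α := D i) (by rw [(hD i).2.2]; omega)
      exact Finite.one_lt_card_iff_nontrivial.mp (by rw [(hD i).2.2]; omega)
    obtain ⟨d, hd⟩ := exists_ne (1 : D i)
    exact ⟨d, d.2, fun h => hd (Subtype.ext h), by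
      rw [← (hD i).2.2, ← Subgroup.coe_pow, pow_card_eq_one', Subgroup.coe_one]⟩
  refine phan_three hF (U₂ := seq₂ U) (U₃ := fun l => seq₂ U l ⊔ seq₂ U (l + 1)) hq.le (by omega)
    (fun l hl => ?_) (seq_comm h1) fun K hK _ => top_le_iff.mp (hgen ▸ iSup_le fun i =>
      (seq₂_eq U i.2).symm.le.trans (hK i (by omega)))
  have e1 := seq₂_eq U (show l < n by omega)
  have e2 := seq₂_eq U (show l + 1 < n by omega)
  obtain ⟨d, h4, h5, h6⟩ := hD' ⟨l, by omega⟩
  obtain ⟨d', h4', h5', h6'⟩ := hD' ⟨l + 1, by omega⟩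
  obtain ⟨ε⟩ := h2 ⟨l, by omega⟩ ⟨l + 1, by omega⟩ rfl
  exact hasGood_of_equiv hF rfl ((e _).trans (MulEquiv.subgroupCongr e1.symm))
    ((e _).trans (MulEquiv.subgroupCongr e2.symm))
    ((MulEquiv.subgroupCongr (by rw [e1, e2])).trans ε) (e1 ▸ (hD _).1 h4) (e2 ▸ (hD _).1 h4')
    h5 h5' h6 h6' (h3 _ _ (by simp) d h4 d' h4')

end Cfsg.Agent.S3708
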