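import Cfsg.Statements.S3713
import Cfsg.Agent.H35.SpAm3

set_option autoImplicit false
open Cfsg

namespace Cfsg.Agent.S3713

open H78 H26 H80 H35 in
theorem isLift_comp {Γ G G' : Type*} [Group Γ] [Group G] [Group G'] {π : Γ →* G} {j : G →* G'}
    (hj : Function.Bijective j) {X : Subgroup G} {X' : Subgroup G'} {Y : Subgroup Γ}
    (h : IsLift π X Y) (e : ∀ g, g ∈ X ↔ j g ∈ X') : IsLift (j.comp π) X' Y :=
  ⟨fun y hy => (e _).1 (h.map y hy), fun y hy e' => h.inj y hy (hj.1 (e'.trans j.map_one.symm)),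
    fun x hx => by
      obtain ⟨g, rfl⟩ := hj.2 x
      obtain ⟨y, hy, rfl⟩ := h.surj g ((e g).2 hx)
      exact ⟨y, hy, rfl⟩⟩

open H78 H26 in
/-- The standard frame. -/
noncomputable def fr (F : Type*) [Field F] (n : ℕ) :
    Frame (sympP (H27.isSymplecticForm_sympForm (F := F) n)) n where
  e a := if a.2 then -Pi.single (.inr a.1) 1 else Pi.single (.inl a.1) 1
  sing _ := trivial
  orth := by
    rintro ⟨i, _ | _⟩ ⟨j, _ | _⟩ h <;> change sympForm n F _ _ = 0 <;>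
      simp_all [sympForm, Matrix.J, ng, Matrix.mulVec_neg, eq_comm]
  pair := by
    rintro ⟨i, _ | _⟩ <;> change sympForm n F _ _ ≠ 0 <;>
      simp [sympForm, Matrix.J, ng, Matrix.mulVec_neg]

/-- A presentation of the symplectic group as the universal completion of an amalgam of small subgroups. Let F be a field with more than two elements, n ≥ 2, and Sp the group of 2n × 2n matrices over F preserving the standard alternating form, acting on column vectors; write e_k, f_k for the standard basis vectors of the two halves (a hyperbolic basis). For each k let S_k be the subgroup of Sp fixing e_l and f_l for all l ≠ k (a copy of SL(2, F) on the plane of e_k, f_k), and for each i with i + 1 < n let M_i be the subgroup fixing every e_l and fixing f_l for all l other than i, i+1 (an abelian group isomorphic to the additive group of F³). Then Sp is the universal completion of the amalgam formed by the S_k, the M_i and the subgroups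 generated by two of them: for every group H and homomorphisms σ_k : S_k → H, μ_i : M_i → H such that for each pair of these subgroups some homomorphism on the subgroup they generate restricts to the given ones, there is exactly one homomorphism Sp → H restricting to every σ_k and μ_i. -/
theorem result
    (F : Type*) [Field F] (hF : ∃ a : F, a ≠ 0 ∧ a ≠ 1) (n : ℕ) (hn : 2 ≤ n)
    (S M : Fin n → Subgroup ↥(Matrix.symplecticGroup (Fin n) F))
    (hS : ∀ j : Fin n, S j = Subgroup.closure {A : ↥(Matrix.symplecticGroup (Fin n) F) | ∀ k : Fin n, k ≠ j →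
      ((A : ↥(Matrix.symplecticGroup (Fin n) F)) : Matrix (Fin n ⊕ Fin n) (Fin n ⊕ Fin n) F).mulVec (Pi.single (Sum.inl k) (1 : F)) = (Pi.single (Sum.inl k) (1 : F)) ∧ ((A : ↥(Matrix.symplecticGroup (Fin n) F)) : Matrix (Fin n ⊕ Fin n) (Fin n ⊕ Fin n) F).mulVec (Pi.single (Sum.inr k) (1 : F)) = (Pi.single (Sum.inr k) (1 : F))})
    (hM : ∀ i : Fin n, (i : ℕ) + 1 < n → M i = Subgroup.closure {A : ↥(Matrix.symplecticGroup (Fin n) F) |
      (∀ k : Fin n, ((A : ↥(Matrix.symplecticGroup (Fin n) F)) : Matrix (Fin n ⊕ Fin n) (Fin n ⊕ Fin n) F).mulVec (Pi.single (Sum.inl k) (1 : F)) = (Pi.single (Sum.inl k) (1 : F))) ∧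
        ∀ k : Fin n, (k : ℕ) ≠ i → (k : ℕ) ≠ (i : ℕ) + 1 → ((A : ↥(Matrix.symplecticGroup (Fin n) F)) : Matrix (Fin n ⊕ Fin n) (Fin n ⊕ Fin n) F).mulVec (Pi.single (Sum.inr k) (1 : F)) = (Pi.single (Sum.inr k) (1 : F))})
    {H : Type*} [Group H] (σ : ∀ j : Fin n, ↥(S j) →* H) (μ : ∀ i : Fin n, ↥(M i) →* H)
    (hSS : ∀ j l : Fin n, j ≠ l → ∃ Ψ : ↥(S j ⊔ S l) →* H,
      (∀ (g : ↥(Matrix.symplecticGroup (Fin n) F)) (hg : g ∈ S j), Ψ ⟨g, Subgroup.mem_sup_left hg⟩ = σ j ⟨g, hg⟩) ∧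
        (∀ (g : ↥(Matrix.symplecticGroup (Fin n) F)) (hg : g ∈ S l), Ψ ⟨g, Subgroup.mem_sup_right hg⟩ = σ l ⟨g, hg⟩))
    (hMM : ∀ i i' : Fin n, i ≠ i' → (i : ℕ) + 1 < n → (i' : ℕ) + 1 < n → ∃ Ψ : ↥(M i ⊔ M i') →* H,
      (∀ (g : ↥(Matrix.symplecticGroup (Fin n) F)) (hg : g ∈ M i), Ψ ⟨g, Subgroup.mem_sup_left hg⟩ = μ i ⟨g, hg⟩) ∧
        (∀ (g : ↥(Matrix.symplecticGroup (Fin n) F)) (hg : g ∈ M i'), Ψ ⟨g, Subgroup.mem_sup_right hg⟩ = μ i' ⟨g, hg⟩))
    (hMS : ∀ i j : Fin n, (i : ℕ) + 1 < n → ∃ Ψ : ↥(M i ⊔ S j) →* H,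
      (∀ (g : ↥(Matrix.symplecticGroup (Fin n) F)) (hg : g ∈ M i), Ψ ⟨g, Subgroup.mem_sup_left hg⟩ = μ i ⟨g, hg⟩) ∧
        (∀ (g : ↥(Matrix.symplecticGroup (Fin n) F)) (hg : g ∈ S j), Ψ ⟨g, Subgroup.mem_sup_right hg⟩ = σ j ⟨g, hg⟩)) :
    ∃! Φ : ↥(Matrix.symplecticGroup (Fin n) F) →* H,
      (∀ (j : Fin n) (g : ↥(Matrix.symplecticGroup (Fin n) F)) (hg : g ∈ S j), Φ g = σ j ⟨g, hg⟩) ∧
        (∀ (i : Fin n), (i : ℕ) + 1 < n → ∀ (g : ↥(Matrix.symplecticGroup (Fin n) F)) (hg : g ∈ M i), Φ g = μ i ⟨g, hg⟩) := by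
  classical
  have hV := (fr F n).V0_eq_bot (by simp [two_mul])
  have hL : H80.Lng (H26.sympP (H27.isSymplecticForm_sympForm (F := F) n)) (RingHom.id F) 1 :=
    ⟨one_ne_zero, fun ν => ⟨fun _ => ⟨ν, mul_one ν⟩, fun _ => trivial⟩, fun _ => rfl⟩
  have hN : (fr F n).Norm := fun i => by
    change sympForm n F _ _ = 1
    simp [fr, sympForm, Matrix.J, Matrix.mulVec_neg]
  let j := (H26.gl.toMonoidHom.comp (H27.spToGL n F)).codRestrict
    (H26.sympP (H27.isSymplecticForm_sympForm (F := F) n)).E fun g =>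
      (H26.mem_spGL_iff _).1 (H27.range_spToGL.le ⟨g, rfl⟩)
  have hj : Function.Bijective j := ⟨fun x y e => H27.spToGL_injective (H26.gl.injective
    (congrArg Subtype.val e)), fun ⟨x, hx⟩ => by
      obtain ⟨x, rfl⟩ := H26.gl.surjective x
      obtain ⟨y, rfl⟩ := H27.range_spToGL.ge ((H26.mem_spGL_iff x).2 hx)
      exact ⟨y, rfl⟩⟩
  have e1 : ∀ g k, (j g).1 ((fr F n).e (k, false)) = (fr F n).e (k, false) ↔
      g.1.mulVec (Pi.single (.inl k) 1) = Pi.single (.inl k) 1 := fun _ _ => Iff.rfl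
  have e2 : ∀ g k, (j g).1 ((fr F n).e (k, true)) = (fr F n).e (k, true) ↔
      g.1.mulVec (Pi.single (.inr k) 1) = Pi.single (.inr k) 1 := fun g k => by
    change (j g).1 (-_) = -_ ↔ _
    rw [map_neg, neg_inj]
    rfl
  have h1 : ∀ k g, g ∈ S k ↔ j g ∈ H35.LE (fr F n) (k, false) := fun k g => by
    rw [hS]
    refine ⟨fun hg => (Subgroup.closure_le ((H35.LE (fr F n) (k, false)).comap j)).2
      (fun g hg => H35.mem_LE_of_fix hV hL hN ?_) hg, fun hg => Subgroup.subset_closure fun l hl =>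
        ⟨(e1 g l).1 (H35.LE_fix hg hl), (e2 g l).1 (H35.LE_fix hg hl)⟩⟩
    rintro ⟨l, _ | _⟩ hl
    exacts [(e1 g l).2 (hg l hl).1, (e2 g l).2 (hg l hl).2]
  have h2 : ∀ (i : Fin n) h g, g ∈ M i ↔ j g ∈ H35.RE (fr F n) (i, false) (⟨i + 1, h⟩, false) :=
    fun i h g => by
    rw [hM i h]
    refine ⟨fun hg => (Subgroup.closure_le ((H35.RE (fr F n) _ _).comap j)).2
      (fun g hg => H35.mem_RE_of_fix hV hL (by simp [Fin.ext_iff]) ?_) hg,
      fun hg => Subgroup.subset_closure ⟨fun l => (e1 g l).1 (H35.RE_fix hg (by simp [H78.ng])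
        (by simp [H78.ng])), fun l h1 h2 => (e2 g l).1 (H35.RE_fix hg (by simpa [H78.ng, Fin.ext_iff])
          (by simpa [H78.ng, Fin.ext_iff]))⟩⟩
    rintro ⟨l, _ | _⟩ h1 h2
    exacts [(e1 g l).2 (hg.1 l), (e2 g l).2 (hg.2 l (by simpa [H78.ng, Fin.ext_iff] using h1)
      (by simpa [H78.ng, Fin.ext_iff] using h2))]
  obtain ⟨Φ, h3, h4⟩ := H35.universal_of_flat (κ := Fin n ⊕ {i : Fin n // i.val + 1 < n})
    (Sum.elim S fun i => M i.1) (Sum.rec σ fun i => μ i.1) (by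
      rintro (k | ⟨k, hk⟩) (l | ⟨l, hl⟩) e
      · exact hSS k l fun h => e (congrArg _ h)
      · obtain ⟨Ψ, h3, h4⟩ := hMS l k hl
        exact ⟨Ψ.comp (Subgroup.inclusion (sup_comm _ _).le), h4, h3⟩
      · exact hMS k l hk
      · exact hMM k l (fun h => e (by simp [h])) hk hl)
    fun Γ _ π L l1 l2 l3 => (Function.Bijective.of_comp_iff' hj π).1
      (H35.bijective_of_slim (π := j.comp π) hV hL hF hn (fun k => isLift_comp hj (l1 _) (h1 k))
        (fun i h => isLift_comp hj (l1 _) (h2 i h))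
        (fun k l y hy e => l2 k l y hy (hj.1 (e.trans j.map_one.symm))) l3)
  exact ⟨Φ, ⟨fun k => h3 (.inl k), fun i h => h3 (.inr ⟨i, h⟩)⟩, fun Φ' h =>
    h4 Φ' (Sum.rec h.1 fun i => h.2 i.1 i.2)⟩

end Cfsg.Agent.S3713
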