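import Cfsg.Statements.S3716
import Cfsg.Agent.H57.D8Main

set_option autoImplicit false
open Cfsg

namespace Cfsg.Agent.S3716

open Subgroup Cfsg.Agent.H57 Cfsg.Agent.H63 Cfsg.Agent.H67

/-- Let G be a finite group with an elementary abelian Sylow 3-subgroup M of order 9 which is self-centralizing (C_G(M) = M), let N = N_G(M), and suppose C_G(g) ≤ N for every nonidentity g ∈ M. If the Sylow 2-subgroups of N are dihedral of order 8, then G is not simple. -/
theorem result {G : Type*} [Group G] [Finite G] (M : Sylow 3 G) (hM9 : Nat.card ↥(M : Subgroup G) = 9)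
    (hMel : ∀ m ∈ (M : Subgroup G), m ^ 3 = 1)
    (hCM : Subgroup.centralizer ((M : Subgroup G) : Set G) = (M : Subgroup G))
    (N : Subgroup G) (hN : N = Subgroup.normalizer ((M : Subgroup G) : Set G))
    (hCg : ∀ g ∈ (M : Subgroup G), g ≠ 1 → Subgroup.centralizer ({g} : Set G) ≤ N)
    (hS : ∀ S : Sylow 2 ↥N, Nonempty (↥(S : Subgroup ↥N) ≃* DihedralGroup 4)) :
    ¬ IsSimpleGroup G := by
  subst hN
  have : Fact (Nat.Prime 3) := ⟨Nat.prime_three⟩
  have hcomm : IsMulCommutative (M : Subgroup G) := le_centralizer_iff_isMulCommutative.1 hCM.ge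
  have h : TIS M := ⟨hcomm, hCg⟩
  have hC : ∀ g : G, (∀ s ∈ (M : Subgroup G), g * s * g⁻¹ = s) → g ∈ (M : Subgroup G) := fun g hg =>
    hCM.le (mem_centralizer_iff.2 fun s hs => (mul_inv_eq_iff_eq_mul.1 (hg s hs)).symm)
  obtain ⟨S⟩ : Nonempty (Sylow 2 N[(M : Subgroup G)]) := inferInstance
  obtain ⟨e⟩ := hS S
  have h8 : Nat.card (S : Subgroup N[(M : Subgroup G)]) = 8 := by
    rw [Nat.card_congr e.toEquiv, DihedralGroup.nat_card]
  have hN : Nat.card N[(M : Subgroup G)] = 72 := by
    have d8 := (S : Subgroup N[(M : Subgroup G)]).card_mul_index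
    have d9 := card_dvd_of_le' (le_normalizer (H := (M : Subgroup G)))
    have d2 := S.not_dvd_index
    have d3 := M.not_dvd_index
    have d4 := (M : Subgroup G).card_mul_index
    have d5 := (N[(M : Subgroup G)]).card_subgroup_dvd_card
    rw [h8] at d8
    rw [hM9] at d9 d4
    obtain ⟨m, hm⟩ : 72 ∣ Nat.card N[(M : Subgroup G)] := by omega
    by_contra hc
    obtain ⟨p, hp, hpm⟩ := Nat.exists_prime_and_dvd (n := m) (by rintro rfl; omega)
    have p2 : p ≠ 2 := by rintro rfl; omega
    have p3 : p ≠ 3 := by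
      rintro rfl
      obtain ⟨k, rfl⟩ := hpm
      rw [hm, ← d4] at d5
      have := Dvd.dvd.trans (show 27 ∣ 72 * (3 * k) from ⟨8 * k, by ring⟩) d5
      omega
    obtain ⟨x, hx, hxp⟩ := exists_mem_orderOf_eq hp (hm ▸ hpm.mul_left 72)
    obtain ⟨v, hv, v1, hvx⟩ := exists_commute_of_card_mod hp hxp hx (by
      rw [hM9]
      intro h1
      have := (Nat.modEq_iff_dvd' (by norm_num)).1 h1.symm
      exact p2 ((Nat.prime_dvd_prime_iff_eq hp Nat.prime_two).1 (hp.dvd_of_dvd_pow (n := 3) this)))
    obtain ⟨w, hn⟩ := exists_nine' hM9 hcomm hMel hv v1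
    have e1 : x * v * x⁻¹ = v := by rw [← hvx.eq, mul_inv_cancel_right]
    have h6 : x * x * x * (x * x * x) ∈ (M : Subgroup G) := by
      refine hC _ (hn.mem_of_fix ?_ ?_)
      · have : Commute (x * x * x * (x * x * x)) v := by
          have := hvx.symm
          exact ((this.mul_left this).mul_left this).mul_left ((this.mul_left this).mul_left this)
        rw [this.eq, mul_inv_cancel_right]
      · obtain ⟨e, rfl, rfl, he⟩ := hn.coord
        obtain ⟨k, l, hk, hl, e2⟩ := he.ex _ (conj_mem_of_mem_normalizer hx hn.mb)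
        have l0 : l ≠ 0 := by
          rintro rfl
          have := he.cnj e1 e2 k 0
          rw [show e (k * 1 + 0 * k) (k * 0 + 0 * 0) = e k 0 by simp] at this
          have h7 : e k 0 = e 0 1 := by simpa using this.trans e2.symm
          simp [he.eq] at h7
        have h7 : x * x * x * (x * x * x) * e 0 1 * (x * x * x * (x * x * x))⁻¹ =
          x * (x * (x * (x * (x * (x * e 0 1 * x⁻¹) * x⁻¹) * x⁻¹) * x⁻¹) * x⁻¹) * x⁻¹ := by group
        rw [h7]
        simp only [he.cnj e1 e2, he.eq]
        interval_cases k <;> interval_cases l <;> simp at l0 ⊢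
    have h7 : x ^ 18 = 1 := by rw [← hMel _ h6]; simp [pow_succ, mul_assoc]
    have h9 := orderOf_dvd_of_pow_eq_one h7
    rw [hxp] at h9
    have := Nat.le_of_dvd (by norm_num) h9
    interval_cases p <;> simp_all (config := {decide := true})
  let f : DihedralGroup 4 →* G :=
    ((N[(M : Subgroup G)]).subtype.comp (S : Subgroup N[(M : Subgroup G)]).subtype).comp
      e.symm.toMonoidHom
  have hf : Function.Injective f :=
    (Subtype.val_injective.comp Subtype.val_injective).comp e.symm.injective
  have hfN : ∀ x, f x ∈ N[(M : Subgroup G)] := fun x => (e.symm x).1.2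
  obtain ⟨a, b, t, r, hD⟩ := exists_DS h hM9 hC hN (hfN (.r 1)) (hfN (.sr 0))
    (by rw [← map_mul, show DihedralGroup.sr (0 : ZMod 4) * .sr 0 = 1 by decide, map_one]
        exact one_mem _)
    (by rw [← map_mul, ← map_mul,
          show DihedralGroup.r (1 : ZMod 4) * .sr 0 * (.r 1 * .sr 0) = 1 by decide, map_one]
        exact one_mem _)
    (by rw [← map_mul, ← map_mul,
          show DihedralGroup.r (1 : ZMod 4) * .r 1 * (.r 1 * .r 1) = 1 by decide, map_one]
        exact one_mem _)
    (fun hm => by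
      have := hMel _ hm
      rw [← map_mul, ← map_pow, ← map_one f] at this
      exact absurd (hf this) (by decide))
  exact hD.not_simple

end Cfsg.Agent.S3716
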