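import Cfsg.Statements.S3744
import Cfsg.Agent.H2.Hall

set_option autoImplicit false
open Cfsg

namespace Cfsg.Agent.S3744

theorem hall_iff {G : Type*} [Group G] [Finite G] {p : ℕ} (hp : p.Prime) (H : Subgroup G) :
    IsPiHall {q | q ≠ p} H ↔ (Nat.card H).Coprime p ∧ ∃ n : ℕ, H.index = p ^ n := by
  constructor
  · rintro ⟨h1, h2⟩
    refine ⟨((Nat.Prime.coprime_iff_not_dvd hp).2 fun h => h1 p hp h rfl).symm, ?_⟩
    refine ⟨_, Nat.eq_prime_pow_of_unique_prime_dvd Subgroup.index_ne_zero_of_finite ?_⟩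
    intro d hd hdvd
    by_contra hne
    exact h2 d hd hne hdvd
  · rintro ⟨h1, n, hn⟩
    refine ⟨fun q hq hd hqp => ?_, fun q hq hqp hd => hqp ?_⟩
    · subst hqp
      exact (Nat.Prime.coprime_iff_not_dvd hp).1 h1.symm hd
    · rw [hn] at hd
      exact (Nat.prime_dvd_prime_iff_eq hq hp).1 (hq.dvd_of_dvd_pow hd)

/-- A finite p-soluble group has a p-complement, all its p-complements are conjugate, and every subgroup of order prime to p lies in one of them. Here a p-complement is a subgroup of order prime to p whose index is a power of p. -/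
theorem result {G : Type*} [Group G] [Finite G] {p : ℕ} [Fact p.Prime] (hG : Cfsg.IsPSolvable p G) : (∃ H : Subgroup G, (Nat.card H).Coprime p ∧ ∃ n : ℕ, H.index = p ^ n) ∧ (∀ H₁ H₂ : Subgroup G, (Nat.card H₁).Coprime p → (∃ n : ℕ, H₁.index = p ^ n) → (Nat.card H₂).Coprime p → (∃ n : ℕ, H₂.index = p ^ n) → ∃ g : G, H₂ = H₁.map (MulAut.conj g).toMonoidHom) ∧ (∀ U : Subgroup G, (Nat.card U).Coprime p → ∃ H : Subgroup G, (Nat.card H).Coprime p ∧ (∃ n : ℕ, H.index = p ^ n) ∧ ∃ g : G, U.map (MulAut.conj g).toMonoidHom ≤ H) := by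
  have hp : p.Prime := Fact.out
  have hs := H2.piSolvSeparable_of_isPSolvable hp hG
  refine ⟨?_, ?_, ?_⟩
  · obtain ⟨H, hH⟩ := hs.piSeparable.exists_isPiHall
    exact ⟨H, (hall_iff hp H).1 hH⟩
  · intro H₁ H₂ h1 h2 h3 h4
    obtain ⟨g, hg⟩ := hs.conj ((hall_iff hp H₁).2 ⟨h1, h2⟩) ((hall_iff hp H₂).2 ⟨h3, h4⟩)
    exact ⟨g, hg.symm⟩
  · intro U hU
    obtain ⟨H, hH, hUH⟩ := hs.exists_isPiHall_ge (K := U) (fun q hq hd hqp => by
      subst hqp
      exact (Nat.Prime.coprime_iff_not_dvd hp).1 hU.symm hd)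
    obtain ⟨h1, h2⟩ := (hall_iff hp H).1 hH
    refine ⟨H, h1, h2, 1, ?_⟩
    rintro _ ⟨x, hx, rfl⟩
    simpa using hUH hx

end Cfsg.Agent.S3744
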