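import Cfsg.Statements.S3776
import Cfsg.Agent.H89.ShawC
import Cfsg.Agent.H89.PBasic

set_option autoImplicit false
open Cfsg

namespace Cfsg.Agent.S3776

/-- Let G be a finite non-abelian 2-group with more than one involution admitting a solvable group of automorphisms that permutes its involutions transitively. Then the derived subgroup, the Frattini subgroup and the centre of G coincide and consist exactly of the elements x with x² = 1. -/
theorem result {G : Type*} [Group G] [Finite G] (hG : IsPGroup 2 G) (hna : ¬ IsMulCommutative G) (htwo : ∃ x y : G, x ≠ y ∧ x ≠ 1 ∧ x ^ 2 = 1 ∧ y ≠ 1 ∧ y ^ 2 = 1) (hY : ∃ Y : Subgroup (MulAut G), Group.IsSolvable Y ∧ ∀ x y : G, x ≠ 1 → x ^ 2 = 1 → y ≠ 1 → y ^ 2 = 1 → ∃ a ∈ Y, a x = y) : commutator G = frattini G ∧ frattini G = Subgroup.center G ∧ ∀ x : G, x ∈ Subgroup.center G ↔ x ^ 2 = 1 := by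
  have : Fact (Nat.Prime 2) := ⟨Nat.prime_two⟩
  obtain ⟨Y, hY, ht⟩ := hY
  have : Finite (MulAut G) := Finite.of_injective (fun σ : MulAut G => (σ : G → G))
    DFunLike.coe_injective
  obtain ⟨H, F, _, _, _, ζ, h⟩ := H89.Shaw.exists_su hG htwo Y hY ht
  have hna' : ∃ x y : G, ¬ Commute x y := by
    by_contra hne
    push Not at hne
    exact hna ⟨⟨fun x y => hne x y⟩⟩
  have h1 : commutator G ≤ h.omega := by
    rw [commutator_def, Subgroup.commutator_le]
    intro x _ y _
    simpa [commutatorElement_def] using h.cm_mem_omega hna' x⁻¹ y⁻¹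
  have h2 : h.omega ≤ commutator G := by
    obtain ⟨x, y, hxy⟩ := hna'
    exact fun z hz => h.omega_le (H4.Ext.inv_of_characteristic _ _)
      (Subgroup.commutator_mem_commutator (Subgroup.mem_top x) (Subgroup.mem_top y))
      (fun e => hxy (commutatorElement_eq_one_iff_commute.1 e)) hz
  have h3 : frattini G ≤ h.omega := H89.frattini_le_of_elementary_quotient (p := 2) h1
    fun a => by rw [sq]; exact h.sq_mem_omega hna' a
  have h4 := H89.commutator_le_frattini hG
  rw [h.center_eq hna']
  exact ⟨le_antisymm h4 (h3.trans h2), le_antisymm h3 (h2.trans h4),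
    fun x => by rw [h.mem_omega, sq]⟩

end Cfsg.Agent.S3776
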