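import Cfsg.Statements.S3802
import Cfsg.Agent.H1.Subnormal

set_option autoImplicit false
open Cfsg

namespace Cfsg.Agent.S3802

/-- Let G be a finite group, M a maximal subgroup of G and N a subnormal subgroup of G contained in M. Then N is contained in every conjugate of M, that is, N lies in the core of M in G. -/
theorem result {G : Type*} [Group G] [Finite G] (M N : Subgroup G) (hM : IsCoatom M) (hN : N.IsSubnormal) (hNM : N ≤ M) :
    N ≤ Subgroup.normalCore M := by
  open Cfsg.Agent.H1 in
  open scoped Pointwise in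
  set L : Subgroup G := sSup {U | ∃ m ∈ M, U = MulAut.conj m • N} with hL
  have hLM : L ≤ M := by
    apply sSup_le
    rintro U ⟨m, hm, rfl⟩
    exact H1.conj_smul_le_of_mem hNM hm
  have hNL : N ≤ L := le_sSup ⟨1, M.one_mem, by simp⟩
  have hsn : H1.SnIn L ⊤ := by
    apply H1.SnIn.sSup
    rintro U ⟨m, hm, rfl⟩
    exact (H1.SnIn.of_isSubnormal hN).conj_of_mem trivial
  have hnorm : M ≤ Subgroup.normalizer (L : Set G) := by
    apply H1.le_normalizer_sSup_of_conj
    rintro x hx U ⟨m, hm, rfl⟩
    rw [H1.conj_smul_conj_smul]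
    exact le_sSup ⟨x * m, M.mul_mem hx hm, rfl⟩
  -- take a maximal subnormal `M`-invariant subgroup of `M` containing `L`
  have key : ∀ L : Subgroup G, L ≤ M → H1.SnIn L ⊤ → M ≤ Subgroup.normalizer (L : Set G) →
      L ≤ M.normalCore := by
    intro L
    induction L using WellFoundedGT.induction with
    | ind L ih =>
    intro hLM hsn hnorm
    rcases hnorm.eq_or_lt with h | h
    · -- N(L) = M; use the `M`-closure of a larger subnormal subgroup normalizing `L`
      have hne : L ≠ ⊤ := fun h => hM.1 (top_le_iff.1 (h ▸ hLM))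
      obtain ⟨K, hLK, hKN, hK⟩ := hsn.exists_lt hne
      rw [← h] at hKN
      open scoped Pointwise in
      set L' : Subgroup G := sSup {U | ∃ m ∈ M, U = MulAut.conj m • K} with hL'
      have hLM' : L' ≤ M := by
        apply sSup_le
        rintro U ⟨m, hm, rfl⟩
        exact H1.conj_smul_le_of_mem hKN hm
      have hKL : K ≤ L' := le_sSup ⟨1, M.one_mem, by simp⟩
      have hsn' : H1.SnIn L' ⊤ := by
        apply H1.SnIn.sSup
        rintro U ⟨m, hm, rfl⟩
        exact hK.conj_of_mem trivial
      have hnorm' : M ≤ Subgroup.normalizer (L' : Set G) := by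
        apply H1.le_normalizer_sSup_of_conj
        rintro x hx U ⟨m, hm, rfl⟩
        rw [H1.conj_smul_conj_smul]
        exact le_sSup ⟨x * m, M.mul_mem hx hm, rfl⟩
      exact (hLK.le.trans hKL).trans (ih L' (hLK.trans_le hKL) hLM' hsn' hnorm')
    · have hn : L.Normal := Subgroup.normalizer_eq_top_iff.1 (hM.2 _ h)
      exact Subgroup.normal_le_normalCore.2 hLM
  exact hNL.trans (key L hLM hsn hnorm)

end Cfsg.Agent.S3802
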