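import Cfsg.Statements.S3803
import Cfsg.Agent.H88.FpfCore

set_option autoImplicit false
open Cfsg

namespace Cfsg.Agent.S3803

open Cfsg.Agent.H63 Cfsg.Agent.H67 Cfsg.Agent.H69 Cfsg.Agent.H88 Subgroup
open scoped IsMulCommutative commutatorElement

theorem exists_relIndex_eq_prime {G : Type*} [Group G] [Finite G] {p : ℕ} [hp : Fact p.Prime]
    {P X : Subgroup G} (hP : IsPGroup p P) (h : X < P) : ∃ Q, X ≤ Q ∧ Q ≤ P ∧ Q.relIndex P = p := by
  obtain ⟨m, hm⟩ := IsPGroup.iff_card.1 hP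
  obtain ⟨n, hn⟩ := IsPGroup.iff_card.1 (hP.to_le h.le)
  have hlt : n < m := by
    have := card_lt_of_lt h
    rw [hm, hn] at this
    exact (Nat.pow_lt_pow_iff_right hp.out.one_lt).1 this
  obtain ⟨k, rfl⟩ : ∃ k, m = k + 1 := ⟨m - 1, by omega⟩
  obtain ⟨Q, h1, h2, h3⟩ := exists_between_card_pow h.le hn (m := k)
    (by rw [hm]; exact pow_dvd_pow _ (by omega)) (by omega)
  refine ⟨Q, h1, h2, ?_⟩
  have := card_mul_relIndex h2
  rw [h3, hm, pow_succ] at this
  exact Nat.eq_of_mul_eq_mul_left (pow_pos hp.out.pos _) this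

/-- Let P be a 2-subgroup and A a subgroup of odd order of a finite group, with A normalizing P. Let D ≤ P with 1 < |D| < |P|. If every subgroup of P of order |D|, and also every subgroup of P of order 4 in case |D| = 2, is normalized by A, then A centralizes P. -/
theorem result {X : Type*} [Group X] [Finite X] (P A D : Subgroup X) (hP : IsPGroup 2 P) (hA : Odd (Nat.card A))
    (hAP : A ≤ Subgroup.normalizer (P : Set X)) (hDP : D ≤ P) (hD1 : 1 < Nat.card D) (hD2 : Nat.card D < Nat.card P)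
    (hinv : ∀ E : Subgroup X, E ≤ P → (Nat.card E = Nat.card D ∨ (Nat.card D = 2 ∧ Nat.card E = 4)) → A ≤ Subgroup.normalizer (E : Set X)) :
    A ≤ Subgroup.centralizer (P : Set X) := by
  have := Fact.mk Nat.prime_two
  have hc : ∀ E, E ≤ P → (Nat.card A).Coprime (Nat.card E) := fun E hE => by
    obtain ⟨k, hk⟩ := (hP.to_le hE).exists_card_eq
    rw [hk]
    exact (Nat.coprime_two_right.mpr hA).pow_right k
  have hcyc : ∀ E, E ≤ P → IsCyclic E → A ≤ N[E] → A ≤ C[E] := fun E hE h1 h2 => by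
    have := relIndex_cent_dvd_pred_of_isCyclic Nat.prime_two h1 (hP.to_le hE) h2 (by
      intro q hq hd h
      rw [Set.mem_singleton_iff.mp h] at hd
      exact (Nat.not_even_iff_odd.mpr hA) (even_iff_two_dvd.mpr hd))
    exact relIndex_eq_one.mp (Nat.dvd_one.mp this)
  obtain ⟨d, hd⟩ := (hP.to_le hDP).exists_card_eq
  obtain ⟨n, hn⟩ := hP.exists_card_eq
  have hdn : d + 1 ≤ n := by
    rw [hd, hn] at hD2
    exact (Nat.pow_lt_pow_iff_right one_lt_two).mp hD2
  have hE : ∀ E, E ≤ P → Nat.card E = 2 ^ d → A ≤ C[E] := by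
    intro E hEP hEc
    obtain ⟨H, hEH, hHP, hHc⟩ := exists_between_card_pow (m := d + 1) hEP hEc
      (hn ▸ pow_dvd_pow 2 hdn) (Nat.le_succ d)
    by_cases hH : IsCyclic H
    · exact hcyc E hEP (isCyclic_of_le hEH) (hinv E hEP (Or.inl (hEc.trans hd.symm)))
    have hM : ∀ M, M ≤ H → M.relIndex H = 2 → A ≤ N[M] := fun M h1 h2 => by
      refine hinv M (h1.trans hHP) (Or.inl ?_)
      have := card_mul_relIndex h1
      rw [h2, hHc, pow_succ] at this
      rw [hd]
      exact Nat.eq_of_mul_eq_mul_right two_pos this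
    have hAH : A ≤ N[H] := by
      intro a ha
      refine mem_normalizer_of_cj_le (cj_le_iff.mpr fun x hx => ?_)
      obtain ⟨M, h1, h2, h3⟩ := exists_relIndex_eq_prime (hP.to_le hHP)
        (lt_of_le_of_ne (zpowers_le.mpr hx) fun h => hH (h ▸ inferInstance))
      exact h2 (conj_mem_of_mem_normalizer (hM M h2 h3 ha) (h1 (mem_zpowers x)))
    refine le_trans (cent_symm ?_) (centralizer_anti hEH)
    by_contra hcon
    obtain ⟨M, h1, h2, h3⟩ := exists_relIndex_eq_prime (X := H ⊓ C[A]) (hP.to_le hHP)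
      (lt_of_le_of_ne inf_le_left fun h => hcon (inf_eq_left.mp h))
    have h4 : ⁅H, A⁆ ≤ M := by
      rw [commutator_le]
      intro x hx a ha
      have h5 : a * x⁻¹ * a⁻¹ ∈ H := conj_mem_of_mem_normalizer (hAH ha) (inv_mem hx)
      have h6 := (M.subgroupOf H).mul_mem_iff_of_index_two h3 (a := ⟨x, hx⟩) (b := ⟨_, h5⟩)
      simp only [mem_subgroupOf, coe_mul] at h6
      rw [commutatorElement_def, mul_assoc, mul_assoc, ← mul_assoc a, h6,
        ← mem_normalizer_iff.mp (hM M h2 h3 ha), inv_mem_iff]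
    have h5 := (coprime_cent_prod hAH (hc H hHP) (Or.inr (sol_p Nat.prime_two
      (hP.to_le hHP)))).le_of_le h4 h1
    rw [relIndex_eq_one.mpr h5] at h3
    omega
  have h4 : ∀ x ∈ P, x ^ 2 ^ 2 = 1 → x ∈ C[A] := by
    intro x hx h1
    rw [← zpowers_le]
    refine cent_symm ?_
    obtain ⟨j, hj, hjo⟩ := (Nat.dvd_prime_pow Nat.prime_two).mp (orderOf_dvd_of_pow_eq_one h1)
    by_cases hjd : j ≤ d
    · obtain ⟨E, h2, h3, h4⟩ := exists_between_card_pow (m := d) (zpowers_le.mpr hx)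
        (by rw [Nat.card_zpowers, hjo]) (by rw [hn]; exact pow_dvd_pow 2 (by omega)) hjd
      exact (hE E h3 h4).trans (centralizer_anti h2)
    · have hd0 : d ≠ 0 := by
        rintro rfl
        omega
      refine hcyc _ (zpowers_le.mpr hx) inferInstance (hinv _ (zpowers_le.mpr hx) (Or.inr ⟨?_, ?_⟩))
      · rw [hd, show d = 1 by omega]; rfl
      · rw [Nat.card_zpowers, hjo, show j = 2 by omega]; rfl
  refine cent_symm (le_cent_of_commutator_eq_bot ?_)
  by_contra hcon
  obtain ⟨S, -, ⟨hSP, hAS, hS⟩, hmin⟩ := exists_minimal_le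
    (fun S => S ≤ P ∧ A ≤ N[S] ∧ ⁅S, A⁆ ≠ ⊥) ⟨le_rfl, hAP, hcon⟩
  obtain ⟨-, -, -, -, hpow, hZe, -⟩ := minimal_structure Nat.prime_two (hP.to_le hSP) hAS le_rfl
    le_normalizer (hc S hSP) hS (fun U hU hAU => by
      by_contra hne
      exact hU.ne (hmin U ⟨hU.le.trans hSP, hAU, hne⟩ hU.le))
  refine hS (commutator_eq_bot_of_cent fun x hx => h4 x (hSP hx) ?_)
  rw [pow_two, pow_mul]
  exact hZe.2 _ (hpow x hx)

end Cfsg.Agent.S3803
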