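import Cfsg.Statements.S3814
import Cfsg.Agent.H88.FourPr2

set_option autoImplicit false
open Cfsg

namespace Cfsg.Agent.S3814

open Cfsg.Agent.H88

/-- A criterion for nonsolvability from element orders: let G be a finite group and σ a set of at least four primes such that for all distinct p, q ∈ σ the product pq is the order of some element of G, while for all pairwise distinct p, q, r ∈ σ no element of G has order pqr. Then G is not solvable. -/
theorem result {G : Type*} [Group G] [Finite G]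
    (σ : Finset ℕ) (hσ : 4 ≤ σ.card) (hprime : ∀ p ∈ σ, p.Prime)
    (h2 : ∀ p ∈ σ, ∀ q ∈ σ, p ≠ q → ∃ g : G, orderOf g = p * q)
    (h3 : ∀ p ∈ σ, ∀ q ∈ σ, ∀ r ∈ σ, p ≠ q → q ≠ r → p ≠ r → ∀ g : G, orderOf g ≠ p * q * r) :
    ¬ Group.IsSolvable G := by
  obtain ⟨τ, hτ, hc⟩ := Finset.exists_subset_card_eq hσ
  obtain ⟨p, q, r, s, pq, pr, ps, qr, qs, rs, rfl⟩ := Finset.card_eq_four.1 hc
  have mp : p ∈ σ := hτ (by simp)
  have mq : q ∈ σ := hτ (by simp)
  have mr : r ∈ σ := hτ (by simp)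
  have ms : s ∈ σ := hτ (by simp)
  have hnt : NT G (σ : Set ℕ) := nt_of_orderOf hprime h3
  have hQ : Q4 G (σ : Set ℕ) p q r s :=
    ⟨⟨hnt, mp, mq, mr, hprime p mp, hprime q mq, hprime r mr, pq, pr, qr⟩, ms, hprime s ms, ps, qs, rs⟩
  have key : ∀ a ∈ σ, ∀ b ∈ σ, a ≠ b → Adj a b (⊤ : Subgroup G) := fun a ha b hb hab =>
    let ⟨g, hg⟩ := h2 a ha b hb hab
    adj_of_orderOf (hprime a ha) (hprime b hb) hab (Subgroup.mem_top g) hg
  intro hs
  exact hQ.not_solvable (key p mp q mq pq) (key p mp r mr pr) (key p mp s ms ps) (key q mq r mr qr)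
    (key q mq s ms qs) (key r mr s ms rs) inferInstance

end Cfsg.Agent.S3814
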