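import Cfsg.Statements.S3818
import Cfsg.Agent.H36.FixDim3
import Cfsg.Agent.H59.PermMod
import Cfsg.Agent.H4.HallHigman

set_option autoImplicit false
open Cfsg

namespace Cfsg.Agent.S3818

section
open TensorProduct Module

theorem ker_bc {k : Type*} [Field k] {V : Type*} [AddCommGroup V] [Module k V] [FiniteDimensional k V]
    (K : Type*) [Field K] [Algebra k K] (A : End k V) :
    finrank k (LinearMap.ker A) ≤ finrank K (LinearMap.ker (End.baseChangeHom k K V A)) := by
  let f : K ⊗[k] (LinearMap.ker A) →ₗ[K] LinearMap.ker (End.baseChangeHom k K V A) :=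
    ((LinearMap.ker A).subtype.baseChange K).codRestrict _ fun t => by
      show A.baseChange K (((LinearMap.ker A).subtype.baseChange K) t) = 0
      rw [← LinearMap.comp_apply, ← LinearMap.baseChange_comp, LinearMap.comp_ker_subtype,
        LinearMap.baseChange_zero, LinearMap.zero_apply]
  have hf : Function.Injective f := by
    intro a b h
    exact Module.Flat.lTensor_preserves_injective_linearMap (M := K) _ (LinearMap.ker A).injective_subtype
      (congrArg Subtype.val h)
  have := LinearMap.finrank_le_finrank_of_injective hf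
  rwa [Module.finrank_baseChange] at this

end

/-- Let G be a finite solvable group and P a subgroup of G of prime order p > 3 whose conjugates generate G. Let V be a faithful irreducible representation of G over a field of positive characteristic, finite-dimensional. Then the subspace of V fixed by P has dimension less than half the dimension of V. -/
theorem result {G : Type*} [Group G] [Finite G] [Group.IsSolvable G]
    {p : ℕ} [Fact p.Prime] (hp : 3 < p) (P : Subgroup G) (hP : Nat.card P = p) (hgen : Subgroup.normalClosure (P : Set G) = ⊤)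
    {k : Type*} [Field k] (ℓ : ℕ) [Fact ℓ.Prime] [CharP k ℓ]
    {V : Type*} [AddCommGroup V] [Module k V] [FiniteDimensional k V]
    (ρ : Representation k G V) [ρ.IsIrreducible] (hfaith : Function.Injective ρ) :
    2 * Module.finrank k ↥(⨅ g : ↥P, LinearMap.ker (ρ (g : G) - LinearMap.id)) < Module.finrank k V := by
  have hirr : H36.FixDim.Irr ρ := by
    intro U hU
    rcases eq_bot_or_eq_top (⟨U, fun g v hv => hU g hv⟩ : Subrepresentation ρ) with h | h
    · exact Or.inl (congrArg Subrepresentation.toSubmodule h)
    · exact Or.inr (congrArg Subrepresentation.toSubmodule h)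
  haveI : Nontrivial V := by
    by_contra hnt
    rw [not_nontrivial_iff_subsingleton] at hnt
    obtain ⟨a, b, hab⟩ := exists_pair_ne (Subrepresentation ρ)
    exact hab (Subrepresentation.toSubmodule_injective (Subsingleton.elim _ _))
  have hinv : ∀ M : Subgroup G, M.Normal → M ≠ ⊥ → ∀ v : V, (∀ m ∈ M, ρ m v = v) → v = 0 := by
    intro M hM hM0 v hv
    let U : Submodule k V := ⨅ m : M, LinearMap.ker (ρ m - 1)
    have hU : ∀ w, w ∈ U ↔ ∀ m ∈ M, ρ m w = w := by
      intro w
      simp only [U, Submodule.mem_iInf, LinearMap.mem_ker, LinearMap.sub_apply, sub_eq_zero,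
        Module.End.one_apply, Subtype.forall]
    rcases hirr U (fun g w hw => by
      rw [Submodule.mem_comap, hU] at *
      intro m hm
      have := hw _ (hM.conj_mem' m hm g)
      rw [← Module.End.mul_apply, ← map_mul, show m * g = g * (g⁻¹ * m * g) by group, map_mul,
        Module.End.mul_apply, this]) with h | h
    · exact (Submodule.mem_bot k).mp (h ▸ (hU v).mpr hv)
    · exfalso
      apply hM0
      rw [Subgroup.eq_bot_iff_forall]
      intro m hm
      apply hfaith
      rw [map_one]
      ext w
      exact (hU w).mp (h ▸ Submodule.mem_top) m hm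
  have hO : Cfsg.pCore ℓ G = ⊥ := by
    by_contra h0
    obtain ⟨w, -, hw0, hw⟩ := H59.exists_ne_zero_fixed_of_isPGroup (H3.pCore_isPGroup ℓ G)
      (ρ.comp (Cfsg.pCore ℓ G).subtype) ⊤ (fun _ _ _ => trivial) top_ne_bot
    exact hw0 (hinv _ inferInstance h0 w fun m hm => hw ⟨m, hm⟩)
  haveI := isCyclic_of_prime_card hP
  obtain ⟨x, hx⟩ := IsCyclic.exists_ofOrder_eq_natCard (α := P)
  have hx' : orderOf (x : G) = p := by rw [Subgroup.orderOf_coe, hx, hP]
  have hz : Subgroup.zpowers (x : G) = P := Subgroup.eq_of_le_of_card_ge (Subgroup.zpowers_le.mpr x.2)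
    (by rw [Nat.card_zpowers, hx', hP])
  have hgen' : Subgroup.normalClosure ({(x : G)} : Set G) = ⊤ := by
    rw [eq_top_iff, ← hgen]
    refine Subgroup.normalClosure_le_normal ?_
    have h0 : Subgroup.zpowers (x : G) ≤ Subgroup.normalClosure ({(x : G)} : Set G) :=
      Subgroup.zpowers_le.mpr (Subgroup.subset_normalClosure rfl)
    exact hz.ge.trans h0
  have h5 : 5 ≤ p := by
    have : p ≠ 4 := by rintro rfl; exact absurd (Fact.out : Nat.Prime 4) (by norm_num)
    omega
  haveI : Nontrivial (TensorProduct k (AlgebraicClosure k) V) := by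
    apply Module.nontrivial_of_finrank_pos (R := AlgebraicClosure k)
    rw [Module.finrank_baseChange]
    exact Module.finrank_pos
  have key := H36.FixDim.closed_case (k := AlgebraicClosure k) ℓ hO h5 (x : G) hx' hgen' _ _
    (H4.HH.baseRep ρ (AlgebraicClosure k)) rfl (by
      intro M hM hM0 _ _
      simp only [H4.HH.baseRep_apply]
      rw [← map_sum]
      have : ∑ m : M, ρ m = 0 := by
        ext v
        refine hinv M hM hM0 _ fun m hm => ?_
        rw [← Module.End.mul_apply, Finset.mul_sum]
        congr 1
        exact Fintype.sum_equiv (Equiv.mulLeft (⟨m, hm⟩ : M)) _ _ fun n => by simp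
      rw [this, map_zero])
  rw [Module.finrank_baseChange, H4.HH.baseRep_apply] at key
  have h1 := ker_bc (AlgebraicClosure k) (ρ x - 1)
  rw [map_sub, map_one] at h1
  have h2 : Module.finrank k ↥(⨅ g : ↥P, LinearMap.ker (ρ (g : G) - LinearMap.id)) ≤
      Module.finrank k (LinearMap.ker (ρ x - 1)) := Submodule.finrank_mono (iInf_le _ x)
  omega

end Cfsg.Agent.S3818
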