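import Cfsg.Statements.S3819
import Cfsg.Agent.H67.Fit
import Cfsg.Agent.H63.BG1
import Cfsg.Agent.H63.QuoCore

set_option autoImplicit false
open Cfsg Subgroup Cfsg.Agent.H63 Cfsg.Agent.H67

namespace Cfsg.Agent.S3819

/-- Let G be a finite group with Sylow p-subgroup P and H = O_{p'}(G), and suppose G = PH and the commutator subgroup [H, P] is solvable. Let q be a prime and z an element of q-power order of C_H(P). Then (O_{q'}(C_H(z)) ∩ O_{q'}(C_H(P))) · [O_{q'}(C_H(z)), P] ≤ O_{q'}(H). -/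
theorem result {G : Type*} [Group G] [Finite G] {p : ℕ} [Fact p.Prime]
    (P : Sylow p G) (hPH : Cfsg.pPrimeCore p G ⊔ (P : Subgroup G) = ⊤)
    (hsol : Group.IsSolvable ↥⁅Cfsg.pPrimeCore p G, (P : Subgroup G)⁆)
    {q : ℕ} [Fact q.Prime] (z : G) (hzH : z ∈ Cfsg.pPrimeCore p G) (hzP : z ∈ Subgroup.centralizer ((P : Subgroup G) : Set G))
    (hz : ∃ k : ℕ, orderOf z = q ^ k) :
    ((Cfsg.pPrimeCore q ↥(Cfsg.pPrimeCore p G ⊓ Subgroup.centralizer ({z} : Set G))).map
        (Cfsg.pPrimeCore p G ⊓ Subgroup.centralizer ({z} : Set G)).subtype ⊓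
      (Cfsg.pPrimeCore q ↥(Cfsg.pPrimeCore p G ⊓ Subgroup.centralizer ((P : Subgroup G) : Set G))).map
        (Cfsg.pPrimeCore p G ⊓ Subgroup.centralizer ((P : Subgroup G) : Set G)).subtype) ⊔
    ⁅(Cfsg.pPrimeCore q ↥(Cfsg.pPrimeCore p G ⊓ Subgroup.centralizer ({z} : Set G))).map
        (Cfsg.pPrimeCore p G ⊓ Subgroup.centralizer ({z} : Set G)).subtype, (P : Subgroup G)⁆ ≤
    (Cfsg.pPrimeCore q ↥(Cfsg.pPrimeCore p G)).map (Cfsg.pPrimeCore p G).subtype := by

  have hq : q.Prime := Fact.out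
  have hp : p.Prime := Fact.out
  simp only [map_pPrimeCore_subtype hq]
  set H := Cfsg.pPrimeCore p G with hH
  have hHn : H ⊴ ⊤ := normalIn_top_iff.2 inferInstance
  have hHp : IsPiSubgroup {p}ᶜ H := by
    rw [hH, pPrimeCore_eq_top_form hp]; exact isPi_piCoreOf _ _
  set K := ⁅H, (P : Subgroup G)⁆ with hK
  have hKn : K ⊴ ⊤ := hPH ▸ commutator_normalIn_sup _ _
  have hKH : K ≤ H := commutator_le_of_norm_left (le_top.trans hHn.norm)
  have hzq : IsPGroup q (zpowers z) := by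
    obtain ⟨k, hk⟩ := hz
    exact isPGroup_of_card_eq_pow (by rw [Nat.card_zpowers, hk])
  set D := O[{q}ᶜ](H ⊓ C1[z]) with hD
  -- every element of `D` lies in `O_{q'}(K⟨z, e⟩)`
  have key : ∀ e ∈ D, ∃ X : Subgroup G, K ≤ X ∧ e ∈ O[{q}ᶜ](X) := by
    intro e he
    have he' := piCoreOf_le _ _ he
    have hc : zpowers e ≤ C[zpowers z] := by rw [centralizer_zpowers]; exact zpowers_le.2 he'.2
    have hs : Group.IsSolvable ↥((zpowers e ⊔ zpowers z) ⊔ K) :=
      isSolvable_sup (isSolvable_of_isMulCommutative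
        (isMulCommutative_sup inferInstance inferInstance hc)) hsol (le_top.trans hKn.norm)
    refine ⟨_, le_sup_right, p'core_cent_pgroup hs (le_sup_right.trans le_sup_left) hzq ?_⟩
    rw [centralizer_zpowers]
    refine inf_piCoreOf_le (inf_le_inf_right _ (sup_le (sup_le (zpowers_le.2 he'.1)
      (zpowers_le.2 hzH)) hKH)) ⟨⟨mem_sup_left (mem_sup_left (mem_zpowers e)), he'.2⟩, he⟩
  have hN : O[{q}ᶜ](K) ≤ O[{q}ᶜ](H) := piCoreOf_le_of_normalIn (hKn.of_le hKH le_top)
  have hNn : O[{q}ᶜ](K) ⊴ ⊤ := hKn.piCoreOf _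
  refine sup_le ?_ (le_trans (fun e he => ?_) hN)
  · set F := O[{q}ᶜ](H ⊓ C[(P : Subgroup G)]) with hF
    set W := cosetpre O[{q}ᶜ](K) C[K /ᵍ O[{q}ᶜ](K)] with hW
    have hWn : W ⊴ ⊤ := cosetpre_normal_of_normal_quo hNn ⟨by rw [top_quo]; exact le_top,
      le_normalizer_centralizer (quo_norms _ hKn.norm)⟩
    have hWK : ⁅W, K⁆ ≤ O[{q}ᶜ](K) := (quo_cents_iff (le_top.trans hNn.norm)
      (le_top.trans hNn.norm)).1 (cosetpre_quo _).le
    have hmul := coprime_cent_prod (A := (P : Subgroup G)) (K := H) (le_top.trans hHn.norm)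
      (isPi_coprime (isPi_of_isPGroup hp P.isPGroup') hHp)
      (Or.inl (isSolvable_of_isPGroup hp P.isPGroup'))
    have h1 : F ⊓ W ≤ N[O[{q}ᶜ](K)] := le_top.trans hNn.norm
    have h2 : O[{q}ᶜ](K) ⊔ (F ⊓ W) ≤ O[{q}ᶜ](H) := by
      refine le_piCoreOf ⟨sup_le (hN.trans (piCoreOf_le _ _))
        (inf_le_left.trans ((piCoreOf_le _ _).trans inf_le_left)), hmul.le_normalizer ?_ ?_⟩
        (isPi_sup (isPi_piCoreOf _ _) (isPi_of_le (isPi_piCoreOf _ _) inf_le_left) (Or.inr h1))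
      · refine le_norm_of_commutator_le_left (le_trans (commutator_sup_left_le
          (le_top.trans hNn.norm) h1 (commutator_le_of_norm_left (le_top.trans hNn.norm))
          ((commutator_mono inf_le_right le_rfl).trans hWK)) le_sup_left)
      · exact le_normalizer_sup (le_top.trans hNn.norm) (le_normalizer_inf
          (le_normalizer_piCoreOf_self _ _) (le_top.trans hWn.norm))
    refine le_trans (fun e he => mem_sup_right (mem_inf.2 ⟨he.2, ?_⟩)) h2
    obtain ⟨X, hKX, heX⟩ := key e he.1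
    have h3 : ⁅zpowers e, K⁆ ≤ O[{q}ᶜ](K) :=
      le_trans (le_inf (commutator_le_of_norm_right (le_top.trans hKn.norm))
        ((commutator_mono (zpowers_le.2 heX) le_rfl).trans (commutator_le_of_norm_left
          (hKX.trans (le_normalizer_piCoreOf_self _ _))))) (inf_piCoreOf_le hKX)
    exact (quo_le_iff (le_top.trans hNn.norm)).1 (quo_cents_of_commutator_le h3) (mem_zpowers e)
  · have h1 : (P : Subgroup G) ≤ N[D] := le_normalizer_piCoreOf (le_normalizer_inf
      (le_top.trans hHn.norm) (le_normalizer_of_le (mem_centralizer_iff_le.1 hzP)))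
    obtain ⟨X, hKX, heX⟩ := key e (commutator_le_of_norm_left h1 he)
    exact inf_piCoreOf_le hKX ⟨commutator_mono ((piCoreOf_le _ _).trans inf_le_left) le_rfl he, heX⟩

end Cfsg.Agent.S3819
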