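import Cfsg.Statements.S3821
import Mathlib
import Cfsg.Agent.H89.Conj

set_option autoImplicit false
open Cfsg

namespace Cfsg.Agent.S3821

theorem map_conj_subgroupOf {G : Type*} [Group G] {A H : Subgroup G} (hHA : H ≤ A) (a : A) :
    ((H.subgroupOf A).map (MulAut.conj a).toMonoidHom).map A.subtype =
      H.map (MulAut.conj (a : G)).toMonoidHom := by
  ext y
  constructor
  · rintro ⟨_, ⟨h, hh, rfl⟩, rfl⟩
    exact ⟨h, hh, rfl⟩
  · rintro ⟨h, hh, rfl⟩
    exact ⟨_, ⟨⟨h, hHA hh⟩, hh, rfl⟩, rfl⟩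

theorem map_sup_conj_subgroupOf {G : Type*} [Group G] {A H : Subgroup G} (hHA : H ≤ A) (a : A) :
    (H.subgroupOf A ⊔ (H.subgroupOf A).map (MulAut.conj a).toMonoidHom).map A.subtype =
      H ⊔ H.map (MulAut.conj (a : G)).toMonoidHom := by
  rw [Subgroup.map_sup, map_conj_subgroupOf hHA, Subgroup.map_subgroupOf_eq_of_le hHA]

/-- Let A be a normal subgroup of the finite group G and H a subgroup of A. Then H is pronormal in G (H and gHg⁻¹ conjugate inside ⟨H, gHg⁻¹⟩ for every g ∈ G) if and only if H is pronormal in A and G = A · N_G(H). -/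
theorem result {G : Type*} [Group G] [Finite G] (A H : Subgroup G) [A.Normal] (hHA : H ≤ A) :
    Cfsg.IsPronormal H ↔ (Cfsg.IsPronormal (H.subgroupOf A) ∧ A ⊔ Subgroup.normalizer (H : Set G) = ⊤) := by
  constructor
  · intro h
    constructor
    · intro a
      obtain ⟨x, hx, hxe⟩ := h a
      rw [← map_sup_conj_subgroupOf hHA] at hx
      obtain ⟨x', hx', rfl⟩ := hx
      refine ⟨x', hx', ?_⟩
      apply Subgroup.map_injective A.subtype_injective
      rw [map_conj_subgroupOf hHA, map_conj_subgroupOf hHA]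
      exact hxe
    · rw [eq_top_iff]
      intro g _
      obtain ⟨x, hx, hxe⟩ := h g
      have hxA : x ∈ A := (sup_le hHA (H89.conj_le_of_normal hHA g)) hx
      have hn := H89.conj_eq_conj_iff.mp hxe
      have : g = x * (x⁻¹ * g) := by group
      rw [this]
      exact Subgroup.mul_mem _ (Subgroup.mem_sup_left hxA) (Subgroup.mem_sup_right hn)
  · rintro ⟨h, htop⟩ g
    have hg : g ∈ A ⊔ Subgroup.normalizer (H : Set G) := htop ▸ Subgroup.mem_top g
    rw [Subgroup.mem_sup_of_normal_left] at hg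
    obtain ⟨a, ha, n, hn, rfl⟩ := hg
    have he : H.map (MulAut.conj (a * n)).toMonoidHom = H.map (MulAut.conj a).toMonoidHom := by
      rw [H89.conj_mul, H89.conj_eq_self_iff.mpr hn]
    rw [he]
    obtain ⟨x, hx, hxe⟩ := h ⟨a, ha⟩
    refine ⟨x, ?_, ?_⟩
    · have := map_sup_conj_subgroupOf hHA ⟨a, ha⟩
      rw [← this]
      exact ⟨x, hx, rfl⟩
    · have := congrArg (Subgroup.map A.subtype) hxe
      rwa [map_conj_subgroupOf hHA, map_conj_subgroupOf hHA] at this

end Cfsg.Agent.S3821
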