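import Cfsg.Statements.S3822
import Cfsg.Agent.S3818
import Cfsg.Agent.H4.PLength
import Cfsg.Agent.H4.CoprimeAction
import Cfsg.Agent.H36.AltAm
import Cfsg.Agent.H3.Frattini
import Cfsg.Agent.H53.ActStable
import Cfsg.Agent.H55.Basic
import Cfsg.Agent.H2.SchurZassenhaus

set_option autoImplicit false
open Cfsg

namespace Cfsg.Agent.S3822

section
open Subgroup
open scoped Pointwise commutatorElement

theorem card_fix_sq_lt {G : Type*} [Group G] [Finite G] [Group.IsSolvable G] {p : ℕ} [hp : Fact p.Prime]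
    (h3 : 3 < p) (P : Subgroup G) (hP : Nat.card P ∣ p) {q : ℕ} [hq : Fact q.Prime] (W : Subgroup G)
    [W.Normal] (hel : IsElementaryAbelian q W) (hW0 : W ≠ ⊥)
    (hmin : ∀ K : Subgroup G, K.Normal → K ≤ W → K = ⊥ ∨ K = W)
    (hgen : normalClosure (P : Set G) ⊔ W = ⊤) (hPW : ¬ P ≤ centralizer (W : Set G)) :
    Nat.card ↥(W ⊓ centralizer (P : Set G)) ^ 2 < Nat.card W := by
  let φ := QuotientGroup.mk' (centralizer (W : Set G))
  let ρ : Representation (ZMod q) (G ⧸ centralizer (W : Set G)) (H4.EA hel) :=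
    QuotientGroup.lift _ (H4.EA.conjRep hel) fun _ hg => (H4.EA.conjRep_eq_one_iff hel).2 hg
  have hρ : ∀ g v, (ρ (φ g) v).val = g * v.val * g⁻¹ := fun g v => H4.EA.val_conjRep hel g v
  have hf : Function.Injective ρ := by
    rw [injective_iff_map_eq_one]
    intro a ha
    obtain ⟨g, rfl⟩ := QuotientGroup.mk_surjective a
    exact (QuotientGroup.eq_one_iff g).2 ((H4.EA.conjRep_eq_one_iff hel).1 ha)
  haveI : Module.Finite (ZMod q) (H4.EA hel) := Module.Finite.of_finite
  haveI : ρ.IsIrreducible := by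
    obtain ⟨w, hw, hw1⟩ := (bot_or_exists_ne_one W).resolve_left hW0
    have hne : (⊥ : Subrepresentation ρ) ≠ ⊤ := by
      intro h
      have : H4.EA.mk hel w hw ∈ (⊥ : Subrepresentation ρ).toSubmodule := by rw [h]; trivial
      exact hw1 (H4.EA.val_eq_one.mpr ((Submodule.mem_bot _).mp this) : (H4.EA.mk hel w hw).val = 1)
    refine { exists_pair_ne := ⟨_, _, hne⟩, eq_bot_or_eq_top := fun U => ?_ }
    let K : Subgroup G :=
      { carrier := {g | ∃ v ∈ U.toSubmodule, v.val = g}
        mul_mem' := by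
          rintro _ _ ⟨a, ha, rfl⟩ ⟨b, hb, rfl⟩
          exact ⟨a + b, U.toSubmodule.add_mem ha hb, rfl⟩
        one_mem' := ⟨0, U.toSubmodule.zero_mem, rfl⟩
        inv_mem' := by
          rintro _ ⟨a, ha, rfl⟩
          exact ⟨-a, U.toSubmodule.neg_mem ha, rfl⟩ }
    have hK : K.Normal := ⟨by
      rintro _ ⟨a, ha, rfl⟩ g
      exact ⟨ρ (φ g) a, U.apply_mem_toSubmodule _ ha, hρ g a⟩⟩
    rcases hmin K hK (by rintro _ ⟨a, -, rfl⟩; exact a.val_mem) with h | h
    · left
      apply Subrepresentation.toSubmodule_injective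
      refine (Submodule.eq_bot_iff _).mpr fun v hv => ?_
      have : v.val ∈ K := ⟨v, hv, rfl⟩
      rw [h] at this
      exact H4.EA.val_eq_one.mp this
    · right
      apply Subrepresentation.toSubmodule_injective
      refine Submodule.eq_top_iff'.mpr fun v => ?_
      obtain ⟨u, hu, huv⟩ : v.val ∈ K := h.ge v.val_mem
      have e := H4.EA.val_injective huv
      subst e; exact hu
  have hc : Nat.card (P.map φ) = p := by
    refine ((Nat.dvd_prime hp.out).mp ((card_map_dvd P φ).trans hP)).resolve_left fun h => hPW ?_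
    rwa [card_eq_one, Subgroup.map_eq_bot_iff, QuotientGroup.ker_mk'] at h
  have hg : normalClosure (P.map φ : Set (G ⧸ centralizer (W : Set G))) = ⊤ := by
    have : (normalClosure (P.map φ : Set (G ⧸ centralizer (W : Set G)))).comap φ = ⊤ := by
      rw [eq_top_iff, ← hgen]
      refine sup_le (normalClosure_le_normal fun y hy => subset_normalClosure ⟨y, hy, rfl⟩) ?_
      intro w hw
      have : φ w = 1 := (QuotientGroup.eq_one_iff _).mpr (by
        haveI := hel.1
        exact le_centralizer W hw)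
      rw [mem_comap, this]; exact one_mem _
    rw [eq_top_iff]
    intro g _
    obtain ⟨g, rfl⟩ := QuotientGroup.mk_surjective g
    exact (show g ∈ (normalClosure _).comap φ from this ▸ mem_top g)
  have key := S3818.result h3 (P.map φ) hc hg q ρ hf
  set X := ⨅ g : ↥(P.map φ), LinearMap.ker (ρ (g : G ⧸ centralizer (W : Set G)) - LinearMap.id)
  have h1 : Nat.card ↥(W ⊓ centralizer (P : Set G)) ≤ Nat.card X := by
    refine Nat.card_le_card_of_injective (fun w => (⟨H4.EA.mk hel w w.2.1, ?_⟩ : X)) ?_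
    · rw [Submodule.mem_iInf]
      rintro ⟨_, g, hg, rfl⟩
      rw [LinearMap.mem_ker, LinearMap.sub_apply, sub_eq_zero]
      apply H4.EA.val_injective
      rw [hρ]
      exact mul_inv_eq_iff_eq_mul.mpr (w.2.2 g hg)
    · intro a b h
      exact Subtype.ext (congrArg (fun t : X => t.1.val) h)
  have h2 : Nat.card X = q ^ Module.finrank (ZMod q) X := by
    rw [Module.natCard_eq_pow_finrank (K := ZMod q), Nat.card_zmod]
  have h4 : Nat.card W = q ^ Module.finrank (ZMod q) (H4.EA hel) := by
    rw [← H4.EA.card_eq hel, Module.natCard_eq_pow_finrank (K := ZMod q), Nat.card_zmod]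
  calc _ ≤ Nat.card X ^ 2 := Nat.pow_le_pow_left h1 2
    _ < _ := by rw [h2, h4, ← pow_mul]; exact Nat.pow_lt_pow_right hq.out.one_lt (by omega)

theorem core {G : Type*} [Group G] [Finite G] [Group.IsSolvable G] {p : ℕ} [hp : Fact p.Prime]
    (h3 : 3 < p) (P : Subgroup G) (hP : Nat.card P ∣ p) {q : ℕ} [hq : Fact q.Prime] (W : Subgroup G)
    [hWn : W.Normal] (hel : IsElementaryAbelian q W) (hW0 : W ≠ ⊥)
    (hmin : ∀ K : Subgroup G, K.Normal → K ≤ W → K = ⊥ ∨ K = W) (A R : Subgroup G) (a : G)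
    (hA : A = P ⊔ MulAut.conj a • P) (hAW : A ⊔ W = ⊤) (hRA : R ≤ A) (hAR : A ≤ normalizer (R : Set G))
    (hcop : (Nat.card R).Coprime (Nat.card W)) (hC : W ⊓ centralizer (R : Set G) = ⊥) :
    ∃ v ∈ W, P ⊔ MulAut.conj (v * a) • P = ⊤ := by
  haveI := hel.1
  by_contra hcon
  push Not at hcon
  have hNR : W ⊓ normalizer (R : Set G) = ⊥ := by
    rw [eq_bot_iff, ← hC]
    refine le_inf inf_le_left (H36.AltQ.cent_of_inf_bot inf_le_right
      (H4.le_normalizer_inf le_normalizer_of_normal
        (le_normalizer.trans le_normalizer)) ?_)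
    rw [eq_bot_iff, ← inf_eq_bot_of_coprime hcop]
    exact le_inf inf_le_right (inf_le_left.trans inf_le_left)
  have hPA : P ≤ A := hA ▸ le_sup_left
  have hPaA : MulAut.conj a • P ≤ A := hA ▸ le_sup_right
  have hcomm : ∀ w ∈ W, ∀ y ∈ A, w * y * w⁻¹ ∈ normalizer (R : Set G) → y * w = w * y := by
    intro w hw y hy h
    have : w * y * w⁻¹ * y⁻¹ ∈ W ⊓ normalizer (R : Set G) := by
      refine ⟨?_, (normalizer (R : Set G)).mul_mem h ((normalizer (R : Set G)).inv_mem (hAR hy))⟩
      have := W.mul_mem hw (hWn.conj_mem _ (W.inv_mem hw) y)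
      simpa [mul_assoc] using this
    rw [hNR, mem_bot] at this
    calc y * w = (w * y * w⁻¹ * y⁻¹) * (y * w) := by rw [this, one_mul]
      _ = w * y := by group
  have hle : W ≤ (W ⊓ centralizer (P : Set G)) ⊔ (W ⊓ centralizer ((MulAut.conj a • P : Subgroup G) : Set G)) := by
    intro v hv
    set B := P ⊔ MulAut.conj (v * a) • P with hB
    have hBW : B ⊔ W = ⊤ := by
      rw [eq_top_iff, ← hAW, hA]
      refine sup_le (sup_le (le_sup_left.trans le_sup_left) ?_) le_sup_right
      intro y hy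
      have h1 : v * y * v⁻¹ ∈ B := mem_sup_right (by
        rw [← H8.conj_smul_conj_smul]; exact H8.conj_mem_conj_smul.mpr hy)
      have := (B ⊔ W).mul_mem ((B ⊔ W).mul_mem (mem_sup_right (W.inv_mem hv)) (mem_sup_left h1))
        (mem_sup_right hv)
      simpa [mul_assoc] using this
    have hBn : (B ⊓ W).Normal := by
      rw [← normalizer_eq_top_iff, eq_top_iff, ← hBW]
      refine sup_le (H4.le_normalizer_inf le_normalizer le_normalizer_of_normal) ?_
      exact ((le_centralizer W).trans (centralizer_le inf_le_right)).trans (centralizer_le_normalizer _)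
    have hB0 : B ⊓ W = ⊥ := by
      refine (hmin _ hBn inf_le_right).resolve_right fun h => hcon v hv ?_
      rw [← hBW, sup_of_le_left (inf_eq_right.mp h)]
    have hRWn : (W ⊔ R).Normal := by
      rw [← normalizer_eq_top_iff, eq_top_iff, ← hAW]
      exact sup_le (H4.le_normalizer_sup le_normalizer_of_normal hAR) (le_sup_left.trans le_normalizer)
    have hT : Nat.card ↥(B ⊓ (W ⊔ R)) = Nat.card R := by
      have e1 := H3.card_sup_mul_card_inf (B ⊓ (W ⊔ R)) W
      have e2 := H3.card_sup_mul_card_inf R W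
      have a1 : B ⊓ (W ⊔ R) ⊓ W = ⊥ := by
        rw [eq_bot_iff, ← hB0]; exact inf_le_inf_right _ inf_le_left
      have a2 : B ⊓ (W ⊔ R) ⊔ W = R ⊔ W := by
        apply le_antisymm (sup_le (inf_le_right.trans (sup_comm W R).le) le_sup_right)
        intro y hy
        have : y ∈ B ⊔ W := hBW ▸ mem_top y
        obtain ⟨b, hb, w, hw, rfl⟩ := mem_sup_of_normal_right.mp this
        refine mul_mem (mem_sup_left ⟨hb, ?_⟩) (mem_sup_right hw)
        have := (W ⊔ R).mul_mem ((sup_comm R W).le hy) (mem_sup_left (W.inv_mem hw))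
        simpa using this
      rw [a1, a2] at e1
      rw [inf_eq_bot_of_coprime hcop, e1] at e2
      exact Nat.eq_of_mul_eq_mul_right Nat.card_pos e2
    obtain ⟨k, hk, hkR⟩ := H4.exists_conj_eq_of_le_sup (A := R) (K := W) le_normalizer_of_normal hcop
      (Or.inl inferInstance) inf_le_right hT
    have hBk : ∀ y ∈ B, k⁻¹ * y * k⁻¹⁻¹ ∈ normalizer (R : Set G) := by
      intro y hy
      have : y ∈ normalizer ((B ⊓ (W ⊔ R) : Subgroup G) : Set G) :=
        H4.le_normalizer_inf le_normalizer le_normalizer_of_normal hy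
      rw [← hkR, H8.normalizer_conj_smul, H8.mem_conj_smul] at this
      rwa [inv_inv]
    have h1 : k⁻¹ ∈ W ⊓ centralizer (P : Set G) :=
      ⟨W.inv_mem hk, fun y hy => hcomm _ (W.inv_mem hk) y (hPA hy) (hBk y (mem_sup_left hy))⟩
    have h2 : k⁻¹ * v ∈ W ⊓ centralizer ((MulAut.conj a • P : Subgroup G) : Set G) := by
      refine ⟨W.mul_mem (W.inv_mem hk) hv, fun y hy => hcomm _ (W.mul_mem (W.inv_mem hk) hv) y (hPaA hy) ?_⟩
      have := hBk (v * y * v⁻¹) (mem_sup_right (by
        rw [← H8.conj_smul_conj_smul]; exact H8.conj_mem_conj_smul.mpr hy))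
      simpa [mul_assoc] using this
    have := mul_mem (mem_sup_left (inv_mem h1)) (mem_sup_right h2)
    simpa using this
  have hnc : A ≤ normalClosure (P : Set G) := by
    rw [hA]
    refine sup_le le_normalClosure ?_
    rw [← Normal.conj_smul_eq_self a (normalClosure (P : Set G))]
    exact pointwise_smul_le_pointwise_smul_iff.mpr le_normalClosure
  have hlt := card_fix_sq_lt h3 P hP W hel hW0 hmin (by
    rw [eq_top_iff, ← hAW]; exact sup_le_sup_right hnc _) (by
    intro h
    apply hW0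
    rw [← hC, left_eq_inf, le_centralizer_iff]
    exact hRA.trans (hnc.trans (normalClosure_le_normal h)))
  have e1 : Nat.card ↥(W ⊓ centralizer ((MulAut.conj a • P : Subgroup G) : Set G)) =
      Nat.card ↥(W ⊓ centralizer (P : Set G)) := by
    rw [H8.centralizer_conj_smul, ← H8.card_conj_smul (W ⊓ centralizer (P : Set G)) a, smul_inf,
      Normal.conj_smul_eq_self a W]
  have e2 := Nat.le_of_dvd (Nat.mul_pos Nat.card_pos Nat.card_pos) (H3.card_sup_dvd_of_le_normalizer
    (H := W ⊓ centralizer (P : Set G)) (N := W ⊓ centralizer ((MulAut.conj a • P : Subgroup G) : Set G))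
    ((inf_le_left.trans ((le_centralizer W).trans (centralizer_le inf_le_left))).trans
      (centralizer_le_normalizer _)))
  have e3 := card_le_of_le hle
  rw [e1, ← sq] at e2
  omega

theorem mid {G : Type*} [Group G] [Finite G] [Group.IsSolvable G] {p : ℕ} [hp : Fact p.Prime]
    (h3 : 3 < p) (P : Subgroup G) (hP : Nat.card P ∣ p) {q : ℕ} [hq : Fact q.Prime] (W : Subgroup G)
    [hWn : W.Normal] (hWq : IsPGroup q W) (hW0 : W ≠ ⊥) (A R : Subgroup G) (a : G)
    (hmin : ∀ K : Subgroup G, K.Normal → K < W → K ≤ centralizer (R : Set G))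
    (hA : A = P ⊔ MulAut.conj a • P) (hAW : A ⊔ W = ⊤) (hRA : R ≤ A) (hAR : A ≤ normalizer (R : Set G))
    (hcop : (Nat.card R).Coprime (Nat.card W)) (hC : ⁅W, R⁆ = W) :
    ∃ v ∈ W, P ⊔ MulAut.conj (v * a) • P = ⊤ := by
  set U := (frattini W).map W.subtype with hU
  haveI : U.Normal := H3.map_frattini_normal W
  let φ := QuotientGroup.mk' U
  have hφ : Function.Surjective φ := QuotientGroup.mk'_surjective U
  have hUW : U < W := H3.map_frattini_lt hW0
  haveI : (W.map φ).Normal := hWn.map φ hφ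
  have hel : IsElementaryAbelian q (W.map φ) := H53.elemAb_map_frattini_quotient W hWq
  haveI := hel.1
  have hcop' : (Nat.card (R.map φ)).Coprime (Nat.card (W.map φ)) :=
    (hcop.coprime_dvd_left (card_map_dvd R φ)).coprime_dvd_right (card_map_dvd W φ)
  have hC' : W.map φ ⊓ centralizer (R.map φ : Set (G ⧸ U)) = ⊥ := by
    have := H4.centralizer_inf_commutator_eq_bot (A := R.map φ) (V := W.map φ) le_normalizer_of_normal hcop'
    rwa [← map_commutator, hC, inf_comm] at this
  have hker : φ.ker = U := QuotientGroup.ker_mk' U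
  obtain ⟨_, ⟨v, hv, rfl⟩, h⟩ := core h3 (P.map φ) ((card_map_dvd P φ).trans hP) (W.map φ) hel
    (fun h => hUW.not_ge (by rwa [Subgroup.map_eq_bot_iff, hker] at h)) (by
      intro K hK hKW
      have h1 : K.comap φ ≤ W := by
        have := comap_mono (f := φ) hKW
        rwa [comap_map_eq, hker, sup_of_le_left hUW.le] at this
      have h2 : (K.comap φ).map φ = K := map_comap_eq_self_of_surjective hφ K
      rcases h1.eq_or_lt with h | h
      · right; rw [← h2, h]
      · left
        rw [eq_bot_iff, ← hC']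
        refine le_inf hKW ?_
        rw [← h2]
        rintro _ ⟨k, hk, rfl⟩ _ ⟨r, hr, rfl⟩
        rw [← map_mul, ← map_mul, hmin _ (hK.comap φ) h hk r hr])
    (A.map φ) (R.map φ) (φ a) (by rw [hA, Subgroup.map_sup, H2.map_conj_smul])
    (by rw [← Subgroup.map_sup, hAW, map_top_of_surjective φ hφ]) (map_mono hRA)
    ((map_mono hAR).trans (le_normalizer_map φ)) hcop' hC'
  refine ⟨v, hv, H3.le_frattini_iff_forall_sup.mp (H3.map_frattini_le_frattini W) _ ?_⟩
  rw [← map_mul, ← H2.map_conj_smul, ← Subgroup.map_sup] at h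
  have := congrArg (comap φ) h
  rwa [comap_map_eq, hker, comap_top] at this

theorem amb {G : Type*} [Group G] [Finite G] {p : ℕ} [hp : Fact p.Prime]
    (h3 : 3 < p) (P : Subgroup G) (hP : Nat.card P ∣ p) {q : ℕ} [hq : Fact q.Prime] (W : Subgroup G)
    (hWq : IsPGroup q W) (hW0 : W ≠ ⊥) (A R : Subgroup G) (a : G) (ha : a ∈ A)
    (hs : Group.IsSolvable ↥(W ⊔ A))
    (hmin : ∀ K : Subgroup G, A ≤ normalizer (K : Set G) → K < W → K ≤ centralizer (R : Set G))
    (hA : A = P ⊔ MulAut.conj a • P) (hAW : A ≤ normalizer (W : Set G)) (hRA : R ≤ A)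
    (hAR : A ≤ normalizer (R : Set G))
    (hcop : (Nat.card R).Coprime (Nat.card W)) (hC : ⁅W, R⁆ = W) :
    ∃ v ∈ W, P ⊔ MulAut.conj (v * a) • P = W ⊔ A := by
  set Γ := W ⊔ A with hΓ
  have hPA : P ≤ A := hA ▸ le_sup_left
  have hm : ∀ H : Subgroup G, H ≤ Γ → (H.subgroupOf Γ).map Γ.subtype = H := fun H h =>
    map_subgroupOf_eq_of_le h
  have hinj := map_injective Γ.subtype_injective
  have hAΓ : A ≤ Γ := le_sup_right
  have hWΓ : W ≤ Γ := le_sup_left
  haveI : (W.subgroupOf Γ).Normal := H4.normal_subgroupOf_sup_left hAW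
  obtain ⟨v, hv, h⟩ := mid h3 (P.subgroupOf Γ) (by rwa [H4.card_subgroupOf_of_le (hPA.trans hAΓ)])
    (W.subgroupOf Γ) (hWq.comap_subtype) (fun h => hW0 (by rw [← hm W hWΓ, h, Subgroup.map_bot]))
    (A.subgroupOf Γ) (R.subgroupOf Γ) ⟨a, hAΓ ha⟩ (by
      intro K hK hKW
      have h1 : K.map Γ.subtype < W := by
        rw [← hm W hWΓ]; exact (map_lt_map_iff_of_injective Γ.subtype_injective).mpr hKW
      have h2 := hmin _ (hAΓ.trans (by
        have := le_normalizer_map (H := K) Γ.subtype
        rwa [normalizer_eq_top_iff.mpr hK, ← MonoidHom.range_eq_map, range_subtype] at this)) h1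
      intro k hk r hr
      exact Subtype.ext (h2 ⟨k, hk, rfl⟩ r hr))
    (hinj (by
      rw [Subgroup.map_sup, H2.map_conj_smul, hm A hAΓ, hm P (hPA.trans hAΓ)]; exact hA))
    (hinj (by
      rw [Subgroup.map_sup, hm A hAΓ, hm W hWΓ, ← MonoidHom.range_eq_map, range_subtype, sup_comm]))
    (comap_mono hRA) (by
      rw [← subgroupOf_normalizer_eq (hRA.trans hAΓ)]; exact comap_mono hAR)
    (by rwa [H4.card_subgroupOf_of_le (hRA.trans hAΓ), H4.card_subgroupOf_of_le hWΓ])
    (hinj (by rw [map_commutator, hm W hWΓ, hm R (hRA.trans hAΓ), hC]))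
  refine ⟨v, hv, ?_⟩
  have := congrArg (map Γ.subtype) h
  rwa [Subgroup.map_sup, H2.map_conj_smul, hm P (hPA.trans hAΓ), ← MonoidHom.range_eq_map,
    range_subtype] at this

theorem crit {G : Type*} [Group G] [Finite G] (A V : Subgroup G) (hV : Group.IsNilpotent V)
    (hAV : A ≤ normalizer (V : Set G))
    (h : ∀ r q : Nat.Primes, r ≠ q → (pCore q V).map V.subtype ≤
      centralizer (((pCore r A).map A.subtype : Subgroup G) : Set G)) :
    Group.IsNilpotent ↥((fittingSubgroup A).map A.subtype ⊔ V) := by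
  set Γ := (fittingSubgroup A).map A.subtype ⊔ V with hΓ
  have hF : (fittingSubgroup A).map A.subtype = ⨆ r : Nat.Primes, (pCore r A).map A.subtype := by
    rw [H3.fitting_eq_iSup_pCore, Subgroup.map_iSup]
  have hVe : V = ⨆ r : Nat.Primes, (pCore r V).map V.subtype := by
    rw [← Subgroup.map_iSup, H3.iSup_pCore_eq_top, ← MonoidHom.range_eq_map, range_subtype]
  have key : ∀ r : Nat.Primes, (pCore r A).map A.subtype ⊔ (pCore r V).map V.subtype ≤
      (fittingSubgroup Γ).map Γ.subtype := by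
    intro r
    haveI : Fact (r : ℕ).Prime := ⟨r.2⟩
    have n1 : A ≤ normalizer (((pCore r V).map V.subtype : Subgroup G) : Set G) :=
      hAV.trans (H3.normalizer_le_normalizer_map_pCore V)
    have n2 : A ≤ normalizer (((pCore r A).map A.subtype : Subgroup G) : Set G) :=
      le_normalizer.trans (H3.normalizer_le_normalizer_map_pCore A)
    refine H3.le_map_fitting (IsPGroup.isNilpotent (p := r) (IsPGroup.to_sup_of_normal_right'
      (H3.map_pCore_isPGroup A) (H3.map_pCore_isPGroup V) ((map_subtype_le _).trans n1))) ?_ ?_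
    · exact sup_le_sup (map_mono H3.pCore_le_fitting) (map_subtype_le _)
    · refine sup_le ((map_subtype_le _).trans (H4.le_normalizer_sup n2 n1)) ?_
      refine hVe.le.trans (iSup_le fun q => ?_)
      by_cases hq : r = q
      · subst hq; exact le_sup_right.trans le_normalizer
      · exact H4.le_normalizer_sup ((h r q hq).trans (centralizer_le_normalizer _))
          ((map_subtype_le _).trans (le_normalizer.trans (H3.normalizer_le_normalizer_map_pCore V)))
  refine H3.isNilpotent_of_le (K := (fittingSubgroup Γ).map Γ.subtype) (sup_le ?_ ?_)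
    (H3.map_fitting_isNilpotent Γ)
  · rw [hF]; exact iSup_le fun r => le_sup_left.trans (key r)
  · exact hVe.le.trans (iSup_le fun r => le_sup_right.trans (key r))

end

/-- Let G be a finite group and P a subgroup of prime order p > 3. Consider the solvable subgroups A of G of the form A = ⟨P, aPa⁻¹⟩ for some a ∈ A, and let A be maximal under inclusion among them. Then for every nilpotent subgroup V of G normalized by A, the subgroup F(A)V generated by the Fitting subgroup of A and V is nilpotent. -/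
theorem result {G : Type*} [Group G] [Finite G]
    {p : ℕ} [Fact p.Prime] (hp : 3 < p) (P : Subgroup G) (hP : Nat.card P = p) (A : Subgroup G)
    (hA : Group.IsSolvable ↥A ∧ ∃ a ∈ A, A = P ⊔ P.map (MulAut.conj a).toMonoidHom)
    (hmax : ∀ B : Subgroup G, A ≤ B → Group.IsSolvable ↥B → (∃ b ∈ B, B = P ⊔ P.map (MulAut.conj b).toMonoidHom) → B = A)
    (V : Subgroup G) (hV : Group.IsNilpotent ↥V) (hAV : A ≤ Subgroup.normalizer (V : Set G)) :
    Group.IsNilpotent ↥((Cfsg.fittingSubgroup ↥A).map A.subtype ⊔ V) := by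
  classical
  refine crit A V hV hAV fun r q hrq => ?_
  haveI : Fact (r : ℕ).Prime := ⟨r.2⟩
  haveI : Fact (q : ℕ).Prime := ⟨q.2⟩
  have hco : (r : ℕ).Coprime q := (Nat.coprime_primes r.2 q.2).mpr fun h => hrq (Subtype.ext h)
  obtain ⟨hsA, a, ha, hAe⟩ := hA
  set R := (pCore r A).map A.subtype with hR
  set Q := (pCore q V).map V.subtype with hQ
  have hAR : A ≤ Subgroup.normalizer (R : Set G) :=
    Subgroup.le_normalizer.trans (H3.normalizer_le_normalizer_map_pCore A)
  have hRA : R ≤ A := Subgroup.map_subtype_le _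
  by_contra hcon
  obtain ⟨W, ⟨hWQ, hAW, hWR⟩, hmin⟩ := (wellFounded_lt (α := Subgroup G)).has_min
    {W | W ≤ Q ∧ A ≤ Subgroup.normalizer (W : Set G) ∧ ¬ W ≤ Subgroup.centralizer (R : Set G)}
    ⟨Q, le_rfl, hAV.trans (H3.normalizer_le_normalizer_map_pCore V), hcon⟩
  have hWq : IsPGroup q W := (H3.map_pCore_isPGroup V).to_le hWQ
  have hcop : (Nat.card R).Coprime (Nat.card W) :=
    IsPGroup.coprime_card_of_ne r q (fun h => hrq (Subtype.ext h)) R W (H3.map_pCore_isPGroup A) hWq
  have hmin' : ∀ K : Subgroup G, A ≤ Subgroup.normalizer (K : Set G) → K < W →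
      K ≤ Subgroup.centralizer (R : Set G) := fun K hK hKW => by
    by_contra h
    exact hmin K ⟨hKW.le.trans hWQ, hK, h⟩ hKW
  have hsW : Group.IsSolvable W := H4.isSolvable_of_isPGroup hWq
  have hC : ⁅W, R⁆ = W := by
    refine ((H4.commutator_le_left_of_le_normalizer (hRA.trans hAW)).eq_or_lt).resolve_right fun h => hWR ?_
    exact H4.le_centralizer_of_commutator_le_centralizer (hRA.trans hAW) hcop (Or.inr hsW)
      (hmin' _ (H4.le_normalizer_commutator hAW hAR) h)
  have hs := H55.isSolvable_sup hsW hsA hAW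
  obtain ⟨v, hv, h⟩ := amb hp P hP.dvd W hWq (fun h => hWR (h ▸ bot_le)) A R a ha hs hmin' hAe hAW
    hRA hAR hcop hC
  have hWA : W ≤ A := le_sup_left.trans (hmax _ le_sup_right hs ⟨v * a,
    mul_mem (Subgroup.mem_sup_left hv) (Subgroup.mem_sup_right ha), h.symm⟩).le
  refine hWR ((H3.le_map_pCore hWq hWA hAW).trans ?_)
  rintro _ ⟨x, hx, rfl⟩ _ ⟨y, hy, rfl⟩
  exact congrArg Subtype.val (H3.pCore_le_centralizer_pCore hco.symm hx y hy)

end Cfsg.Agent.S3822
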