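import Cfsg.Statements.S3825
import Mathlib
import Cfsg.Agent.H89.PBasic

set_option autoImplicit false
open Cfsg

namespace Cfsg.Agent.S3825

/-- Let U be a subgroup of a finite group H and w an involution of H normalizing U and commuting with exactly two elements of U, the identity and y. If V is a non-cyclic elementary abelian 2-subgroup of U containing y which is normal in U and invariant under w, then V is a Sylow 2-subgroup of U, V has order 4, and U/V is abelian. -/
theorem result {H : Type*} [Group H] [Finite H] (U : Subgroup H) (w : H) (hw : orderOf w = 2)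
    (hwU : w ∈ Subgroup.normalizer (U : Set H)) (y : H) (hy : y ≠ 1) (hyU : y ∈ U)
    (hfix : ∀ u ∈ U, w * u * w⁻¹ = u ↔ (u = 1 ∨ u = y))
    (V : Subgroup H) (hVU : V ≤ U) (hVn : (V.subgroupOf U).Normal) (hVw : ∀ v ∈ V, w * v * w⁻¹ ∈ V)
    (hVe : Cfsg.IsElementaryAbelian 2 V) (hVc : ¬ IsCyclic ↥V) (hyV : y ∈ V) :
    ¬ 2 ∣ V.relIndex U ∧ Nat.card ↥V = 4 ∧ ⁅U, U⁆ ≤ V := by
  classical
  have hw2 : w * w = 1 := by rw [← pow_two, ← hw, pow_orderOf_eq_one]
  have hwi : w⁻¹ = w := inv_eq_of_mul_eq_one_right hw2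
  have hww : ∀ u : H, w * (w * u * w⁻¹) * w⁻¹ = u := by
    intro u
    calc w * (w * u * w⁻¹) * w⁻¹ = (w * w) * u * (w * w)⁻¹ := by group
      _ = u := by rw [hw2]; group
  have hVc' : ∀ a ∈ V, ∀ b ∈ V, a * b = b * a := fun a ha b hb =>
    H89.comm_of_isMulCommutative hVe.1 ha hb
  have hV2 : ∀ a ∈ V, a * a = 1 := fun a ha => by rw [← pow_two]; exact hVe.2 a ha
  have hy2 : orderOf y = 2 := orderOf_eq_prime (hVe.2 y hyV) hy
  have hzy : ∀ a : H, a ∈ Subgroup.zpowers y ↔ a = 1 ∨ a = y := by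
    intro a
    constructor
    · intro ha
      rw [mem_zpowers_iff_mem_range_orderOf, hy2] at ha
      simp only [Finset.mem_image, Finset.mem_range] at ha
      obtain ⟨k, hk, rfl⟩ := ha
      interval_cases k <;> simp
    · rintro (rfl | rfl)
      · exact Subgroup.one_mem _
      · exact Subgroup.mem_zpowers _
  -- the map `v ↦ v v^w`
  let φ : V →* H :=
    { toFun := fun v => v * (w * v * w⁻¹)
      map_one' := by simp
      map_mul' := fun a b => by
        have := hVc' _ b.2 _ (hVw a a.2)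
        calc (a : H) * b * (w * (a * b) * w⁻¹) = a * (b * (w * a * w⁻¹)) * (w * b * w⁻¹) := by group
          _ = _ := by rw [this]; group }
  have hφ : ∀ v : V, φ v = v * (w * v * w⁻¹) := fun _ => rfl
  have hrange : φ.range ≤ Subgroup.zpowers y := by
    rintro _ ⟨v, rfl⟩
    rw [hzy, hφ, ← hfix _ (hVU (V.mul_mem v.2 (hVw v v.2)))]
    calc w * ((v : H) * (w * v * w⁻¹)) * w⁻¹ = (w * v * w⁻¹) * (w * (w * v * w⁻¹) * w⁻¹) := by group
      _ = _ := by rw [hww, hVc' _ (hVw v v.2) _ v.2]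
  have hker : φ.ker = (Subgroup.zpowers y).subgroupOf V := by
    ext v
    rw [MonoidHom.mem_ker, Subgroup.mem_subgroupOf, hzy, ← hfix _ (hVU v.2), hφ]
    constructor
    · intro h
      calc w * v * w⁻¹ = (v * v) * (w * v * w⁻¹) := by rw [hV2 v v.2, one_mul]
        _ = v := by rw [mul_assoc, h, mul_one]
    · intro h
      rw [h, hV2 v v.2]
  have hkc : Nat.card φ.ker = 2 := by
    rw [hker, Nat.card_congr (Subgroup.subgroupOfEquivOfLe (Subgroup.zpowers_le.mpr hyV)).toEquiv,
      Nat.card_zpowers, hy2]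
  have hzc : Nat.card (Subgroup.zpowers y) = 2 := by rw [Nat.card_zpowers, hy2]
  have hcard := φ.ker.card_mul_index
  rw [Subgroup.index_ker, hkc] at hcard
  have hr : φ.range = Subgroup.zpowers y := by
    refine (H89.eq_bot_or_eq_of_card_prime Nat.prime_two hzc hrange).resolve_left fun h => hVc ?_
    rw [h, Subgroup.card_bot] at hcard
    exact isCyclic_of_prime_card (p := 2) hcard.symm
  rw [hr, hzc] at hcard
  obtain ⟨v₀, hv₀⟩ : y ∈ φ.range := hr ▸ Subgroup.mem_zpowers y
  rw [hφ] at hv₀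
  -- fixed points on `U / V`
  have hUw : ∀ u ∈ U, w * u * w⁻¹ ∈ U := fun u hu => (Subgroup.mem_normalizer_iff.mp hwU u).mp hu
  have key : ∀ u ∈ U, (w * u * w⁻¹)⁻¹ * u ∈ V → u ∈ V := by
    intro u hu hv
    set v := (w * u * w⁻¹)⁻¹ * u with hvdef
    have h1 : w * u * w⁻¹ = u * v := by
      have : (w * u * w⁻¹) * v = u := by rw [hvdef]; group
      rw [← this, mul_assoc (w * u * w⁻¹), hV2 v hv, mul_one, this]
    have h2 : w * v * w⁻¹ = v := by
      have h3 : u = u * (v * (w * v * w⁻¹)) := by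
        calc u = w * (w * u * w⁻¹) * w⁻¹ := (hww u).symm
          _ = (w * u * w⁻¹) * (w * v * w⁻¹) := by nth_rewrite 1 [h1]; group
          _ = _ := by rw [h1]; group
      have h4 : v * (w * v * w⁻¹) = 1 := left_eq_mul.mp h3
      calc w * v * w⁻¹ = (v * v) * (w * v * w⁻¹) := by rw [hV2 v hv, one_mul]
        _ = v := by rw [mul_assoc, h4, mul_one]
    have hle : ∀ a : H, a = 1 ∨ a = y → a ∈ V := by
      rintro a (rfl | rfl)
      · exact V.one_mem
      · exact hyV
    rcases (hfix v (hVU hv)).mp h2 with h5 | h5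
    · rw [h5, mul_one] at h1
      exact hle u ((hfix u hu).mp h1)
    · have h6 : w * (u * v₀) * w⁻¹ = u * v₀ := by
        calc w * (u * v₀) * w⁻¹ = (w * u * w⁻¹) * (w * v₀ * w⁻¹) := by group
          _ = u * (v₀ * ((w * v₀ * w⁻¹) * (w * v₀ * w⁻¹))) := by rw [h1, h5, ← hv₀]; group
          _ = u * v₀ := by rw [hV2 _ (hVw _ v₀.2), mul_one]
      have h7 := hle _ ((hfix _ (U.mul_mem hu (hVU v₀.2))).mp h6)
      exact (V.mul_mem_cancel_right v₀.2).mp h7
  let α : U →* U := (U.normalizerMonoidHom ⟨w, hwU⟩ : MulAut U)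
  have hα : ∀ u : U, (α u : H) = w * u * w⁻¹ := fun _ => rfl
  let β : U ⧸ V.subgroupOf U →* U ⧸ V.subgroupOf U :=
    QuotientGroup.map _ _ α (fun u hu => hVw _ hu)
  have hβ : MonoidHom.FixedPointFree β := by
    intro g hg
    obtain ⟨u, rfl⟩ := QuotientGroup.mk_surjective g
    rw [QuotientGroup.eq_one_iff]
    exact key u u.2 ((QuotientGroup.eq (a := α u) (b := u)).mp hg)
  have hβ2 : Function.Involutive β := by
    intro g
    obtain ⟨u, rfl⟩ := QuotientGroup.mk_surjective g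
    exact congrArg QuotientGroup.mk (Subtype.ext (hww u) : α (α u) = u)
  refine ⟨?_, hcard.symm, ?_⟩
  · have := hβ.odd_card_of_involutive hβ2
    exact this.not_two_dvd_nat
  · rw [Subgroup.commutator_le]
    intro a ha b hb
    have h1 := hβ.commute_all_of_involutive hβ2 (⟨a, ha⟩ : U) (⟨b, hb⟩ : U)
    have h2 : ((⟨a, ha⟩ * ⟨b, hb⟩ * ⟨a, ha⟩⁻¹ * ⟨b, hb⟩⁻¹ : U) : U ⧸ V.subgroupOf U) = 1 := by
      simp only [QuotientGroup.mk_mul, QuotientGroup.mk_inv]
      rw [h1.eq]; group
    rw [QuotientGroup.eq_one_iff] at h2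
    exact h2

end Cfsg.Agent.S3825
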