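import Cfsg.Statements.S3838
import Cfsg.Agent.H8.Tate

set_option autoImplicit false
open Cfsg

namespace Cfsg.Agent.S3838

theorem key {H : Type*} [Group H] [Finite H] {p : ℕ} [Fact p.Prime] (S : Sylow p H) (Q : Subgroup H)
    [Q.Normal] (hQS : Q ≤ S)
    (h : ∀ g ∈ Subgroup.normalizer ((S : Subgroup H) : Set H), ∀ x ∈ (S : Subgroup H), g * x * g⁻¹ * x⁻¹ ∈ Q) :
    (S : Subgroup H) ⊓ Cfsg.pResidual p H ≤ Q := by
  let T : Sylow p (H ⧸ Q) := S.mapSurjective (QuotientGroup.mk'_surjective Q)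
  have hT : (T : Subgroup (H ⧸ Q)) = (S : Subgroup H).map (QuotientGroup.mk' Q) := rfl
  have hmem : ∀ x : H, QuotientGroup.mk' Q x ∈ (T : Subgroup (H ⧸ Q)) ↔ x ∈ (S : Subgroup H) := by
    intro x
    rw [hT, ← Subgroup.mem_comap, Subgroup.comap_map_eq, QuotientGroup.ker_mk', sup_of_le_left hQS]
  have h1 : Cfsg.HasNormalPComplement p (H ⧸ Q) := by
    apply H8.hasNormalPComplement_of_normalizer_le_centralizer T
    intro g hg
    obtain ⟨g, rfl⟩ := QuotientGroup.mk'_surjective Q g
    have hg' : g ∈ Subgroup.normalizer ((S : Subgroup H) : Set H) := by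
      rw [Subgroup.mem_normalizer_iff]
      intro x
      rw [← hmem, ← hmem, map_mul, map_mul, map_inv]
      exact (Subgroup.mem_normalizer_iff (H := (T : Subgroup (H ⧸ Q)))).mp hg _
    rw [Subgroup.mem_centralizer_iff]
    rintro _ ⟨x, hx, rfl⟩
    have := h g hg' x hx
    rw [← QuotientGroup.ker_mk' Q, MonoidHom.mem_ker] at this
    simp only [map_mul, map_inv] at this
    rw [mul_inv_eq_one, mul_inv_eq_iff_eq_mul] at this
    exact this.symm
  rw [H8.hasNormalPComplement_iff_inf_eq_bot T] at h1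
  rintro x ⟨hx, hx'⟩
  rw [← QuotientGroup.ker_mk' Q, MonoidHom.mem_ker, ← Subgroup.mem_bot, ← h1]
  exact ⟨(hmem x).mpr hx, H8.map_pResidual_le p _ ⟨x, hx', rfl⟩⟩

/-- Let G be a finite group with Sylow p-subgroup P such that N_G(P) has a normal p-complement. Then N_G(Q) has a normal p-complement for every subgroup Q with [P, P] ≤ Q ≤ Φ(P). -/
theorem result {G : Type*} [Group G] [Finite G] {p : ℕ} [Fact p.Prime] (P : Sylow p G) (hN : Cfsg.HasNormalPComplement p ↥(Subgroup.normalizer ((P : Subgroup G) : Set G))) (Q : Subgroup G) (h1 : (commutator ↥(P : Subgroup G)).map (P : Subgroup G).subtype ≤ Q) (h2 : Q ≤ (frattini ↥(P : Subgroup G)).map (P : Subgroup G).subtype) : Cfsg.HasNormalPComplement p ↥(Subgroup.normalizer (Q : Set G)) := by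
  have hQP : Q ≤ P := h2.trans (Subgroup.map_subtype_le _)
  have hcomm : ∀ a ∈ (P : Subgroup G), ∀ b ∈ (P : Subgroup G), a * b * a⁻¹ * b⁻¹ ∈ Q := by
    intro a ha b hb
    apply h1
    rw [Subgroup.map_subtype_commutator]
    exact Subgroup.commutator_mem_commutator ha hb
  have hPH : (P : Subgroup G) ≤ Subgroup.normalizer (Q : Set G) := by
    intro a ha
    apply H8.mem_normalizer_of_conj_smul_le
    intro y hy
    rw [H8.mem_conj_smul] at hy
    have := Q.mul_mem (hcomm a ha _ (hQP hy)) hy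
    simpa [mul_assoc] using this
  have hS := H8.isSylowIn_of_le P hPH
  apply hS.hasNormalPComplement_of_le_frattini
  refine le_trans ?_ h2
  rintro _ ⟨hx, x, hx', rfl⟩
  have := key hS.toSylow (Q.subgroupOf _) (Subgroup.comap_mono hQP) (by
    intro g hg y hy
    have hy' : (y : G) ∈ (P : Subgroup G) := hy
    have hg' : (g : G) ∈ Subgroup.normalizer ((P : Subgroup G) : Set G) := by
      apply H8.mem_normalizer_of_conj_smul_le
      intro z hz
      rw [H8.mem_conj_smul] at hz
      have := (Subgroup.mem_normalizer_iff.mp hg ⟨_, hPH hz⟩).mp hz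
      have h3 : (g : G) * ((g : G)⁻¹ * z * g) * (g : G)⁻¹ ∈ (P : Subgroup G) := this
      simpa [mul_assoc] using h3
    obtain ⟨s, hs, c, hc, e⟩ := (H8.isSylowIn_of_le P (Subgroup.le_normalizer)).exists_mul_of_forall_coprime_mem
      (K := Subgroup.centralizer ((P : Subgroup G) : Set G)) (by
        intro c hc hcop
        have := H8.HasNormalPComplement.mem_centralizer hN (Q := (P : Subgroup G).subgroupOf _)
          P.2.comap_subtype (g := ⟨c, hc⟩) (Subgroup.le_normalizer_of_normal (Subgroup.mem_top _)) (by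
            rwa [← Subgroup.orderOf_coe])
        rw [Subgroup.mem_centralizer_iff] at this ⊢
        intro z hz
        exact congrArg Subtype.val (this ⟨z, Subgroup.le_normalizer hz⟩ hz)) hg'
    change (g : G) * y * (g : G)⁻¹ * (y : G)⁻¹ ∈ Q
    have h4 := Subgroup.mem_centralizer_iff.mp hc y hy'
    have h5 : (g : G) * y * (g : G)⁻¹ * (y : G)⁻¹ = s * y * s⁻¹ * (y : G)⁻¹ := by
      rw [e, mul_assoc s c, ← h4]; group
    rw [h5]
    exact hcomm s hs y hy') (x := x) ⟨hx, hx'⟩
  exact this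

end Cfsg.Agent.S3838
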