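import Cfsg.Statements.S3858
import Cfsg.Agent.H90.Basic

set_option autoImplicit false
open Cfsg

namespace Cfsg.Agent.S3858

/-- Let G be a finite group with a normal non-abelian simple subgroup T whose centralizer is trivial (G almost simple with socle T), r a prime and R a Sylow r-subgroup of G meeting T nontrivially. Then R lies in exactly one maximal subgroup of G if and only if G has exactly one conjugacy class of maximal subgroups whose index is prime to r. -/
theorem result {G : Type*} [Group G] [Finite G] (T : Subgroup G) [T.Normal] (hT : IsSimpleGroup T) (hna : ¬ IsMulCommutative T)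
    (hC : Subgroup.centralizer (T : Set G) = ⊥) {r : ℕ} [Fact r.Prime] (R : Sylow r G) (hR0 : (R : Subgroup G) ⊓ T ≠ ⊥) :
    (∃! M : Subgroup G, IsCoatom M ∧ (R : Subgroup G) ≤ M) ↔
      ((∃ M : Subgroup G, IsCoatom M ∧ ¬ r ∣ M.index) ∧
        ∀ M₁ M₂ : Subgroup G, IsCoatom M₁ → ¬ r ∣ M₁.index → IsCoatom M₂ → ¬ r ∣ M₂.index → ∃ g : G, M₂ = M₁.map (MulAut.conj g).toMonoidHom) := by
  have hN : Subgroup.normalizer ((R : Subgroup G) : Set G) ≠ ⊤ := by
    intro h
    have hn : (R : Subgroup G).Normal := Subgroup.normalizer_eq_top_iff.1 h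
    have h1 : (((R : Subgroup G) ⊓ T).subgroupOf T).Normal := inferInstance
    rcases h1.eq_bot_or_eq_top with h2 | h2
    · rw [Subgroup.subgroupOf_eq_bot, disjoint_iff, inf_assoc, inf_idem] at h2
      exact hR0 h2
    · rw [Subgroup.subgroupOf_eq_top] at h2
      have h3 : IsPGroup r T := R.isPGroup'.to_le (h2.trans inf_le_left)
      have h4 := h3.bot_lt_center
      rcases (inferInstance : (Subgroup.center T).Normal).eq_bot_or_eq_top with h5 | h5
      · exact h4.ne' h5
      · exact hna ⟨⟨fun a b => (Subgroup.mem_center_iff.1 (h5 ▸ Subgroup.mem_top b) a)⟩⟩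
  constructor
  · rintro ⟨M, ⟨hM, hRM⟩, huniq⟩
    refine ⟨⟨M, hM, H90.not_dvd_index_of_sylow_le R hRM⟩, ?_⟩
    have key : ∀ M₁ : Subgroup G, IsCoatom M₁ → ¬ r ∣ M₁.index →
        ∃ g : G, M₁.map (MulAut.conj g).toMonoidHom = M := by
      intro M₁ h1 h2
      obtain ⟨P, hP⟩ := H90.exists_sylow_le_of_not_dvd_index h2
      obtain ⟨g, hg⟩ := MulAction.exists_smul_eq G P R
      refine ⟨g, huniq _ ⟨H90.isCoatom_map_conj h1 g, ?_⟩⟩
      rw [← hg, H90.sylow_coe_smul]
      exact Subgroup.map_mono hP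
    intro M₁ M₂ h1 h2 h3 h4
    obtain ⟨g, hg⟩ := key M₁ h1 h2
    obtain ⟨h, hh⟩ := key M₂ h3 h4
    refine ⟨h⁻¹ * g, ?_⟩
    rw [H90.map_conj_mul, hg, ← hh, ← H90.map_conj_mul, inv_mul_cancel, H90.map_conj_one]
  · rintro ⟨-, hconj⟩
    obtain ⟨M₀, hM₀, hNM⟩ := (eq_top_or_exists_le_coatom _).resolve_left hN
    have hRM : (R : Subgroup G) ≤ M₀ := Subgroup.le_normalizer.trans hNM
    refine ⟨M₀, ⟨hM₀, hRM⟩, ?_⟩
    rintro M ⟨hM, hRM'⟩
    obtain ⟨g, hg⟩ := hconj M₀ M hM₀ (H90.not_dvd_index_of_sylow_le R hRM) hM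
      (H90.not_dvd_index_of_sylow_le R hRM')
    have h1 : ((g⁻¹ • R : Sylow r G) : Subgroup G) ≤ M₀ := by
      intro x hx
      rw [H90.mem_sylow_smul] at hx
      have := hRM' hx
      rw [hg, H90.mem_map_conj] at this
      simpa [mul_assoc] using this
    obtain ⟨h, hh, hh'⟩ := H90.exists_smul_eq_of_le R (g⁻¹ • R) hRM h1
    have h2 : g * h ∈ M₀ := by
      apply hNM
      change _ ∈ Subgroup.normalizer (R : Set G)
      rw [← Sylow.smul_eq_iff_mem_normalizer, mul_smul, hh', smul_inv_smul]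
    have h3 : g ∈ M₀ := by simpa using M₀.mul_mem h2 (M₀.inv_mem hh)
    rw [hg, H90.map_conj_of_mem h3]

end Cfsg.Agent.S3858
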