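import Cfsg.Statements.S3859
import Cfsg.Agent.H90.Basic

set_option autoImplicit false
open Cfsg

namespace Cfsg.Agent.S3859

/-- Let G be a finite group with a normal non-abelian simple subgroup T whose centralizer is trivial (G almost simple with socle T), r a prime and R a Sylow r-subgroup of G meeting T nontrivially. If R lies in exactly one maximal subgroup of G, then G/T is an r-group. -/
theorem result {G : Type*} [Group G] [Finite G] (T : Subgroup G) [T.Normal] (hT : IsSimpleGroup T) (hna : ¬ IsMulCommutative T)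
    (hC : Subgroup.centralizer (T : Set G) = ⊥) {r : ℕ} [Fact r.Prime] (R : Sylow r G) (hR0 : (R : Subgroup G) ⊓ T ≠ ⊥)
    (huniq : ∃! M : Subgroup G, IsCoatom M ∧ (R : Subgroup G) ≤ M) : IsPGroup r (G ⧸ T) := by
  obtain ⟨M, ⟨hM, hRM⟩, huniq⟩ := huniq
  have hN : Subgroup.normalizer (((R : Subgroup G) ⊓ T : Subgroup G) : Set G) ≠ ⊤ := by
    intro h
    have hn : ((R : Subgroup G) ⊓ T).Normal := Subgroup.normalizer_eq_top_iff.1 h
    have h1 : (((R : Subgroup G) ⊓ T).subgroupOf T).Normal := inferInstance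
    rcases h1.eq_bot_or_eq_top with h2 | h2
    · rw [Subgroup.subgroupOf_eq_bot, disjoint_iff, inf_assoc, inf_idem] at h2
      exact hR0 h2
    · rw [Subgroup.subgroupOf_eq_top] at h2
      have h3 : IsPGroup r T := R.isPGroup'.to_le (h2.trans inf_le_left)
      have h4 := h3.bot_lt_center
      rcases (inferInstance : (Subgroup.center T).Normal).eq_bot_or_eq_top with h5 | h5
      · exact h4.ne' h5
      · exact hna ⟨⟨fun a b => (Subgroup.mem_center_iff.1 (h5 ▸ Subgroup.mem_top b) a)⟩⟩
  have hle : ∀ H : Subgroup G, H ≠ ⊤ → (R : Subgroup G) ≤ H → H ≤ M := by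
    intro H hH hRH
    obtain ⟨M₀, hM₀, h⟩ := (eq_top_or_exists_le_coatom _).resolve_left hH
    rwa [huniq M₀ ⟨hM₀, hRH.trans h⟩] at h
  have h1 : Subgroup.normalizer (((R : Subgroup G) ⊓ T : Subgroup G) : Set G) ≤ M := by
    apply hle _ hN
    intro x hx
    rw [Subgroup.mem_normalizer_iff]
    intro y
    simp only [Subgroup.mem_inf]
    refine and_congr ?_ ?_
    · exact (Subgroup.mem_normalizer_iff.1 (Subgroup.le_normalizer hx) y)
    · exact ⟨fun h => Subgroup.Normal.conj_mem ‹T.Normal› y h x, fun h => by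
        simpa [mul_assoc] using Subgroup.Normal.conj_mem ‹T.Normal› _ h x⁻¹⟩
  have h2 : (R : Subgroup G) ⊔ T = ⊤ := by
    by_contra h
    have h3 := hle _ h le_sup_left
    have h4 := H90.normalizer_inf_sup_eq_top T R
    exact hM.1 (top_le_iff.1 (h4 ▸ sup_le h1 (le_sup_right.trans h3)))
  refine R.isPGroup'.of_surjective ((QuotientGroup.mk' T).comp (R : Subgroup G).subtype) ?_
  intro x
  obtain ⟨x, rfl⟩ := QuotientGroup.mk_surjective x
  have hx : x ∈ (R : Subgroup G) ⊔ T := h2 ▸ Subgroup.mem_top x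
  rw [← SetLike.mem_coe, Subgroup.mul_normal] at hx
  obtain ⟨a, ha, b, hb, rfl⟩ := hx
  refine ⟨⟨a, ha⟩, ?_⟩
  simp only [MonoidHom.comp_apply, Subgroup.subtype_apply, QuotientGroup.mk'_apply]
  rw [QuotientGroup.eq]
  simpa using hb

end Cfsg.Agent.S3859
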