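import Cfsg.Statements.S3864
import Cfsg.Agent.H8.MCFusion

set_option autoImplicit false
open Cfsg

namespace Cfsg.Agent.S3864

open Subgroup Cfsg.Agent.H8 Cfsg.Agent.H9

theorem mid {G : Type*} [Group G] [Finite G] (P : Sylow 2 G) {a b : G} {m : ℕ}
    (h : MC (P : Subgroup G) a b m) (hb : b * b = 1) (hab : a * b * (a * b) = 1)
    (h1 : ¬ Act a m b) (h2 : Act a m (a * b)) :
    Nat.card {C : ConjClasses G // ∃ t : G, orderOf t = 2 ∧ ConjClasses.mk t = C} = 2 ∧
      (∃ N : Subgroup G, N.Normal ∧ N.index = 2) ∧ ∀ N : Subgroup G, N.Normal → N.index ≠ 4 := by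
  have hi : (pResidual 2 G).index = 2 :=
    index_pResidual_eq_two P (mc_mul h) (inf_pResidual_eq P h (Or.inl hab) h1 h2)
  refine ⟨?_, ⟨_, inferInstance, hi⟩, fun N hN h4 => ?_⟩
  · refine card_classes_eq_two _ b h.orderOf_z (orderOf_of_mul_self_eq_one h hb)
      (not_isConj_of_not_act P h h1 (pow_mem (mem_zpowers a) _)) fun t ht => ?_
    rcases isConj_cases_two P h ht with h3 | ⟨-, h3⟩ | ⟨-, h3⟩
    · exact Or.inl h3
    · exact Or.inr h3
    · exact Or.inl ((isConj_z_of_act (mc_mul h) hab h2).trans h3)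
  · have := Subgroup.index_dvd_of_le (pResidual_le_of_index_eq_pow (p := 2) (N := N) (k := 2) h4)
    rw [hi, h4] at this
    omega

/-- Let G be a finite group whose Sylow 2-subgroups are dihedral of order 2 ^ n with n ≥ 3, and count the conjugacy classes of involutions of G. Then exactly one of the following holds: there is one class of involutions and no normal subgroup of index 2; there are two classes of involutions, a normal subgroup of index 2 and none of index 4; there are three classes of involutions and G has a normal 2-complement. -/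
theorem result {G : Type*} [Group G] [Finite G] (P : Sylow 2 G) (n : ℕ) (hn : 3 ≤ n) (hdih : Nonempty (↥(P : Subgroup G) ≃* DihedralGroup (2 ^ (n - 1)))) : (Nat.card {C : ConjClasses G // ∃ g : G, ConjClasses.mk g = C ∧ orderOf g = 2} = 1 ∧ ∀ N : Subgroup G, N.Normal → N.index ≠ 2) ∨ (Nat.card {C : ConjClasses G // ∃ g : G, ConjClasses.mk g = C ∧ orderOf g = 2} = 2 ∧ (∃ N : Subgroup G, N.Normal ∧ N.index = 2) ∧ ∀ N : Subgroup G, N.Normal → N.index ≠ 4) ∨ (Nat.card {C : ConjClasses G // ∃ g : G, ConjClasses.mk g = C ∧ orderOf g = 2} = 3 ∧ Cfsg.HasNormalPComplement 2 G) := by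
  have e : {C : ConjClasses G // ∃ g : G, ConjClasses.mk g = C ∧ orderOf g = 2} =
      {C : ConjClasses G // ∃ t : G, orderOf t = 2 ∧ ConjClasses.mk t = C} := by
    simp only [and_comm]
  rw [e]
  obtain ⟨f⟩ := hdih
  have h3 : 3 ≤ 2 ^ (n - 1) := by
    have : 2 ^ 2 ≤ 2 ^ (n - 1) := Nat.pow_le_pow_right (by norm_num) (by omega)
    omega
  obtain ⟨a, b, m, h, hb, hc, -⟩ := exists_MC_of_dihedral' f P.isPGroup' h3
  have hab : a * b * (a * b) = 1 := by
    calc a * b * (a * b) = a * (b * a * b⁻¹) * (b * b) := by group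
      _ = 1 := by rw [hc, hb]; group
  have hc' : a * (a * b) = a * b * a⁻¹ := by
    have : b * a⁻¹ = a * b := by
      have h5 : b * a⁻¹ * b⁻¹ = a := by
        calc b * a⁻¹ * b⁻¹ = (b * a * b⁻¹)⁻¹ := by group
          _ = a := by rw [hc, inv_inv]
      calc b * a⁻¹ = b * a⁻¹ * b⁻¹ * b := by group
        _ = a * b := by rw [h5]
    rw [mul_assoc a b, this]
  by_cases h1 : Act a m b <;> by_cases h2 : Act a m (a * b)
  · refine Or.inl ⟨?_, fun N _ => pResidual_two_eq_top_iff.mp
      (pResidual_eq_top_of_act P h (Or.inl hb) (Or.inl hab) h1 h2) N⟩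
    refine card_classes_eq_one _ h.orderOf_z fun t ht => ?_
    rcases isConj_cases_two P h ht with h3 | ⟨-, h3⟩ | ⟨-, h3⟩
    · exact h3
    · exact (isConj_z_of_act h hb h1).trans h3
    · exact (isConj_z_of_act (mc_mul h) hab h2).trans h3
  · refine Or.inr (Or.inl (mid P (mc_mul h) hab ?_ h2 ?_))
    · rw [hc']
      calc a * b * a⁻¹ * (a * b * a⁻¹) = a * (b * b) * a⁻¹ := by group
        _ = 1 := by rw [hb]; group
    · rw [hc']
      exact (act_conj_iff h (by simpa using h.zpow_mem 1)).mpr h1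
  · exact Or.inr (Or.inl (mid P h hb hab h1 h2))
  · refine Or.inr (Or.inr ⟨?_, (hasNormalPComplement_iff_not_act P h).mpr ⟨h1, h2⟩⟩)
    exact card_classes_eq_three _ b (a * b) h.orderOf_z (orderOf_of_mul_self_eq_one h hb)
      (orderOf_of_mul_self_eq_one (mc_mul h) hab)
      (not_isConj_of_not_act P h h1 (pow_mem (mem_zpowers a) _))
      (not_isConj_of_not_act P (mc_mul h) h2 (pow_mem (mem_zpowers a) _))
      (not_isConj_mul_of_not_act P h h1) fun t ht => by
        rcases isConj_cases_two P h ht with h3 | ⟨-, h3⟩ | ⟨-, h3⟩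
        · exact Or.inl h3
        · exact Or.inr (Or.inl h3)
        · exact Or.inr (Or.inr h3)

end Cfsg.Agent.S3864
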