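import Cfsg.Statements.S3881
import Cfsg.Agent.H90.Metacyclic
import Cfsg.Agent.H3.Frattini

set_option autoImplicit false
open Cfsg

namespace Cfsg.Agent.S3881

/-- Let p be an odd prime and G a finite metacyclic p-group (G has a cyclic normal subgroup with cyclic quotient). Suppose G is non-abelian with |G'| = p^n. Then for 1 ≤ i ≤ n the number of elements of G whose conjugacy class has exactly p^i elements is |Z(G)| · (p^(2i) − p^(2i−2)). -/
theorem result {G : Type*} [Group G] [Finite G] {p : ℕ} [Fact p.Prime] (hp : p ≠ 2) (hG : IsPGroup p G) (hmc : Cfsg.IsMetacyclic G) (n : ℕ) (hn : n ≠ 0) (hGn : Nat.card ↥(commutator G) = p ^ n) (i : ℕ) (hi : 1 ≤ i) (hin : i ≤ n) :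
    Nat.card {g : G // (Subgroup.centralizer ({g} : Set G)).index = p ^ i} =
      Nat.card ↥(Subgroup.center G) * (p ^ (2 * i) - p ^ (2 * i - 2)) := by
  have hp' : p.Prime := Fact.out
  obtain ⟨j, rfl⟩ := Nat.exists_eq_add_of_le' hi
  have h1 := (H90.powerClosure_eq_centralPow hp hG hmc hGn (s := n - (j + 1)) (m := j + 1) (by omega)).2
  have h2 := (H90.powerClosure_eq_centralPow hp hG hmc hGn (s := n - j) (m := j) (by omega)).2
  have h3 : {g : G | (Subgroup.centralizer ({g} : Set G)).index = p ^ (j + 1)} =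
      (H90.centralPow hp hG hmc (j + 1) : Set G) \ (H90.centralPow hp hG hmc j : Set G) := by
    ext g
    obtain ⟨k, hk⟩ := hG.index (Subgroup.centralizer ({g} : Set G))
    simp only [Set.mem_setOf_eq, Set.mem_diff, SetLike.mem_coe, H90.mem_centralPow_iff_index, hk,
      Nat.pow_le_pow_iff_right hp'.one_lt, Nat.pow_right_inj hp'.one_lt]
    omega
  have h4 : (H90.centralPow hp hG hmc j : Set G) ⊆ (H90.centralPow hp hG hmc (j + 1) : Set G) := by
    intro g hg
    rw [SetLike.mem_coe, H90.mem_centralPow_iff_index] at hg ⊢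
    exact hg.trans (Nat.pow_le_pow_right hp'.pos (by omega))
  change Set.ncard {g : G | (Subgroup.centralizer ({g} : Set G)).index = p ^ (j + 1)} = _
  rw [h3, Set.ncard_diff h4, Nat.mul_sub, show 2 * (j + 1) - 2 = 2 * j by omega, ← h1, ← h2]
  rfl

end Cfsg.Agent.S3881
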