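import Cfsg.Statements.S3883
import Cfsg.Agent.H90.Metacyclic
import Cfsg.Agent.H3.Frattini

set_option autoImplicit false
open Cfsg

namespace Cfsg.Agent.S3883

/-- Let p be an odd prime and G a finite metacyclic p-group (G has a cyclic normal subgroup with cyclic quotient). Suppose G is non-abelian. Then an element g of G lies outside the Frattini subgroup if and only if its centralizer C_G(g) is abelian. -/
theorem result {G : Type*} [Group G] [Finite G] {p : ℕ} [Fact p.Prime] (hp : p ≠ 2) (hG : IsPGroup p G) (hmc : Cfsg.IsMetacyclic G) (hna : ¬ IsMulCommutative G) (g : G) :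
    g ∉ frattini G ↔ IsMulCommutative ↥(Subgroup.centralizer ({g} : Set G)) := by
  have hp' : p.Prime := Fact.out
  obtain ⟨n, hn⟩ := H7.card_eq_pow hG (commutator G)
  obtain ⟨m, rfl⟩ : ∃ m, n = m + 1 := by
    refine Nat.exists_eq_succ_of_ne_zero ?_
    rintro rfl
    exact hna (H90.isMulCommutative_iff_card_commutator.2 hn)
  obtain ⟨h1, h2⟩ := H90.powerClosure_eq_centralPow hp hG hmc hn (s := 1) (m := m) (by omega)
  have h3 : frattini G = H90.centralPow hp hG hmc m := by
    apply le_antisymm
    · rw [H3.frattini_le_iff hG]
      constructor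
      · have : (H90.centralPow hp hG hmc m).Normal := h1 ▸ inferInstance
        apply H71.commutator_le_of_index_le_sq hG (N := H90.centralPow hp hG hmc m)
        have h4 := (H90.centralPow hp hG hmc m).card_mul_index
        rw [h2, ← (Subgroup.center G).card_mul_index, H90.index_center_of_metacyclic hp hG hmc, hn,
          show (p ^ (m + 1)) ^ 2 = p ^ (2 * m) * p ^ 2 by ring, ← mul_assoc] at h4
        exact (Nat.eq_of_mul_eq_mul_left (Nat.mul_pos Nat.card_pos (pow_pos hp'.pos _)) h4).le
      · intro x
        rw [← h1]
        simpa using H90.pow_mem_powerClosure (p := p) (n := 1) (Subgroup.mem_top x)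
    · rw [← h1, H90.powerClosure_le_iff]
      intro x _
      rw [pow_one]
      exact H3.pow_mem_frattini hG x
  obtain ⟨k, hk⟩ := hG.index (Subgroup.centralizer ({g} : Set G))
  rw [h3, H90.mem_centralPow_iff_index, H90.isMulCommutative_iff_card_commutator,
    H90.card_commutator_of_index hp hG hmc hn hk, hk, Nat.pow_le_pow_iff_right hp'.one_lt,
    Nat.pow_eq_one, or_iff_right hp'.ne_one]
  omega

end Cfsg.Agent.S3883
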