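import Cfsg.Statements.S3885
import Cfsg.Agent.H90.Metacyclic
import Cfsg.Agent.H3.Frattini

set_option autoImplicit false
open Cfsg

namespace Cfsg.Agent.S3885

/-- Let p be an odd prime and G a finite metacyclic p-group (G has a cyclic normal subgroup with cyclic quotient). Then every abelian subgroup K of G containing the center of G is the center of its own centralizer: K = Z(C_G(K)). -/
theorem result {G : Type*} [Group G] [Finite G] {p : ℕ} [Fact p.Prime] (hp : p ≠ 2) (hG : IsPGroup p G) (hmc : Cfsg.IsMetacyclic G) (K : Subgroup G) (hK : IsMulCommutative ↥K) (hZ : Subgroup.center G ≤ K) :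
    K = Subgroup.centralizer (K : Set G) ⊓ Subgroup.centralizer (Subgroup.centralizer (K : Set G) : Set G) := by
  have h1 := H90.card_mul_card_centralizer_eq hp hG hmc hZ
  have h2 := H90.card_mul_card_centralizer_le hp hG hmc (Subgroup.centralizer (K : Set G))
  rw [← h1, mul_comm] at h2
  have h3 : K = Subgroup.centralizer (Subgroup.centralizer (K : Set G) : Set G) :=
    Subgroup.eq_of_le_of_card_ge (Subgroup.le_centralizer_iff.1 le_rfl)
      (Nat.le_of_mul_le_mul_right h2 Nat.card_pos)
  rw [← h3]
  exact (inf_eq_right.2 (Subgroup.le_centralizer K)).symm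

end Cfsg.Agent.S3885
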