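import Cfsg.Statements.S3886
import Cfsg.Agent.H90.Metacyclic
import Cfsg.Agent.H3.Frattini

set_option autoImplicit false
open Cfsg

namespace Cfsg.Agent.S3886

/-- Let p be an odd prime and G a finite metacyclic p-group (G has a cyclic normal subgroup with cyclic quotient). Then the largest value of |R| · |Z(R)| over subgroups R of G is |G : G'|², and the subgroups attaining it (the centrally large subgroups) are exactly the non-abelian subgroups together with the maximal abelian subgroups of G. -/
theorem result {G : Type*} [Group G] [Finite G] {p : ℕ} [Fact p.Prime] (hp : p ≠ 2) (hG : IsPGroup p G) (hmc : Cfsg.IsMetacyclic G) : Cfsg.maxCentralProduct G = (commutator G).index ^ 2 ∧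
    ∀ R : Subgroup G, Cfsg.IsCentrallyLarge R ↔ (¬ IsMulCommutative ↥R ∨ Maximal (fun K : Subgroup G => IsMulCommutative ↥K) R) := by
  have hp' : p.Prime := Fact.out
  have h1 : Cfsg.maxCentralProduct G = (commutator G).index ^ 2 := by
    apply IsGreatest.csSup_eq
    constructor
    · refine ⟨⊤, ?_⟩
      obtain ⟨n, hn⟩ := H7.card_eq_pow hG (commutator G)
      simpa using H90.card_mul_card_center_of_index hp hG hmc hn (L := ⊤) (k := 0) (by simp)
    · rintro _ ⟨R, rfl⟩
      exact H90.card_mul_card_center_le hp hG hmc R
  refine ⟨h1, fun R => ?_⟩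
  obtain ⟨n, hn⟩ := H7.card_eq_pow hG (commutator G)
  obtain ⟨k, hk⟩ := hG.index R
  have h2 := H90.card_mul_card_center_of_index hp hG hmc hn hk
  have h3 := R.card_mul_index
  rw [← (commutator G).index_mul_card, hn, hk] at h3
  have h4 : Nat.card R = (commutator G).index ↔ k = n := by
    constructor
    · intro h
      rw [h] at h3
      exact Nat.pow_right_injective hp'.two_le
        (Nat.eq_of_mul_eq_mul_left (Nat.pos_of_ne_zero Subgroup.index_ne_zero_of_finite) h3)
    · rintro rfl
      exact Nat.eq_of_mul_eq_mul_right (pow_pos hp'.pos _) h3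
  rw [IsCentrallyLarge, h1, ← h2, H90.maximal_isMulCommutative_iff hp hG hmc, h4,
    H90.isMulCommutative_iff_card_commutator, H90.card_commutator_of_index hp hG hmc hn hk,
    eq_comm, Nat.mul_eq_left (Nat.mul_pos Nat.card_pos Nat.card_pos).ne', Nat.pow_eq_one,
    Nat.pow_eq_one, or_iff_right hp'.ne_one, or_iff_right hp'.ne_one]
  omega

end Cfsg.Agent.S3886
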