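import Cfsg.Statements.S3887
import Cfsg.Agent.H90.Metacyclic
import Cfsg.Agent.H3.Frattini

set_option autoImplicit false
open Cfsg

namespace Cfsg.Agent.S3887

/-- Let p be an odd prime and G a finite metacyclic p-group (G has a cyclic normal subgroup with cyclic quotient). Then a subgroup R of G maximizes |R| · |C_G(R)| over all subgroups of G if and only if R contains the center of G. -/
theorem result {G : Type*} [Group G] [Finite G] {p : ℕ} [Fact p.Prime] (hp : p ≠ 2) (hG : IsPGroup p G) (hmc : Cfsg.IsMetacyclic G) (R : Subgroup G) : Cfsg.IsCentralizerLarge R ↔ Subgroup.center G ≤ R := by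
  have h1 : Cfsg.maxCentralizerProduct G = (commutator G).index ^ 2 := by
    apply IsGreatest.csSup_eq
    constructor
    · exact ⟨⊤, H90.card_mul_card_centralizer_eq hp hG hmc le_top⟩
    · rintro _ ⟨R, rfl⟩
      exact H90.card_mul_card_centralizer_le hp hG hmc R
  rw [IsCentralizerLarge, h1]
  refine ⟨fun h => ?_, H90.card_mul_card_centralizer_eq hp hG hmc⟩
  have h2 := H90.card_mul_card_centralizer_le hp hG hmc (R ⊔ Subgroup.center G)
  have h3 : Subgroup.centralizer (R : Set G) ≤
      Subgroup.centralizer ((R ⊔ Subgroup.center G : Subgroup G) : Set G) := by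
    intro c hc
    have : R ⊔ Subgroup.center G ≤ Subgroup.centralizer {c} := sup_le
      (fun r hr => Subgroup.mem_centralizer_singleton_iff.2 (Subgroup.mem_centralizer_iff.1 hc r hr))
      (fun z hz => Subgroup.mem_centralizer_singleton_iff.2 (Subgroup.mem_center_iff.1 hz c).symm)
    exact Subgroup.mem_centralizer_iff.2 fun r hr =>
      Subgroup.mem_centralizer_singleton_iff.1 (this hr)
  rw [← h] at h2
  have h4 := Nat.le_of_mul_le_mul_right
    ((Nat.mul_le_mul_left _ (Subgroup.card_le_of_le h3)).trans h2) Nat.card_pos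
  rw [Subgroup.eq_of_le_of_card_ge le_sup_left h4]
  exact le_sup_right

end Cfsg.Agent.S3887
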