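import Cfsg.Statements.S3895
import Cfsg.Agent.H92.KPi

set_option autoImplicit false
open Cfsg

namespace Cfsg.Agent.S3895

open Cfsg.Agent.H92

theorem exists_surj {G : Type*} [Group G] [Finite G] {p : ℕ} [Fact p.Prime] (P : Sylow p G) :
    ∃ f : ConjClasses (P : Subgroup G) → {c : ConjClasses G // IsPiClass {p} c},
      Function.Surjective f ∧ ∀ x : (P : Subgroup G),
        (f (ConjClasses.mk x)).1 = ConjClasses.mk (x : G) := by
  have hp : p.Prime := Fact.out
  refine ⟨fun c => ⟨ConjClasses.map (P : Subgroup G).subtype c, ?_⟩, ?_, fun x => rfl⟩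
  · obtain ⟨x, rfl⟩ := ConjClasses.mk_surjective c
    exact isPiClass_mk.2 ((isPiNum_singleton_iff hp (orderOf_pos _).ne').2
      (orderOf_eq_pow_of_mem P.isPGroup' x.2))
  · rintro ⟨c, hc⟩
    obtain ⟨y, rfl⟩ := ConjClasses.mk_surjective c
    obtain ⟨g, hg⟩ := exists_conj_mem_sylow P ((isPiNum_singleton_iff hp (orderOf_pos y).ne').1
      (isPiClass_mk.1 hc))
    exact ⟨ConjClasses.mk ⟨_, hg⟩, Subtype.ext
      (ConjClasses.mk_eq_mk_iff_isConj.2 (isConj_iff.2 ⟨g, rfl⟩).symm)⟩

theorem two_nilpotent {G : Type*} [Group G] [Finite G] (P : Sylow 2 G)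
    (h : Nat.card (P : Subgroup G) < 2 * kpi {2} G) : HasNormalPComplement 2 G := by
  classical
  have := Fintype.ofFinite G
  by_contra hne
  obtain ⟨Q, hQ, g, hg, hgo, hgc⟩ := H8.exists_not_centralizes_of_not_hasNormalPComplement P hne
  have hgQ : ∀ x ∈ Q, g * x * g⁻¹ ∈ Q := fun x hx => (Subgroup.mem_normalizer_iff.1 hg x).1 hx
  obtain ⟨n, hn, hng⟩ := exists_conj_eq_centralizer_isol P (X := Q) (g := g) (fun x hx => hQ hx)
    (fun x hx => hQ (hgQ x hx))
  obtain ⟨x, hx, hgx⟩ : ∃ x ∈ Q, ¬ Commute g x := by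
    by_contra hc
    push Not at hc
    exact hgc fun x hx => (hc x hx).symm
  have hpow : ∀ k : ℕ, ∀ y ∈ Q, g ^ k * y * (g ^ k)⁻¹ ∈ Q ∧
      n ^ k * y * (n ^ k)⁻¹ = g ^ k * y * (g ^ k)⁻¹ := by
    intro k y hy
    induction k with
    | zero => simpa using hy
    | succ k ih =>
      have e1 : g ^ (k + 1) * y * (g ^ (k + 1))⁻¹ = g * (g ^ k * y * (g ^ k)⁻¹) * g⁻¹ := by
        rw [pow_succ']; group
      have e2 : n ^ (k + 1) * y * (n ^ (k + 1))⁻¹ = n * (n ^ k * y * (n ^ k)⁻¹) * n⁻¹ := by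
        rw [pow_succ']; group
      rw [e1, e2, ih.2]
      exact ⟨hgQ _ ih.1, hng _ ih.1⟩
  have hna : ∀ a ∈ isol P, ∀ k : ℕ, Commute (n ^ k) a := fun a ha k =>
    (show Commute a n from hn a ha).symm.pow_left k
  have hne' : ∀ y ∈ Q, ¬ Commute g y → ∀ k : ℕ, k = 1 ∨ k = 2 → ∀ a ∈ isol P,
      n ^ k * y * (n ^ k)⁻¹ ≠ y * a := by
    intro y hy hgy k hk a ha he
    have h1 : a = 1 := eq_one_of_conj_eq_mul (hna a ha k) he (m := orderOf g) (by
      have h2 := (hpow (k * orderOf g) y hy).2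
      rw [pow_mul, pow_mul' g, pow_orderOf_eq_one, one_pow, one_mul, inv_one, mul_one,
        mul_inv_eq_iff_eq_mul] at h2
      exact h2) (by
      obtain ⟨j, hj⟩ := orderOf_eq_pow_of_mem P.isPGroup' (isol_le P ha)
      rw [hj]
      exact Nat.Coprime.pow_left _ hgo.symm)
    rw [h1, mul_one, (hpow k y hy).2, mul_inv_eq_iff_eq_mul] at he
    apply hgy
    have h2 : g ∈ Subgroup.zpowers (g ^ k) := by
      rw [mem_zpowers_pow_iff]
      rcases hk with rfl | rfl
      · simp
      · exact hgo.symm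
    exact mem_C.1 (Subgroup.zpowers_le.2 (mem_C.2 he) h2)
  let y : ℕ → G := fun k => n ^ k * x * (n ^ k)⁻¹
  have hyQ : ∀ k, y k ∈ Q := fun k => by
    simp only [y]; rw [(hpow k x hx).2]; exact (hpow k x hx).1
  have hyg : ∀ k, ¬ Commute g (y k) := fun k hc => hgx (by
    simp only [y] at hc
    rw [(hpow k x hx).2] at hc
    have h1 := (Commute.conj_iff (g ^ k)⁻¹).2 hc
    simpa [mul_assoc, (Commute.self_pow g k).eq] using h1)
  have hyy : ∀ i k, y (i + k) = n ^ k * y i * (n ^ k)⁻¹ := fun i k => by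
    simp only [y]; rw [add_comm, pow_add]; group
  have hinj : ∀ i j : Fin 3, ∀ a ∈ isol P, ∀ b ∈ isol P, y i * a = y j * b → i = j := by
    have key : ∀ i j : Fin 3, i < j → ∀ a ∈ isol P, ∀ b ∈ isol P, y i * a ≠ y j * b := by
      intro i j hij a ha b hb he
      obtain ⟨k, hk⟩ := Nat.exists_eq_add_of_le (Fin.le_def.1 hij.le)
      refine hne' _ (hyQ i) (hyg i) k (by have := j.2; have := Fin.lt_def.1 hij; omega) (a * b⁻¹)
        (Subgroup.mul_mem _ ha (Subgroup.inv_mem _ hb)) ?_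
      rw [← hyy, ← hk, ← mul_assoc, he, mul_inv_cancel_right]
    intro i j a ha b hb he
    rcases lt_trichotomy i j with h1 | h1 | h1
    · exact absurd he (key i j h1 a ha b hb)
    · exact h1
    · exact absurd he.symm (key j i h1 b hb a ha)
  let A : Finset G := Finset.univ.filter fun x => x ∈ isol P
  let U : Finset G := ((Finset.univ : Finset (Fin 3)) ×ˢ A).image fun q => y q.1 * q.2
  have hU : U.card = 3 * Nat.card (isol P) := by
    rw [Finset.card_image_of_injOn, Finset.card_product, card_filter_mem]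
    · simp
    · rintro ⟨i, a⟩ ha ⟨j, b⟩ hb he
      simp only [A, Finset.coe_product, Finset.coe_filter, Set.mem_prod, Set.mem_setOf_eq] at ha hb
      obtain rfl := hinj i j a ha.2.2 b hb.2.2 he
      exact Prod.ext rfl (mul_left_cancel he)
  have hUP : ∀ z ∈ U, z ∈ (P : Subgroup G) ∧ 3 ≤ fib (P : Subgroup G) z := by
    intro z hz
    obtain ⟨⟨i, a⟩, ha, rfl⟩ := Finset.mem_image.1 hz
    have ha' : a ∈ isol P := (Finset.mem_filter.1 (Finset.mem_product.1 ha).2).2
    refine ⟨Subgroup.mul_mem _ (hQ (hyQ i)) (isol_le P ha'), ?_⟩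
    have hc : ∀ k, IsConj (x * a) (y k * a) := fun k => isConj_iff.2 ⟨n ^ k, by
      simp only [y]
      rw [← mul_assoc, mul_assoc _ a, ← (hna a ha' k).inv_left.eq, ← mul_assoc]⟩
    have h1 : Nat.card (Fin 3) ≤ Nat.card {w | w ∈ (P : Subgroup G) ∧ IsConj (y i * a) w} :=
      Nat.card_le_card_of_injective (fun j => ⟨y j * a,
        Subgroup.mul_mem _ (hQ (hyQ j)) (isol_le P ha'), (hc i).symm.trans (hc j)⟩)
        fun j k hjk => hinj j k a ha' a ha' (Subtype.mk.inj hjk)
    rw [Nat.card_eq_fintype_card, Fintype.card_fin] at h1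
    exact h1
  have h2 : ∑ x : G with x ∈ (P : Subgroup G), 1 / (fib (P : Subgroup G) x : ℚ) ≤
      ∑ x : G with x ∈ (P : Subgroup G),
        (1 / 2 + (if x ∈ isol P then 1 / 2 else 0) - if x ∈ U then 1 / 6 else 0) := by
    refine Finset.sum_le_sum fun z hz => ?_
    have hz' := (Finset.mem_filter.1 hz).2
    by_cases hzU : z ∈ U
    · have h3 : 1 / (fib (P : Subgroup G) z : ℚ) ≤ 1 / 3 :=
        one_div_le_one_div_of_le (by norm_num) (by exact_mod_cast (hUP z hzU).2)
      rw [if_pos hzU]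
      split_ifs <;> linarith
    rw [if_neg hzU, sub_zero]
    split_ifs with hA
    · rw [fib_eq_one hA]; norm_num
    · rw [add_zero]
      exact one_div_le_one_div_of_le (by norm_num) (by exact_mod_cast two_le_fib hz' hA)
  rw [Finset.sum_sub_distrib, Finset.sum_add_distrib, Finset.sum_const, ← Finset.sum_filter,
    ← Finset.sum_filter, Finset.sum_const, Finset.sum_const, Finset.filter_filter,
    Finset.filter_filter, card_filter_mem, Finset.filter_congr
      (p := fun x => x ∈ (P : Subgroup G) ∧ x ∈ isol P) (q := fun x => x ∈ isol P)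
      (fun x _ => ⟨fun h => h.2, fun h => ⟨isol_le P h, h⟩⟩), card_filter_mem, Finset.filter_congr
      (p := fun x => x ∈ (P : Subgroup G) ∧ x ∈ U) (q := fun x => x ∈ U)
      (fun x _ => ⟨fun h => h.2, fun h => ⟨(hUP x h).1, h⟩⟩), Finset.filter_mem_eq_inter,
    Finset.univ_inter, hU, nsmul_eq_mul, nsmul_eq_mul, nsmul_eq_mul,
    ← kpi_singleton_eq_sum P] at h2
  have h3 : (Nat.card (P : Subgroup G) : ℚ) < 2 * kpi {2} G := by exact_mod_cast h
  push_cast at h2
  linarith

/-- Let G be a finite group with Sylow 2-subgroup P, and write k₂(G) for the number of conjugacy classes of G consisting of 2-elements (elements of 2-power order, the identity included). Then k₂(G) > |P|/2 if and only if G has a normal 2-complement and P has more than |P|/2 conjugacy classes. -/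
theorem result {G : Type*} [Group G] [Finite G] (P : Sylow 2 G) :
    Nat.card ↥(P : Subgroup G) < 2 * Nat.card {c : ConjClasses G // ∀ x ∈ c.carrier, ∃ k : ℕ, orderOf x = 2 ^ k} ↔
      Cfsg.HasNormalPComplement 2 G ∧ Nat.card ↥(P : Subgroup G) < 2 * Nat.card (ConjClasses ↥(P : Subgroup G)) := by
  rw [← kpi_singleton Nat.prime_two]
  obtain ⟨f, hf, hfx⟩ := exists_surj P
  constructor
  · intro h
    exact ⟨two_nilpotent P h, h.trans_le (Nat.mul_le_mul_left _
      (Nat.card_le_card_of_surjective f hf))⟩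
  · rintro ⟨h1, h2⟩
    refine h2.trans_le (Nat.mul_le_mul_left _ (Nat.card_le_card_of_injective f ?_))
    intro a b hab
    obtain ⟨x, rfl⟩ := ConjClasses.mk_surjective a
    obtain ⟨y, rfl⟩ := ConjClasses.mk_surjective b
    have h3 := congrArg Subtype.val hab
    rw [hfx, hfx, ConjClasses.mk_eq_mk_iff_isConj, isConj_iff] at h3
    obtain ⟨g, hg⟩ := h3
    obtain ⟨v, hv, h⟩ := H8.fusion_of_isComplement'
      (H8.HasNormalPComplement.isComplement' h1 P) g
    rw [ConjClasses.mk_eq_mk_iff_isConj, isConj_iff]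
    exact ⟨⟨v, hv⟩, Subtype.ext ((h x x.2 (hg ▸ y.2)).trans hg)⟩

end Cfsg.Agent.S3895
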