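import Cfsg.Statements.S3897
import Cfsg.Agent.H92.KPi

set_option autoImplicit false
open Cfsg

namespace Cfsg.Agent.S3897

open Cfsg.Agent.H92



/-- Let p be an odd prime and G a finite group with Sylow p-subgroup P, and write k_p(G) for the number of conjugacy classes of G consisting of p-elements (elements of p-power order, the identity included). Then k_p(G) > (p + 1)|P|/(2p) if and only if G has a normal p-complement and P is abelian. -/
theorem result {G : Type*} [Group G] [Finite G] {p : ℕ} [Fact p.Prime] (hp : p ≠ 2) (P : Sylow p G) :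
    (p + 1) * Nat.card ↥(P : Subgroup G) < 2 * p * Nat.card {c : ConjClasses G // ∀ x ∈ c.carrier, ∃ k : ℕ, orderOf x = p ^ k} ↔
      Cfsg.HasNormalPComplement p G ∧ IsMulCommutative ↥(P : Subgroup G) := by
  classical
  have hpp : p.Prime := Fact.out
  have := Fintype.ofFinite G
  have hp1 : (2 : ℚ) ≤ p := by exact_mod_cast hpp.two_le
  rw [← kpi_singleton hpp, ← Nat.cast_lt (α := ℚ)]
  push_cast
  rw [kpi_singleton_eq_sum P]
  constructor
  · intro h
    refine hasNormalPComplement_of_isol_eq P ?_
    by_contra hne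
    have h1 : p * Nat.card (isol P) ≤ Nat.card (P : Subgroup G) := by
      rw [← H1.card_mul_relIndex (isol_le P), mul_comm]
      refine Nat.mul_le_mul_left _ (Nat.le_of_dvd
        (Nat.pos_of_ne_zero Subgroup.FiniteIndex.index_ne_zero) ?_)
      obtain ⟨k, hk⟩ := eq_pow_of_dvd_pow hpp
        (P.card_eq_multiplicity ▸ Subgroup.relIndex_dvd_card (isol P) (P : Subgroup G))
      rcases k with _ | k
      · exact absurd (Subgroup.relIndex_eq_one.1 (by simpa using hk)) hne
      · exact hk ▸ dvd_pow_self p k.succ_ne_zero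
    have h2 : ∑ x : G with x ∈ (P : Subgroup G), 1 / (fib (P : Subgroup G) x : ℚ) ≤
        ∑ x : G with x ∈ (P : Subgroup G), (1 / 2 + if x ∈ isol P then 1 / 2 else 0) := by
      refine Finset.sum_le_sum fun x hx => ?_
      have hx' := (Finset.mem_filter.1 hx).2
      split_ifs with hA
      · rw [fib_eq_one hA]; norm_num
      · rw [add_zero]
        exact one_div_le_one_div_of_le (by norm_num) (by exact_mod_cast two_le_fib hx' hA)
    rw [Finset.sum_add_distrib, Finset.sum_const, ← Finset.sum_filter, Finset.sum_const,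
      Finset.filter_filter, card_filter_mem, Finset.filter_congr
        (p := fun x => x ∈ (P : Subgroup G) ∧ x ∈ isol P) (q := fun x => x ∈ isol P)
        (fun x _ => ⟨fun h => h.2, fun h => ⟨isol_le P h, h⟩⟩), card_filter_mem,
      nsmul_eq_mul, nsmul_eq_mul] at h2
    have h3 : (p : ℚ) * Nat.card (isol P) ≤ Nat.card (P : Subgroup G) := by exact_mod_cast h1
    have h4 := mul_le_mul_of_nonneg_left h2 (show (0 : ℚ) ≤ 2 * p by linarith)
    nlinarith
  · rintro ⟨h1, h2⟩
    have h3 : ∀ x ∈ (P : Subgroup G), x ∈ isol P := by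
      intro x hx
      refine ⟨hx, fun g hg => ?_⟩
      obtain ⟨v, hv, h⟩ := H8.fusion_of_isComplement'
        (H8.HasNormalPComplement.isComplement' h1 P) g
      rw [← h x hx hg, mul_inv_eq_iff_eq_mul]
      exact congrArg Subtype.val (h2.is_comm.comm ⟨v, hv⟩ ⟨x, hx⟩)
    rw [Finset.sum_congr rfl (g := fun _ => 1) fun x hx => by
      rw [fib_eq_one (h3 x (Finset.mem_filter.1 hx).2)]; simp]
    rw [Finset.sum_const, card_filter_mem, nsmul_eq_mul, mul_one]
    have h4 : (0 : ℚ) < Nat.card (P : Subgroup G) := by exact_mod_cast Nat.card_pos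
    nlinarith

end Cfsg.Agent.S3897
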