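import Cfsg.Statements.S3898
import Cfsg.Agent.H92.KPi
import Cfsg.Agent.S3895

set_option autoImplicit false
open Cfsg

namespace Cfsg.Agent.S3898

open Cfsg.Agent.H92
open Cfsg.Agent.H2 (IsPiNum)
open scoped Pointwise

theorem commute_of_fib_le_two {G : Type*} [Group G] [Finite G] {R : Subgroup G} {x u : G}
    (hx : x ∈ R) (hf : fib R x ≤ 2) (hu : u ∈ Subgroup.normalizer (R : Set G))
    (ho : ¬ 2 ∣ orderOf u) : Commute u x := by
  by_contra hc
  have h1 := (Subgroup.mem_normalizer_iff.1 hu x).1 hx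
  have h2 := (Subgroup.mem_normalizer_iff.1 hu _).1 h1
  have h3 : 2 < fib R x := by
    refine (Set.two_lt_ncard (Set.toFinite _)).2 ⟨x, ⟨hx, IsConj.refl x⟩, _,
      ⟨h1, isConj_iff.2 ⟨u, rfl⟩⟩, _, ⟨h2, isConj_iff.2 ⟨u * u, by group⟩⟩, ?_, ?_, ?_⟩
    · intro he
      exact hc (mul_inv_eq_iff_eq_mul.1 he.symm)
    · intro he
      apply hc
      have h4 : u ∈ Subgroup.zpowers (u ^ 2) := by
        rw [mem_zpowers_pow_iff]
        exact (Nat.Prime.coprime_iff_not_dvd Nat.prime_two).2 ho
      refine mem_C.1 (Subgroup.zpowers_le.2 (mem_C.2 ?_) h4)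
      have h5 : u ^ 2 * x * (u ^ 2)⁻¹ = x := by
        rw [pow_two]
        exact Eq.trans (by group) he.symm
      exact mul_inv_eq_iff_eq_mul.1 h5
    · intro he
      apply hc
      rw [mul_left_inj, mul_right_inj] at he
      exact mul_inv_eq_iff_eq_mul.1 he.symm
  omega

theorem two_dvd_cs {G : Type*} [Group G] [Finite G] (h2 : HasNormalPComplement 2 G) {r : ℕ}
    [Fact r.Prime] (hr : r ≠ 2) (R : Sylow r G) {x : G} (hx : x ∈ (R : Subgroup G))
    (hA : x ∉ isol R) (hf : fib (R : Subgroup G) x ≤ 2) : 2 ∣ cs[x] := by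
  have hrp : r.Prime := Fact.out
  by_contra hc
  have hodd : ∀ u ∈ (R : Subgroup G), ¬ 2 ∣ orderOf u := fun u hu =>
    not_dvd_of_eq_pow Nat.prime_two hrp hr.symm (orderOf_eq_pow_of_mem R.isPGroup' hu)
  have hK := H8.hasNormalPComplement_iff_forall_coprime.1 h2
  obtain ⟨g, hg, hne⟩ : ∃ g : G, g * x * g⁻¹ ∈ (R : Subgroup G) ∧ g * x * g⁻¹ ≠ x := by
    by_contra hcon
    push Not at hcon
    exact hA ⟨hx, hcon⟩
  obtain ⟨c, hc', k, hk, hck⟩ := H8.exists_mul_pResidual_of_not_dvd_index hc g⁻¹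
  have e : g * x * g⁻¹ = k⁻¹ * x * k⁻¹⁻¹ := by
    rw [← inv_inv g, hck, inv_inv, inv_inv, mul_inv_rev, mul_assoc k⁻¹, ← (mem_C.1 hc').inv_left.eq.symm]
    group
  rw [e] at hg hne
  set y := k⁻¹ * x * k⁻¹⁻¹ with hy
  have hfy : fib (R : Subgroup G) y ≤ 2 := by
    have h' : IsConj x y := isConj_iff.2 ⟨k⁻¹, rfl⟩
    refine le_trans (le_of_eq ?_) hf
    rw [fib, fib]
    congr 1
    ext w
    exact and_congr_right fun _ => ⟨fun hw => h'.trans hw, fun hw => h'.symm.trans hw⟩
  have hRK : (R : Subgroup G) ≤ pResidual 2 G := fun u hu => H8.mem_pResidual_of_coprime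
    ((Nat.Prime.coprime_iff_not_dvd Nat.prime_two).2 (hodd u hu)).symm
  have hRx : (R : Subgroup G) ≤ Ce[x] := fun u hu =>
    mem_C.2 (commute_of_fib_le_two hx hf (Subgroup.le_normalizer hu) (hodd u hu))
  have hRy : (R : Subgroup G) ≤ Ce[y] := fun u hu =>
    mem_C.2 (commute_of_fib_le_two hg hfy (Subgroup.le_normalizer hu) (hodd u hu))
  obtain ⟨d, hd, hdk⟩ := H8.sylow_exists_mul_mem_normalizer R (C := Ce[y] ⊓ pResidual 2 G)
    (g := k⁻¹) (le_inf hRy hRK) (le_inf (by
      rw [hy, C_conj]; exact Subgroup.pointwise_smul_le_pointwise_smul_iff.2 hRx) (by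
      intro z hz
      have := hRK (mem_conj_smul.1 hz)
      simpa [mul_assoc] using (inferInstance : (pResidual 2 G).Normal).conj_mem' _ this k))
  have h3 := commute_of_fib_le_two hx hf hdk ((Nat.Prime.coprime_iff_not_dvd Nat.prime_two).1
    (hK _ (Subgroup.mul_mem _ hd.2 (Subgroup.inv_mem _ hk))).symm)
  apply hne
  calc y = d * y * d⁻¹ := by rw [(mem_C.1 hd.1).eq, mul_inv_cancel_right]
    _ = (d * k⁻¹) * x * (d * k⁻¹)⁻¹ := by rw [hy]; group
    _ = x := by rw [h3.eq, mul_inv_cancel_right]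

theorem fib_le_two {G : Type*} [Group G] [Finite G] (R : Sylow 3 G)
    (h : (isol R).relIndex R = 3) {x : G} (hx : x ∈ (R : Subgroup G)) (hA : x ∉ isol R) :
    fib (R : Subgroup G) x ≤ 2 := by
  classical
  let A := (isol R).subgroupOf (R : Subgroup G)
  have hAc : A ≤ Subgroup.center (R : Subgroup G) := fun a ha =>
    Subgroup.mem_center_iff.2 fun b => Subtype.ext (isol_le_centralizer R ha b b.2)
  haveI hAn : A.Normal := ⟨fun a ha b => by
    rwa [Subgroup.mem_center_iff.1 (hAc ha) b, mul_inv_cancel_right]⟩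
  have hQ : Nat.card ((R : Subgroup G) ⧸ A) = 3 := h
  haveI : IsCyclic ((R : Subgroup G) ⧸ A) := isCyclic_of_prime_card hQ
  have hab : IsMulCommutative (R : Subgroup G) :=
    ⟨⟨commutative_of_cyclic_center_quotient (QuotientGroup.mk' A) (by simpa using hAc)⟩⟩
  let S : Set G := {y | y ∈ (R : Subgroup G) ∧ IsConj x y}
  have hS : ∀ y ∈ S, y ∉ isol R := by
    rintro y ⟨hy, hc⟩ hyA
    obtain ⟨g, hg⟩ := isConj_iff.1 hc.symm
    exact hA (hg ▸ (hyA.2 g (hg ▸ hx)).symm ▸ hyA)
  let f : S → {q : (R : Subgroup G) ⧸ A // q ≠ 1} := fun y =>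
    ⟨(⟨y, y.2.1⟩ : (R : Subgroup G)), fun h1 => hS y y.2 ((QuotientGroup.eq_one_iff (N := A) _).1 h1)⟩
  have hf : Function.Injective f := by
    rintro ⟨y, hy⟩ ⟨z, hz⟩ he
    have h1 : y⁻¹ * z ∈ isol R := (QuotientGroup.eq (s := A)).1 (Subtype.mk.inj he)
    obtain ⟨g, hg⟩ := isConj_iff.1 (hy.2.symm.trans hz.2)
    obtain ⟨n, hn, hng⟩ := H8.exists_normalizer_conj_eq_of_comm R hab hy.1 (hg ▸ hz.1)
    have h2 : y⁻¹ * z = 1 := by
      refine eq_one_of_conj_eq_mul (n := n) (x := y) ?_ (by rw [hng, hg]; group)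
        (m := (R : Subgroup G).relIndex (Subgroup.normalizer (R : Set G))) ?_ ?_
      · exact mul_inv_eq_iff_eq_mul.1
          (h1.2 n ((Subgroup.mem_normalizer_iff.1 hn _).1 h1.1))
      · have h3 := Subgroup.pow_index_mem (H := (R : Subgroup G).subgroupOf
          (Subgroup.normalizer ((R : Subgroup G) : Set G))) ⟨n, hn⟩
        exact congrArg Subtype.val (hab.is_comm.comm ⟨_, h3⟩ ⟨y, hy.1⟩)
      · refine coprime_of_pow_of_not_dvd Nat.prime_three
          (orderOf_eq_pow_of_mem R.isPGroup' h1.1) fun hd => R.not_dvd_index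
          (hd.trans (Subgroup.relIndex_dvd_index_of_le Subgroup.le_normalizer))
    exact Subtype.ext (inv_mul_eq_one.1 h2)
  have h1 := Nat.card_le_card_of_injective f hf
  have := Fintype.ofFinite ((R : Subgroup G) ⧸ A)
  rw [Nat.card_eq_fintype_card (α := {q // q ≠ 1}), Fintype.card_subtype_compl,
    ← Nat.card_eq_fintype_card, hQ, Fintype.card_unique] at h1
  exact h1

/-- Let π be a finite set of primes containing 2 and G a finite group. Write k_π(G) for the number of conjugacy classes of G consisting of π-elements (elements all of whose order's prime divisors lie in π) and |G|_π for the π-part of the order of G. If k_π(G) > |G|_π/2, then G has a normal π-complement (a normal subgroup of order prime to π whose index is a π-number) and an abelian Hall subgroup for the set of odd primes in π. -/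
theorem result {G : Type*} [Group G] [Finite G] (π : Finset ℕ) (hπ : ∀ r ∈ π, r.Prime) (h2 : 2 ∈ π)
    (hk : π.prod (fun r => r ^ (Nat.card G).factorization r) < 2 * Nat.card {c : ConjClasses G // ∀ x ∈ c.carrier, ∀ r : ℕ, r.Prime → r ∣ orderOf x → r ∈ π}) :
    (∃ N : Subgroup G, N.Normal ∧ (∀ r : ℕ, r.Prime → r ∣ Nat.card ↥N → r ∉ π) ∧ ∀ r : ℕ, r.Prime → r ∣ N.index → r ∈ π) ∧ ∃ H : Subgroup G, Cfsg.IsPiHall ((↑π : Set ℕ) \ {2}) H ∧ IsMulCommutative ↥H := by
  classical
  have := Fintype.ofFinite G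
  have := Fintype.ofFinite (ConjClasses G)
  change _ < 2 * kpi (π : Set ℕ) G at hk
  have hn2 : HasNormalPComplement 2 G := by
    obtain ⟨P⟩ : Nonempty (Sylow 2 G) := inferInstance
    refine S3895.two_nilpotent P ?_
    have h3 := kpi_le_kpi_singleton_mul (G := G) π hπ 2
    rw [← Finset.mul_prod_erase π _ h2, ← P.card_eq_multiplicity] at hk
    refine lt_of_mul_lt_mul_right (hk.trans_le ?_) (Nat.zero_le _)
    rw [mul_assoc]
    exact Nat.mul_le_mul_left _ h3
  have key : ∀ r ∈ (π : Set ℕ) \ {2}, r.Prime → HasNormalPComplement r G ∧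
      ∃ R : Sylow r G, IsMulCommutative (R : Subgroup G) := by
    rintro r ⟨hr, hr2⟩ hr'
    replace hr2 : r ≠ 2 := hr2
    haveI := Fact.mk hr'
    obtain ⟨R⟩ : Nonempty (Sylow r G) := inferInstance
    suffices h : (R : Subgroup G) ≤ isol R from
      ⟨(hasNormalPComplement_of_isol_eq R h).1, R, (hasNormalPComplement_of_isol_eq R h).2⟩
    by_contra hne
    rw [← Finset.mul_prod_erase π _ hr, ← R.card_eq_multiplicity] at hk
    have hπ' : ∀ s ∈ π.erase r, s.Prime := fun s hs => hπ s (Finset.mem_of_mem_erase hs)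
    have hM0 := prod_factorization_ne_zero (Nat.card G) _ hπ'
    have hMd := fun d => dvd_prod_factorization (n := Nat.card G) Nat.card_pos.ne' _ hπ' (d := d)
    have hMle := kpi_le_prod (G := G) _ hπ'
    set M := (π.erase r).prod fun s => s ^ (Nat.card G).factorization s
    have hM : (0 : ℚ) < M := by exact_mod_cast Nat.pos_of_ne_zero hM0
    have h3 := kpi_le_sum (G := G) (π := π) (ρ := {r}) (σ := (π.erase r : Finset ℕ))
      (fun q hq hq' => by simpa using ⟨hq, hq'⟩)
      (fun c => if 2 ∣ Nat.card c.carrier then (M : ℚ) / 2 else M) (by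
        intro a _
        rw [card_carrier]
        split_ifs with hd
        · have h4 : ∀ d, d ∣ Nat.card Ce[a] → IsPiNum (π.erase r : Finset ℕ) d → 2 * d ∣ M := by
            intro d hd1 hd2
            refine hMd _ (cs_mul_card a ▸ Nat.mul_dvd_mul hd hd1) (IsPiNum.mul ?_ hd2)
            simpa using H2.isPiNum_prime_pow (π := (π.erase r : Finset ℕ)) Nat.prime_two
              (by simpa using ⟨h2, hr2.symm⟩) 1
          obtain ⟨M', hM'⟩ := h4 1 (one_dvd _) (H2.isPiNum_one _)
          rw [mul_one] at hM'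
          rw [hM'] at h4 hM0 ⊢
          have h5 := kpi_le M' Ce[a] _ (right_ne_zero_of_mul hM0) fun d hd1 hd2 =>
            Nat.dvd_of_mul_dvd_mul_left two_pos (h4 d hd1 hd2)
          push_cast
          rw [mul_div_cancel_left₀ _ two_ne_zero]
          exact_mod_cast h5
        · exact_mod_cast hMle _)
    rw [sum_pclasses R] at h3
    obtain ⟨e, he⟩ := eq_pow_of_dvd_pow hr'
      (R.card_eq_multiplicity ▸ Subgroup.relIndex_dvd_card (isol R) (R : Subgroup G))
    have he0 : e ≠ 0 := by
      rintro rfl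
      exact hne (Subgroup.relIndex_eq_one.1 (by simpa using he))
    have hcard := H1.card_mul_relIndex (isol_le R)
    have hk' : (Nat.card (R : Subgroup G) : ℚ) * M < 2 * kpi (π : Set ℕ) G := by exact_mod_cast hk
    have ha : (0 : ℚ) < Nat.card (isol R) := by exact_mod_cast Nat.card_pos
    have bound : ∀ t : ℚ, (∀ x ∈ (R : Subgroup G), x ∉ isol R →
        (if 2 ∣ cs[x] then (M : ℚ) / 2 else M) / fib (R : Subgroup G) x ≤ t * M) →
        (kpi (π : Set ℕ) G : ℚ) ≤
          Nat.card (R : Subgroup G) * (t * M) + Nat.card (isol R) * ((1 - t) * M) := by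
      intro t ht
      refine h3.trans ?_
      have h4 : ∑ x : G with x ∈ (R : Subgroup G), (if 2 ∣ Nat.card (ConjClasses.mk x).carrier
          then (M : ℚ) / 2 else M) / fib (R : Subgroup G) x ≤
          ∑ x : G with x ∈ (R : Subgroup G), (t * M + if x ∈ isol R then (1 - t) * M else 0) := by
        refine Finset.sum_le_sum fun x hx => ?_
        have hx' := (Finset.mem_filter.1 hx).2
        rw [card_carrier]
        by_cases hA : x ∈ isol R
        · rw [if_pos hA, fib_eq_one hA]
          split_ifs <;> push_cast <;> linarith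
        · rw [if_neg hA, add_zero]
          exact ht x hx' hA
      rw [Finset.sum_add_distrib, Finset.sum_const, ← Finset.sum_filter, Finset.sum_const,
        Finset.filter_filter, card_filter_mem, Finset.filter_congr
          (p := fun x => x ∈ (R : Subgroup G) ∧ x ∈ isol R) (q := fun x => x ∈ isol R)
          (fun x _ => ⟨fun h => h.2, fun h => ⟨isol_le R h, h⟩⟩), card_filter_mem,
        nsmul_eq_mul, nsmul_eq_mul] at h4
      exact h4
    have two : ∀ x ∈ (R : Subgroup G), x ∉ isol R → fib (R : Subgroup G) x ≤ 2 →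
        (if 2 ∣ cs[x] then (M : ℚ) / 2 else M) / fib (R : Subgroup G) x ≤ 1 / 4 * M := by
      intro x hx hA hf
      rw [if_pos (two_dvd_cs hn2 hr2 R hx hA hf), le_antisymm hf (two_le_fib hx hA)]
      push_cast
      linarith
    by_cases h4 : (isol R).relIndex R = 3
    · obtain rfl : r = 3 := (Nat.prime_dvd_prime_iff_eq hr' Nat.prime_three).1
        (h4 ▸ he ▸ dvd_pow_self r he0)
      have h5 := bound (1 / 4) fun x hx hA => two x hx hA (fib_le_two R h4 hx hA)
      rw [h4] at hcard
      rw [← hcard] at h5 hk'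
      push_cast at h5 hk'
      nlinarith
    · have h5 := bound (1 / 3) fun x hx hA => by
        by_cases hf : fib (R : Subgroup G) x ≤ 2
        · exact (two x hx hA hf).trans (by linarith)
        · have h6 : (3 : ℚ) ≤ fib (R : Subgroup G) x := by exact_mod_cast not_le.1 hf
          rw [div_le_iff₀ (by linarith)]
          split_ifs <;> nlinarith
      have h6 : 4 ≤ (isol R).relIndex R := by
        have h7 : r ≤ (isol R).relIndex R := he ▸ Nat.le_self_pow he0 r
        have := hr'.two_le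
        omega
      have h7 : (4 : ℚ) * Nat.card (isol R) ≤ Nat.card (R : Subgroup G) := by
        rw [← hcard, mul_comm]
        exact_mod_cast Nat.mul_le_mul_left _ h6
      nlinarith
  obtain ⟨N, hN, h3, h4, -⟩ := exists_normal_pi_complement (π : Set ℕ) fun r hr hr' => by
    by_cases h : r = 2
    · exact h ▸ hn2
    · exact (key r ⟨hr, h⟩ hr').1
  exact ⟨⟨N, hN, h3, h4⟩, exists_abelian_hall _ (fun r hr hr' => (key r hr hr').1)
    fun r hr hr' => (key r hr hr').2⟩

end Cfsg.Agent.S3898
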