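import Cfsg.Statements.S3899
import Cfsg.Agent.H92.KPi
import Cfsg.Agent.S3897

set_option autoImplicit false
open Cfsg

namespace Cfsg.Agent.S3899

open Cfsg.Agent.H92



/-- Let π be a finite non-empty set of odd primes with smallest member p and G a finite group. Write k_π(G) for the number of conjugacy classes of G consisting of π-elements (elements all of whose order's prime divisors lie in π) and |G|_π for the π-part of the order of G. If k_π(G) > (p + 1)|G|_π/(2p), then G has a normal π-complement (a normal subgroup of order prime to π whose index is a π-number) and an abelian Hall π-subgroup. -/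
theorem result {G : Type*} [Group G] [Finite G] (π : Finset ℕ) (hπ : ∀ r ∈ π, r.Prime) (h2 : 2 ∉ π) (p : ℕ) (hp : p ∈ π)
    (hmin : ∀ r ∈ π, p ≤ r) (hk : (p + 1) * π.prod (fun r => r ^ (Nat.card G).factorization r) < 2 * p * Nat.card {c : ConjClasses G // ∀ x ∈ c.carrier, ∀ r : ℕ, r.Prime → r ∣ orderOf x → r ∈ π}) :
    (∃ N : Subgroup G, N.Normal ∧ (∀ r : ℕ, r.Prime → r ∣ Nat.card ↥N → r ∉ π) ∧ ∀ r : ℕ, r.Prime → r ∣ N.index → r ∈ π) ∧ ∃ H : Subgroup G, Cfsg.IsPiHall (↑π : Set ℕ) H ∧ IsMulCommutative ↥H := by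
  change _ < 2 * p * kpi (π : Set ℕ) G at hk
  have key : ∀ r ∈ (π : Set ℕ), r.Prime → HasNormalPComplement r G ∧
      ∃ R : Sylow r G, IsMulCommutative (R : Subgroup G) := by
    intro r hr hr'
    haveI := Fact.mk hr'
    obtain ⟨R⟩ : Nonempty (Sylow r G) := inferInstance
    have h1 := (S3897.result (fun h => h2 (h ▸ hr)) R).1 (by
      rw [← kpi_singleton hr']
      have h3 := kpi_le_kpi_singleton_mul (G := G) π hπ r
      rw [← Finset.mul_prod_erase π _ hr, ← R.card_eq_multiplicity] at hk
      set M := (π.erase r).prod fun s => s ^ (Nat.card G).factorization s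
      have h4 : (p + 1) * Nat.card (R : Subgroup G) < 2 * p * kpi {r} G := by
        refine lt_of_mul_lt_mul_right (a := M) ?_ (Nat.zero_le _)
        calc _ = (p + 1) * (Nat.card (R : Subgroup G) * M) := by ring
          _ < _ := hk
          _ ≤ 2 * p * (kpi {r} G * M) := Nat.mul_le_mul_left _ h3
          _ = _ := by ring
      obtain ⟨d, rfl⟩ := Nat.exists_eq_add_of_le (hmin r hr)
      have hp0 := (hπ p hp).pos
      have h5 : Nat.card (R : Subgroup G) ≤ 2 * kpi {p + d} G := by
        by_contra hc
        push Not at hc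
        nlinarith
      nlinarith)
    exact ⟨h1.1, R, h1.2⟩
  obtain ⟨N, hN, h3, h4, -⟩ := exists_normal_pi_complement (π : Set ℕ)
    fun r hr hr' => (key r hr hr').1
  exact ⟨⟨N, hN, h3, h4⟩, exists_abelian_hall _ (fun r hr hr' => (key r hr hr').1)
    fun r hr hr' => (key r hr hr').2⟩

end Cfsg.Agent.S3899
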