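import Cfsg.Statements.S3901
import Cfsg.Agent.H1.TwoPrimes
import Cfsg.Agent.H1.Npc
import Cfsg.Agent.H1.Nilp
import Cfsg.Agent.H89.SolvInd
import Cfsg.Agent.H5.Semiregular
import Cfsg.Agent.H51.Thompson
import Cfsg.Agent.S0117
import Cfsg.Agent.H3.Fitting

set_option autoImplicit false
open Cfsg

namespace Cfsg.Agent.S3901

open scoped Pointwise IsMulCommutative

universe u

theorem pp_coprime {a b : ℕ} (h : IsPrimePow (a * b)) (hc : a.Coprime b) : a = 1 ∨ b = 1 := by
  obtain ⟨p, k, hp, -, hk⟩ := (isPrimePow_nat_iff _).mp h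
  obtain ⟨i, -, rfl⟩ := (Nat.dvd_prime_pow hp).mp (hk ▸ dvd_mul_right a b)
  obtain ⟨j, -, rfl⟩ := (Nat.dvd_prime_pow hp).mp (hk ▸ dvd_mul_left b (p ^ i))
  rcases Nat.eq_zero_or_pos i with rfl | hi
  · exact Or.inl rfl
  rcases Nat.eq_zero_or_pos j with rfl | hj
  · exact Or.inr rfl
  exact absurd (Nat.eq_one_of_dvd_coprimes hc (dvd_pow_self p hi.ne') (dvd_pow_self p hj.ne'))
    hp.one_lt.ne'

theorem pp_eq {n q r : ℕ} (h : IsPrimePow n) (hq : q.Prime) (hr : r.Prime) (h1 : q ∣ n)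
    (h2 : r ∣ n) : q = r := by
  obtain ⟨p, k, hp, -, rfl⟩ := (isPrimePow_nat_iff _).mp h
  rw [(Nat.prime_dvd_prime_iff_eq hq hp).mp (hq.dvd_of_dvd_pow h1),
    (Nat.prime_dvd_prime_iff_eq hr hp).mp (hr.dvd_of_dvd_pow h2)]

section
variable {G X : Type*} [Group G] [Finite G] [Group X]

theorem eq_one_of_commute {f : G →* X} (h : ∀ x, f x ≠ 1 → IsPrimePow (orderOf x)) {x v : G}
    (hx : f x ≠ 1) (hv : f v = 1) (hc : Commute x v) (hco : (orderOf x).Coprime (orderOf v)) :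
    v = 1 := by
  have h1 := h (x * v) (by rwa [map_mul, hv, mul_one])
  rw [hc.orderOf_mul_eq_mul_orderOf_of_coprime hco] at h1
  rcases pp_coprime h1 hco with h2 | h2
  · exact absurd (by rw [orderOf_eq_one_iff.mp h2, map_one]) hx
  · exact orderOf_eq_one_iff.mp h2

/-- action of the quotient on a normal subgroup centralized by the kernel -/
theorem exists_action {f : G →* X} (hf : Function.Surjective f)
    (h : ∀ x, f x ≠ 1 → IsPrimePow (orderOf x)) {r : ℕ} [hr : Fact r.Prime] (V : Subgroup G)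
    [V.Normal] (hV : IsPGroup r V) (hVN : V ≤ f.ker) (hc : f.ker ≤ Subgroup.centralizer (V : Set G)) :
    ∃ φ : X →* MulAut V, ∀ a : X, a ≠ 1 → ¬ r ∣ orderOf a → ∀ v, φ a v = v → v = 1 := by
  have hk : f.ker ≤ (MulAut.conjNormal : G →* MulAut V).ker := by
    intro g hg
    rw [MonoidHom.mem_ker]
    ext v
    have := Subgroup.mem_centralizer_iff.mp (hc hg) v v.2
    simp [← this]
  refine ⟨f.liftOfSurjective hf ⟨_, hk⟩, ?_⟩
  intro a ha hra v hv
  obtain ⟨x, rfl⟩ := hf a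
  rw [MonoidHom.liftOfRightInverse_comp_apply] at hv
  have hv' : x * v * x⁻¹ = v := congrArg Subtype.val hv
  refine Subtype.ext (eq_one_of_commute h ha (hVN v.2) ?_ ?_)
  · exact mul_inv_eq_iff_eq_mul.mp hv'
  · obtain ⟨k, hk⟩ := IsPGroup.iff_orderOf.mp hV v
    rw [Subgroup.orderOf_coe, hk]
    refine Nat.Coprime.pow_right _ ((Nat.Prime.coprime_iff_not_dvd hr.out).mpr fun hd => ?_).symm
    obtain ⟨q, hq, hqd⟩ := Nat.exists_prime_and_dvd (mt orderOf_eq_one_iff.mp ha)
    rw [← pp_eq (h x ha) hq hr.out (hqd.trans (orderOf_map_dvd f x)) hd] at hra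
    exact hra hqd

end

theorem key {X : Type*} [Group X] [Finite X] (h2 : ¬ 2 ∣ Nat.card X) {r : ℕ} (hr : r.Prime)
    {V : Type*} [Group V] [Finite V] [Nontrivial V] (φ : X →* MulAut V)
    (hφ : ∀ a : X, a ≠ 1 → ¬ r ∣ orderOf a → ∀ v, φ a v = v → v = 1)
    (p : ℕ) [hp : Fact p.Prime] (P : Sylow p X) (hpr : p ≠ r) : IsCyclic P := by
  let _ := MulDistribMulAction.compHom V (φ.comp (P : Subgroup X).subtype)
  have hS : H5.Semireg (P : Subgroup X) V := by
    intro a ha v hv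
    refine hφ a (fun h0 => ha (Subtype.ext h0)) ?_ v hv
    obtain ⟨k, hk⟩ := IsPGroup.iff_orderOf.mp P.2 a
    rw [Subgroup.orderOf_coe, hk]
    exact fun hd => hpr ((Nat.prime_dvd_prime_iff_eq hr hp.out).mp (hr.dvd_of_dvd_pow hd)).symm
  have := hS.isZGroup_of_odd fun hd => h2 (hd.trans (Subgroup.card_subgroup_dvd_card _))
  have h1 := (P.2.to_subgroup ⊤).isCyclic_of_isZGroup
  exact isCyclic_of_surjective _ (Subgroup.topEquiv (G := (P : Subgroup X))).surjective

theorem solv_of_actions {X : Type*} [Group X] [Finite X]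
    (h : ∀ a : X, a ≠ 1 → IsPrimePow (orderOf a)) {r s : ℕ} (hr : r.Prime) (hs : s.Prime)
    (hrs : r ≠ s) (hr2 : r ≠ 2) {V W : Type*} [Group V] [Finite V] [Nontrivial V] [Group W]
    [Finite W] [Nontrivial W] (φ : X →* MulAut V) (ψ : X →* MulAut W)
    (hφ : ∀ a : X, a ≠ 1 → ¬ r ∣ orderOf a → ∀ v, φ a v = v → v = 1)
    (hψ : ∀ a : X, a ≠ 1 → ¬ s ∣ orderOf a → ∀ v, ψ a v = v → v = 1) : Group.IsSolvable X := by
  by_cases h2 : 2 ∣ Nat.card X
  · obtain ⟨t, ht⟩ := exists_prime_orderOf_dvd_card' (G := X) 2 h2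
    have hinv : ∀ t : X, orderOf t = 2 → ∀ v, φ t v = v⁻¹ := by
      intro t ht v
      have h1 : t ≠ 1 := by rintro rfl; simp at ht
      have h3 : MonoidHom.FixedPointFree (φ t) := hφ t h1 (by
        rw [ht]; exact fun hd => hr2 ((Nat.prime_dvd_prime_iff_eq hr Nat.prime_two).mp hd))
      refine congrFun (h3.coe_eq_inv_of_involutive fun k => ?_) v
      rw [← MulAut.mul_apply, ← map_mul, ← pow_two, ← ht, pow_orderOf_eq_one, map_one,
        MulAut.one_apply]
    obtain ⟨v0, hv0⟩ := exists_ne (1 : V)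
    have := Fact.mk hr
    have hker : IsPGroup r φ.ker := by
      rw [IsPGroup.iff_orderOf]
      rintro ⟨a, ha⟩
      rw [Subgroup.orderOf_mk]
      by_cases ha1 : a = 1
      · exact ⟨0, by simp [ha1]⟩
      have hd : r ∣ orderOf a := by
        by_contra hd
        exact hv0 (hφ a ha1 hd v0 (by rw [MonoidHom.mem_ker.mp ha]; rfl))
      obtain ⟨p, k, hp, -, hk⟩ := (isPrimePow_nat_iff _).mp (h a ha1)
      rw [← hk] at hd ⊢
      exact ⟨k, by rw [(Nat.prime_dvd_prime_iff_eq hr hp).mp (hr.dvd_of_dvd_pow hd)]⟩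
    have ht1 : φ t ≠ 1 := by
      intro h0
      refine hv0 (hφ t (by rintro rfl; simp at ht) ?_ v0 (by rw [h0]; rfl))
      rw [ht]; exact fun hd => hr2 ((Nat.prime_dvd_prime_iff_eq hr Nat.prime_two).mp hd)
    have ht2 : orderOf (φ t) = 2 :=
      orderOf_eq_prime (by rw [← map_pow, ← ht, pow_orderOf_eq_one, map_one]) ht1
    have hran : IsPGroup 2 φ.range := by
      have := Fact.mk Nat.prime_two
      by_contra hn
      obtain ⟨q, hq, hqd, hq2⟩ : ∃ q : ℕ, q.Prime ∧ q ∣ Nat.card φ.range ∧ q ≠ 2 := by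
        by_contra hc
        push Not at hc
        exact hn (IsPGroup.iff_card.mpr ⟨_, Nat.eq_prime_pow_of_unique_prime_dvd Nat.card_pos.ne'
          (fun hd hd' => hc _ hd hd')⟩)
      have := Fact.mk hq
      obtain ⟨⟨y', hy'⟩, hy⟩ := exists_prime_orderOf_dvd_card' (G := φ.range) q hqd
      rw [Subgroup.orderOf_mk] at hy
      obtain ⟨y, rfl⟩ := hy'
      have hc : Commute (φ y) (φ t) := by
        ext v
        simp only [MulAut.mul_apply, hinv t ht, map_inv]
      have h3 : orderOf (φ (y * t)) = q * 2 := by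
        rw [map_mul, hc.orderOf_mul_eq_mul_orderOf_of_coprime, hy, ht2]
        rw [hy, ht2]; exact (Nat.coprime_primes hq Nat.prime_two).mpr hq2
      have h4 : y * t ≠ 1 := by
        intro h0
        rw [h0, map_one, orderOf_one] at h3
        omega
      have h5 := orderOf_map_dvd φ (y * t)
      rw [h3] at h5
      exact hq2 (pp_eq (h _ h4) hq Nat.prime_two ((dvd_mul_right _ _).trans h5)
        ((dvd_mul_left _ _).trans h5))
    have := H89.isSolvable_of_isPGroup hr hker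
    have := H89.isSolvable_of_isPGroup Nat.prime_two hran
    have : Group.IsSolvable (X ⧸ φ.ker) :=
      Group.isSolvable_of_isSolvable_injective
        (f := (QuotientGroup.quotientKerEquivRange φ).toMonoidHom)
        (QuotientGroup.quotientKerEquivRange φ).injective
    exact H1.isSolvable_of_normal_of_quotient φ.ker
  · have : IsZGroup X := ⟨fun p hp P => by
      have := Fact.mk hp
      by_cases hpr : p = r
      · exact key h2 hs ψ hψ p P (hpr ▸ hrs)
      · exact key h2 hr φ hφ p P hpr⟩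
    infer_instance

theorem prime_eq {G : Type*} [Group G] [Finite G] {p q : ℕ} (hp : p.Prime) (hq : q.Prime)
    {A : Subgroup G} (h1 : IsPGroup p A) (h2 : IsPGroup q A) (hA : A ≠ ⊥) : p = q := by
  by_contra hne
  have := Fact.mk hp
  have := Fact.mk hq
  exact hA (disjoint_self.mp (IsPGroup.disjoint_of_ne p q hne A A h1 h2))

theorem sylow_ne_bot {G : Type*} [Group G] [Finite G] {p : ℕ} [Fact p.Prime] {S N : Subgroup G}
    (hS : H8.IsSylowIn p S N) (hd : p ∣ Nat.card N) : S ≠ ⊥ := by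
  rintro rfl
  exact hS.not_dvd (by rwa [Subgroup.relIndex_bot_left])

theorem frattini {G : Type*} [Group G] [Finite G] {p : ℕ} [Fact p.Prime] {S N : Subgroup G}
    [N.Normal] (hS : H8.IsSylowIn p S N) (g : G) :
    ∃ n ∈ N, ∃ m ∈ Subgroup.normalizer (S : Set G), g = n * m :=
  hS.frattini (Subgroup.le_normalizer_of_normal (Subgroup.mem_top g))

theorem case1 {G X : Type*} [Group G] [Finite G] [Group X] [Finite X] (hX : ¬ Group.IsSolvable X)
    {f : G →* X} (hf : Function.Surjective f) (h : ∀ x, f x ≠ 1 → IsPrimePow (orderOf x))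
    {r l : ℕ} [hr : Fact r.Prime] [hl : Fact l.Prime] (hrl : r ≠ l) (W : Subgroup G) [W.Normal]
    (hW0 : W ≠ ⊥) (hW : IsPGroup r W) [hWc : IsMulCommutative W] (hWN : W ≤ f.ker)
    (hN : IsPGroup l (f.ker.map (QuotientGroup.mk' W)))
    (hN0 : f.ker.map (QuotientGroup.mk' W) ≠ ⊥) : False := by
  obtain ⟨L, hL⟩ := H8.exists_isSylowIn l f.ker
  obtain ⟨a, ha⟩ := IsPGroup.iff_card.mp hW
  obtain ⟨b, hb⟩ := IsPGroup.iff_card.mp hN
  obtain ⟨c, hc⟩ := IsPGroup.iff_card.mp hL.isPGroup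
  have hcard : Nat.card f.ker = r ^ a * l ^ b := by
    rw [← ha, ← hb, H3.card_map_mk', H3.card_mul_relIndex hWN]
  have hLW : ∀ n ∈ f.ker, ∃ y ∈ L, ∃ w ∈ W, n = y * w := by
    intro n hn
    have h1 := (hL.map (QuotientGroup.mk' W)).eq_of_le hN le_rfl (Subgroup.map_mono hL.le)
    obtain ⟨y, hy, he⟩ : QuotientGroup.mk' W n ∈ L.map (QuotientGroup.mk' W) :=
      h1 ▸ Subgroup.mem_map_of_mem _ hn
    exact ⟨y, hy, y⁻¹ * n, QuotientGroup.eq.mp he, by group⟩
  have hL0 : L ≠ ⊥ := by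
    refine sylow_ne_bot hL ?_
    rw [hcard]
    refine Dvd.dvd.mul_left (dvd_pow_self _ ?_) _
    rintro rfl
    exact hN0 (Subgroup.eq_bot_of_card_eq _ (by simpa using hb))
  obtain ⟨q, hq, hqX, hqr, hql⟩ : ∃ q : ℕ, q.Prime ∧ q ∣ Nat.card X ∧ q ≠ r ∧ q ≠ l := by
    by_contra hcon
    push Not at hcon
    exact hX (H1.isSolvable_of_two_primes hr.out hl.out fun q hq hd =>
      or_iff_not_imp_left.mpr (hcon q hq hd))
  set H := Subgroup.normalizer (L : Set G) with hH
  have hfH : Function.Surjective (f.comp H.subtype) := by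
    intro x
    obtain ⟨g, rfl⟩ := hf x
    obtain ⟨n, hn, m, hm, rfl⟩ := frattini hL g
    exact ⟨⟨m, hm⟩, by simp [MonoidHom.mem_ker.mp hn]⟩
  have := Fact.mk hq
  obtain ⟨⟨g, hgH⟩, hg⟩ := exists_prime_orderOf_dvd_card' (G := H) q
    (hqX.trans (Subgroup.card_dvd_of_surjective _ hfH))
  rw [Subgroup.orderOf_mk] at hg
  have hfg : f g ≠ 1 := by
    intro h0
    have h1 : q ∣ r ^ a * l ^ b := by
      rw [← hcard, ← hg]; exact Subgroup.orderOf_dvd_natCard _ h0
    rcases hq.dvd_mul.mp h1 with h2 | h2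
    · exact hqr ((Nat.prime_dvd_prime_iff_eq hq hr.out).mp (hq.dvd_of_dvd_pow h2))
    · exact hql ((Nat.prime_dvd_prime_iff_eq hq hl.out).mp (hq.dvd_of_dvd_pow h2))
  have hfgq : orderOf (f g) = q :=
    orderOf_eq_prime (by rw [← map_pow, ← hg, pow_orderOf_eq_one, map_one]) hfg
  have hfy : ∀ y ∈ L, f (y * g) = f g := fun y hy => by
    rw [map_mul, MonoidHom.mem_ker.mp (hL.le hy), one_mul]
  have hpow : ∀ y ∈ L, (y * g) ^ q = 1 := by
    intro y hy
    have hmem : ∀ i : ℕ, (y * g) ^ i * (g ^ i)⁻¹ ∈ L := by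
      intro i
      induction i with
      | zero => simp
      | succ i ih =>
        have : (y * g) ^ (i + 1) * (g ^ (i + 1))⁻¹ = y * (g * ((y * g) ^ i * (g ^ i)⁻¹) * g⁻¹) := by
          rw [pow_succ' (y * g), pow_succ' g]; group
        rw [this]
        exact L.mul_mem hy ((Subgroup.mem_normalizer_iff.mp hgH _).mp ih)
    have h1 := hmem q
    rw [← hg, pow_orderOf_eq_one, inv_one, mul_one, hg] at h1
    have h2 := Subgroup.orderOf_dvd_natCard _ h1
    rw [hc] at h2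
    obtain ⟨p, k, hp, -, hk⟩ := (isPrimePow_nat_iff _).mp (h (y * g) (by rwa [hfy y hy]))
    have h3 : q ∣ p ^ k := by rw [hk, ← hfgq, ← hfy y hy]; exact orderOf_map_dvd _ _
    have h4 : q = p := (Nat.prime_dvd_prime_iff_eq hq hp).mp (hq.dvd_of_dvd_pow h3)
    subst h4
    have h5 : orderOf ((y * g) ^ q) ∣ q ^ k := hk ▸ orderOf_pow_dvd q
    exact orderOf_eq_one_iff.mp (Nat.eq_one_of_dvd_coprimes
      (Nat.Coprime.pow _ _ ((Nat.coprime_primes hq hl.out).mpr hql)) h5 h2)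
  let _ := MulDistribMulAction.compHom W (MulAut.conjNormal : G →* MulAut W)
  have hLW' : ∀ y ∈ L, ∀ w ∈ W, y * w = w * y := by
    intro y hy w hw
    have hco : (Nat.card W).Coprime (Nat.card L) := by
      rw [ha, hc]; exact Nat.Coprime.pow _ _ ((Nat.coprime_primes hr.out hl.out).mpr hrl)
    obtain ⟨v, hv⟩ := (powCoprime hco).surjective ⟨w, hw⟩
    have h1 := H5.smul_pow_card_eq_of_coset_fpf (V := W) L g hq
      (fun y hy => (Subgroup.mem_normalizer_iff.mp hgH _).mp hy) hpow ?_ v hy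
    · rw [powCoprime_apply] at hv
      rw [hv] at h1
      exact mul_inv_eq_iff_eq_mul.mp (congrArg Subtype.val h1 : y * w * y⁻¹ = w)
    · intro y hy v hv
      have hv' : y * g * v * (y * g)⁻¹ = v := congrArg Subtype.val hv
      refine Subtype.ext (eq_one_of_commute h (by rwa [hfy y hy]) (hWN v.2)
        (mul_inv_eq_iff_eq_mul.mp hv') ?_)
      refine Nat.Coprime.coprime_dvd_left (orderOf_dvd_of_pow_eq_one (hpow y hy))
        (Nat.Coprime.coprime_dvd_right (Subgroup.orderOf_dvd_natCard _ v.2) ?_)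
      rw [ha]
      exact Nat.Coprime.pow_right _ ((Nat.coprime_primes hq hr.out).mpr hqr)
  have hLn : L.Normal := by
    rw [← Subgroup.normalizer_eq_top_iff, eq_top_iff]
    intro x _
    obtain ⟨n, hn, m, hm, rfl⟩ := frattini hL x
    obtain ⟨y, hy, w, hw, rfl⟩ := hLW n hn
    refine Subgroup.mul_mem _ (Subgroup.mul_mem _ (Subgroup.le_normalizer hy) ?_) hm
    exact Subgroup.centralizer_le_normalizer _
      (Subgroup.mem_centralizer_iff.mpr fun y hy => hLW' y hy w hw)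
  obtain ⟨φ, hφ⟩ := exists_action hf h W hW hWN (by
    intro n hn
    obtain ⟨y, hy, w, hw, rfl⟩ := hLW n hn
    exact Subgroup.mul_mem _ (Subgroup.mem_centralizer_iff.mpr fun w hw => (hLW' y hy w hw).symm)
      (Subgroup.mem_centralizer_iff.mpr fun v hv => setLike_mul_comm (s := W) hv hw))
  obtain ⟨ψ, hψ⟩ := exists_action hf h (L ⊓ Subgroup.centralizer (L : Set G))
    hL.isPGroup.to_inf_left (inf_le_left.trans hL.le) (by
    intro n hn
    obtain ⟨y, hy, w, hw, rfl⟩ := hLW n hn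
    exact Subgroup.mul_mem _ (Subgroup.mem_centralizer_iff.mpr fun v hv =>
        (Subgroup.mem_centralizer_iff.mp hv.2 y hy).symm)
      (Subgroup.mem_centralizer_iff.mpr fun v hv => hLW' v hv.1 w hw))
  have := (Subgroup.nontrivial_iff_ne_bot W).mpr hW0
  have : Nontrivial ↥(L ⊓ Subgroup.centralizer (L : Set G)) :=
    (Subgroup.nontrivial_iff_ne_bot _).mpr
      (H1.inf_centralizer_ne_bot_of_isPGroup hL.isPGroup hL.isPGroup Subgroup.le_normalizer hL0)
  have hX' : ∀ a : X, a ≠ 1 → IsPrimePow (orderOf a) := by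
    intro a ha
    obtain ⟨x, rfl⟩ := hf a
    obtain ⟨p, k, hp, -, hk⟩ := (isPrimePow_nat_iff _).mp (h x ha)
    obtain ⟨j, -, hj⟩ := (Nat.dvd_prime_pow hp).mp (hk ▸ orderOf_map_dvd f x)
    refine (isPrimePow_nat_iff _).mpr ⟨p, j, hp, Nat.pos_of_ne_zero ?_, hj.symm⟩
    rintro rfl
    exact ha (orderOf_eq_one_iff.mp hj)
  by_cases hr2 : r = 2
  · exact hX (solv_of_actions hX' hl.out hr.out hrl.symm (hr2 ▸ hrl.symm) ψ φ hψ hφ)
  · exact hX (solv_of_actions hX' hr.out hl.out hrl hr2 φ ψ hφ hψ)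

theorem main {X : Type*} [Group X] [Finite X] (hX : ¬ Group.IsSolvable X) (G : Type u) [Group G]
    [Finite G] : ∀ f : G →* X, Function.Surjective f → (∀ x, f x ≠ 1 → IsPrimePow (orderOf x)) →
      f.ker ≠ ⊥ → ∃ p : ℕ, p.Prime ∧ IsPGroup p f.ker := by
  refine H1.card_induction (P := fun G _ _ => ∀ f : G →* X, Function.Surjective f →
    (∀ x, f x ≠ 1 → IsPrimePow (orderOf x)) → f.ker ≠ ⊥ → ∃ p : ℕ, p.Prime ∧ IsPGroup p f.ker) ?_ G
  intro G _ _ ih f hf h hN0
  by_cases hc : ∃ (A : Subgroup G) (p : ℕ), p.Prime ∧ A.Normal ∧ A ≠ ⊥ ∧ A ≤ f.ker ∧ IsPGroup p A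
  · obtain ⟨A, p, hp, hAn, hA0, hAN, hA⟩ := hc
    obtain ⟨W, r, hr, hWn, hW0, hWA, hWe, -⟩ := H3.exists_minimal_normal_elementary_le A
      (H89.isSolvable_of_isPGroup hp hA) hA0
    have hWN := hWA.trans hAN
    have hW : IsPGroup r W := fun w => ⟨1, Subtype.ext (by simpa using hWe.2 w w.2)⟩
    have hk : (QuotientGroup.lift W f hWN).ker = f.ker.map (QuotientGroup.mk' W) :=
      QuotientGroup.ker_lift _ _ _
    by_cases h0 : f.ker.map (QuotientGroup.mk' W) = ⊥
    · rw [Subgroup.map_eq_bot_iff, QuotientGroup.ker_mk'] at h0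
      exact ⟨r, hr, hW.to_le h0⟩
    obtain ⟨l, hl, hN⟩ := ih (G ⧸ W) (H1.card_quotient_lt hW0) (QuotientGroup.lift W f hWN)
      (QuotientGroup.lift_surjective_of_surjective _ _ hf _) (by
        intro x hx
        obtain ⟨x, rfl⟩ := QuotientGroup.mk'_surjective W x
        obtain ⟨p, k, hp, -, hk⟩ := (isPrimePow_nat_iff _).mp (h x hx)
        obtain ⟨j, -, hj⟩ := (Nat.dvd_prime_pow hp).mp
          (hk ▸ orderOf_map_dvd (QuotientGroup.mk' W) x)
        refine (isPrimePow_nat_iff _).mpr ⟨p, j, hp, Nat.pos_of_ne_zero ?_, hj.symm⟩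
        rintro rfl
        exact hx (by rw [orderOf_eq_one_iff.mp hj, map_one])) (hk ▸ h0)
    rw [hk] at hN
    by_cases hrl : r = l
    · subst hrl
      refine ⟨r, hr, (hN.comap_of_ker_isPGroup (QuotientGroup.mk' W) ?_).to_le
        (Subgroup.le_comap_map _ _)⟩
      rwa [QuotientGroup.ker_mk']
    have := Fact.mk hr
    have := Fact.mk hl
    have := hWe.1
    exact (case1 hX hf h hrl W hW0 hW hWN hN h0).elim
  push Not at hc
  have hsub : ∀ (A : Subgroup G) (p : ℕ), p.Prime → A ≠ ⊥ → A ≤ f.ker → IsPGroup p A →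
      (∀ g : G, ∃ n ∈ f.ker, ∃ m ∈ Subgroup.normalizer (A : Set G), g = n * m) →
      IsPGroup p ↥(f.ker ⊓ Subgroup.normalizer (A : Set G)) := by
    intro A p hp hA0 hAN hA hF
    set H := Subgroup.normalizer (A : Set G) with hH
    have hHt : H ≠ ⊤ := fun h0 => hc A p hp (Subgroup.normalizer_eq_top_iff.mp h0) hA0 hAN hA
    have hk : (f.comp H.subtype).ker = f.ker.subgroupOf H := rfl
    have hAle : A ≤ f.ker ⊓ H := le_inf hAN Subgroup.le_normalizer
    obtain ⟨q, hq, hQ⟩ := ih H (H1.card_subgroup_lt hHt) (f.comp H.subtype) (by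
      intro x
      obtain ⟨g, rfl⟩ := hf x
      obtain ⟨n, hn, m, hm, rfl⟩ := hF g
      exact ⟨⟨m, hm⟩, by simp [MonoidHom.mem_ker.mp hn]⟩)
      (fun x hx => Subgroup.orderOf_coe x ▸ h x hx) (by
        rw [hk, Ne, Subgroup.subgroupOf_eq_bot, disjoint_iff]
        exact fun h0 => hA0 (le_bot_iff.mp (h0 ▸ hAle)))
    have hQ' : IsPGroup q ↥(f.ker ⊓ H) := by
      have := hQ.map H.subtype
      rwa [hk, Subgroup.subgroupOf_map_subtype] at this
    rwa [prime_eq hp hq hA (hQ'.to_le hAle) hA0]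
  obtain ⟨p, hp, hpN, hp2⟩ : ∃ p : ℕ, p.Prime ∧ p ∣ Nat.card f.ker ∧ p ≠ 2 := by
    by_contra hcon
    push Not at hcon
    have := Fact.mk Nat.prime_two
    exact hc _ 2 Nat.prime_two inferInstance hN0 le_rfl
      (IsPGroup.iff_card.mpr ⟨_, Nat.eq_prime_pow_of_unique_prime_dvd Nat.card_pos.ne'
          (fun hd hd' => hcon _ hd hd')⟩)
  have := Fact.mk hp
  obtain ⟨P⟩ : Nonempty (Sylow p f.ker) := inferInstance
  have hP := H8.isSylowIn_map_subtype P
  have hnpc : Cfsg.HasNormalPComplement p f.ker := by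
    rw [S0117.result hp2 P]
    apply H8.hasNormalPComplement_of_isPGroup
    have hZle := H51.centerThompsonOf_le p ((P : Subgroup f.ker).map f.ker.subtype)
    have h1 := hsub (Cfsg.centerThompsonOf p ((P : Subgroup f.ker).map f.ker.subtype)) p hp
      (H51.centerThompsonOf_ne_bot hP.isPGroup (sylow_ne_bot hP hpN)) (hZle.trans hP.le)
      (hP.isPGroup.to_le hZle) (fun g => by
        obtain ⟨n, hn, m, hm, rfl⟩ := frattini hP g
        exact ⟨n, hn, m, H51.normalizer_le_normalizer_centerThompsonOf _ _ hm, rfl⟩)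
    refine (h1.comap_subtype (K := f.ker)).to_le ?_
    intro x hx
    refine ⟨x.2, ?_⟩
    rw [← H51.map_centerThompsonOf _ _ f.ker.subtype_injective]
    exact Subgroup.le_normalizer_map _ ⟨x, hx, rfl⟩
  have := H3.pPrimeCore_characteristic p f.ker
  have hKn := H3.normal_map_subtype_of_characteristic f.ker (Cfsg.pPrimeCore p f.ker)
  set K := (Cfsg.pPrimeCore p f.ker).map f.ker.subtype with hK
  have hKp : ¬ p ∣ Nat.card K := by
    rw [hK, H3.card_map_subtype]; exact H3.not_dvd_card_pPrimeCore p _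
  by_cases hK0 : K = ⊥
  · rw [hK, Subgroup.map_eq_bot_iff_of_injective _ f.ker.subtype_injective] at hK0
    exact ⟨p, hp, H1.isPGroup_of_npc_of_core hnpc hK0⟩
  obtain ⟨q, hq, hqK⟩ := Nat.exists_prime_and_dvd (mt Subgroup.card_eq_one.mp hK0)
  have := Fact.mk hq
  obtain ⟨Q, hQ⟩ := H8.exists_isSylowIn q K
  have hKN : K ≤ f.ker := Subgroup.map_subtype_le _
  have h1 := hsub Q q hq (sylow_ne_bot hQ hqK) (hQ.le.trans hKN) hQ.isPGroup (fun g => by
    obtain ⟨n, hn, m, hm, rfl⟩ := frattini hQ g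
    exact ⟨n, hKN hn, m, hm, rfl⟩)
  have h2 : f.ker ≤ (f.ker ⊓ Subgroup.normalizer (Q : Set G)) ⊔ K := by
    intro g hg
    obtain ⟨n, hn, m, hm, rfl⟩ := frattini hQ g
    refine Subgroup.mul_mem _ (Subgroup.mem_sup_right hn) (Subgroup.mem_sup_left ⟨?_, hm⟩)
    simpa using f.ker.mul_mem (f.ker.inv_mem (hKN hn)) hg
  have h3 := hpN.trans ((Subgroup.card_dvd_of_le h2).trans (H3.card_sup_dvd _ _))
  obtain ⟨k, hk⟩ := IsPGroup.iff_card.mp h1
  rw [hk] at h3
  rcases hp.dvd_mul.mp h3 with h4 | h4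
  · have := (Nat.prime_dvd_prime_iff_eq hp hq).mp (hp.dvd_of_dvd_pow h4)
    exact absurd (this ▸ hqK) hKp
  · exact absurd h4 hKp

/-- Let N be a non-trivial normal subgroup of the finite group G such that every element of G outside N has prime power order. If N is not solvable, then G/N is solvable. -/
theorem result {G : Type*} [Group G] [Finite G] (N : Subgroup G) [N.Normal] (hN : N ≠ ⊥) (hns : ¬ Group.IsSolvable ↥N)
    (h : ∀ x : G, x ∉ N → IsPrimePow (orderOf x)) : Group.IsSolvable (G ⧸ N) := by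
  by_contra hX
  obtain ⟨p, hp, hP⟩ := main hX G (QuotientGroup.mk' N) (QuotientGroup.mk'_surjective N)
    (fun x hx => h x fun hxN => hx ((QuotientGroup.eq_one_iff x).mpr hxN))
    (by rwa [QuotientGroup.ker_mk'])
  rw [QuotientGroup.ker_mk'] at hP
  exact hns (H89.isSolvable_of_isPGroup hp hP)

end Cfsg.Agent.S3901
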