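import Cfsg.Statements.S3904
import Cfsg.Agent.H92.MaxCent

set_option autoImplicit false
open Cfsg

namespace Cfsg.Agent.S3904

open Subgroup Cfsg.Agent.H92 Cfsg.Agent.H63 Cfsg.Agent.H67
open scoped commutatorElement



/-- Let G be a non-abelian finite group in which the centralizer of every non-central element is a maximal subgroup. Then G/Z(G) is either an elementary abelian p-group for some prime p, or a minimal non-abelian group (non-abelian with all proper subgroups abelian) of order p^a · q for distinct primes p, q with a normal Sylow p-subgroup. -/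
theorem result {G : Type*} [Group G] [Finite G] (hna : ¬ IsMulCommutative G)
    (h : ∀ x : G, x ∉ Subgroup.center G → IsCoatom (Subgroup.centralizer ({x} : Set G))) :
    (∃ p : ℕ, p.Prime ∧ Cfsg.IsElementaryAbelian p (⊤ : Subgroup (G ⧸ Subgroup.center G))) ∨
    (¬ IsMulCommutative (G ⧸ Subgroup.center G) ∧ (∀ H : Subgroup (G ⧸ Subgroup.center G), H ≠ ⊤ → IsMulCommutative ↥H) ∧
      ∃ p q a : ℕ, p.Prime ∧ q.Prime ∧ p ≠ q ∧ Nat.card (G ⧸ Subgroup.center G) = p ^ a * q ∧
        ∀ P : Subgroup (G ⧸ Subgroup.center G), Nat.card ↥P = p ^ a → P.Normal) := by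
  have hC : C[(⊤ : Subgroup G)] = center G := by rw [coe_top, centralizer_univ]
  rcases MaxCent.main (N := (⊤ : Subgroup G)) (fun x _ hx => h x (hC ▸ hx)) with ⟨p, hp, h1⟩ |
    ⟨p, q, W, y, hp, hq, hqp, hWn, -, hWab, hWp, hWZ, hWe, -, hyZ, hyq, hyq', hfix, hsup⟩
  · rw [hC] at h1
    refine Or.inl ⟨p, hp, ⟨⟨fun a b => Subtype.ext ?_⟩⟩, fun a _ => ?_⟩
    · obtain ⟨x, hx⟩ := QuotientGroup.mk_surjective a.1
      obtain ⟨z, hz⟩ := QuotientGroup.mk_surjective b.1
      rw [coe_mul, coe_mul, ← hx, ← hz]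
      exact commutator_mem_center_iff.1 ((h1 x trivial).2 z trivial)
    · obtain ⟨x, rfl⟩ := QuotientGroup.mk_surjective a
      exact (QuotientGroup.eq_one_iff (x ^ p)).2 (h1 x trivial).1
  right
  rw [hC] at hWZ hWe hyZ hyq' hfix hsup
  rw [top_inf_eq] at hsup
  haveI := Fact.mk hq
  haveI := Fact.mk hp
  set f := QuotientGroup.mk' (center G) with hf
  have hfs : Function.Surjective f := QuotientGroup.mk'_surjective _
  set K := center G ⊔ W with hK
  obtain ⟨w, hw, hwZ⟩ := SetLike.not_le_iff_exists.1 hWZ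
  have hKab : IsMulCommutative K := isMulCommutative_sup inferInstance hWab (center_le_centralizer _)
  have hKC : ∀ k ∈ K, K ≤ Ce[k] := fun k hk v hv => mem_C.2 (comm_of_isMulCommutative hKab hv hk)
  have hyK : y ∉ K := fun hy => hwZ (hfix ⟨hw, hKC y hy (mem_sup_right hw)⟩)
  have hidx : K.index = q := by
    rw [← relIndex_top_right, ← hsup, sup_comm]
    exact H3.relIndex_sup_zpowers_eq hq hyK (mem_sup_left hyq')
  have hKco : IsCoatom K := H3.isCoatom_of_index_prime (hidx ▸ hq)
  have hKf : K.map f = W.map f := by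
    rw [hK, Subgroup.map_sup, (Subgroup.map_eq_bot_iff _).2 (by rw [hf, QuotientGroup.ker_mk']), bot_sup_eq]
  have hWfp : IsPGroup p (W.map f) := hWp.map f
  obtain ⟨a, ha⟩ := IsPGroup.iff_card.1 hWfp
  have hidx' : (W.map f).index = q := by
    rw [← hKf, index_map_eq _ hfs (by rw [hf, QuotientGroup.ker_mk']; exact le_sup_left), hidx]
  refine ⟨fun hab => ?_, fun H hH => ?_, p, q, a, hp, hq, hqp.symm,
    by rw [← ha, ← hidx', card_mul_index], fun P hP => ?_⟩
  · have h3 := commute_of_coprime_of_commutator_mem_center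
      (commutator_mem_center_iff.2 (hab.is_comm.comm (y : G ⧸ center G) w))
      (coprime_of_pow_of_pow hq hp hqp hyq (orderOf_eq_pow_of_mem hWp hw))
    exact hwZ (hfix ⟨hw, mem_C'.2 h3⟩)
  · rw [← map_comap_eq_self_of_surjective hfs H]
    refine isMulCommutative_map ?_ f
    by_cases hle : H.comap f ≤ K
    · exact isMulCommutative_of_le hKab hle
    obtain ⟨g, hg, hgK⟩ := SetLike.not_le_iff_exists.1 hle
    have h1 : K ⊔ zpowers g = ⊤ := hKco.2 _ (left_lt_sup.2 fun h => hgK (h (mem_zpowers g)))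
    have hZH : center G ≤ H.comap f := fun z hz => by
      rw [mem_comap, show f z = 1 from (QuotientGroup.eq_one_iff z).2 hz]; exact one_mem H
    have h2 : Ce[g] ≤ center G ⊔ zpowers g := fun c hc => by
      obtain ⟨k, hk, d, hd, rfl⟩ := mem_sup_of_normal_left.1 (show c ∈ K ⊔ zpowers g by rw [h1]; trivial)
      refine mul_mem_sup (C_eq_top_iff.1 (eq_top_iff.2 (h1 ▸ sup_le (hKC k hk) (zpowers_le.2 ?_)))) hd
      exact mem_C_comm.1 ((Subgroup.mul_mem_cancel_right _ (zpowers_le_C g hd)).1 hc)
    have h3 : H.comap f = Ce[g] := ((h g fun hz => hgK (mem_sup_left hz)).le_iff_eq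
      (fun ht => hH (by rw [← map_comap_eq_self_of_surjective hfs H, ht, map_top_of_surjective _ hfs]))).1
      (h2.trans (sup_le hZH (zpowers_le.2 hg)))
    rw [h3]
    exact isMulCommutative_of_le (isMulCommutative_sup inferInstance inferInstance
      (center_le_centralizer _)) h2
  · haveI : (W.map f).Normal := hWn.map f hfs
    have hs : IsSyl p (W.map f) ⊤ := syl_mk le_top hWfp (by
      rw [relIndex_top_right, hidx']
      exact fun hd => hqp ((Nat.prime_dvd_prime_iff_eq hp hq).1 hd).symm)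
    have h1 := le_of_normal_syl hs (normalIn_top_iff.2 inferInstance) le_top (IsPGroup.of_card hP)
    rw [eq_of_le_of_card_ge h1 (by rw [ha, hP])]
    infer_instance

end Cfsg.Agent.S3904
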