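import Cfsg.Statements.S3905
import Cfsg.Agent.H92.MaxCent

set_option autoImplicit false
open Cfsg

namespace Cfsg.Agent.S3905

open Subgroup Cfsg.Agent.H92 Cfsg.Agent.H63 Cfsg.Agent.H67
open scoped commutatorElement



/-- Let N be a normal subgroup of the finite group G such that for every element x of N outside the center of N the centralizer C_G(x) is a maximal subgroup of G. Then N/Z(N) is either an elementary abelian p-group for some prime p, or a Frobenius group whose kernel is an elementary abelian normal subgroup and whose complement has prime order. -/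
theorem result {G : Type*} [Group G] [Finite G] (N : Subgroup G) [N.Normal]
    (h : ∀ x : G, x ∈ N → x ∉ Subgroup.centralizer (N : Set G) → IsCoatom (Subgroup.centralizer ({x} : Set G))) :
    (∃ p : ℕ, p.Prime ∧ Cfsg.IsElementaryAbelian p (⊤ : Subgroup (↥N ⧸ Subgroup.center ↥N))) ∨
    (∃ (Q K : Subgroup (↥N ⧸ Subgroup.center ↥N)) (p : ℕ), p.Prime ∧ Cfsg.IsFrobeniusComplement Q ∧ (Nat.card ↥Q).Prime ∧
      K.Normal ∧ (K : Set (↥N ⧸ Subgroup.center ↥N)) = Cfsg.frobeniusKernel Q ∧ Cfsg.IsElementaryAbelian p K) := by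
  have hZ : ∀ a : N, (a : N ⧸ center N) = 1 ↔ (a : G) ∈ C[N] := fun a => by
    rw [QuotientGroup.eq_one_iff, mem_center_iff, mem_centralizer_iff]
    exact ⟨fun h g hg => congrArg Subtype.val (h ⟨g, hg⟩), fun h g => Subtype.ext (h g g.2)⟩
  rcases MaxCent.main (N := N) h with ⟨p, hp, h1⟩ |
    ⟨p, q, W, y, hp, hq, hqp, hWn, hWN, hWab, hWp, hWZ, hWe, hy, hyZ, hyq, hyq', hfix, hsup⟩
  · refine Or.inl ⟨p, hp, ⟨⟨fun a b => Subtype.ext ?_⟩⟩, fun a _ => ?_⟩
    · obtain ⟨x, hx⟩ := QuotientGroup.mk_surjective a.1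
      obtain ⟨z, hz⟩ := QuotientGroup.mk_surjective b.1
      rw [coe_mul, coe_mul, ← hx, ← hz, ← commutatorElement_eq_one_iff_mul_comm]
      exact (hZ ⁅x, z⁆).2 ((h1 x x.2).2 z z.2)
    · obtain ⟨x, rfl⟩ := QuotientGroup.mk_surjective a
      exact (hZ (x ^ p)).2 (h1 x x.2).1
  right
  haveI := Fact.mk hq
  haveI := Fact.mk hp
  set f := QuotientGroup.mk' (center N) with hf
  set Y : N := ⟨y, hy⟩ with hY
  have hY1 : f Y ≠ 1 := fun e => hyZ ((hZ Y).1 e)
  have hYo : orderOf (f Y) = q := orderOf_eq_prime ((hZ (Y ^ q)).2 hyq') hY1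
  have hKn : ((W.subgroupOf N).map f).Normal :=
    Normal.map inferInstance _ (QuotientGroup.mk'_surjective _)
  have hfpf : ∀ v ∈ zpowers (f Y), v ≠ 1 → ∀ n ∈ (W.subgroupOf N).map f, Commute v n → n = 1 := by
    rintro v hv hv1 _ ⟨w, hw, rfl⟩ hc
    have h1 : f Y ∈ zpowers v := by
      have h0 := card_dvd_of_le (zpowers_le.2 hv)
      rw [Nat.card_zpowers (f Y), hYo] at h0
      rcases (Nat.dvd_prime hq).1 h0 with e | e
      · exact absurd (zpowers_eq_bot.1 (card_eq_one.1 e)) hv1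
      · rw [eq_of_le_of_card_ge (zpowers_le.2 hv) (by rw [e, Nat.card_zpowers, hYo])]
        exact mem_zpowers _
    have h2 : Commute (f Y) (f w) := mem_C.1 (zpowers_le.2 (mem_C.2 hc) h1)
    have h3 := commute_of_coprime_of_commutator_mem_center (commutator_mem_center_iff.2 h2) (by
      rw [← Subgroup.orderOf_coe, ← Subgroup.orderOf_coe]
      exact coprime_of_pow_of_pow hq hp hqp hyq (orderOf_eq_pow_of_mem hWp hw))
    exact (hZ w).2 (hfix ⟨hw, mem_C'.2 (congrArg Subtype.val h3)⟩)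
  obtain ⟨w, hw, hwZ⟩ := SetLike.not_le_iff_exists.1 hWZ
  obtain ⟨h1, h2⟩ := frobenius_of_fpf ((W.subgroupOf N).map f) (zpowers (f Y))
    (ne_bot_of_mem (mem_map_of_mem f (show (⟨w, hWN hw⟩ : N) ∈ W.subgroupOf N from hw))
      fun e => hwZ ((hZ _).1 e))
    (ne_bot_of_mem (mem_zpowers _) hY1) (by
      rw [eq_top_iff]
      rintro x -
      obtain ⟨x, rfl⟩ := QuotientGroup.mk_surjective x
      obtain ⟨a, ha, b, hb, hab⟩ := mem_sup_of_normal_right.1
        (show (x : G) ∈ zpowers y ⊔ (N ⊓ C[N] ⊔ W) by rw [hsup]; exact x.2)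
      obtain ⟨c, hc, d, hd, rfl⟩ := mem_sup_of_normal_right.1 hb
      obtain ⟨k, rfl⟩ := ha
      have : x = Y ^ k * (⟨c, hc.1⟩ * ⟨d, hWN hd⟩) := Subtype.ext hab.symm
      rw [this, QuotientGroup.mk_mul, QuotientGroup.mk_mul, (hZ ⟨c, hc.1⟩).2 hc.2, one_mul]
      exact mul_mem (mem_sup_right (zpow_mem (mem_zpowers _) k))
        (mem_sup_left (mem_map_of_mem f (show (⟨d, hWN hd⟩ : N) ∈ W.subgroupOf N from hd))))
    (disjoint_def.2 fun {x} hx hx' => by
      by_contra hx1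
      exact hx1 (hfpf x hx' hx1 x hx (Commute.refl x))) hfpf
  refine ⟨_, _, p, hp, h1, by rw [Nat.card_zpowers, hYo]; exact hq, hKn, h2.symm,
    isMulCommutative_map (isMulCommutative_subgroupOf hWab N) f, ?_⟩
  rintro _ ⟨x, hx, rfl⟩
  exact (hZ (x ^ p)).2 (hWe x hx)

end Cfsg.Agent.S3905
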