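import Cfsg.Statements.S3908
import Cfsg.Agent.H91.AbConj

set_option autoImplicit false
open Cfsg

namespace Cfsg.Agent.S3908

/-- Let G be a finite group in which any two abelian subgroups of the same order are conjugate. Then a Sylow 2-subgroup of G is cyclic, elementary abelian or generalized quaternion, and for an odd prime p a Sylow p-subgroup of G is cyclic or has exponent dividing p. -/
theorem result {G : Type*} [Group G] [Finite G] (hB : ∀ A B : Subgroup G, IsMulCommutative ↥A → IsMulCommutative ↥B → Nat.card ↥A = Nat.card ↥B → ∃ g : G, B = A.map (MulAut.conj g).toMonoidHom) :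
    (∀ P : Sylow 2 G, IsCyclic ↥(P : Subgroup G) ∨ Cfsg.IsElementaryAbelian 2 (P : Subgroup G) ∨ ∃ k : ℕ, Nonempty (↥(P : Subgroup G) ≃* QuaternionGroup (2 ^ k))) ∧
    ∀ (p : ℕ) [Fact p.Prime], p ≠ 2 → ∀ P : Sylow p G, IsCyclic ↥(P : Subgroup G) ∨ ∀ x ∈ (P : Subgroup G), x ^ p = 1 := by
  have h : H91.AbConj G := hB
  refine ⟨fun P => ?_, fun p _ hp P => ?_⟩
  · rcases h.unique_or_exponent P.isPGroup' with h1 | h1
    · rcases H5.isCyclic_or_quaternion_of_unique P.isPGroup' h1 with h2 | ⟨-, h2⟩
      · exact Or.inl h2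
      · exact Or.inr (Or.inr h2)
    · refine Or.inr (Or.inl ⟨⟨⟨fun a b => Subtype.ext ?_⟩⟩, h1⟩)
      have ha := h1 a a.2
      have hb := h1 b b.2
      have hab := h1 _ (mul_mem a.2 b.2)
      rw [sq] at ha hb hab
      change (a : G) * b = b * a
      calc (a : G) * b = (b * b) * a * b * (a * a) := by rw [ha, hb]; group
        _ = b * (b * a * (b * a)) * a := by group
        _ = b * a := by
          have : (b : G) * a * (b * a) = 1 := by
            have h2 := h1 _ (mul_mem b.2 a.2); rwa [sq] at h2
          rw [this]; group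
  · rcases h.unique_or_exponent P.isPGroup' with h1 | h1
    · rcases H5.isCyclic_or_quaternion_of_unique P.isPGroup' h1 with h2 | ⟨h2, -⟩
      · exact Or.inl h2
      · exact absurd h2 hp
    · exact Or.inr h1

end Cfsg.Agent.S3908
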