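import Cfsg.Statements.S3910
import Cfsg.Agent.H90.Basic

set_option autoImplicit false
open Cfsg

namespace Cfsg.Agent.S3910

/-- A finite nilpotent group in which any two abelian subgroups of the same order are conjugate is cyclic. -/
theorem result {G : Type*} [Group G] [Finite G] (hB : ∀ A B : Subgroup G, IsMulCommutative ↥A → IsMulCommutative ↥B → Nat.card ↥A = Nat.card ↥B → ∃ g : G, B = A.map (MulAut.conj g).toMonoidHom) (hnil : Group.IsNilpotent G) : IsCyclic G := by
  classical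
  have hex : ∃ A : Subgroup G, (A.Normal ∧ IsCyclic A) ∧
      ∀ B : Subgroup G, B.Normal ∧ IsCyclic B → Nat.card B ≤ Nat.card A := by
    obtain ⟨A, hA, hmax⟩ := Set.exists_max_image {A : Subgroup G | A.Normal ∧ IsCyclic A}
      (fun A => Nat.card A) (Set.toFinite _) ⟨⊥, inferInstance, inferInstance⟩
    exact ⟨A, hA, hmax⟩
  obtain ⟨A, ⟨hAn, hAc⟩, hmax⟩ := hex
  by_cases hA : A = ⊤
  · subst hA
    exact isCyclic_of_surjective _ Subgroup.topEquiv.surjective
  exfalso
  have hnt : Nontrivial (G ⧸ A) := QuotientGroup.nontrivial_iff.2 hA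
  have hZ : Subgroup.center (G ⧸ A) ≠ ⊥ := Group.IsNilpotent.center_ne_bot _
  obtain ⟨p, hp, hpd⟩ := Nat.exists_prime_and_dvd
    (show Nat.card (Subgroup.center (G ⧸ A)) ≠ 1 by rwa [Ne, Subgroup.card_eq_one])
  have := Fact.mk hp
  obtain ⟨⟨z, hzZ⟩, hz⟩ := exists_prime_orderOf_dvd_card' p hpd
  rw [Subgroup.orderOf_mk] at hz
  obtain ⟨g₀, rfl⟩ := QuotientGroup.mk_surjective z
  obtain ⟨a, b, k, h1, h2, h3⟩ := H90.exists_pPart p g₀
  -- the `p'`-part lies in `A`
  have hb : ((g₀ ^ b : G) : G ⧸ A) = 1 := by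
    rw [← orderOf_eq_one_iff]
    have h4 : orderOf ((g₀ ^ b : G) : G ⧸ A) ∣ p := by
      rw [← hz, QuotientGroup.mk_pow]; exact orderOf_pow_dvd b
    have h5 : orderOf ((g₀ ^ b : G) : G ⧸ A) ∣ orderOf (g₀ ^ b) :=
      orderOf_map_dvd (QuotientGroup.mk' A) _
    rcases (Nat.dvd_prime hp).1 h4 with h | h
    · exact h
    · exact absurd (h ▸ h5) h3
  set g := g₀ ^ a with hg
  have hgz : (g : G ⧸ A) = (g₀ : G ⧸ A) := by
    conv_rhs => rw [← h1, QuotientGroup.mk_mul, hb, mul_one]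
  rw [← hgz] at hz hzZ
  have hgA : g ∉ A := by
    intro h
    rw [(QuotientGroup.eq_one_iff g).2 h, orderOf_one] at hz
    exact hp.one_lt.ne hz
  have hgpA : g ^ p ∈ A := by
    rw [← QuotientGroup.eq_one_iff, QuotientGroup.mk_pow, ← hz, pow_orderOf_eq_one]
  obtain ⟨j, -, hj⟩ := (Nat.dvd_prime_pow hp).1 (orderOf_dvd_of_pow_eq_one h2)
  have hnd : ¬ p ^ j ∣ Nat.card A := by
    intro h
    obtain ⟨K, hK⟩ := Sylow.exists_subgroup_card_pow_prime p h
    have hKc : IsMulCommutative (K.map A.subtype) := inferInstance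
    obtain ⟨x, hx⟩ := hB (K.map A.subtype) (Subgroup.zpowers g) hKc inferInstance
      (by rw [Subgroup.card_map_of_injective A.subtype_injective, hK, Nat.card_zpowers, hj])
    have h4 : g ∈ (K.map A.subtype).map (MulAut.conj x).toMonoidHom :=
      hx ▸ Subgroup.mem_zpowers g
    have h5 := Subgroup.map_subtype_le K (H90.mem_map_conj.1 h4)
    apply hgA
    simpa [mul_assoc] using hAn.conj_mem _ h5 x
  obtain ⟨y, hy⟩ := (Subgroup.isCyclic_iff_exists_zpowers_eq_top _).1 hAc
  have hyA : Nat.card A = orderOf y := by rw [← hy, Nat.card_zpowers]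
  obtain ⟨i, m, hm, hn⟩ := Nat.exists_eq_pow_mul_and_not_dvd (orderOf_pos y).ne' p hp.ne_one
  have hj0 : j ≠ 0 := by
    rintro rfl
    exact hnd (by simp)
  have hij : j = i + 1 := by
    apply le_antisymm
    · have h4 : orderOf (g ^ p) ∣ Nat.card A := A.orderOf_dvd_natCard hgpA
      rw [orderOf_pow_of_dvd hp.ne_zero (by rw [hj]; exact dvd_pow_self p hj0), hj, hyA, hn] at h4
      have h5 : p ^ j / p = p ^ (j - 1) := by
        rw [← Nat.pow_div (by omega) hp.pos, pow_one]
      rw [h5] at h4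
      have h6 := (Nat.Coprime.pow_left (j - 1)
        ((Nat.Prime.coprime_iff_not_dvd hp).2 hm)).dvd_of_dvd_mul_right h4
      have := (Nat.pow_dvd_pow_iff_le_right hp.one_lt).1 h6
      omega
    · by_contra h
      apply hnd
      rw [hyA, hn]
      exact Dvd.dvd.mul_right (pow_dvd_pow p (by omega)) m
  set w := y ^ p ^ i with hw
  have hwA : w ∈ A := A.pow_mem (hy ▸ Subgroup.mem_zpowers y) _
  have hwo : orderOf w = m := by
    rw [hw, orderOf_pow_of_dvd (pow_ne_zero _ hp.ne_zero) (by rw [hn]; exact dvd_mul_right _ _), hn,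
      Nat.mul_div_cancel_left _ (pow_pos hp.pos _)]
  have hcop : (orderOf g).Coprime (orderOf w) := by
    rw [hj, hwo]; exact Nat.Coprime.pow_left j ((Nat.Prime.coprime_iff_not_dvd hp).2 hm)
  have hcomm : Commute g w := H90.commute_of_coprime_of_isNilpotent hcop
  have hco : orderOf (g * w) = p * Nat.card A := by
    rw [hcomm.orderOf_mul_eq_mul_orderOf_of_coprime hcop, hj, hwo, hyA, hn, hij]; ring
  have hcz : ((g * w : G) : G ⧸ A) = (g : G ⧸ A) := by
    rw [QuotientGroup.mk_mul, (QuotientGroup.eq_one_iff w).2 hwA, mul_one]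
  have hle : A ≤ Subgroup.zpowers (g * w) := by
    have h4 : (g * w) ^ p ∈ A := by
      rw [← QuotientGroup.eq_one_iff, QuotientGroup.mk_pow, hcz, ← hz, pow_orderOf_eq_one]
    have h5 : Subgroup.zpowers ((g * w) ^ p) = A := by
      apply Subgroup.eq_of_le_of_card_ge (Subgroup.zpowers_le.2 h4)
      rw [Nat.card_zpowers, orderOf_pow_of_dvd hp.ne_zero (by rw [hco]; exact dvd_mul_right _ _),
        hco, Nat.mul_div_cancel_left _ hp.pos]
    rw [← h5, Subgroup.zpowers_le]
    exact Subgroup.pow_mem _ (Subgroup.mem_zpowers _) p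
  have hnormal : (Subgroup.zpowers (g * w)).Normal := by
    refine ⟨fun x hx h => ?_⟩
    have h4 : (x : G ⧸ A) ∈ Subgroup.center (G ⧸ A) := by
      obtain ⟨n, rfl⟩ := hx
      simp only [QuotientGroup.mk_zpow, hcz]
      exact Subgroup.zpow_mem _ hzZ n
    have h5 : h * x * h⁻¹ * x⁻¹ ∈ A := by
      rw [← QuotientGroup.eq_one_iff]
      simp only [QuotientGroup.mk_mul, QuotientGroup.mk_inv]
      rw [Subgroup.mem_center_iff.1 h4 h]; group
    simpa using Subgroup.mul_mem _ (hle h5) hx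
  have h6 := hmax _ ⟨hnormal, inferInstance⟩
  rw [Nat.card_zpowers, hco] at h6
  have h7 : 0 < Nat.card A := Nat.card_pos
  nlinarith [hp.one_lt]

end Cfsg.Agent.S3910
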