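import Cfsg.Statements.S3917
import Cfsg.Agent.H90.Basic

set_option autoImplicit false
open Cfsg

namespace Cfsg.Agent.S3917

/-- Say that a group has self-centralizing non-cyclic subgroups when every non-cyclic subgroup H satisfies C_G(H) ≤ H. A finite abelian group with self-centralizing non-cyclic subgroups is cyclic or elementary abelian of order p² for a prime p. -/
theorem result {G : Type*} [CommGroup G] [Finite G] (hX : (∀ H : Subgroup G, ¬ IsCyclic ↥H → Subgroup.centralizer (H : Set G) ≤ H)) :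
    IsCyclic G ∨ ∃ p : ℕ, p.Prime ∧ Nat.card G = p ^ 2 ∧ Monoid.exponent G = p := by
  by_cases hc : IsCyclic G
  · exact Or.inl hc
  right
  have hprop : ∀ H : Subgroup G, ¬ IsCyclic H → H = ⊤ := by
    intro H hH
    rw [eq_top_iff]
    intro x _
    exact hX H hH (Subgroup.mem_centralizer_iff.2 fun y _ => mul_comm _ _)
  obtain ⟨p, hp, hlt⟩ : ∃ p : ℕ, p.Prime ∧ p < Nat.card (powMonoidHom p : G →* G).ker := by
    by_contra h
    push Not at h
    exact hc (H90.isCyclic_of_card_pow_prime_eq_one_le h)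
  have := Fact.mk hp
  have hnc : ∀ H : Subgroup G, (∀ x ∈ H, x ^ p = 1) → p < Nat.card H → ¬ IsCyclic H := by
    intro H h1 h2 h3
    rw [← h3.exponent_eq_card] at h2
    exact h2.not_ge (Nat.le_of_dvd hp.pos
      (Monoid.exponent_dvd_of_forall_pow_eq_one fun x => Subtype.ext (h1 x x.2)))
  have htop := hprop _ (hnc _ (fun x hx => hx) hlt)
  have hall : ∀ x : G, x ^ p = 1 := fun x => by
    have : x ∈ (powMonoidHom p : G →* G).ker := htop ▸ Subgroup.mem_top x
    exact this
  have hpg : IsPGroup p G := fun x => ⟨1, by rw [pow_one, hall]⟩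
  rw [htop, Subgroup.card_top] at hlt
  obtain ⟨n, hn⟩ := IsPGroup.iff_card.1 hpg
  have hn2 : 2 ≤ n := by
    rw [hn] at hlt
    exact (Nat.pow_lt_pow_iff_right hp.one_lt (n := 1)).1 (by rwa [pow_one])
  obtain ⟨K, hK⟩ := Sylow.exists_subgroup_card_pow_prime (G := G) p (n := 2)
    (by rw [hn]; exact pow_dvd_pow p hn2)
  have hK' := hprop K (hnc K (fun x _ => hall x) (by rw [hK]; nlinarith [hp.one_lt]))
  rw [hK', Subgroup.card_top] at hK
  refine ⟨p, hp, hK, ?_⟩
  rcases (Nat.dvd_prime hp).1 (Monoid.exponent_dvd_of_forall_pow_eq_one hall) with h | h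
  · rw [Monoid.exp_eq_one_iff] at h
    exact absurd isCyclic_of_subsingleton hc
  · exact h

end Cfsg.Agent.S3917
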