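import Cfsg.Statements.S3918
import Cfsg.Agent.H7.Rank

set_option autoImplicit false
open Cfsg

namespace Cfsg.Agent.S3918

/-- Say that a group has self-centralizing non-cyclic subgroups when every non-cyclic subgroup H satisfies C_G(H) ≤ H. For an odd prime p, a finite non-abelian p-group has self-centralizing non-cyclic subgroups if and only if it has order p³. -/
theorem result {G : Type*} [Group G] [Finite G] {p : ℕ} [Fact p.Prime] (hp : p ≠ 2) (hG : IsPGroup p G) (hna : ¬ IsMulCommutative G) :
    (∀ H : Subgroup G, ¬ IsCyclic ↥H → Subgroup.centralizer (H : Set G) ≤ H) ↔ Nat.card G = p ^ 3 := by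
  constructor
  · intro h
    have hnc : ¬ IsCyclic G := fun hc => hna inferInstance
    obtain ⟨A, hAn, hAe, hAc⟩ := H7.exists_normal_sq hG hp hnc
    have hp1 := (Fact.out : p.Prime).one_lt
    have hA : ¬ IsCyclic A := fun hc => by
      have := H7.card_le_of_isCyclic_of_pow hc hAe.2
      nlinarith
    have h1 := H7.index_centralizer_le hG 2 A hAc
    have h2 := Subgroup.card_le_of_le (h A hA)
    have h3 := (Subgroup.centralizer (A : Set G)).card_mul_index
    obtain ⟨n, hn⟩ := IsPGroup.iff_card.1 hG
    have h4 : n ≤ 3 := by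
      rw [← Nat.pow_le_pow_iff_right hp1, ← hn, ← h3, pow_succ, ← hAc]
      exact Nat.mul_le_mul h2 (by simpa using h1)
    have h5 : 2 < n := by
      rw [← Nat.pow_lt_pow_iff_right hp1, ← hn, ← hAc]
      refine H7.card_lt_of_ne_top fun ht => hna ?_
      have := hAe.1
      rw [ht] at this
      exact ⟨⟨fun a b => H7.commute_of_mem this (Subgroup.mem_top a) (Subgroup.mem_top b)⟩⟩
    rw [hn, show n = 3 by omega]
  · intro h H hH
    obtain ⟨k, hk⟩ := H7.card_eq_pow hG H
    have hp1 := (Fact.out : p.Prime).one_lt
    have h1 : k ≤ 3 := by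
      rw [← Nat.pow_le_pow_iff_right hp1, ← hk, ← h]
      exact Subgroup.card_le_card_group H
    have h2 : 1 < k := by
      by_contra h3
      exact hH (isCyclic_of_card_dvd_prime (p := p)
        (by rw [hk]; simpa using pow_dvd_pow p (not_lt.1 h3)))
    rcases (show k = 3 ∨ k = 2 by omega) with rfl | rfl
    · rw [Subgroup.eq_top_of_card_eq H (hk.trans h.symm)]; exact le_top
    have hi : H.index = p := by
      have := H.card_mul_index
      rw [hk, h, pow_succ p 2] at this
      exact Nat.eq_of_mul_eq_mul_left (by positivity) this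
    have hc : IsMulCommutative H := IsPGroup.isMulCommutative_of_card_eq_prime_sq hk
    have hle : H ≤ Subgroup.centralizer (H : Set G) := fun x hx y hy =>
      (H7.commute_of_mem hc hy hx).eq
    rcases (H7.isCoatom_of_index_prime (hi ▸ Fact.out)).le_iff.1 hle with h3 | h3
    · exfalso
      have := H7.normal_of_index_eq hG hi
      have : IsCyclic (G ⧸ H) := isCyclic_of_prime_card hi
      refine hna ((QuotientGroup.mk' H).isMulCommutative_of_isCyclic_of_ker_le_center ?_)
      rw [QuotientGroup.ker_mk']
      intro x hx
      rw [Subgroup.mem_center_iff]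
      intro g
      exact ((h3 ▸ Subgroup.mem_top g : g ∈ Subgroup.centralizer (H : Set G)) x hx).symm
    · exact h3.le

end Cfsg.Agent.S3918
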