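import Cfsg.Statements.S3919
import Cfsg.Agent.H9.SelfCent
import Cfsg.Agent.H90.MaxClass
import Cfsg.Agent.S0112
import Cfsg.Agent.H71.Meta

set_option autoImplicit false
open Cfsg

namespace Cfsg.Agent.S3919

open Subgroup

/-- Say that a group has self-centralizing non-cyclic subgroups when every non-cyclic subgroup H satisfies C_G(H) ≤ H. A finite non-abelian 2-group G of order 2^n has self-centralizing non-cyclic subgroups if and only if G has nilpotency class n − 1 (that is, G is dihedral, semidihedral or generalized quaternion). -/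
theorem result {G : Type*} [Group G] [Finite G] (hna : ¬ IsMulCommutative G) (n : ℕ) (hG : Nat.card G = 2 ^ n) :
    (∀ H : Subgroup G, ¬ IsCyclic ↥H → Subgroup.centralizer (H : Set G) ≤ H) ↔ (⊤ : Subgroup G).lowerCentralSeries (n - 2) ≠ ⊥ := by
  have := Fact.mk Nat.prime_two
  have hP : IsPGroup 2 G := IsPGroup.of_card hG
  obtain ⟨c, rfl⟩ : ∃ c, n = c + 3 := by
    refine ⟨n - 3, ?_⟩
    by_contra h
    refine hna (H71.isMulCommutative_of_card_le_sq hP ?_)
    rw [hG]
    exact Nat.pow_le_pow_right two_pos (by omega)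
  rw [show c + 3 - 2 = c + 1 from rfl, ← H90.nilpotencyClass_eq_iff_lcs_ne_bot (p := 2) hG]
  constructor
  · intro h
    by_cases h1 : ∀ E : Subgroup G, E.Normal → ¬ IsKleinFour E
    · rcases H9.isCyclic_or_MC_of_no_normal_four hP h1 with h2 | ⟨a, b, m, h2, -⟩
      · exact absurd (inferInstance : IsMulCommutative G) hna
      have h3 : m = c + 1 := by
        have := Nat.pow_right_injective le_rfl (h2.card_top.symm.trans hG)
        omega
      subst h3
      rw [H90.nilpotencyClass_eq_iff_lcs_ne_bot (p := 2) hG, h2.lowerCentralSeries_succ,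
        zpowers_ne_bot]
      exact h2.z_ne_one
    · push Not at h1
      obtain ⟨E, -, hE⟩ := h1
      have := IsPGroup.isMulCommutative_of_card_eq_prime_sq (p := 2) hE.card_four
      exact S0112.result (p := 2) _ hG E hE.card_four
        (le_antisymm (h E IsKleinFour.not_isCyclic) (le_centralizer E))
  · intro h H hH x hx
    obtain ⟨a, b, h1⟩ := H9.exists_MC_of_maxClass (n := c + 1) (by omega) hG h
    have h2 : ¬ H ≤ zpowers a := fun h2 => hH (isCyclic_of_le h2)
    obtain ⟨w, hw, hwa⟩ := SetLike.not_le_iff_exists.1 h2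
    obtain ⟨r, hr, -, h3⟩ := h1.exists_of_not_le le_top hw hwa
    have h4 : a ^ 2 ^ (c + 1) ∈ H := by
      rcases hr.eq_or_lt with h4 | h4
      · refine absurd (isCyclic_of_le (H' := zpowers w) fun g hg => ?_) hH
        obtain ⟨i, h5⟩ := (h3 g).1 hg
        rw [h4, ← h1.ord, pow_orderOf_eq_one, one_zpow, one_mul] at h5
        rcases h5 with rfl | rfl
        exacts [one_mem _, mem_zpowers _]
      · obtain ⟨k, hk⟩ := Nat.exists_eq_add_of_le (Nat.lt_succ_iff.1 h4)
        exact (h3 _).2 ⟨2 ^ k, Or.inl (by rw [hk, pow_add, pow_mul]; norm_cast)⟩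
    rcases ((h1.of_mem (mem_top w) hwa).commute_b_iff' (mem_top x)).1 (hx w hw) with
      rfl | rfl | rfl | rfl
    exacts [one_mem _, h4, hw, mul_mem h4 hw]

end Cfsg.Agent.S3919
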