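import Cfsg.Statements.S3920
-- import your own Cfsg.Agent.* helpers here

set_option autoImplicit false
open Cfsg

namespace Cfsg.Agent.S3920

/-- Say that a group has self-centralizing non-cyclic subgroups when every non-cyclic subgroup H satisfies C_G(H) ≤ H. For n ≥ 3, the dihedral group of order 2n has self-centralizing non-cyclic subgroups if and only if n is odd or a power of 2. -/
theorem result (n : ℕ) (hn : 3 ≤ n) : (∀ H : Subgroup (DihedralGroup n), ¬ IsCyclic ↥H → Subgroup.centralizer (H : Set (DihedralGroup n)) ≤ H) ↔ (Odd n ∨ ∃ k : ℕ, n = 2 ^ k) := by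
  have : NeZero n := ⟨by omega⟩
  have hrot : ∀ H : Subgroup (DihedralGroup n), (∀ i, DihedralGroup.sr i ∉ H) → IsCyclic H := by
    intro H hH
    have h1 : H ≤ Subgroup.zpowers (DihedralGroup.r 1) := by
      rintro (i | i) hi
      · exact ⟨(i.val : ℤ), by simp⟩
      · exact absurd hi (hH i)
    exact Subgroup.isCyclic_of_le h1
  have hrot2 : ∀ H : Subgroup (DihedralGroup n), (∀ i, DihedralGroup.r i ∈ H → i = 0) →
      IsCyclic H := by
    intro H hH
    by_cases h : ∀ i, DihedralGroup.sr i ∉ H
    · exact hrot H h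
    push Not at h
    obtain ⟨j, hj⟩ := h
    have h1 : H ≤ Subgroup.zpowers (DihedralGroup.sr j) := by
      rintro (i | i) hi
      · rw [hH i hi]; exact Subgroup.one_mem _
      · have := hH _ (by simpa using H.mul_mem hj hi)
        rw [sub_eq_zero.1 this]; exact Subgroup.mem_zpowers _
    exact Subgroup.isCyclic_of_le h1
  constructor
  · intro h
    by_contra hcon
    push Not at hcon
    obtain ⟨h1, h2⟩ := hcon
    rw [Nat.not_odd_iff_even] at h1
    obtain ⟨p, hp, hpn, hp2⟩ : ∃ p : ℕ, p.Prime ∧ p ∣ n ∧ p ≠ 2 := by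
      by_contra h3
      push Not at h3
      exact h2 _ (Nat.eq_prime_pow_of_unique_prime_dvd (by omega) (fun hd hdn => h3 _ hd hdn))
    let H : Subgroup (DihedralGroup n) :=
      { carrier := {x | ∃ i : ZMod n, (p : ZMod n) * i = 0 ∧
          (x = DihedralGroup.r i ∨ x = DihedralGroup.sr i)}
        one_mem' := ⟨0, by simp, Or.inl rfl⟩
        mul_mem' := by
          rintro _ _ ⟨i, hi, rfl | rfl⟩ ⟨j, hj, rfl | rfl⟩
          · exact ⟨i + j, by rw [mul_add, hi, hj, add_zero], Or.inl rfl⟩
          · exact ⟨j - i, by rw [mul_sub, hi, hj, sub_zero], Or.inr rfl⟩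
          · exact ⟨i + j, by rw [mul_add, hi, hj, add_zero], Or.inr rfl⟩
          · exact ⟨j - i, by rw [mul_sub, hi, hj, sub_zero], Or.inl rfl⟩
        inv_mem' := by
          rintro _ ⟨i, hi, rfl | rfl⟩
          · exact ⟨-i, by rw [mul_neg, hi, neg_zero], Or.inl rfl⟩
          · exact ⟨i, hi, Or.inr rfl⟩ }
    obtain ⟨m, hm⟩ := hpn
    obtain ⟨l, hl⟩ := h1
    have hp3 : 3 ≤ p := by have := hp.two_le; omega
    have hm0 : 0 < m := Nat.pos_of_ne_zero (by rintro rfl; omega)
    have hnc : ¬ IsCyclic H := by
      intro hc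
      have ha : DihedralGroup.r (m : ZMod n) ∈ H :=
        ⟨m, by rw [← Nat.cast_mul, ← hm, ZMod.natCast_self], Or.inl rfl⟩
      have hb : DihedralGroup.sr (0 : ZMod n) ∈ H := ⟨0, by simp, Or.inr rfl⟩
      have := congrArg Subtype.val (hc.isMulCommutative.is_comm.comm ⟨_, ha⟩ ⟨_, hb⟩)
      simp only [Subgroup.coe_mul, DihedralGroup.r_mul_sr, DihedralGroup.sr_mul_r, zero_sub,
        zero_add, DihedralGroup.sr.injEq] at this
      have h3 : ((2 * m : ℕ) : ZMod n) = 0 := by
        push_cast
        linear_combination -this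
      rw [ZMod.natCast_eq_zero_iff] at h3
      have := Nat.le_of_dvd (by omega) h3
      nlinarith
    have h2l : (l : ZMod n) + l = 0 := by rw [← Nat.cast_add, ← hl, ZMod.natCast_self]
    have hmem : DihedralGroup.r (l : ZMod n) ∈ H := by
      apply h H hnc
      rw [Subgroup.mem_centralizer_iff]
      rintro (i | i) -
      · simp [add_comm]
      · simp only [DihedralGroup.r_mul_sr, DihedralGroup.sr_mul_r, DihedralGroup.sr.injEq]
        linear_combination h2l
    obtain ⟨i, hi, h3 | h3⟩ := hmem
    · rw [← DihedralGroup.r.inj h3, ← Nat.cast_mul, ZMod.natCast_eq_zero_iff, hl, ← two_mul] at hi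
      have := Nat.dvd_of_mul_dvd_mul_right (by omega) hi
      exact hp2 ((Nat.prime_dvd_prime_iff_eq Nat.prime_two hp).1 this).symm
    · cases h3
  · intro h H hH
    obtain ⟨j, hj⟩ : ∃ j, DihedralGroup.sr j ∈ H := by
      by_contra h1
      push Not at h1
      exact hH (hrot H h1)
    obtain ⟨i, hi, hi0⟩ : ∃ i, DihedralGroup.r i ∈ H ∧ i ≠ 0 := by
      by_contra h1
      push Not at h1
      exact hH (hrot2 H h1)
    -- every rotation by a `2`-torsion element lies in `H`
    have key : ∀ t : ZMod n, t + t = 0 → DihedralGroup.r t ∈ H := by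
      intro t ht
      by_cases ht0 : t = 0
      · rw [ht0]; exact H.one_mem
      have htv : 2 * t.val = n := by
        have h1 : n ∣ 2 * t.val := by
          rw [← ZMod.natCast_eq_zero_iff]; push_cast; simp [two_mul, ht]
        have h2 := t.val_lt
        have h3 : t.val ≠ 0 := by rwa [Ne, ZMod.val_eq_zero]
        obtain ⟨c, hc⟩ := h1
        have h4 : c < 2 := by nlinarith
        interval_cases c <;> omega
      rcases h with h | ⟨k, hk⟩
      · exact absurd h (by rw [← htv]; simp)
      · have hi1 : DihedralGroup.r i ≠ 1 := fun h => hi0 (DihedralGroup.r.inj h)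
        have h1 : orderOf (DihedralGroup.r i) ∣ 2 ^ k := by
          rw [← hk, DihedralGroup.orderOf_r]; exact Nat.div_dvd_of_dvd (Nat.gcd_dvd_left _ _)
        obtain ⟨s, -, hs⟩ := (Nat.dvd_prime_pow Nat.prime_two).1 h1
        have hs0 : s ≠ 0 := by
          rintro rfl
          exact hi1 (orderOf_eq_one_iff.1 hs)
        obtain ⟨s, rfl⟩ := Nat.exists_eq_succ_of_ne_zero hs0
        have h2 : DihedralGroup.r i ^ 2 ^ s ≠ 1 :=
          pow_ne_one_of_lt_orderOf (by positivity) (by rw [hs, pow_succ]; have := Nat.two_pow_pos s; omega)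
        have h3 : (DihedralGroup.r i ^ 2 ^ s) ^ 2 = 1 := by
          rw [← pow_mul, ← pow_succ, ← hs, pow_orderOf_eq_one]
        have h4 := H.pow_mem hi (2 ^ s)
        rw [DihedralGroup.r_pow] at h2 h3 h4
        set u := i * ((2 ^ s : ℕ) : ZMod n) with hu
        have h5 : u + u = 0 := by
          rw [pow_two, DihedralGroup.r_mul_r] at h3
          exact DihedralGroup.r.inj h3
        have h6 : u ≠ 0 := fun h => h2 (by rw [h]; rfl)
        have huv : 2 * u.val = n := by
          have h1 : n ∣ 2 * u.val := by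
            rw [← ZMod.natCast_eq_zero_iff]; push_cast; simp [two_mul, h5]
          have h2 := u.val_lt
          have h3 : u.val ≠ 0 := by rwa [Ne, ZMod.val_eq_zero]
          obtain ⟨c, hc⟩ := h1
          have h4 : c < 2 := by nlinarith
          interval_cases c <;> omega
        have h7 : t = u := ZMod.val_injective n (by omega)
        rwa [h7]
    rintro (t | t) ht
    · apply key
      have := Subgroup.mem_centralizer_iff.1 ht _ hj
      simp only [DihedralGroup.r_mul_sr, DihedralGroup.sr_mul_r, DihedralGroup.sr.injEq] at this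
      linear_combination this
    · have := Subgroup.mem_centralizer_iff.1 ht _ hj
      simp only [DihedralGroup.sr_mul_sr, DihedralGroup.r.injEq] at this
      have h1 := key (t - j) (by linear_combination this)
      simpa using H.mul_mem hj h1

end Cfsg.Agent.S3920
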