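import Cfsg.Statements.S3928
import Cfsg.Agent.H88.EngelGen
import Cfsg.Agent.H88.Inverted

set_option autoImplicit false
open Cfsg

namespace Cfsg.Agent.S3928

/-- There is a function f such that for every non-trivial finite group G and every automorphism α of G of order 2 with [G, α] = G (the elements g·α(g)⁻¹ generate G), the order of G is at most f(m), where m is the number of elements of odd order inverted by α. -/
theorem result : ∃ f : ℕ → ℕ, ∀ (G : Type) [Group G] [Finite G] [Nontrivial G] (α : MulAut G), orderOf α = 2 →
    Subgroup.closure (Set.range (fun c : G => c * (α c)⁻¹)) = ⊤ →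
      Nat.card G ≤ f (Nat.card {g : G // Odd (orderOf g) ∧ α g = g⁻¹}) := by
  choose f hf using H88.exists_bound_oddInv
  refine ⟨f, fun G _ _ _ α hα hG => ?_⟩
  have h2 : α ^ 2 = 1 := by rw [← hα]; exact pow_orderOf_eq_one α
  refine hf _ G α h2 ?_ le_rfl
  have h3 := H88.range_iterate_eq α h2 (Nat.card G) (fun g _ h => by
    have h1 := Nat.le_of_dvd Nat.card_pos (h.trans (orderOf_dvd_natCard _))
    have h3 : Nat.card G < 2 ^ (Nat.card G) := Nat.lt_two_pow_self
    omega)
  have := H88.engel_gen α hG (Nat.card G)
  rw [h3] at this
  exact this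

end Cfsg.Agent.S3928
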