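import Cfsg.Statements.S3933
import Cfsg.Agent.H1.TwoPrimes
import Cfsg.Agent.H89.SolvInd
import Cfsg.Agent.H58.BrRed
import Cfsg.Agent.H93.ClassNumber
import Cfsg.Agent.H1.Nilp
import Cfsg.Agent.H8.SylowIn

set_option autoImplicit false
open Cfsg

namespace Cfsg.Agent.S3933

open scoped Pointwise

universe u

theorem relIndex_eq_index {G : Type*} [Group G] [Finite G] {A N : Subgroup G} [N.Normal]
    (h : A ⊔ N = ⊤) : A.relIndex N = A.index := by
  have h1 := Subgroup.relIndex_mul_index (inf_le_right : A ⊓ N ≤ N)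
  have h2 := Subgroup.relIndex_mul_index (inf_le_left : A ⊓ N ≤ A)
  rw [Subgroup.inf_relIndex_right] at h1
  rw [Subgroup.inf_relIndex_left, ← Subgroup.relIndex_sup_right, h, Subgroup.relIndex_top_right,
    ← h1, mul_comm] at h2
  exact (Nat.eq_of_mul_eq_mul_right (Nat.pos_of_ne_zero Subgroup.index_ne_zero_of_finite) h2).symm

theorem card_sylow_normal_dvd {G : Type*} [Group G] [Finite G] (r : ℕ) [Fact r.Prime]
    (N : Subgroup G) [N.Normal] : Nat.card (Sylow r N) ∣ Nat.card (Sylow r G) := by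
  obtain ⟨Q⟩ : Nonempty (Sylow r N) := inferInstance
  obtain ⟨P, hP⟩ := Q.exists_comap_subtype_eq
  have hQ : (Q : Subgroup N).map N.subtype = (P : Subgroup G) ⊓ N := by
    rw [← hP]; exact Subgroup.subgroupOf_map_subtype _ _
  have hF := Q.normalizer_sup_eq_top
  rw [hQ] at hF
  rw [Q.card_eq_index_normalizer, P.card_eq_index_normalizer]
  have h1 : Subgroup.normalizer ((Q : Subgroup N) : Set N) =
      (Subgroup.normalizer (((P : Subgroup G) ⊓ N : Subgroup G) : Set G)).subgroupOf N := by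
    rw [Subgroup.subgroupOf_normalizer_eq inf_le_right, Subgroup.inf_subgroupOf_right, ← hP]
    rfl
  change (Subgroup.normalizer ((Q : Subgroup N) : Set N)).index ∣ _
  rw [h1]
  change Subgroup.relIndex _ _ ∣ _
  rw [relIndex_eq_index hF]
  apply Subgroup.index_dvd_of_le
  intro g hg
  rw [Subgroup.mem_normalizer_iff]
  intro x
  have h2 := Subgroup.mem_normalizer_iff.mp hg x
  have h3 := Subgroup.mem_normalizer_iff.mp
    (show g ∈ Subgroup.normalizer (N : Set G) from
      (Subgroup.normalizer_eq_top N).symm ▸ Subgroup.mem_top g) x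
  exact and_congr h2 h3

theorem dvd_pp {a b : ℕ} (h : a ∣ b) (hb : b = 1 ∨ IsPrimePow b) : a = 1 ∨ IsPrimePow a := by
  rcases hb with rfl | hb
  · exact Or.inl (Nat.dvd_one.mp h)
  · obtain ⟨p, k, hp, -, rfl⟩ := (isPrimePow_nat_iff _).mp hb
    obtain ⟨j, -, rfl⟩ := (Nat.dvd_prime_pow hp).mp h
    rcases Nat.eq_zero_or_pos j with rfl | hj
    · exact Or.inl rfl
    · exact Or.inr ((isPrimePow_nat_iff _).mpr ⟨p, j, hp, hj, rfl⟩)

/-- key step in a simple group -/
theorem key {G : Type*} [Group G] [Finite G] [IsSimpleGroup G] {r s : ℕ} [Fact r.Prime]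
    [hs : Fact s.Prime] (hsG : s ∣ Nat.card G)
    (hc : (Nat.card (Sylow r G)).Coprime (Nat.card (Sylow s G)))
    (hn : ¬ s ∣ Nat.card (Sylow r G)) : Nat.card (Sylow r G) = 1 := by
  obtain ⟨R⟩ : Nonempty (Sylow r G) := inferInstance
  obtain ⟨S0⟩ : Nonempty (Sylow s (Subgroup.normalizer ((R : Subgroup G) : Set G))) :=
    inferInstance
  rw [R.card_eq_index_normalizer] at hn hc ⊢
  set A := Subgroup.normalizer ((R : Subgroup G) : Set G) with hA
  have hn' : ¬ s ∣ A.index := hn
  have hS : ¬ s ∣ ((S0 : Subgroup A).map A.subtype).index := by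
    rw [Subgroup.index_map_subtype]
    exact fun h => (hs.out.dvd_mul.mp h).elim S0.not_dvd_index hn'
  let S : Sylow s G := (S0.2.map A.subtype).toSylow hS
  have hSA : (S : Subgroup G) ≤ A := Subgroup.map_subtype_le _
  rw [S.card_eq_index_normalizer] at hc
  have hS0 : (S : Subgroup G) ≠ ⊥ := S.ne_bot_of_dvd_card hsG
  have hle : (S : Subgroup G) ≤ A.normalCore := by
    intro x hx g
    obtain ⟨c, hc', y, hy, rfl⟩ := H93.exists_mul_of_coprime_index _ _ hc.symm g
    have h1 : y * x * y⁻¹ ∈ (S : Subgroup G) := (Subgroup.mem_normalizer_iff.mp hy x).mp hx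
    have h2 : c * y * x * (c * y)⁻¹ = c * (y * x * y⁻¹) * c⁻¹ := by group
    rw [h2]
    exact A.mul_mem (A.mul_mem hc' (hSA h1)) (A.inv_mem hc')
  rcases A.normalCore_normal.eq_bot_or_eq_top with h0 | h0
  · exact absurd (le_bot_iff.mp (h0 ▸ hle)) hS0
  · have : A = ⊤ := top_le_iff.mp (h0 ▸ A.normalCore_le)
    change A.index = 1
    rw [this, Subgroup.index_top]

theorem simple (G : Type u) [Group G] [Finite G] [IsSimpleGroup G]
    (h : ∀ (r : ℕ) [Fact r.Prime], Nat.card (Sylow r G) = 1 ∨ IsPrimePow (Nat.card (Sylow r G))) :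
    Group.IsSolvable G := by
  by_contra hns
  have hne : ∀ (r : ℕ) [Fact r.Prime], r ∣ Nat.card G → Nat.card (Sylow r G) ≠ 1 := by
    intro r hr hrG h1
    obtain ⟨R⟩ : Nonempty (Sylow r G) := inferInstance
    rw [R.card_eq_index_normalizer, Subgroup.index_eq_one] at h1
    have hn : (R : Subgroup G).Normal := Subgroup.normalizer_eq_top_iff.mp h1
    rcases hn.eq_bot_or_eq_top with h0 | h0
    · exact R.ne_bot_of_dvd_card hrG h0
    · have h2 : IsPGroup r G := by
        have := R.2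
        rw [show R.toSubgroup = ⊤ from h0] at this
        exact this.of_equiv Subgroup.topEquiv
      exact hns (H89.isSolvable_of_isPGroup hr.out h2)
  have hf : ∀ r : ℕ, r.Prime → r ∣ Nat.card G →
      ∃ s k : ℕ, s.Prime ∧ 0 < k ∧ s ∣ Nat.card G ∧ s ≠ r ∧ Nat.card (Sylow r G) = s ^ k := by
    intro r hr hrG
    have := Fact.mk hr
    obtain ⟨s, k, hs, hk, hsk⟩ := (isPrimePow_nat_iff _).mp ((h r).resolve_left (hne r hrG))
    have hd : s ∣ Nat.card (Sylow r G) := hsk ▸ dvd_pow_self s hk.ne'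
    obtain ⟨R⟩ : Nonempty (Sylow r G) := inferInstance
    refine ⟨s, k, hs, hk, hd.trans (R.card_dvd_index.trans (Subgroup.index_dvd_card _)), ?_,
      hsk.symm⟩
    rintro rfl
    exact not_dvd_card_sylow s G hd
  have hkey : ∀ r s a b j k : ℕ, r.Prime → s.Prime → a.Prime → b.Prime → r ∣ Nat.card G →
      s ∣ Nat.card G → Nat.card (Sylow r G) = a ^ j → Nat.card (Sylow s G) = b ^ k → a ≠ b →
      a = s := by
    intro r s a b j k hr hs ha hb hrG hsG h1 h2 hab
    have := Fact.mk hr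
    have := Fact.mk hs
    by_contra has
    refine hne r hrG (key hsG ?_ ?_)
    · rw [h1, h2]; exact Nat.Coprime.pow _ _ ((Nat.coprime_primes ha hb).mpr hab)
    · rw [h1]
      exact fun hd => has ((Nat.prime_dvd_prime_iff_eq hs ha).mp (hs.dvd_of_dvd_pow hd)).symm
  obtain ⟨r, hr, hrG⟩ := Nat.exists_prime_and_dvd (Finite.one_lt_card (α := G)).ne'
  obtain ⟨s, j, hs, -, hsG, hsr, hj⟩ := hf r hr hrG
  obtain ⟨t, k, ht, -, htG, hts, hk⟩ := hf s hs hsG
  have htr : t = r := hkey s r t s k j hs hr ht hs hsG hrG hk hj hts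
  subst htr
  refine hns (H1.isSolvable_of_two_primes hr hs fun v hv hvG => ?_)
  obtain ⟨w, l, hw, -, hwG, hwv, hl⟩ := hf v hv hvG
  by_cases hws : w = s
  · subst hws
    exact Or.inl (hkey w v t w k l hs hv ht hw hsG hvG hk hl hts).symm
  · exact Or.inr (hkey t v s w j l hr hv hs hw hrG hvG hj hl (Ne.symm hws)).symm

/-- If for every prime r the number of Sylow r-subgroups of the finite group G is a prime power or 1, then G is solvable. -/
theorem result {G : Type*} [Group G] [Finite G] (h : ∀ (r : ℕ) [Fact r.Prime], Nat.card (Sylow r G) = 1 ∨ IsPrimePow (Nat.card (Sylow r G))) :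
    Group.IsSolvable G := by
  refine H89.isSolvable_of_sections (fun G _ => ∀ (r : ℕ) [Fact r.Prime],
    Nat.card (Sylow r G) = 1 ∨ IsPrimePow (Nat.card (Sylow r G))) ?_ ?_ simple G h
  · intro G _ _ N _ h r _
    exact dvd_pp (card_sylow_normal_dvd r N) (h r)
  · intro G _ _ N _ h r _
    exact dvd_pp (H58.card_sylow_quotient_dvd N) (h r)

end Cfsg.Agent.S3933
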