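import Cfsg.Statements.S3939
import Cfsg.Agent.H90.Basic
import Cfsg.Agent.H8.Residual
import Cfsg.Agent.H3.Fitting
import Cfsg.Agent.H2.SchurZassenhaus
import Cfsg.Agent.H94.Basic

set_option autoImplicit false
open Cfsg

namespace Cfsg.Agent.S3939

universe u

theorem nilp_of_mem (n : ℕ) : ∀ (G : Type u) [Group G] (g x : G),
    g ∈ Subgroup.upperCentralSeries G n → Group.IsNilpotent ↥(Subgroup.closure ({x, g} : Set G)) := by
  induction n with
  | zero =>
    intro G _ g x hg
    rw [Subgroup.upperCentralSeries_zero, Subgroup.mem_bot] at hg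
    subst hg
    have : Subgroup.closure ({x, 1} : Set G) = Subgroup.zpowers x := by
      rw [Subgroup.zpowers_eq_closure]
      apply le_antisymm
      · rw [Subgroup.closure_le]
        rintro y (rfl | rfl)
        · exact Subgroup.subset_closure rfl
        · exact Subgroup.one_mem _
      · exact Subgroup.closure_mono (by simp)
    rw [this]
    exact H3.isNilpotent_of_isMulCommutative
  | succ n ih =>
    intro G _ g x hg
    rw [← Subgroup.comap_upperCentralSeries_quotient_center] at hg
    have h1 := ih _ _ (QuotientGroup.mk' (Subgroup.center G) x) hg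
    have h2 : (Subgroup.closure ({x, g} : Set G)).map (QuotientGroup.mk' (Subgroup.center G)) =
        Subgroup.closure {QuotientGroup.mk' (Subgroup.center G) x,
          QuotientGroup.mk' (Subgroup.center G) g} := by
      rw [MonoidHom.map_closure, Set.image_pair]
    rw [← h2] at h1
    refine Subgroup.isNilpotent_of_ker_le_center
      ((QuotientGroup.mk' (Subgroup.center G)).subgroupMap _) ?_
    intro y hy
    have hy' : (y : G) ∈ Subgroup.center G :=
      (QuotientGroup.eq_one_iff _).1 (congrArg Subtype.val hy)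
    rw [Subgroup.mem_center_iff] at hy' ⊢
    exact fun z => Subtype.ext (hy' z)

theorem center_ne_bot {G : Type*} [Group G] [Finite G] (g : G) (hg : g ≠ 1)
    (h : ∀ x : G, Group.IsNilpotent ↥(Subgroup.closure ({x, g} : Set G))) :
    Subgroup.center G ≠ ⊥ := by
  have hord : orderOf g ≠ 1 := fun h => hg (orderOf_eq_one_iff.1 h)
  obtain ⟨p, hp, hpd⟩ := Nat.exists_prime_and_dvd hord
  have : Fact p.Prime := ⟨hp⟩
  set a := g ^ (orderOf g / p) with ha
  have hap : orderOf a = p := orderOf_pow_orderOf_div (orderOf_pos g).ne' hpd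
  have hcomm : pResidual p G ≤ Subgroup.centralizer {a} := by
    rw [H8.pResidual_le_iff]
    intro x hx
    have := h x
    have h1 : Commute (⟨x, Subgroup.subset_closure (by simp)⟩ : Subgroup.closure ({x, g} : Set G))
        ⟨a, Subgroup.pow_mem _ (Subgroup.subset_closure (by simp)) _⟩ := by
      apply H90.commute_of_coprime_of_isNilpotent
      rw [Subgroup.orderOf_mk, Subgroup.orderOf_mk, hap]
      exact hx
    rw [Subgroup.mem_centralizer_singleton_iff]
    exact congrArg Subtype.val h1
  obtain ⟨P, haP⟩ := H94.exists_sylow_mem_of_orderOf (p := p) (k := 1) (g := a) (by rw [hap, pow_one])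
  have hR := H8.pResidual_normal p (G := G)
  set N := Subgroup.normalClosure ({a} : Set G) with hN
  have hNC : N ≤ Subgroup.centralizer (pResidual p G : Set G) := by
    apply Subgroup.normalClosure_le_normal
    rintro _ rfl
    exact Subgroup.le_centralizer_iff.1 (by rwa [Subgroup.zpowers_eq_closure, Subgroup.centralizer_closure])
      (Subgroup.mem_zpowers a)
  have hNP : N ≤ P := by
    rw [hN, Subgroup.normalClosure, Subgroup.closure_le]
    intro y hy
    obtain ⟨b, hb, hy⟩ := Group.mem_conjugatesOfSet_iff.1 hy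
    obtain rfl : b = a := hb
    obtain ⟨c, rfl⟩ := isConj_iff.1 hy
    obtain ⟨s, hs, r, hr, rfl⟩ := H8.exists_mul_pResidual_of_not_dvd_index P.not_dvd_index c
    have h1 : r * a = a * r := Subgroup.mem_centralizer_singleton_iff.1 (hcomm hr)
    have h2 : s * r * a * (s * r)⁻¹ = s * a * s⁻¹ := by
      rw [mul_assoc s r a, h1]; group
    rw [h2]
    exact (P : Subgroup G).mul_mem ((P : Subgroup G).mul_mem hs haP) ((P : Subgroup G).inv_mem hs)
  have hN0 : N.subgroupOf (P : Subgroup G) ≠ ⊥ := by
    intro h0
    have h1 : (⟨a, haP⟩ : (P : Subgroup G)) ∈ N.subgroupOf (P : Subgroup G) :=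
      Subgroup.subset_normalClosure (s := ({a} : Set G)) rfl
    rw [h0, Subgroup.mem_bot] at h1
    have h2 : a = 1 := congrArg Subtype.val h1
    rw [h2, orderOf_one] at hap
    exact hp.one_lt.ne hap
  have hnil := P.isPGroup'.isNilpotent
  obtain ⟨z, hz1, hz⟩ : ∃ z : (P : Subgroup G), z ≠ 1 ∧ z ∈ N.subgroupOf (P : Subgroup G) ⊓ Subgroup.center _ := by
    have := H3.inf_center_ne_bot (N.subgroupOf (P : Subgroup G)) hN0
    obtain ⟨⟨z, hz⟩, hz1⟩ := (Subgroup.ne_bot_iff_exists_ne_one).1 this
    exact ⟨z, fun h => hz1 (Subtype.ext h), hz⟩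
  intro h0
  have h1 : (z : G) ∈ Subgroup.center G := by
    rw [Subgroup.mem_center_iff]
    intro c
    obtain ⟨s, hs, r, hr, rfl⟩ := H8.exists_mul_pResidual_of_not_dvd_index P.not_dvd_index c
    have h1 : r * z = z * r := hNC hz.1 r hr
    have h2 : s * z = z * s := congrArg Subtype.val (Subgroup.mem_center_iff.1 hz.2 ⟨s, hs⟩)
    rw [mul_assoc, h1, ← mul_assoc, h2, mul_assoc]
  rw [h0, Subgroup.mem_bot] at h1
  exact hz1 (Subtype.ext h1)

theorem mem_of_nilp (m : ℕ) : ∀ (G : Type u) [Group G] [Finite G] (g : G), Nat.card G = m →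
    (∀ x : G, Group.IsNilpotent ↥(Subgroup.closure ({x, g} : Set G))) →
    ∃ n, g ∈ Subgroup.upperCentralSeries G n := by
  induction m using Nat.strong_induction_on with
  | _ m ih =>
  intro G _ _ g hm h
  by_cases hg : g = 1
  · exact ⟨0, hg ▸ Subgroup.one_mem _⟩
  obtain ⟨n, hn⟩ := ih _ (hm ▸ H2.card_quotient_lt_of_ne_bot (center_ne_bot g hg h))
    (G ⧸ Subgroup.center G) (QuotientGroup.mk' _ g) rfl (by
      intro x
      obtain ⟨x, rfl⟩ := QuotientGroup.mk'_surjective _ x
      have := h x
      rw [← Set.image_pair, ← MonoidHom.map_closure]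
      exact Group.nilpotent_of_surjective _ (MonoidHom.subgroupMap_surjective _ _))
  exact ⟨n + 1, by rwa [← Subgroup.comap_upperCentralSeries_quotient_center]⟩

/-- In a finite group G the set of elements g such that the subgroup generated by g and x is nilpotent for every x ∈ G is exactly the hypercenter of G (the last term of the upper central series). -/
theorem result {G : Type*} [Group G] [Finite G] (g : G) :
    (∀ x : G, Group.IsNilpotent ↥(Subgroup.closure ({x, g} : Set G))) ↔ g ∈ ⨆ n : ℕ, Subgroup.upperCentralSeries G n := by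
  constructor
  · intro h
    obtain ⟨n, hn⟩ := mem_of_nilp _ G g rfl h
    exact Subgroup.mem_iSup_of_mem n hn
  · intro h x
    rw [Subgroup.mem_iSup_of_directed (Subgroup.upperCentralSeries_mono G).directed_le] at h
    obtain ⟨n, hn⟩ := h
    exact nilp_of_mem n G g x hn

end Cfsg.Agent.S3939
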