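import Cfsg.Statements.S3941
import Cfsg.Agent.H90.Basic

set_option autoImplicit false
open Cfsg

namespace Cfsg.Agent.S3941

/-- Let n ≥ 5 and p an odd prime with p ≤ n, and suppose that every proper subgroup of the alternating group of degree n whose order is divisible by p has a normal Sylow p-subgroup. Then n = p. -/
theorem result (n p : ℕ) (hn : 5 ≤ n) [Fact p.Prime] (hp : p ≠ 2) (hpn : p ≤ n)
    (h : ∀ H : Subgroup ↥(alternatingGroup (Fin n)), H ≠ ⊤ → p ∣ Nat.card ↥H → Cfsg.IsPClosed p ↥H) : n = p := by
  by_contra hne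
  have hlt : p < n := lt_of_le_of_ne hpn (Ne.symm hne)
  have hpp : p.Prime := Fact.out
  rcases (show n = 5 ∨ 6 ≤ n by omega) with rfl | hn6
  · have hp3 : p = 3 := by
      have := hpp.two_le
      interval_cases p
      · omega
      · rfl
      · exact absurd hpp (by norm_num)
    subst hp3
    let H := MulAction.stabilizer (alternatingGroup (Fin 5)) (0 : Fin 5)
    let a : H := ⟨⟨Equiv.swap 1 2 * Equiv.swap 2 3, Equiv.Perm.mem_alternatingGroup.2 (by decide)⟩, by
      rw [MulAction.mem_stabilizer_iff]; decide⟩
    let b : H := ⟨⟨Equiv.swap 2 4 * Equiv.swap 1 4, Equiv.Perm.mem_alternatingGroup.2 (by decide)⟩, by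
      rw [MulAction.mem_stabilizer_iff]; decide⟩
    have ha : a ^ 3 ^ 1 = 1 := by decide
    have hb : b ^ 3 ^ 1 = 1 := by decide
    have hH : H ≠ ⊤ := by
      intro ht
      have : (⟨Equiv.swap 0 2 * Equiv.swap 2 3, Equiv.Perm.mem_alternatingGroup.2 (by decide)⟩ : alternatingGroup (Fin 5)) ∈ H :=
        ht ▸ Subgroup.mem_top _
      rw [MulAction.mem_stabilizer_iff] at this
      exact absurd this (by decide)
    have hd : 3 ∣ Nat.card H := by
      have := orderOf_dvd_natCard a
      rwa [orderOf_eq_prime (p := 3) ha (by decide)] at this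
    let P : Sylow 3 H := Sylow.nonempty.some
    have hP : (P : Subgroup H).Normal := h H hH hd P
    have h1 := (P : Subgroup H).mul_mem
      (H90.mem_sylow_of_mem_normalizer P ha
        ((Subgroup.normalizer_eq_top_iff.2 hP).ge (Subgroup.mem_top _)))
      (H90.mem_sylow_of_mem_normalizer P hb
        ((Subgroup.normalizer_eq_top_iff.2 hP).ge (Subgroup.mem_top _)))
    have hab : a * b ≠ 1 := by decide
    have h2 := P.isPGroup'.dvd_orderOf (g := ⟨_, h1⟩) 
      (fun h => hab (congrArg Subtype.val h))
    rw [Subgroup.orderOf_mk, orderOf_eq_prime (p := 2) (by decide) (by decide)] at h2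
    omega
  · classical
    let s : Finset (Fin n) := Finset.univ.erase ⟨0, by omega⟩
    have hs : Nat.card s = n - 1 := by simp [s]
    have : Nontrivial s := Finite.one_lt_card_iff_nontrivial.1 (by omega)
    have : Nontrivial (Fin n) := Fin.nontrivial_iff_two_le.2 (by omega)
    have hc := two_mul_nat_card_alternatingGroup (α := s)
    rw [Nat.card_perm, hs] at hc
    let e := MonoidHom.ofInjective (alternatingGroup.ofSubtype_injective (s := s))
    have hH : (alternatingGroup.ofSubtype s).range ≠ ⊤ := by
      intro ht
      have h1 := Nat.card_congr e.toEquiv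
      have h2 := two_mul_nat_card_alternatingGroup (α := Fin n)
      rw [ht, Subgroup.card_top] at h1
      rw [← h1, hc, Nat.card_perm, Nat.card_eq_fintype_card, Fintype.card_fin] at h2
      have := Nat.factorial_lt (n := n - 1) (m := n) (by omega) |>.2 (by omega)
      omega
    have hd : p ∣ Nat.card (alternatingGroup s) := by
      have h1 : p ∣ 2 * Nat.card (alternatingGroup s) := by
        rw [hc]; exact hpp.dvd_factorial.2 (by omega)
      exact ((Nat.coprime_primes hpp Nat.prime_two).2 hp).dvd_of_dvd_mul_left h1
    let P : Sylow p (alternatingGroup s) := Sylow.nonempty.some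
    have hQ := h _ hH (by rwa [← Nat.card_congr e.toEquiv]) (P.mapSurjective
      (f := e.toMonoidHom) e.surjective)
    have hP : (P : Subgroup (alternatingGroup s)).Normal := by
      have : (((P : Subgroup (alternatingGroup s)).map e.toMonoidHom).comap
        e.toMonoidHom).Normal := hQ.comap e.toMonoidHom
      rwa [Subgroup.comap_map_eq_self_of_injective (f := e.toMonoidHom) e.injective] at this
    have := alternatingGroup.isSimpleGroup (α := s) (by omega)
    rcases hP.eq_bot_or_eq_top with h1 | h1
    · exact P.ne_bot_of_dvd_card hd h1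
    · obtain ⟨k, hk⟩ := IsPGroup.iff_card.1 P.isPGroup'
      rw [h1, Subgroup.card_top] at hk
      have h2 : 2 * 2 ∣ 2 * p ^ k := by
        rw [← hk, hc]
        exact (by decide : 2 * 2 ∣ Nat.factorial 4).trans (Nat.factorial_dvd_factorial (by omega))
      have h3 := Nat.prime_two.dvd_of_dvd_pow (Nat.dvd_of_mul_dvd_mul_left (by norm_num) h2)
      exact hp ((Nat.prime_dvd_prime_iff_eq Nat.prime_two hpp).1 h3).symm

end Cfsg.Agent.S3941
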