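import Cfsg.Statements.S3982
import Cfsg.Agent.H8.SylowIn
import Cfsg.Agent.H4.CoprimeAction
import Cfsg.Agent.H3.Cores

set_option autoImplicit false
open Cfsg

namespace Cfsg.Agent.S3982

/-- Let p be an odd prime and G a finite group of even order divisible by p in which the centralizer of every non-identity p-element has odd order. If some nontrivial p-subgroup of G has a normalizer of even order, then the normalizer of every Sylow p-subgroup of G has even order. -/
theorem result {G : Type*} [Group G] [Finite G] (p : ℕ) [Fact p.Prime] (hp2 : p ≠ 2) (hpG : p ∣ Nat.card G) (h2G : 2 ∣ Nat.card G) (hC : ∀ g : G, g ≠ 1 → (∃ k : ℕ, orderOf g = p ^ k) → Odd (Nat.card ↥(Subgroup.centralizer ({g} : Set G)))) (Q : Subgroup G) (hQ : IsPGroup p ↥Q) (hQ1 : Q ≠ ⊥) (hev : Even (Nat.card ↥(Subgroup.normalizer (Q : Set G)))) (P : Sylow p G) : Even (Nat.card ↥(Subgroup.normalizer ((P : Subgroup G) : Set G))) := by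
  classical
  have hp : p.Prime := Fact.out
  haveI : Fact (Nat.Prime 2) := ⟨Nat.prime_two⟩
  obtain ⟨⟨y, hyQ⟩, hy'⟩ := exists_prime_orderOf_dvd_card' 2 (even_iff_two_dvd.mp hev)
  have hy : orderOf y = 2 := by rw [← hy', Subgroup.orderOf_mk]
  have hyy : y * y = 1 := by rw [← pow_two, ← hy, pow_orderOf_eq_one]
  have hyi : y⁻¹ = y := inv_eq_of_mul_eq_one_right hyy
  obtain ⟨R, ⟨hR, hQR, hyR⟩, hmax⟩ := exists_maximal_of_wellFoundedGT
    (fun R : Subgroup G => IsPGroup p R ∧ Q ≤ R ∧ y ∈ Subgroup.normalizer (R : Set G))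
    ⟨Q, hQ, le_rfl, hyQ⟩
  have hR1 : R ≠ ⊥ := fun h => hQ1 (le_bot_iff.mp (h ▸ hQR))
  have hord : ∀ r ∈ R, ∃ k, orderOf r = p ^ k := by
    intro r hr
    obtain ⟨k, hk⟩ := IsPGroup.iff_orderOf.mp hR ⟨r, hr⟩
    exact ⟨k, by rw [← hk, Subgroup.orderOf_mk]⟩
  have hfpf : ∀ r ∈ R, y * r = r * y → r = 1 := by
    intro r hr hyr
    by_contra hne
    have h1 := hC r hne (hord r hr)
    have h2 : y ∈ Subgroup.centralizer ({r} : Set G) :=
      Subgroup.mem_centralizer_singleton_iff.mpr hyr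
    have h3 := Subgroup.orderOf_dvd_natCard _ h2
    rw [hy] at h3
    exact (Nat.not_even_iff_odd.mpr h1) (even_iff_two_dvd.mpr h3)
  have hyconj : ∀ r ∈ R, y * r * y⁻¹ ∈ R := fun r hr =>
    (Subgroup.mem_normalizer_iff.mp hyR r).mp hr
  -- y inverts R
  have hinv : ∀ r ∈ R, y * r * y⁻¹ = r⁻¹ := by
    let f : R → R := fun r => ⟨(r : G)⁻¹ * (y * r * y⁻¹), mul_mem (inv_mem r.2) (hyconj r r.2)⟩
    have hf : Function.Injective f := by
      intro a b hab
      have h1 : (a : G)⁻¹ * (y * a * y⁻¹) = (b : G)⁻¹ * (y * b * y⁻¹) := congrArg Subtype.val hab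
      have h2 : (b : G) * (a : G)⁻¹ = 1 := by
        apply hfpf _ (mul_mem b.2 (inv_mem a.2))
        calc y * (b * (a : G)⁻¹) = b * ((b : G)⁻¹ * (y * b * y⁻¹)) * y * (a : G)⁻¹ := by group
          _ = b * (a : G)⁻¹ * y := by rw [← h1]; group
      exact Subtype.ext (mul_inv_eq_one.mp h2).symm
    intro r hr
    obtain ⟨a, ha⟩ := Finite.injective_iff_surjective.mp hf ⟨r, hr⟩
    have h1 : (a : G)⁻¹ * (y * a * y⁻¹) = r := congrArg Subtype.val ha
    rw [← h1]
    calc y * ((a : G)⁻¹ * (y * a * y⁻¹)) * y⁻¹ = y * (a : G)⁻¹ * y * a * (y * y)⁻¹ := by group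
      _ = ((a : G)⁻¹ * (y⁻¹ * a * y⁻¹))⁻¹ := by rw [hyy]; group
      _ = _ := by rw [hyi]
  let C := Subgroup.centralizer (R : Set G)
  have hCodd : Odd (Nat.card C) := by
    obtain ⟨⟨r, hr⟩, hr1⟩ := Subgroup.ne_bot_iff_exists_ne_one.mp hR1
    have h1 := hC r (fun h => hr1 (Subtype.ext h)) (hord r hr)
    exact h1.of_dvd_nat (Subgroup.card_dvd_of_le
      (Subgroup.centralizer_le (Set.singleton_subset_iff.mpr hr)))
  have hRC : R ≤ C := by
    intro a ha b hb
    have h1 := hinv _ (mul_mem ha hb)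
    have h2 : y * (a * b) * y⁻¹ = (y * a * y⁻¹) * (y * b * y⁻¹) := by group
    rw [h2, hinv a ha, hinv b hb] at h1
    calc b * a = (a⁻¹ * b⁻¹)⁻¹ := by group
      _ = a * b := by rw [h1, inv_inv]
  -- R is a Sylow subgroup
  obtain ⟨S, hRS⟩ := hR.exists_le_sylow
  have hRS' : R = S := by
    by_contra hne
    obtain ⟨x, ⟨hxS, hxN⟩, hxR⟩ := SetLike.exists_of_lt
      (H8.lt_inf_normalizer_of_lt S.isPGroup' (lt_of_le_of_ne hRS hne))
    have hxp : IsPGroup p (Subgroup.zpowers x) := S.isPGroup'.to_le (Subgroup.zpowers_le.mpr hxS)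
    have hxle : Subgroup.zpowers x ≤ Subgroup.normalizer (R : Set G) := by simpa using hxN
    have hxC : Subgroup.zpowers x ≤ Subgroup.normalizer (C : Set G) :=
      H4.le_normalizer_centralizer hxle
    let D : Subgroup G := Subgroup.zpowers x ⊔ C
    have hDodd : Odd (Nat.card D) := by
      refine Odd.of_dvd_nat ?_ (H3.card_sup_dvd_of_le_normalizer hxC)
      refine Odd.mul ?_ hCodd
      obtain ⟨k, hk⟩ := IsPGroup.iff_card.mp hxp
      rw [hk]
      exact (hp.odd_of_ne_two hp2).pow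
    have hyD : Subgroup.zpowers y ≤ Subgroup.normalizer (D : Set G) := by
      rw [Subgroup.zpowers_le]
      apply H8.mem_normalizer_of_conj_smul_le
      rw [Subgroup.smul_sup]
      refine sup_le ?_ ?_
      · rw [← H8.map_conj_eq_smul, MonoidHom.map_zpowers, Subgroup.zpowers_le]
        change y * x * y⁻¹ ∈ _
        have : y * x * y⁻¹ = x * (x⁻¹ * (y * x * y⁻¹)) := by group
        rw [this]
        refine mul_mem (Subgroup.mem_sup_left (Subgroup.mem_zpowers x)) (Subgroup.mem_sup_right ?_)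
        intro r hr
        have hr' : y⁻¹ * r * y = r⁻¹ := by
          have := hinv r hr
          rw [hyi] at this ⊢; exact this
        have h1 : x * r⁻¹ * x⁻¹ ∈ R := (Subgroup.mem_normalizer_iff.mp hxN _).mp (inv_mem hr)
        have h2 := hinv _ h1
        calc r * (x⁻¹ * (y * x * y⁻¹)) = x⁻¹ * (x * r⁻¹ * x⁻¹)⁻¹ * y * x * y⁻¹ := by group
          _ = x⁻¹ * y * x * (y⁻¹ * r * y) * y⁻¹ := by rw [← h2, hr']; group
          _ = x⁻¹ * (y * x * y⁻¹) * r := by group
      · rw [H8.mem_normalizer_iff_conj_smul_eq.mp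
          (H4.normalizer_le_normalizer_centralizer _ hyR)]
        exact le_sup_right
    obtain ⟨T, hT1, hT2⟩ := H4.exists_invariant_sylow_ge (p := p) hyD
      (by rw [Nat.card_zpowers, hy]; exact Nat.coprime_two_left.mpr hDodd)
      (Or.inl (H4.isSolvable_of_isMulCommutative _)) (hRC.trans le_sup_right) hR
      (by simpa using hyR)
    have hTs := H8.isSylowIn_map_subtype T
    have hTR := hmax ⟨hTs.isPGroup, hQR.trans hT1, hT2 (Subgroup.mem_zpowers y)⟩ hT1
    have hTR' : (T : Subgroup D).map D.subtype = R := le_antisymm hTR hT1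
    rw [hTR'] at hTs
    exact hxR (hTs.le_of_le_normalizer' hxp le_sup_left hxle (Subgroup.mem_zpowers x))
  obtain ⟨g, rfl⟩ := MulAction.exists_smul_eq G S P
  rw [Sylow.coe_subgroup_smul, H8.normalizer_conj_smul, H8.card_conj_smul, ← hRS',
    even_iff_two_dvd, ← hy]
  exact Subgroup.orderOf_dvd_natCard _ hyR

end Cfsg.Agent.S3982
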