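import Cfsg.Statements.S3985
import Cfsg.Agent.H93.TISylow

set_option autoImplicit false
open scoped Pointwise
open Cfsg

namespace Cfsg.Agent.S3985

/-- Let P be a cyclic Sylow p-subgroup of the finite group G. Then P meets each conjugate g P g⁻¹ with g outside N_G(P) trivially if and only if P is weakly self-centralizing: C_G(x) = C_G(P) for every non-identity x ∈ P. -/
theorem result {G : Type*} [Group G] [Finite G] (p : ℕ) [Fact p.Prime] (P : Sylow p G) (hcyc : IsCyclic ↥(P : Subgroup G)) : (∀ g : G, g ∉ Subgroup.normalizer ((P : Subgroup G) : Set G) → (P : Subgroup G) ⊓ (MulAut.conj g • (P : Subgroup G)) = ⊥) ↔ ∀ x : G, x ∈ (P : Subgroup G) → x ≠ 1 → Subgroup.centralizer ({x} : Set G) = Subgroup.centralizer ((P : Subgroup G) : Set G) := by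
  have hp : p.Prime := Fact.out
  haveI : IsMulCommutative (P : Subgroup G) := hcyc.isMulCommutative
  have hPC : (P : Subgroup G) ≤ Subgroup.centralizer ((P : Subgroup G) : Set G) :=
    Subgroup.le_centralizer _
  rw [H93.tiSylow_iff]
  constructor
  · intro h x hx hx1
    refine le_antisymm ?_ (Subgroup.centralizer_le (Set.singleton_subset_iff.mpr hx))
    intro c hc
    rw [Subgroup.mem_centralizer_singleton_iff] at hc
    have hcN : c ∈ Subgroup.normalizer ((P : Subgroup G) : Set G) := by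
      refine Sylow.smul_eq_iff_mem_normalizer.mp (h P (c • P) ?_).symm
      intro h0
      apply hx1
      rw [← Subgroup.mem_bot, ← h0]
      refine ⟨hx, ?_⟩
      change x ∈ MulAut.conj c • (P : Subgroup G)
      rw [H8.mem_conj_smul, mul_assoc, ← hc, inv_mul_cancel_left]
      exact hx
    obtain ⟨g, hg⟩ := hcyc.exists_monoid_generator
    obtain ⟨n, hn⟩ := IsPGroup.iff_orderOf.mp P.isPGroup' g
    have hgP : c * g * c⁻¹ ∈ (P : Subgroup G) := (Subgroup.mem_normalizer_iff.mp hcN g).mp g.2
    obtain ⟨k, hk⟩ := hg ⟨_, hgP⟩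
    obtain ⟨j, hj⟩ := hg ⟨x, hx⟩
    have hk' : (g : G) ^ k = c * g * c⁻¹ := congrArg Subtype.val hk
    have hj' : (g : G) ^ j = x := congrArg Subtype.val hj
    have hn' : orderOf (g : G) = p ^ n := by rw [Subgroup.orderOf_coe, hn]
    have h1 : (g : G) ^ (k * j) = (g : G) ^ j := by
      rw [pow_mul, hk', conj_pow, hj', hc, mul_inv_cancel_right]
    rw [pow_eq_pow_iff_modEq, hn'] at h1
    have h2 : (p : ℤ) ∣ (k : ℤ) - 1 := by
      by_contra hnd
      have h3 : ((p ^ n : ℕ) : ℤ) ∣ ((k : ℤ) - 1) * j := by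
        have := (Nat.modEq_iff_dvd.mp h1.symm)
        convert this using 1
        push_cast; ring
      have h4 : IsCoprime ((p : ℤ) ^ n) ((k : ℤ) - 1) :=
        ((Nat.prime_iff_prime_int.mp hp).coprime_iff_not_dvd.mpr hnd).pow_left
      have h5 : ((p ^ n : ℕ) : ℤ) ∣ (j : ℤ) := by
        push_cast at h3 ⊢
        exact h4.dvd_of_dvd_mul_left h3
      apply hx1
      rw [← hj', ← orderOf_dvd_iff_pow_eq_one, hn']
      exact Int.natCast_dvd_natCast.mp h5
    have h3 : ((p : ℤ) ^ (n + 1)) ∣ (k : ℤ) ^ (p ^ n) - 1 ^ (p ^ n) := dvd_sub_pow_of_dvd_sub h2 n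
    have h4 : ∀ m : ℕ, c ^ m * g * (c ^ m)⁻¹ = (g : G) ^ (k ^ m) := by
      intro m
      induction m with
      | zero => simp
      | succ m ih =>
        calc c ^ (m + 1) * g * (c ^ (m + 1))⁻¹ = c * (c ^ m * g * (c ^ m)⁻¹) * c⁻¹ := by
              rw [pow_succ']; group
          _ = (c * g * c⁻¹) ^ (k ^ m) := by rw [ih, conj_pow]
          _ = _ := by rw [← hk', ← pow_mul, ← pow_succ']
    have h5 : (g : G) ^ (k ^ (p ^ n)) = g := by
      conv_rhs => rw [← pow_one (g : G)]
      rw [pow_eq_pow_iff_modEq, hn']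
      symm
      rw [Nat.modEq_iff_dvd]
      push_cast
      rw [one_pow] at h3
      exact (pow_dvd_pow _ (Nat.le_succ n)).trans h3
    have h6 : c ^ (p ^ n) ∈ Subgroup.centralizer ((P : Subgroup G) : Set G) := by
      intro y hy
      obtain ⟨i, hi⟩ := hg ⟨y, hy⟩
      have hi' : (g : G) ^ i = y := congrArg Subtype.val hi
      have h7 := h4 (p ^ n)
      rw [h5, mul_inv_eq_iff_eq_mul] at h7
      rw [← hi']
      exact ((show Commute (c ^ p ^ n) (g : G) from h7).pow_right i).symm
    let m := (Subgroup.centralizer ((P : Subgroup G) : Set G)).relIndex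
      (Subgroup.normalizer ((P : Subgroup G) : Set G))
    have h7 : c ^ m ∈ Subgroup.centralizer ((P : Subgroup G) : Set G) :=
      ((Subgroup.centralizer ((P : Subgroup G) : Set G)).subgroupOf
        (Subgroup.normalizer ((P : Subgroup G) : Set G))).pow_index_mem ⟨c, hcN⟩
    have h8 : ¬ p ∣ m := by
      intro hd
      apply P.not_dvd_index
      exact (hd.trans (Subgroup.relIndex_dvd_index_of_le
        (Subgroup.centralizer_le_normalizer _))).trans (Subgroup.index_dvd_of_le hPC)
    have h9 : (p ^ n).Coprime m := (hp.coprime_iff_not_dvd.mpr h8).pow_left n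
    have h10 := Nat.gcd_eq_gcd_ab (p ^ n) m
    rw [h9] at h10
    have : c = (c ^ (p ^ n)) ^ (Nat.gcdA (p ^ n) m) * (c ^ m) ^ (Nat.gcdB (p ^ n) m) := by
      rw [← zpow_natCast, ← zpow_natCast, ← zpow_mul, ← zpow_mul, ← zpow_add, ← h10]; simp
    rw [this]
    exact mul_mem (zpow_mem h6 _) (zpow_mem h7 _)
  · intro h
    rw [← H93.tiSylow_iff P]
    intro g hg
    by_contra hne
    apply hg
    obtain ⟨⟨x, hxP, hxg⟩, hx1⟩ := (Subgroup.ne_bot_iff_exists_ne_one).mp hne
    have hx1' : x ≠ 1 := fun h => hx1 (Subtype.ext h)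
    have hle : MulAut.conj g • (P : Subgroup G) ≤ Subgroup.normalizer (P : Set G) := by
      refine le_trans ?_ (Subgroup.centralizer_le_normalizer _)
      change _ ≤ Subgroup.centralizer ((P : Subgroup G) : Set G)
      rw [← h x hxP hx1']
      intro y hy
      rw [Subgroup.mem_centralizer_singleton_iff]
      have h1 := hPC (H8.mem_conj_smul.mp hy) _ (H8.mem_conj_smul.mp hxg)
      calc y * x = g * ((g⁻¹ * y * g) * (g⁻¹ * x * g)) * g⁻¹ := by group
        _ = x * y := by rw [← h1]; group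
    have h2 := (H8.isPGroup_conj_smul P.isPGroup' g).inf_normalizer_sylow P
    rw [inf_eq_left.mpr hle] at h2
    exact H8.mem_normalizer_of_conj_smul_le (h2.trans_le inf_le_right)

end Cfsg.Agent.S3985
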