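import Cfsg.Statements.S3986
import Cfsg.Agent.H92.Direct

set_option autoImplicit false
open Cfsg

namespace Cfsg.Agent.S3986

open Cfsg.Agent.H92



/-- Let p be a prime and G a finite group. Then some Sylow p-subgroup of G is a direct factor of G (it is normal and has a normal complement) if and only if every element of p-power order commutes with every element whose order is a power of a prime other than p. -/
theorem result {G : Type*} [Group G] [Finite G] (p : ℕ) [Fact p.Prime] : (∃ (P : Sylow p G) (K : Subgroup G), (P : Subgroup G).Normal ∧ K.Normal ∧ (P : Subgroup G) ⊓ K = ⊥ ∧ (P : Subgroup G) ⊔ K = ⊤) ↔ ∀ x y : G, (∃ a : ℕ, orderOf x = p ^ a) → (∃ q b : ℕ, q.Prime ∧ q ≠ p ∧ orderOf y = q ^ b) → x * y = y * x := by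
  have hp : p.Prime := Fact.out
  constructor
  · rintro ⟨P, K, hP, hK, hinf, hsup⟩ x y hx ⟨q, b, hq, hqp, hy⟩
    have hxP : x ∈ (P : Subgroup G) := mem_sylow_of_normal P hx
    have hyK : y ∈ K := by
      apply H8.mem_of_coprime_orderOf_index
      have h1 := Subgroup.relIndex_sup_right (P : Subgroup G) K
      rw [hsup, Subgroup.relIndex_top_right] at h1
      rw [h1]
      refine Nat.Coprime.coprime_dvd_right (Subgroup.relIndex_dvd_card _ _) ?_
      exact coprime_of_pow_of_pow hq hp hqp ⟨b, hy⟩ P.isPGroup'.exists_card_eq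
    exact Subgroup.commute_of_normal_of_disjoint _ _ hP hK (disjoint_iff.2 hinf) x y hxP hyK
  · intro h
    obtain ⟨P⟩ : Nonempty (Sylow p G) := inferInstance
    have h1 : (P : Subgroup G) ⊔ Subgroup.centralizer ((P : Subgroup G) : Set G) = ⊤ := by
      apply sup_centralizer_eq_top_of_not_dvd_cs
      intro x hx
      apply not_dvd_index_of_sylow_le P
      rw [le_C_iff]
      apply mem_of_forall_primePow
      rintro y - q hq hqx ⟨k, hk⟩
      rw [Subgroup.mem_centralizer_iff]
      intro u hu
      exact h u y (orderOf_eq_pow_of_mem P.isPGroup' hu) ⟨q, k, hq, fun e => hx (e ▸ hqx), hk⟩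
    obtain ⟨hP, H, hH, hc, -⟩ := sylow_direct_of_sup_centralizer P h1
    exact ⟨P, H, hP, hH, disjoint_iff.1 hc.symm.disjoint, hc.symm.sup_eq_top⟩

end Cfsg.Agent.S3986
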