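import Cfsg.Statements.S3987
import Cfsg.Agent.H92.Direct
import Cfsg.Agent.S3986

set_option autoImplicit false
open Cfsg

namespace Cfsg.Agent.S3987

open Cfsg.Agent.H92

theorem commute_of_cs_mul {G : Type*} [Group G] [Finite G] {x y : G}
    (h : cs[x * y] = cs[x] * cs[y]) : x * y = y * x := by
  let S : Set (G × G) := conjSet ⊤ x ×ˢ conjSet ⊤ y
  have h1 : conjSet ⊤ (x * y) ⊆ (fun z : G × G => z.1 * z.2) '' S := by
    rintro _ ⟨g, -, rfl⟩
    exact ⟨(g * x * g⁻¹, g * y * g⁻¹), ⟨⟨g, trivial, rfl⟩, ⟨g, trivial, rfl⟩⟩, by group⟩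
  have h2 : S.ncard = (conjSet ⊤ (x * y)).ncard := by
    rw [Set.ncard_prod]
    exact (congrArg₂ (· * ·) (card_conjSet_top x) (card_conjSet_top y)).trans
      (h.symm.trans (card_conjSet_top (x * y)).symm)
  have h3 := Set.injOn_of_ncard_image_eq (le_antisymm (Set.ncard_image_le (s := S))
    (h2.le.trans (Set.ncard_le_ncard h1)))
  have h4 := @h3 (y * x * y⁻¹, y) ⟨⟨y, trivial, rfl⟩, self_mem_conjSet _ _⟩
    (x, x⁻¹ * y * x) ⟨self_mem_conjSet _ _, ⟨x⁻¹, trivial, by group⟩⟩ (by group)
  have h5 : y * x * y⁻¹ = x := congrArg Prod.fst h4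
  rw [mul_inv_eq_iff_eq_mul] at h5
  exact h5.symm

/-- Let p be a prime and G a finite group. Then some Sylow p-subgroup of G is a direct factor of G (normal with a normal complement) if and only if for every element x of p-power order and every element y whose order is a power of a prime other than p, the conjugacy class of x y has as many elements as the product of the sizes of the classes of x and of y. -/
theorem result {G : Type*} [Group G] [Finite G] (p : ℕ) [Fact p.Prime] : (∃ (P : Sylow p G) (K : Subgroup G), (P : Subgroup G).Normal ∧ K.Normal ∧ (P : Subgroup G) ⊓ K = ⊥ ∧ (P : Subgroup G) ⊔ K = ⊤) ↔ ∀ x y : G, (∃ a : ℕ, orderOf x = p ^ a) → (∃ q b : ℕ, q.Prime ∧ q ≠ p ∧ orderOf y = q ^ b) → (Subgroup.centralizer ({x * y} : Set G)).index = (Subgroup.centralizer ({x} : Set G)).index * (Subgroup.centralizer ({y} : Set G)).index := by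
  have hp : p.Prime := Fact.out
  constructor
  · rintro ⟨P, K, hP, hK, hinf, hsup⟩ x y hx ⟨q, b, hq, hqp, hy⟩
    have hc := (S3986.result p).1 ⟨P, K, hP, hK, hinf, hsup⟩
    have hxy : Commute x y := hc x y hx ⟨q, b, hq, hqp, hy⟩
    rw [C_mul_of_coprime hxy (coprime_of_pow_of_pow hp hq hqp.symm hx ⟨b, hy⟩)]
    apply H1.index_inf_of_coprime
    apply coprime_of_pow_of_not_dvd hp
    · have h1 := Subgroup.relIndex_sup_right (P : Subgroup G) K
      rw [hsup, Subgroup.relIndex_top_right] at h1
      have h2 : K ≤ Ce[x] := fun u hu => mem_C'.2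
        (Subgroup.commute_of_normal_of_disjoint _ _ hP hK (disjoint_iff.2 hinf) x u
          (mem_sylow_of_normal P hx) hu)
      exact eq_pow_of_dvd hp ((Subgroup.index_dvd_of_le h2).trans
        (h1 ▸ Subgroup.relIndex_dvd_card _ _)) P.isPGroup'.exists_card_eq
    · apply not_dvd_index_of_sylow_le P
      intro u hu
      exact mem_C.2 (hc u y (orderOf_eq_pow_of_mem P.isPGroup' hu) ⟨q, b, hq, hqp, hy⟩)
  · intro h
    exact (S3986.result p).2 fun x y hx hy => commute_of_cs_mul (h x y hx hy)

end Cfsg.Agent.S3987
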