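import Cfsg.Statements.S3989
import Cfsg.Agent.H1.Npc
import Cfsg.Agent.H1.Nilp
import Cfsg.Agent.H92.Isol
import Cfsg.Agent.H24.PSolv
import Cfsg.Agent.H3.Fitting

set_option autoImplicit false
open Cfsg

namespace Cfsg.Agent.S3989

universe u

/-- left stabilizer of a conjugacy class -/
def stab {G : Type*} [Group G] [Finite G] (y : G) : Subgroup G where
  carrier := {g | ∀ w, IsConj y w → IsConj y (g * w)}
  one_mem' := by intro w hw; simpa using hw
  mul_mem' := by
    intro a b ha hb w hw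
    rw [mul_assoc]
    exact ha _ (hb _ hw)
  inv_mem' := by
    intro a ha w hw
    have hpow : ∀ n : ℕ, IsConj y (a ^ n * w) := by
      intro n
      induction n with
      | zero => simpa using hw
      | succ n ih => rw [pow_succ', mul_assoc]; exact ha _ ih
    have h1 : a⁻¹ = a ^ (orderOf a - 1) := by
      rw [inv_eq_iff_mul_eq_one, ← pow_succ', Nat.sub_add_cancel (orderOf_pos a), pow_orderOf_eq_one]
    rw [h1]; exact hpow _

theorem stab_normal {G : Type*} [Group G] [Finite G] (y : G) : (stab y).Normal := by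
  refine ⟨fun a ha g w hw => ?_⟩
  have h1 : IsConj y (g⁻¹ * w * g) := hw.trans (isConj_iff.mpr ⟨g⁻¹, by group⟩)
  exact (ha _ h1).trans (isConj_iff.mpr ⟨g, by group⟩)

theorem main (p : ℕ) [hp : Fact p.Prime] (G : Type u) [Group G] [Finite G] :
    (∀ x y : G, (∃ a : ℕ, orderOf x = p ^ a) →
      (∃ q b : ℕ, q.Prime ∧ q ≠ p ∧ orderOf y = q ^ b) →
        ∀ b : G, IsConj (x * y) (x * (b * y * b⁻¹))) → Cfsg.IsPSolvable p G := by
  refine H1.card_induction (P := fun G _ _ => (∀ x y : G, (∃ a : ℕ, orderOf x = p ^ a) →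
      (∃ q b : ℕ, q.Prime ∧ q ≠ p ∧ orderOf y = q ^ b) →
        ∀ b : G, IsConj (x * y) (x * (b * y * b⁻¹))) → Cfsg.IsPSolvable p G) ?_ G
  intro G _ _ ih h
  rcases subsingleton_or_nontrivial G with hG | hG
  · exact H24.isPSolvable_of_isSolvable hp.out G inferInstance
  obtain ⟨M, hMn, hM0, hmin⟩ := H3.exists_minimal_normal G
  have hq : Cfsg.IsPSolvable p (G ⧸ M) := by
    refine ih _ (H1.card_quotient_lt hM0) ?_
    rintro x y hx ⟨q, b, hq, hqp, hy⟩ c
    obtain ⟨x, rfl, hx'⟩ := H92.exists_p_lift (QuotientGroup.mk'_surjective M) hp.out hx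
    obtain ⟨y, rfl, b', hy'⟩ := H92.exists_p_lift (QuotientGroup.mk'_surjective M) hq ⟨b, hy⟩
    obtain ⟨c, rfl⟩ := QuotientGroup.mk'_surjective M c
    have := (QuotientGroup.mk' M).map_isConj (h x y hx' ⟨q, b', hq, hqp, hy'⟩ c)
    simpa only [map_mul, map_inv] using this
  refine H24.isPSolvable_of_normal_of_quotient M ?_ hq
  by_contra hcon
  push Not at hcon
  obtain ⟨h1, h2⟩ := hcon
  have hnpc : ¬ Cfsg.HasNormalPComplement p M := by
    intro hn
    have := H3.pPrimeCore_characteristic p M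
    have := H3.normal_map_subtype_of_characteristic M (Cfsg.pPrimeCore p M)
    rcases hmin _ this (Subgroup.map_subtype_le _) with h0 | h0
    · have h3 : Cfsg.pPrimeCore p M = ⊥ := by
        rwa [Subgroup.map_eq_bot_iff_of_injective _ M.subtype_injective] at h0
      obtain ⟨m, hm⟩ := IsPGroup.iff_card.mp (H1.isPGroup_of_npc_of_core hn h3)
      exact h1 m hm
    · apply h2
      rw [← h0, H3.card_map_subtype]
      exact H3.pPrimeCore_coprime p M
  obtain ⟨P⟩ : Nonempty (Sylow p M) := inferInstance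
  obtain ⟨Q, hQP, g, hg, hc, hn⟩ := H8.exists_not_centralizes_of_not_hasNormalPComplement P hnpc
  obtain ⟨y, hyg, q, hq', hqg, ⟨k, hyk⟩, hyn⟩ := H92.exists_primePow_not_mem hn
  have hy : y ∈ Subgroup.normalizer (Q : Set M) := (Subgroup.zpowers_le.mpr hg) hyg
  have hqp : q ≠ p := by
    rintro rfl
    exact hq'.one_lt.ne' (Nat.eq_one_of_dvd_coprimes hc hqg dvd_rfl)
  rw [Subgroup.mem_centralizer_iff] at hyn
  push Not at hyn
  obtain ⟨x0, hx0, hne⟩ := hyn
  set x : M := x0 * (y * x0⁻¹ * y⁻¹) with hx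
  have hxQ : x ∈ Q := Q.mul_mem hx0 ((Subgroup.mem_normalizer_iff.mp hy _).mp (Q.inv_mem hx0))
  have hx1 : x ≠ 1 := by
    intro h0
    apply hne
    have : x0 * y = x * (y * x0) := by rw [hx]; group
    rw [this, h0, one_mul]
  have hxo : ∃ a : ℕ, orderOf (x : G) = p ^ a := by
    obtain ⟨a, ha⟩ := IsPGroup.iff_orderOf.mp (P.2.to_le hQP) ⟨x, hxQ⟩
    exact ⟨a, (Subgroup.orderOf_coe x).trans ((Subgroup.orderOf_mk x hxQ).symm.trans ha)⟩
  have hyo : orderOf (y : G) = q ^ k := by rw [Subgroup.orderOf_coe, hyk]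
  have hxy : IsConj (y : G) ((x : G) * y) := isConj_iff.mpr ⟨x0, by simp [hx, mul_assoc]⟩
  have hxs : (x : G) ∈ stab (y : G) := by
    intro w hw
    obtain ⟨c, rfl⟩ := isConj_iff.mp hw
    exact hxy.trans (h _ _ hxo ⟨q, k, hq', hqp, hyo⟩ c)
  have := stab_normal (y : G)
  rcases hmin (M ⊓ stab (y : G)) inferInstance inf_le_left with h0 | h0
  · have : (x : G) ∈ M ⊓ stab (y : G) := Subgroup.mem_inf.mpr ⟨x.2, hxs⟩
    rw [h0, Subgroup.mem_bot] at this
    exact hx1 (Subtype.ext this)
  · have h3 : (y : G)⁻¹ ∈ stab (y : G) := (h0.ge (M.inv_mem y.2)).2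
    have h4 := h3 _ (IsConj.refl _)
    rw [inv_mul_cancel, isConj_one_left] at h4
    apply hne
    have : y = 1 := Subtype.ext h4
    simp [this]

/-- Let p be a prime and G a finite group such that for every element x of p-power order and every element y whose order is a power of a prime other than p, the conjugacy class of x y is the set of all products of a conjugate of x with a conjugate of y. Then G is p-solvable. -/
theorem result {G : Type*} [Group G] [Finite G] (p : ℕ) [Fact p.Prime] (h : ∀ x y : G, (∃ a : ℕ, orderOf x = p ^ a) → (∃ q b : ℕ, q.Prime ∧ q ≠ p ∧ orderOf y = q ^ b) → ∀ z : G, IsConj (x * y) z ↔ ∃ a b : G, z = a * x * a⁻¹ * (b * y * b⁻¹)) : Cfsg.IsPSolvable p G := by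
  exact main p G fun x y hx hy b => (h x y hx hy _).mpr ⟨1, b, by simp⟩

end Cfsg.Agent.S3989
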