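import Cfsg.Statements.S3992
import Cfsg.Agent.H57.GK
import Cfsg.Agent.S3633
import Cfsg.Agent.S1475
import Cfsg.Agent.H1.TwoPrimes
import Cfsg.Agent.H3.Cores
import Cfsg.Agent.H63.BG1

set_option autoImplicit false
open Cfsg

namespace Cfsg.Agent.S3992

open Subgroup Cfsg.Agent.H63 Cfsg.Agent.H67

theorem not_pq {X : Type*} [Group X] (hpp : ∀ g : X, g ≠ 1 → IsPrimePow (orderOf g)) {p q : ℕ}
    (hp : p.Prime) (hq : q.Prime) (hpq : p ≠ q) : ¬ ∃ g : X, orderOf g = p * q := by
  rintro ⟨g, hg⟩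
  have h1 : g ≠ 1 := by
    rintro rfl
    rw [orderOf_one] at hg
    exact hp.one_lt.ne' (Nat.eq_one_of_mul_eq_one_right hg.symm)
  obtain ⟨r, k, hr, -, hk⟩ := (isPrimePow_nat_iff _).1 (hpp g h1)
  rw [hg] at hk
  have h2 : p ∣ r ^ k := hk ▸ dvd_mul_right p q
  have h3 : q ∣ r ^ k := hk ▸ dvd_mul_left q p
  exact hpq (((Nat.prime_dvd_prime_iff_eq hp hr).1 (hp.dvd_of_dvd_pow h2)).trans
    ((Nat.prime_dvd_prime_iff_eq hq hr).1 (hq.dvd_of_dvd_pow h3)).symm)

theorem pgroup_of_comm {X : Type*} [Group X] [Finite X] (hpp : ∀ g : X, g ≠ 1 → IsPrimePow (orderOf g))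
    {A B : Subgroup X} (hA : A ≠ ⊥) (hAB : B ≤ C[A]) : ∃ p : ℕ, p.Prime ∧ IsPGroup p B := by
  obtain ⟨p, hp, hpA⟩ := exists_prime_dvd_card hA
  obtain ⟨a, ha, hao⟩ := exists_orderOf_eq_prime hp hpA
  refine ⟨p, hp, isPGroup_of_isPi hp (isPi_iff.2 ?_)⟩
  intro q hq hqB
  by_contra hne
  obtain ⟨b, hb, hbo⟩ := exists_orderOf_eq_prime hq hqB
  have hc : Commute a b := (mem_centralizer_iff.1 (hAB hb) a ha)
  exact not_pq hpp hp hq (fun h => hne h.symm)
    (H57.exists_orderOf_mul_of_commute hc ((Nat.coprime_primes hp hq).2 (fun h => hne h.symm))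
      (hao ▸ dvd_rfl) (hbo ▸ dvd_rfl))

theorem exists_socle {X : Type*} [Group X] [Finite X] [Nontrivial X]
    (hpp : ∀ g : X, g ≠ 1 → IsPrimePow (orderOf g))
    (hs : ∀ N : Subgroup X, N.Normal → Group.IsSolvable N → N = ⊥) :
    ∃ M : Subgroup X, M.Normal ∧ IsSimpleGroup ↥M ∧ ¬ IsMulCommutative ↥M ∧
      ∀ N : Subgroup X, N.Normal → N ≠ ⊥ → M ≤ N := by
  obtain ⟨M, -, ⟨hMn, hM1⟩, hmin⟩ := exists_minimal_le (fun M : Subgroup X => M.Normal ∧ M ≠ ⊥)
    (H := ⊤) ⟨inferInstance, top_ne_bot⟩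
  have hO : ∀ p : ℕ, p.Prime → ∀ L : Subgroup X, L ⊴ M → IsPGroup p L → L = ⊥ := by
    intro p hp L hL hLp
    have h1 : L ≤ O[{p}](M) := le_pCoreOf hp hL hLp
    have h2 : O[{p}](M) ⊴ ⊤ := (normalIn_top_iff.2 hMn).piCoreOf _
    have h3 := hs _ (normalIn_top_iff.1 h2) (isSolvable_of_isPGroup hp (isPGroup_pCoreOf hp M))
    exact le_bot_iff.1 (h3 ▸ h1)
  refine ⟨M, hMn, ?_, fun h => hM1 (hs M hMn (isSolvable_of_isMulCommutative h)), ?_⟩
  · haveI : Nontrivial M := (Subgroup.nontrivial_iff_ne_bot M).2 hM1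
    refine ⟨fun K hK => ?_⟩
    by_cases hK1 : K = ⊥
    · exact Or.inl hK1
    right
    have hK2 : K.map M.subtype ≠ ⊥ := fun h => hK1 ((map_eq_bot_iff_of_injective _ M.subtype_injective).1 h)
    obtain ⟨L, hLK, ⟨hLn, hL1⟩, hLmin⟩ := exists_minimal_le (fun L : Subgroup X => L ⊴ M ∧ L ≠ ⊥)
      (H := K.map M.subtype) ⟨map_subtype_normalIn K, hK2⟩
    have hall : ∀ g : X, cj g L = L := by
      intro g
      have hg : cj g L ⊴ M := by
        have := hLn.cj g
        rwa [cj_eq_self (H := M) (by rw [normalizer_eq_top]; trivial)] at this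
      by_cases hi : L ⊓ cj g L = ⊥
      · exfalso
        have := le_centralizer_of_inf_eq_bot (A := cj g L) (K := L) (hg.le.trans hLn.norm)
          (hLn.le.trans hg.norm) (by rwa [inf_comm])
        obtain ⟨p, hp, hLp⟩ := pgroup_of_comm hpp (fun h => hL1 (cj_eq_bot_iff.1 h)) this
        exact hL1 (hO p hp L hLn hLp)
      · have h1 := hLmin (L ⊓ cj g L) ⟨hLn.inf hg, hi⟩ inf_le_left
        have h2 : L ≤ cj g L := h1.ge.trans inf_le_right
        exact (eq_of_le_of_card_ge h2 (card_cj g L).le).symm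
    have hLN : L.Normal := by
      rw [← normalizer_eq_top_iff, eq_top_iff]
      exact fun g _ => cj_eq_self_iff.1 (hall g)
    have hLM : L = M := hmin L ⟨hLN, hL1⟩ hLn.le
    rw [eq_top_iff]
    intro x _
    obtain ⟨y, hy, hyx⟩ := hLK (hLM ▸ x.2 : (x : X) ∈ L)
    exact (Subtype.ext hyx : y = x) ▸ hy
  · intro N hN hN1
    by_cases hi : M ⊓ N = ⊥
    · exfalso
      have := le_centralizer_of_inf_eq_bot (A := N) (K := M) (by rw [normalizer_eq_top]; exact le_top)
        (by rw [normalizer_eq_top]; exact le_top) (by rwa [inf_comm])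
      obtain ⟨p, hp, hLp⟩ := pgroup_of_comm hpp hN1 this
      exact hM1 (hO p hp M (normalIn_refl M) hLp)
    · have h1 := hmin (M ⊓ N) ⟨inferInstance, hi⟩ inf_le_left
      exact h1 ▸ inf_le_right

/-- Let G be a finite non-solvable group in which every element has prime-power order, and let R be its largest solvable normal subgroup. Then R is a p-group for some prime p; G/R has a non-abelian simple normal subgroup contained in every nontrivial normal subgroup of G/R (its unique minimal normal subgroup); and the order of every solvable subgroup of G has at most two prime divisors. -/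
theorem result {G : Type*} [Group G] [Finite G] (hns : ¬ Group.IsSolvable G) (hpp : ∀ g : G, g ≠ 1 → IsPrimePow (orderOf g))
    (R : Subgroup G) [R.Normal] (hRs : Group.IsSolvable ↥R) (hRmax : ∀ N : Subgroup G, N.Normal → Group.IsSolvable ↥N → N ≤ R) :
    (∃ p : ℕ, p.Prime ∧ IsPGroup p ↥R) ∧
      (∃ M : Subgroup (G ⧸ R), M.Normal ∧ IsSimpleGroup ↥M ∧ ¬ IsMulCommutative ↥M ∧
        ∀ N : Subgroup (G ⧸ R), N.Normal → N ≠ ⊥ → M ≤ N) ∧
      ∀ H : Subgroup G, Group.IsSolvable ↥H → (Nat.card ↥H).primeFactors.card ≤ 2 := by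
  refine ⟨?_, ?_, ?_⟩
  · by_cases hR : R = ⊥
    · exact ⟨2, Nat.prime_two, hR ▸ IsPGroup.of_bot⟩
    obtain ⟨p, hp, hpR⟩ := exists_prime_dvd_card hR
    refine ⟨p, hp, isPGroup_of_isPi hp (isPi_iff.2 ?_)⟩
    intro q hq hqR
    by_contra hne
    have hne' : q ≠ p := hne
    have h3 : ∃ r : ℕ, r.Prime ∧ r ∣ Nat.card G ∧ r ≠ p ∧ r ≠ q := by
      by_contra hcon
      push Not at hcon
      refine hns (H1.isSolvable_of_two_primes hp hq fun r hr hd => ?_)
      by_cases h : r = p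
      · exact Or.inl h
      · exact Or.inr (hcon r hr hd h)
    obtain ⟨r, hr, hrG, hrp, hrq⟩ := h3
    have hcard : ({p, q, r} : Finset ℕ).card = 3 := by
      rw [Finset.card_eq_three]; exact ⟨p, q, r, hne'.symm, hrp.symm, hrq.symm, rfl⟩
    have hpr : ∀ s ∈ ({p, q, r} : Finset ℕ), s.Prime ∧ s ∣ Nat.card G := by
      intro s hs
      simp only [Finset.mem_insert, Finset.mem_singleton] at hs
      rcases hs with rfl | rfl | rfl
      · exact ⟨hp, hpR.trans (card_subgroup_dvd_card R)⟩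
      · exact ⟨hq, hqR.trans (card_subgroup_dvd_card R)⟩
      · exact ⟨hr, hrG⟩
    exact hne' ((S3633.result {p, q, r} hcard.ge ⟨hpr, fun a ha b hb hab =>
      not_pq hpp (hpr a ha).1 (hpr b hb).1 hab⟩ R hRs).1 q (by simp) p (by simp) hqR hpR)
  · haveI : Nontrivial (G ⧸ R) := by
      by_contra hcon
      rw [not_nontrivial_iff_subsingleton] at hcon
      haveI := hRs
      exact hns (solvable_of_ker_le_range R.subtype (QuotientGroup.mk' R) (by simp))
    refine exists_socle ?_ ?_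
    · intro g hg
      obtain ⟨x, rfl⟩ := QuotientGroup.mk_surjective g
      have hx : x ≠ 1 := by rintro rfl; exact hg rfl
      obtain ⟨r, k, hr, -, hk⟩ := (isPrimePow_nat_iff _).1 (hpp x hx)
      have hd : orderOf (x : G ⧸ R) ∣ r ^ k := hk ▸ orderOf_map_dvd (QuotientGroup.mk' R) x
      obtain ⟨j, -, hj⟩ := (Nat.dvd_prime_pow hr).1 hd
      refine (isPrimePow_nat_iff _).2 ⟨r, j, hr, Nat.pos_of_ne_zero ?_, hj.symm⟩
      rintro rfl
      exact hg (orderOf_eq_one_iff.1 hj)
    · intro N hN hNs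
      have h1 : Group.IsSolvable (N.comap (QuotientGroup.mk' R)) := by
        haveI := hRs
        haveI := hNs
        refine solvable_of_ker_le_range
          (inclusion (show R ≤ N.comap (QuotientGroup.mk' R) from fun x hx => by
            rw [mem_comap, QuotientGroup.mk'_apply, (QuotientGroup.eq_one_iff x).2 hx]; exact N.one_mem))
          ((QuotientGroup.mk' R).subgroupComap N) ?_
        intro x hx
        have : ((x : G) : G ⧸ R) = 1 := congrArg Subtype.val hx
        exact ⟨⟨x, (QuotientGroup.eq_one_iff _).1 this⟩, rfl⟩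
      have h2 := hRmax _ inferInstance h1
      rw [eq_bot_iff]
      intro y hy
      obtain ⟨x, rfl⟩ := QuotientGroup.mk_surjective y
      exact (QuotientGroup.eq_one_iff x).2 (h2 hy)
  · intro H hH
    refine S1475.result fun g => ?_
    by_cases hg : g = 1
    · exact Or.inr hg
    · left
      rw [← Subgroup.orderOf_coe]
      exact hpp _ (fun h => hg (Subtype.ext h))

end Cfsg.Agent.S3992
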