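import Cfsg.Statements.S4001
import Cfsg.Agent.H91.Basic
import Cfsg.Agent.H91.OrderType
import Cfsg.Agent.H91.FrobPack
import Cfsg.Agent.H1.Nilp
import Cfsg.Agent.H4.Schmidt

set_option autoImplicit false
open Cfsg

namespace Cfsg.Agent.S4001

/-- Let G be a 2-Frobenius group: it has normal subgroups H < K with K a Frobenius group with kernel H and G/H a Frobenius group with kernel K/H. Then G is solvable; K/H has odd order coprime to the order of H and to the order of G/K (it is the image of an odd-order Hall subgroup); G/K is cyclic; and the prime graph of G has exactly two connected components, both complete: for distinct primes p, q dividing the order of G, G has an element of order pq exactly when p and q either both divide the order of K/H or both do not. -/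
theorem result {G : Type*} [Group G] [Finite G] (H K : Subgroup G) [H.Normal] [K.Normal] (hlt : H < K)
    (hK : ∃ C : Subgroup ↥K, Cfsg.IsFrobeniusComplement C ∧ Cfsg.frobeniusKernel C = (H.subgroupOf K : Set ↥K))
    (hGH : ∃ C : Subgroup (G ⧸ H), Cfsg.IsFrobeniusComplement C ∧ Cfsg.frobeniusKernel C = (K.map (QuotientGroup.mk' H) : Set (G ⧸ H))) :
    Group.IsSolvable G ∧ Odd (Nat.card (↥K ⧸ H.subgroupOf K)) ∧
      Nat.Coprime (Nat.card (↥K ⧸ H.subgroupOf K)) (Nat.card ↥H * Nat.card (G ⧸ K)) ∧ IsCyclic (G ⧸ K) ∧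
      ∀ p q : ℕ, p.Prime → q.Prime → p ≠ q → p ∣ Nat.card G → q ∣ Nat.card G →
        ((∃ g : G, orderOf g = p * q) ↔ (p ∣ Nat.card (↥K ⧸ H.subgroupOf K) ↔ q ∣ Nat.card (↥K ⧸ H.subgroupOf K))) := by
  classical
  obtain ⟨C1, hC1, hk1⟩ := hK
  obtain ⟨C2, hC2, hk2⟩ := hGH
  set H0 := H.subgroupOf K with hH0
  set Kb := K.map (QuotientGroup.mk' H) with hKb
  have hKbn : Kb.Normal := H91.frob_normal hC2 hk2
  have hc1 := H91.frob_isComplement' hC1 hk1
  have hc2 := H91.frob_isComplement' hC2 hk2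
  have hH0c : Nat.card H0 = Nat.card H := H2.card_subgroupOf_of_le hlt.le
  have hm1 : Nat.card (K ⧸ H0) = Nat.card Kb := by rw [hKb, H3.card_map_mk']; rfl
  have hm2 : Nat.card (K ⧸ H0) = Nat.card C1 := Nat.card_congr hc1.symm.QuotientMulEquiv.toEquiv
  let e2 : G ⧸ K ≃* C2 :=
    (QuotientGroup.quotientQuotientEquivQuotient H K hlt.le).symm.trans hc2.symm.QuotientMulEquiv
  have hd : Nat.card (G ⧸ K) = Nat.card C2 := Nat.card_congr e2.toEquiv
  let ψ : C1 →* Kb := (((QuotientGroup.mk' H).comp K.subtype).comp C1.subtype).codRestrict Kb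
    fun c => Subgroup.mem_map_of_mem _ c.1.2
  have hψ : Function.Bijective ψ := by
    refine (Nat.bijective_iff_injective_and_card ψ).mpr ⟨?_, hm2.symm.trans hm1⟩
    rw [injective_iff_map_eq_one]
    intro c hc
    have h1 : (c : K) ∈ H0 :=
      (QuotientGroup.eq_one_iff (N := H) ((c : K) : G)).mp (congrArg Subtype.val hc)
    exact Subtype.ext (Subgroup.disjoint_def.mp hc1.disjoint h1 c.2)
  let e1 := MulEquiv.ofBijective ψ hψ
  have hKf : H91.HasIntFPF Kb :=
    (H91.hasIntFPF_of_frob hC1).of_injective e1.symm.toMonoidHom e1.symm.injective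
  obtain ⟨hKbnt, hfpf2⟩ := H91.fpf_of_isComplement' hc2 hC2
  have hC2nt : Nontrivial C2 := (Subgroup.nontrivial_iff_ne_bot C2).mpr hC2.1
  have hodd : ¬ 2 ∣ Nat.card Kb := by
    intro h2
    obtain ⟨s, hs⟩ := exists_prime_orderOf_dvd_card' 2 h2
    obtain ⟨c, hc⟩ := exists_ne (1 : C2)
    have := hfpf2 c hc s (hKf.involution_unique hs (by rw [MulEquiv.orderOf_eq, hs]))
    rw [this, orderOf_one] at hs
    norm_num at hs
  have hKbz : IsZGroup Kb := hKf.isZGroup_of_odd hodd
  have hKbnil : Group.IsNilpotent Kb := H91.frob_isNilpotent hC2 hk2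
  have hKbc : IsCyclic Kb := inferInstance
  have hC2c : IsCyclic C2 := by
    let f := (IsCyclic.mulAutMulEquiv Kb).toMonoidHom.comp
      ((MulAut.conjNormal (H := Kb)).comp C2.subtype)
    have hf : Function.Injective f := by
      refine (IsCyclic.mulAutMulEquiv Kb).injective.comp ?_
      rw [injective_iff_map_eq_one]
      intro c hc
      by_contra h1
      obtain ⟨v, hv⟩ := exists_ne (1 : Kb)
      exact hv (hfpf2 c h1 v (by rw [hc]; rfl))
    have : IsMulCommutative C2 := ⟨⟨fun a b => hf (by rw [map_mul, map_mul, mul_comm])⟩⟩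
    exact (H91.hasIntFPF_of_frob hC2).isCyclic_of_comm
  have hGKc : IsCyclic (G ⧸ K) := isCyclic_of_surjective e2.symm e2.symm.surjective
  have hHnil : Group.IsNilpotent H :=
    have := H91.frob_isNilpotent hC1 hk1
    Group.nilpotent_of_mulEquiv (Subgroup.subgroupOfEquivOfLe hlt.le)
  have hcop1 : (Nat.card Kb).Coprime (Nat.card H) := by
    rw [← hH0c, ← hm1, hm2]; exact (H91.frob_coprime hC1 hk1).symm
  have hcop2 : (Nat.card Kb).Coprime (Nat.card (G ⧸ K)) := by
    rw [hd]; exact H91.frob_coprime hC2 hk2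
  have hcardK : Nat.card K = Nat.card H * Nat.card Kb := by
    rw [← hc1.card_mul_card, hH0c, ← hm2, hm1]
  have hcardG : Nat.card G = Nat.card H * Nat.card Kb * Nat.card (G ⧸ K) := by
    rw [← hcardK, ← K.card_mul_index]; rfl
  -- centralizers
  have hcH : ∀ x ∈ H, x ≠ 1 → ∀ g ∈ K, Commute g x → g ∈ H := by
    intro x hx hx1 g hg h
    exact H91.frob_mem_of_commute_kernel hC1 hk1 (x := ⟨x, hlt.le hx⟩) (g := ⟨g, hg⟩) hx
      (fun e => hx1 (congrArg Subtype.val e)) (Subtype.ext h)
  have hcK : ∀ x ∈ K, x ∉ H → ∀ g, Commute g x → g ∈ K := by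
    intro x hx hx1 g h
    have := H91.frob_mem_of_commute_kernel hC2 hk2 (x := QuotientGroup.mk' H x)
      (g := QuotientGroup.mk' H g) (Subgroup.mem_map_of_mem _ hx)
      (fun e => hx1 ((QuotientGroup.eq_one_iff x).mp e)) (h.map _)
    rw [hKb, ← Subgroup.mem_comap, QuotientGroup.comap_map_mk', sup_eq_right.mpr hlt.le] at this
    exact this
  have hne : ∀ {x : G} {p : ℕ}, p.Prime → orderOf x = p → x ≠ 1 := fun hp h e =>
    hp.one_lt.ne (by rw [← h, e, orderOf_one])
  have hdvdK : ∀ {x : G} {p : ℕ}, p.Prime → orderOf x = p → x ∈ K → x ∉ H → p ∣ Nat.card Kb := by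
    intro x p hp hx hxK hxH
    have := Fact.mk hp
    have h1 : orderOf (QuotientGroup.mk' H x) = p := orderOf_eq_prime
      (by rw [← map_pow, ← hx, pow_orderOf_eq_one, map_one])
      (fun e => hxH ((QuotientGroup.eq_one_iff x).mp e))
    exact h1 ▸ Kb.orderOf_dvd_natCard (Subgroup.mem_map_of_mem _ hxK)
  have hnot : ∀ p q : ℕ, p.Prime → q.Prime → p ∣ Nat.card Kb → ¬ q ∣ Nat.card Kb →
      ∀ g : G, orderOf g ≠ p * q := by
    intro p q hp hq h1 h2 g hg
    obtain ⟨x, hx, hxo⟩ := H91.exists_orderOf_eq_of_dvd (g := g) (n := p) (hg ▸ Dvd.intro _ rfl)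
    obtain ⟨y, hy, hyo⟩ := H91.exists_orderOf_eq_of_dvd (g := g) (n := q)
      (hg ▸ Dvd.intro_left _ rfl)
    have hxy : Commute x y := by
      obtain ⟨i, rfl⟩ := hx
      obtain ⟨j, rfl⟩ := hy
      exact (Commute.refl g).zpow_zpow i j
    have hxK : x ∈ K := by
      rw [← QuotientGroup.eq_one_iff, ← orderOf_eq_one_iff]
      exact Nat.eq_one_of_dvd_coprimes hcop2
        (((orderOf_map_dvd (QuotientGroup.mk' K) x).trans hxo.dvd).trans h1) (orderOf_dvd_natCard _)
    have hxH : x ∉ H := fun h => hp.one_lt.ne'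
      (Nat.eq_one_of_dvd_coprimes hcop1 h1 (hxo ▸ H.orderOf_dvd_natCard h))
    by_cases hyH : y ∈ H
    · exact hxH (hcH y hyH (hne hq hyo) x hxK hxy)
    · exact h2 (hdvdK hq hyo (hcK x hxK hxH y hxy.symm) hyH)
  have hprod : ∀ {p q : ℕ} {x y : G}, p.Prime → q.Prime → p ≠ q → orderOf x = p → orderOf y = q →
      Commute x y → ∃ g : G, orderOf g = p * q := by
    intro p q x y hp hq hpq hx hy h
    exact ⟨x * y, by rw [h.orderOf_mul_eq_mul_orderOf_of_coprime
      (by rw [hx, hy]; exact (Nat.coprime_primes hp hq).mpr hpq), hx, hy]⟩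
  have hmix : ∀ p q : ℕ, p.Prime → q.Prime → p ≠ q → p ∣ Nat.card H → q ∣ Nat.card (G ⧸ K) →
      ∃ g : G, orderOf g = p * q := by
    intro p q hp hq hpq hpH hqD
    have := Fact.mk hp
    have := Fact.mk hq
    by_contra hno
    obtain ⟨L, hLn, hL⟩ := H91.exists_normal_isPiHall_of_isNilpotent {p} H
    have hPn := H91.normal_map_subtype_of_isPiHall hL
    set P := L.map H.subtype with hP
    have hPH : P ≤ H := Subgroup.map_subtype_le L
    have hPc : H2.IsPiNum {p} (Nat.card P) := by rw [hP, H3.card_map_subtype]; exact hL.1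
    have hPnt : Nontrivial P := by
      rw [Subgroup.nontrivial_iff_ne_bot, hP, Ne, Subgroup.map_eq_bot_iff_of_injective _
        H.subtype_injective]
      rintro rfl
      exact hL.2 p hp rfl (by rwa [Subgroup.index_bot])
    obtain ⟨r, hr, hrd⟩ := Nat.exists_prime_and_dvd (Finite.one_lt_card (α := Kb)).ne'
    have := Fact.mk hr
    obtain ⟨R0⟩ : Nonempty (Sylow r K) := inferInstance
    set R := (R0 : Subgroup K).map K.subtype with hR
    have hRK : R ≤ K := Subgroup.map_subtype_le _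
    have hRp : IsPGroup r R := R0.isPGroup'.map _
    have hRH : ∀ x ∈ R, x ∈ H → x = 1 := by
      intro x hx hxH
      obtain ⟨k, hk⟩ := H91.orderOf_eq_pow_of_mem hRp hx
      rw [← orderOf_eq_one_iff]
      exact Nat.eq_one_of_dvd_coprimes ((Nat.Coprime.coprime_dvd_left hrd hcop1).pow_left k)
        hk.dvd (H.orderOf_dvd_natCard hxH)
    have hRc : IsCyclic R := by
      refine isCyclic_of_injective ((((QuotientGroup.mk' H).comp R.subtype).codRestrict Kb
        fun c => Subgroup.mem_map_of_mem _ (hRK c.2))) ?_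
      rw [injective_iff_map_eq_one]
      intro c hc
      exact Subtype.ext (hRH c c.2 ((QuotientGroup.eq_one_iff _).mp (congrArg Subtype.val hc)))
    obtain ⟨c, hc⟩ := (Subgroup.isCyclic_iff_exists_zpowers_eq_top R).mp hRc
    have hcR : c ∈ R := hc ▸ Subgroup.mem_zpowers c
    have hc1 : c ≠ 1 := by
      intro e
      rw [e, Subgroup.zpowers_one_eq_bot, eq_comm, hR,
        Subgroup.map_eq_bot_iff_of_injective _ K.subtype_injective] at hc
      exact R0.ne_bot_of_dvd_card (hcardK ▸ Dvd.dvd.mul_left hrd _) hc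
    have hcH' : c ∉ H := fun h => hc1 (hRH c hcR h)
    set N := Subgroup.normalizer (R : Set G) with hN
    have hNK : N ⊔ K = ⊤ := R0.normalizer_sup_eq_top
    have hqN : q ∣ Nat.card N := by
      refine hqD.trans (Subgroup.card_dvd_of_surjective ((QuotientGroup.mk' K).comp N.subtype) ?_)
      intro y
      obtain ⟨g, rfl⟩ := QuotientGroup.mk'_surjective K y
      have : g ∈ N ⊔ K := hNK ▸ Subgroup.mem_top g
      rw [← SetLike.mem_coe, Subgroup.mul_normal] at this
      obtain ⟨a, ha, b, hb, rfl⟩ := this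
      exact ⟨⟨a, ha⟩, by simp [(QuotientGroup.eq_one_iff b).mpr hb]⟩
    obtain ⟨⟨y, hyN⟩, hy⟩ := exists_prime_orderOf_dvd_card' q hqN
    rw [Subgroup.orderOf_mk] at hy
    let A := R ⊔ Subgroup.zpowers y
    have hAN : A ≤ N := sup_le Subgroup.le_normalizer (Subgroup.zpowers_le.mpr hyN)
    have hApow : ∀ a ∈ A, a ^ q ∈ R := by
      intro a ha
      have hRn : (R.subgroupOf N).Normal := Subgroup.normal_in_normalizer
      let f := QuotientGroup.mk' (R.subgroupOf N)
      have h1 : A.subgroupOf N ≤ (Subgroup.zpowers (f ⟨y, hyN⟩)).comap f := by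
        rw [Subgroup.subgroupOf_sup Subgroup.le_normalizer (Subgroup.zpowers_le.mpr hyN)]
        refine sup_le (fun x hx => ?_) ?_
        · rw [Subgroup.mem_comap, show f x = 1 from (QuotientGroup.eq_one_iff x).mpr hx]
          exact Subgroup.one_mem _
        · rintro ⟨_, hx⟩ ⟨k, rfl⟩
          exact ⟨k, (map_zpow f ⟨y, hyN⟩ k).symm⟩
      obtain ⟨k, hk⟩ := h1 (show (⟨a, hAN ha⟩ : N) ∈ A.subgroupOf N from ha)
      have h2 : f (⟨a, hAN ha⟩ ^ q) = 1 := by
        have h3 : (⟨y, hyN⟩ : N) ^ q = 1 := Subtype.ext (by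
          rw [Subgroup.coe_pow, ← hy]; exact pow_orderOf_eq_one y)
        simp only at hk
        rw [map_pow, ← hk, ← zpow_natCast, ← zpow_mul, mul_comm, zpow_mul, zpow_natCast, ← map_pow,
          h3, map_one, one_zpow]
      exact (QuotientGroup.eq_one_iff (N := R.subgroupOf N) _).mp h2
    let _ := H5.conjAction A P Subgroup.le_normalizer_of_normal
    have hsr : H5.Semireg A P := by
      refine H5.semireg_conjAction _ fun a ha ha1 => ?_
      rw [H5.inf_centralizer_eq_bot_iff]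
      intro v hv hav
      by_contra hv1
      rw [mul_inv_eq_iff_eq_mul] at hav
      have hav' : Commute a v := hav
      have h1 : a ^ q = 1 := hRH _ (hApow a ha)
        (hcH v (hPH hv) hv1 _ (hRK (hApow a ha)) (hav'.pow_left q))
      obtain ⟨s, hs, hsd⟩ := Nat.exists_prime_and_dvd (fun e => hv1 (orderOf_eq_one_iff.mp e))
      obtain rfl : s = p := hPc s hs (hsd.trans (P.orderOf_dvd_natCard hv))
      obtain ⟨w, ⟨k, rfl⟩, hw⟩ := H91.exists_orderOf_eq_of_dvd hsd
      exact hno (hprod hp hq hpq hw (orderOf_eq_prime h1 ha1) (hav'.zpow_right k).symm)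
    have hyA : y ∈ A := Subgroup.mem_sup_right (Subgroup.mem_zpowers y)
    have hcA : c ∈ A := Subgroup.mem_sup_left hcR
    have hyc := hsr.commute_of_prime_order (c := ⟨c, hcA⟩) (x := ⟨y, hyA⟩)
      (by rw [Subgroup.orderOf_mk, hy]; exact hq) (by
        refine Subgroup.mem_normalizer_fintype ?_
        rintro _ ⟨k, rfl⟩
        have h1 : y * c ^ k * y⁻¹ ∈ Subgroup.zpowers c := by
          rw [hc]; exact (Subgroup.mem_normalizer_iff.mp hyN _).mp (R.zpow_mem hcR k)
        obtain ⟨j, hj⟩ := h1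
        exact ⟨j, Subtype.ext hj⟩)
    have hyc' : Commute y c := congrArg Subtype.val hyc
    have hyK := hcK c (hRK hcR) hcH' y hyc'
    have hyH : y ∉ H := fun h => hcH' (hcH y h (hne hq hy) c (hRK hcR) hyc'.symm)
    exact hq.one_lt.ne' (Nat.eq_one_of_dvd_coprimes hcop2 (hdvdK hq hy hyK hyH) hqD)
  have hcyc : ∀ {X : Type _} [Group X] [Finite X] [IsCyclic X] {p q : ℕ}, p.Prime → q.Prime → p ≠ q →
      p ∣ Nat.card X → q ∣ Nat.card X → ∀ (f : G →* X), Function.Surjective f →
      ∃ g : G, orderOf g = p * q := by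
    intro X _ _ _ p q hp hq hpq h1 h2 f hf
    obtain ⟨x, hx⟩ := IsCyclic.exists_ofOrder_eq_natCard (α := X)
    obtain ⟨g, rfl⟩ := hf x
    obtain ⟨y, -, hy⟩ := H91.exists_orderOf_eq_of_dvd (g := g) (n := p * q)
      ((hx ▸ ((Nat.coprime_primes hp hq).mpr hpq).mul_dvd_of_dvd_of_dvd h1 h2).trans
        (orderOf_map_dvd f g))
    exact ⟨y, hy⟩
  rw [hm1]
  refine ⟨?_, Nat.odd_iff.mpr (Nat.two_dvd_ne_zero.mp hodd), hcop1.mul_right hcop2, hGKc,
    fun p q hp hq hpq hpG hqG => ⟨?_, fun h => ?_⟩⟩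
  · have : Group.IsSolvable ((G ⧸ H) ⧸ Kb) :=
      Group.isSolvable_of_isSolvable_injective (f := hc2.symm.QuotientMulEquiv.toMonoidHom)
        hc2.symm.QuotientMulEquiv.injective
    have := H1.isSolvable_of_normal_of_quotient Kb
    exact H1.isSolvable_of_normal_of_quotient H
  · rintro ⟨g, hg⟩
    exact ⟨fun h1 => by_contra fun h2 => hnot p q hp hq h1 h2 g hg,
      fun h1 => by_contra fun h2 => hnot q p hq hp h1 h2 g (by rw [hg, mul_comm])⟩
  · have := Fact.mk hp
    have := Fact.mk hq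
    by_cases h1 : p ∣ Nat.card Kb
    · obtain ⟨x, hx⟩ := IsCyclic.exists_ofOrder_eq_natCard (α := Kb)
      obtain ⟨y, -, hy⟩ := H91.exists_orderOf_eq_of_dvd (g := x) (n := p * q)
        (hx ▸ ((Nat.coprime_primes hp hq).mpr hpq).mul_dvd_of_dvd_of_dvd h1 (h.mp h1))
      exact ⟨((e1.symm y : C1) : K), by
        rw [Subgroup.orderOf_coe, Subgroup.orderOf_coe, e1.symm.orderOf_eq, hy]⟩
    · have h2 : ¬ q ∣ Nat.card Kb := fun h2 => h1 (h.mpr h2)
      have key : ∀ r : ℕ, r.Prime → r ∣ Nat.card G → ¬ r ∣ Nat.card Kb →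
          r ∣ Nat.card H ∨ r ∣ Nat.card (G ⧸ K) := by
        intro r hr h3 h4
        rw [hcardG, hr.dvd_mul, hr.dvd_mul] at h3
        tauto
      rcases key p hp hpG h1 with h3 | h3 <;> rcases key q hq hqG h2 with h4 | h4
      · obtain ⟨x, hx⟩ := exists_prime_orderOf_dvd_card' p h3
        obtain ⟨y, hy⟩ := exists_prime_orderOf_dvd_card' q h4
        rw [← Subgroup.orderOf_coe] at hx hy
        exact hprod hp hq hpq hx hy (H4.commute_of_isNilpotent_of_coprime hHnil x.2 y.2
          (by rw [hx, hy]; exact (Nat.coprime_primes hp hq).mpr hpq))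
      · exact hmix p q hp hq hpq h3 h4
      · rw [mul_comm]; exact hmix q p hq hp hpq.symm h4 h3
      · exact hcyc hp hq hpq h3 h4 _ (QuotientGroup.mk'_surjective K)

end Cfsg.Agent.S4001
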