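import Cfsg.Statements.S4009
import Cfsg.Agent.H90.Ladder

set_option autoImplicit false
open Cfsg

namespace Cfsg.Agent.S4009

/-- Let P be a finite p-group of order p^n whose derived length is exactly k + 1 (the k-th derived subgroup is nontrivial and the (k+1)-st is trivial). Then n ≥ 2^k + 2k − 2. -/
theorem result {P : Type*} [Group P] [Finite P] (p : ℕ) [Fact p.Prime] (n k : ℕ) (hcard : Nat.card P = p ^ n) (hk : derivedSeries P k ≠ ⊥) (hk' : derivedSeries P (k + 1) = ⊥) : 2 ^ k + 2 * k ≤ n + 2 := by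
  have hp : p.Prime := Fact.out
  have hG : IsPGroup p P := IsPGroup.of_card hcard
  have key : ∀ e ≤ k, ∃ t, Nat.card (derivedSeries P e) * p ^ t ≤ p ^ n ∧
      (2 ^ e + 2 * e ≤ t + 1 ∨ (2 ^ e + 2 * e ≤ t + 2 ∧ H90.CycMod (derivedSeries P e)) ∨
        (2 ^ e + 2 * e ≤ t + 3 ∧
          derivedSeries P e ≤ (⊤ : Subgroup P).lowerCentralSeries (2 ^ e))) := by
    intro e
    induction e with
    | zero => exact fun _ => ⟨0, by simp [hcard], Or.inl (by simp)⟩
    | succ e ih =>
      intro he
      obtain ⟨t, ht, h⟩ := ih (by omega)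
      have hne : ⁅derivedSeries P e, derivedSeries P e⁆ ≠ ⊥ := fun h =>
        hk (le_bot_iff.1 ((derivedSeries_antitone P he).trans h.le))
      have h1 := Nat.one_le_two_pow (n := e)
      have h0 := H90.derivedSeries_le_lcs (G := P) e
      have step : ∀ s, Nat.card (derivedSeries P (e + 1)) * p ^ s ≤ Nat.card (derivedSeries P e) →
          Nat.card (derivedSeries P (e + 1)) * p ^ (s + t) ≤ p ^ n := fun s hs => by
        rw [pow_add, ← mul_assoc]
        exact (Nat.mul_le_mul_right _ hs).trans ht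
      have h2 := step _ (H90.card_commutator_mul_le hG h0 hne)
      have hcyc : H90.CycMod (derivedSeries P e) →
          derivedSeries P (e + 1) ≤ (⊤ : Subgroup P).lowerCentralSeries (2 ^ (e + 1)) := by
        intro hc
        have := hc.commutator_le_lcs h0
        rwa [show 2 * (2 ^ e - 1) + 2 = 2 ^ (e + 1) by rw [pow_succ]; omega] at this
      rcases h with h | ⟨h, hc⟩ | ⟨h, hc⟩
      · by_cases hc : H90.CycMod (derivedSeries P e)
        · exact ⟨_, h2, Or.inr (Or.inr ⟨by rw [pow_succ]; omega, hcyc hc⟩)⟩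
        by_cases hs : Nat.card (derivedSeries P e) ≤
            Nat.card (derivedSeries P (e + 1)) * p ^ (2 ^ e - 1 + 2)
        · exact ⟨_, h2, Or.inr (Or.inl ⟨by rw [pow_succ]; omega,
            H90.cycMod_commutator_of_small hG h0 hne hc hs⟩)⟩
        · refine ⟨_, step (2 ^ e - 1 + 2 + 1) ?_, Or.inl (by rw [pow_succ]; omega)⟩
          obtain ⟨a, ha⟩ := H7.card_eq_pow hG (derivedSeries P e)
          obtain ⟨b, hb⟩ := H7.card_eq_pow hG (derivedSeries P (e + 1))
          rw [ha, hb, ← pow_add, Nat.pow_le_pow_iff_right hp.one_lt] at hs ⊢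
          omega
      · exact ⟨_, h2, Or.inr (Or.inr ⟨by rw [pow_succ]; omega, hcyc hc⟩)⟩
      · refine ⟨_, step _ (H90.card_commutator_mul_le hG hc hne),
          Or.inr (Or.inr ⟨by rw [pow_succ]; omega, ?_⟩)⟩
        exact (H90.commutator_le_lcs_of_le hc hc).trans
          (Subgroup.lowerCentralSeries_antitone _ (by rw [pow_succ]; omega))
  obtain ⟨t, ht, h⟩ := key k le_rfl
  have h1 := H90.card_mul_le_of_lt hG (bot_lt_iff_ne_bot.2 hk)
  rw [Subgroup.card_bot, one_mul] at h1
  have h2 := (Nat.mul_le_mul_right _ h1).trans ht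
  rw [← pow_succ', Nat.pow_le_pow_iff_right hp.one_lt] at h2
  omega

end Cfsg.Agent.S4009
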