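import Cfsg.Statements.S4013
import Mathlib

set_option autoImplicit false
open Cfsg

namespace Cfsg.Agent.S4013

/-- Let G be a finite p-group (p prime) and N < M normal subgroups of G such that for some g ∈ M ∖ N the conjugacy class of g is exactly M ∖ N. Then p = 2 and N has index 2 in M. -/
theorem result {G : Type*} [Group G] [Finite G] (p : ℕ) [Fact p.Prime] (hG : IsPGroup p G) (N M : Subgroup G) [N.Normal] [M.Normal] (hNM : N < M) (g : G) (hgM : g ∈ M) (hgN : g ∉ N) (hcl : {h : G | IsConj g h} = (M : Set G) \ (N : Set G)) : p = 2 ∧ N.relIndex M = 2 := by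
  classical
  have hp : p.Prime := Fact.out
  -- class size is a power of p
  obtain ⟨k, hk⟩ : ∃ k, Nat.card (MulAction.orbit (ConjAct G) g) = p ^ k :=
    (hG.of_equiv ConjAct.toConjAct).card_orbit g
  have horb : MulAction.orbit (ConjAct G) g = {h : G | IsConj g h} := by
    ext h
    rw [ConjAct.mem_orbit_conjAct]
    exact isConj_comm
  rw [horb, hcl] at hk
  have h1 : Nat.card ((M : Set G) \ (N : Set G) : Set G) = Nat.card M - Nat.card N := by
    rw [Nat.card_coe_set_eq, Set.ncard_diff (by exact_mod_cast hNM.le) (Set.toFinite _)]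
    rfl
  have h2 : Nat.card N * N.relIndex M = Nat.card M := by
    rw [Subgroup.relIndex, ← Subgroup.card_mul_index (N.subgroupOf M),
      Nat.card_congr (Subgroup.subgroupOfEquivOfLe hNM.le).toEquiv]
  obtain ⟨j, hj⟩ : ∃ j, N.relIndex M = p ^ j := (hG.to_subgroup M).index (N.subgroupOf M)
  have hj0 : j ≠ 0 := by
    rintro rfl
    rw [pow_zero, Subgroup.relIndex_eq_one] at hj
    exact hNM.not_ge hj
  have h3 : p ^ k = Nat.card N * (p ^ j - 1) := by
    rw [← hk, h1, ← h2, hj, Nat.mul_sub, mul_one]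
  have h4 : p ^ j - 1 ∣ p ^ k := ⟨Nat.card N, by rw [h3, mul_comm]⟩
  obtain ⟨i, -, hi⟩ := (Nat.dvd_prime_pow hp).mp h4
  have hpos : 1 ≤ p ^ j := Nat.one_le_pow _ _ hp.pos
  have hi0 : i = 0 := by
    by_contra hi0
    have ha : p ∣ p ^ j - 1 := hi ▸ dvd_pow_self p hi0
    have hb : p ∣ p ^ j := dvd_pow_self p hj0
    have : p ∣ 1 := by
      have := Nat.dvd_sub hb ha
      rwa [Nat.sub_sub_self hpos] at this
    exact hp.one_lt.ne' (Nat.dvd_one.mp this)
  rw [hi0, pow_zero] at hi
  have h5 : p ^ j = 2 := by omega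
  refine ⟨?_, by rw [hj, h5]⟩
  have : p ∣ 2 := h5 ▸ dvd_pow_self p hj0
  exact (Nat.prime_dvd_prime_iff_eq hp Nat.prime_two).mp this

end Cfsg.Agent.S4013
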