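import Cfsg.Statements.S4014
import Cfsg.Agent.H90.LinDerived

set_option autoImplicit false
open Cfsg

namespace Cfsg.Agent.S4014

/-- Let p be a prime, n ≥ 1, and P a Sylow p-subgroup of the symmetric group on n letters. Then the derived length of P is exactly k = ⌊log_p n⌋ (the largest k with p^k ≤ n): the k-th derived subgroup of P is trivial and, when k ≥ 1, the (k−1)-st is not. -/
theorem result (p : ℕ) [Fact p.Prime] (n : ℕ) (hn : 1 ≤ n) (P : Sylow p (Equiv.Perm (Fin n))) : derivedSeries ↥(P : Subgroup (Equiv.Perm (Fin n))) (Nat.log p n) = ⊥ ∧ (1 ≤ Nat.log p n → derivedSeries ↥(P : Subgroup (Equiv.Perm (Fin n))) (Nat.log p n - 1) ≠ ⊥) := by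
  have hp : p.Prime := Fact.out
  constructor
  · refine eq_bot_iff.2 fun g hg => Subtype.ext (Equiv.ext fun i => ?_)
    refine H90.derivedSeries_le_of_index_le _ P.isPGroup' (MulAction.stabilizer P i) ?_ hg
    rw [MulAction.index_stabilizer]
    exact (Set.ncard_le_card _).trans_lt (by simpa using Nat.lt_pow_succ_log_self hp.one_lt n)
  · intro h1
    obtain ⟨k, hk⟩ := Nat.exists_eq_add_of_le' h1
    let C := Multiplicative (ZMod p)
    have hC : IsPGroup p C := IsPGroup.of_card (n := 1) (by simp [C])
    have h2 : ∀ k, IsPGroup p (IteratedWreathProduct C (k + 1)) ∧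
        derivedSeries (IteratedWreathProduct C (k + 1)) k ≠ ⊥ := fun k => by
      induction k with
      | zero =>
        refine ⟨H90.isPGroup_wreath (IsPGroup.of_card (n := 0) (by simp)) hC, ?_⟩
        have : Nontrivial (IteratedWreathProduct C (0 + 1)) := Finite.one_lt_card_iff_nontrivial.1
          (by simpa [RegularWreathProduct.card, C] using hp.one_lt)
        exact top_ne_bot
      | succ k ih => exact ⟨H90.isPGroup_wreath ih.1 hC, H90.derivedSeries_wreath_ne_bot ih.2⟩
    obtain ⟨e⟩ : Nonempty ((Fin (k + 1) → C) ↪ Fin n) := Function.Embedding.nonempty_of_card_le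
      (by simpa [C, ← hk] using Nat.pow_log_le_self p (by omega : n ≠ 0))
    rw [hk]
    exact H90.derivedSeries_ne_bot_of_sylow (h2 k).1 ((Equiv.Perm.viaEmbeddingHom e).comp
      (iteratedWreathToPermHom C (k + 1))) ((Equiv.Perm.viaEmbeddingHom_injective e).comp
        (iteratedWreathToPermHomInj C (k + 1))) (h2 k).2 P

end Cfsg.Agent.S4014
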