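import Cfsg.Statements.S4015
import Cfsg.Agent.H90.LinDerived

set_option autoImplicit false
open Cfsg

namespace Cfsg.Agent.S4015

/-- Let p be an odd prime, F a finite field with q elements where p does not divide q, and e the multiplicative order of q modulo p. Let n ≥ e and write w = ⌊n/e⌋ and k = ⌊log_p w⌋. Then a Sylow p-subgroup of GL(n, F) has derived length exactly k + 1: its (k+1)-st derived subgroup is trivial and its k-th is not. -/
theorem result (p : ℕ) [Fact p.Prime] (hp : p ≠ 2) (F : Type*) [Field F] [Fintype F] (q : ℕ) (hq : Fintype.card F = q) (hpq : ¬ p ∣ q) (n : ℕ) (hn : orderOf (q : ZMod p) ≤ n) (P : Sylow p (Matrix.GeneralLinearGroup (Fin n) F)) : derivedSeries ↥(P : Subgroup (Matrix.GeneralLinearGroup (Fin n) F)) (Nat.log p (n / orderOf (q : ZMod p)) + 1) = ⊥ ∧ derivedSeries ↥(P : Subgroup (Matrix.GeneralLinearGroup (Fin n) F)) (Nat.log p (n / orderOf (q : ZMod p))) ≠ ⊥ := by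
  subst hq
  set e := orderOf (Fintype.card F : ZMod p)
  have he : 0 < e := H90.orderOf_natCast_pos hpq
  have hp' : p.Prime := Fact.out
  constructor
  · rw [eq_bot_iff, ← (P : Subgroup (GL (Fin n) F)).ker_subtype]
    exact H90.derivedSeries_le_ker_GL_finite P.isPGroup' hpq _
      (Nat.lt_pow_succ_log_self hp'.one_lt _)
  let C := Multiplicative (ZMod p)
  have hC : IsPGroup p C := IsPGroup.of_card (n := 1) (by simp [C])
  have h1 : ∀ k, ∃ (D : Type u_1) (_ : Group D) (_ : Finite D) (V : Type u_1) (_ : AddCommGroup V)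
      (_ : Module F V) (_ : FiniteDimensional F V) (ρ : Representation F D V), IsPGroup p D ∧
      derivedSeries D k ≠ ⊥ ∧ Function.Injective ρ ∧ Module.finrank F V = e * p ^ k := by
    intro k
    induction k with
    | zero =>
      obtain ⟨g, hg⟩ := exists_prime_orderOf_dvd_card' (G := GL (Fin e) F) p (by
        rw [Matrix.card_GL_field]
        refine Dvd.dvd.trans ?_ (Finset.dvd_prod_of_mem _ (Finset.mem_univ (⟨0, he⟩ : Fin e)))
        rw [← ZMod.natCast_eq_zero_iff, Nat.cast_sub (Nat.pow_le_pow_right Fintype.card_pos he.le)]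
        simp [e])
      refine ⟨Subgroup.zpowers g, _, inferInstance, Fin e → F, _, _, inferInstance,
        H90.extRep F (Subgroup.subtype _), IsPGroup.of_card (n := 1) (by simp [hg]), ?_, ?_, by simp⟩
      · have : Nontrivial (Subgroup.zpowers g) :=
          Finite.one_lt_card_iff_nontrivial.1 (by simpa [hg] using hp'.one_lt)
        exact top_ne_bot
      · exact (MonoidHom.ker_eq_bot_iff _).1 (eq_bot_iff.2 ((H90.ker_extRep F _).trans (by simp)))
    | succ k ih =>
      obtain ⟨D, _, _, V, _, _, _, ρ, hD, h1, h2, h3⟩ := ih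
      have : Nontrivial V := Module.finrank_pos_iff.1 (h3 ▸ Nat.mul_pos he (pow_pos hp'.pos k))
      refine ⟨D ≀ᵣ C, _, inferInstance, C → V, _, _, inferInstance, H90.wreathRep ρ C,
        H90.isPGroup_wreath hD hC, H90.derivedSeries_wreath_ne_bot h1,
        H90.wreathRep_injective h2 C, ?_⟩
      simp [Module.finrank_pi_fintype, h3, C, pow_succ]
      ring
  obtain ⟨D, _, _, V, _, _, _, ρ, hD, h1, h2, h3⟩ := h1 (Nat.log p (n / e))
  have h4 : Module.finrank F V ≤ n := h3 ▸ (Nat.mul_le_mul_left e (Nat.pow_log_le_self p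
    (Nat.div_pos hn he).ne')).trans (Nat.mul_div_le n e)
  let b := Module.finBasisOfFinrankEq F (V × (Fin (n - Module.finrank F V) → F)) (n := n)
    (by simp [h4])
  refine H90.derivedSeries_ne_bot_of_sylow hD (MonoidHom.toHomUnits
    ((LinearMap.toMatrixAlgEquiv b).toRingEquiv.toMonoidHom.comp (ρ.prod 1))) ?_ h1 P
  refine fun x y h => h2 (LinearMap.ext fun v => ?_)
  exact congrArg Prod.fst (LinearMap.congr_fun ((LinearMap.toMatrixAlgEquiv b).injective
    (congrArg Units.val h)) (v, 0))

end Cfsg.Agent.S4015
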