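import Cfsg.Statements.S4024
import Cfsg.Agent.H91.ConjSub

set_option autoImplicit false
open Cfsg

namespace Cfsg.Agent.S4024

open Pointwise

theorem aux.{u} {p : ℕ} [hpp : Fact p.Prime] (hp : p ≠ 2) (n : ℕ) : ∀ (G : Type u) [Group G] [Finite G],
    Nat.card G = n → H91.EqOrdConj p G → ∀ (P : Sylow p G) (H : Subgroup G) [H.Normal],
    IsPSolvable p H → p ∣ Nat.card H →
    IsMulCommutative P ∧ ((P : Subgroup G) ≤ H ∨ IsCyclic P) := by
  induction n using Nat.strongRecOn with | ind n ih => ?_
  rintro G _ _ rfl hC P H _ hs hd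
  have hH0 : H ≠ ⊥ := by
    rintro rfl
    rw [Subgroup.card_bot] at hd
    exact hpp.out.one_lt.ne' (Nat.dvd_one.mp hd)
  have : Nontrivial H := (Subgroup.nontrivial_iff_ne_bot _).2 hH0
  by_cases hO : pPrimeCore p H = ⊥
  · obtain ⟨M, hMn, hM0, hM⟩ := H24.exists_normal_ne_bot_of_isPSolvable hs
    have hM' : IsPGroup p M := by
      rcases hM with ⟨m, hm⟩ | hM
      · exact IsPGroup.of_card hm
      · exact absurd (le_bot_iff.mp (hO ▸ H3.le_pPrimeCore hM)) hM0
    have h1 : (pCore p H).map H.subtype ≠ ⊥ := by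
      rw [Ne, Subgroup.map_eq_bot_iff_of_injective _ H.subtype_injective]
      intro h
      exact hM0 (le_bot_iff.mp (h ▸ H3.le_pCore hM'))
    have := H3.map_pCore_normal (p := p) H
    have hpg := H3.map_pCore_isPGroup (p := p) H
    obtain ⟨N, q, hq, hNn, hN0, hNle, hNe, -⟩ := H3.exists_minimal_normal_elementary_le
      ((pCore p H).map H.subtype) (by have := hpg.isNilpotent; infer_instance) h1
    have hqp : q = p := by
      obtain ⟨x, hx, hx1⟩ := (Subgroup.bot_or_exists_ne_one N).resolve_left hN0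
      obtain ⟨k, hk⟩ := IsPGroup.iff_orderOf.mp hpg ⟨x, hNle hx⟩
      rw [Subgroup.orderOf_mk] at hk
      have h2 : orderOf x = q := orderOf_eq_prime_iff (hp := ⟨hq⟩) |>.mpr ⟨hNe.2 x hx, hx1⟩
      rw [h2] at hk
      exact (Nat.prime_dvd_prime_iff_eq hq hpp.out).mp (hq.dvd_of_dvd_pow hk.dvd)
    subst hqp
    obtain ⟨hdN, hc | hc⟩ := hC.dichotomy hN0 hNe.2
    · have hcyc : IsCyclic P := by
        rcases H5.isCyclic_or_quaternion_of_unique P.isPGroup' (fun x y hx hy => by
          have hx' : (x : G) ∈ N := hC.mem_of_orderOf_dvd (k := 1)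
            (by rw [Subgroup.orderOf_coe, hx, pow_one]) (by rwa [pow_one])
          have hy' : (y : G) ∈ N := hC.mem_of_orderOf_dvd (k := 1)
            (by rw [Subgroup.orderOf_coe, hy, pow_one]) (by rwa [pow_one])
          have h3 : Subgroup.zpowers (y : G) = N := Subgroup.eq_of_le_of_card_ge
            (Subgroup.zpowers_le_of_mem hy') (by rw [Nat.card_zpowers, Subgroup.orderOf_coe, hy, hc])
          rw [← h3] at hx'
          obtain ⟨k, hk⟩ := hx'
          exact ⟨k, Subtype.ext (by simpa using hk)⟩) with h | ⟨h, -⟩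
        · exact h
        · exact absurd h hp
      exact ⟨inferInstance, Or.inr hcyc⟩
    · have h2 := hc P P.isPGroup'
      refine ⟨⟨⟨fun a b => Subtype.ext ?_⟩⟩, Or.inl (h2.trans (hNle.trans (Subgroup.map_subtype_le _)))⟩
      have := congrArg Subtype.val (hNe.1.is_comm.comm (⟨a, h2 a.2⟩ : N) ⟨b, h2 b.2⟩)
      exact this
  · set O := (pPrimeCore p H).map H.subtype with hOdef
    have : O.Normal := H3.map_pPrimeCore_normal H
    have hO0 : O ≠ ⊥ := by
      rwa [Ne, Subgroup.map_eq_bot_iff_of_injective _ H.subtype_injective]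
    have hOc : (Nat.card O).Coprime p := H3.map_pPrimeCore_coprime H
    have hOH : O ≤ H := Subgroup.map_subtype_le _
    have hf := QuotientGroup.mk'_surjective O
    have : (H.map (QuotientGroup.mk' O)).Normal := Subgroup.Normal.map inferInstance _ hf
    have hcm : (H.map (QuotientGroup.mk' O)).comap (QuotientGroup.mk' O) = H := by
      rw [Subgroup.comap_map_eq, QuotientGroup.ker_mk', sup_of_le_left hOH]
    obtain ⟨h1, h2⟩ := ih _ (H2.card_quotient_lt_of_ne_bot hO0) (G ⧸ O) rfl (hC.of_surjective hf)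
      (P.mapSurjective hf) (H.map (QuotientGroup.mk' O))
      (H24.isPSolvable_of_surjective hpp.out ((QuotientGroup.mk' O).subgroupMap H)
        (MonoidHom.subgroupMap_surjective _ _) hs) (by
        rw [← hcm, H3.card_comap_mk'] at hd
        exact hOc.symm.dvd_of_dvd_mul_left hd)
    have hinj : Function.Injective ((QuotientGroup.mk' O).subgroupMap (P : Subgroup G)) := by
      rw [injective_iff_map_eq_one]
      intro a ha
      have h3 : (a : G) ∈ (P : Subgroup G) ⊓ O :=
        ⟨a.2, (QuotientGroup.eq_one_iff _).mp (congrArg Subtype.val ha)⟩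
      rw [H3.inf_eq_bot_of_isPGroup_of_coprime P.isPGroup' hOc] at h3
      exact Subtype.ext h3
    refine ⟨⟨⟨fun a b => hinj ?_⟩⟩, ?_⟩
    · rw [map_mul, map_mul]
      exact h1.is_comm.comm _ _
    · rcases h2 with h2 | h2
      · left
        rw [← hcm, ← Subgroup.map_le_iff_le_comap]
        exact h2
      · right
        have : IsCyclic ((P : Subgroup G).map (QuotientGroup.mk' O)) := h2
        exact isCyclic_of_injective _ hinj

/-- Let p be an odd prime and G a finite group in which any two p-subgroups of the same order are conjugate, with Sylow p-subgroup P. If H is a normal p-solvable subgroup of G whose order is divisible by p, then P is abelian, and either P ≤ H or P is cyclic. -/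
theorem result {G : Type*} [Group G] [Finite G]
    {p : ℕ} [Fact p.Prime] (hp : p ≠ 2) (hC : ∀ H K : Subgroup G, IsPGroup p H → IsPGroup p K → Nat.card H = Nat.card K →
      ∃ g : G, K = H.map (MulAut.conj g).toMonoidHom) (P : Sylow p G)
    (H : Subgroup G) [H.Normal] (hsolv : Cfsg.IsPSolvable p H) (hdiv : p ∣ Nat.card H) :
    IsMulCommutative P ∧ ((P : Subgroup G) ≤ H ∨ IsCyclic P) := by
  exact aux hp _ G rfl hC P H hsolv hdiv

end Cfsg.Agent.S4024
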