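import Cfsg.Statements.S4027
import Cfsg.Agent.H91.ConjSub
import Cfsg.Agent.H9.BaerSuzuki

set_option autoImplicit false
open Cfsg

namespace Cfsg.Agent.S4027

open Pointwise

theorem noReal_quot {G : Type*} [Group G] [Finite G] (O : Subgroup G) [O.Normal]
    (hO : IsPGroup 2 O) (h : ∀ x g : G, Odd (orderOf x) → g * x * g⁻¹ = x⁻¹ → x = 1)
    (x g : G ⧸ O) (hx : Odd (orderOf x)) (hg : g * x * g⁻¹ = x⁻¹) : x = 1 := by
  obtain ⟨x, rfl⟩ := QuotientGroup.mk'_surjective O x
  obtain ⟨g, rfl⟩ := QuotientGroup.mk'_surjective O g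
  set f := QuotientGroup.mk' O with hf
  obtain ⟨k, m, hm, hkm⟩ := Nat.exists_eq_two_pow_mul_odd (orderOf_pos x).ne'
  set y := x ^ 2 ^ k with hy
  have hyo : orderOf y = m := by
    rw [hy, orderOf_pow_of_dvd (by positivity) (hkm ▸ dvd_mul_right _ _), hkm,
      Nat.mul_div_cancel_left _ (by positivity)]
  have hgy : f g * f y * (f g)⁻¹ = (f y)⁻¹ := by
    rw [hy, map_pow, ← conj_pow, hg, inv_pow]
  obtain ⟨j, hj⟩ := IsPGroup.iff_card.mp hO
  have hcop : ∀ z : G, orderOf z = m → (Nat.card O).Coprime (Nat.card (Subgroup.zpowers z)) := by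
    intro z hz
    rw [Nat.card_zpowers, hz, hj]
    exact Nat.Coprime.pow_left _ ((Nat.coprime_two_left).mpr hm)
  have hz : orderOf (g * y * g⁻¹) = m := by
    rw [← hyo]; exact (MulAut.conj g).orderOf_eq y
  have hsup : Subgroup.zpowers (g * y * g⁻¹) ⊔ O = Subgroup.zpowers y ⊔ O := by
    have h1 : (Subgroup.zpowers (g * y * g⁻¹)).map f = (Subgroup.zpowers y).map f := by
      rw [MonoidHom.map_zpowers, MonoidHom.map_zpowers, map_mul, map_mul, map_inv, hgy,
        Subgroup.zpowers_inv]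
    have := congrArg (Subgroup.comap f) h1
    rwa [Subgroup.comap_map_eq, Subgroup.comap_map_eq, hf, QuotientGroup.ker_mk'] at this
  have hs : Group.IsSolvable O := by
    have := hO.isNilpotent
    infer_instance
  obtain ⟨n, hn, hnc⟩ := H91.exists_conj_of_sup_eq O hs (hcop _ hz) (hcop _ hyo) hsup
  have h1 : n * (g * y * g⁻¹) * n⁻¹ ∈ Subgroup.zpowers y := by
    rw [← hnc, H2.mem_conj_smul_iff]
    simp [mul_assoc]
  have hfn : f n = 1 := (QuotientGroup.eq_one_iff n).mpr hn
  have h2 : n * (g * y * g⁻¹) * n⁻¹ * y ∈ O ⊓ Subgroup.zpowers y := by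
    refine ⟨?_, Subgroup.mul_mem _ h1 (Subgroup.mem_zpowers y)⟩
    rw [← QuotientGroup.ker_mk' O]
    change f _ = 1
    simp only [map_mul, map_inv, hfn, hgy]
    simp
  rw [disjoint_iff.mp (Subgroup.disjoint_of_coprime_natCard (hcop _ hyo)), Subgroup.mem_bot] at h2
  have h3 : y = 1 := h y (n * g) (hyo ▸ hm) (by
    rw [eq_inv_iff_mul_eq_one, ← h2]; group)
  have h4 : f x ^ 2 ^ k = 1 := by rw [← map_pow, ← hy, h3, map_one]
  have h5 := orderOf_dvd_of_pow_eq_one h4
  exact orderOf_eq_one_iff.mp (Nat.eq_one_of_dvd_coprimes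
    (Nat.Coprime.pow_left k ((Nat.coprime_two_left).mpr hx)) h5 dvd_rfl)

/-- Let G be a finite group in which every element x of odd order satisfies N_G(⟨x⟩) = C_G(x). Then the Sylow 2-subgroups of G are normal. -/
theorem result {G : Type*} [Group G] [Finite G]
    (hirr : ∀ x : G, (∀ r : ℕ, r.Prime → r ∣ orderOf x → r ≠ 2) →
      Subgroup.normalizer ((Subgroup.zpowers x : Subgroup G) : Set G) ≤ Subgroup.centralizer {x}) (P : Sylow 2 G) :
    (P : Subgroup G).Normal := by
  have h1 : ∀ x g : G, Odd (orderOf x) → g * x * g⁻¹ = x⁻¹ → x = 1 := by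
    intro x g hx hg
    have hn : g ∈ Subgroup.normalizer ((Subgroup.zpowers x : Subgroup G) : Set G) := by
      rw [← H2.conj_smul_eq_iff_mem_normalizer]
      change (Subgroup.zpowers x).map (MulAut.conj g).toMonoidHom = _
      rw [MonoidHom.map_zpowers]
      change Subgroup.zpowers (g * x * g⁻¹) = _
      rw [hg, Subgroup.zpowers_inv]
    have hc := hirr x (fun r _ hr h2 => by
      subst h2; exact (Nat.not_even_iff_odd.mpr hx) (even_iff_two_dvd.mpr hr)) hn
    rw [Subgroup.mem_centralizer_iff] at hc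
    have h2 := hc x rfl
    have h3 : x ^ 2 = 1 := by
      have : g * x * g⁻¹ = x := by rw [← h2]; group
      rw [this] at hg
      rw [pow_two]; exact mul_eq_one_iff_eq_inv.mpr hg
    exact orderOf_eq_one_iff.mp (Nat.eq_one_of_dvd_coprimes
      ((Nat.coprime_two_left).mpr hx) (orderOf_dvd_of_pow_eq_one h3) dvd_rfl)
  have h2 := noReal_quot (pCore 2 G) (H3.pCore_isPGroup 2 G) h1
  have h3 : ¬ 2 ∣ (pCore 2 G).index := by
    intro hd
    obtain ⟨t, ht⟩ := exists_prime_orderOf_dvd_card' (G := G ⧸ pCore 2 G) 2 hd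
    have ht1 : t ≠ 1 := by rintro rfl; simp at ht
    obtain ⟨a, ha, hao, hta⟩ := H9.exists_odd_inverted_of_not_mem_pCore (t := t)
      (by rw [← pow_two]; exact orderOf_dvd_iff_pow_eq_one.mp ht.dvd)
      (by rw [H3.pCore_quotient_pCore]; simpa using ht1)
    exact ha (h2 a t hao hta)
  have h4 : (P : Subgroup G) = pCore 2 G :=
    (((H3.pCore_isPGroup 2 G).toSylow h3).is_maximal' P.isPGroup' (H3.pCore_le_sylow P))
  rw [h4]; infer_instance

end Cfsg.Agent.S4027
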