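import Cfsg.Statements.S4029
import Cfsg.Agent.H89.PBasic
import Cfsg.Agent.H11.ZassCount
import Cfsg.Agent.H9.InvCount

set_option autoImplicit false
open Cfsg

namespace Cfsg.Agent.S4029

open Subgroup H89 Finset

/-- Let P be a finite 2-group in which N_P(⟨y⟩) = C_P(y) for every y ∈ P. If s is the number of conjugacy classes of involutions of P, then #(P/Φ(P)) ≤ s + 1; in particular the subgroup generated by the involutions of P has order at least #(P/Φ(P)). -/
theorem result {P : Type*} [Group P] [Finite P] (hP : IsPGroup 2 P)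
    (hirr : ∀ y : P, Subgroup.normalizer ((Subgroup.zpowers y : Subgroup P) : Set P) ≤ Subgroup.centralizer {y}) :
    Nat.card (P ⧸ frattini P) ≤ Nat.card {c : ConjClasses P // ∃ y : P, ConjClasses.mk y = c ∧ orderOf y = 2} + 1 ∧
    Nat.card (P ⧸ frattini P) ≤ Nat.card (Subgroup.closure {y : P | orderOf y = 2}) := by
  classical
  have := Fact.mk Nat.prime_two
  have := Fintype.ofFinite P
  have h1 : ∀ x g : P, (x * g) ^ 2 = g ^ 2 ↔ x ^ 2 = 1 ∧ g ∈ centralizer {x} := fun x g => by
    have h1 : (x * g) ^ 2 = g ^ 2 ↔ g * x * g⁻¹ = x⁻¹ := by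
      rw [sq, sq, ← mul_assoc, mul_left_inj, mul_inv_eq_iff_eq_mul, eq_inv_mul_iff_mul_eq, mul_assoc]
    rw [h1, H9.mem_centralizer_singleton]
    refine ⟨fun h => ?_, fun h => by rw [h.2, eq_inv_iff_mul_eq_one, ← sq, h.1]⟩
    have h2 : g * x * g⁻¹ = x := H9.mem_centralizer_singleton.1 (hirr x (mem_normalizer_fintype ?_))
    · exact ⟨by rw [sq, ← eq_inv_iff_mul_eq_one, ← h, h2], h2⟩
    · rintro _ ⟨k, rfl⟩
      rw [← conj_zpow, h]
      exact zpow_mem (inv_mem (mem_zpowers x)) k
  have h2 : ∑ s ∈ univ.filter (· ∈ frattini P), #(univ.filter fun a : P => a ^ 2 = s) ^ 2 =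
      ∑ x with x ^ 2 = 1, Nat.card (centralizer ({x} : Set P)) := by
    calc _ = ∑ s ∈ univ.filter (· ∈ frattini P), ∑ g with g ^ 2 = s,
          #(univ.filter fun a : P => a ^ 2 = g ^ 2) := by
          refine sum_congr rfl fun s _ => ?_
          rw [sum_congr rfl (g := fun _ => #(univ.filter fun a : P => a ^ 2 = s)) fun g hg => by
            rw [(mem_filter.1 hg).2], sum_const, smul_eq_mul, sq]
      _ = ∑ g : P, #(univ.filter fun a : P => a ^ 2 = g ^ 2) :=
          sum_fiberwise_of_maps_to (fun g _ => by simpa using pow_mem_frattini hP g) _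
      _ = ∑ g : P, ∑ x : P, if x ^ 2 = 1 ∧ g ∈ centralizer {x} then 1 else 0 := by
          refine sum_congr rfl fun g _ => ?_
          rw [card_filter]
          exact (Fintype.sum_equiv (Equiv.mulRight g) _ _ fun x => by
            simp only [Equiv.coe_mulRight, h1]).symm
      _ = _ := by
          rw [sum_comm, sum_filter]
          refine sum_congr rfl fun x _ => ?_
          split_ifs with h
          · simp only [h, true_and]
            rw [Nat.card_eq_fintype_card, Fintype.card_subtype, card_filter]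
          · simp [h]
  have h3 : ∑ s ∈ univ.filter (· ∈ frattini P), #(univ.filter fun a : P => a ^ 2 = s) =
      Nat.card P := by
    rw [Nat.card_eq_fintype_card, ← card_univ]
    exact (card_eq_sum_card_fiberwise fun g _ => by simpa using pow_mem_frattini hP g).symm
  have h4 := H11.sum_card_centralizer
    fun c : ConjClasses P => ∃ y : P, ConjClasses.mk y = c ∧ y ^ 2 = 1
  rw [filter_congr (q := fun x => x ^ 2 = 1) fun x _ => ⟨by
    rintro ⟨y, h, hy⟩
    obtain ⟨g, rfl⟩ := isConj_iff.1 (ConjClasses.mk_eq_mk_iff_isConj.1 h)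
    rw [conj_pow, hy, mul_one, mul_inv_cancel], fun h => ⟨x, rfl, h⟩⟩] at h4
  have h5 := sq_sum_le_card_mul_sum_sq (s := univ.filter (· ∈ frattini P))
    (f := fun s => #(univ.filter fun a : P => a ^ 2 = s))
  rw [h2, h3, h4, ← Fintype.card_subtype, ← Nat.card_eq_fintype_card, sq, ← mul_assoc] at h5
  have h6 := Nat.le_of_mul_le_mul_right h5 Nat.card_pos
  rw [← (frattini P).card_mul_index] at h6
  have h7 := Nat.le_of_mul_le_mul_left h6 Nat.card_pos
  refine ⟨h7.trans ?_, h7.trans ?_⟩
  · rw [← H9.card_subtype_add_one (a := ConjClasses.mk 1) ⟨1, rfl, one_pow 2⟩]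
    refine Nat.succ_le_succ (H9.card_subtype_le_of_imp ?_)
    rintro _ ⟨⟨y, rfl, hy⟩, h8⟩
    exact ⟨y, rfl, orderOf_eq_prime hy fun h => h8 (h ▸ rfl)⟩
  · refine Nat.card_le_card_of_injective (fun c => ⟨c.2.choose, ?_⟩) fun a b h =>
      Subtype.ext (a.2.choose_spec.1.symm.trans ((congrArg _ (Subtype.mk.inj h)).trans
        b.2.choose_spec.1))
    by_cases h8 : c.2.choose = 1
    · rw [h8]; exact one_mem _
    · exact subset_closure (orderOf_eq_prime c.2.choose_spec.2 h8)

end Cfsg.Agent.S4029
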