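import Cfsg.Statements.S4032
import Cfsg.Agent.S3800
import Cfsg.Agent.S4028

set_option autoImplicit false
open Cfsg

namespace Cfsg.Agent.S4032

/-- An element commuting with every prime-power-order power of `y` commutes with `y`. -/
theorem commute_of_prime_power_parts {G : Type*} [Group G] [Finite G] (g : G) (n : ℕ) :
    ∀ y : G, orderOf y = n →
      (∀ (a p k : ℕ), p.Prime → p ∣ orderOf y → orderOf (y ^ a) = p ^ k → Commute (y ^ a) g) →
      Commute y g := by
  induction n using Nat.strong_induction_on with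
  | _ n ih =>
  intro y hy h
  by_cases h1 : orderOf y = 1
  · rw [orderOf_eq_one_iff.mp h1]; exact Commute.one_left g
  obtain ⟨p, hp, hpd⟩ := Nat.exists_prime_and_dvd h1
  obtain ⟨a, b, hab, ⟨k, hk⟩, hb⟩ := H91.exists_p_parts hp y (isOfFinOrder_of_finite y)
  rw [← hab]
  refine (h a p k hp hpd hk).mul_left (ih (orderOf (y ^ b)) ?_ _ rfl ?_)
  · rw [← hy]
    refine lt_of_le_of_ne (Nat.le_of_dvd (orderOf_pos y) (orderOf_pow_dvd b)) fun e => ?_
    rw [e] at hb
    exact (Nat.Prime.coprime_iff_not_dvd hp).mp hb.symm hpd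
  · intro c q j hq hqd hj
    rw [← pow_mul] at hj ⊢
    exact h _ q j hq (hqd.trans (orderOf_pow_dvd b)) hj

/-- Let π be a set of primes and G a finite group in which N_G(⟨x⟩) = C_G(x) for every π-element x. If N is a normal subgroup of G whose order is divisible by no prime of π, then G/N has the same property: N_{G/N}(⟨y⟩) = C_{G/N}(y) for every π-element y of G/N. -/
theorem result {G : Type*} [Group G] [Finite G] (π : Set ℕ)
    (hirr : ∀ x : G, (∀ r : ℕ, r.Prime → r ∣ orderOf x → r ∈ π) →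
      Subgroup.normalizer ((Subgroup.zpowers x : Subgroup G) : Set G) ≤ Subgroup.centralizer {x})
    (N : Subgroup G) [N.Normal] (hN : ∀ r : ℕ, r.Prime → r ∣ Nat.card N → r ∉ π) :
    ∀ y : G ⧸ N, (∀ r : ℕ, r.Prime → r ∣ orderOf y → r ∈ π) →
      Subgroup.normalizer ((Subgroup.zpowers y : Subgroup (G ⧸ N)) : Set (G ⧸ N)) ≤ Subgroup.centralizer {y} := by
  intro y hy g hg
  rw [H91.mem_centralizer_singleton]
  refine commute_of_prime_power_parts g _ y rfl fun a p k hp hpd hk => ?_
  have : Fact p.Prime := ⟨hp⟩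
  have hpπ := hy p hp hpd
  have hNp : (Nat.card N).Coprime p :=
    ((Nat.Prime.coprime_iff_not_dvd hp).mpr fun h => hN p hp h hpπ).symm
  set w := y ^ a with hw
  have hgw : g ∈ Subgroup.normalizer ((Subgroup.zpowers w : Subgroup (G ⧸ N)) : Set (G ⧸ N)) := by
    rw [S4028.mem_normalizer_zpowers_iff] at hg ⊢
    obtain ⟨j, hj⟩ := hg
    refine ⟨j, ?_⟩
    simp only at hj ⊢
    rw [hw, ← conj_pow, ← hj, ← zpow_natCast, ← zpow_natCast, ← zpow_mul, ← zpow_mul, mul_comm]
  -- lift w to a p-element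
  obtain ⟨x0, hx0⟩ := QuotientGroup.mk'_surjective N w
  obtain ⟨c, d, hcd, ⟨j, hj⟩, hd⟩ := H91.exists_p_parts hp x0 (isOfFinOrder_of_finite x0)
  have hd1 : QuotientGroup.mk' N (x0 ^ d) = 1 := by
    rw [← orderOf_eq_one_iff]
    refine Nat.eq_one_of_dvd_coprimes (hd.pow_right k) (orderOf_map_dvd _ _) ?_
    rw [map_pow, hx0, ← hk]
    exact orderOf_pow_dvd d
  have hx : QuotientGroup.mk' N (x0 ^ c) = w := by
    rw [← hx0]; conv_rhs => rw [← hcd, map_mul, hd1, mul_one]
  set x := x0 ^ c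
  have hmap : (Subgroup.zpowers x).map (QuotientGroup.mk' N) = Subgroup.zpowers w := by
    rw [MonoidHom.map_zpowers, hx]
  rw [← hmap, (S3800.result N hNp _ (H91.isPGroup_zpowers_of_orderOf hj)).1] at hgw
  obtain ⟨t, ht, rfl⟩ := hgw
  have h2 := hirr x (fun r hr hrd => by
    rw [hj] at hrd
    rwa [(Nat.prime_dvd_prime_iff_eq hr hp).mp (hr.dvd_of_dvd_pow hrd)]) ht
  rw [H91.mem_centralizer_singleton] at h2
  rw [← hx, Commute, SemiconjBy, ← map_mul, ← map_mul, h2]

end Cfsg.Agent.S4032
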