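import Cfsg.Statements.S4036


set_option autoImplicit false
open Cfsg

namespace Cfsg.Agent.S4036

/-- Let P be a finite abelian p-group and K a group of automorphisms of P (a subgroup of Aut P) whose order is divisible by p. If all non-identity elements of K have the same fixed-point subgroup on P, then K has no non-trivial normal subgroup of order prime to p. -/
theorem result {P : Type*} [CommGroup P] [Finite P] {p : ℕ}
    [Fact p.Prime] (hP : IsPGroup p P) (K : Subgroup (MulAut P)) (hK : p ∣ Nat.card K)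
    (hfix : ∀ x y : MulAut P, x ∈ K → y ∈ K → x ≠ 1 → y ≠ 1 → ∀ v : P, x v = v ↔ y v = v) :
    ∀ N : Subgroup ↥K, N.Normal → ¬ p ∣ Nat.card N → N = ⊥ := by
  classical
  intro N hN hpN
  have hp : p.Prime := Fact.out
  by_contra hNbot
  have : Finite (MulAut P) := Finite.of_injective _ (DFunLike.coe_injective (F := MulAut P))
  have : Fintype N := Fintype.ofFinite _
  -- the norm map
  let τ : P →* P :=
    { toFun := fun v => ∏ n : N, ((n : K) : MulAut P) v
      map_one' := by simp
      map_mul' := fun a b => by simp [Finset.prod_mul_distrib] }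
  have hτ : ∀ v, τ v = ∏ n : N, ((n : K) : MulAut P) v := fun v => rfl
  have hτN : ∀ (m : N) v, τ (((m : K) : MulAut P) v) = τ v := by
    intro m v
    rw [hτ, hτ]
    exact Fintype.prod_equiv (Equiv.mulRight m) _ _ (fun n => by simp)
  have hτK : ∀ (k : K) v, τ v = 1 → τ ((k : MulAut P) v) = 1 := by
    intro k v hv
    have : τ ((k : MulAut P) v) = (k : MulAut P) (τ v) := by
      rw [hτ, hτ, map_prod]
      refine (Fintype.prod_equiv (MulAut.conjNormal (H := N) k).toEquiv _ _ (fun n => ?_)).symm
      simp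
    rw [this, hv, map_one]
  obtain ⟨m, hm1⟩ := Subgroup.ne_bot_iff_exists_ne_one.mp hNbot
  have hm1' : ((m : K) : MulAut P) ≠ 1 := fun h => hm1 (Subtype.ext (Subtype.ext h))
  obtain ⟨w, hw⟩ : ∃ w, ((m : K) : MulAut P) w ≠ w := by
    by_contra h
    push Not at h
    exact hm1' (MulEquiv.ext h)
  have hker : τ.ker ≠ ⊥ := by
    intro h
    have h1 : ((m : K) : MulAut P) w * w⁻¹ ∈ τ.ker := by
      rw [MonoidHom.mem_ker, map_mul, map_inv, hτN, mul_inv_cancel]
    rw [h, Subgroup.mem_bot, mul_inv_eq_one] at h1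
    exact hw h1
  obtain ⟨x, hx⟩ := exists_prime_orderOf_dvd_card' p hK
  have hx1 : (x : MulAut P) ≠ 1 := by
    intro h
    have : x = 1 := Subtype.ext h
    rw [this, orderOf_one] at hx
    exact hp.one_lt.ne hx
  -- action of zpowers x on the kernel
  let X := Subgroup.zpowers x
  have hX : IsPGroup p X := IsPGroup.of_card (n := 1) (by rw [Nat.card_zpowers, hx, pow_one])
  letI : MulAction X τ.ker :=
    { smul := fun y v => ⟨((y : K) : MulAut P) v, hτK _ _ v.2⟩
      one_smul := fun v => Subtype.ext (by change ((1 : K) : MulAut P) v = v; simp)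
      mul_smul := fun a b v => Subtype.ext rfl }
  have hdvd : p ∣ Nat.card τ.ker := by
    rcases (hP.to_subgroup τ.ker).card_eq_or_dvd with h | h
    · exact absurd (Subgroup.card_eq_one.mp h) hker
    · exact h
  obtain ⟨v, hv, hv1⟩ := hX.exists_fixed_point_of_prime_dvd_card_of_fixed_point τ.ker hdvd
    (a := 1) (fun y => Subtype.ext (map_one ((y : K) : MulAut P)))
  have hxv : (x : MulAut P) v = v := congrArg Subtype.val (hv ⟨x, Subgroup.mem_zpowers x⟩)
  have hall : ∀ n : N, ((n : K) : MulAut P) v = v := by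
    intro n
    by_cases hn : ((n : K) : MulAut P) = 1
    · rw [hn]; rfl
    · exact (hfix _ _ x.2 (n : K).2 hx1 hn v).mp hxv
  have h2 : (v : P) ^ Nat.card N = 1 := by
    have := v.2
    rw [MonoidHom.mem_ker, hτ] at this
    simpa [hall, Nat.card_eq_fintype_card] using this
  have h3 : (orderOf (v : P)).Coprime (Nat.card N) :=
    hP.orderOf_coprime ((Nat.Prime.coprime_iff_not_dvd hp).mpr hpN) _
  have h4 : orderOf (v : P) = 1 := Nat.Coprime.eq_one_of_dvd h3 (orderOf_dvd_of_pow_eq_one h2)
  exact hv1 (Subtype.ext (orderOf_eq_one_iff.mp h4).symm)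

end Cfsg.Agent.S4036
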