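import Cfsg.Statements.S4038
import Cfsg.Agent.H88.MaxNilp
import Cfsg.Agent.H4.CoprimeExt
import Cfsg.Agent.S0205

set_option autoImplicit false
open Cfsg

namespace Cfsg.Agent.S4038

open Subgroup SemidirectProduct

/-- Let A and G be finite groups of coprime orders with A acting on G by automorphisms. Suppose G has a proper A-invariant subgroup M, maximal among proper A-invariant subgroups, which is nilpotent and whose Sylow 2-subgroups have nilpotency class at most 2. Then G is solvable. -/
theorem result {G A : Type*} [Group G] [Finite G]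
    [Group A] [Finite A] (φ : A →* MulAut G) (hcop : (Nat.card A).Coprime (Nat.card G))
    (M : Subgroup G) (hMtop : M ≠ ⊤) (hMinv : ∀ a : A, ∀ m : G, m ∈ M → φ a m ∈ M)
    (hMmax : ∀ H : Subgroup G, M ≤ H → H ≠ ⊤ → (∀ a : A, ∀ h : G, h ∈ H → φ a h ∈ H) → H = M)
    (hnil : Group.IsNilpotent M) (h2 : ∀ S : Sylow 2 ↥M, Group.nilpotencyClass ↥(S : Subgroup ↥M) ≤ 2) :
    Group.IsSolvable G := by
  rcases Nat.even_or_odd (Nat.card G) with hev | hodd
  swap
  · exact S0205.result hodd
  have hA : Group.IsSolvable A := S0205.result (Nat.coprime_two_right.mp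
    (hcop.coprime_dvd_right hev.two_dvd))
  have := H4.Ext.finite_semidirect φ
  let K : Subgroup (G ⋊[φ] A) := (rightHom : G ⋊[φ] A →* A).ker
  have hK : K = (inl : G →* G ⋊[φ] A).range := range_inl_eq_ker_rightHom.symm
  let T : Subgroup (G ⋊[φ] A) :=
    { carrier := {g | g.left ∈ M}
      mul_mem' := fun {x y} hx hy => M.mul_mem hx (hMinv _ _ hy)
      one_mem' := M.one_mem
      inv_mem' := fun {x} hx => hMinv _ _ (M.inv_mem hx) }
  have hTK : T ⊓ K = M.map inl := by
    ext x
    constructor
    · rintro ⟨h1, h3⟩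
      refine ⟨x.left, h1, ?_⟩
      have h4 : x.right = 1 := h3
      ext <;> simp [h4]
    · rintro ⟨m, hm, rfl⟩
      exact ⟨hm, by simp [K]⟩
  have hidx : K.index = Nat.card A := by
    rw [index_ker, MonoidHom.range_eq_top.mpr rightHom_surjective, card_top]
  have hcK : Nat.card K = Nat.card G := by
    rw [hK, MonoidHom.range_eq_map, card_map_of_injective inl_injective, card_top]
  refine H88.isSolvable_of_injective' inl inl_injective
    (H88.solvable_of_max_nilpotent_aux _ _ K T rfl (by rw [hidx, hcK]; exact hcop.symm) ?_ ?_ ?_ ?_)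
  · exact H88.isSolvable_of_injective' _ (QuotientGroup.kerLift_injective _) hA
  · refine ⟨fun h => hMtop ((eq_top_iff' _).mpr fun g => ?_), fun H hH => ?_⟩
    · have : (inl g : G ⋊[φ] A) ∈ T := h ▸ mem_top _
      exact this
    · have hr : ∀ a, (inr a : G ⋊[φ] A) ∈ H := fun a => hH.le M.one_mem
      by_contra hne
      have := hMmax (H.comap inl) (fun m hm => hH.le hm) (fun h => hne ((eq_top_iff' _).mpr
        fun x => by
          rw [← inl_left_mul_inr_right x]
          exact H.mul_mem (show x.left ∈ H.comap inl from h ▸ mem_top _) (hr _))) (fun a h hh => by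
        rw [mem_comap, inl_aut]
        exact H.mul_mem (H.mul_mem (hr _) hh) (hr _))
      refine hH.ne (le_antisymm hH.le fun x hx => ?_)
      change x.left ∈ M
      rw [← this, mem_comap]
      rw [← inl_left_mul_inr_right x] at hx
      exact (mul_mem_cancel_right (hr _)).mp hx
  · rw [hTK]; exact H88.isNilpotent_map' _ hnil
  · intro S hS hS2
    rw [hTK] at hS
    let f : M →* G ⋊[φ] A := (inl : G →* G ⋊[φ] A).comp M.subtype
    have hf : Function.Injective f := inl_injective.comp M.subtype_injective
    obtain ⟨P, hP⟩ := (hS2.comap_of_injective f hf).exists_le_sylow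
    have h3 : S ≤ (P : Subgroup M).map f := by
      intro s hs
      obtain ⟨m, hm, rfl⟩ := hS hs
      exact ⟨⟨m, hm⟩, hP hs, rfl⟩
    have : Group.IsNilpotent P := P.2.isNilpotent
    have h1 := Subgroup.lowerCentralSeries_eq_bot_iff_nilpotencyClass_le.mpr (h2 P)
    have h4 : ⁅⁅(P : Subgroup M), (P : Subgroup M)⁆, (P : Subgroup M)⁆ = ⊥ := by
      have := congrArg (map (P : Subgroup M).subtype) h1
      rw [top_subtype_lowerCentralSeries, Subgroup.map_bot] at this
      exact this
    have h5 := congrArg (map f) h4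
    rw [map_commutator, map_commutator, Subgroup.map_bot] at h5
    exact le_bot_iff.mp (h5 ▸ commutator_mono (commutator_mono h3 h3) h3)

end Cfsg.Agent.S4038
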