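import Cfsg.Statements.S4043
import Cfsg.Agent.H88.Basic
import Cfsg.Agent.H8.Residual
import Cfsg.Agent.H5.FPFSolvable

set_option autoImplicit false
open Cfsg

namespace Cfsg.Agent.S4043

open Subgroup Pointwise
open scoped commutatorElement

theorem map_res {G : Type*} [Group G] [Finite G] {p : ℕ} [Fact p.Prime] (N : Subgroup G)
    [N.Normal] {A : Subgroup G} (hA : A.IsComplement' N) :
    ((pResidual p A).map A.subtype).map (QuotientGroup.mk' N) = pResidual p (G ⧸ N) ∧
    Nat.card ((pResidual p A).map A.subtype) = Nat.card (pResidual p (G ⧸ N)) := by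
  have hs : Function.Surjective ((QuotientGroup.mk' N).comp A.subtype) := by
    intro x
    obtain ⟨x, rfl⟩ := QuotientGroup.mk'_surjective N x
    obtain ⟨⟨a, n⟩, rfl⟩ := (hA.existsUnique x).exists
    exact ⟨a, by simp [(QuotientGroup.eq_one_iff _).mpr n.2]⟩
  have hi : Function.Injective ((QuotientGroup.mk' N).comp A.subtype) := by
    rw [injective_iff_map_eq_one]
    intro a ha
    exact Subtype.ext (disjoint_def.mp hA.disjoint a.2 ((QuotientGroup.eq_one_iff _).mp ha))
  have h1 := H8.map_pResidual_of_surjective (p := p) hs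
  refine ⟨by rw [map_map, h1], ?_⟩
  rw [← h1, card_map_of_injective hi, H3.card_map_subtype]

/-- Let G be a finite group that is the semidirect product of a normal p-subgroup N by a subgroup A, and also of N by a subgroup A₁, where p is a prime and A and A₁ both have normal p-complements. If C_N(A) = C_N(A₁) = 1, then A₁ is conjugate to A by an element of N. -/
theorem result {G : Type*} [Group G] [Finite G] {p : ℕ}
    [Fact p.Prime] (N : Subgroup G) [N.Normal] (hN : IsPGroup p N) (A A₁ : Subgroup G)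
    (hA : A.IsComplement' N) (hA₁ : A₁.IsComplement' N)
    (hAp : Cfsg.HasNormalPComplement p A) (hA₁p : Cfsg.HasNormalPComplement p A₁)
    (hC : ∀ n : G, n ∈ N → (∀ a : G, a ∈ A → a * n * a⁻¹ = n) → n = 1)
    (hC₁ : ∀ n : G, n ∈ N → (∀ a : G, a ∈ A₁ → a * n * a⁻¹ = n) → n = 1) :
    ∃ n : G, n ∈ N ∧ A₁ = A.map (MulAut.conj n).toMonoidHom := by
  set K := (pResidual p A).map A.subtype
  set K₁ := (pResidual p A₁).map A₁.subtype
  obtain ⟨h1, h2⟩ := map_res (p := p) N hA
  obtain ⟨h3, h4⟩ := map_res (p := p) N hA₁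
  have hK : (Nat.card K).Coprime p := by
    rw [H3.card_map_subtype]; exact H8.hasNormalPComplement_iff_coprime.mp hAp
  have hle : K₁ ≤ N ⊔ K := by
    have := le_comap_map (QuotientGroup.mk' N) K₁
    rwa [h3, ← h1, comap_map_eq, QuotientGroup.ker_mk', sup_comm] at this
  obtain ⟨n, hn, he⟩ := H4.exists_conj_eq_of_le_sup (A := K) (K := N) le_normalizer_of_normal
    (H4.coprime_card_of_isPGroup hK hN) (Or.inr (H4.isSolvable_of_isPGroup hN)) hle
    (h4.trans h2.symm)
  refine ⟨n, hn, ?_⟩
  have hAK : A ≤ normalizer (K : Set G) := le_normalizer.trans (H8.normalizer_le_normalizer_pResidual A)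
  -- `C_N(K) = 1`
  have hCK : N ⊓ centralizer (K : Set G) = ⊥ := by
    by_contra hne
    obtain ⟨S, hS⟩ := H8.exists_isSylowIn p A
    obtain ⟨z, hz, hz1, hzS⟩ := H5.exists_ne_one_mem_centralizer_of_isPGroup hS.isPGroup
      (hN.to_inf_left) hne (hS.le.trans (H4.le_normalizer_inf le_normalizer_of_normal
        (H4.le_normalizer_centralizer hAK)))
    refine hz1 (hC z hz.1 fun a ha => ?_)
    obtain ⟨s, hs, k, hk, rfl⟩ := hS.exists_mul_of_forall_coprime_mem (K := K)
      (fun g hg hc => H8.mem_map_subtype_pResidual hg hc) ha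
    rw [mul_inv_eq_iff_eq_mul, mul_assoc, hz.2 k hk, ← mul_assoc, hzS s hs, mul_assoc]
  have hNK : normalizer (K : Set G) ≤ A := by
    intro g hg
    obtain ⟨⟨a, m⟩, rfl⟩ := (hA.existsUnique g).exists
    have hm : (m : G) ∈ normalizer (K : Set G) := by
      have := mul_mem (inv_mem (hAK a.2)) hg
      simpa using this
    have : (m : G) ∈ N ⊓ centralizer (K : Set G) := by
      refine ⟨m.2, fun k hk => ?_⟩
      rw [← commutatorElement_eq_one_iff_mul_comm]
      refine disjoint_def.mp hA.disjoint (map_subtype_le _ (?_ : _ ∈ K)) ?_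
      · rw [commutatorElement_def, mul_assoc, mul_assoc, ← mul_assoc (m : G)]
        exact K.mul_mem hk (H4.conj_mem_of_mem_normalizer hm (K.inv_mem hk))
      · exact N.mul_mem (Subgroup.Normal.conj_mem inferInstance _ m.2 _) (N.inv_mem m.2)
    rw [hCK, mem_bot] at this
    simp [this]
  have h5 : A₁ ≤ MulAut.conj n • A := by
    refine (le_normalizer.trans (H8.normalizer_le_normalizer_pResidual (p := p) A₁)).trans ?_
    change normalizer (K₁ : Set G) ≤ _
    rw [← he, H8.normalizer_conj_smul]
    exact pointwise_smul_le_pointwise_smul_iff.mpr hNK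
  refine eq_of_le_of_card_ge h5 (le_of_eq ?_)
  rw [H8.map_conj_eq_smul, H8.card_conj_smul, ← hA.index_eq_card, ← hA₁.index_eq_card]

end Cfsg.Agent.S4043
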