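import Cfsg.Statements.S4051
import Cfsg.Agent.H94.PiClosed

set_option autoImplicit false
open Cfsg

namespace Cfsg.Agent.S4051

/-- Let π be a set of primes and G a finite group such that N_G(H)/C_G(H) is a π'-group for every nontrivial π'-subgroup H of G. If K is a normal subgroup of G such that the π-elements of K form a subgroup and the π-elements of G/K form a subgroup, then the π-elements of G form a subgroup. -/
theorem result {G : Type*} [Group G] [Finite G] (π : Set ℕ)
    (hπ : ∀ p ∈ π, p.Prime) (hhom : (∀ H : Subgroup G, H ≠ ⊥ → (∀ p : ℕ, p.Prime → p ∣ Nat.card ↥H → p ∉ π) →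
        ∀ p : ℕ, p.Prime → p ∣ (Subgroup.centralizer (H : Set G)).relIndex (Subgroup.normalizer (H : Set G)) → p ∉ π))
    (K : Subgroup G) [K.Normal]
    (hK : ∃ L : Subgroup ↥K, ∀ x : ↥K, x ∈ L ↔ ∀ p : ℕ, p.Prime → p ∣ orderOf x → p ∈ π)
    (hQ : ∃ L : Subgroup (G ⧸ K), ∀ x : G ⧸ K, x ∈ L ↔ ∀ p : ℕ, p.Prime → p ∣ orderOf x → p ∈ π) :
    (∃ K : Subgroup G, ∀ x : G, x ∈ K ↔ ∀ p : ℕ, p.Prime → p ∣ orderOf x → p ∈ π) := by
  have hG : H94.PiHom π G := H94.piHom_of_relIndex hhom
  obtain ⟨L, hL, h1, h2, -⟩ := H94.PiClosed.exists_normal (π := π) hK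
  have hn : (L.map K.subtype).Normal := inferInstance
  have hle : L.map K.subtype ≤ K := Subgroup.map_subtype_le L
  refine H94.piClosed_of_quotient (π := π) (L.map K.subtype)
    (by rw [Subgroup.card_map_of_injective K.subtype_injective]; exact h1) ?_
  refine H94.piClosed_of_quotient_of_compl (hG.quotient _)
    (K.map (QuotientGroup.mk' (L.map K.subtype))) ?_ ?_
  · rw [← Subgroup.relIndex_ker, QuotientGroup.ker_mk', Subgroup.relIndex,
      Subgroup.subgroupOf, Subgroup.comap_map_eq_self_of_injective K.subtype_injective]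
    exact h2
  · obtain ⟨R, hR⟩ := hQ
    let e := QuotientGroup.quotientQuotientEquivQuotient (L.map K.subtype) K hle
    refine ⟨R.comap e.toMonoidHom, fun x => ?_⟩
    rw [Subgroup.mem_comap, hR]
    have : orderOf (e.toMonoidHom x) = orderOf x := e.orderOf_eq x
    rw [this]
    rfl

end Cfsg.Agent.S4051
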