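import Cfsg.Statements.S4057
import Cfsg.Agent.H88.RankUT
import Cfsg.Agent.H88.Tower
import Cfsg.Agent.H4.PLength
import Cfsg.Agent.S0130
import Cfsg.Agent.H7.CommCalc
import Cfsg.Agent.H3.Frattini

set_option autoImplicit false
open Cfsg

namespace Cfsg.Agent.S4057

open Cfsg.Agent.H88 Subgroup

universe u

theorem exists_max {G : Type*} [Group G] [Finite G] (p : ℕ) :
    ∃ A : Subgroup G, A.Normal ∧ IsMulCommutative A ∧ (∀ a ∈ A, a ^ p ^ 1 = 1) ∧
      ∀ B : Subgroup G, B.Normal → IsMulCommutative B → (∀ b ∈ B, b ^ p ^ 1 = 1) → A ≤ B → B = A := by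
  obtain ⟨A, hA, hmax⟩ := (Set.toFinite {A : Subgroup G | A.Normal ∧ IsMulCommutative A ∧
    (∀ a ∈ A, a ^ p ^ 1 = 1)}).exists_maximal ⟨⊥, inferInstance, inferInstance, by simp⟩
  exact ⟨A, hA.1, hA.2.1, hA.2.2, fun B h1 h2 h3 h4 => le_antisymm (hmax ⟨h1, h2, h3⟩ h4) h4⟩

/-- Thompson: if the elements of order `p` (odd) are central then `d(G) ≤ d(Ω₁(G))`. -/
theorem thompson {p : ℕ} [hp : Fact p.Prime] (hp2 : p ≠ 2) : ∀ (n : ℕ) (G : Type u) [Group G] [Finite G],
    Nat.card G = n → IsPGroup p G → ∀ (A : Subgroup G) (m : ℕ), (∀ x : G, x ^ p = 1 → x ∈ A) →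
    A ≤ center G → (∀ a ∈ A, a ^ p = 1) → Nat.card A ≤ p ^ m →
    ∃ S : Finset G, S.card ≤ m ∧ closure (S : Set G) = ⊤ := by
  classical
  intro n
  induction n using Nat.strong_induction_on with
  | _ n ih =>
  intro G _ _ hn hG A m h1 h2 h3 h4
  by_cases hA : A = ⊥
  · refine ⟨∅, by simp, ?_⟩
    rcases subsingleton_or_nontrivial G with h | h
    · exact Subsingleton.elim _ _
    · exfalso
      obtain ⟨k, hk⟩ := IsPGroup.iff_card.1 hG
      have hd : p ∣ Nat.card G := by
        rw [hk]
        refine dvd_pow_self p ?_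
        rintro rfl
        exact Finite.one_lt_card.ne' (hk.trans (pow_zero p))
      obtain ⟨x, hx⟩ := exists_prime_orderOf_dvd_card' p hd
      have := h1 x (hx ▸ pow_orderOf_eq_one x)
      rw [hA, mem_bot] at this
      rw [this, orderOf_one] at hx
      exact hp.out.one_lt.ne hx
  by_cases hF : A ≤ frattini G
  · have hAn : A.Normal := ⟨fun a ha g => by
      rw [mem_center_iff.1 (h2 ha) g, mul_inv_cancel_right]; exact ha⟩
    obtain ⟨B, hBn, hBa, hBe, hBm⟩ := exists_max (G := G ⧸ A) p
    have hQ : IsPGroup p (G ⧸ A) := hG.to_quotient A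
    set π := QuotientGroup.mk' A with hπ
    have hsurj : Function.Surjective π := QuotientGroup.mk'_surjective A
    set B' := B.comap π with hB'
    have hpow : ∀ x ∈ B', x ^ p ∈ A := fun x hx => by
      have := hBe _ hx
      rw [pow_one, ← map_pow] at this
      exact (QuotientGroup.eq_one_iff _).1 this
    have hmul : ∀ x ∈ B', ∀ y ∈ B', (x * y) ^ p = x ^ p * y ^ p := by
      intro x hx y hy
      have hc : y * x * y⁻¹ * x⁻¹ ∈ A := by
        rw [← QuotientGroup.eq_one_iff]
        change π _ = 1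
        have := hBa.is_comm.comm ⟨π y, hy⟩ ⟨π x, hx⟩
        have : π y * π x = π x * π y := congrArg Subtype.val this
        rw [map_mul, map_mul, map_mul, this, map_inv, map_inv]
        group
      rw [H7.mul_pow_class2 (c := y * x * y⁻¹ * x⁻¹) (by group) (mem_center_iff.1 (h2 hc) x)
        (mem_center_iff.1 (h2 hc) y)]
      obtain ⟨c, hc'⟩ : p ∣ p.choose 2 := hp.out.dvd_choose_self two_ne_zero
        (lt_of_le_of_ne hp.out.two_le (Ne.symm hp2))
      rw [hc', pow_mul, h3 _ hc, one_pow, one_mul]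
    have hBn' : B'.Normal := inferInstance
    have hcen : B ≤ center (G ⧸ A) := by
      intro b hb
      obtain ⟨b, rfl⟩ := hsurj b
      rw [mem_center_iff]
      intro g
      obtain ⟨g, rfl⟩ := hsurj g
      have hb' : b ∈ B' := hb
      have e : (b⁻¹ * (g * b * g⁻¹)) ^ p = 1 := by
        rw [hmul _ (B'.inv_mem hb') _ (hBn'.conj_mem _ hb' g), conj_pow, inv_pow,
          mem_center_iff.1 (h2 (hpow b hb')) g]
        group
      have := (QuotientGroup.eq_one_iff _).2 (h1 _ e)
      change π _ = 1 at this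
      rw [map_mul, map_mul, map_mul, map_inv, map_inv, inv_mul_eq_one] at this
      conv_rhs => rw [this]
      group
    have hcard : Nat.card B ≤ Nat.card A := by
      have hs : ∀ b : B, ∃ x ∈ B', π x = b := fun b => by
        obtain ⟨x, hx⟩ := hsurj b
        exact ⟨x, by rw [hB', mem_comap, hx]; exact b.2, hx⟩
      choose f hf1 hf2 using hs
      refine Nat.card_le_card_of_injective (fun b => (⟨f b ^ p, hpow _ (hf1 b)⟩ : A)) ?_
      intro b c hbc
      have hbc' : f b ^ p = f c ^ p := congrArg Subtype.val hbc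
      have e : ((f b)⁻¹ * f c) ^ p = 1 := by
        rw [hmul _ (B'.inv_mem (hf1 b)) _ (hf1 c), inv_pow, hbc', inv_mul_cancel]
      have := (QuotientGroup.eq_one_iff _).2 (h1 _ e)
      change π _ = 1 at this
      rw [map_mul, map_inv, inv_mul_eq_one, hf2, hf2] at this
      exact Subtype.ext this
    have hlt : Nat.card (G ⧸ A) < n := by
      rw [← hn, Subgroup.card_eq_card_quotient_mul_card_subgroup A]
      have : 1 < Nat.card A := (Subgroup.one_lt_card_iff_ne_bot A).2 hA
      have := Nat.card_pos (α := G ⧸ A)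
      nlinarith
    obtain ⟨S, hS, hS'⟩ := ih _ hlt (G ⧸ A) rfl hQ B m (fun x hx =>
      Cfsg.Agent.S0130.result hQ 1 (by simpa using hp2) B hBa hBe hBm x
        (fun b hb => (mem_center_iff.1 (hcen hb) x).symm) (by simpa using hx)) hcen
      (fun b hb => by simpa using hBe b hb) (hcard.trans h4)
    choose σ hσ using hsurj
    refine ⟨S.image σ, Finset.card_image_le.trans hS, frattini_nongenerating ?_⟩
    rw [eq_top_iff]
    intro g _
    have hg : π g ∈ (closure (S.image σ : Set G)).map π := by
      have : closure (S : Set (G ⧸ A)) ≤ (closure (S.image σ : Set G)).map π := by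
        rw [closure_le]
        intro s hs
        exact ⟨σ s, subset_closure (by simpa using ⟨s, hs, rfl⟩), hσ s⟩
      exact this (hS' ▸ mem_top _)
    obtain ⟨x, hx, hxg⟩ := hg
    have : x⁻¹ * g ∈ A := QuotientGroup.eq.1 hxg
    have e : g = x * (x⁻¹ * g) := by group
    rw [e]
    exact mul_mem (mem_sup_left hx) (mem_sup_right (hF this))
  · obtain ⟨M, hM, hAM⟩ : ∃ M : Subgroup G, IsCoatom M ∧ ¬ A ≤ M := by
      by_contra hc
      push Not at hc
      exact hF (by
        rw [frattini, Order.radical]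
        exact le_iInf₂ hc)
    obtain ⟨a, ha, haM⟩ := SetLike.not_le_iff_exists.1 hAM
    have hlt : Nat.card M < n := by
      rw [← hn, ← Subgroup.card_top (G := G)]
      exact H67.card_lt_of_lt hM.1.lt_top
    have hc1 : Nat.card (A.subgroupOf M) < Nat.card A := by
      rw [← Subgroup.inf_subgroupOf_right, Nat.card_congr (Subgroup.subgroupOfEquivOfLe inf_le_right).toEquiv]
      exact H67.card_lt_of_lt (lt_of_le_of_ne inf_le_left fun h => hAM (inf_eq_left.1 h))
    obtain ⟨k, hk⟩ := IsPGroup.iff_card.1 ((hG.to_subgroup M).to_subgroup (A.subgroupOf M))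
    have hkm : k < m := (Nat.pow_lt_pow_iff_right hp.out.one_lt).1 (hk ▸ hc1.trans_le h4)
    obtain ⟨S, hS, hS'⟩ := ih _ hlt M rfl (hG.to_subgroup M) (A.subgroupOf M) k
      (fun x hx => h1 x (congrArg Subtype.val hx))
      (fun x hx => mem_center_iff.2 fun g => Subtype.ext (mem_center_iff.1 (h2 hx) g))
      (fun x hx => Subtype.ext (h3 _ hx)) hk.le
    refine ⟨insert a (S.image M.subtype), (Finset.card_insert_le _ _).trans
      (by have := Finset.card_image_le (s := S) (f := M.subtype); omega), ?_⟩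
    apply hM.2
    have hle : M ≤ closure ((insert a (S.image M.subtype) : Finset G) : Set G) := by
      intro x hx
      have : (⟨x, hx⟩ : M) ∈ closure (S : Set M) := hS' ▸ mem_top _
      have h5 := mem_map_of_mem M.subtype this
      rw [MonoidHom.map_closure] at h5
      refine closure_mono ?_ h5
      rw [Finset.coe_insert, Finset.coe_image]
      exact Set.subset_insert _ _
    refine lt_of_le_of_ne hle fun h => haM ?_
    rw [h]
    exact subset_closure (by simp)

/-- Let p be an odd prime and P a finite p-group in which every normal abelian subgroup can be generated by k elements. Then every subgroup of P can be generated by at most ⌊k(k+4)/4⌋ elements. -/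
theorem result {P : Type*} [Group P] [Finite P] {p : ℕ} [Fact p.Prime]
    (hp : p ≠ 2) (hP : IsPGroup p P) (k : ℕ)
    (hab : ∀ A : Subgroup P, A.Normal → IsMulCommutative A → ∃ S : Finset P, S.card ≤ k ∧ Subgroup.closure (S : Set P) = A) :
    ∀ H : Subgroup P, ∃ S : Finset P, S.card ≤ k * (k + 4) / 4 ∧ Subgroup.closure (S : Set P) = H := by
  classical
  intro H
  obtain ⟨E, hEn, hEa, hEe, hEm⟩ := exists_max (G := P) p
  have hE : Cfsg.IsElementaryAbelian p E := ⟨hEa, fun a ha => by simpa using hEe a ha⟩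
  have : Module.Finite (ZMod p) (H4.EA hE) := Module.Finite.of_finite
  set m := Module.finrank (ZMod p) (H4.EA hE) with hm
  have hcard : Nat.card E = p ^ m := by
    rw [← H4.EA.card_eq hE, Module.natCard_eq_pow_finrank (K := ZMod p), Nat.card_zmod]
  have hmk : m ≤ k := by
    obtain ⟨S, hS, hS'⟩ := hab E hEn hEa
    have hSE : ∀ s : S, (s : P) ∈ E := fun s => hS' ▸ Subgroup.subset_closure s.2
    have hsp : Submodule.span (ZMod p) (Set.range fun s : S => H4.EA.mk hE s (hSE s)) = ⊤ := by
      rw [eq_top_iff]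
      intro v _
      have : ∀ x ∈ Subgroup.closure (S : Set P), ∀ hx : x ∈ E, H4.EA.mk hE x hx ∈
          Submodule.span (ZMod p) (Set.range fun s : S => H4.EA.mk hE s (hSE s)) := by
        intro x hx
        induction hx using Subgroup.closure_induction with
        | mem x hx => exact fun _ => Submodule.subset_span ⟨⟨x, hx⟩, rfl⟩
        | one => exact fun _ => Submodule.zero_mem _
        | mul x y hx hy ihx ihy =>
          exact fun _ => Submodule.add_mem _ (ihx (hS' ▸ hx)) (ihy (hS' ▸ hy))
        | inv x hx ihx => exact fun _ => Submodule.neg_mem _ (ihx (hS' ▸ hx))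
      exact this v.val (hS' ▸ v.val_mem) v.val_mem
    have := finrank_le_of_span_eq_top hsp
    simp only [Fintype.card_coe] at this
    exact this.trans hS
  obtain ⟨b, hb⟩ := exists_tri_basis hP m (H4.EA hE) (H4.EA.conjRep hE) rfl
  let ρ : H →* Matrix (Fin m) (Fin m) (ZMod p) :=
    (LinearMap.toMatrixAlgEquiv b).toMulEquiv.toMonoidHom.comp ((H4.EA.conjRep hE).comp H.subtype)
  have hρ : ∀ g : H, ρ g = LinearMap.toMatrixAlgEquiv b (H4.EA.conjRep hE g) := fun g => rfl
  have h1 : ∀ g, Wt 1 (ρ g - 1) := by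
    intro g i j hij
    rw [hρ, ← map_one (LinearMap.toMatrixAlgEquiv b), ← map_sub, LinearMap.toMatrixAlgEquiv_apply] at hij
    have := hb g i j hij
    have h2 : 2 ^ (j : ℕ) < 2 ^ (i : ℕ) := Nat.pow_lt_pow_right one_lt_two this
    omega
  obtain ⟨S, hS, hS'⟩ := exists_gens_unitri ρ h1
  have hker : ∀ g ∈ ρ.ker, (g : P) ∈ Subgroup.centralizer (E : Set P) := by
    intro g hg
    rw [MonoidHom.mem_ker, hρ, EmbeddingLike.map_eq_one_iff] at hg
    exact (H4.EA.conjRep_eq_one_iff hE).1 hg
  have hHp := hP.to_subgroup H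
  obtain ⟨T, hT, hT'⟩ := thompson hp _ ρ.ker rfl (hHp.to_subgroup _)
    (E.comap (H.subtype.comp ρ.ker.subtype)) m
    (fun x hx => Cfsg.Agent.S0130.result hP 1 (by simpa using hp) E hEa hEe hEm _ (hker _ x.2)
      (by rw [pow_one]; exact congrArg (fun y : ρ.ker => ((y : H) : P)) hx))
    (fun x hx => Subgroup.mem_center_iff.2 fun g => Subtype.ext (Subtype.ext
      (hker _ g.2 _ hx).symm))
    (fun x hx => Subtype.ext (Subtype.ext (hE.2 _ hx)))
    (by
      rw [← hcard]
      refine Nat.card_le_card_of_injective (fun x => (⟨_, x.2⟩ : E)) ?_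
      intro x y hxy
      have h9 := congrArg Subtype.val hxy
      exact Subtype.ext (Subtype.ext (Subtype.ext h9)))
  have hnil : Group.IsNilpotent H := hHp.isNilpotent
  have hU : Subgroup.closure ((S ∪ T.image ρ.ker.subtype : Finset H) : Set H) = ⊤ := by
    apply frattini_nongenerating
    rw [eq_top_iff, ← hS']
    refine sup_le (sup_le (le_sup_of_le_left (Subgroup.closure_mono (by simp)))
      (le_sup_of_le_right H3.commutator_le_frattini_of_isNilpotent)) (le_sup_of_le_left ?_)
    intro x hx
    have : (⟨x, hx⟩ : ρ.ker) ∈ Subgroup.closure (T : Set ρ.ker) := hT' ▸ Subgroup.mem_top _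
    have h5 := Subgroup.mem_map_of_mem ρ.ker.subtype this
    rw [MonoidHom.map_closure] at h5
    refine Subgroup.closure_mono ?_ h5
    rw [Finset.coe_union, Finset.coe_image]
    exact Set.subset_union_right
  refine ⟨(S ∪ T.image ρ.ker.subtype).image H.subtype, ?_, ?_⟩
  · refine Finset.card_image_le.trans ((Finset.card_union_le _ _).trans ?_)
    have h3 := Finset.card_image_le (s := T) (f := ρ.ker.subtype)
    have h4 : m ^ 2 / 4 ≤ k ^ 2 / 4 := Nat.div_le_div_right (Nat.pow_le_pow_left hmk 2)
    have h5 : k * (k + 4) / 4 = k ^ 2 / 4 + k := by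
      rw [show k * (k + 4) = k ^ 2 + k * 4 by ring, Nat.add_mul_div_right _ _ (by norm_num)]
    omega
  · rw [Finset.coe_image, ← MonoidHom.map_closure, hU, ← MonoidHom.range_eq_map, Subgroup.range_subtype]

end Cfsg.Agent.S4057
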