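import Cfsg.Statements.S4058
import Cfsg.Agent.S0159
import Cfsg.Agent.H11.Irr
import Cfsg.Agent.H12.Central
import Cfsg.Agent.H89.PBasic

set_option autoImplicit false
open Cfsg

namespace Cfsg.Agent.S4058

open scoped ComplexConjugate

theorem dvd_sum_of_orbit {L X : Type*} [Group L] [MulAction L X] [Fintype X] (F : X → ℤ)
    (hF : ∀ (l : L) x, F (l • x) = F x) (n : ℤ)
    (h : ∀ x, n ∣ (Nat.card (MulAction.orbit L x) : ℤ) * F x) : n ∣ ∑ x, F x := by
  classical
  rw [← Finset.sum_fiberwise (s := Finset.univ)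
    (g := fun x => (Quotient.mk (MulAction.orbitRel L X) x))]
  refine Finset.dvd_sum fun q _ => ?_
  induction q using Quotient.inductionOn with
  | h x =>
    have h1 : ∀ y ∈ Finset.univ.filter (fun y => (Quotient.mk (MulAction.orbitRel L X) y) =
        Quotient.mk (MulAction.orbitRel L X) x), F y = F x := by
      intro y hy
      have h2 := (Finset.mem_filter.1 hy).2
      obtain ⟨l, hl⟩ := MulAction.orbitRel_apply.1 (Quotient.exact h2)
      rw [← hl]
      exact hF l x
    rw [Finset.sum_congr rfl h1, Finset.sum_const, nsmul_eq_mul]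
    have h3 : (Finset.univ.filter (fun y => (Quotient.mk (MulAction.orbitRel L X) y) =
        Quotient.mk (MulAction.orbitRel L X) x)).card = Nat.card (MulAction.orbit L x) := by
      rw [← Fintype.card_subtype, ← Nat.card_eq_fintype_card]
      refine Nat.card_congr (Equiv.subtypeEquivRight fun y => ?_)
      rw [Quotient.eq, MulAction.orbitRel_apply]
    rw [h3]
    exact h x

section

variable {G : Type*} [Group G] [Finite G] (N : Subgroup G) [N.Normal]

/-- The linear characters of `G ⧸ N` act on the irreducible characters of `G`. -/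
noncomputable instance instMulActionIrr : MulAction ((G ⧸ N) →* ℂˣ) (IrrCharacter G) where
  smul l χ := ⟨(χ : G → ℂ) * fun g => ((l.comp (QuotientGroup.mk' N)) g : ℂ),
    H11.isIrrCharacter_mul_linear χ.2 (H11.isCharacter_monoidHom _) (by simp)⟩
  one_smul χ := by
    apply Subtype.ext
    funext g
    change (χ : G → ℂ) g * _ = _
    simp
  mul_smul a b χ := by
    apply Subtype.ext
    funext g
    change (χ : G → ℂ) g * _ = ((χ : G → ℂ) g * _) * _
    simp only [MonoidHom.comp_apply, MonoidHom.mul_apply, Units.val_mul]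
    ring

theorem smul_apply' (l : (G ⧸ N) →* ℂˣ) (χ : IrrCharacter G) (g : G) :
    ((l • χ : IrrCharacter G) : G → ℂ) g = (χ : G → ℂ) g * (l (g : G ⧸ N) : ℂ) := rfl

theorem card_stabilizer_le (χ : IrrCharacter G) {d : ℕ} (hd : (χ : G → ℂ) 1 = d) :
    Nat.card (MulAction.stabilizer ((G ⧸ N) →* ℂˣ) χ) ≤ d ^ 2 := by
  classical
  have := Fintype.ofFinite G
  have := Fintype.ofFinite (IrrCharacter G)
  have hc := H11.isCharacter_of_irr χ.2
  obtain ⟨m, hm, hs⟩ := H11.exists_eq_sum_nat (H11.isCharacter_mul hc (H11.isCharacter_conj hc))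
  choose deg hdeg using fun ψ : IrrCharacter G => H11.exists_pos_degree ψ.2
  have h1 : d ^ 2 = ∑ ψ : IrrCharacter G, m ψ * deg ψ := by
    have := congrFun hs 1
    rw [Pi.mul_apply, hd] at this
    simp only [map_natCast, Finset.sum_apply, Pi.smul_apply, smul_eq_mul,
      fun ψ => (hdeg ψ).2] at this
    rw [sq]
    exact_mod_cast this
  let f : MulAction.stabilizer ((G ⧸ N) →* ℂˣ) χ → IrrCharacter G := fun l =>
    ⟨fun g => (((l : (G ⧸ N) →* ℂˣ).comp (QuotientGroup.mk' N)) g : ℂ),
      H11.isIrrCharacter_monoidHom _⟩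
  have hf : Function.Injective f := by
    intro a b hab
    apply Subtype.ext
    ext g
    have := congrFun (congrArg Subtype.val hab) g
    simpa [f] using this
  have hfm : ∀ l, m (f l) = 1 := by
    intro l
    have h2 := hm (f l)
    have h3 := H11.classInner_irr_self χ.2
    have h4 : ∀ g, (χ : G → ℂ) g * ((l : (G ⧸ N) →* ℂˣ) (g : G ⧸ N) : ℂ) = (χ : G → ℂ) g := by
      intro g
      rw [← smul_apply', l.2]
    rw [H11.classInner_def] at h2 h3
    have h5 : ∑ g, ((χ : G → ℂ) * fun g => conj ((χ : G → ℂ) g)) g * conj ((f l : G → ℂ) g) =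
        ∑ g, (χ : G → ℂ) g * conj ((χ : G → ℂ) g) := by
      refine Finset.sum_congr rfl fun g _ => ?_
      have h6 := congrArg conj (h4 g)
      rw [map_mul] at h6
      simp only [f, Pi.mul_apply, MonoidHom.comp_apply, QuotientGroup.mk'_apply]
      rw [mul_assoc, h6]
    rw [h5, h3] at h2
    exact_mod_cast h2.symm
  have := Fintype.ofFinite (MulAction.stabilizer ((G ⧸ N) →* ℂˣ) χ)
  rw [h1, Nat.card_eq_fintype_card]
  calc Fintype.card (MulAction.stabilizer ((G ⧸ N) →* ℂˣ) χ)
      = ∑ ψ ∈ Finset.univ.image f, 1 := by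
        rw [Finset.sum_const, Finset.card_image_of_injective _ hf]; simp
    _ ≤ ∑ ψ ∈ Finset.univ.image f, m ψ * deg ψ := by
        refine Finset.sum_le_sum fun ψ hψ => ?_
        obtain ⟨l, -, rfl⟩ := Finset.mem_image.1 hψ
        rw [hfm, one_mul]
        exact (hdeg _).1
    _ ≤ _ := Finset.sum_le_sum_of_subset (Finset.subset_univ _)

end

/-- Let G be a finite 2-group with #(G/Φ(G)) ≥ 2^(2k+1). Then the number of elements x of G with x² = 1 is divisible by 2^(k+1). -/
theorem result {G : Type*} [Group G] [Finite G] (hG : IsPGroup 2 G) (k : ℕ)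
    (hgen : 2 ^ (2 * k + 1) ≤ Nat.card (G ⧸ frattini G)) :
    2 ^ (k + 1) ∣ Nat.card {x : G // x ^ 2 = 1} := by
  classical
  have := Fintype.ofFinite G
  have := Fintype.ofFinite (IrrCharacter G)
  have hp : Fact (Nat.Prime 2) := ⟨Nat.prime_two⟩
  have h1 := S0159.result (G := G)
  rw [finsum_eq_sum_of_fintype] at h1
  have h2 : ∀ χ : IrrCharacter G, ∃ e : ℤ,
      (Nat.card G : ℂ)⁻¹ * ∑ s : G, (χ : G → ℂ) (s * s) = e := by
    intro χ
    rcases H15.fs_trichotomy χ.2 with ⟨-, h⟩ | ⟨-, h | ⟨h, -⟩⟩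
    · exact ⟨0, by simpa using h⟩
    · exact ⟨1, by simpa using h⟩
    · exact ⟨-1, by simpa using h⟩
  choose e he using h2
  choose deg hdeg using fun ψ : IrrCharacter G => H11.exists_pos_degree ψ.2
  have h3 : (Nat.card {x : G // x ^ 2 = 1} : ℤ) = ∑ χ, e χ * deg χ := by
    have h4 : Nat.card {x : G // x ^ 2 = 1} = Nat.card {s : G // s * s = 1} := by
      simp only [sq]
    rw [h4]
    simp only [he, fun ψ => (hdeg ψ).2] at h1
    exact_mod_cast h1
  have hsq : ∀ (l : (G ⧸ frattini G) →* ℂˣ) (s : G), l ((s * s : G) : G ⧸ frattini G) = 1 := by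
    intro l s
    rw [(QuotientGroup.eq_one_iff _).2 (by rw [← sq]; exact H89.pow_mem_frattini hG s), map_one]
  have hcomm : ∀ a b : G ⧸ frattini G, a * b = b * a :=
    (Subgroup.Normal.quotient_commutative_iff_commutator_le.2
      (H89.commutator_le_frattini hG)).is_comm.comm
  let : CommGroup (G ⧸ frattini G) := { (inferInstance : Group (G ⧸ frattini G)) with
    mul_comm := hcomm }
  have hL : Nat.card ((G ⧸ frattini G) →* ℂˣ) = Nat.card (G ⧸ frattini G) :=
    CommGroup.card_monoidHom_of_hasEnoughRootsOfUnity _ ℂ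
  have h5 : ((2 ^ (k + 1) : ℕ) : ℤ) ∣ ∑ χ, e χ * deg χ := by
    refine dvd_sum_of_orbit (L := (G ⧸ frattini G) →* ℂˣ) _ ?_ _ ?_
    · intro l χ
      have h6 : e (l • χ) = e χ := by
        have h7 := he (l • χ)
        simp only [smul_apply', hsq, Units.val_one, mul_one, he] at h7
        exact_mod_cast h7.symm
      have h7 : deg (l • χ) = deg χ := by
        have h8 := (hdeg (l • χ)).2
        rw [smul_apply', (hdeg χ).2] at h8
        simp only [QuotientGroup.mk_one, map_one, Units.val_one, mul_one] at h8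
        exact_mod_cast h8.symm
      rw [h6, h7]
    · intro χ
      have h6 := card_stabilizer_le (frattini G) χ (hdeg χ).2
      have h7 : Nat.card (MulAction.orbit ((G ⧸ frattini G) →* ℂˣ) χ) *
          Nat.card (MulAction.stabilizer ((G ⧸ frattini G) →* ℂˣ) χ) =
          Nat.card ((G ⧸ frattini G) →* ℂˣ) := by
        rw [Nat.card_coe_set_eq, ← MulAction.index_stabilizer, Subgroup.index_mul_card]
      obtain ⟨n, hn⟩ := IsPGroup.iff_card.1 hG
      obtain ⟨r, hr⟩ := IsPGroup.iff_card.1 (hG.to_quotient (frattini G))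
      obtain ⟨a, -, ha⟩ := (Nat.dvd_prime_pow Nat.prime_two).1
        (hn ▸ H12.irr_degree_dvd_card χ.2 (hdeg χ).2)
      rw [hL, hr] at h7
      obtain ⟨b, -, hb⟩ := (Nat.dvd_prime_pow Nat.prime_two).1 (Dvd.intro _ h7)
      obtain ⟨c, -, hc⟩ := (Nat.dvd_prime_pow Nat.prime_two).1 (Dvd.intro_left _ h7)
      rw [hb, hc, ← pow_add] at h7
      rw [hc, ha, ← pow_mul] at h6
      rw [hr] at hgen
      have h8 := Nat.pow_right_injective le_rfl h7
      have h9 := (Nat.pow_le_pow_iff_right (by norm_num)).1 h6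
      have h10 := (Nat.pow_le_pow_iff_right (by norm_num)).1 hgen
      have h11 : 2 ^ (k + 1) ∣ 2 ^ b * 2 ^ a := by
        rw [← pow_add]
        exact pow_dvd_pow _ (by omega)
      rw [hb, ha, mul_left_comm]
      exact Dvd.dvd.mul_left (by exact_mod_cast h11) _
  rw [← h3] at h5
  exact_mod_cast h5

end Cfsg.Agent.S4058
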