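import Cfsg.Statements.S4065
import Cfsg.Agent.H77.PSL2

set_option autoImplicit false
open Cfsg

namespace Cfsg.Agent.S4065

open Cfsg.Agent.H77

/-- Let F be a finite field with 2ⁿ elements, n ≥ 2. In PSL₂(F) the centralizer of every element meets each of its conjugates by elements outside its normalizer trivially. -/
theorem result (n : ℕ) (hn : 2 ≤ n)
    (x : Matrix.ProjectiveSpecialLinearGroup (Fin 2) (GaloisField 2 n)) :
    Cfsg.IsTISubset (Subgroup.centralizer ({x} : Set (Matrix.ProjectiveSpecialLinearGroup (Fin 2) (GaloisField 2 n))) :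
      Set (Matrix.ProjectiveSpecialLinearGroup (Fin 2) (GaloisField 2 n))) := by
  intro g hg y hy hgy
  by_contra hy1
  apply hg
  set F := GaloisField 2 n
  have h2 : (2 : F) = 0 := by exact_mod_cast CharP.cast_eq_zero F 2
  by_cases hx : x = 1
  · have : Subgroup.centralizer ({x} : Set (PSL2 F)) = ⊤ := by
      rw [hx, Subgroup.centralizer_eq_top_iff_subset]; simp
    rw [this, Subgroup.normalizer_eq_top]
    trivial
  have key : ∀ z : PSL2 F, z ≠ 1 → z ∈ Subgroup.centralizer ({x} : Set (PSL2 F)) →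
      Subgroup.centralizer ({z} : Set (PSL2 F)) = Subgroup.centralizer {x} := by
    intro z hz hzx
    obtain ⟨X, rfl⟩ := pm_surj x
    obtain ⟨Z, rfl⟩ := pm_surj z
    rw [pm_eq_one_iff] at hx
    rw [Ne, pm_eq_one_iff] at hz
    rw [← Subgroup.mem_comap, comap_cent_eq (Or.inl h2)] at hzx
    rw [psl_cent_eq_map (Or.inl h2), psl_cent_eq_map (Or.inl h2), sl_cent_eq_of_mem hx hz hzx]
  have h1 := key y hy1 hy
  have h3 := key (g * y * g⁻¹) (by simpa using hy1) hgy
  rw [Subgroup.mem_normalizer_iff]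
  intro w
  rw [← h3, conj_mem_cent_iff, h3, h1]

end Cfsg.Agent.S4065
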