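import Cfsg.Statements.S4066
import Cfsg.Agent.H91.Basic

set_option autoImplicit false
open Cfsg

namespace Cfsg.Agent.S4066

/-- Let G be a finite group in which the centralizer of every element meets each of its conjugates by elements outside its normalizer trivially. Then any two distinct Sylow p-subgroups of G, for any prime p, intersect trivially. -/
theorem result {G : Type*} [Group G] [Finite G] (hTI : ∀ x : G, Cfsg.IsTISubset (Subgroup.centralizer ({x} : Set G) : Set G))
    {p : ℕ} [Fact p.Prime] (P Q : Sylow p G) (hPQ : P ≠ Q) : (P : Subgroup G) ⊓ (Q : Subgroup G) = ⊥ := by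
  classical
  by_contra hne
  obtain ⟨x, hxP, hxQ, hx1⟩ : ∃ x, x ∈ (P : Subgroup G) ∧ x ∈ (Q : Subgroup G) ∧ x ≠ 1 := by
    obtain ⟨⟨x, hx⟩, hx1⟩ := Subgroup.ne_bot_iff_exists_ne_one.mp hne
    exact ⟨x, hx.1, hx.2, fun h => hx1 (Subtype.ext h)⟩
  -- a central element of P
  have : Nontrivial (P : Subgroup G) := ⟨⟨⟨x, hxP⟩, 1, fun h => hx1 (congrArg Subtype.val h)⟩⟩
  obtain ⟨⟨z0, hz0⟩, hz1⟩ := Subgroup.ne_bot_iff_exists_ne_one.mp
    (P.isPGroup'.bot_lt_center (p := p)).ne'
  set z : G := (z0 : G) with hz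
  replace hz1 : z ≠ 1 := fun h => hz1 (Subtype.ext (Subtype.ext h))
  set H := Subgroup.centralizer ({z} : Set G) with hH
  have hPH : (P : Subgroup G) ≤ H := fun y hy =>
    H91.mem_centralizer_singleton.mpr
      (congrArg Subtype.val (Subgroup.mem_center_iff.mp hz0 ⟨y, hy⟩)).symm
  obtain ⟨g, rfl⟩ := MulAction.exists_smul_eq G P Q
  have hg : g ∈ Subgroup.normalizer (H : Set G) := by
    by_contra hg
    have h1 : g⁻¹ * x * g ∈ (P : Subgroup G) := by
      have := hxQ
      rw [Sylow.coe_subgroup_smul, Subgroup.mem_pointwise_smul_iff_inv_smul_mem] at this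
      simpa using this
    have h2 := hTI z g hg _ (hPH h1) (by simpa [mul_assoc] using hPH hxP)
    apply hx1
    have : x = g * (g⁻¹ * x * g) * g⁻¹ := by group
    rw [this, h2]; simp
  have hQH : ((g • P : Sylow p G) : Subgroup G) ≤ H := by
    intro y hy
    rw [Sylow.coe_subgroup_smul, Subgroup.mem_pointwise_smul_iff_inv_smul_mem] at hy
    have h1 := (Subgroup.mem_normalizer_iff.mp hg _).mp (hPH hy)
    simpa [mul_assoc] using h1
  set Q := g • P
  -- conjugates in H of an element of H commute with it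
  have hcomm : ∀ y ∈ H, ∀ h ∈ H, Commute y (h * y * h⁻¹) := by
    intro y hy h hh
    have hzy : z ∈ Subgroup.centralizer ({y} : Set G) :=
      H91.mem_centralizer_singleton.mpr (H91.mem_centralizer_singleton.mp hy).symm
    have hh' : h ∈ Subgroup.normalizer (Subgroup.centralizer ({y} : Set G) : Set G) := by
      by_contra hcon
      refine hz1 (hTI y h hcon z hzy ?_)
      rw [← H91.mem_centralizer_singleton.mp hh, mul_inv_cancel_right]
      exact hzy
    have h1 := (Subgroup.mem_normalizer_iff.mp hh' y).mp (H91.mem_centralizer_singleton.mpr rfl)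
    exact H91.mem_centralizer_singleton.mp h1
  have hPQ' : (P : Subgroup G) ≤ Q := by
    intro y hy
    let Y : Set G := {w | ∃ h ∈ H, h * y * h⁻¹ = w}
    have hY : ∀ a ∈ Y, ∀ b ∈ Y, a * b = b * a := by
      rintro _ ⟨h, hh, rfl⟩ _ ⟨k, hk, rfl⟩
      have hyH : h * y * h⁻¹ ∈ H := H.mul_mem (H.mul_mem hh (hPH hy)) (H.inv_mem hh)
      have := hcomm _ hyH (k * h⁻¹) (H.mul_mem hk (H.inv_mem hh))
      have e : k * h⁻¹ * (h * y * h⁻¹) * (k * h⁻¹)⁻¹ = k * y * k⁻¹ := by group
      rw [e] at this
      exact this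
    let A := Subgroup.closure Y
    have hAc : IsMulCommutative A := Subgroup.isMulCommutative_closure hY
    have hAp : IsPGroup p A := by
      have key : ∀ a ∈ A, ∃ k, a ^ p ^ k = 1 := by
        intro a ha
        induction ha using Subgroup.closure_induction with
        | mem w hw =>
          obtain ⟨h, hh, rfl⟩ := hw
          obtain ⟨k, hk⟩ := P.isPGroup' ⟨y, hy⟩
          refine ⟨k, ?_⟩
          have hk' : y ^ p ^ k = 1 := congrArg Subtype.val hk
          rw [conj_pow, hk']; simp
        | one => exact ⟨0, by simp⟩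
        | mul a b ha hb iha ihb =>
          obtain ⟨k, hk⟩ := iha
          obtain ⟨l, hl⟩ := ihb
          have hab : Commute a b := congrArg Subtype.val (hAc.is_comm.comm ⟨a, ha⟩ ⟨b, hb⟩)
          refine ⟨k + l, ?_⟩
          rw [hab.mul_pow, pow_add, pow_mul, hk, mul_comm, pow_mul, hl]; simp
        | inv a ha iha =>
          obtain ⟨k, hk⟩ := iha
          exact ⟨k, by rw [inv_pow, hk, inv_one]⟩
      rintro ⟨a, ha⟩
      obtain ⟨k, hk⟩ := key a ha
      exact ⟨k, Subtype.ext hk⟩
    have hnorm : (Q : Subgroup G) ≤ Subgroup.normalizer (A : Set G) := by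
      intro q hq
      have hqH := hQH hq
      have key : ∀ h ∈ H, ∀ a ∈ A, h * a * h⁻¹ ∈ A := by
        intro h hh a ha
        induction ha using Subgroup.closure_induction with
        | mem w hw =>
          obtain ⟨k, hk, rfl⟩ := hw
          exact Subgroup.subset_closure ⟨h * k, H.mul_mem hh hk, by group⟩
        | one => simp
        | mul a b _ _ iha ihb =>
          have : h * (a * b) * h⁻¹ = (h * a * h⁻¹) * (h * b * h⁻¹) := by group
          rw [this]; exact A.mul_mem iha ihb
        | inv a _ iha =>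
          have : h * a⁻¹ * h⁻¹ = (h * a * h⁻¹)⁻¹ := by group
          rw [this]; exact A.inv_mem iha
      rw [Subgroup.mem_normalizer_iff]
      refine fun a => ⟨key q hqH a, fun ha => ?_⟩
      have := key q⁻¹ (H.inv_mem hqH) _ ha
      simpa [mul_assoc] using this
    have hsup : IsPGroup p (A ⊔ (Q : Subgroup G) : Subgroup G) :=
      IsPGroup.to_sup_of_normal_left' hAp Q.isPGroup' hnorm
    have := Q.is_maximal' hsup le_sup_right
    have hyA : y ∈ A := Subgroup.subset_closure ⟨1, H.one_mem, by simp⟩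
    rw [← this]
    exact Subgroup.mem_sup_left hyA
  exact hPQ (Sylow.ext (P.is_maximal' Q.isPGroup' hPQ').symm)

end Cfsg.Agent.S4066
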