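import Cfsg.Statements.S4070
import Cfsg.Agent.H4.MwMain

set_option autoImplicit false
open Cfsg

namespace Cfsg.Agent.S4070

/-- Let G be a finite solvable group acting faithfully by additive automorphisms on a finite vector space V over the field with p elements, completely reducibly (every G-invariant subspace has a G-invariant complement). Then some vector v ∈ V has stabilizer C_G(v) of derived length at most 9; and if both #G and p are odd, some vector has abelian stabilizer. -/
theorem result {G V : Type*} [Group G] [Finite G] [Group.IsSolvable G]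
    {p : ℕ} [Fact p.Prime] [AddCommGroup V] [Module (ZMod p) V] [Finite V] [DistribMulAction G V] [FaithfulSMul G V]
    (hcr : ∀ W : Submodule (ZMod p) V, (∀ (g : G) (w : V), w ∈ W → g • w ∈ W) →
      ∃ W' : Submodule (ZMod p) V, (∀ (g : G) (w : V), w ∈ W' → g • w ∈ W') ∧ IsCompl W W') :
    (∃ v : V, derivedSeries ↥(MulAction.stabilizer G v) 9 = ⊥) ∧
    (Odd (Nat.card G) → p ≠ 2 → ∃ v : V, IsMulCommutative ↥(MulAction.stabilizer G v)) := by
  have p1 : H12.RO.CR G V := by
    intro U hU
    obtain ⟨W, w1, w2⟩ := hcr (AddSubgroup.toZModSubmodule p U) fun g w hw => hU g w hw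
    refine ⟨W.toAddSubgroup, fun g w hw => w1 g w hw, ?_, ?_⟩
    · rw [eq_bot_iff]
      intro x hx
      exact (Submodule.disjoint_def.1 w2.1) x hx.1 hx.2
    · rw [eq_top_iff]
      intro x _
      obtain ⟨a, ha, c, hc, rfl⟩ := Submodule.mem_sup.1
        (show x ∈ AddSubgroup.toZModSubmodule p U ⊔ W by rw [w2.sup_eq_top]; trivial)
      exact AddSubgroup.add_mem_sup ha hc
  let f := DistribMulAction.toModuleAut ℤ V (S := G)
  have hfin : Finite f.range := Finite.of_surjective _ f.rangeRestrict_surjective
  have hsol : Group.IsSolvable f.range :=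
    Group.isSolvable_of_surjective f.rangeRestrict_surjective
  have p2 : H12.RO.CR f.range V := fun U hU => by
    obtain ⟨W, hW, h1⟩ := p1 U fun g v hv => hU (f.rangeRestrict g) v hv
    refine ⟨W, fun g v hv => ?_, h1⟩
    obtain ⟨g, rfl⟩ := f.rangeRestrict_surjective g
    exact hW g v hv
  have key : ∀ (v : V) n, H53.MW.Triv (H53.MW.der (MulAction.stabilizer f.range v) n) V →
      derivedSeries (MulAction.stabilizer G v) n = ⊥ := by
    intro v n h
    have h1 := H4.Mw.triv_quot (X := MulAction.stabilizer G v) f.rangeRestrict (fun _ _ => rfl)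
      (by rintro _ ⟨g, hg, rfl⟩; exact hg) h
    rw [← H53.MW.map_derivedSeries_subtype] at h1
    rw [eq_bot_iff]
    intro g hg
    exact Subtype.ext (eq_of_smul_eq_smul (α := V) fun x =>
      (h1 _ ⟨g, hg, rfl⟩ x).trans (one_smul G x).symm)
  refine ⟨?_, fun hG hp => ?_⟩
  · obtain ⟨v, hv⟩ := H4.Mw.nine f.range V p2
    exact ⟨v, key v 9 hv⟩
  · have hV : Odd (Nat.card V) := by
      have : Module.Finite (ZMod p) V := Module.Finite.of_finite
      rw [Module.natCard_eq_pow_finrank (K := ZMod p), Nat.card_zmod]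
      exact ((Fact.out : p.Prime).odd_of_ne_two hp).pow
    obtain ⟨v, hv⟩ := H4.Mw.one_odd f.range V p2
      (hG.of_dvd_nat (Subgroup.card_dvd_of_surjective _ f.rangeRestrict_surjective)) hV
    have h1 := key v 1 hv
    rw [derivedSeries_one, commutator_eq_bot_iff_center_eq_top] at h1
    exact ⟨v, ⟨⟨fun a c => (Subgroup.mem_center_iff.1 (h1 ▸ Subgroup.mem_top c) a)⟩⟩⟩

end Cfsg.Agent.S4070
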