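import Cfsg.Statements.S4071
import Cfsg.Agent.H88.Tower
import Cfsg.Agent.S1992

set_option autoImplicit false
open Cfsg

namespace Cfsg.Agent.S4071

open Cfsg.Agent.H63 Cfsg.Agent.H67 Cfsg.Agent.H69 Cfsg.Agent.H88 Subgroup
open scoped IsMulCommutative commutatorElement

theorem fwd {G : Type*} [Group G] [Finite G]
    [Group.IsSolvable G] (hnn : ¬ Group.IsNilpotent G)
    (h : ∀ H : Subgroup G, ¬ IsMulCommutative H → Subgroup.normalizer (H : Set G) = H) :
    ∃ (x : G) (A : Subgroup G) (p : ℕ), p.Prime ∧ A.Normal ∧ IsMulCommutative A ∧ (∃ k : ℕ, orderOf x = p ^ k) ∧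
      ¬ p ∣ Nat.card A ∧ (Subgroup.zpowers x).IsComplement' A ∧ x ^ p ∈ Subgroup.center G ∧
      ∀ a : G, a ∈ A → a ≠ 1 → x * a * x⁻¹ ≠ a := by
  have : Nontrivial G := by
    by_contra hG
    rw [not_nontrivial_iff_subsingleton] at hG
    exact hnn inferInstance
  obtain ⟨p, M, hp, hMn, hMi⟩ := Cfsg.Agent.S1992.exists_normal_prime_index (G := G)
  have := Fact.mk hp
  have hMN : N[M] = ⊤ := Subgroup.normalizer_eq_top M
  have hMab : IsMulCommutative M := by
    by_contra hc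
    have := h M hc
    rw [hMN] at this
    rw [← this, Subgroup.index_top] at hMi
    exact hp.one_lt.ne hMi
  have hMnil := isNilpotent_of_isMulCommutative hMab
  set A := O[{p}ᶜ](M) with hA
  set B := O[{p}](M) with hB
  have hAM : A ≤ M := piCoreOf_le _ _
  have hBM : B ≤ M := piCoreOf_le _ _
  have hBA : B ⊔ A = M := piCoreOf_sup_compl_of_isNilpotent {p} hMnil
  have hAN : N[A] = ⊤ := top_le_iff.1 (hMN ▸ normalizer_le_normalizer_piCoreOf _ M)
  have hBN : N[B] = ⊤ := top_le_iff.1 (hMN ▸ normalizer_le_normalizer_piCoreOf _ M)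
  have hAn : A.Normal := Subgroup.normalizer_eq_top_iff.1 hAN
  have hAab : IsMulCommutative A := isMulCommutative_of_le hMab hAM
  have hAπ : IsPiSubgroup {p}ᶜ A := isPi_piCoreOf _ _
  obtain ⟨P, hP⟩ := exists_syl (p := p) (⊤ : Subgroup G)
  have hPp := syl_isPGroup hP
  have hPπ := isPi_of_isPGroup hp hPp
  have hBP : B ≤ P := le_hall_of_normalIn hP ⟨le_top, hBN.ge⟩ (isPi_piCoreOf _ _)
  have hAP : A ⊓ P = ⊥ := isPi_inf_eq_bot' hAπ hPπ
  obtain ⟨x, hxP, hxM⟩ : ∃ x ∈ P, x ∉ M := by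
    by_contra hc
    push Not at hc
    apply syl_not_dvd hP
    rw [Subgroup.relIndex_top_right, ← hMi]
    exact Subgroup.index_dvd_of_le hc
  set X := zpowers x with hX
  have hXP : X ≤ P := zpowers_le.2 hxP
  have hMX : M ⊔ X = ⊤ := by
    have h1 : (M ⊔ X).index ∣ p := hMi ▸ Subgroup.index_dvd_of_le le_sup_left
    rcases (Nat.dvd_prime hp).1 h1 with h2 | h2
    · exact Subgroup.index_eq_one.1 h2
    · exfalso
      have h3 : M.relIndex (M ⊔ X) * (M ⊔ X).index = M.index := Subgroup.relIndex_mul_index le_sup_left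
      rw [h2, hMi] at h3
      have h4 : M.relIndex (M ⊔ X) = 1 := by
        have := hp.pos
        nlinarith
      exact hxM (Subgroup.relIndex_eq_one.1 h4 (le_sup_right (a := M) (mem_zpowers x)))
  have hXA : X ≤ N[A] := hAN ▸ le_top
  have hcop : (Nat.card X).Coprime (Nat.card A) := isPi_coprime (isPi_of_isPGroup hp (hPp.to_le hXP)) hAπ
  set K := ⁅A, X⁆ with hK
  have hKA : K ≤ A := commutator_le_of_norm_left hXA
  have hKK : ⁅K, X⁆ = K := coprime_commGid hXA hcop (Or.inr inferInstance)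
  have hKne : K ≠ ⊥ := by
    intro h0
    apply hnn
    have h1 : A ≤ C[X] := le_cent_of_commutator_eq_bot h0
    have h2 : A ≤ C[B ⊔ X] := by
      rw [H67.centralizer_sup]
      exact le_inf (hAM.trans ((le_centralizer_iff_isMulCommutative.2 hMab).trans (centralizer_anti hBM))) h1
    have h3 := isNilpotent_sup_of_le_centralizer (isNilpotent_of_isMulCommutative hAab)
      (isNilpotent_of_isPGroup hp (hPp.to_le (sup_le hBP hXP))) h2
    rw [← sup_assoc, sup_comm A B, hBA, hMX] at h3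
    exact Group.nilpotent_of_mulEquiv Subgroup.topEquiv
  have hXK : X ≤ N[K] := le_norm_commutator_right _ _
  have hH : N[K ⊔ X] = K ⊔ X := h _ (by
    intro hc
    apply hKne
    rw [← hKK]
    apply commutator_eq_bot_of_cent
    exact le_sup_left.trans ((le_centralizer_iff_isMulCommutative.2 hc).trans (centralizer_anti le_sup_right)))
  have hC : A ⊓ C[X] = ⊥ := by
    have h1 : A ⊓ C[X] ≤ K ⊔ X := by
      rw [← hH]
      refine le_normalizer_sup (le_normalizer_of_le_centralizer ?_) (le_normalizer_of_le_centralizer inf_le_right)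
      exact inf_le_left.trans ((le_centralizer_iff_isMulCommutative.2 hAab).trans (centralizer_anti hKA))
    have h2 : A ⊓ (K ⊔ X) = K := by
      rw [inf_sup_of_le_normalizer (Or.inr hXK) hKA, eq_bot_iff.2 ((inf_le_inf_left A hXP).trans hAP.le),
        sup_bot_eq]
    have h3 := coprime_abel_cent_TI hXA hcop hAab
    rw [eq_bot_iff, ← h3]
    exact le_inf ((le_inf inf_le_left h1).trans h2.le) inf_le_right
  have hXeq : X = P := by
    by_contra hne
    have h1 := lt_inf_normalizer_of_isNilpotent (isNilpotent_of_isPGroup hp hPp) (lt_of_le_of_ne hXP hne)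
    have h2 : P ⊓ N[X] ≤ K ⊔ X := by
      rw [← hH]
      exact le_normalizer_sup (le_normalizer_commutator (hAN ▸ le_top) inf_le_right) inf_le_right
    have h3 : P ⊓ (K ⊔ X) = X := by
      rw [inf_sup_of_le_normalizer' (Or.inr hXK) hXP, inf_comm,
        eq_bot_iff.2 ((inf_le_inf_right P hKA).trans hAP.le), bot_sup_eq]
    exact h1.not_ge ((le_inf inf_le_left h2).trans h3.le)
  refine ⟨x, A, p, hp, hAn, hAab, ?_, (isPi_compl_singleton_iff hp).1 hAπ, ?_, ?_, ?_⟩
  · obtain ⟨k, hk⟩ := (hPp.to_le hXP).exists_card_eq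
    exact ⟨k, by rw [← hk, hX, Nat.card_zpowers]⟩
  · apply Subgroup.isComplement'_of_disjoint_and_mul_eq_univ
    · rw [disjoint_iff, inf_comm, ← hX, hXeq, hAP]
    · rw [← Subgroup.mul_normal, ← hX, Subgroup.coe_eq_univ, eq_top_iff, ← hMX, ← hBA]
      exact sup_le (sup_le (hBP.trans (hXeq.ge.trans le_sup_left)) le_sup_right) le_sup_left
  · have h1 : x ^ p ∈ M := hMi ▸ Subgroup.pow_index_mem M x
    have h2 : x ^ p ∈ C[M ⊔ X] := by
      rw [H67.centralizer_sup]
      exact ⟨le_centralizer_iff_isMulCommutative.2 hMab h1,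
        le_centralizer_iff_isMulCommutative.2 inferInstance (pow_mem (mem_zpowers x) p)⟩
    rw [hMX] at h2
    rw [Subgroup.mem_center_iff]
    intro g
    exact h2 g (Subgroup.mem_top g)
  · intro a ha h1 hc
    apply h1
    have : a ∈ A ⊓ C[X] := by
      refine Subgroup.mem_inf.2 ⟨ha, ?_⟩
      rw [mem_centralizer_iff_le, zpowers_le, Subgroup.mem_centralizer_singleton_iff]
      rw [mul_inv_eq_iff_eq_mul] at hc
      exact hc
    rwa [hC, Subgroup.mem_bot] at this

/-- Let G be a finite solvable non-nilpotent group. Every non-abelian subgroup of G is self-normalizing if and only if G is a semidirect product ⟨x⟩ ⋉ A in which ⟨x⟩ is a p-group for some prime p, A is a normal abelian subgroup of order prime to p, x^p is central in G, and x acts fixed-point-freely on A (no non-identity element of A commutes with x). -/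
theorem result {G : Type*} [Group G] [Finite G]
    [Group.IsSolvable G] (hnn : ¬ Group.IsNilpotent G) :
    (∀ H : Subgroup G, ¬ IsMulCommutative H → Subgroup.normalizer (H : Set G) = H) ↔
    ∃ (x : G) (A : Subgroup G) (p : ℕ), p.Prime ∧ A.Normal ∧ IsMulCommutative A ∧ (∃ k : ℕ, orderOf x = p ^ k) ∧
      ¬ p ∣ Nat.card A ∧ (Subgroup.zpowers x).IsComplement' A ∧ x ^ p ∈ Subgroup.center G ∧
      ∀ a : G, a ∈ A → a ≠ 1 → x * a * x⁻¹ ≠ a := by
  refine ⟨fwd hnn, ?_⟩
  rintro ⟨x, A, p, hp, hAn, hAab, ⟨k, hk⟩, -, hcomp, hxp, hfpf⟩ H hH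
  have hdec : ∀ g : G, ∃ (j : ℕ) (a : G), a ∈ A ∧ g = x ^ j * a := by
    intro g
    obtain ⟨⟨⟨y, hy⟩, ⟨a, ha⟩⟩, h⟩ := hcomp.2 g
    obtain ⟨j, rfl⟩ := (mem_powers_iff_mem_zpowers).2 hy
    exact ⟨j, a, ha, h.symm⟩
  have hD : IsMulCommutative ↥(A ⊔ Subgroup.center G) :=
    isMulCommutative_sup hAab inferInstance (fun a _ => by
      rw [Subgroup.mem_centralizer_iff]
      intro z hz
      exact (Subgroup.mem_center_iff.1 hz a).symm)
  obtain ⟨h, hh, hhD⟩ : ∃ h ∈ H, h ∉ A ⊔ Subgroup.center G := by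
    by_contra hc
    push Not at hc
    exact hH (isMulCommutative_of_le hD hc)
  obtain ⟨j, a₀, ha₀, rfl⟩ := hdec h
  have hj : ¬ p ∣ j := by
    rintro ⟨m, rfl⟩
    apply hhD
    refine Subgroup.mul_mem _ (Subgroup.mem_sup_right ?_) (Subgroup.mem_sup_left ha₀)
    rw [pow_mul]
    exact Subgroup.pow_mem _ hxp m
  have hx : x ∈ Subgroup.zpowers (x ^ j) := by
    rw [mem_zpowers_pow_iff, hk]
    exact (((Nat.Prime.coprime_iff_not_dvd hp).2 hj).symm.pow_right k)
  obtain ⟨m, hm⟩ := (mem_powers_iff_mem_zpowers).2 hx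
  simp only at hm
  set h := x ^ j * a₀ with hhdef
  have hf : ∀ b ∈ A, h * b * h⁻¹ = b → b = 1 := by
    intro b hb hc
    by_contra hne
    apply hfpf b hb hne
    have h1 : Commute (x ^ j) b := by
      have h2 := comm_of_isMulCommutative hAab ha₀ hb
      rw [mul_inv_eq_iff_eq_mul, hhdef, mul_assoc, h2, ← mul_assoc, ← mul_assoc] at hc
      exact mul_right_cancel hc
    have h3 : Commute x b := hm ▸ h1.pow_left m
    rw [h3.eq, mul_inv_cancel_right]
  refine le_antisymm ?_ Subgroup.le_normalizer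
  intro n hn
  obtain ⟨i, a', ha', hna⟩ := hdec n
  have hmod : (h ^ (m * i))⁻¹ * n ∈ A := by
    rw [← QuotientGroup.eq]
    have e1 : ((h : G) : G ⧸ A) = ((x ^ j : G) : G ⧸ A) := by
      rw [hhdef, QuotientGroup.mk_mul, (QuotientGroup.eq_one_iff a₀).2 ha₀, mul_one]
    rw [hna, QuotientGroup.mk_mul, (QuotientGroup.eq_one_iff a').2 ha', mul_one,
      QuotientGroup.mk_pow, e1, ← QuotientGroup.mk_pow, pow_mul, hm]
  set a := (h ^ (m * i))⁻¹ * n with ha
  have haN : a ∈ Subgroup.normalizer (H : Set G) :=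
    Subgroup.mul_mem _ (Subgroup.inv_mem _ (Subgroup.pow_mem _ (Subgroup.le_normalizer hh) _)) hn
  suffices a ∈ H by
    have e : n = h ^ (m * i) * a := by rw [ha]; group
    rw [e]
    exact Subgroup.mul_mem _ (Subgroup.pow_mem _ hh _) this
  have hinj : ∀ b ∈ A, ∀ c ∈ A, h * b * h⁻¹ * b⁻¹ = h * c * h⁻¹ * c⁻¹ → b = c := by
    intro b hb c hc e
    have := hf (c⁻¹ * b) (A.mul_mem (A.inv_mem hc) hb) (by
      calc h * (c⁻¹ * b) * h⁻¹ = (h * c * h⁻¹)⁻¹ * (h * b * h⁻¹ * b⁻¹) * b := by group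
        _ = c⁻¹ * b := by rw [e]; group)
    exact (inv_mul_eq_one.1 this).symm
  let φ : ↥(H ⊓ A) → ↥(H ⊓ A) := fun b => ⟨h * b * h⁻¹ * (b : G)⁻¹,
    ⟨H.mul_mem (H.mul_mem (H.mul_mem hh b.2.1) (H.inv_mem hh)) (H.inv_mem b.2.1),
      A.mul_mem (hAn.conj_mem _ b.2.2 _) (A.inv_mem b.2.2)⟩⟩
  have hφ : Function.Injective φ := fun b c e =>
    Subtype.ext (hinj _ b.2.2 _ c.2.2 (congrArg Subtype.val e))
  have hs := Finite.injective_iff_surjective.1 hφ
  obtain ⟨b, hb⟩ := hs ⟨h * a * h⁻¹ * a⁻¹, ⟨by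
    have := conj_mem_of_mem_normalizer haN (H.inv_mem hh)
    have e : h * a * h⁻¹ * a⁻¹ = h * (a * h⁻¹ * a⁻¹) := by group
    rw [e]
    exact H.mul_mem hh this, A.mul_mem (hAn.conj_mem _ hmod _) (A.inv_mem hmod)⟩⟩
  have := hinj _ b.2.2 _ hmod (congrArg Subtype.val hb)
  exact this ▸ b.2.1

end Cfsg.Agent.S4071
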