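import Cfsg.Statements.S4072
import Cfsg.Agent.H24.SmallCenterIndex
import Cfsg.Agent.H86.NPC
import Cfsg.Agent.H8.Tate

set_option autoImplicit false
open Cfsg

namespace Cfsg.Agent.S4072

theorem card_comm {P : Type*} [Group P] [Finite P] {p : ℕ} [hp : Fact p.Prime] (hP : IsPGroup p P)
    (hna : ¬ IsMulCommutative P) (h : ∀ H : Subgroup P, H ≠ ⊤ → IsMulCommutative H) :
    Nat.card (commutator P) = p := by
  apply H24.card_commutator_of_index_center hp.out
  have hc : ∀ x : P, x ∉ Subgroup.center P → ∃ M : Subgroup P, M.index = p ∧ IsMulCommutative M ∧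
      Subgroup.centralizer {x} ≤ M := by
    intro x hx
    obtain ⟨M, -, h1, h2⟩ := H8.exists_normal_index_eq_of_ne_top hP (H := Subgroup.centralizer {x}) (by
      intro e
      apply hx
      rw [Subgroup.mem_center_iff]
      intro g
      exact Subgroup.mem_centralizer_singleton_iff.mp (e ▸ Subgroup.mem_top g))
    refine ⟨M, h1, h M ?_, h2⟩
    rintro rfl
    exact hp.out.one_lt.ne (by simpa using h1)
  obtain ⟨x, hx⟩ : ∃ x : P, x ∉ Subgroup.center P := by
    by_contra hcon
    push Not at hcon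
    exact hna ⟨⟨fun a b => Subgroup.mem_center_iff.mp (hcon b) a⟩⟩
  obtain ⟨M, hM1, hM2, hM3⟩ := hc x hx
  have hMc : IsCoatom M := H8.coatom_of_index_prime (hM1 ▸ hp.out)
  obtain ⟨y, hy⟩ : ∃ y : P, y ∉ M := by
    by_contra hcon
    push Not at hcon
    exact hMc.1 (eq_top_iff.mpr fun a _ => hcon a)
  have hy' : y ∉ Subgroup.center P := fun e => hy (hM3
    (Subgroup.mem_centralizer_singleton_iff.mpr (Subgroup.mem_center_iff.mp e x).symm))
  obtain ⟨L, hL1, hL2, hL3⟩ := hc y hy'
  have hle : M ⊓ L ≤ Subgroup.center P := by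
    intro z hz
    have h1 : M ≤ Subgroup.centralizer {z} := fun m hm =>
      Subgroup.mem_centralizer_singleton_iff.mpr (setLike_mul_comm (s := M) hm hz.1)
    have h2 : y ∈ Subgroup.centralizer {z} :=
      Subgroup.mem_centralizer_singleton_iff.mpr (setLike_mul_comm (s := L)
        (hL3 (Subgroup.mem_centralizer_singleton_iff.mpr rfl)) hz.2)
    have h3 := hMc.2 _ (lt_of_le_of_ne h1 (fun e => hy (e ▸ h2)))
    rw [Subgroup.mem_center_iff]
    intro g
    exact Subgroup.mem_centralizer_singleton_iff.mp (h3 ▸ Subgroup.mem_top g)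
  obtain ⟨k, hk⟩ := hP.index (Subgroup.center P)
  have h1 : (Subgroup.center P).index ≤ p ^ 2 := by
    refine (Subgroup.index_antitone hle).trans (Subgroup.index_inf_le.trans ?_)
    rw [hM1, hL1, sq]
  rw [hk] at h1 ⊢
  have h2 : k ≤ 2 := (Nat.pow_le_pow_iff_right hp.out.one_lt).mp h1
  have h3 : ¬ k ≤ 1 := fun h3 => hna (H24.comm_of_index_center_dvd_prime hp.out (by
    rw [hk]; exact (pow_dvd_pow p h3).trans (by simp)))
  congr 1
  omega

theorem step {G : Type*} [Group G] [Finite G]
    (hS : ∀ H : Subgroup G, ¬ IsMulCommutative H → Subgroup.normalizer (H : Set G) = H)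
    (hG : Group.IsPerfect G) (N : Subgroup G) [N.Normal] {p : ℕ} [Fact p.Prime] (P : Sylow p G)
    (h1 : ¬ IsMulCommutative ((P : Subgroup G) ⊔ N : Subgroup G))
    (h2 : ∀ a ∈ (P : Subgroup G), ∀ b ∈ (P : Subgroup G), a * b * a⁻¹ * b⁻¹ ∈ N) :
    (P : Subgroup G) ≤ N := by
  let T : Sylow p (G ⧸ N) := P.mapSurjective (QuotientGroup.mk'_surjective N)
  have hT : (T : Subgroup (G ⧸ N)) = (P : Subgroup G).map (QuotientGroup.mk' N) := rfl
  have hmem : ∀ x : G, QuotientGroup.mk' N x ∈ (T : Subgroup (G ⧸ N)) ↔ x ∈ (P : Subgroup G) ⊔ N := by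
    intro x
    rw [hT, ← Subgroup.mem_comap, Subgroup.comap_map_eq, QuotientGroup.ker_mk']
  have h3 : Cfsg.HasNormalPComplement p (G ⧸ N) := by
    apply H8.hasNormalPComplement_of_normalizer_le_centralizer T
    intro g hg
    obtain ⟨g, rfl⟩ := QuotientGroup.mk'_surjective N g
    have hg' : g ∈ Subgroup.normalizer (((P : Subgroup G) ⊔ N : Subgroup G) : Set G) := by
      rw [Subgroup.mem_normalizer_iff]
      intro x
      rw [← hmem, ← hmem, map_mul, map_mul, map_inv]
      exact (Subgroup.mem_normalizer_iff (H := (T : Subgroup (G ⧸ N)))).mp hg _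
    rw [hS _ h1, ← hmem] at hg'
    obtain ⟨a, ha, e⟩ := hg'
    rw [← e, Subgroup.mem_centralizer_iff]
    rintro _ ⟨x, hx, rfl⟩
    have := (QuotientGroup.eq_one_iff _).mpr (h2 x hx a ha)
    change QuotientGroup.mk' N _ = 1 at this
    simp only [map_mul, map_inv] at this
    rwa [mul_inv_eq_one, mul_inv_eq_iff_eq_mul] at this
  have h4 := H86.not_dvd_card_of_perfect_of_npc inferInstance h3
  intro x hx
  apply H8.mem_of_coprime_orderOf_index
  obtain ⟨k, hk⟩ := P.2 ⟨x, hx⟩
  have hk' : x ^ p ^ k = 1 := congrArg Subtype.val hk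
  exact (((Nat.Prime.coprime_iff_not_dvd Fact.out).mpr h4).pow_left k).coprime_dvd_left
    (orderOf_dvd_of_pow_eq_one hk')

/-- A finite group in which every non-abelian subgroup is self-normalizing is solvable or simple. -/
theorem result {G : Type*} [Group G] [Finite G] (hS : ∀ H : Subgroup G, ¬ IsMulCommutative H → Subgroup.normalizer (H : Set G) = H) :
    Group.IsSolvable G ∨ IsSimpleGroup G := by
  by_cases hsol : Group.IsSolvable G
  · exact Or.inl hsol
  right
  have hab : ∀ N : Subgroup G, N.Normal → N ≠ ⊤ → IsMulCommutative N := by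
    intro N hN hne
    by_contra h
    exact hne (by rw [← hS N h]; exact Subgroup.normalizer_eq_top N)
  have hperf : Group.IsPerfect G := by
    constructor
    by_contra hne
    have := hab _ inferInstance hne
    apply hsol
    refine ⟨⟨2, ?_⟩⟩
    rw [derivedSeries_succ, derivedSeries_one, eq_bot_iff, Subgroup.commutator_le]
    intro a ha b hb
    rw [Subgroup.mem_bot, commutatorElement_eq_one_iff_mul_comm]
    exact setLike_mul_comm (s := commutator G) ha hb
  have hnt : Nontrivial G := by
    by_contra h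
    rw [not_nontrivial_iff_subsingleton] at h
    exact hsol inferInstance
  refine ⟨fun N₀ hN₀ => ?_⟩
  by_contra hcon
  rw [not_or] at hcon
  obtain ⟨N, hN0, hN⟩ := Finite.exists_le_maximal (p := fun N : Subgroup G => N.Normal ∧ N ≠ ⊤)
    (a := N₀) ⟨hN₀, hcon.2⟩
  have hNn := hN.1.1
  have hNb : N ≠ ⊥ := fun e => hcon.1 (le_bot_iff.mp (e ▸ hN0))
  have hNc := hab N hNn hN.1.2
  have hNC : N ≤ Subgroup.centralizer (N : Set G) := fun a ha =>
    Subgroup.mem_centralizer_iff.mpr fun b hb => setLike_mul_comm (s := N) hb ha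
  by_cases hC : Subgroup.centralizer (N : Set G) = ⊤
  · obtain ⟨p, hp, hpN⟩ := Nat.exists_prime_and_dvd ((Subgroup.one_lt_card_iff_ne_bot N).mpr hNb).ne'
    have := Fact.mk hp
    obtain ⟨P⟩ : Nonempty (Sylow p G) := inferInstance
    have hNZ : N ≤ Subgroup.center G := by
      intro a ha
      rw [Subgroup.mem_center_iff]
      intro g
      exact (Subgroup.mem_centralizer_iff.mp (hC ▸ Subgroup.mem_top g) a ha).symm
    have h1 : (P : Subgroup G) ⊓ N ≠ ⊥ := by
      intro e
      apply (H8.isSylowIn_inf_normal P N).not_dvd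
      rwa [e, Subgroup.relIndex_bot_left]
    have h2 : (P : Subgroup G) ⊓ N ≤ ⁅(P : Subgroup G), (P : Subgroup G)⁆ := by
      refine le_trans ?_ (H8.center_inf_commutator_inf_sylow_le P)
      rw [hperf.commutator_eq_top]
      exact le_inf (le_inf (inf_le_right.trans hNZ) le_top) inf_le_left
    have h3 : ¬ IsMulCommutative (P : Subgroup G) := by
      intro h
      apply h1
      rw [eq_bot_iff]
      refine h2.trans (Subgroup.commutator_le.mpr fun a ha b hb => ?_)
      rw [Subgroup.mem_bot, commutatorElement_eq_one_iff_mul_comm]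
      exact setLike_mul_comm (s := (P : Subgroup G)) ha hb
    have h4 := card_comm P.2 h3 (by
      intro H hH
      by_contra hna
      have a1 : H.map (P : Subgroup G).subtype < P := by
        refine lt_of_le_of_ne (Subgroup.map_subtype_le _) fun e => hH ?_
        apply Subgroup.map_injective (P : Subgroup G).subtype_injective
        rw [e, ← MonoidHom.range_eq_map, Subgroup.range_subtype]
      have a2 := H8.lt_inf_normalizer_of_lt P.2 a1
      rw [hS _ (fun h => hna ⟨⟨fun a b => Subtype.ext (Subtype.ext (setLike_mul_comm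
        (s := H.map (P : Subgroup G).subtype) ⟨_, a.2, rfl⟩ ⟨_, b.2, rfl⟩))⟩⟩)] at a2
      exact a2.not_ge inf_le_right)
    have h5 : Nat.card (⁅(P : Subgroup G), (P : Subgroup G)⁆ : Subgroup G) = p := by
      rw [← Subgroup.map_subtype_commutator, Subgroup.card_map_of_injective
        (P : Subgroup G).subtype_injective, h4]
    have h6 : (P : Subgroup G) ⊓ N = ⁅(P : Subgroup G), (P : Subgroup G)⁆ := by
      apply Subgroup.eq_of_le_of_card_ge h2
      rw [h5]
      have a1 := Subgroup.card_dvd_of_le h2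
      rw [h5] at a1
      rcases (Nat.dvd_prime hp).mp a1 with h | h
      · exact absurd (Subgroup.eq_bot_of_card_eq _ h) h1
      · exact h.ge
    have h7 := step hS hperf N P (fun h => h3 ⟨⟨fun a b => Subtype.ext (setLike_mul_comm
        (s := (P : Subgroup G) ⊔ N) (Subgroup.mem_sup_left a.2) (Subgroup.mem_sup_left b.2))⟩⟩) (by
      intro a ha b hb
      have : a * b * a⁻¹ * b⁻¹ ∈ (P : Subgroup G) ⊓ N :=
        h6 ▸ Subgroup.commutator_mem_commutator ha hb
      exact this.2)
    exact h3 ⟨⟨fun a b => Subtype.ext (setLike_mul_comm (s := N) (h7 a.2) (h7 b.2))⟩⟩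
  · have hCN : Subgroup.centralizer (N : Set G) ≤ N := hN.2 ⟨inferInstance, hC⟩ hNC
    have hna : ∀ H : Subgroup G, N ≤ H → ¬ H ≤ N → ¬ IsMulCommutative H := by
      intro H h1 h2 h3
      exact h2 fun a ha => hCN (Subgroup.mem_centralizer_iff.mpr fun b hb =>
        setLike_mul_comm (s := H) (h1 hb) ha)
    obtain ⟨p, hp, hpN⟩ := Nat.exists_prime_and_dvd (fun e => hN.1.2 (Subgroup.index_eq_one.mp e))
    have := Fact.mk hp
    obtain ⟨P⟩ : Nonempty (Sylow p G) := inferInstance
    have h1 : ¬ (P : Subgroup G) ≤ N := fun h =>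
      P.not_dvd_index (hpN.trans (Subgroup.index_dvd_of_le h))
    apply h1
    apply step hS hperf N P (hna _ le_sup_right fun h => h1 (le_sup_left.trans h))
    have hT : IsPGroup p ((P : Subgroup G).map (QuotientGroup.mk' N)) := P.2.map _
    have hTn : Nontrivial ((P : Subgroup G).map (QuotientGroup.mk' N)) := by
      rw [Subgroup.nontrivial_iff_ne_bot, Ne, Subgroup.map_eq_bot_iff, QuotientGroup.ker_mk']
      exact h1
    have := hT.center_nontrivial
    obtain ⟨⟨⟨_, z, hz, rfl⟩, hzc⟩, hz1⟩ :=
      exists_ne (1 : Subgroup.center ((P : Subgroup G).map (QuotientGroup.mk' N)))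
    have hzN : z ∉ N := fun h => hz1 (Subtype.ext (Subtype.ext ((QuotientGroup.eq_one_iff _).mpr h)))
    let H := (Subgroup.zpowers (QuotientGroup.mk' N z)).comap (QuotientGroup.mk' N)
    have hNH : N ≤ H := fun a ha => by
      change QuotientGroup.mk' N a ∈ Subgroup.zpowers _
      rw [show QuotientGroup.mk' N a = 1 from (QuotientGroup.eq_one_iff _).mpr ha]
      exact Subgroup.one_mem _
    have hH := hS H (hna H hNH fun h => hzN (h (Subgroup.mem_zpowers _)))
    have hPH : (P : Subgroup G) ≤ H := by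
      intro a ha
      rw [← hH]
      apply H8.mem_normalizer_of_conj_smul_le
      intro y hy
      rw [H8.mem_conj_smul] at hy
      obtain ⟨k, hk⟩ := hy
      have hc : QuotientGroup.mk' N a * QuotientGroup.mk' N z = QuotientGroup.mk' N z * QuotientGroup.mk' N a :=
        congrArg Subtype.val (Subgroup.mem_center_iff.mp hzc ⟨_, a, ha, rfl⟩)
      have hc' := (Commute.zpow_right hc k).eq
      refine ⟨k, ?_⟩
      simp only [map_mul, map_inv] at hk ⊢
      calc QuotientGroup.mk' N z ^ k
          = QuotientGroup.mk' N a * QuotientGroup.mk' N z ^ k * (QuotientGroup.mk' N a)⁻¹ := by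
            rw [hc']; group
        _ = _ := by rw [hk]; group
    intro a ha b hb
    obtain ⟨i, hi⟩ := hPH ha
    obtain ⟨j, hj⟩ := hPH hb
    apply (QuotientGroup.eq_one_iff _).mp
    change QuotientGroup.mk' N _ = 1
    simp only [map_mul, map_inv]
    simp only at hi hj
    rw [← hi, ← hj]; group

end Cfsg.Agent.S4072
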