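import Cfsg.Statements.S4074


set_option autoImplicit false
open Cfsg

namespace Cfsg.Agent.S4074

/-- For n > 2, every non-abelian subgroup of the dihedral group of order 2n is self-normalizing if and only if n = 4 or n is odd. -/
theorem result (n : ℕ) (hn : 2 < n) :
    (∀ H : Subgroup (DihedralGroup n), ¬ IsMulCommutative H → Subgroup.normalizer (H : Set (DihedralGroup n)) = H) ↔
    (n = 4 ∨ Odd n) := by
  constructor
  · intro h
    by_contra hcon
    rw [not_or, Nat.not_odd_iff_even] at hcon
    obtain ⟨h4, hev⟩ := hcon
    have hdvd : 2 ∣ n := even_iff_two_dvd.mp hev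
    let c : ZMod n →+* ZMod 2 := ZMod.castHom hdvd (ZMod 2)
    let φ : DihedralGroup n →* Multiplicative (ZMod 2) :=
      { toFun := fun g => match g with
          | DihedralGroup.r i => Multiplicative.ofAdd (c i)
          | DihedralGroup.sr i => Multiplicative.ofAdd (c i)
        map_one' := by
          change Multiplicative.ofAdd (c 0) = 1
          simp
        map_mul' := by
          have hneg : ∀ a : ZMod 2, -a = a := by decide
          rintro (i | i) (j | j) <;>
            simp [← ofAdd_add, sub_eq_add_neg, hneg, add_comm] }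
    have hc2 : c 2 = 0 := by
      have : (2 : ZMod n) = ((2 : ℕ) : ZMod n) := by norm_cast
      rw [this, map_natCast]; rfl
    have hnc : ¬ IsMulCommutative φ.ker := by
      intro hc
      have h1 : DihedralGroup.r (2 : ZMod n) ∈ φ.ker := by
        simp [MonoidHom.mem_ker, φ, hc2]
      have h2 : DihedralGroup.sr (0 : ZMod n) ∈ φ.ker := by
        simp [MonoidHom.mem_ker, φ]
      have h3 := congrArg Subtype.val (hc.is_comm.comm ⟨_, h1⟩ ⟨_, h2⟩)
      simp only [Subgroup.coe_mul, DihedralGroup.r_mul_sr, DihedralGroup.sr_mul_r,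
        DihedralGroup.sr.injEq] at h3
      have h5 : ((4 : ℕ) : ZMod n) = 0 := by
        push_cast
        linear_combination -h3
      rw [ZMod.natCast_eq_zero_iff] at h5
      have := Nat.le_of_dvd (by norm_num) h5
      obtain ⟨k, rfl⟩ := hdvd
      omega
    have h6 := h φ.ker hnc
    rw [Subgroup.normalizer_eq_top_iff.mpr inferInstance] at h6
    have h7 : DihedralGroup.r (1 : ZMod n) ∈ φ.ker := h6 ▸ Subgroup.mem_top _
    simp [MonoidHom.mem_ker, φ] at h7
  · intro hn' H hH
    refine le_antisymm ?_ Subgroup.le_normalizer
    -- H contains a reflection and a rotation of order > 2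
    have hex : ∃ a b : ZMod n, DihedralGroup.sr a ∈ H ∧ DihedralGroup.r b ∈ H ∧ 2 * b ≠ 0 := by
      by_contra hcon
      push Not at hcon
      apply hH
      refine ⟨⟨?_⟩⟩
      rintro ⟨i | i, hi⟩ ⟨j | j, hj⟩ <;> apply Subtype.ext <;>
        simp only [Subgroup.coe_mul, DihedralGroup.r_mul_sr, DihedralGroup.sr_mul_r,
          DihedralGroup.r_mul_r, DihedralGroup.sr_mul_sr]
      · rw [add_comm]
      · congr 1
        linear_combination -(hcon j i hj hi)
      · congr 1
        linear_combination (hcon i j hi hj)
      · congr 1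
        have := hcon i (j - i) hi (by simpa using H.mul_mem hi hj)
        linear_combination this
    obtain ⟨a, b, ha, hb, hb2⟩ := hex
    have hrot : ∀ c : ZMod n, DihedralGroup.r c ∈ Subgroup.normalizer (H : Set (DihedralGroup n)) →
        DihedralGroup.r c ∈ H := by
      intro c hc
      have h1 := (Subgroup.mem_normalizer_iff.mp hc _).mp ha
      have h2 := H.mul_mem h1 ha
      simp only [DihedralGroup.inv_r, DihedralGroup.r_mul_sr, DihedralGroup.sr_mul_r,
        DihedralGroup.sr_mul_sr] at h2
      rcases hn' with rfl | hodd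
      · have : ∀ b c : ZMod 4, 2 * b ≠ 0 → ∃ k : Fin 4, (b * ((k : ℕ) : ZMod 4) = c) := by decide
        obtain ⟨k, hk⟩ := this b c hb2
        have h3 := H.pow_mem hb k
        rwa [DihedralGroup.r_pow, hk] at h3
      · obtain ⟨k, hk⟩ := hodd
        have h3 := H.pow_mem h2 (k + 1)
        rw [DihedralGroup.r_pow] at h3
        have h4 : ((2 * k + 1 : ℕ) : ZMod n) = 0 := by rw [← hk]; simp
        push_cast at h4
        convert h3 using 2
        push_cast
        linear_combination (-c) * h4
    rintro (c | c) hc
    · exact hrot c hc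
    · have h1 := hrot (c - a) (by
        simpa using (Subgroup.normalizer (H : Set (DihedralGroup n))).mul_mem
          (Subgroup.le_normalizer ha) hc)
      simpa using H.mul_mem ha h1

end Cfsg.Agent.S4074
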