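import Cfsg.Statements.S4075
import Cfsg.Agent.H91.Basic

set_option autoImplicit false
open Cfsg

namespace Cfsg.Agent.S4075

/-- Let G be a finite nilpotent group. Every non-abelian subgroup of G is self-normalizing if and only if G is abelian or G is a minimal non-abelian p-group for some prime p (non-abelian of prime-power order with every proper subgroup abelian). -/
theorem result {G : Type*} [Group G] [Finite G]
    [Group.IsNilpotent G] :
    (∀ H : Subgroup G, ¬ IsMulCommutative H → Subgroup.normalizer (H : Set G) = H) ↔
    (IsMulCommutative G ∨ (IsPrimePow (Nat.card G) ∧ ¬ IsMulCommutative G ∧ ∀ H : Subgroup G, H ≠ ⊤ → IsMulCommutative H)) := by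
  constructor
  · intro h
    by_cases hG : IsMulCommutative G
    · exact Or.inl hG
    right
    have hprop : ∀ H : Subgroup G, H ≠ ⊤ → IsMulCommutative H := by
      intro H hH
      by_contra hc
      have := Group.normalizerCondition_of_isNilpotent (G := G) H (lt_top_iff_ne_top.mpr hH)
      rw [h H hc] at this
      exact lt_irrefl _ this
    refine ⟨?_, hG, hprop⟩
    -- some Sylow subgroup is the whole group, else all elements commute
    by_contra hpp
    apply hG
    have hS : ∀ (p : ℕ) [Fact p.Prime] (P : Sylow p G), IsMulCommutative (P : Subgroup G) := by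
      intro p hp P
      apply hprop
      intro hP
      obtain ⟨k, hk⟩ := P.isPGroup'.exists_card_eq
      rw [hP, Subgroup.card_top] at hk
      rcases Nat.eq_zero_or_pos k with rfl | hk0
      · have : Subsingleton G := (Nat.card_eq_one_iff_unique.mp (by simpa using hk)).1
        exact hG ⟨⟨fun a b => Subsingleton.elim _ _⟩⟩
      · exact hpp (hk ▸ (hp.out.isPrimePow).pow hk0.ne')
    classical
    have : Fintype G := Fintype.ofFinite G
    obtain ⟨e⟩ := ((Group.isNilpotent_of_finite_tfae (G := G)).out 0 4).mp ‹_›
    refine ⟨⟨fun a b => ?_⟩⟩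
    obtain ⟨a, rfl⟩ := e.surjective a
    obtain ⟨b, rfl⟩ := e.surjective b
    rw [← map_mul, ← map_mul]
    congr 1
    ext p P
    have : Fact (p : ℕ).Prime := ⟨Nat.prime_of_mem_primeFactors p.2⟩
    exact congrArg Subtype.val ((hS p P).is_comm.comm _ _)
  · rintro (hG | ⟨-, -, h⟩) H hH
    · exact absurd ⟨⟨fun a b => Subtype.ext (hG.is_comm.comm _ _)⟩⟩ hH
    · by_cases ht : H = ⊤
      · subst ht; exact Subgroup.normalizer_eq_top_iff.mpr inferInstance
      · exact absurd (h H ht) hH

end Cfsg.Agent.S4075
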