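import Cfsg.Statements.S4079
import Cfsg.Agent.H90.MetaAut
import Cfsg.Agent.S0112

set_option autoImplicit false
open Cfsg

namespace Cfsg.Agent.S4079

open scoped commutatorElement in

/-- Let p be an odd prime and L a finite metacyclic p-group with no cyclic subgroup of index p, and let a be an automorphism of L of order p. Then a moves some element of order p of L if and only if p = 3 and the semidirect product L ⋊ ⟨a⟩ (of order 3·#L) has maximal class, i.e. nilpotency class m where #L = 3^m. -/
theorem result {L : Type*} [Group L] [Finite L] {p : ℕ} [Fact p.Prime]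
    (hp : p ≠ 2) (hL : IsPGroup p L) (hmc : Cfsg.IsMetacyclic L) (hnc : ∀ C : Subgroup L, IsCyclic C → C.index ≠ p)
    (a : MulAut L) (ha : orderOf a = p) (m : ℕ) (hm : Nat.card L = p ^ m) :
    (∃ x : L, orderOf x = p ∧ a x ≠ x) ↔
    (p = 3 ∧ Group.nilpotencyClass (SemidirectProduct L ↥(Subgroup.zpowers a) (Subgroup.zpowers a).subtype) = m) := by
  have hpp : p.Prime := Fact.out
  have hap : a ^ p = 1 := ha ▸ pow_orderOf_eq_one a
  have hnt : Nontrivial L := by
    by_contra hs
    rw [not_nontrivial_iff_subsingleton] at hs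
    rw [show a = 1 from MulEquiv.ext fun _ => Subsingleton.elim _ _, orderOf_one] at ha
    exact hpp.one_lt.ne ha
  obtain ⟨hΩ, hΩc, hm4⟩ := H90.omega_le_powerClosure_of_metacyclic hp hL hmc hnc
  set h := H90.weakReg_of_metacyclic hp hL hmc
  rw [hm, Nat.pow_le_pow_iff_right hpp.one_lt] at hm4
  obtain ⟨c, rfl⟩ : ∃ c, m = c + 1 := ⟨m - 1, by omega⟩
  let S := SemidirectProduct L ↥(Subgroup.zpowers a) (Subgroup.zpowers a).subtype
  let s : S := SemidirectProduct.inr ⟨a, Subgroup.mem_zpowers a⟩
  let ι : L →* S := SemidirectProduct.inl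
  have hι : Function.Injective ι := SemidirectProduct.inl_injective
  have hconj : ∀ x, ι (a x) = s * ι x * s⁻¹ := fun x => by
    rw [← map_inv]
    exact SemidirectProduct.inl_aut (φ := (Subgroup.zpowers a).subtype)
      (⟨a, Subgroup.mem_zpowers a⟩ : Subgroup.zpowers a) x
  have : Finite S := Finite.of_equiv _ SemidirectProduct.equivProd.symm
  have hS : Nat.card S = p ^ (c + 2) := by
    rw [SemidirectProduct.card, hm, Nat.card_zpowers, ha, ← pow_succ]
  have hSp : IsPGroup p S := IsPGroup.of_card hS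
  let Ω : Subgroup S := (h.omega 1).map ι
  have hΩn : Ω.Normal := H90.normal_map_inl _ _
  have hΩc' : Nat.card Ω = p ^ 2 := by rw [Subgroup.card_map_of_injective hι, hΩc]
  change _ ↔ p = 3 ∧ Group.nilpotencyClass S = c + 1
  constructor
  · rintro ⟨v, hv, hav⟩
    have hv1 : v ∈ h.omega 1 := h.mem_omega.2 (by rw [pow_one, ← hv, pow_orderOf_eq_one])
    obtain ⟨d, -, rfl⟩ := h.mem_powerClosure_iff.1 (hΩ hv1)
    rw [pow_one] at hv hav hv1
    have hd : d ^ p ^ 2 = 1 := by rw [sq, pow_mul]; simpa using h.mem_omega.1 hv1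
    have hp3 : p = 3 := by
      by_contra h3
      have := hpp.two_le
      exact hav (H90.aut_fix_pow_of_three_lt hp hL hmc (by omega) hap hd)
    refine ⟨hp3, ?_⟩
    let F : Subgroup L := (a : L →* L).eqLocus (MonoidHom.id L)
    have hF : Nat.card (h.omega 1 ⊓ F : Subgroup L) ≤ p := by
      have h1 := H90.card_mul_le_of_lt hL (lt_of_le_of_ne inf_le_left
        fun h1 => hav (h1.ge hv1).2 : h.omega 1 ⊓ F < h.omega 1)
      rw [hΩc, sq] at h1
      exact Nat.le_of_mul_le_mul_right h1 hpp.pos
    have hfix : ∀ w ∈ h.omega 1, a (w⁻¹ * a w) = w⁻¹ * a w := by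
      intro w hw
      have h1 := H7.le_center_of_card_le hSp ((H7.card_commutator_le hSp (k := 1) hΩc'.le).trans
        (pow_one p).le) (Subgroup.commutator_mem_commutator (⟨w⁻¹, Subgroup.inv_mem _ hw, rfl⟩ : ι w⁻¹ ∈ Ω)
          (Subgroup.mem_top s))
      have h2 : ⁅ι w⁻¹, s⁆ = ι (w⁻¹ * a w) := by
        rw [map_mul, hconj, commutatorElement_def, map_inv, inv_inv, mul_assoc, mul_assoc, mul_assoc]
      apply hι
      rw [hconj, ← h2, Subgroup.mem_center_iff.1 h1 s, mul_inv_cancel_right]
    have hexp : ∀ x ∈ F, x ^ p = 1 := by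
      have key : ∀ x ∈ F, x ^ p ^ 2 = 1 → x ^ p = 1 := by
        intro x hx hx2
        by_contra hx1
        have hW : ∀ {y z : L}, y ∈ h.omega 2 → z ∈ h.omega 2 → (y * z) ^ p = y ^ p * z ^ p :=
          fun hy hz => h.mul_pow_of_comm_pow (H90.comm_pow_eq_one_of_pow_sq hp hL hmc hy hz)
        have haW : ∀ {k : ℕ} {y : L}, y ∈ h.omega k → a y ∈ h.omega k := fun hy =>
          h.mem_omega.2 (by rw [← map_pow, h.mem_omega.1 hy, map_one])
        have hd' : d ∈ h.omega 2 := hd
        have hx' : x ∈ h.omega 2 := hx2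
        have hcen : ∀ {w y : L}, w ∈ h.omega 1 → y ∈ h.omega 2 → Commute w y := by
          intro w y hw hy
          obtain ⟨e, -, rfl⟩ := h.mem_powerClosure_iff.1 (hΩ hw)
          refine (h.commute_pow_iff 1 e y).2 ?_
          rw [pow_one]
          refine H90.comm_pow_eq_one_of_pow_sq hp hL hmc ?_ hy
          rw [pow_succ, pow_mul]
          simpa using h.mem_omega.1 hw
        obtain ⟨u, hu⟩ : ∃ u, u = d⁻¹ * a d := ⟨_, rfl⟩
        have huW : u ∈ h.omega 2 := hu ▸ Subgroup.mul_mem _ (Subgroup.inv_mem _ hd') (haW hd')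
        have h1 : u ^ p = (d ^ p)⁻¹ * a (d ^ p) := by
          rw [hu, hW (Subgroup.inv_mem _ hd') (haW hd'), inv_pow, map_pow]
        have h2 : Subgroup.zpowers (x ^ p) = h.omega 1 ⊓ F := by
          have h3 : (x ^ p) ^ p = 1 := by rw [← pow_mul, ← sq, hx2]
          apply Subgroup.eq_of_le_of_card_ge (Subgroup.zpowers_le.2 (Subgroup.mem_inf.2
            ⟨h.mem_omega.2 (by rwa [pow_one]), Subgroup.pow_mem _ hx _⟩))
          rwa [Nat.card_zpowers, orderOf_eq_prime h3 hx1]
        have h3 : u ^ p ∈ h.omega 1 ⊓ F := h1 ▸ ⟨Subgroup.mul_mem _ (Subgroup.inv_mem _ hv1)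
          (haW hv1), hfix _ hv1⟩
        obtain ⟨i, hi⟩ := H90.exists_nat_pow_of_mem_zpowers (h2.ge h3)
        rw [← pow_mul, mul_comm, pow_mul, h.pow_eq_pow_iff_one] at hi
        obtain ⟨w, hw⟩ : ∃ w, w = (x ^ i)⁻¹ * u := ⟨_, rfl⟩
        have hw1 : w ∈ h.omega 1 := h.mem_omega.2 (by rwa [pow_one, hw])
        obtain ⟨t, ht⟩ : ∃ t, t = w⁻¹ * a w := ⟨_, rfl⟩
        have ht1 : t ∈ h.omega 1 := ht ▸ Subgroup.mul_mem _ (Subgroup.inv_mem _ hw1) (haW hw1)
        have hat : a t = t := ht ▸ hfix w hw1
        have had : a d = d * u := by rw [hu]; group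
        have hau : a u = u * t := by
          have h4 : u = x ^ i * w := by rw [hw]; group
          have h5 : a x = x := hx
          rw [h4, map_mul, map_pow, h5, ht]
          group
        have hc := hcen ht1 huW
        have h4 : a (a (a d)) = d * (u ^ 3 * t ^ 3) := by
          simp only [had, hau, hat, map_mul, pow_succ, pow_zero, one_mul, mul_assoc]
          rw [← mul_assoc t u, hc.eq, mul_assoc]
        have h5 : a (a (a d)) = d := by
          have : (a ^ 3) d = d := by rw [← hp3, hap]; rfl
          exact this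
        have h6 : t ^ 3 = 1 := by rw [← hp3]; simpa using h.mem_omega.1 ht1
        rw [h5, h6, mul_one, left_eq_mul, ← hp3, h1, inv_mul_eq_one] at h4
        exact hav h4.symm
      intro x hx
      obtain ⟨k, hk⟩ := hL x
      induction k with
      | zero => rw [pow_zero, pow_one] at hk; rw [hk, one_pow]
      | succ k ih =>
        rcases k with _ | k
        · simpa using hk
        · apply ih
          have := key (x ^ p ^ k) (Subgroup.pow_mem _ hx _) (by rw [← pow_mul, ← pow_add, hk])
          rwa [← pow_mul, ← pow_succ] at this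
    set A := Subgroup.centralizer ({s} : Set S)
    have hsA : s ∈ A := Subgroup.mem_centralizer_singleton_iff.2 rfl
    have hA1 : Nat.card A ≤ p ^ 2 := by
      have h1 : ι.range ⊓ A ≤ (h.omega 1 ⊓ F).map ι := by
        rintro _ ⟨⟨x, rfl⟩, hx⟩
        have h2 : a x = x := hι (by
          rw [hconj, ← Subgroup.mem_centralizer_singleton_iff.1 hx, mul_inv_cancel_right])
        exact ⟨x, ⟨h.mem_omega.2 (by rw [pow_one, hexp x h2]), h2⟩, rfl⟩
      have h2 := (Subgroup.card_le_of_le h1).trans ((Subgroup.card_map_of_injective hι).le.trans hF)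
      have h3 : ι.range.index = p := by
        rw [SemidirectProduct.range_inl_eq_ker_rightHom, Subgroup.index_ker,
          MonoidHom.range_eq_top.2 SemidirectProduct.rightHom_surjective, Subgroup.card_top,
          Nat.card_zpowers, ha]
      have h4 : ι.range.relIndex A ≤ p := h3 ▸ Subgroup.relIndex_top_right ι.range ▸
        Subgroup.relIndex_le_of_le_right le_top Subgroup.index_ne_zero_of_finite
      rw [← H7.card_inf_mul_relIndex ι.range A, sq]
      exact Nat.mul_le_mul h2 h4
    have hA2 : p ^ 2 ≤ Nat.card A := by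
      refine H71.le_pow_of_lt_pow_succ hSp (n := 1) fun h1 => ?_
      rw [pow_one] at h1
      have : Nontrivial S := hι.nontrivial
      have h2 := H90.card_mul_le_of_lt hSp (bot_lt_iff_ne_bot.2
        ((Subgroup.nontrivial_iff_ne_bot _).1 hSp.center_nontrivial))
      rw [Subgroup.card_bot, one_mul] at h2
      have h3 := Subgroup.eq_of_le_of_card_ge (Subgroup.center_le_centralizer {s}) (h1.trans h2)
      have h4 := Subgroup.mem_center_iff.1 (h3.ge hsA) (ι (d ^ p))
      exact hav (hι (by rw [hconj, ← h4, mul_inv_cancel_right]))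
    have hA := le_antisymm hA1 hA2
    have := H71.isMulCommutative_of_card_le_sq (hSp.to_subgroup A) hA1
    exact S0112.result (c + 2) hS A hA (le_antisymm
      (Subgroup.centralizer_le (Set.singleton_subset_iff.2 hsA)) (Subgroup.le_centralizer A))
  · rintro ⟨-, hcl⟩
    rw [H90.nilpotencyClass_eq_iff_lcs_ne_bot hS] at hcl
    by_contra hno
    push Not at hno
    obtain ⟨n, hn⟩ := H7.card_eq_pow hL (commutator L)
    have hn1 : n ≤ 1 := by
      by_contra hn1
      have : ((commutator L).map ι).Normal := H90.normal_map_inl _ _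
      obtain ⟨N, hN, hNL, hNc⟩ := H7.exists_normal_le_card_eq hSp ((commutator L).map ι) (k := 2)
        (by rw [Subgroup.card_map_of_injective hι, hn]; exact Nat.pow_le_pow_right hpp.pos (by omega))
      have h1 := H90.normal_eq_of_maxClass hS hcl (by omega) hNc hΩc'
      have h2 := H71.isCyclic_commutator_of_isMetacyclic hmc
      have h3 : IsCyclic (h.omega 1) :=
        Subgroup.isCyclic_of_le ((Subgroup.map_le_map_iff_of_injective hι).1 (h1 ▸ hNL))
      exact H71.not_isCyclic_of_elem_sq (fun x hx => by simpa using h.mem_omega.1 hx) hΩc.ge h3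
    have h1 : Ω ≤ Subgroup.center S := by
      rintro _ ⟨w, hw, rfl⟩
      have h2 : w ∈ Subgroup.center L := by
        refine (H90.powerClosure_anti hn1 ⊤).trans ?_ (hΩ hw)
        exact (H90.powerClosure_eq_center hp hL hmc hn).le
      have h3 : a w = w := by
        by_cases hw1 : w = 1
        · rw [hw1, map_one]
        · exact hno w (orderOf_eq_prime (by simpa using h.mem_omega.1 hw) hw1)
      rw [Subgroup.mem_center_iff]
      rintro ⟨l, b, hb⟩
      have h4 : b w = w := (Subgroup.zpowers_le.2 (MulAction.mem_stabilizer_iff.2 h3) :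
        Subgroup.zpowers a ≤ MulAction.stabilizer _ w) hb
      refine SemidirectProduct.ext ?_ ?_
      · change l * b w = w * l
        rw [h4, Subgroup.mem_center_iff.1 h2 l]
      · exact (mul_one _).trans (one_mul _).symm
    have h2 := (Subgroup.card_le_of_le h1).trans (H90.card_center_of_maxClass (by omega) hS hcl)
    rw [hΩc'] at h2
    nlinarith [hpp.two_le]

end Cfsg.Agent.S4079
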