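import Cfsg.Statements.S4080
import Cfsg.Agent.S4079

set_option autoImplicit false
open Cfsg

namespace Cfsg.Agent.S4080

/-- Let p > 3 be a prime and L the direct product of two cyclic groups of order p². Every automorphism of L of order p fixes every element of order p of L. -/
theorem result {p : ℕ} [Fact p.Prime] (hp : 3 < p)
    (a : MulAut (Multiplicative (ZMod (p ^ 2) × ZMod (p ^ 2)))) (ha : orderOf a = p)
    (x : Multiplicative (ZMod (p ^ 2) × ZMod (p ^ 2))) (hx : orderOf x = p) : a x = x := by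
  have hpp : p.Prime := Fact.out
  have : NeZero (p ^ 2) := ⟨(pow_pos hpp.pos 2).ne'⟩
  have hc : Nat.card (Multiplicative (ZMod (p ^ 2) × ZMod (p ^ 2))) = p ^ 4 := by
    rw [Nat.card_congr Multiplicative.toAdd, Nat.card_prod, Nat.card_zmod, ← pow_add]
  have hexp : ∀ g : Multiplicative (ZMod (p ^ 2) × ZMod (p ^ 2)), g ^ p ^ 2 = 1 := by
    intro g
    apply Multiplicative.toAdd.injective
    rw [toAdd_pow, toAdd_one]
    ext
    · rw [Prod.smul_fst, nsmul_eq_mul, ZMod.natCast_self, zero_mul, Prod.fst_zero]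
    · rw [Prod.smul_snd, nsmul_eq_mul, ZMod.natCast_self, zero_mul, Prod.snd_zero]
  by_contra hne
  have := (S4079.result (by omega) (IsPGroup.of_card hc) ?_ ?_ a ha 4 hc).1 ⟨x, hx, hne⟩
  · omega
  · refine H71.isMetacyclic_iff.2 ⟨Multiplicative.ofAdd (1, 0), Multiplicative.ofAdd (0, 1),
      inferInstance, ?_⟩
    rw [eq_top_iff]
    rintro ⟨u, v⟩ -
    have h1 := Subgroup.mul_mem_sup
      (Subgroup.pow_mem _ (Subgroup.mem_zpowers
        (Multiplicative.ofAdd ((1, 0) : ZMod (p ^ 2) × ZMod (p ^ 2)))) u.val)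
      (Subgroup.pow_mem _ (Subgroup.mem_zpowers
        (Multiplicative.ofAdd ((0, 1) : ZMod (p ^ 2) × ZMod (p ^ 2)))) v.val)
    rw [← ofAdd_nsmul, ← ofAdd_nsmul, ← ofAdd_add] at h1
    change Multiplicative.ofAdd (u, v) ∈ _
    simpa using h1
  · intro C hC hi
    have h1 := H90.card_dvd_of_isCyclic_of_pow (G := C) (e := p ^ 2) fun g => Subtype.ext (hexp g)
    have h2 := C.card_mul_index
    rw [hi, hc, pow_succ p 3] at h2
    rw [Nat.eq_of_mul_eq_mul_right hpp.pos h2, Nat.pow_dvd_pow_iff_le_right hpp.one_lt] at h1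
    omega

end Cfsg.Agent.S4080
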