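import Cfsg.Statements.S4081
import Cfsg.Agent.H91.ThreeOrbits
import Cfsg.Agent.H91.FrobElem
import Cfsg.Agent.H91.Basic
import Cfsg.Agent.S0144

set_option autoImplicit false
open Cfsg

namespace Cfsg.Agent.S4081

theorem exists_char_comm {G : Type*} [Group G] [Nontrivial G] (h : Group.IsSolvable G) :
    ∃ V : Subgroup G, V.Characteristic ∧ V ≠ ⊥ ∧ IsMulCommutative V := by
  classical
  obtain ⟨n, hn⟩ := h.solvable
  have hex : ∃ n, derivedSeries G n = ⊥ := ⟨n, hn⟩
  have h0 : Nat.find hex ≠ 0 := by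
    intro e
    have := Nat.find_spec hex
    rw [e, derivedSeries_zero] at this
    exact top_ne_bot this
  obtain ⟨m, hm⟩ := Nat.exists_eq_succ_of_ne_zero h0
  refine ⟨derivedSeries G m, inferInstance, Nat.find_min hex (by omega), ?_⟩
  have := Nat.find_spec hex
  rw [hm, derivedSeries_succ, Subgroup.commutator_eq_bot_iff_le_centralizer] at this
  exact ⟨⟨fun a b => Subtype.ext (this b.2 a a.2)⟩⟩

theorem eq_pow_mul_pow {n p q : ℕ} (hn : n ≠ 0) (hp : p.Prime)
    (h : ∀ r : ℕ, r.Prime → r ∣ n → r = p ∨ r = q) : ∃ a b, n = p ^ a * q ^ b := by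
  obtain ⟨a, m, hm, rfl⟩ := Nat.exists_eq_pow_mul_and_not_dvd hn p hp.ne_one
  obtain ⟨b, rfl⟩ := H91.exists_pow_of_prime_dvd_imp_eq (n := m) (p := q)
    (fun e => hn (by simp [e])) (fun r hr hd => (h r hr (Dvd.dvd.mul_left hd _)).resolve_left
      (fun e => hm (e ▸ hd)))
  exact ⟨a, b, rfl⟩

theorem exists_mul_pow {G : Type*} [Group G] [Finite G] {P : Subgroup G} {x : G}
    (hc : P.IsComplement' (Subgroup.zpowers x)) (y : G) : ∃ u ∈ P, ∃ k : ℕ, y = u * x ^ k := by
  obtain ⟨⟨u, z⟩, hz, -⟩ := hc.existsUnique y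
  obtain ⟨k, hk⟩ := (mem_powers_iff_mem_zpowers.mpr z.2)
  exact ⟨u, u.2, k, by rw [← hz]; simp only; rw [← hk]⟩

theorem conjNormal_mul_of_comm {G : Type*} [Group G] {P : Subgroup G} [P.Normal]
    (hc : IsMulCommutative P) {u : G} (hu : u ∈ P) (y : G) :
    (MulAut.conjNormal (u * y) : MulAut P) = MulAut.conjNormal y := by
  have : (MulAut.conjNormal u : MulAut P) = 1 := by
    ext v
    have := congrArg Subtype.val (hc.is_comm.comm ⟨u, hu⟩ v)
    simp only [Subgroup.coe_mul] at this
    simp [this]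
  rw [map_mul, this, one_mul]

theorem card_eq_three_of_cover {α : Type*} {a b c : α} (hab : a ≠ b) (hac : a ≠ c) (hbc : b ≠ c)
    (h : ∀ x, x = a ∨ x = b ∨ x = c) : Nat.card α = 3 := by
  rw [← Set.ncard_univ, Set.ncard_eq_three]
  exact ⟨a, b, c, hab, hac, hbc, (Set.eq_univ_of_forall h).symm⟩

theorem cover_of_card_eq_three {α : Type*} (h3 : Nat.card α = 3) {a b c : α} (hab : a ≠ b)
    (hac : a ≠ c) (hbc : b ≠ c) (x : α) : x = a ∨ x = b ∨ x = c := by
  have : Finite α := Nat.finite_of_card_ne_zero (by omega)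
  have h1 : ({a, b, c} : Set α) = Set.univ := Set.eq_of_subset_of_ncard_le (Set.subset_univ _)
    (by rw [Set.ncard_univ, h3, Set.ncard_eq_three.mpr ⟨a, b, c, hab, hac, hbc, rfl⟩])
  have : x ∈ ({a, b, c} : Set α) := h1 ▸ Set.mem_univ x
  simpa using this

theorem orbit_eq_iff {G : Type*} [Group G] {x y : G} :
    (Quotient.mk'' x : MulAction.orbitRel.Quotient (MulAut G) G) = Quotient.mk'' y ↔
      ∃ α : MulAut G, α y = x := by
  rw [Quotient.eq'', MulAction.orbitRel_apply]
  rfl

theorem main {G : Type*} [Group G] [Finite G] {p q : ℕ} [hp : Fact p.Prime] [hq : Fact q.Prime]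
    (hpq : p ≠ q) {a b : G} (ha : orderOf a = p) (hb : orderOf b = q) (V : Subgroup G)
    [V.Characteristic] (hV : IsMulCommutative V) (haV : a ∈ V)
    (hcov : ∀ g : G, g = 1 ∨ (∃ α : MulAut G, α a = g) ∨ ∃ α : MulAut G, α b = g) :
    ∃ n : ℕ, 1 ≤ n ∧ Nat.card G = p ^ n * q ∧
      (∀ P : Sylow p G, (P : Subgroup G).Normal ∧ Cfsg.IsElementaryAbelian p (P : Subgroup G)) ∧
      orderOf (p : ZMod q) = q - 1 ∧
      ∀ x y : G, orderOf x = q → orderOf y = p → x * y * x⁻¹ ≠ y := by
  have hord : ∀ g : G, g = 1 ∨ orderOf g = p ∨ orderOf g = q := by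
    intro g
    rcases hcov g with h | ⟨α, rfl⟩ | ⟨α, rfl⟩
    · exact Or.inl h
    · exact Or.inr (Or.inl (by rw [α.orderOf_eq, ha]))
    · exact Or.inr (Or.inr (by rw [α.orderOf_eq, hb]))
  have hcop : p.Coprime q := (Nat.coprime_primes hp.out hq.out).mpr hpq
  have hfpf : ∀ x y : G, orderOf x = q → orderOf y = p → x * y * x⁻¹ ≠ y := by
    intro x y hx hy h
    rw [mul_inv_eq_iff_eq_mul] at h
    have h1 := Commute.orderOf_mul_eq_mul_orderOf_of_coprime (show Commute x y from h)
      (by rw [hx, hy]; exact hcop.symm)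
    rw [hx, hy] at h1
    have h2 := hp.out.two_le
    have h3 := hq.out.two_le
    rcases hord (x * y) with h4 | h4 | h4
    · rw [h4, orderOf_one] at h1; nlinarith
    · rw [h4] at h1; nlinarith
    · rw [h4] at h1; nlinarith
  have hαV : ∀ (α : MulAut G) (v : G), v ∈ V → α v ∈ V := fun α v hv =>
    (MulAut.characteristic V α ⟨v, hv⟩).2
  have hpV : ∀ g : G, orderOf g = p → g ∈ V := by
    intro g hg
    rcases hcov g with h | ⟨α, rfl⟩ | ⟨α, rfl⟩
    · exact h ▸ V.one_mem
    · exact hαV α a haV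
    · exact absurd (by rw [← hg, α.orderOf_eq, hb]) hpq
  have hVp : ∀ g ∈ V, g ≠ 1 → orderOf g = p := by
    intro g hg hg1
    rcases hord g with h | h | h
    · exact absurd h hg1
    · exact h
    · refine absurd ?_ (hfpf g a h ha)
      rw [mul_inv_eq_iff_eq_mul]
      exact congrArg Subtype.val (hV.is_comm.comm ⟨g, hg⟩ ⟨a, haV⟩)
  have hVp' : ∀ g ∈ V, g ^ p = 1 := by
    intro g hg
    by_cases h : g = 1
    · rw [h, one_pow]
    · rw [← hVp g hg h, pow_orderOf_eq_one]
  have hVP : IsPGroup p V := fun g => ⟨1, Subtype.ext (by simpa using hVp' g g.2)⟩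
  have hpow : ∀ {r s : ℕ} [Fact r.Prime], s.Prime → ∀ k, s = r ^ k → s = r := by
    intro r s hr hs k h
    exact ((Nat.prime_dvd_prime_iff_eq hs hr.out).mp (hs.dvd_of_dvd_pow h.dvd))
  have hPV : ∀ P : Sylow p G, (P : Subgroup G) = V := by
    intro P
    refine (P.is_maximal' hVP fun g hg => ?_).symm
    obtain ⟨k, hk⟩ := H91.orderOf_eq_pow_of_mem P.isPGroup' hg
    rcases hord g with h | h | h
    · exact h ▸ V.one_mem
    · exact hpV g h
    · exact absurd (hpow hq.out k (h ▸ hk)).symm hpq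
  have ha1 : a ≠ 1 := fun e => hp.out.one_lt.ne (by rw [← ha, e, orderOf_one])
  have : Nontrivial V := ⟨⟨⟨a, haV⟩, 1, fun e => ha1 (congrArg Subtype.val e)⟩⟩
  have hbf : ∀ x : G, orderOf x = q → ∀ v : V, MulAut.conjNormal x v = v → v = 1 := by
    intro x hx v hv
    by_contra h
    exact hfpf x v hx (hVp v v.2 fun e => h (Subtype.ext e)) (congrArg Subtype.val hv)
  -- the Sylow `q`-subgroups have order `q`
  obtain ⟨Q, hbQ⟩ := H91.exists_sylow_mem (p := q) (k := 1) (x := b) (by rw [hb, pow_one])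
  have hQo : ∀ g : Q, g ≠ 1 → orderOf g = q := by
    intro g hg
    obtain ⟨k, hk⟩ := H91.orderOf_eq_pow_of_mem Q.isPGroup' g.2
    rw [← Subgroup.orderOf_coe]
    rcases hord g with h | h | h
    · exact absurd (Subtype.ext h) hg
    · exact absurd (hpow hp.out k (h ▸ hk)) hpq
    · exact h
  have hQ : H91.HasIntFPF Q := H91.hasIntFPF_of_fpf
    ((MulAut.conjNormal (H := V)).comp (Q : Subgroup G).subtype)
    (fun g hg v hv => hbf g (by rw [Subgroup.orderOf_coe]; exact hQo g hg) v hv)
  have hb1 : b ≠ 1 := fun e => hq.out.one_lt.ne (by rw [← hb, e, orderOf_one])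
  have : Nontrivial Q := ⟨⟨⟨b, hbQ⟩, 1, fun e => hb1 (congrArg Subtype.val e)⟩⟩
  obtain ⟨⟨z, hz⟩, hz1⟩ := Subgroup.ne_bot_iff_exists_ne_one.mp hQ.center_ne_bot
  have hz1' : z ≠ 1 := fun e => hz1 (Subtype.ext e)
  have hQc : Nat.card Q = q := by
    have h1 : Subgroup.zpowers z = ⊤ := by
      rw [eq_top_iff]
      intro y _
      by_cases hy : y = 1
      · exact hy ▸ Subgroup.one_mem _
      · exact hQ.mem_zpowers_of_commute hq.out (hQo y hy) (hQo z hz1')
          (Subgroup.mem_center_iff.mp hz y)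
    rw [← Subgroup.card_top (G := Q), ← h1, Nat.card_zpowers, hQo z hz1']
  obtain ⟨n, j, hn⟩ := eq_pow_mul_pow (n := Nat.card G) (q := q) Nat.card_pos.ne' hp.out (by
    intro r hr hd
    have := Fact.mk hr
    obtain ⟨g, hg⟩ := exists_prime_orderOf_dvd_card' r hd
    rcases hord g with h | h | h
    · exact absurd (by rw [← hg, h, orderOf_one]) hr.one_lt.ne'
    · exact Or.inl (hg ▸ h)
    · exact Or.inr (hg ▸ h))
  have hj : j = 1 := by
    have h1 := Q.card_eq_multiplicity
    rw [hQc, hn, Nat.factorization_mul (pow_ne_zero _ hp.out.ne_zero) (pow_ne_zero _ hq.out.ne_zero),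
      hp.out.factorization_pow, hq.out.factorization_pow] at h1
    simp only [Finsupp.coe_add, Pi.add_apply, Finsupp.single_eq_same,
      Finsupp.single_eq_of_ne hpq.symm, zero_add] at h1
    exact (Nat.pow_right_injective hq.out.two_le (h1.symm.trans (pow_one q).symm))
  rw [hj, pow_one] at hn
  obtain ⟨P⟩ : Nonempty (Sylow p G) := inferInstance
  have hVc : Nat.card V = p ^ n := by
    have h1 := P.card_eq_multiplicity
    rw [hPV P, hn, Nat.factorization_mul (pow_ne_zero _ hp.out.ne_zero) hq.out.ne_zero,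
      hp.out.factorization_pow, hq.out.factorization] at h1
    simpa [Finsupp.single_eq_of_ne hpq] using h1
  have hn1 : 1 ≤ n := by
    by_contra h
    have h1 : 1 < Nat.card V := Finite.one_lt_card
    rw [hVc, show n = 0 by omega] at h1
    simp at h1
  have hc : V.IsComplement' (Subgroup.zpowers b) := Subgroup.isComplement'_of_coprime
    (by rw [hVc, Nat.card_zpowers, hb, hn]) (by rw [hVc, Nat.card_zpowers, hb]; exact hcop.pow_left n)
  have hint : ∀ α : MulAut G, ∀ u : V, MulAut.characteristic V α (MulAut.conjNormal b u) =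
      MulAut.conjNormal (α b) (MulAut.characteristic V α u) := by
    intro α u
    ext
    change α (b * u * b⁻¹) = α b * α u * (α b)⁻¹
    simp
  refine ⟨n, hn1, hn, fun P => ?_, ?_, hfpf⟩
  · rw [hPV P]
    exact ⟨inferInstance, hV, hVp'⟩
  · refine H91.primRoot_of_transitive_mul hpq hV (fun w => Subtype.ext (hVp' w w.2))
      (MulAut.conjNormal b : MulAut V) (by rw [← map_pow, ← hb, pow_orderOf_eq_one, map_one])
      (fun e => ha1 (congrArg Subtype.val (hbf b hb ⟨a, haV⟩ (by rw [e]; rfl))))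
      (fun v w hv hw => ?_) (fun k hk => ?_)
    · have key : ∀ v : V, v ≠ 1 → ∃ α : MulAut G, α a = v := by
        intro v hv
        rcases hcov v with h | h | ⟨α, h⟩
        · exact absurd (Subtype.ext h) hv
        · exact h
        · exact absurd (by rw [← hVp v v.2 (fun e => hv (Subtype.ext e)), ← h, α.orderOf_eq, hb]) hpq
      obtain ⟨α, hα⟩ := key v hv
      obtain ⟨β, hβ⟩ := key w hw
      obtain ⟨u, hu, k, hk⟩ := exists_mul_pow hc ((β * α⁻¹) b)
      refine ⟨MulAut.characteristic V (β * α⁻¹), k, Subtype.ext ?_, fun u => ?_⟩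
      · change β (α⁻¹ v) = w
        rw [← hα, MulAut.inv_apply_self, hβ]
      · rw [hint, hk, conjNormal_mul_of_comm hV hu, map_pow]
    · have h1 : orderOf (b ^ k) = q := by
        rw [← hb]
        exact Nat.Coprime.orderOf_pow (by rw [hb]; exact (hq.out.coprime_iff_not_dvd).mpr hk)
      rcases hcov (b ^ k) with h | ⟨α, h⟩ | ⟨α, h⟩
      · exact absurd (by rw [← h1, h, orderOf_one]) hq.out.one_lt.ne
      · exact absurd (by rw [← h1, ← h, α.orderOf_eq, ha]) hpq
      · exact ⟨MulAut.characteristic V α, fun u => by rw [hint, h, map_pow]⟩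

/-- Let G be a finite group whose order is not a prime power. Then the automorphism group of G has exactly three orbits on G if and only if there are distinct primes p, q with #G = pⁿ·q (n ≥ 1) such that G has a normal elementary abelian Sylow p-subgroup P, p is a primitive root modulo q (the multiplicative order of p mod q is q − 1), and every element of order q of G acts on P without non-identity fixed points. -/
theorem result {G : Type*} [Group G] [Finite G] (hnpp : ¬ IsPrimePow (Nat.card G)) (hnt : Nat.card G ≠ 1) :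
    Nat.card (MulAction.orbitRel.Quotient (MulAut G) G) = 3 ↔
    ∃ (p q n : ℕ) (_ : Fact p.Prime) (_ : Fact q.Prime), p ≠ q ∧ 1 ≤ n ∧ Nat.card G = p ^ n * q ∧
      (∀ P : Sylow p G, (P : Subgroup G).Normal ∧ Cfsg.IsElementaryAbelian p (P : Subgroup G)) ∧
      orderOf (p : ZMod q) = q - 1 ∧
      ∀ x y : G, orderOf x = q → orderOf y = p → x * y * x⁻¹ ≠ y := by
  constructor
  · intro h3
    have h2 : 1 < (Nat.card G).primeFactors.card := by
      rw [isPrimePow_iff_card_primeFactors_eq_one] at hnpp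
      have : (Nat.card G).primeFactors.card ≠ 0 := by
        rw [Ne, Finset.card_eq_zero, Nat.primeFactors_eq_empty]
        rintro (h | h)
        · exact Nat.card_pos.ne' h
        · exact hnt h
      omega
    obtain ⟨p, hp, q, hq, hpq⟩ := Finset.one_lt_card.mp h2
    have := Fact.mk (Nat.prime_of_mem_primeFactors hp)
    have := Fact.mk (Nat.prime_of_mem_primeFactors hq)
    obtain ⟨a, ha⟩ := exists_prime_orderOf_dvd_card' p (Nat.dvd_of_mem_primeFactors hp)
    obtain ⟨b, hb⟩ := exists_prime_orderOf_dvd_card' q (Nat.dvd_of_mem_primeFactors hq)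
    have hp' := Nat.prime_of_mem_primeFactors hp
    have hq' := Nat.prime_of_mem_primeFactors hq
    have hne : ∀ x y : G, orderOf x ≠ orderOf y →
        (Quotient.mk'' x : MulAction.orbitRel.Quotient (MulAut G) G) ≠ Quotient.mk'' y := by
      intro x y h e
      obtain ⟨α, rfl⟩ := orbit_eq_iff.mp e
      exact h (α.orderOf_eq y)
    have hcov : ∀ g : G, g = 1 ∨ (∃ α : MulAut G, α a = g) ∨ ∃ α : MulAut G, α b = g := by
      intro g
      rcases cover_of_card_eq_three h3 (hne 1 a (by rw [orderOf_one, ha]; exact hp'.one_lt.ne))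
        (hne 1 b (by rw [orderOf_one, hb]; exact hq'.one_lt.ne))
        (hne a b (by rw [ha, hb]; exact hpq)) (Quotient.mk'' g) with h | h | h
      · obtain ⟨α, rfl⟩ := orbit_eq_iff.mp h
        exact Or.inl (map_one α)
      · exact Or.inr (Or.inl (orbit_eq_iff.mp h))
      · exact Or.inr (Or.inr (orbit_eq_iff.mp h))
    obtain ⟨i, j, hn⟩ := eq_pow_mul_pow (n := Nat.card G) (q := q) Nat.card_pos.ne' hp' (by
      intro r hr hd
      have := Fact.mk hr
      obtain ⟨g, hg⟩ := exists_prime_orderOf_dvd_card' r hd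
      rcases hcov g with h | ⟨α, rfl⟩ | ⟨α, rfl⟩
      · exact absurd (by rw [← hg, h, orderOf_one]) hr.one_lt.ne'
      · exact Or.inl (by rw [← hg, α.orderOf_eq, ha])
      · exact Or.inr (by rw [← hg, α.orderOf_eq, hb]))
    have : Nontrivial G := Finite.one_lt_card_iff_nontrivial.mp (by
      have : 0 < Nat.card G := Nat.card_pos
      omega)
    obtain ⟨V, hVc, hV1, hV⟩ := exists_char_comm (S0144.result p q i j hp' hq' hn)
    obtain ⟨⟨v, hv⟩, hv1⟩ := Subgroup.ne_bot_iff_exists_ne_one.mp hV1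
    have hαV : ∀ (α : MulAut G) (v : G), α v ∈ V → v ∈ V := fun α v hv => by
      have : α⁻¹ (α v) ∈ V := (MulAut.characteristic V α⁻¹ ⟨α v, hv⟩).2
      rwa [MulAut.inv_apply_self] at this
    rcases hcov v with h | ⟨α, rfl⟩ | ⟨α, rfl⟩
    · exact absurd (Subtype.ext h) hv1
    · obtain ⟨n, h⟩ := main hpq ha hb V hV (hαV α a hv) hcov
      exact ⟨p, q, n, inferInstance, inferInstance, hpq, h⟩
    · obtain ⟨n, h⟩ := main hpq.symm hb ha V hV (hαV α b hv) (fun g => by
        rcases hcov g with h | h | h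
        · exact Or.inl h
        · exact Or.inr (Or.inr h)
        · exact Or.inr (Or.inl h))
      exact ⟨q, p, n, inferInstance, inferInstance, hpq.symm, h⟩
  · rintro ⟨p, q, n, hp, hq, hpq, hn1, hn, hP, hord, hfpf⟩
    obtain ⟨P⟩ : Nonempty (Sylow p G) := inferInstance
    obtain ⟨hPn, hPc, hPp⟩ := hP P
    set V := (P : Subgroup G) with hVdef
    have hcop : p.Coprime q := (Nat.coprime_primes hp.out hq.out).mpr hpq
    have hVc : Nat.card V = p ^ n := by
      have h1 := P.card_eq_multiplicity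
      rw [hn, Nat.factorization_mul (pow_ne_zero _ hp.out.ne_zero) hq.out.ne_zero,
        hp.out.factorization_pow, hq.out.factorization] at h1
      simpa [Finsupp.single_eq_of_ne hpq] using h1
    obtain ⟨x, hx⟩ := exists_prime_orderOf_dvd_card' (G := G) q (hn ▸ Dvd.intro_left _ rfl)
    have hc : V.IsComplement' (Subgroup.zpowers x) := Subgroup.isComplement'_of_coprime
      (by rw [hVc, Nat.card_zpowers, hx, hn])
      (by rw [hVc, Nat.card_zpowers, hx]; exact hcop.pow_left n)
    have hbf : ∀ x : G, orderOf x = q → ∀ v : V, MulAut.conjNormal x v = v → v = 1 := by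
      intro x hx v hv
      by_contra h
      exact hfpf x v hx (orderOf_eq_prime (hPp v v.2) fun e => h (Subtype.ext e))
        (congrArg Subtype.val hv)
    obtain ⟨h1, h2⟩ := H91.exists_mulAut_of_primRoot hpq hPc (fun w => Subtype.ext (hPp w w.2))
      (MulAut.conjNormal x : MulAut V) (by rw [← map_pow, ← hx, pow_orderOf_eq_one, map_one])
      (hbf x hx) hord
    have hext : ∀ (φ : MulAut V) (y : G), orderOf y = q →
        (∀ u, φ (MulAut.conjNormal x u) = MulAut.conjNormal y (φ u)) →
        ∃ α : MulAut G, (∀ u : V, α u = φ u) ∧ α x = y := by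
      intro φ y hy h
      obtain ⟨α, h3, h4⟩ := H91.exists_hom_extend_of_cyclic_complement hc
        (V.subtype.comp φ.toMonoidHom) (y := y) (by rw [hx, hy])
        (fun u => congrArg Subtype.val (h u))
      have hc' : V.IsComplement' (Subgroup.zpowers y) := Subgroup.isComplement'_of_coprime
        (by rw [hVc, Nat.card_zpowers, hy, hn])
        (by rw [hVc, Nat.card_zpowers, hy]; exact hcop.pow_left n)
      have hs : Function.Surjective α := by
        intro g
        obtain ⟨u, hu, k, rfl⟩ := exists_mul_pow hc' g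
        refine ⟨φ.symm ⟨u, hu⟩ * x ^ k, ?_⟩
        rw [map_mul, map_pow, h3, h4]
        simp
      exact ⟨MulEquiv.ofBijective α (Finite.injective_iff_surjective.mpr hs |> fun hi => ⟨hi, hs⟩),
        h3, h4⟩
    have : Nontrivial V := Finite.one_lt_card_iff_nontrivial.mp (by
      rw [hVc]; exact Nat.one_lt_pow (by omega) hp.out.one_lt)
    obtain ⟨v, hv⟩ := exists_ne (1 : V)
    have hvo : orderOf (v : G) = p := orderOf_eq_prime (hPp v v.2) fun e => hv (Subtype.ext e)
    have hne : ∀ x y : G, orderOf x ≠ orderOf y →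
        (Quotient.mk'' x : MulAction.orbitRel.Quotient (MulAut G) G) ≠ Quotient.mk'' y := by
      intro x y h e
      obtain ⟨α, rfl⟩ := orbit_eq_iff.mp e
      exact h (α.orderOf_eq y)
    refine card_eq_three_of_cover
      (hne 1 v (by rw [orderOf_one, hvo]; exact hp.out.one_lt.ne))
      (hne 1 x (by rw [orderOf_one, hx]; exact hq.out.one_lt.ne))
      (hne v x (by rw [hvo, hx]; exact hpq)) fun c => ?_
    obtain ⟨g, rfl⟩ := Quotient.exists_rep c
    by_cases hg1 : g = 1
    · exact Or.inl (by rw [hg1])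
    right
    by_cases hgV : g ∈ V
    · left
      obtain ⟨φ, h3, h4⟩ := h1 v ⟨g, hgV⟩ hv (fun e => hg1 (congrArg Subtype.val e))
      obtain ⟨α, h5, -⟩ := hext φ x hx h4
      exact orbit_eq_iff.mpr ⟨α, by rw [h5, h3]⟩
    · right
      obtain ⟨u, hu, k, rfl⟩ := exists_mul_pow hc g
      have hk : ¬ q ∣ k := by
        rintro ⟨m, rfl⟩
        apply hgV
        rw [pow_mul, ← hx, pow_orderOf_eq_one, one_pow, mul_one]
        exact hu
      have hxk : orderOf (x ^ k) = q := by
        rw [← hx]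
        exact Nat.Coprime.orderOf_pow (by rw [hx]; exact (hq.out.coprime_iff_not_dvd).mpr hk)
      have hgq : (u * x ^ k) ^ q ∈ V := by
        rw [← QuotientGroup.eq_one_iff, QuotientGroup.mk_pow, QuotientGroup.mk_mul,
          (QuotientGroup.eq_one_iff u).mpr hu, one_mul, ← QuotientGroup.mk_pow, ← hxk,
          pow_orderOf_eq_one, QuotientGroup.mk_one]
      have hgo : orderOf (u * x ^ k) = q := by
        refine orderOf_eq_prime ?_ hg1
        refine congrArg Subtype.val (hbf _ hxk ⟨_, hgq⟩ ?_)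
        rw [← conjNormal_mul_of_comm hPc hu]
        ext
        change (u * x ^ k) * (u * x ^ k) ^ q * (u * x ^ k)⁻¹ = (u * x ^ k) ^ q
        generalize u * x ^ k = y
        group
      obtain ⟨i, hi⟩ : ∃ i : ℕ, (p : ZMod q) ^ i = k := by
        let w := ZMod.unitOfCoprime p hcop
        have h5 : Subgroup.zpowers w = ⊤ := by
          apply Subgroup.eq_top_of_card_eq
          rw [Nat.card_zpowers, ← orderOf_units, ZMod.coe_unitOfCoprime, hord,
            Nat.card_eq_fintype_card, ZMod.card_units]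
        have h6 : ZMod.unitOfCoprime k ((hq.out.coprime_iff_not_dvd).mpr hk).symm ∈
            Subgroup.zpowers w := h5 ▸ Subgroup.mem_top _
        obtain ⟨i, hi⟩ := mem_powers_iff_mem_zpowers.mpr h6
        exact ⟨i, by simpa [w] using congrArg Units.val hi⟩
      have h7 : x ^ p ^ i = x ^ k := by
        rw [pow_eq_pow_iff_modEq, hx, ← ZMod.natCast_eq_natCast_iff]
        simpa using hi
      obtain ⟨φ, h4⟩ := h2 i
      obtain ⟨α, -, h5⟩ := hext φ _ hgo (fun w => by
        rw [h4, conjNormal_mul_of_comm hPc hu, ← map_pow, h7])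
      exact orbit_eq_iff.mpr ⟨α, h5⟩

end Cfsg.Agent.S4081
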