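import Cfsg.Statements.S4082
import Cfsg.Agent.H66.ByCyc
import Cfsg.Agent.H29.Dihedral
import Cfsg.Agent.H63.Frob

set_option autoImplicit false
open Cfsg

namespace Cfsg.Agent.S4082

open Cfsg.Agent.H63 Cfsg.Agent.H67 Subgroup Cfsg.Agent.H66.ByCyc


/-- Let p be an odd prime and G a finite group with Sylow p-subgroup P. Say that G has restricted p-by-cyclic subgroups when every subgroup H of G whose Sylow p-subgroup is normal in H with cyclic quotient is itself cyclic or dihedral of order 2pⁿ for some n. Then G has restricted p-by-cyclic subgroups if and only if P is cyclic and one of the following holds: (1) N_G(P) = C_G(P); or (2) N_G(P)/C_G(P) has order 2 and, for the subgroup Q of order p of P, the centralizer C_G(Q) is abelian and every element of N_G(Q) outside C_G(Q) is an involution inverting every element of C_G(Q). -/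
theorem result {G : Type*} [Group G] [Finite G] {p : ℕ}
    [Fact p.Prime] (hp : p ≠ 2) (P : Sylow p G) :
    (∀ H : Subgroup G, (∀ S : Sylow p ↥H, (S : Subgroup ↥H).Normal) →
        (∀ (S : Sylow p ↥H) [(S : Subgroup ↥H).Normal], IsCyclic (↥H ⧸ (S : Subgroup ↥H))) →
        IsCyclic H ∨ (∃ n : ℕ, Nonempty (H ≃* DihedralGroup (p ^ n)))) ↔
    (IsCyclic P ∧
      (Subgroup.normalizer ((P : Subgroup G) : Set G) = Subgroup.centralizer ((P : Subgroup G) : Set G) ∨
       ((Subgroup.centralizer ((P : Subgroup G) : Set G)).relIndex (Subgroup.normalizer ((P : Subgroup G) : Set G)) = 2 ∧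
        ∀ Q : Subgroup G, Q ≤ P → Nat.card Q = p →
          IsMulCommutative ↥(Subgroup.centralizer (Q : Set G)) ∧
          ∀ x : G, x ∈ Subgroup.normalizer (Q : Set G) → x ∉ Subgroup.centralizer (Q : Set G) →
            orderOf x = 2 ∧ ∀ c : G, c ∈ Subgroup.centralizer (Q : Set G) → x * c * x⁻¹ = c⁻¹))) := by
  classical
  have hpp : p.Prime := Fact.out
  constructor
  · intro h
    have hodd : ∀ {Q : Subgroup G}, IsPGroup p Q → ∀ x ∈ Q, Odd (orderOf x) := fun hQ x hx =>
      H52.odd_orderOf_of_mem (H52.coprime_two_of_isPGroup hpp hp hQ) hx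
    have inv2 : ∀ (Q : Subgroup G) (x : G), IsPGroup p Q → x ∈ N[Q] → x ∉ C[Q] →
        orderOf x = 2 := by
      intro Q x hQ hx hxC
      have hxH : x ∈ Q ⊔ zpowers x := mem_sup_right (mem_zpowers x)
      rcases h _ (of_sup hQ hx).1 (of_sup hQ hx).2 with h1 | ⟨n, ⟨e⟩⟩
      · exact absurd (mem_centralizer_iff.2 fun q hq => comm_of_isMulCommutative
          h1.isMulCommutative (mem_sup_left hq) hxH) hxC
      · have h2 : ∀ (y : ↥(Q ⊔ zpowers x)) i, e y = DihedralGroup.sr i → orderOf (y : G) = 2 := by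
          intro y i hy
          rw [orderOf_coe, ← e.orderOf_eq, hy, DihedralGroup.orderOf_sr]
        rcases hx' : e ⟨x, hxH⟩ with i | i
        · refine absurd (mem_centralizer_iff.2 fun q hq => ?_) hxC
          rcases hq' : e ⟨q, mem_sup_left hq⟩ with j | j
          · have : (⟨q, mem_sup_left hq⟩ : ↥(Q ⊔ zpowers x)) * ⟨x, hxH⟩ =
                ⟨x, hxH⟩ * ⟨q, mem_sup_left hq⟩ := e.injective (by
              rw [map_mul, map_mul, hx', hq', DihedralGroup.r_mul_r, DihedralGroup.r_mul_r,
                add_comm])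
            exact congrArg Subtype.val this
          · have h3 := hodd hQ q hq
            rw [h2 _ _ hq'] at h3
            exact absurd h3 (by decide)
        · exact h2 _ _ hx'
    have inv3 : ∀ (Q : Subgroup G) (x : G), IsPGroup p Q → x ∈ N[Q] → x ∉ C[Q] →
        ∀ c ∈ C[Q], x * c * x⁻¹ = c⁻¹ := by
      intro Q x hQ hx hxC c hc
      have h1 := inv2 Q x hQ hx hxC ▸ pow_orderOf_eq_one x
      have h2 := inv2 Q (x * c) hQ (mul_mem hx (centralizer_le_normalizer _ hc))
        (fun h => hxC ((mul_mem_cancel_right hc).1 h)) ▸ pow_orderOf_eq_one (x * c)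
      rw [pow_two] at h1 h2
      rw [eq_inv_of_mul_eq_one_left h1, inv_inv, eq_inv_iff_mul_eq_one, inv_eq_of_mul_eq_one_left h1,
        ← h2]
      group
    have hP : IsCyclic P := by
      have := h _ (of_sup P.isPGroup' (one_mem _)).1 (of_sup P.isPGroup' (one_mem _)).2
      rw [zpowers_one_eq_bot, sup_bot_eq] at this
      rcases this with h1 | ⟨n, ⟨e⟩⟩
      · exact h1
      · exfalso
        obtain ⟨k, hk⟩ := exists_card_eq_pow P.isPGroup'
        rw [Nat.card_congr e.toEquiv, DihedralGroup.nat_card] at hk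
        exact hp ((Nat.prime_dvd_prime_iff_eq Nat.prime_two hpp).1
          (Nat.prime_two.dvd_of_dvd_pow (Dvd.intro _ hk))).symm
    refine ⟨hP, ?_⟩
    by_cases hNC : N[(P : Subgroup G)] ≤ C[(P : Subgroup G)]
    · exact Or.inl (le_antisymm hNC (centralizer_le_normalizer _))
    obtain ⟨x₀, hx₀, hx₀C⟩ := SetLike.not_le_iff_exists.1 hNC
    have hPC : (P : Subgroup G) ≤ C[(P : Subgroup G)] := by
      have := hP.isMulCommutative
      exact le_centralizer _
    refine Or.inr ⟨?_, fun Q hQP hQ => ?_⟩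
    · rw [relIndex_eq_two_iff]
      refine ⟨x₀, hx₀, fun b hb => ?_⟩
      by_cases hbC : b ∈ C[(P : Subgroup G)]
      · exact Or.inr ⟨hbC, fun h => hx₀C ((mul_mem_cancel_left hbC).1 h)⟩
      · refine Or.inl ⟨mem_centralizer_iff.2 fun q hq => ?_, hbC⟩
        have h1 := inv3 _ _ P.isPGroup' hx₀ hx₀C q (hPC hq)
        have h2 := inv3 _ _ P.isPGroup' hb hbC q⁻¹ (hPC (inv_mem hq))
        rw [inv_inv, ← h1] at h2
        nth_rewrite 1 [← h2]
        group
    · have hQp : IsPGroup p Q := P.isPGroup'.to_le hQP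
      have hx₀Q : x₀ ∉ C[Q] := by
        intro hc
        obtain ⟨q, hq, hq1⟩ := exists_ne_one_of_ne_bot (H := Q) (by
          rintro rfl; exact hpp.one_lt.ne (by simpa using hQ))
        exact hq1 (H52.eq_one_of_odd_of_inverts_of_commute (hodd hQp q hq)
          (inv3 _ _ P.isPGroup' hx₀ hx₀C q (hPC (hQP hq))) (mem_centralizer_iff.1 hc q hq).symm)
      refine ⟨⟨⟨fun a b => Subtype.ext (H52.commute_of_forall_inverts
        (inv3 Q x₀ hQp (norm_le_norm_of_isCyclic hP hQP hx₀) hx₀Q) a.2 b.2)⟩⟩,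
        fun x hx hxC => ⟨inv2 Q x hQp hx hxC, inv3 Q x hQp hx hxC⟩⟩
  · rintro ⟨hP, h⟩ H h1 h2
    obtain ⟨S, d, hS, hdN, hd, rfl⟩ := decomp h1 h2
    obtain ⟨g, -, hg⟩ := exists_cj_le_syl (syl_top P) le_top hS
    have hSc : IsCyclic S := isCyclic_cj_iff.1 (isCyclic_of_le' hP hg)
    by_cases hdC : d ∈ C[S]
    · exact Or.inl (isCyclic_sup hS hSc hd hdC)
    have hne : S ≠ ⊥ := by
      rintro rfl
      exact hdC (by rw [centralizer_bot]; trivial)
    have hPC : (P : Subgroup G) ≤ C[(P : Subgroup G)] := by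
      have := hP.isMulCommutative
      exact le_centralizer _
    rcases h with h | ⟨-, h⟩
    · exfalso
      have h3 : IsSyl p (P : Subgroup G) C[cj g S] :=
        hall_of_le (syl_top P) (hPC.trans (centralizer_anti hg)) le_top
      have h4 := (frattini_isMul (centralizer_normalIn_normalizer (cj g S)) h3).le_of_le le_rfl
        (inf_le_right.trans (h.le.trans (centralizer_anti hg)))
      rw [← cj_normalizer, ← cj_centralizer, cj_le_cj_iff] at h4
      exact hdC (h4 hdN)
    · obtain ⟨n, hn⟩ := exists_card_eq_pow hS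
      have hn0 : n ≠ 0 := by
        rintro rfl
        exact hne (card_eq_one.1 (by simpa using hn))
      obtain ⟨Q, -, hQS, hQ⟩ := exists_between_card_pow (p := p) (n := 0) (m := 1) (bot_le : ⊥ ≤ S)
        (by simp) (hn ▸ pow_dvd_pow p (Nat.one_le_iff_ne_zero.2 hn0)) zero_le_one
      obtain ⟨h3, h4⟩ := h (cj g Q) ((cj_mono hQS).trans hg) (by rw [card_cj, hQ, pow_one])
      rw [← cj_centralizer, isMulCommutative_cj_iff] at h3
      have hSQ : S ≤ C[Q] := by
        have := hSc.isMulCommutative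
        exact (le_centralizer S).trans (centralizer_anti hQS)
      have hdQ : d ∉ C[Q] := fun hc => hdC (mem_centralizer_iff.2 fun s hs =>
        comm_of_isMulCommutative h3 (hSQ hs) hc)
      obtain ⟨h5, h6⟩ := h4 (g * d * g⁻¹)
        (by rw [← cj_normalizer]; exact conj_mem_cj (norm_le_norm_of_isCyclic hSc hQS hdN))
        (by rw [← cj_centralizer, conj_mem_cj_iff]; exact hdQ)
      rw [orderOf_conj'] at h5
      obtain ⟨a, ha⟩ := hSc.exists_generator
      have hao := orderOf_eq_card_of_forall_mem_zpowers ha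
      have h7 : d * a * d⁻¹ = (a : G)⁻¹ := by
        have := h6 (g * a * g⁻¹) (by rw [← cj_centralizer]; exact conj_mem_cj (hSQ a.2))
        refine (MulAut.conj g).injective ?_
        simp only [MulAut.conj_apply]
        rw [← conj_inv, ← this]; group
      refine Or.inr ⟨n, H29.nonempty_mulEquiv_dihedral (pow_ne_zero _ hpp.ne_zero)
        ⟨a, mem_sup_left a.2⟩ ⟨d, mem_sup_right (mem_zpowers d)⟩ ?_ ?_ (Subtype.ext h7) ?_ ?_⟩
      · rw [← orderOf_coe, ← hn, ← hao]; exact orderOf_coe a
      · exact Subtype.ext (by rw [← pow_two, coe_pow, ← h5]; exact pow_orderOf_eq_one d)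
      · rintro ⟨k, hk⟩
        exact hdQ (hSQ (by rw [← show (a : G) ^ k = d from congrArg Subtype.val hk]; exact zpow_mem a.2 k))
      · rw [card_sup_eq hS hd hdN, hn, h5, mul_comm]

end Cfsg.Agent.S4082
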