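import Cfsg.Statements.S4083
import Cfsg.Agent.H66.ByCyc
import Cfsg.Agent.H8.Active
import Cfsg.Agent.S0228
import Cfsg.Agent.H63.Frob

set_option autoImplicit false
open Cfsg

namespace Cfsg.Agent.S4083

open Cfsg.Agent.H63 Cfsg.Agent.H67 Subgroup Cfsg.Agent.H66.ByCyc Cfsg.Agent.H52

theorem card_four {G : Type*} [Group G] [Finite G] {a b : G} (h1 : orderOf a = 2)
    (h2 : orderOf b = 2) (hab : a ≠ b) (hc : a * b = b * a) :
    Nat.card ↥(zpowers a ⊔ zpowers b) = 4 ∧ ∀ k ∈ zpowers a ⊔ zpowers b, k ^ 2 = 1 := by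
  classical
  have hba : zpowers b ≤ C[zpowers a] := by
    rw [H67.centralizer_zpowers, zpowers_le, mem_centralizer_singleton_iff]; exact hc.symm
  have hn : zpowers b ≤ N[zpowers a] := le_normalizer_of_le_centralizer hba
  have hsq : ∀ {x : G}, orderOf x = 2 → ∀ y ∈ zpowers x, y = 1 ∨ y = x := by
    intro x hx y hy
    obtain ⟨n, hn, rfl⟩ := (mem_zpowers_iff_mem_range_orderOf (x := x) (y := y)).1 hy |> Finset.mem_image.1
    rw [hx, Finset.mem_range] at hn
    interval_cases n <;> simp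
  refine ⟨?_, fun k hk => ?_⟩
  · rw [card_sup_of_inf_eq_bot (Or.inr hn), Nat.card_zpowers, Nat.card_zpowers, h1, h2]
    rw [eq_bot_iff]
    intro y hy
    rcases hsq h1 y hy.1 with h | h
    · exact h
    · rcases hsq h2 y hy.2 with h' | h'
      · exact h'
      · exact absurd (h.symm.trans h') hab
  · obtain ⟨x, hx, y, hy, rfl⟩ := (mem_sup_of_le_normalizer' hn).1 hk
    have ha : a ^ 2 = 1 := h1 ▸ pow_orderOf_eq_one a
    have hb : b ^ 2 = 1 := h2 ▸ pow_orderOf_eq_one b
    rcases hsq h1 x hx with rfl | rfl <;> rcases hsq h2 y hy with rfl | rfl <;>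
      simp [ha, hb, Commute.mul_pow (show Commute _ _ from hc)]


/-- Let G be a finite group with Sylow 2-subgroup P. Every subgroup H of G whose Sylow 2-subgroup is normal in H with cyclic quotient is cyclic, dihedral of 2-power order, or isomorphic to the alternating group of degree 4, if and only if either P is cyclic, or P is dihedral (of order at least 4) and every elementary abelian subgroup K of order 4 of P satisfies C_G(K) = K. -/
theorem result {G : Type*} [Group G] [Finite G] (P : Sylow 2 G) :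
    (∀ H : Subgroup G, (∀ S : Sylow 2 ↥H, (S : Subgroup ↥H).Normal) →
        (∀ (S : Sylow 2 ↥H) [(S : Subgroup ↥H).Normal], IsCyclic (↥H ⧸ (S : Subgroup ↥H))) →
        IsCyclic H ∨ (∃ n : ℕ, Nonempty (H ≃* DihedralGroup (2 ^ n))) ∨ Nonempty (H ≃* alternatingGroup (Fin 4))) ↔
    (IsCyclic P ∨
      ((∃ n : ℕ, 1 ≤ n ∧ Nonempty ((P : Subgroup G) ≃* DihedralGroup (2 ^ n))) ∧
        ∀ K : Subgroup G, K ≤ P → Nat.card K = 4 → (∀ k ∈ K, k ^ 2 = 1) → Subgroup.centralizer (K : Set G) = K)) := by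
  classical
  constructor
  · intro h
    have key : ∀ (Q : Subgroup G) (c : G), IsPGroup 2 Q → c ∈ N[Q] → ∀ H, H = Q ⊔ zpowers c →
        IsCyclic H ∨ (∃ n : ℕ, Nonempty (H ≃* DihedralGroup (2 ^ n))) ∨
          Nonempty (H ≃* alternatingGroup (Fin 4)) := by
      rintro Q c hQ hc H rfl
      exact h _ (of_sup hQ hc).1 (of_sup hQ hc).2
    have hA : Nat.card (alternatingGroup (Fin 4)) = 12 := by
      rw [nat_card_alternatingGroup]; simp [Nat.factorial]
    rcases key P 1 P.isPGroup' (one_mem _) P (by simp) with h1 | ⟨n, ⟨e⟩⟩ | ⟨⟨e⟩⟩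
    · exact Or.inl h1
    · rcases Nat.eq_zero_or_pos n with rfl | hn
      · refine Or.inl (isCyclic_of_prime_card (p := 2) ?_)
        rw [Nat.card_congr e.toEquiv, DihedralGroup.nat_card]; rfl
      refine Or.inr ⟨⟨n, hn, ⟨e⟩⟩, fun K hK h4 hsq => ?_⟩
      have hab : IsMulCommutative K := ⟨⟨fun a b => by
        have h1 : ∀ x : K, x⁻¹ = x := fun x => by
          rw [inv_eq_iff_mul_eq_one, ← pow_two]; exact Subtype.ext (hsq x x.2)
        rw [← h1 (a * b), mul_inv_rev, h1, h1]⟩⟩
      refine le_antisymm (fun c hc => ?_) (le_centralizer K)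
      have hcomm : IsMulCommutative ↥(K ⊔ zpowers c) :=
        isMulCommutative_sup hab inferInstance (le_centralizer_iff.1 (zpowers_le.2 hc))
      rcases key K c (P.isPGroup'.to_le hK) (centralizer_le_normalizer _ hc) _ rfl with
        h1 | ⟨m, ⟨e'⟩⟩ | ⟨⟨e'⟩⟩
      · exfalso
        obtain ⟨g, hg⟩ := (isCyclic_of_le' h1 (le_sup_left : K ≤ _)).exists_generator
        have h2 := orderOf_eq_card_of_forall_mem_zpowers hg
        have h3 : orderOf g ∣ 2 := orderOf_dvd_of_pow_eq_one (Subtype.ext (hsq g g.2))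
        rw [h2, h4] at h3
        omega
      · have h2 := le_two_of_comm e' (by positivity) hcomm
        have h3 : Nat.card ↥(K ⊔ zpowers c) ≤ Nat.card K := by
          rw [Nat.card_congr e'.toEquiv, DihedralGroup.nat_card]; omega
        rw [eq_of_le_of_card_ge le_sup_left h3]
        exact mem_sup_right (mem_zpowers c)
      · exfalso
        have h1 : ∀ a b : alternatingGroup (Fin 4), a * b = b * a := fun a b => by
          obtain ⟨a, rfl⟩ := e'.surjective a
          obtain ⟨b, rfl⟩ := e'.surjective b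
          rw [← map_mul, ← map_mul, hcomm.is_comm.comm]
        revert h1
        decide
    · exfalso
      obtain ⟨k, hk⟩ := exists_card_eq_pow P.isPGroup'
      rw [Nat.card_congr e.toEquiv, hA] at hk
      have : 3 ∣ 2 ^ k := hk ▸ by norm_num
      have := Nat.prime_three.dvd_of_dvd_pow this
      omega
  · intro h H h1 h2
    obtain ⟨Q, d, hQ, hdN, hd, rfl⟩ := decomp h1 h2
    have hDG : DG G := by
      intro T hT
      obtain ⟨g, -, hg⟩ := exists_le_cj_syl (syl_top P) le_top hT
      obtain ⟨a, ha⟩ : ∃ a, CD (P : Subgroup G) a := by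
        rcases h with h | ⟨⟨n, -, ⟨e⟩⟩, -⟩
        · exact cd_of_isCyclic h
        · exact cd_of_dihedral e
      obtain ⟨b, -, hb⟩ := (ha.map (MulAut.conj g).toMonoidHom).mono hg
      exact ⟨b, hb⟩
    have hfour : ∀ K : Subgroup G, Nat.card K = 4 → (∀ k ∈ K, k ^ 2 = 1) → C[K] = K := by
      intro K h4 hsq
      have hK : IsPGroup 2 K := IsPGroup.of_card (n := 2) h4
      obtain ⟨g, -, hg⟩ := exists_cj_le_syl (syl_top P) le_top hK
      rcases h with h | ⟨-, h⟩
      · exfalso
        obtain ⟨g, hg⟩ := (isCyclic_cj_iff.1 (isCyclic_of_le' h hg)).exists_generator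
        have h2 := orderOf_eq_card_of_forall_mem_zpowers hg
        have h3 : orderOf g ∣ 2 := orderOf_dvd_of_pow_eq_one (Subtype.ext (hsq g g.2))
        rw [h2, h4] at h3
        omega
      · have := h _ hg (by rw [card_cj, h4]) (fun k hk => by
          obtain ⟨y, hy, rfl⟩ := mem_cj'.1 hk
          rw [conj_pow, hsq y hy]; simp)
        rwa [← cj_centralizer, cj_inj] at this
    have hodd : (orderOf d).Coprime 2 := (piNat_compl_singleton_iff_coprime Nat.prime_two).1 hd
    have hone : d ∈ Q → IsCyclic ↥(Q ⊔ zpowers d) ∨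
        (∃ n : ℕ, Nonempty (↥(Q ⊔ zpowers d) ≃* DihedralGroup (2 ^ n))) ∨
          Nonempty (↥(Q ⊔ zpowers d) ≃* alternatingGroup (Fin 4)) := by
      intro hdQ
      rw [sup_eq_left.2 (zpowers_le.2 hdQ)]
      obtain ⟨a, ha⟩ := hDG Q hQ
      rcases ha.isCyclic_or_dihedral with h3 | ⟨n, ⟨e⟩⟩
      · exact Or.inl h3
      · obtain ⟨k, hk⟩ := exists_card_eq_pow hQ
        rw [Nat.card_congr e.toEquiv, DihedralGroup.nat_card] at hk
        obtain ⟨m, -, rfl⟩ := (Nat.dvd_prime_pow Nat.prime_two).1 (Dvd.intro_left 2 hk)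
        exact Or.inr (Or.inl ⟨m, ⟨e⟩⟩)
    by_cases hdC : d ∈ C[Q]
    · by_cases hc : IsCyclic Q
      · exact Or.inl (isCyclic_sup hQ hc hd hdC)
      obtain ⟨σ, hσ⟩ := hDG Q hQ
      obtain ⟨a, ha, b, hb, -, ha2, hb2, hab, hc⟩ := hσ.exists_four hQ hc
      have hle : zpowers a ⊔ zpowers b ≤ Q :=
        sup_le (zpowers_le.2 (hσ.zpowers_le ha)) (zpowers_le.2 hb)
      obtain ⟨h4, hsq⟩ := card_four ha2 hb2 hab hc
      exact hone (hle (hfour _ h4 hsq ▸ H67.centralizer_anti hle hdC))
    have hne : Q ≠ ⊥ := by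
      rintro rfl
      exact hdC (by rw [centralizer_bot]; trivial)
    rcases hDG.isKleinFour_or hQ hne with hK | ⟨v, hv, hv2, hle⟩
    swap
    · exact absurd (hDG.mem_centralizer_of_fix hQ hv2 hv hdN hodd
        (mem_centralizer_singleton_iff.1 (hle hdN))) hdC
    have hCQ := hfour Q hK.card_four (fun k hk => by
      have := Monoid.pow_exponent_eq_one (⟨k, hk⟩ : Q)
      rw [hK.exponent_two] at this
      exact congrArg Subtype.val this)
    have h6 : d ^ 6 ∈ C[Q] := by
      obtain ⟨k, hk⟩ := (relIndex_cent_dvd_card_mulAut (zpowers_le.2 hdN)).trans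
        (H8.card_mulAut_four_dvd hK)
      have : ((C[Q]).subgroupOf (zpowers d)).Normal := normal_of_isMulCommutative _
      have := ((C[Q]).subgroupOf (zpowers d)).pow_index_mem ⟨d, mem_zpowers d⟩
      rw [hk, pow_mul]
      exact pow_mem this k
    rw [hCQ] at h6
    have h7 : orderOf d ∣ 3 * 2 :=
      orderOf_dvd_of_pow_eq_one (eq_one_of_mem hQ (hd.pow 6) h6)
    rcases (Nat.dvd_prime Nat.prime_three).1 (hodd.dvd_of_dvd_mul_right h7) with h8 | h8
    · rw [orderOf_eq_one_iff] at h8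
      exact absurd (h8 ▸ one_mem _) hdC
    refine Or.inr (Or.inr (S0228.result ?_ fun z hz hzc => hdC ?_))
    · rw [card_sup_eq hQ hd hdN, hK.card_four, h8]
    · have hz2 : orderOf (z : G) = 2 := by rw [orderOf_coe, hz]
      have hsyl : IsSyl 2 Q (Q ⊔ zpowers d) := syl_mk le_sup_left hQ (by
        have := card_mul_relIndex (le_sup_left : Q ≤ Q ⊔ zpowers d)
        rw [card_sup_eq hQ hd hdN, hK.card_four, h8] at this
        omega)
      have hzQ : (z : G) ∈ Q := le_of_normal_syl hsyl (normalIn_sup_left (zpowers_le.2 hdN))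
        (zpowers_le.2 z.2) (isPGroup_two_zpowers hz2) (mem_zpowers _)
      exact hDG.mem_centralizer_of_fix hQ hz2 hzQ hdN hodd
        (congrArg Subtype.val (mem_center_iff.1 hzc ⟨d, mem_sup_right (mem_zpowers d)⟩))

end Cfsg.Agent.S4083
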