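import Cfsg.Statements.S4084
import Mathlib.GroupTheory.Perm.Cycle.Type
import Mathlib.GroupTheory.Subgroup.Centralizer

set_option autoImplicit false
open Cfsg

namespace Cfsg.Agent.S4084

theorem aux {G H : Type*} [Group G] [Finite G] [Group H] [Finite H] (e : G ≃ H)
    (he : ∀ x y : G, Commute x y ↔ Commute (e x) (e y))
    {p q : ℕ} (hp : p.Prime) (hq : q.Prime) (hpq : p ≠ q) :
    (∃ g : G, orderOf g = p * q) → (∃ h : H, orderOf h = p * q) := by
  rintro ⟨g, hg⟩
  let A : Subgroup G := Subgroup.centralizer (Subgroup.centralizer ({g} : Set G) : Set G)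
  let B : Subgroup H := Subgroup.centralizer (Subgroup.centralizer ({e g} : Set H) : Set H)
  have hA : ∀ y, y ∈ A ↔ ∀ x, Commute g x → Commute x y := by
    intro y
    simp only [A, Subgroup.mem_centralizer_iff, SetLike.mem_coe, Set.mem_singleton_iff, forall_eq]
    rfl
  have hB : ∀ y, y ∈ B ↔ ∀ x, Commute (e g) x → Commute x y := by
    intro y
    simp only [B, Subgroup.mem_centralizer_iff, SetLike.mem_coe, Set.mem_singleton_iff, forall_eq]
    rfl
  have hAB : ∀ y, y ∈ A ↔ e y ∈ B := by
    intro y
    rw [hA, hB]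
    constructor
    · intro h x hx
      obtain ⟨x, rfl⟩ := e.surjective x
      exact (he _ _).1 (h x ((he _ _).2 hx))
    · intro h x hx
      exact (he _ _).2 (h _ ((he _ _).1 hx))
  have hcard : Nat.card A = Nat.card B := Nat.card_congr (e.subtypeEquiv hAB)
  have hgA : g ∈ A := (hA g).2 fun x hx => hx.symm
  have hdvd : p * q ∣ Nat.card B := by
    rw [← hcard, ← hg]
    exact Subgroup.orderOf_dvd_natCard A hgA
  have := Fact.mk hp
  have := Fact.mk hq
  obtain ⟨a, ha⟩ := exists_prime_orderOf_dvd_card' (G := B) p (dvd_trans (dvd_mul_right p q) hdvd)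
  obtain ⟨b, hb⟩ := exists_prime_orderOf_dvd_card' (G := B) q (dvd_trans (dvd_mul_left q p) hdvd)
  have hab : Commute (a : H) (b : H) := by
    apply (hB b).1 b.2
    exact (hB a).1 a.2 _ (Commute.refl _)
  refine ⟨a * b, ?_⟩
  rw [← Subgroup.orderOf_coe] at ha hb
  rw [hab.orderOf_mul_eq_mul_orderOf_of_coprime, ha, hb]
  rw [ha, hb]
  exact (Nat.coprime_primes hp hq).2 hpq

/-- Let G and H be finite groups whose commuting graphs are isomorphic: there is a bijection e : G → H with x, y commuting exactly when e(x), e(y) commute. Then G and H have the same prime graph: for distinct primes p, q, G has an element of order pq if and only if H does (and #G = #H, so the prime divisors agree). -/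
theorem result {G H : Type*} [Group G] [Finite G] [Group H] [Finite H] (e : G ≃ H)
    (he : ∀ x y : G, Commute x y ↔ Commute (e x) (e y))
    {p q : ℕ} (hp : p.Prime) (hq : q.Prime) (hpq : p ≠ q) :
    (∃ g : G, orderOf g = p * q) ↔ (∃ h : H, orderOf h = p * q) := by
  refine ⟨aux e he hp hq hpq, aux e.symm (fun x y => ?_) hp hq hpq⟩
  rw [he]; simp

end Cfsg.Agent.S4084
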