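import Cfsg.Statements.S4085
import Cfsg.Agent.H11.GroupUtil

set_option autoImplicit false
open Cfsg

namespace Cfsg.Agent.S4085

open Subgroup

/-- adjacency in the power graph -/
def Adj {G : Type*} [Group G] (x y : G) : Prop := x ∈ zpowers y ∨ y ∈ zpowers x

theorem Adj.symm {G : Type*} [Group G] {x y : G} (h : Adj x y) : Adj y x := Or.symm h

theorem Adj.dvd {G : Type*} [Group G] {x y : G} (h : Adj x y) :
    orderOf x ∣ orderOf y ∨ orderOf y ∣ orderOf x :=
  h.imp orderOf_dvd_of_mem_zpowers orderOf_dvd_of_mem_zpowers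

theorem adj_one {G : Type*} [Group G] (x : G) : Adj 1 x := Or.inl (one_mem _)

theorem adj_congr {G : Type*} [Group G] {a b : G} (h : zpowers a = zpowers b) (c : G) :
    Adj a c ↔ Adj b c := by
  unfold Adj
  rw [← zpowers_le, ← zpowers_le (g := b), h]

theorem mem_of_le {G : Type*} [Group G] [Finite G] {a b : G} (h : a ∈ zpowers b)
    (hle : orderOf b ≤ orderOf a) : b ∈ zpowers a := by
  have : zpowers a = zpowers b := Subgroup.eq_of_le_of_card_ge (zpowers_le.2 h)
    (by rwa [Nat.card_zpowers, Nat.card_zpowers])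
  exact this ▸ mem_zpowers b

theorem exists_ord {G : Type*} [Group G] [Finite G] (x : G) {d : ℕ} (hd : d ∣ orderOf x) :
    ∃ w ∈ zpowers x, orderOf w = d :=
  ⟨x ^ (orderOf x / d), pow_mem (mem_zpowers x) _, orderOf_pow_orderOf_div (orderOf_pos x).ne' hd⟩

theorem not_adj_primes {G : Type*} [Group G] {a b : G} {r s k : ℕ} (hr : r.Prime) (hs : s.Prime)
    (hrs : r ≠ s) (hk : k ≠ 0) (ha : orderOf a = r ^ k) (hb : orderOf b = s) : ¬ Adj a b := by
  intro h
  rcases h.dvd with h | h <;> rw [ha, hb] at h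
  · exact hrs ((Nat.prime_dvd_prime_iff_eq hr hs).1 ((dvd_pow_self r hk).trans h))
  · exact hrs ((Nat.prime_dvd_prime_iff_eq hs hr).1 (hs.dvd_of_dvd_pow h)).symm

theorem totient_le_card {G : Type*} [Group G] [Finite G] (g : G) (S : Set G)
    (h : ∀ a, zpowers a = zpowers g → a ∈ S) : (orderOf g).totient ≤ S.ncard := by
  classical
  rw [Nat.totient, ← Set.ncard_coe_finset]
  refine Set.ncard_le_ncard_of_injOn (fun k => g ^ k) ?_ ?_ (Set.toFinite _)
  · intro k hk
    simp only [Finset.coe_filter, Finset.mem_range, Set.mem_setOf_eq] at hk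
    apply h
    exact le_antisymm (zpowers_le.2 (pow_mem (mem_zpowers g) k))
      (zpowers_le.2 (mem_zpowers_pow_iff.2 hk.2.symm))
  · intro k hk l hl hkl
    simp only [Finset.coe_filter, Finset.mem_range, Set.mem_setOf_eq] at hk hl
    exact pow_injOn_Iio_orderOf hk.1 hl.1 hkl

theorem conn {G : Type*} [Group G] [Finite G] {p q : ℕ} (hp : p.Prime) (hq : q.Prime) (hpq : p ≠ q)
    {x w : G} (hpx : p ∣ orderOf x) (hqx : q ∣ orderOf x) (hw : w ∈ zpowers x) (h1 : w ≠ 1)
    (hg : zpowers w ≠ zpowers x) :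
    ∃ w' ∈ zpowers x, ∃ r k : ℕ, r.Prime ∧ k ≠ 0 ∧ orderOf w' = r ^ k ∧ ¬ Adj w w' := by
  have hnd : ¬ orderOf x ∣ orderOf w := fun h => hg (le_antisymm (zpowers_le.2 hw)
    (zpowers_le.2 (mem_of_le hw (Nat.le_of_dvd (orderOf_pos w) h))))
  rw [Nat.dvd_iff_prime_pow_dvd_dvd] at hnd
  push Not at hnd
  obtain ⟨r, k, hr, hrk, hrw⟩ := hnd
  have hk : k ≠ 0 := by
    rintro rfl
    exact hrw (by simp)
  by_cases hd : orderOf w ∣ r ^ k
  · obtain ⟨j, -, hj⟩ := (Nat.dvd_prime_pow hr).1 hd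
    have hj0 : j ≠ 0 := by
      rintro rfl
      exact h1 (orderOf_eq_one_iff.1 (by simpa using hj))
    obtain ⟨s, hs, hsr, hsx⟩ : ∃ s : ℕ, s.Prime ∧ r ≠ s ∧ s ∣ orderOf x := by
      by_cases h : r = p
      · exact ⟨q, hq, h ▸ hpq, hqx⟩
      · exact ⟨p, hp, h, hpx⟩
    obtain ⟨w', hw', ho⟩ := exists_ord x hsx
    exact ⟨w', hw', s, 1, hs, one_ne_zero, by rw [ho, pow_one], not_adj_primes hr hs hsr hj0 hj ho⟩
  · obtain ⟨w', hw', ho⟩ := exists_ord x hrk
    refine ⟨w', hw', r, k, hr, hk, ho, fun h => ?_⟩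
    rcases h.dvd with h | h <;> rw [ho] at h
    · exact hd h
    · exact hrw h

theorem main {G H : Type*} [Group G] [Finite G] [Group H] [Finite H] (e : G ≃ H)
    (he : ∀ x y : G, Adj x y ↔ Adj (e x) (e y))
    {p q : ℕ} (hp : p.Prime) (hq : q.Prime) (hpq : p < q) (g : G) (hg : orderOf g = p * q) :
    ∃ h : H, orderOf h = p * q := by
  obtain ⟨x, hgx, hxm⟩ := Set.exists_max_image {x : G | g ∈ zpowers x} orderOf (Set.toFinite _)
    ⟨g, mem_zpowers g⟩
  have hN : ∀ z, Adj x z → z ∈ zpowers x := by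
    rintro z (h | h)
    · exact mem_of_le h (hxm z (zpowers_le.2 h hgx))
    · exact h
  have hn : p * q ∣ orderOf x := hg ▸ orderOf_dvd_of_mem_zpowers hgx
  have hpx : p ∣ orderOf x := (Dvd.intro _ rfl).trans hn
  have hqx : q ∣ orderOf x := (Dvd.intro_left _ rfl).trans hn
  have hx1 : x ≠ 1 := by
    rintro rfl
    rw [orderOf_one, Nat.dvd_one] at hpx
    exact hp.one_lt.ne' hpx
  obtain ⟨u, hu, huo⟩ := exists_ord x hpx
  obtain ⟨v, hv, hvo⟩ := exists_ord x hqx
  have huv : ¬ Adj v u := not_adj_primes hq hp hpq.ne' one_ne_zero (by rw [hvo, pow_one]) huo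
  let Δ : Set G := {w | w = 1 ∨ zpowers w = zpowers x}
  have hΔx : ∀ w ∈ Δ, w ∈ zpowers x := by
    rintro w (rfl | h)
    · exact one_mem _
    · exact h ▸ mem_zpowers w
  have hΔ : ∀ w ∈ Δ, ∀ c ∈ zpowers x, Adj w c := by
    rintro w (rfl | h) c hc
    · exact adj_one c
    · exact Or.inr (h ▸ hc)
  obtain ⟨w₀, hw₀, hmax⟩ := Set.exists_max_image Δ (fun w => orderOf (e w)) (Set.toFinite _)
    ⟨1, Or.inl rfl⟩
  set t := e w₀ with ht
  have hΔt : ∀ w ∈ Δ, e w ∈ zpowers t := by
    intro w hw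
    rcases (he _ _).1 (hΔ w hw w₀ (hΔx _ hw₀)) with h | h
    · exact h
    · exact mem_of_le h (hmax w hw)
  have hNw : ∀ z, Adj w₀ z → z ∈ zpowers x := by
    intro z hz
    rcases hw₀ with h0 | h0
    · by_cases ht1 : t = 1
      · exfalso
        have a1 := hΔt x (Or.inr rfl)
        rw [ht1, zpowers_one_eq_bot, mem_bot, ← ht1, ht, e.apply_eq_iff_eq, h0] at a1
        exact hx1 a1
      · have a1 : ∀ c, Adj (e.symm 1) c := fun c => (he _ _).2 (by
          rw [e.apply_symm_apply]; exact adj_one _)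
        have a2 : e.symm 1 ≠ 1 := fun h => ht1 (by rw [ht, h0, ← h, e.apply_symm_apply])
        have a3 : zpowers (e.symm 1) = zpowers x := by
          by_contra hne
          obtain ⟨w', -, -, -, -, -, -, h⟩ := conn hp hq hpq.ne hpx hqx (hN _ (a1 x).symm) a2 hne
          exact h (a1 w')
        exact hN z ((adj_congr a3 z).1 (a1 z))
    · exact hN z ((adj_congr h0 z).1 hz)
  have hw₀adj : ∀ c ∈ zpowers x, Adj t (e c) := fun c hc => (he _ _).1 (hΔ w₀ hw₀ c hc)
  have hside : ∀ a ∈ zpowers x, ∀ b ∈ zpowers x, ¬ Adj a b → e a ∈ zpowers t → e b ∈ zpowers t := by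
    intro a _ b hb hab hat
    rcases hw₀adj b hb with h | h
    · exact absurd ((he _ _).2 (Or.inl (zpowers_le.2 h hat))) hab
    · exact h
  have hside' : ∀ a ∈ zpowers x, ∀ b ∈ zpowers x, ¬ Adj a b → (e a ∈ zpowers t ↔ e b ∈ zpowers t) :=
    fun a ha b hb hab => ⟨hside a ha b hb hab, hside b hb a ha fun h => hab h.symm⟩
  have hall : ∀ w ∈ zpowers x, w ∉ Δ → (e w ∈ zpowers t ↔ e u ∈ zpowers t) := by
    intro w hw hwΔ
    obtain ⟨w', hw', r, k, hr, hk, ho, hadj⟩ := conn hp hq hpq.ne hpx hqx hw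
      (fun h => hwΔ (Or.inl h)) (fun h => hwΔ (Or.inr h))
    rw [hside' w hw w' hw' hadj]
    by_cases hrp : r = p
    · rw [hside' w' hw' v hv (not_adj_primes hr hq (hrp ▸ hpq.ne) hk ho hvo), hside' v hv u hu huv]
    · exact hside' w' hw' u hu (not_adj_primes hr hp hrp hk ho huo)
  have hpre : ∀ a ∈ zpowers t, e.symm a ∈ zpowers x := fun a ha =>
    hNw _ ((he _ _).2 (by rw [e.apply_symm_apply]; exact Or.inr ha))
  by_cases hut : e u ∈ zpowers t
  · have hc : orderOf x = orderOf t := by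
      rw [← Nat.card_zpowers, ← Nat.card_zpowers]
      refine Nat.card_congr (e.subtypeEquiv fun w => ⟨fun hw => ?_, fun hw => ?_⟩)
      · by_cases hwΔ : w ∈ Δ
        · exact hΔt w hwΔ
        · exact (hall w hw hwΔ).2 hut
      · simpa using hpre _ hw
    obtain ⟨h, -, hh⟩ := exists_ord t (hc ▸ hn)
    exact ⟨h, hh⟩
  exfalso
  have hcl : ∀ a ∈ zpowers t, ∀ b ∈ zpowers t, Adj a b := by
    intro a ha b hb
    have h1 : e.symm a ∈ Δ := by
      by_contra h
      exact hut ((hall _ (hpre a ha) h).1 (by simpa using ha))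
    simpa using (he _ _).1 (hΔ _ h1 _ (hpre b hb))
  -- lower bound for the order of `t`
  have hlow : (orderOf x).totient + 1 ≤ orderOf t := by
    have a1 := totient_le_card x (Δ \ {1}) (fun a ha => ⟨Or.inr ha, fun h => hx1 (by
      rw [Set.mem_singleton_iff.1 h, zpowers_one_eq_bot] at ha
      exact zpowers_eq_bot.1 ha.symm)⟩)
    have a2 := Set.ncard_diff_singleton_add_one (s := Δ) (a := 1) (Or.inl rfl) (Set.toFinite _)
    have a3 : Δ.ncard ≤ (zpowers t : Set H).ncard :=
      Set.ncard_le_ncard_of_injOn e hΔt e.injective.injOn (Set.toFinite _)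
    have a4 : (zpowers t : Set H).ncard = orderOf t := by
      rw [← Nat.card_zpowers]; rfl
    omega
  have hφ : (p - 1) * (q - 1) ≤ (orderOf x).totient := by
    rw [← Nat.totient_prime hp, ← Nat.totient_prime hq,
      ← Nat.totient_mul ((Nat.coprime_primes hp hq).2 hpq.ne)]
    exact Nat.le_of_dvd (Nat.totient_pos.2 (orderOf_pos x)) (Nat.totient_dvd_of_dvd hn)
  have hp2 := hp.two_le
  have hq1 : 2 ≤ q - 1 := by omega
  have hp1 : 1 ≤ p - 1 := by omega
  have hpp : IsPrimePow (orderOf t) := by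
    rw [isPrimePow_iff_unique_prime_dvd]
    obtain ⟨r, hr, hrt⟩ := Nat.exists_prime_and_dvd (n := orderOf t) (by
      have : 0 < (orderOf x).totient := Nat.totient_pos.2 (orderOf_pos x)
      omega)
    refine ⟨r, ⟨hr, hrt⟩, fun s ⟨hs, hst⟩ => ?_⟩
    by_contra hne
    obtain ⟨a, ha, hao⟩ := exists_ord t hrt
    obtain ⟨b, hb, hbo⟩ := exists_ord t hst
    exact not_adj_primes hs hr hne one_ne_zero (by rw [hbo, pow_one]) hao (hcl b hb a ha)
  have hhalf : orderOf t ≤ 2 * (orderOf t).totient := by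
    obtain ⟨r, k, hr, hk, h⟩ := (isPrimePow_nat_iff _).1 hpp
    obtain ⟨k, rfl⟩ : ∃ j, k = j + 1 := ⟨k - 1, by omega⟩
    rw [← h, Nat.totient_prime_pow_succ hr, pow_succ]
    have := hr.two_le
    have h2 : r ≤ 2 * (r - 1) := by omega
    calc r ^ k * r ≤ r ^ k * (2 * (r - 1)) := Nat.mul_le_mul_left _ h2
      _ = _ := by ring
  have htu : t ∈ zpowers (e u) := (hw₀adj u hu).resolve_right hut
  have hφ2 : (orderOf t).totient ≤ (orderOf (e u)).totient :=
    Nat.le_of_dvd (Nat.totient_pos.2 (orderOf_pos _))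
      (Nat.totient_dvd_of_dvd (orderOf_dvd_of_mem_zpowers htu))
  have hup : (orderOf (e u)).totient ≤ p - 1 := by
    have a1 := totient_le_card (e u) (e '' ((zpowers u : Set G) \ {1})) (fun a ha => by
      refine ⟨e.symm a, ?_, e.apply_symm_apply a⟩
      have tw : ∀ c, Adj (e.symm a) c ↔ Adj u c := fun c => by
        rw [he, he, e.apply_symm_apply, adj_congr ha]
      set w := e.symm a
      have hw1 : w ≠ 1 := fun h => huv ((tw v).1 (h ▸ adj_one v)).symm
      refine ⟨?_, hw1⟩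
      rcases (tw u).2 (Or.inl (mem_zpowers u)) with h | h
      · exact h
      by_contra hwu
      have hd : p ∣ orderOf w := huo ▸ orderOf_dvd_of_mem_zpowers h
      by_cases hs : ∃ s : ℕ, s.Prime ∧ s ≠ p ∧ s ∣ orderOf w
      · obtain ⟨s, hs, hsp, hsw⟩ := hs
        obtain ⟨b, hb, hbo⟩ := exists_ord w hsw
        exact not_adj_primes hs hp hsp one_ne_zero (by rw [hbo, pow_one]) huo
          ((tw b).1 (Or.inr hb)).symm
      · push Not at hs
        have hug : Adj u g := Or.inl (H11.mem_zpowers_of_orderOf_dvd (zpowers x) hu hgx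
          (by rw [huo, hg]; exact Dvd.intro _ rfl))
        rcases ((tw g).2 hug).dvd with h' | h'
        · rw [hg] at h'
          obtain ⟨c, hc⟩ := hd
          rw [hc, Nat.mul_dvd_mul_iff_left hp.pos] at h'
          rcases (Nat.dvd_prime hq).1 h' with rfl | rfl
          · exact hwu (mem_of_le h (by rw [hc, huo, mul_one]))
          · exact hs c hq hpq.ne' (hc ▸ Dvd.intro_left _ rfl)
        · exact hs q hq hpq.ne' ((Dvd.intro_left _ rfl).trans (hg ▸ h')))
    rw [Set.ncard_image_of_injective _ e.injective] at a1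
    have a2 := Set.ncard_diff_singleton_add_one (s := (zpowers u : Set G)) (a := 1) (one_mem _)
      (Set.toFinite _)
    have a4 : (zpowers u : Set G).ncard = p := by
      rw [← huo, ← Nat.card_zpowers]; rfl
    omega
  nlinarith

/-- Let G and H be finite groups whose power graphs are isomorphic: there is a bijection e : G → H such that, for all x, y, one of x, y is a power of the other exactly when one of e(x), e(y) is a power of the other. Then G and H have the same prime graph: for distinct primes p, q, G has an element of order pq if and only if H does. -/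
theorem result {G H : Type*} [Group G] [Finite G] [Group H] [Finite H] (e : G ≃ H)
    (he : ∀ x y : G, (x ∈ Subgroup.zpowers y ∨ y ∈ Subgroup.zpowers x) ↔
      (e x ∈ Subgroup.zpowers (e y) ∨ e y ∈ Subgroup.zpowers (e x)))
    {p q : ℕ} (hp : p.Prime) (hq : q.Prime) (hpq : p ≠ q) :
    (∃ g : G, orderOf g = p * q) ↔ (∃ h : H, orderOf h = p * q) := by
  have he' : ∀ x y : H, Adj x y ↔ Adj (e.symm x) (e.symm y) := fun x y => by
    have := he (e.symm x) (e.symm y)
    simp only [Equiv.apply_symm_apply] at this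
    exact this.symm
  rcases lt_or_gt_of_ne hpq with h | h
  · exact ⟨fun ⟨g, hg⟩ => main e he hp hq h g hg, fun ⟨g, hg⟩ => main e.symm he' hp hq h g hg⟩
  · rw [mul_comm]
    exact ⟨fun ⟨g, hg⟩ => main e he hq hp h g hg, fun ⟨g, hg⟩ => main e.symm he' hq hp h g hg⟩

end Cfsg.Agent.S4085
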