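import Cfsg.Statements.S4086
import Mathlib.Data.Nat.Factorization.PrimePow

set_option autoImplicit false
open Cfsg

namespace Cfsg.Agent.S4086

theorem key {K : Type*} [Group K] [Finite K] [IsCyclic K] (u v : K) (huv : orderOf u ∣ orderOf v) :
    u ∈ Subgroup.zpowers v := by
  classical
  have := Fintype.ofFinite K
  have h1 := IsCyclic.card_pow_eq_one_le (α := K) (orderOf_pos v)
  have h2 : (Finset.univ.filter (fun a : K => a ∈ Subgroup.zpowers v)) ⊆
      Finset.univ.filter (fun a : K => a ^ orderOf v = 1) := by
    intro a ha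
    simp only [Finset.mem_filter, Finset.mem_univ, true_and] at ha ⊢
    exact orderOf_dvd_iff_pow_eq_one.1 (orderOf_dvd_of_mem_zpowers ha)
  have h3 : (Finset.univ.filter (fun a : K => a ∈ Subgroup.zpowers v)).card = orderOf v := by
    rw [← Nat.card_zpowers, Nat.card_eq_fintype_card, Fintype.card_subtype]
  have h4 := Finset.eq_of_subset_of_card_le h2 (by rw [h3]; exact h1)
  have h5 : u ∈ Finset.univ.filter (fun a : K => a ^ orderOf v = 1) := by
    simp only [Finset.mem_filter, Finset.mem_univ, true_and]
    exact orderOf_dvd_iff_pow_eq_one.1 huv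
  rw [← h4] at h5
  simpa using h5

/-- For a finite group G the following are equivalent: every non-identity element has prime-power order; whenever two elements generate a cyclic subgroup, one of them is a power of the other (the enhanced power graph of G coincides with its power graph). -/
theorem result {G : Type*} [Group G] [Finite G] :
    (∀ g : G, g ≠ 1 → IsPrimePow (orderOf g)) ↔
    (∀ x y : G, IsCyclic ↥(Subgroup.closure ({x, y} : Set G)) → (x ∈ Subgroup.zpowers y ∨ y ∈ Subgroup.zpowers x)) := by
  constructor
  · intro h x y hc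
    set K := Subgroup.closure ({x, y} : Set G) with hK
    have hx : x ∈ K := Subgroup.subset_closure (by simp)
    have hy : y ∈ K := Subgroup.subset_closure (by simp)
    obtain ⟨c, hc'⟩ := IsCyclic.exists_generator (α := K)
    by_cases h1 : (c : G) = 1
    · left
      obtain ⟨k, hk⟩ := hc' ⟨x, hx⟩
      have : x = 1 := by
        have := congrArg Subtype.val hk
        simp only [SubgroupClass.coe_zpow, h1, one_zpow] at this
        exact this.symm
      rw [this]; exact Subgroup.one_mem _
    · obtain ⟨p, n, hp, hn, hpn⟩ := (isPrimePow_nat_iff _).1 (h c h1)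
      have hxc : x ∈ Subgroup.zpowers (c : G) := by
        obtain ⟨k, hk⟩ := hc' ⟨x, hx⟩
        exact ⟨k, by simpa using congrArg Subtype.val hk⟩
      have hyc : y ∈ Subgroup.zpowers (c : G) := by
        obtain ⟨k, hk⟩ := hc' ⟨y, hy⟩
        exact ⟨k, by simpa using congrArg Subtype.val hk⟩
      have hxd : orderOf x ∣ p ^ n := hpn ▸ orderOf_dvd_of_mem_zpowers hxc
      have hyd : orderOf y ∣ p ^ n := hpn ▸ orderOf_dvd_of_mem_zpowers hyc
      obtain ⟨a, -, ha⟩ := (Nat.dvd_prime_pow hp).1 hxd
      obtain ⟨b, -, hb⟩ := (Nat.dvd_prime_pow hp).1 hyd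
      rcases le_total a b with hab | hab
      · left
        have := key (K := K) ⟨x, hx⟩ ⟨y, hy⟩ (by
          rw [← Subgroup.orderOf_coe, ← Subgroup.orderOf_coe]
          simp only [ha, hb]
          exact pow_dvd_pow p hab)
        obtain ⟨k, hk⟩ := this
        exact ⟨k, by simpa using congrArg Subtype.val hk⟩
      · right
        have := key (K := K) ⟨y, hy⟩ ⟨x, hx⟩ (by
          rw [← Subgroup.orderOf_coe, ← Subgroup.orderOf_coe]
          simp only [ha, hb]
          exact pow_dvd_pow p hab)
        obtain ⟨k, hk⟩ := this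
        exact ⟨k, by simpa using congrArg Subtype.val hk⟩
  · intro h g hg
    have hpos := orderOf_pos g
    have hne : orderOf g ≠ 1 := by rwa [Ne, orderOf_eq_one_iff]
    rw [isPrimePow_iff_unique_prime_dvd]
    obtain ⟨p, hp, hpd⟩ := Nat.exists_prime_and_dvd hne
    refine ⟨p, ⟨hp, hpd⟩, ?_⟩
    rintro q ⟨hq, hqd⟩
    have hx : orderOf (g ^ (orderOf g / p)) = p := orderOf_pow_orderOf_div hpos.ne' hpd
    have hy : orderOf (g ^ (orderOf g / q)) = q := orderOf_pow_orderOf_div hpos.ne' hqd
    have hc : IsCyclic ↥(Subgroup.closure ({g ^ (orderOf g / p), g ^ (orderOf g / q)} : Set G)) := by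
      apply Subgroup.isCyclic_of_le (H' := Subgroup.zpowers g)
      rw [Subgroup.closure_le]
      rintro z (rfl | rfl)
      · exact Subgroup.npow_mem_zpowers _ _
      · exact Subgroup.npow_mem_zpowers _ _
    rcases h _ _ hc with h1 | h1
    · have := orderOf_dvd_of_mem_zpowers h1
      rw [hx, hy] at this
      exact ((Nat.prime_dvd_prime_iff_eq hp hq).1 this).symm
    · have := orderOf_dvd_of_mem_zpowers h1
      rw [hx, hy] at this
      exact ((Nat.prime_dvd_prime_iff_eq hq hp).1 this)

end Cfsg.Agent.S4086
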