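import Cfsg.Statements.S4089
import Cfsg.Agent.H1.Subnormalizer

set_option autoImplicit false
open Cfsg

namespace Cfsg.Agent.S4089

open scoped Pointwise

/-- Let G be a finite group, p a prime and H a p-subgroup of G. Then the set of elements g of G such that H is subnormal in the subgroup generated by H and g is the union of the normalizers N_G(R) over the subgroups R of G containing H with R = O_p(N_G(R)); and this set does not change when H is replaced by the intersection of all Sylow p-subgroups of G containing H. -/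
theorem result {G : Type*} [Group G] [Finite G] (p : ℕ) [Fact p.Prime]
    (H : Subgroup G) (hH : IsPGroup p H) :
    {g : G | ((H).subgroupOf (H ⊔ Subgroup.zpowers g)).IsSubnormal} =
      {g : G | ∃ R : Subgroup G, H ≤ R ∧ (Cfsg.pCore p (Subgroup.normalizer (R : Set G))).map (Subgroup.normalizer (R : Set G)).subtype = R ∧ g ∈ Subgroup.normalizer (R : Set G)} ∧
    ∀ g : G, (((H).subgroupOf (H ⊔ Subgroup.zpowers g)).IsSubnormal ↔
      (((sInf {K : Subgroup G | ∃ Q : Sylow p G, H ≤ (Q : Subgroup G) ∧ K = (Q : Subgroup G)})).subgroupOf ((sInf {K : Subgroup G | ∃ Q : Sylow p G, H ≤ (Q : Subgroup G) ∧ K = (Q : Subgroup G)}) ⊔ Subgroup.zpowers g)).IsSubnormal) := by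
  constructor
  · ext g
    rw [Set.mem_setOf_eq, H1.isSubnormal_sup_zpowers_iff hH]
    constructor
    · rintro ⟨R₀, h₀, hR₀⟩
      obtain ⟨R, h1, hR⟩ := exists_maximal_ge_of_wellFoundedGT
        (fun R : Subgroup G => IsPGroup p R ∧ g ∈ Subgroup.normalizer (R : Set G)) R₀ h₀
      have h2 : R ≤ H1.Op p (Subgroup.normalizer (R : Set G)) :=
        H1.le_Op hR.prop.1 Subgroup.le_normalizer le_rfl
      exact ⟨R, hR₀.trans h1, le_antisymm
        (hR.le_of_ge ⟨H1.Op_isPGroup, H1.le_normalizer_Op hR.prop.2⟩ h2) h2, hR.prop.2⟩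
    · rintro ⟨R, h1, h2, h3⟩
      exact ⟨R, ⟨h2 ▸ H1.Op_isPGroup, h3⟩, h1⟩
  · set I := sInf {K : Subgroup G | ∃ Q : Sylow p G, H ≤ (Q : Subgroup G) ∧ K = (Q : Subgroup G)}
    have hHI : H ≤ I := le_sInf fun K ⟨Q, h1, h2⟩ => h2 ▸ h1
    obtain ⟨P, hP⟩ := hH.exists_le_sylow
    have hI : IsPGroup p I := P.2.to_le (sInf_le ⟨P, hP, rfl⟩)
    have h1 : {g : G | (I.subgroupOf (I ⊔ Subgroup.zpowers g)).IsSubnormal} ⊆
        {g : G | (H.subgroupOf (H ⊔ Subgroup.zpowers g)).IsSubnormal} := fun g hg => by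
      obtain ⟨R, h1, h2⟩ := (H1.isSubnormal_sup_zpowers_iff hI g).1 hg
      exact (H1.isSubnormal_sup_zpowers_iff hH g).2 ⟨R, h1, hHI.trans h2⟩
    have h2 := Set.Finite.eq_of_subset_of_card_le (Set.toFinite _) h1 (le_of_eq (by
      refine (H1.card_subnormalizer hH P).trans (Eq.trans ?_ (H1.card_subnormalizer hI P).symm)
      exact H1.card_subtype_congr fun g => ⟨fun h => sInf_le ⟨g • P, h, rfl⟩, fun h => hHI.trans h⟩))
    exact fun g => (Set.ext_iff.1 h2 g).symm

end Cfsg.Agent.S4089
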