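import Cfsg.Statements.S4090
import Cfsg.Agent.H1.Subnormalizer
import Cfsg.Agent.H3.Cores

set_option autoImplicit false
open scoped BigOperators
open Cfsg

namespace Cfsg.Agent.S4090

open scoped Pointwise

variable {G : Type*} [Group G] [Finite G] {p : ℕ} [Fact p.Prime]

def X (H P K : Subgroup G) (g : G) : Prop := ∀ h ∈ H, g⁻¹ * h * g ∈ P ⊔ K

theorem fiber {H : Subgroup G} (hH : IsPGroup p H) (P : Sylow p G) {A B : Subgroup G} [hA : A.Normal]
    [hB : B.Normal] (h : ((P : Subgroup G) ⊔ A) ⊓ B = A) {g : G} (hg : X H P B g) :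
    Nat.card {b : G // b ∈ B ∧ X H P A (b * g)} =
      Nat.card {u : G // u ∈ B ∧ ∀ h ∈ H, h * u * h⁻¹ * u⁻¹ ∈ A} := by
  obtain ⟨l, hl, e⟩ := (H8.isSylowIn_of_le P (le_sup_left (b := B))).exists_conj_le
    (H8.isPGroup_conj_smul hH g⁻¹) (fun x hx => by
      have := hg _ (H8.mem_conj_smul.1 hx)
      simpa [mul_assoc] using this)
  obtain ⟨q, hq, b1, hb1, rfl⟩ := Subgroup.mem_sup_of_normal_right.1 hl
  have h0 : ∀ h ∈ H, (g * b1⁻¹)⁻¹ * h * (g * b1⁻¹) ∈ (P : Subgroup G) := fun x hx => by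
    have h1 := e (H8.conj_mem_conj_smul.2 (H8.conj_mem_conj_smul.2 hx : g⁻¹ * x * g⁻¹⁻¹ ∈ _))
    have h2 := (P : Subgroup G).mul_mem ((P : Subgroup G).mul_mem (Subgroup.inv_mem _ hq) h1) hq
    convert h2 using 1; group
  have hb0 : g * b1⁻¹ * g⁻¹ ∈ B := hB.conj_mem _ (B.inv_mem hb1) g
  have key : ∀ u ∈ B, X H P A (u * (g * b1⁻¹)) ↔ ∀ h ∈ H, h * u * h⁻¹ * u⁻¹ ∈ A := by
    intro u hu
    refine forall₂_congr fun x hx => ?_
    generalize g * b1⁻¹ = c at h0
    have e1 : (u * c)⁻¹ * x * (u * c) * (c⁻¹ * x * c)⁻¹ =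
        (u * c)⁻¹ * (x * u * x⁻¹ * u⁻¹) * (u * c)⁻¹⁻¹ := by group
    rw [← Subgroup.mul_mem_cancel_right _ (Subgroup.mem_sup_left (Subgroup.inv_mem _ (h0 x hx))), e1]
    refine ⟨fun h1 => ?_, fun h1 => Subgroup.mem_sup_right (hA.conj_mem _ h1 _)⟩
    have h2 : (u * c)⁻¹ * (x * u * x⁻¹ * u⁻¹) * (u * c)⁻¹⁻¹ ∈ A := by
      rw [← h]
      exact ⟨h1, hB.conj_mem _ (B.mul_mem (hB.conj_mem _ hu x) (B.inv_mem hu)) _⟩
    have := hA.conj_mem _ h2 (u * c)
    convert this using 1; group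
  refine Nat.card_congr ⟨fun b => ⟨b.1 * (g * b1⁻¹ * g⁻¹)⁻¹, B.mul_mem b.2.1 (B.inv_mem hb0), ?_⟩,
    fun u => ⟨u.1 * (g * b1⁻¹ * g⁻¹), B.mul_mem u.2.1 hb0, ?_⟩, fun b => Subtype.ext (inv_mul_cancel_right _ _),
    fun u => Subtype.ext (mul_inv_cancel_right _ _)⟩
  · refine (key _ (B.mul_mem b.2.1 (B.inv_mem hb0))).1 ?_
    convert b.2.2 using 1; group
  · have := (key _ u.2.1).2 u.2.2
    convert this using 1; group

theorem step_count {H : Subgroup G} (hH : IsPGroup p H) (P : Sylow p G) {A B : Subgroup G}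
    [hA : A.Normal] [hB : B.Normal] (hAB : A ≤ B) (h : ((P : Subgroup G) ⊔ A) ⊓ B = A) :
    Nat.card {g // X H P A g} * Nat.card B = Nat.card {g // X H P B g} *
      Nat.card {u : G // u ∈ B ∧ ∀ h ∈ H, h * u * h⁻¹ * u⁻¹ ∈ A} := by
  rw [← Nat.card_prod]
  have hX : ∀ z : {g // X H P A g} × B, X H P B ((z.2 : G)⁻¹ * z.1) := by
    intro z x hx
    have h1 := sup_le_sup_left hAB _ (z.1.2 x hx)
    have h2 : ((z.1 : G)⁻¹ * z.2 * (z.1 : G)⁻¹⁻¹) ∈ (P : Subgroup G) ⊔ B :=
      Subgroup.mem_sup_right (hB.conj_mem _ z.2.2 _)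
    have := Subgroup.mul_mem _ (Subgroup.mul_mem _ h2 h1) (Subgroup.inv_mem _ h2)
    convert this using 1; group
  refine H1.card_eq_mul_of_fiber (fun z => ⟨(z.2 : G)⁻¹ * z.1, hX z⟩) fun g => ?_
  · rw [← fiber hH P h g.2]
    refine Nat.card_congr ⟨fun z => ⟨z.1.2, z.1.2.2, ?_⟩,
      fun b => ⟨(⟨b.1 * g, b.2.2⟩, ⟨b.1, b.2.1⟩), Subtype.ext (by simp)⟩, fun z => ?_, fun b => rfl⟩
    · have := congrArg Subtype.val z.2
      simp only at this
      rw [← this, mul_inv_cancel_left]; exact z.1.1.2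
    · have := congrArg Subtype.val z.2
      simp only at this
      ext
      · simp [← this]
      · rfl

theorem step {H : Subgroup G} (hH : IsPGroup p H) (P : Sylow p G) {A B : Subgroup G}
    [hA : A.Normal] [hB : B.Normal] (hAB : A ≤ B)
    (h : (∃ m : ℕ, A.relIndex B = p ^ m) ∨ (A.relIndex B).Coprime p) :
    (Nat.card {g // X H P A g} : ℚ) / Nat.card ((P : Subgroup G) ⊔ A : Subgroup G) =
      Nat.card {g // X H P B g} / Nat.card ((P : Subgroup G) ⊔ B : Subgroup G) *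
      ((if (A.relIndex B).Coprime p then
        Nat.card {u : G // u ∈ B ∧ ∀ h ∈ H, h * u * h⁻¹ * u⁻¹ ∈ A} / Nat.card A else 1 : ℕ) : ℚ) := by
  split_ifs with hc
  · have h1 : ((P : Subgroup G) ⊔ A) ⊓ B = A := by
      refine le_antisymm ?_ (le_inf le_sup_right hAB)
      rintro x ⟨hx, hxB⟩
      obtain ⟨q, hq, a, ha, rfl⟩ := Subgroup.mem_sup_of_normal_right.1 hx
      refine A.mul_mem ?_ ha
      have hqB : q ∈ B := (B.mul_mem_cancel_right (hAB ha)).1 hxB
      obtain ⟨k, hk⟩ := P.isPGroup' ⟨q, hq⟩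
      have h2 : q ^ A.relIndex B ∈ A := by
        have := Subgroup.pow_index_mem (A.subgroupOf B) ⟨q, hqB⟩
        exact this
      obtain ⟨m, hm⟩ := exists_pow_eq_self_of_coprime (x := q) (n := A.relIndex B)
        ((hc.pow_right k).coprime_dvd_right (orderOf_dvd_of_pow_eq_one (congrArg Subtype.val hk)))
      rw [← hm]; exact A.pow_mem h2 m
    have h2 := step_count hH P hAB h1
    have h3 := H3.card_sup_mul_card_inf ((P : Subgroup G) ⊔ A) B
    rw [h1, sup_assoc, sup_eq_right.2 hAB] at h3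
    let C : Subgroup G := B ⊓ (Subgroup.centralizer (H.map (QuotientGroup.mk' A) : Set (G ⧸ A))).comap
      (QuotientGroup.mk' A)
    have hC : ∀ u, u ∈ C ↔ u ∈ B ∧ ∀ h ∈ H, h * u * h⁻¹ * u⁻¹ ∈ A := fun u => by
      simp only [C, Subgroup.mem_inf, Subgroup.mem_comap, Subgroup.mem_centralizer_iff,
        SetLike.mem_coe, Subgroup.mem_map, forall_exists_index, and_imp, forall_apply_eq_imp_iff₂]
      refine and_congr_right fun _ => forall₂_congr fun x _ => ?_
      rw [← QuotientGroup.eq_one_iff, ← mul_inv_eq_one]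
      simp [mul_assoc]
    have h4 : Nat.card A ∣ Nat.card {u : G // u ∈ B ∧ ∀ h ∈ H, h * u * h⁻¹ * u⁻¹ ∈ A} := by
      rw [← H1.card_subtype_congr hC]
      exact Subgroup.card_dvd_of_le (K := C) fun a ha => (hC a).2 ⟨hAB ha, fun x _ =>
        A.mul_mem (hA.conj_mem a ha x) (A.inv_mem ha)⟩
    have hp : ∀ K : Subgroup G, (Nat.card K : ℚ) ≠ 0 := fun K => Nat.cast_ne_zero.2 Nat.card_pos.ne'
    rw [Nat.cast_div h4 (hp A)]
    have h2' := congrArg (Nat.cast : ℕ → ℚ) h2
    have h3' := congrArg (Nat.cast : ℕ → ℚ) h3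
    push_cast at h2' h3'
    have := hp A; have := hp B; have := hp ((P : Subgroup G) ⊔ A); have := hp ((P : Subgroup G) ⊔ B)
    field_simp
    linear_combination (Nat.card ((P : Subgroup G) ⊔ A : Subgroup G) : ℚ) * h2' +
      (Nat.card {g // X H P A g} : ℚ) * h3'
  · obtain ⟨m, hm⟩ := h.resolve_right hc
    have h1 : (P : Subgroup G) ⊔ A = (P : Subgroup G) ⊔ B := by
      refine le_antisymm (sup_le_sup_left hAB _) (sup_le le_sup_left ?_)
      have h2 := (H8.isSylowIn_inf_normal P B).not_dvd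
      have h3 : (((P : Subgroup G) ⊓ B) ⊔ A).relIndex B = 1 := by
        have h4 := Subgroup.relIndex_dvd_of_le_left B (le_sup_right : A ≤ ((P : Subgroup G) ⊓ B) ⊔ A)
        rw [hm] at h4
        obtain ⟨k, -, hk⟩ := (Nat.dvd_prime_pow Fact.out).1 h4
        rcases k with _ | k
        · simpa using hk
        · exact absurd ((hk ▸ dvd_pow_self p k.succ_ne_zero).trans
            (Subgroup.relIndex_dvd_of_le_left B le_sup_left)) h2
      exact (Subgroup.relIndex_eq_one.1 h3).trans (sup_le_sup_right inf_le_left _)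
    simp only [X, h1, Nat.cast_one, mul_one]

theorem telescope : ∀ (n : ℕ) (e : Fin (n + 1) → ℚ) (t : Fin n → ℚ),
    (∀ i : Fin n, e i.castSucc = e i.succ * t i) → e 0 = e (Fin.last n) * ∏ i, t i
  | 0, e, t, _ => by simp
  | n + 1, e, t, h => by
    have h1 := telescope n (fun i => e i.succ) (fun i => t i.succ) fun i => by
      simpa only [Fin.succ_castSucc] using h i.succ
    have h2 := h 0
    simp only [Fin.castSucc_zero, Fin.succ_last] at h1 h2
    rw [h2, h1, Fin.prod_univ_succ]; ring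

/-- Let G be a finite p-solvable group, H a p-subgroup of G and P a Sylow p-subgroup, and fix a chain of normal subgroups 1 = M₀ ≤ M₁ ≤ ⋯ ≤ Mₙ = G of G each of whose factors is a p-group or a p'-group. Then the number of elements g of G such that H is subnormal in the subgroup generated by H and g equals the order of P times the product, over the factors Mᵢ₊₁/Mᵢ of order prime to p, of the order of the centralizer of H in Mᵢ₊₁/Mᵢ (counted as the number of u ∈ Mᵢ₊₁ with [h, u] ∈ Mᵢ for all h ∈ H, divided by the order of Mᵢ). -/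
theorem result {G : Type*} [Group G] [Finite G] (p : ℕ) [Fact p.Prime]
    (hG : Cfsg.IsPSolvable p G) (H : Subgroup G) (hH : IsPGroup p H) (P : Sylow p G)
    (n : ℕ) (M : Fin (n + 1) → Subgroup G) (h0 : M 0 = ⊥) (hn : M (Fin.last n) = ⊤) (hmono : Monotone M)
    (hnormal : ∀ i, (M i).Normal)
    (hfac : ∀ i : Fin n, (∃ m : ℕ, (M i.castSucc).relIndex (M i.succ) = p ^ m) ∨ ((M i.castSucc).relIndex (M i.succ)).Coprime p) :
    Nat.card {g : G // ((H).subgroupOf (H ⊔ Subgroup.zpowers g)).IsSubnormal} =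
      Nat.card (P : Subgroup G) *
        ∏ i : Fin n, (if ((M i.castSucc).relIndex (M i.succ)).Coprime p then
          Nat.card {u : G // u ∈ M i.succ ∧ ∀ h ∈ H, h * u * h⁻¹ * u⁻¹ ∈ M i.castSucc} / Nat.card (M i.castSucc)
          else 1) := by
    have h1 := telescope n (fun i => (Nat.card {g // X H P (M i) g} : ℚ) /
      Nat.card ((P : Subgroup G) ⊔ M i : Subgroup G)) _ fun i =>
        haveI := hnormal i.castSucc
        haveI := hnormal i.succ
        step hH P (hmono (Fin.castSucc_lt_succ (i := i)).le) (hfac i)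
    have h2 : Nat.card {g // X H P ⊤ g} = Nat.card G :=
      Nat.card_congr (Equiv.subtypeUnivEquiv fun g x _ => by simp)
    have h3 : Nat.card {g // X H P ⊥ g} =
        Nat.card {g : G // H ≤ MulAut.conj g • (P : Subgroup G)} :=
      H1.card_subtype_congr fun g => by simp only [X, sup_bot_eq, SetLike.le_def, H8.mem_conj_smul]
    simp only [h0, hn, h2, h3, sup_top_eq, sup_bot_eq, Subgroup.card_top] at h1
    rw [div_self (Nat.cast_ne_zero.2 Nat.card_pos.ne'), one_mul,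
      div_eq_iff (Nat.cast_ne_zero.2 Nat.card_pos.ne'), ← Nat.cast_prod, ← Nat.cast_mul] at h1
    rw [H1.card_subnormalizer hH P, mul_comm]
    exact_mod_cast h1

end Cfsg.Agent.S4090
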