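import Cfsg.Statements.S4091
import Cfsg.Agent.S4090
import Cfsg.Agent.H1.FixCount

set_option autoImplicit false
open Cfsg

namespace Cfsg.Agent.S4091

open scoped Pointwise
open Finset

variable {G : Type*} [Group G] [Finite G] {p : ℕ} [Fact p.Prime]

open Classical in
/-- the local factor -/
noncomputable def tt (p : ℕ) (A B H : Subgroup G) : ℕ :=
  if (A.relIndex B).Coprime p then
    Nat.card {u : G // u ∈ B ∧ ∀ h ∈ H, h * u * h⁻¹ * u⁻¹ ∈ A} / Nat.card A else 1

theorem tt_eq {A B : Subgroup G} [A.Normal] (hAB : A ≤ B) (H : Subgroup G)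
    (hc : (A.relIndex B).Coprime p) : tt p A B H = Nat.card (B.map (QuotientGroup.mk' A) ⊓
      Subgroup.centralizer (H.map (QuotientGroup.mk' A) : Set (G ⧸ A)) : Subgroup _) := by
  rw [tt, if_pos hc]
  refine Nat.div_eq_of_eq_mul_right Nat.card_pos ?_
  rw [← H3.card_comap_mk', Subgroup.comap_inf, Subgroup.comap_map_eq, QuotientGroup.ker_mk',
    sup_eq_left.2 hAB]
  refine H1.card_subtype_congr fun u => ?_
  simp only [Subgroup.mem_inf, Subgroup.mem_comap, Subgroup.mem_centralizer_iff,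
    SetLike.mem_coe, Subgroup.mem_map, forall_exists_index, and_imp, forall_apply_eq_imp_iff₂]
  refine and_congr_right fun _ => forall₂_congr fun x _ => ?_
  rw [← QuotientGroup.eq_one_iff, ← mul_inv_eq_one (a := _ * _)]
  simp [mul_assoc]

theorem tt_ineq {A B : Subgroup G} [A.Normal] [B.Normal] (hAB : A ≤ B) {P : Subgroup G} [Fintype P]
    (hP : IsPGroup p P) : (∏ x : P, tt p A B (Subgroup.zpowers (x : G))) ^ p ≤
      tt p A B P ^ ((p - 1) * Nat.card P) * tt p A B ⊥ ^ Nat.card P := by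
  by_cases hc : (A.relIndex B).Coprime p
  · haveI := Subgroup.Normal.map (inferInstance : B.Normal) _ (QuotientGroup.mk'_surjective A)
    have := H1.FixCount.prod_card_centralizer_le hP ((QuotientGroup.mk' A).comp P.subtype) _
      (B.map (QuotientGroup.mk' A)) rfl (by rw [Subgroup.normalizer_eq_top]; exact le_top)
      (by rwa [H3.card_map_mk'])
    rw [MonoidHom.range_comp, P.range_subtype] at this
    simp only [tt_eq hAB _ hc, MonoidHom.map_zpowers, Subgroup.map_bot]
    simp only [Subgroup.zpowers_eq_closure, Subgroup.centralizer_closure]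
    rwa [Subgroup.coe_bot, show Subgroup.centralizer ({1} : Set (G ⧸ A)) = ⊤ from
      eq_top_iff.2 fun g _ => by simp [Subgroup.mem_centralizer_iff], inf_top_eq]
  · simp [tt, hc]

/-- the number of Sylow subgroups containing `H` -/
noncomputable def lam (p : ℕ) (H : Subgroup G) : ℕ := Nat.card {R : Sylow p G // H ≤ R}

theorem prod_lam_le (hG : Cfsg.IsPSolvable p G) (P : Sylow p G) [Fintype (P : Subgroup G)] :
    (∏ x : (P : Subgroup G), lam p (Subgroup.zpowers (x : G))) ^ p ≤
      Nat.card (Sylow p G) ^ Nat.card (P : Subgroup G) := by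
  obtain ⟨n, M, h0, hn, hmono, hnormal, hfac⟩ := id hG
  have key : ∀ H : Subgroup G, IsPGroup p H →
      lam p H * Nat.card (Subgroup.normalizer ((P : Subgroup G) : Set G)) =
      Nat.card (P : Subgroup G) * ∏ i : Fin n, tt p (M i.castSucc) (M i.succ) H := fun H hH => by
    rw [lam, ← H1.card_conj_sylow_eq_mul P (fun R => H ≤ R), ← H1.card_subnormalizer hH P,
      S4090.result p hG H hH P n M h0 hn hmono hnormal hfac]
    congr 1
  have h1 := key _ P.isPGroup'
  have h2 := key ⊥ IsPGroup.of_bot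
  have h3 : lam p (P : Subgroup G) = 1 := Nat.card_eq_one_iff_unique.2
    ⟨⟨fun a b => Subtype.ext (Sylow.ext ((P.is_maximal' a.1.isPGroup' a.2).trans
      (P.is_maximal' b.1.isPGroup' b.2).symm))⟩, ⟨⟨P, le_rfl⟩⟩⟩
  have h4 : lam p (⊥ : Subgroup G) = Nat.card (Sylow p G) :=
    Nat.card_congr (Equiv.subtypeUnivEquiv fun _ => bot_le)
  rw [h3, one_mul] at h1
  rw [h4] at h2
  have h5 := prod_congr (s₁ := univ) rfl fun (x : (P : Subgroup G)) _ =>
    key _ (P.isPGroup'.to_le (Subgroup.zpowers_le.2 x.2))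
  rw [prod_mul_distrib, prod_mul_distrib, prod_const, prod_const, prod_comm, card_univ,
    ← Nat.card_eq_fintype_card] at h5
  have h6 := prod_le_prod' (s := univ) fun (i : Fin n) _ =>
    haveI := hnormal i.castSucc
    haveI := hnormal i.succ
    tt_ineq (hmono (Fin.castSucc_lt_succ (i := i)).le) P.isPGroup'
  rw [prod_pow, prod_mul_distrib, prod_pow, prod_pow] at h6
  obtain ⟨k, hk⟩ := Nat.exists_eq_add_one_of_ne_zero (Fact.out : p.Prime).ne_zero
  refine Nat.le_of_mul_le_mul_right ?_ (pow_pos (pow_pos (Nat.card_pos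
    (α := Subgroup.normalizer ((P : Subgroup G) : Set G))) (Nat.card (P : Subgroup G))) p)
  rw [← mul_pow, h5, mul_pow]
  refine (Nat.mul_le_mul_left _ h6).trans (le_of_eq ?_)
  generalize Nat.card (Subgroup.normalizer ((P : Subgroup G) : Set G)) = N at *
  generalize Nat.card (Sylow p G) = s at *
  generalize Nat.card (P : Subgroup G) = m at *
  generalize ∏ i : Fin n, tt p (M i.castSucc) (M i.succ) P = a at *
  generalize ∏ i : Fin n, tt p (M i.castSucc) (M i.succ) ⊥ = b at *
  subst hk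
  rw [add_tsub_cancel_right]
  calc (m ^ m) ^ (k + 1) * (a ^ (k * m) * b ^ m) = (m * a) ^ (k * m) * (m * b) ^ m := by ring
    _ = _ := by rw [← h1, ← h2]; ring

theorem lam_pos {H : Subgroup G} (hH : IsPGroup p H) : 0 < lam p H := by
  obtain ⟨R, hR⟩ := hH.exists_le_sylow
  haveI : Nonempty {R : Sylow p G // H ≤ R} := ⟨⟨R, hR⟩⟩
  exact Nat.card_pos

theorem lam_conj (x g : G) :
    lam p (Subgroup.zpowers (g * x * g⁻¹)) = lam p (Subgroup.zpowers x) := by
  refine (Nat.card_congr (Equiv.subtypeEquiv (MulAction.toPerm g) fun R => ?_)).symm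
  rw [Subgroup.zpowers_le, Subgroup.zpowers_le]
  exact H8.conj_mem_conj_smul.symm

theorem card_eq (P : Sylow p G) [Fintype (P : Subgroup G)] :
    (Nat.card {g : G // ∃ k : ℕ, orderOf g = p ^ k} : ℝ) = Nat.card (Sylow p G) *
      ∑ x : (P : Subgroup G), (lam p (Subgroup.zpowers (x : G)) : ℝ)⁻¹ := by
  classical
  haveI := Fintype.ofFinite G
  haveI := Fintype.ofFinite (Sylow p G)
  have h1 : ∀ R : Sylow p G, ∑ x : (P : Subgroup G), (lam p (Subgroup.zpowers (x : G)) : ℝ)⁻¹ =
      ∑ x : G, if x ∈ (R : Subgroup G) then (lam p (Subgroup.zpowers x) : ℝ)⁻¹ else 0 := by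
    intro R
    obtain ⟨g, rfl⟩ := MulAction.exists_smul_eq G P R
    rw [← Fintype.sum_equiv (MulAut.conj g).toEquiv
      (fun x => if x ∈ (P : Subgroup G) then (lam p (Subgroup.zpowers x) : ℝ)⁻¹ else 0) _ fun x => by
        simp only [MulEquiv.toEquiv_eq_coe, EquivLike.coe_coe, MulAut.conj_apply, lam_conj,
          Sylow.coe_subgroup_smul, H8.conj_mem_conj_smul], ← sum_filter]
    exact (sum_subtype _ (by simp) fun x => (lam p (Subgroup.zpowers x) : ℝ)⁻¹).symm
  rw [Nat.card_eq_fintype_card (α := Sylow p G), ← nsmul_eq_mul, ← card_univ, ← sum_const,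
    sum_congr rfl fun R _ => h1 R, sum_comm, Nat.card_eq_fintype_card, Fintype.card_subtype,
    card_filter, Nat.cast_sum]
  refine sum_congr rfl fun x _ => ?_
  rw [← sum_filter, sum_const, nsmul_eq_mul, ← Fintype.card_subtype, ← Nat.card_eq_fintype_card,
    show Nat.card {R : Sylow p G // x ∈ (R : Subgroup G)} = lam p (Subgroup.zpowers x) from
      H1.card_subtype_congr fun R => Subgroup.zpowers_le.symm]
  split_ifs with h
  · obtain ⟨k, hk⟩ := h
    rw [mul_inv_cancel₀ (Nat.cast_ne_zero.2 (lam_pos (IsPGroup.of_card (n := k)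
      (by rw [Nat.card_zpowers, hk]))).ne'), Nat.cast_one]
  · haveI : IsEmpty {R : Sylow p G // Subgroup.zpowers x ≤ R} := ⟨fun R => h (by
      obtain ⟨k, hk⟩ := IsPGroup.iff_orderOf.1 R.1.isPGroup' ⟨x, Subgroup.zpowers_le.1 R.2⟩
      exact ⟨k, by rwa [Subgroup.orderOf_mk] at hk⟩)⟩
    rw [lam, Nat.card_of_isEmpty]; simp

/-- Let G be a finite p-solvable group, P a Sylow p-subgroup of G, u the number of p-elements of G (elements of p-power order, the identity included) and n the number of Sylow p-subgroups of G. Then u/#P ≥ n^((p−1)/p), stated as u^p ≥ #P^p · n^(p−1). -/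
theorem result {G : Type*} [Group G] [Finite G] (p : ℕ) [Fact p.Prime]
    (hG : Cfsg.IsPSolvable p G) (P : Sylow p G) :
    Nat.card (P : Subgroup G) ^ p * Nat.card (Sylow p G) ^ (p - 1) ≤ Nat.card {g : G // ∃ k : ℕ, orderOf g = p ^ k} ^ p := by
    haveI := Fintype.ofFinite (P : Subgroup G)
    have h1 := prod_lam_le hG P
    have h2 := card_eq P
    have hl : ∀ x : (P : Subgroup G), (0 : ℝ) < lam p (Subgroup.zpowers (x : G)) := fun x =>
      Nat.cast_pos.2 (lam_pos (P.isPGroup'.to_le (Subgroup.zpowers_le.2 x.2)))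
    have hm : (0 : ℝ) < Nat.card (P : Subgroup G) := Nat.cast_pos.2 Nat.card_pos
    have hs : (0 : ℝ) < Nat.card (Sylow p G) := Nat.cast_pos.2 Nat.card_pos
    have h3 := Real.geom_mean_le_arith_mean univ (fun _ => 1)
      (fun x : (P : Subgroup G) => (lam p (Subgroup.zpowers (x : G)) : ℝ)⁻¹) (fun _ _ => zero_le_one)
      (by simpa using Fintype.card_pos) fun x _ => (inv_pos.2 (hl x)).le
    simp only [Real.rpow_one, one_mul, sum_const, card_univ, ← Nat.card_eq_fintype_card, nsmul_eq_mul,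
      mul_one, prod_inv_distrib] at h3
    have hL : (0 : ℝ) < ∏ x : (P : Subgroup G), (lam p (Subgroup.zpowers (x : G)) : ℝ) :=
      prod_pos fun x _ => hl x
    have h1' : (∏ x : (P : Subgroup G), (lam p (Subgroup.zpowers (x : G)) : ℝ)) ^ p ≤
        (Nat.card (Sylow p G) : ℝ) ^ Nat.card (P : Subgroup G) := by exact_mod_cast h1
    generalize ∏ x : (P : Subgroup G), (lam p (Subgroup.zpowers (x : G)) : ℝ) = L at *
    generalize ∑ x : (P : Subgroup G), (lam p (Subgroup.zpowers (x : G)) : ℝ)⁻¹ = S at *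
    have h4 := pow_le_pow_left₀ (by positivity) h3 (Nat.card (P : Subgroup G))
    rw [Real.rpow_inv_natCast_pow (by positivity) Nat.card_pos.ne'] at h4
    have hS : 0 ≤ S / Nat.card (P : Subgroup G) := le_trans (by positivity) h3
    have h5 : (Nat.card (Sylow p G) : ℝ)⁻¹ ≤ (S / Nat.card (P : Subgroup G)) ^ p := by
      refine le_of_pow_le_pow_left₀ (Nat.card_pos (α := (P : Subgroup G))).ne' (by positivity) ?_
      rw [← pow_mul, mul_comm p, pow_mul, inv_pow]
      refine le_trans ?_ (pow_le_pow_left₀ (by positivity) h4 p)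
      rw [inv_pow]
      exact inv_anti₀ (by positivity) h1'
    rw [← Nat.cast_le (α := ℝ)]
    push_cast
    rw [h2, mul_pow]
    obtain ⟨k, hk⟩ := Nat.exists_eq_add_one_of_ne_zero (Fact.out : p.Prime).ne_zero
    rw [div_pow, le_div_iff₀ (by positivity), inv_mul_le_iff₀ hs] at h5
    generalize (Nat.card (Sylow p G) : ℝ) = s at *
    generalize (Nat.card (P : Subgroup G) : ℝ) = m at *
    subst hk
    rw [add_tsub_cancel_right]
    calc m ^ (k + 1) * s ^ k ≤ s * S ^ (k + 1) * s ^ k := by gcongr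
      _ = _ := by ring

end Cfsg.Agent.S4091
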