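import Cfsg.Statements.S4092
import Cfsg.Agent.H92.Basic

set_option autoImplicit false
open Cfsg

namespace Cfsg.Agent.S4092

open Cfsg.Agent.H92

/-- Let G be a finite group, p a prime and P a Sylow p-subgroup of G that is not normal in G. Then G has at least p·#P elements of p-power order (the identity included). -/
theorem result {G : Type*} [Group G] [Finite G] (p : ℕ) [Fact p.Prime]
    (P : Sylow p G) (hP : ¬ (P : Subgroup G).Normal) :
    p * Nat.card (P : Subgroup G) ≤ Nat.card {g : G // ∃ k : ℕ, orderOf g = p ^ k} := by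
  classical
  have hp : p.Prime := Fact.out
  have hne : ∃ Q : Sylow p G, Q ≠ P := by
    by_contra h
    push Not at h
    have : Subsingleton (Sylow p G) := ⟨fun a b => (h a).trans (h b).symm⟩
    exact hP (Sylow.normal_of_subsingleton P)
  obtain ⟨Q0, hQ0⟩ := hne
  -- a maximal intersection of two distinct Sylow subgroups
  obtain ⟨⟨A, B⟩, hAB, hmax⟩ := Set.exists_max_image {z : Sylow p G × Sylow p G | z.1 ≠ z.2}
    (fun z => Nat.card ↥((z.1 : Subgroup G) ⊓ z.2)) (Set.toFinite _) ⟨(Q0, P), hQ0⟩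
  set D : Subgroup G := (A : Subgroup G) ⊓ B with hD
  have hDA : D ≤ A := inf_le_left
  have hDB : D ≤ B := inf_le_right
  have hDp : IsPGroup p D := A.isPGroup'.to_le hDA
  let T : Set (Sylow p G) := {Q | D ≤ Q}
  have hT : T = MulAction.fixedPoints D (Sylow p G) := by
    ext Q; exact hDp.sylow_mem_fixedPoints_iff.symm
  have hTmod : Nat.card T ≡ 1 [MOD p] := by
    rw [hT]
    exact (hDp.card_modEq_card_fixedPoints (Sylow p G)).symm.trans (card_sylow_modEq_one p G)
  have hT2 : 1 < Nat.card T := by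
    rw [Finite.one_lt_card_iff_nontrivial]
    exact ⟨⟨⟨A, hDA⟩, ⟨B, hDB⟩, fun h => hAB (congrArg Subtype.val h)⟩⟩
  have hT3 : p + 1 ≤ Nat.card T := by
    have h1 : p ∣ Nat.card T - 1 := (Nat.modEq_iff_dvd' hT2.le).1 hTmod.symm
    have := Nat.le_of_dvd (by omega) h1
    omega
  have hint : ∀ Q ∈ T, ∀ R ∈ T, Q ≠ R → (Q : Subgroup G) ⊓ R = D := by
    intro Q hQ R hR hQR
    exact (Subgroup.eq_of_le_of_card_ge (le_inf hQ hR) (hmax (Q, R) hQR)).symm
  have hcard : ∀ Q : Sylow p G, Nat.card (Q : Subgroup G) = Nat.card (P : Subgroup G) := by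
    intro Q; rw [Q.card_eq_multiplicity, P.card_eq_multiplicity]
  have hpD : p * Nat.card D ≤ Nat.card (P : Subgroup G) := by
    rw [← hcard A]
    have h1 : (D.subgroupOf A).index ≠ 1 := by
      intro h
      rw [Subgroup.index_eq_one, Subgroup.subgroupOf_eq_top] at h
      exact hAB (Sylow.ext (A.3 B.2 (h.trans hDB)).symm)
    obtain ⟨k, hk⟩ := A.isPGroup'.index (D.subgroupOf A)
    have h2 := (D.subgroupOf (A : Subgroup G)).index_mul_card
    rw [Nat.card_congr (Subgroup.subgroupOfEquivOfLe hDA).toEquiv] at h2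
    rw [← h2]
    apply Nat.mul_le_mul_right
    rw [hk] at h1 ⊢
    have hk0 : k ≠ 0 := by rintro rfl; simp at h1
    exact Nat.le_self_pow hk0 p
  -- the injection
  let f : D ⊕ (Σ Q : T, ↥(((Q.1 : Subgroup G) : Set G) \ (D : Set G))) →
      {g : G // ∃ k : ℕ, orderOf g = p ^ k} := fun z => match z with
    | Sum.inl d => ⟨d, orderOf_eq_pow_of_mem hDp d.2⟩
    | Sum.inr ⟨Q, x⟩ => ⟨x, orderOf_eq_pow_of_mem Q.1.isPGroup' x.2.1⟩
  have hf : Function.Injective f := by
    rintro (d | ⟨Q, x⟩) (d' | ⟨Q', x'⟩) h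
    · have h1 : (d : G) = d' := congrArg (fun w : {g : G // ∃ k : ℕ, orderOf g = p ^ k} => w.1) h
      rw [Subtype.ext h1]
    · exact absurd ((show (d : G) = x' from congrArg Subtype.val h) ▸ d.2) x'.2.2
    · exact absurd ((show (d' : G) = x from (congrArg Subtype.val h).symm) ▸ d'.2) x.2.2
    · have h1 : (x : G) = x' := congrArg Subtype.val h
      have h2 : Q = Q' := by
        by_contra hne
        have h3 := hint Q.1 Q.2 Q'.1 Q'.2 (fun h => hne (Subtype.ext h))
        apply x.2.2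
        exact h3.le ⟨x.2.1, h1 ▸ x'.2.1⟩
      subst h2
      congr 2
      exact Subtype.ext h1
  have h1 := Nat.card_le_card_of_injective f hf
  have := Fintype.ofFinite T
  rw [Nat.card_sum, Nat.card_sigma] at h1
  have h2 : ∀ Q : T, Nat.card ↥(((Q.1 : Subgroup G) : Set G) \ (D : Set G)) =
      Nat.card (P : Subgroup G) - Nat.card D := by
    intro Q
    rw [← hcard Q.1]
    exact Set.ncard_sdiff (show (D : Set G) ⊆ ((Q.1 : Subgroup G) : Set G) from Q.2)
  simp_rw [h2] at h1
  rw [Finset.sum_const, Finset.card_univ, ← Nat.card_eq_fintype_card, smul_eq_mul] at h1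
  refine le_trans ?_ h1
  have h3 : Nat.card D ≤ Nat.card (P : Subgroup G) := le_trans (Nat.le_mul_of_pos_left _ hp.pos) hpD
  obtain ⟨e, he⟩ := Nat.exists_eq_add_of_le h3
  rw [he] at hpD ⊢
  rw [Nat.add_sub_cancel_left]
  nlinarith [Nat.mul_le_mul_right e hT3]

end Cfsg.Agent.S4092
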