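import Cfsg.Statements.S4093
import Cfsg.Agent.H92.Basic

set_option autoImplicit false
open scoped BigOperators
open Cfsg

namespace Cfsg.Agent.S4093

open Cfsg.Agent.H92

/-- Let G be a finite group with a normal subgroup N complementing a Sylow p-subgroup P (a normal p-complement). Then the number of elements of G of p-power order equals the sum over x ∈ P of the index of C_N(x) in N. -/
theorem result {G : Type*} [Group G] [Finite G] (p : ℕ) [Fact p.Prime]
    (P : Sylow p G) (N : Subgroup G) [N.Normal] (hNP : N.IsComplement' (P : Subgroup G)) :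
    Nat.card {g : G // ∃ k : ℕ, orderOf g = p ^ k} =
      ∑ᶠ x : (P : Subgroup G), Nat.card N / Nat.card ↥(N ⊓ Subgroup.centralizer ({(x : G)} : Set G)) := by
  classical
  have := Fintype.ofFinite (P : Subgroup G)
  rw [finsum_eq_sum_of_fintype]
  simp_rw [← card_conjSet]
  rw [← Nat.card_sigma]
  symm
  refine Nat.card_congr (Equiv.ofBijective (fun z => ⟨z.2.1, ?_⟩) ⟨?_, ?_⟩)
  · obtain ⟨x, y, n, hn, rfl⟩ := z
    obtain ⟨k, hk⟩ := orderOf_eq_pow_of_mem P.isPGroup' x.2
    refine ⟨k, ?_⟩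
    rw [← hk]
    exact orderOf_injective (MulAut.conj n).toMonoidHom (MulAut.conj n).injective x
  · rintro ⟨x, y, n, hn, rfl⟩ ⟨x', y', n', hn', rfl⟩ h
    have h1 : n * x * n⁻¹ = n' * x' * n'⁻¹ := congrArg Subtype.val h
    have h2 : x = x' := by
      have h3 : (x : G) * (x' : G)⁻¹ = 1 := by
        apply Subgroup.disjoint_def.1 hNP.disjoint
        · have e : (x : G) * (x' : G)⁻¹ = (n⁻¹ * n') * (x' * (n'⁻¹ * n) * (x' : G)⁻¹) := by
            calc (x : G) * (x' : G)⁻¹ = n⁻¹ * (n * x * n⁻¹) * n * (x' : G)⁻¹ := by group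
              _ = _ := by rw [h1]; group
          rw [e]
          exact N.mul_mem (N.mul_mem (N.inv_mem hn) hn')
            ((inferInstance : N.Normal).conj_mem _ (N.mul_mem (N.inv_mem hn') hn) _)
        · exact (P : Subgroup G).mul_mem x.2 ((P : Subgroup G).inv_mem x'.2)
      exact Subtype.ext (mul_inv_eq_one.1 h3)
    subst h2
    congr 1
    exact Subtype.ext h1
  · rintro ⟨g, hg⟩
    obtain ⟨y, hy⟩ := exists_conj_mem_sylow P hg
    obtain ⟨⟨n, u⟩, hnu⟩ := hNP.existsUnique y⁻¹ |>.exists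
    have hy' : y = (u : G)⁻¹ * (n : G)⁻¹ := by
      rw [← mul_inv_rev, hnu, inv_inv]
    have h1 : (n : G)⁻¹ * g * n ∈ (P : Subgroup G) := by
      have := (P : Subgroup G).mul_mem ((P : Subgroup G).mul_mem u.2 hy) ((P : Subgroup G).inv_mem u.2)
      rw [hy'] at this
      convert this using 1; group
    exact ⟨⟨⟨_, h1⟩, ⟨g, n, n.2, by group⟩⟩, rfl⟩

end Cfsg.Agent.S4093
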