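import Cfsg.Statements.S4100
import Mathlib
import Cfsg.Agent.H73.AS6
import Cfsg.Agent.H94.AsRed

set_option autoImplicit false
open Cfsg

namespace Cfsg.Agent.S4100

/-- Let G be a finite group and p a prime other than 3 such that the centralizer of every non-central element of p-power order is solvable. Then every alternating group of degree at least 5 involved in G (as a section) has degree at most p + 4, or at most p + 6 = 8 when p = 2. -/
theorem result {G : Type*} [Group G] [Finite G] (p : ℕ) [Fact p.Prime] (hp3 : p ≠ 3)
    (h : ∀ x : G, x ∉ Subgroup.center G → (∃ k : ℕ, orderOf x = p ^ k) → Group.IsSolvable (Subgroup.centralizer ({x} : Set G)))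
    (d : ℕ) (hd : 5 ≤ d) (hinv : Cfsg.Involves (alternatingGroup (Fin d)) G) :
    d ≤ p + 4 + (if p = 2 then 2 else 0) := by
  exact Cfsg.Agent.H94.AsRed.red Cfsg.Agent.H73.AS.mod2 Cfsg.Agent.H73.AS.mod5 p hp3 h d hd hinv

end Cfsg.Agent.S4100
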