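import Cfsg.Statements.S4107
import Cfsg.Agent.H92.ClassSize
import Cfsg.Agent.H3.Fitting

set_option autoImplicit false
open Cfsg

namespace Cfsg.Agent.S4107

open Cfsg.Agent.H92



/-- Let G be a finite group and N a proper non-trivial normal subgroup such that for every x outside N all elements of the coset xN have the same order as x. Then N ≤ F(G) or F(G) ≤ N, where F(G) is the Fitting subgroup; and if N is properly contained in F(G) then F(G) has prime-power order. -/
theorem result {G : Type*} [Group G] [Finite G] (N : Subgroup G) [N.Normal] (hN1 : N ≠ ⊥) (hN2 : N ≠ ⊤)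
    (heq : ∀ x : G, x ∉ N → ∀ n ∈ N, orderOf (x * n) = orderOf x) :
    (N ≤ Cfsg.fittingSubgroup G ∨ Cfsg.fittingSubgroup G ≤ N) ∧
    (N < Cfsg.fittingSubgroup G → IsPrimePow (Nat.card (Cfsg.fittingSubgroup G))) := by
  have key : ∀ p : ℕ, p.Prime → ¬ pCore p G ≤ N → IsPGroup p N := by
    intro p hp hle
    have := Fact.mk hp
    obtain ⟨x, hx, hxN⟩ := SetLike.not_le_iff_exists.1 hle
    obtain ⟨k, hk⟩ := orderOf_eq_pow_of_mem (H3.pCore_isPGroup p G) hx
    rintro ⟨n, hn⟩
    have h1 : (x * n) ^ p ^ k = 1 := by rw [← hk, ← heq x hxN n hn, pow_orderOf_eq_one]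
    have h2 : n ^ p ^ k ∈ pCore p G := by
      rw [← QuotientGroup.eq_one_iff] at hx ⊢
      have := congrArg (QuotientGroup.mk' (pCore p G)) h1
      rw [map_pow, map_mul, QuotientGroup.mk'_apply, hx, one_mul, map_one] at this
      rw [QuotientGroup.mk_pow]; exact this
    obtain ⟨j, hj⟩ := H3.pCore_isPGroup p G ⟨_, h2⟩
    refine ⟨k + j, Subtype.ext ?_⟩
    have := congrArg Subtype.val hj
    simp only [SubgroupClass.coe_pow, OneMemClass.coe_one] at this ⊢
    rw [pow_add, pow_mul, this]
  have key2 : ¬ fittingSubgroup G ≤ N → ∃ p : ℕ, p.Prime ∧ ¬ pCore p G ≤ N := by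
    intro h
    by_contra hc
    push Not at hc
    apply h
    rw [H3.fitting_eq_iSup_pCore]
    exact iSup_le fun p => hc p p.2
  constructor
  · by_cases h : fittingSubgroup G ≤ N
    · exact Or.inr h
    · obtain ⟨p, hp, hle⟩ := key2 h
      have := Fact.mk hp
      exact Or.inl ((H3.le_pCore (key p hp hle)).trans H3.pCore_le_fitting)
  · intro hlt
    obtain ⟨p, hp, hle⟩ := key2 hlt.not_ge
    have := Fact.mk hp
    have hNp := key p hp hle
    have h1 : fittingSubgroup G ≤ pCore p G := by
      rw [H3.fitting_eq_iSup_pCore]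
      refine iSup_le fun q => ?_
      by_cases hq : (q : ℕ) = p
      · rw [hq]
      · have := Fact.mk q.2
        by_cases h2 : pCore q G ≤ N
        · exact h2.trans (H3.le_pCore hNp)
        · exact absurd (disjoint_self.1 (IsPGroup.disjoint_of_ne q p hq N N (key q q.2 h2) hNp)) hN1
    have h2 : IsPGroup p (fittingSubgroup G) := (H3.pCore_isPGroup p G).to_le h1
    have h3 : Nontrivial (fittingSubgroup G) :=
      (Subgroup.nontrivial_iff_ne_bot _).2 (ne_bot_of_gt hlt)
    obtain ⟨n, hn, hc⟩ := h2.nontrivial_iff_card.1 h3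
    rw [hc]
    exact hp.isPrimePow.pow hn.ne'

end Cfsg.Agent.S4107
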