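import Cfsg.Statements.S4108
import Cfsg.Agent.H92.Basic

set_option autoImplicit false
open Cfsg

namespace Cfsg.Agent.S4108

open Cfsg.Agent.H92

/-- Let G be a finite group, p a prime and N a proper non-trivial normal p-subgroup such that for every x outside N all elements of the coset xN have the same order as x. Then every non-trivial subgroup H of G of order prime to p acts fixed-point-freely on N: NH is a Frobenius group with complement H and kernel N. -/
theorem result {G : Type*} [Group G] [Finite G] (N : Subgroup G) [N.Normal] (hN1 : N ≠ ⊥) (hN2 : N ≠ ⊤)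
    (heq : ∀ x : G, x ∉ N → ∀ n ∈ N, orderOf (x * n) = orderOf x)
    (p : ℕ) [Fact p.Prime] (hNp : IsPGroup p N) :
    ∀ H : Subgroup G, H ≠ ⊥ → (Nat.card H).Coprime p →
      Cfsg.IsFrobeniusComplement (H.subgroupOf (N ⊔ H)) ∧ Cfsg.frobeniusKernel (H.subgroupOf (N ⊔ H)) = (N.subgroupOf (N ⊔ H) : Set ↥(N ⊔ H)) := by
  intro H hH hcop
  have hcop' : ∀ h ∈ H, ∀ n ∈ N, (orderOf h).Coprime (orderOf n) := by
    intro h hh n hn
    obtain ⟨k, hk⟩ := orderOf_eq_pow_of_mem hNp hn
    rw [hk]
    exact Nat.Coprime.pow_right k (Nat.Coprime.coprime_dvd_left (H.orderOf_dvd_natCard hh) hcop)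
  have hdisj : Disjoint N H := by
    rw [Subgroup.disjoint_def]
    intro x hx hx'
    have := hcop' x hx' x hx
    rwa [Nat.coprime_self, orderOf_eq_one_iff] at this
  apply frobenius_of_fpf
  · intro h
    rw [Subgroup.subgroupOf_eq_bot, disjoint_iff, inf_eq_left.2 le_sup_left] at h
    exact hN1 h
  · intro h
    rw [Subgroup.subgroupOf_eq_bot, disjoint_iff, inf_eq_left.2 le_sup_right] at h
    exact hH h
  · rw [← Subgroup.subgroupOf_sup le_sup_left le_sup_right, Subgroup.subgroupOf_self]
  · rw [Subgroup.disjoint_def]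
    intro x hx hx'
    exact Subtype.ext (Subgroup.disjoint_def.1 hdisj hx hx')
  · intro h hh h1 n hn hc
    have hc' : Commute (h : G) (n : G) := congrArg Subtype.val hc
    have hN : (h : G) ∉ N := fun h2 => h1 (Subtype.ext (Subgroup.disjoint_def.1 hdisj h2 hh))
    have h3 := heq h hN n hn
    rw [hc'.orderOf_mul_eq_mul_orderOf_of_coprime (hcop' _ hh _ hn)] at h3
    have h4 : orderOf (n : G) = 1 := by
      have := orderOf_pos (h : G)
      nlinarith [orderOf_pos (n : G)]
    exact Subtype.ext (orderOf_eq_one_iff.1 h4)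

end Cfsg.Agent.S4108
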