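import Cfsg.Statements.S4112
import Cfsg.Agent.H92.Basic

set_option autoImplicit false
open Cfsg

namespace Cfsg.Agent.S4112

open Cfsg.Agent.H92

theorem one_imp_two {G : Type*} [Group G] [Finite G] (N M : Subgroup G) [M.Normal]
    (h : ∀ x ∈ M, x ≠ 1 → Subgroup.centralizer ({x} : Set G) ≤ N) :
    N.index.Coprime (Nat.card M) := by
  by_contra hc
  obtain ⟨p, hp, hpN, hpM⟩ := Nat.Prime.not_coprime_iff_dvd.1 hc
  have := Fact.mk hp
  obtain ⟨y, hy⟩ := exists_prime_orderOf_dvd_card' (G := M) p hpM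
  obtain ⟨P, hyP⟩ := exists_sylow_mem (p := p) (g := (y : G)) ⟨1, by rw [Subgroup.orderOf_coe, hy, pow_one]⟩
  have hy1 : (y : G) ≠ 1 := by
    intro h1
    rw [← Subgroup.orderOf_coe, h1, orderOf_one] at hy
    exact hp.one_lt.ne hy
  -- `M ∩ P` is a nontrivial normal subgroup of the `p`-group `P`
  have hnt : Nontrivial (M.subgroupOf (P : Subgroup G)) := by
    refine ⟨⟨⟨⟨y, hyP⟩, y.2⟩, 1, fun h1 => hy1 ?_⟩⟩
    exact congrArg (fun z : M.subgroupOf (P : Subgroup G) => ((z : (P : Subgroup G)) : G)) h1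
  let _ : MulAction (ConjAct (P : Subgroup G)) (M.subgroupOf (P : Subgroup G)) := inferInstance
  have hPc : IsPGroup p (ConjAct (P : Subgroup G)) := P.isPGroup'.of_equiv ConjAct.toConjAct
  have hMp : IsPGroup p (M.subgroupOf (P : Subgroup G)) := P.isPGroup'.to_subgroup _
  obtain ⟨k, hk0, hk⟩ := hMp.nontrivial_iff_card.1 hnt
  obtain ⟨b, hb, hb1⟩ := hPc.exists_fixed_point_of_prime_dvd_card_of_fixed_point
    (M.subgroupOf (P : Subgroup G)) (by rw [hk]; exact dvd_pow_self p hk0.ne') (a := 1)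
    (by intro g; simp)
  have hb2 : ((b : (P : Subgroup G)) : G) ≠ 1 := fun h1 => hb1 (Subtype.ext (Subtype.ext h1.symm))
  have h3 := h _ b.2 hb2
  have h4 : (P : Subgroup G) ≤ N := by
    refine le_trans ?_ h3
    intro g hg
    rw [Subgroup.mem_centralizer_singleton_iff]
    have h5 := hb (ConjAct.toConjAct ⟨g, hg⟩)
    have h6 : g * ((b : (P : Subgroup G)) : G) * g⁻¹ = b :=
      congrArg (fun z : M.subgroupOf (P : Subgroup G) => ((z : (P : Subgroup G)) : G)) h5
    rw [mul_inv_eq_iff_eq_mul] at h6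
    exact h6
  exact P.not_dvd_index (hpN.trans (Subgroup.index_dvd_of_le h4))

/-- Let G be a finite group and M ≤ N non-trivial proper normal subgroups such that for every g outside N the conjugacy class of g is a union of cosets of M (equivalently gm is conjugate to g for every m ∈ M). Then (1) and (2) below are equivalent, and they imply (3): (1) every g outside N acts fixed-point-freely on M, that is C_G(x) ≤ N for every x ∈ M, x ≠ 1; (2) the index of N in G is coprime to the order of M; (3) there is a subgroup H of G with HN = G and H ∩ M = 1. -/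
theorem result {G : Type*} [Group G] [Finite G] (N M : Subgroup G) [N.Normal] [M.Normal] (hMN : M ≤ N) (hM1 : M ≠ ⊥) (hN2 : N ≠ ⊤)
    (hcam : ∀ g : G, g ∉ N → ∀ m ∈ M, ∃ x : G, x * g * x⁻¹ = g * m) :
    ((∀ x ∈ M, x ≠ 1 → Subgroup.centralizer ({x} : Set G) ≤ N) ↔ N.index.Coprime (Nat.card M)) ∧
    ((∀ x ∈ M, x ≠ 1 → Subgroup.centralizer ({x} : Set G) ≤ N) → ∃ H : Subgroup G, H ⊔ N = ⊤ ∧ H ⊓ M = ⊥) := by
  refine ⟨⟨one_imp_two N M, fun hc x hx hx1 g hg => ?_⟩, fun h => ?_⟩
  · by_contra hgN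
    rw [Subgroup.mem_centralizer_singleton_iff] at hg
    have hcomm : Commute g x := hg
    -- replace `g` by a power whose order is coprime to `|M|`
    set m := Nat.card M with hm
    let n := orderOf g
    let h := g ^ (m ^ n)
    have hhN : h ∉ N := by
      intro hh
      apply hgN
      rw [← QuotientGroup.eq_one_iff] at hh ⊢
      rw [QuotientGroup.mk_pow, ← orderOf_dvd_iff_pow_eq_one] at hh
      rw [← orderOf_eq_one_iff]
      exact Nat.eq_one_of_dvd_coprimes (Nat.Coprime.pow_right n hc) (orderOf_dvd_natCard _) hh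
    have hcop : (orderOf h).Coprime m := by
      rw [Nat.coprime_iff_gcd_eq_one]
      by_contra hne
      obtain ⟨p, hp, hpd⟩ := Nat.exists_prime_and_dvd hne
      have hp1 : p ∣ orderOf h := hpd.trans (Nat.gcd_dvd_left _ _)
      have hp2 : p ∣ m := hpd.trans (Nat.gcd_dvd_right _ _)
      have hn : 0 < n := orderOf_pos g
      rw [orderOf_pow' _ (pow_pos Nat.card_pos n).ne'] at hp1
      change p ∣ n / n.gcd (m ^ n) at hp1
      have h1 : p ^ n.factorization p ∣ n.gcd (m ^ n) :=
        Nat.dvd_gcd (Nat.ordProj_dvd n p)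
          ((pow_dvd_pow p (Nat.factorization_lt p hn.ne').le).trans (pow_dvd_pow_of_dvd hp2 n))
      have h2 : p ^ n.factorization p * p ∣ n := by
        have := Nat.mul_dvd_mul h1 hp1
        rwa [Nat.mul_div_cancel' (Nat.gcd_dvd_left _ _)] at this
      rw [← pow_succ] at h2
      exact Nat.pow_succ_factorization_not_dvd hn.ne' hp h2
    obtain ⟨y, hy⟩ := hcam h hhN x hx
    have h1 : orderOf (y * h * y⁻¹) = orderOf h :=
      orderOf_injective (MulAut.conj y).toMonoidHom (MulAut.conj y).injective h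
    have hc2 : Commute h x := hcomm.pow_left _
    rw [hy, hc2.orderOf_mul_eq_mul_orderOf_of_coprime
      (Nat.Coprime.coprime_dvd_right (M.orderOf_dvd_natCard hx) hcop)] at h1
    apply hx1
    rw [← orderOf_eq_one_iff]
    have := orderOf_pos h
    nlinarith [orderOf_pos x]
  · have hc := one_imp_two N M h
    obtain ⟨H, hH, hp⟩ := exists_supplement_primes N
    refine ⟨H, hH, ?_⟩
    apply Subgroup.inf_eq_bot_of_coprime
    rw [Nat.coprime_iff_gcd_eq_one]
    by_contra hne
    obtain ⟨p, hp', hpd⟩ := Nat.exists_prime_and_dvd hne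
    have h1 := hp p hp' (hpd.trans (Nat.gcd_dvd_left _ _))
    exact hp'.one_lt.ne' (Nat.eq_one_of_dvd_coprimes hc h1 (hpd.trans (Nat.gcd_dvd_right _ _)))

end Cfsg.Agent.S4112
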