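import Cfsg.Statements.S4116
import Cfsg.Agent.H5.Frobenius
import Cfsg.Agent.H8.Residual

set_option autoImplicit false
open Cfsg

namespace Cfsg.Agent.S4116

theorem mem_of_mem_normalizer {G : Type*} [Group G] [Finite G] {H : Subgroup G} {x : G}
    (hx : x ∈ Subgroup.normalizer (H : Set G)) (hc : (orderOf x).Coprime H.index) : x ∈ H := by
  have := H8.mem_of_coprime_orderOf_index (N := H.subgroupOf (Subgroup.normalizer (H : Set G)))
    (g := ⟨x, hx⟩) (by
      rw [← Subgroup.orderOf_coe]
      exact hc.coprime_dvd_right (Subgroup.relIndex_dvd_index_of_le Subgroup.le_normalizer))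
  exact this

/-- Let G be a finite group with a subgroup H whose order is coprime to its index (a Hall subgroup) and which meets each of its conjugates by elements outside N_G(H) trivially. Then every subgroup of G whose order is divisible only by primes dividing the order of H lies in a conjugate of H. -/
theorem result {G : Type*} [Group G] [Finite G] (H : Subgroup G)
    (hHall : (Nat.card H).Coprime H.index) (hTI : Cfsg.IsTISubset (H : Set G))
    (K : Subgroup G) (hK : ∀ q : ℕ, q.Prime → q ∣ Nat.card K → q ∣ Nat.card H) :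
    ∃ g : G, K ≤ H.map (MulAut.conj g).toMonoidHom := by
  have hord : ∀ k ∈ K, (orderOf k).Coprime H.index := by
    intro k hk
    apply Nat.Coprime.symm
    apply Nat.coprime_of_dvd
    intro q hq h1 h2
    have h3 := hK q hq (h2.trans (Subgroup.orderOf_dvd_natCard K hk))
    exact hq.one_lt.ne' (Nat.eq_one_of_dvd_coprimes hHall h3 h1)
  have hfix : ∀ k ∈ K, ∀ g : G, k • (g : G ⧸ Subgroup.normalizer (H : Set G)) = g → g⁻¹ * k * g ∈ H := by
    intro k hk g h
    apply mem_of_mem_normalizer (H5.smul_coe_eq_iff.mp h)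
    have : orderOf (g⁻¹ * k * g) = orderOf k := by
      have := (MulAut.conj g⁻¹).orderOf_eq k
      simpa using this
    rw [this]; exact hord k hk
  have hone : H5.AtMostOneFixed K (G ⧸ Subgroup.normalizer (H : Set G)) := by
    intro k hk a b ha hb
    obtain ⟨a, rfl⟩ := QuotientGroup.mk_surjective a
    obtain ⟨b, rfl⟩ := QuotientGroup.mk_surjective b
    have h1 := hfix k k.2 a ha
    have h2 := hfix k k.2 b hb
    rw [eq_comm, QuotientGroup.eq]
    by_contra hn
    have h3 := hTI _ hn _ h1 (by simpa [mul_assoc] using h2)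
    apply hk
    apply Subtype.ext
    calc (k : G) = a * (a⁻¹ * k * a) * a⁻¹ := by group
      _ = 1 := by rw [h3]; simp
  obtain ⟨a, ha⟩ := hone.exists_fixed_of_forall_exists_fixed (by
    intro k
    by_cases hk : k = 1
    · exact ⟨((1 : G) : G ⧸ Subgroup.normalizer (H : Set G)), by rw [hk, one_smul]⟩
    obtain ⟨q, hq, hqk⟩ := Nat.exists_prime_and_dvd (fun h => hk (orderOf_eq_one_iff.mp h))
    have := Fact.mk hq
    have hy : orderOf (k ^ (orderOf k / q)) = q := orderOf_pow_orderOf_div (orderOf_pos k).ne' hqk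
    set y := k ^ (orderOf k / q) with hy0
    have hP : IsPGroup q (Subgroup.zpowers y) := IsPGroup.of_card (n := 1) (by
      rw [Nat.card_zpowers, hy, pow_one])
    obtain ⟨a, ha⟩ := hP.nonempty_fixed_point_of_prime_not_dvd_card
      (G ⧸ Subgroup.normalizer (H : Set G)) (by
        intro h
        have h1 : q ∣ H.index := h.trans (Subgroup.index_dvd_of_le Subgroup.le_normalizer)
        have h2 : q ∣ orderOf (k : G) := by rwa [Subgroup.orderOf_coe]
        exact hq.one_lt.ne' (Nat.eq_one_of_dvd_coprimes (hord k k.2) h2 h1))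
    have ha' : y • a = a := ha ⟨y, Subgroup.mem_zpowers y⟩
    refine ⟨a, hone y ?_ _ _ ?_ ha'⟩
    · intro h
      rw [h, orderOf_one] at hy
      exact hq.one_lt.ne hy
    · rw [← mul_smul, hy0, ((Commute.refl k).pow_left _).eq, mul_smul, ← hy0, ha'])
  obtain ⟨g, rfl⟩ := QuotientGroup.mk_surjective a
  refine ⟨g, fun k hk => ?_⟩
  exact H5.mem_conj_smul_iff.mpr (hfix k hk g (ha ⟨k, hk⟩))

end Cfsg.Agent.S4116
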