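import Cfsg.Statements.S4115
import Cfsg.Agent.H1.FrobQuot
import Cfsg.Agent.S4116
import Cfsg.Agent.H1.Npc
import Cfsg.Agent.H11.Frobenius
import Cfsg.Agent.H4.CoprimeAction

set_option autoImplicit false
universe u
open Cfsg

namespace Cfsg.Agent.S4115

open scoped Pointwise

theorem hall {G : Type*} [Group G] [Finite G] (H : Subgroup G) (hTI : Cfsg.IsTISubset (H : Set G))
    (hHall : (Nat.card H).Coprime (H.subgroupOf (Subgroup.normalizer (H : Set G))).index) :
    (Nat.card H).Coprime H.index := by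
  rw [← Subgroup.relIndex_mul_index (Subgroup.le_normalizer (H := H))]
  refine Nat.Coprime.mul_right hHall ?_
  apply Nat.coprime_of_dvd
  intro p hp h1 h2
  have := Fact.mk hp
  obtain ⟨S, hS⟩ := H8.exists_isSylowIn p H
  have hSb : S ≠ ⊥ := by
    rintro rfl
    apply hS.not_dvd
    rwa [Subgroup.relIndex_bot_left]
  have hSN := hS.trans_of_not_dvd Subgroup.le_normalizer (fun h =>
    hp.one_lt.ne' (Nat.eq_one_of_dvd_coprimes hHall h1 h))
  have hNS : Subgroup.normalizer (S : Set G) ≤ Subgroup.normalizer (H : Set G) := by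
    intro g hg
    by_contra hn
    obtain ⟨⟨s, hs⟩, hs1⟩ := Subgroup.ne_bot_iff_exists_ne_one.mp hSb
    exact hs1 (Subtype.ext (hTI g hn s (hS.le hs)
      (hS.le ((Subgroup.mem_normalizer_iff.mp hg s).mp hs))))
  have hST : H8.IsSylowIn p S ⊤ := H8.isSylowIn_of_maximal le_top hS.isPGroup (by
    intro Q hQ _ hSQ
    by_contra hn
    have h3 := H8.lt_inf_normalizer_of_lt hQ (lt_of_le_of_ne hSQ (fun e => hn e.ge))
    exact h3.ne' (hSN.eq_of_le hQ.to_inf_left (inf_le_right.trans hNS) h3.le))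
  apply hST.not_dvd
  rw [Subgroup.relIndex_top_right]
  exact h2.trans (Subgroup.index_dvd_of_le hSN.le)

theorem inv_sylow {G : Type*} [Group G] [Finite G] (H M : Subgroup G) [M.Normal]
    (hTI : Cfsg.IsTISubset (H : Set G)) (hHall : (Nat.card H).Coprime H.index)
    (hc : M.IsComplement' H) (q : ℕ) [Fact q.Prime] :
    ∃ Q, H8.IsSylowIn q Q M ∧ H ≤ Subgroup.normalizer (Q : Set G) := by
  obtain ⟨S, hS⟩ := H8.exists_isSylowIn q M
  set T := Subgroup.normalizer (S : Set G)
  have htop : T ⊔ M = ⊤ := by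
    rw [eq_top_iff]
    intro g _
    obtain ⟨n, hn, m, hm, rfl⟩ := hS.frattini (g := g)
      (Subgroup.le_normalizer_of_normal (Subgroup.mem_top g))
    exact Subgroup.mul_mem _ (Subgroup.mem_sup_right hn) (Subgroup.mem_sup_left hm)
  have hidx : (M.subgroupOf T).index = Nat.card H := by
    change M.relIndex T = _
    rw [← Subgroup.relIndex_sup_right, htop, Subgroup.relIndex_top_right, hc.symm.index_eq_card]
  obtain ⟨H1, hH1⟩ := Subgroup.exists_right_complement'_of_coprime (N := M.subgroupOf T) (by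
    rw [hidx]
    refine Nat.Coprime.coprime_dvd_left ?_ hHall.symm
    rw [hc.index_eq_card, ← Subgroup.inf_subgroupOf_right, H4.card_subgroupOf_of_le inf_le_right]
    exact Subgroup.card_dvd_of_le inf_le_left)
  have hcard : Nat.card (H1.map T.subtype) = Nat.card H := by
    rw [Subgroup.card_map_of_injective T.subtype_injective, ← hH1.symm.index_eq_card, hidx]
  obtain ⟨g, hg⟩ := S4116.result H hHall hTI (H1.map T.subtype) (fun q _ h => hcard ▸ h)
  have he : H1.map T.subtype = MulAut.conj g • H :=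
    Subgroup.eq_of_le_of_card_ge hg (by
      rw [hcard]; exact (H8.card_conj_smul H g).le)
  refine ⟨MulAut.conj g⁻¹ • S, hS.conj_smul_of_mem_normalizer
    (Subgroup.le_normalizer_of_normal (Subgroup.mem_top _)), ?_⟩
  rw [H8.normalizer_conj_smul, ← H8.conj_inv_smul_conj_smul H g, ← he]
  exact Subgroup.pointwise_smul_le_pointwise_smul_iff.mpr (Subgroup.map_subtype_le _)

/-- Let G be a finite group and H a subgroup that meets each of its conjugates by elements outside N_G(H) trivially and whose order is coprime to its index in N_G(H). Then H has a normal complement in N_G(H) if and only if H has a normal complement in G. Moreover, if H is not normal in G and has a normal complement in N_G(H), then H is isomorphic to a Frobenius complement of some finite Frobenius group. -/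
theorem result {G : Type u} [Group G] [Finite G] (H : Subgroup G)
    (hTI : Cfsg.IsTISubset (H : Set G)) (hHall : (Nat.card H).Coprime (H.subgroupOf (Subgroup.normalizer (H : Set G))).index) :
    ((∃ K : Subgroup (Subgroup.normalizer (H : Set G)), K.Normal ∧ K.IsComplement' (H.subgroupOf (Subgroup.normalizer (H : Set G)))) ↔
      (∃ N : Subgroup G, N.Normal ∧ N.IsComplement' H)) ∧
    (¬ H.Normal → (∃ K : Subgroup (Subgroup.normalizer (H : Set G)), K.Normal ∧ K.IsComplement' (H.subgroupOf (Subgroup.normalizer (H : Set G)))) →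
      ∃ (F : Type u) (_ : Group F) (_ : Finite F) (C : Subgroup F), Cfsg.IsFrobeniusComplement C ∧ Nonempty (H ≃* C)) := by
  have hHallG := hall H hTI hHall
  have h1 : (∃ K : Subgroup (Subgroup.normalizer (H : Set G)), K.Normal ∧ K.IsComplement' (H.subgroupOf (Subgroup.normalizer (H : Set G)))) →
        (∃ N : Subgroup G, N.Normal ∧ N.IsComplement' H) := by
    rintro ⟨K, hKn, hK⟩
    obtain ⟨M, hMn, -, h3, h4⟩ := H11.frobenius_wielandt (Subgroup.normalizer (H : Set G))
      (K.map (Subgroup.subtype _)) (Subgroup.map_subtype_le _) (by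
        rintro h hh _ ⟨n, hn, rfl⟩
        exact ⟨_, hKn.conj_mem n hn ⟨h, hh⟩, rfl⟩) (by
        intro g hg h hh hc
        have a1 : h ^ (H.subgroupOf (Subgroup.normalizer (H : Set G))).index ∈ H :=
          (H.subgroupOf (Subgroup.normalizer (H : Set G))).pow_index_mem ⟨h, hh⟩
        have a2 : (g * h * g⁻¹) ^ (H.subgroupOf (Subgroup.normalizer (H : Set G))).index ∈ H :=
          (H.subgroupOf (Subgroup.normalizer (H : Set G))).pow_index_mem ⟨_, hc⟩
        rw [conj_pow] at a2
        have a3 := hTI g hg _ a1 a2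
        refine ⟨⟨h, hh⟩, H8.mem_of_coprime_orderOf_index ?_, rfl⟩
        rw [← Subgroup.orderOf_coe, hK.symm.index_eq_card,
          H4.card_subgroupOf_of_le Subgroup.le_normalizer]
        exact hHall.symm.coprime_dvd_left (orderOf_dvd_of_pow_eq_one a3))
    refine ⟨M, hMn, Subgroup.isComplement'_of_disjoint_and_mul_eq_univ ?_ ?_⟩
    · rw [Subgroup.disjoint_def]
      intro x hx hxH
      have : x ∈ K.map (Subgroup.subtype _) := h3 ▸ ⟨hx, Subgroup.le_normalizer hxH⟩
      obtain ⟨k, hk, rfl⟩ := this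
      exact congrArg Subtype.val (Subgroup.disjoint_def.mp hK.disjoint hk hxH)
    · rw [← Subgroup.normal_mul, ← Subgroup.coe_top, SetLike.coe_set_eq, eq_top_iff, ← h4]
      refine sup_le le_sup_left fun n hn => ?_
      obtain ⟨⟨k, x⟩, e⟩ := hK.2 ⟨n, hn⟩
      have e' : ((k : Subgroup.normalizer (H : Set G)) : G) * ((x : Subgroup.normalizer (H : Set G)) : G) = n :=
        congrArg Subtype.val e
      rw [← e']
      refine Subgroup.mul_mem _ (Subgroup.mem_sup_left ?_) (Subgroup.mem_sup_right x.2)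
      have : ((k : Subgroup.normalizer (H : Set G)) : G) ∈ M ⊓ Subgroup.normalizer (H : Set G) :=
        h3 ▸ ⟨_, k.2, rfl⟩
      exact this.1
  refine ⟨⟨h1, ?_⟩, fun hn hK => ?_⟩
  · rintro ⟨M, hMn, hM⟩
    refine ⟨M.subgroupOf _, inferInstance,
      Subgroup.isComplement'_of_disjoint_and_mul_eq_univ ?_ ?_⟩
    · rw [Subgroup.disjoint_def]
      intro x hx hxH
      exact Subtype.ext (Subgroup.disjoint_def.mp hM.disjoint hx hxH)
    · rw [Set.eq_univ_iff_forall]
      intro n
      obtain ⟨⟨m, x⟩, e⟩ := hM.2 (n : G)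
      have e' : (m : G) * x = n := e
      have hm : (m : G) ∈ Subgroup.normalizer (H : Set G) := by
        rw [eq_mul_inv_of_mul_eq e']
        exact Subgroup.mul_mem _ n.2 (Subgroup.inv_mem _ (Subgroup.le_normalizer x.2))
      exact ⟨⟨m, hm⟩, m.2, ⟨x, Subgroup.le_normalizer x.2⟩, x.2, Subtype.ext e'⟩
  obtain ⟨M, hMn, hM⟩ := h1 hK
  have hdisj : ∀ x ∈ M, x ∈ H → x = 1 := fun x a b => Subgroup.disjoint_def.mp hM.disjoint a b
  have hcent : ∀ h ∈ H, h ≠ 1 → ∀ m ∈ M, h * m = m * h → m ∈ Subgroup.centralizer (H : Set G) := by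
    intro h hh h1 m hm e
    have hmN : m ∈ Subgroup.normalizer (H : Set G) := by
      by_contra hc
      exact h1 (hTI m hc h hh (by rw [← e]; simpa using hh))
    rw [Subgroup.mem_centralizer_iff]
    intro x hx
    have := hdisj (m * x * m⁻¹ * x⁻¹) (by
      have := M.mul_mem hm (hMn.conj_mem _ (M.inv_mem hm) x)
      simpa [mul_assoc] using this)
      (H.mul_mem ((Subgroup.mem_normalizer_iff.mp hmN x).mp hx) (H.inv_mem hx))
    rw [mul_inv_eq_one, mul_inv_eq_iff_eq_mul] at this
    exact this.symm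
  obtain ⟨q, hq, Q, hQ, hHQ, hQC⟩ : ∃ q : ℕ, q.Prime ∧ ∃ Q, H8.IsSylowIn q Q M ∧
      H ≤ Subgroup.normalizer (Q : Set G) ∧ ¬ Q ≤ Subgroup.centralizer (H : Set G) := by
    by_contra hcon
    push Not at hcon
    apply hn
    have hMC : M ≤ Subgroup.centralizer (H : Set G) := by
      rw [← Subgroup.relIndex_eq_one]
      by_contra hne
      obtain ⟨q, hq, hqd⟩ := Nat.exists_prime_and_dvd hne
      have := Fact.mk hq
      obtain ⟨Q, hQ, hHQ⟩ := inv_sylow H M hTI hHallG hM q
      exact hQ.not_dvd (hqd.trans (Subgroup.relIndex_dvd_of_le_left M (hcon q hq Q hQ hHQ)))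
    rw [← Subgroup.normalizer_eq_top_iff, eq_top_iff, ← hM.sup_eq_top]
    exact sup_le (hMC.trans (Subgroup.centralizer_le_normalizer _)) Subgroup.le_normalizer
  have := Fact.mk hq
  set C := Q ⊓ Subgroup.centralizer (H : Set G) with hC
  have hCQ : C < Q := lt_of_le_of_ne inf_le_left (fun e => hQC (e ▸ inf_le_right))
  have hlt := H8.lt_inf_normalizer_of_lt hQ.isPGroup hCQ
  set Q1 := Q ⊓ Subgroup.normalizer (C : Set G) with hQ1
  have hHC : H ≤ Subgroup.normalizer (C : Set G) :=
    H4.le_normalizer_inf hHQ (H4.le_normalizer_centralizer Subgroup.le_normalizer)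
  have hHQ1 : H ≤ Subgroup.normalizer (Q1 : Set G) :=
    H4.le_normalizer_inf hHQ (H4.normalizer_le_normalizer_normalizer_of_le hHC)
  have hd : Disjoint Q1 H := Subgroup.disjoint_def.mpr fun a b => hdisj _ (hQ.le a.1) b
  have hKn := H4.normal_subgroupOf_sup_left hHQ1
  have hCn : (C.subgroupOf (Q1 ⊔ H)).Normal :=
    (Subgroup.normal_subgroupOf_iff_le_normalizer (hlt.le.trans le_sup_left)).mpr
      (sup_le inf_le_right hHC)
  have hHb : H ≠ ⊥ := by rintro rfl; exact hn inferInstance
  obtain ⟨hF, -⟩ := H1.frob_map_mk' (C := C.subgroupOf (Q1 ⊔ H)) (H4.isComplement'_subgroupOf_sup hHQ1 hd)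
    (Subgroup.comap_mono hlt.le) (fun h => hlt.not_ge fun x hx => h (x := ⟨x, Subgroup.mem_sup_left hx⟩) hx)
    (by
      intro h
      apply hHb
      rw [eq_bot_iff]
      intro x hx
      have : (⟨x, Subgroup.mem_sup_right hx⟩ : ↥(Q1 ⊔ H)) ∈ H.subgroupOf (Q1 ⊔ H) := hx
      rw [h, Subgroup.mem_bot] at this
      exact congrArg Subtype.val this)
    (by
      intro h hh h1 k hk hc
      have hc' : (h : G) * k * (h : G)⁻¹ * (k : G)⁻¹ ∈ C := hc
      have a1 := H1.comm_pow_orderOf_eq_one (g := (h : G)) (x := (k : G))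
        (Subgroup.mem_centralizer_iff.mp hc'.2 _ hh)
      have a2 : (h : G) * k * (h : G)⁻¹ * (k : G)⁻¹ = 1 := by
        rw [← orderOf_eq_one_iff]
        refine Nat.eq_one_of_dvd_coprimes hHallG ((orderOf_dvd_of_pow_eq_one a1).trans
          (Subgroup.orderOf_dvd_natCard H hh)) ?_
        rw [hM.index_eq_card]
        exact Subgroup.orderOf_dvd_natCard M (hQ.le hc'.1)
      rw [mul_inv_eq_one, mul_inv_eq_iff_eq_mul] at a2
      exact ⟨hk.1, hcent h hh (fun e => h1 (Subtype.ext e)) k (hQ.le hk.1) a2⟩)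
  obtain ⟨e⟩ := H1.nonempty_equiv_map_mk' (H := H.subgroupOf (Q1 ⊔ H)) (C := C.subgroupOf (Q1 ⊔ H))
    (Subgroup.disjoint_def.mpr fun a b => Subtype.ext (hdisj _ (hQ.le a.1) b))
  exact ⟨_, inferInstance, inferInstance, _, hF,
    ⟨(Subgroup.subgroupOfEquivOfLe le_sup_right).symm.trans e⟩⟩

end Cfsg.Agent.S4115
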