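import Cfsg.Statements.S4117
import Cfsg.Agent.H4.CoprimeExt
import Cfsg.Agent.H11.GroupUtil
import Cfsg.Agent.H8.SylowIn

set_option autoImplicit false
open Cfsg

namespace Cfsg.Agent.S4117

/-- Let A be a finite group acting on the finite group G by automorphisms with the orders of A and G coprime, and suppose every Sylow subgroup of G is cyclic. Then the fixed-point subgroup C_G(A) is a Hall subgroup of G (its order is coprime to its index), the subgroup [G, A] generated by the elements g⁻¹·a(g) is cyclic and normal with [G, A] ∩ C_G(A) = 1 and [G, A]·C_G(A) = G. -/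
theorem result {G A : Type*} [Group G] [Finite G] [Group A] [Finite A]
    [MulDistribMulAction A G] (hcop : (Nat.card A).Coprime (Nat.card G))
    (hcyc : ∀ (p : ℕ) [Fact p.Prime] (P : Sylow p G), IsCyclic (P : Subgroup G)) :
    (Nat.card (MulAction.fixedPoints A G : Set G)).Coprime (Nat.card G / Nat.card (MulAction.fixedPoints A G : Set G)) ∧
    IsCyclic (Subgroup.closure {y : G | ∃ (a : A) (g : G), y = g⁻¹ * a • g}) ∧
    (Subgroup.closure {y : G | ∃ (a : A) (g : G), y = g⁻¹ * a • g}).Normal ∧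
    (Subgroup.closure {y : G | ∃ (a : A) (g : G), y = g⁻¹ * a • g} : Set G) ∩ MulAction.fixedPoints A G = {1} ∧
    Subgroup.closure {y : G | ∃ (a : A) (g : G), y = g⁻¹ * a • g} ⊔ Subgroup.closure (MulAction.fixedPoints A G) = ⊤ := by
  let φ := MulDistribMulAction.toMulAut A G
  have hZ : IsZGroup G := ⟨fun p hp P => by have := Fact.mk hp; exact hcyc p P⟩
  have hsol : Group.IsSolvable A ∨ Group.IsSolvable G := Or.inr inferInstance
  have hN : Subgroup.closure {y : G | ∃ (a : A) (g : G), y = g⁻¹ * a • g} = H4.Ext.comm φ ⊤ := by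
    rw [H4.Ext.comm]
    congr 1
    ext y
    constructor
    · rintro ⟨a, g, rfl⟩; exact ⟨g, trivial, a, rfl⟩
    · rintro ⟨g, -, a, rfl⟩; exact ⟨a, g, rfl⟩
  have hC : (MulAction.fixedPoints A G : Set G) = (H4.Ext.fix φ : Set G) := rfl
  rw [hN, hC, Subgroup.closure_eq]
  have hNn := H4.Ext.comm_top_normal φ
  have hD := IsZGroup.isCyclic_commutator G
  have hle : H4.Ext.comm φ ⊤ ≤ Subgroup.centralizer (commutator G : Set G) := by
    rw [H4.Ext.comm_le]
    intro g _ a
    obtain ⟨c, hc⟩ := (Subgroup.isCyclic_iff_exists_zpowers_eq_top _).mp hD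
    have hcm : c ∈ commutator G := hc ▸ Subgroup.mem_zpowers c
    have h1 : g * c * g⁻¹ ∈ Subgroup.zpowers c := hc ▸ Subgroup.Normal.conj_mem inferInstance c hcm g
    obtain ⟨i, hi⟩ := h1
    have h2 : ∀ x ∈ commutator G, g * x * g⁻¹ = x ^ i := by
      intro x hx
      rw [← hc] at hx
      obtain ⟨k, rfl⟩ := hx
      simp only at hi ⊢
      rw [← conj_zpow, ← hi, ← zpow_mul, ← zpow_mul, mul_comm]
    rw [Subgroup.mem_centralizer_iff]
    intro d hd
    have h3 := congrArg (φ a) (h2 _ (H4.Ext.inv_of_characteristic φ (commutator G) a⁻¹ d hd))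
    have h4 : φ a (φ a⁻¹ d) = d := by simp
    rw [map_mul, map_mul, map_zpow, map_inv (φ a), h4, ← h2 d hd] at h3
    calc d * (g⁻¹ * φ a g) = g⁻¹ * (g * d * g⁻¹) * φ a g := by group
      _ = g⁻¹ * φ a g * d := by rw [← h3]; group
  have hK : IsCyclic (Subgroup.centralizer (commutator G : Set G)) := by
    have := MonoidHom.isMulCommutative_of_isCyclic_of_ker_le_center
      (Abelianization.of.comp (Subgroup.centralizer (commutator G : Set G)).subtype) (by
        intro x hx
        rw [MonoidHom.mem_ker, MonoidHom.comp_apply, ← MonoidHom.mem_ker, Abelianization.ker_of] at hx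
        rw [Subgroup.mem_center_iff]
        intro y
        exact Subtype.ext (Subgroup.mem_centralizer_iff.mp y.2 _ hx).symm)
    let _ : CommGroup (Subgroup.centralizer (commutator G : Set G)) := IsMulCommutative.instCommGroup
    infer_instance
  have hcy : IsCyclic (H4.Ext.comm φ ⊤) := Subgroup.isCyclic_of_le hle
  have hinf : H4.Ext.fix φ ⊓ H4.Ext.comm φ ⊤ = ⊥ := by
    have := H4.Ext.fix_inf_comm_eq_bot φ (H4.Ext.inv_comm φ ⊤) (H4.Ext.coprime_subgroup hcop _)
    rwa [H4.Ext.comm_comm φ (H4.Ext.inv_top φ) (H4.Ext.coprime_subgroup hcop _)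
      (H4.Ext.solv_or_top hsol _)] at this
  have hsup : H4.Ext.comm φ ⊤ ⊔ H4.Ext.fix φ = ⊤ := by
    have := H4.Ext.comm_sup_fix φ (H4.Ext.inv_top φ) (H4.Ext.coprime_subgroup hcop _)
      (H4.Ext.solv_or_top hsol _)
    rwa [top_inf_eq] at this
  refine ⟨?_, hcy, hNn, ?_, hsup⟩
  · have hc : (H4.Ext.comm φ ⊤).IsComplement' (H4.Ext.fix φ) :=
      Subgroup.isComplement'_of_disjoint_and_mul_eq_univ (disjoint_iff.mpr (by rwa [inf_comm]))
        (by rw [← Subgroup.normal_mul, hsup]; rfl)
    change (Nat.card (H4.Ext.fix φ)).Coprime (Nat.card G / Nat.card (H4.Ext.fix φ))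
    rw [← hc.card_mul_card, Nat.mul_div_cancel _ Nat.card_pos]
    apply Nat.coprime_of_dvd
    intro p hp h1 h2
    have := Fact.mk hp
    obtain ⟨x, hx⟩ := exists_prime_orderOf_dvd_card' p h1
    have hx' : orderOf (x : G) = p := by rw [← hx, Subgroup.orderOf_coe]
    obtain ⟨P, hP⟩ := (IsPGroup.of_card (G := Subgroup.zpowers (x : G)) (p := p) (n := 1)
      (by rw [Nat.card_zpowers, hx', pow_one])).exists_le_sylow
    have hS := H8.isSylowIn_inf_normal P (H4.Ext.comm φ ⊤)
    have h3 : p ∣ Nat.card ((P : Subgroup G) ⊓ H4.Ext.comm φ ⊤ : Subgroup G) := by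
      rw [H8.card_eq_card_mul_relIndex hS.le] at h2
      exact ((Nat.Prime.dvd_mul hp).mp h2).resolve_right hS.not_dvd
    obtain ⟨y, hy⟩ := exists_prime_orderOf_dvd_card' p h3
    have hy' : orderOf (y : G) = p := (Subgroup.orderOf_coe y).trans hy
    have h4 := H11.mem_zpowers_of_orderOf_dvd (P : Subgroup G) (hP (Subgroup.mem_zpowers _)) y.2.1
      (by rw [hx', hy'])
    have h5 : (x : G) ∈ H4.Ext.fix φ ⊓ H4.Ext.comm φ ⊤ := ⟨x.2, (Subgroup.zpowers_le.mpr y.2.2) h4⟩
    rw [hinf, Subgroup.mem_bot] at h5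
    rw [h5, orderOf_one] at hx'
    exact hp.one_lt.ne hx'
  · rw [← Subgroup.coe_inf, inf_comm, hinf, Subgroup.coe_bot]

end Cfsg.Agent.S4117
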