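import Cfsg.Statements.S4118
import Cfsg.Agent.S4115
import Cfsg.Agent.S0144
import Cfsg.Agent.H91.FCStruct
import Cfsg.Agent.H93.AbSylow
import Cfsg.Agent.H2.Hall
import Cfsg.Agent.H3.Fitting

set_option autoImplicit false
open Cfsg

namespace Cfsg.Agent.S4118

open Subgroup

theorem rank_quaternion_le (n : ℕ) [NeZero n] : Group.rank (QuaternionGroup n) ≤ 2 := by
  classical
  have h : closure (({QuaternionGroup.a 1, QuaternionGroup.xa 0} :
      Finset (QuaternionGroup n)) : Set (QuaternionGroup n)) = ⊤ := by
    rw [eq_top_iff]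
    have ha : ∀ i : ZMod (2 * n), QuaternionGroup.a i ∈ closure (({QuaternionGroup.a 1,
        QuaternionGroup.xa 0} : Finset (QuaternionGroup n)) : Set (QuaternionGroup n)) := by
      intro i
      rw [← ZMod.natCast_zmod_val i, ← QuaternionGroup.a_one_pow]
      exact pow_mem (subset_closure (by simp)) _
    rintro (i | i) _
    · exact ha i
    · have := mul_mem (subset_closure (k := (({QuaternionGroup.a 1,
        QuaternionGroup.xa 0} : Finset (QuaternionGroup n)) : Set (QuaternionGroup n)))
        (show QuaternionGroup.xa 0 ∈ _ by simp)) (ha i)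
      simpa using this
  exact (Group.rank_le h).trans Finset.card_le_two

theorem isSolvable_mulAut {P : Type*} [Group P] [Finite P] {p : ℕ} [Fact p.Prime]
    (hP : IsPGroup p P) (h : H91.HasIntFPF P) : Group.IsSolvable (MulAut P) := by
  rcases h.isCyclic_or_quaternion hP with hc | ⟨rfl, n, ⟨e⟩⟩
  · let _ := (hc.mulAutMulEquiv _).toMonoidHom.commGroupOfInjective (hc.mulAutMulEquiv _).injective
    infer_instance
  · have hr : Group.rank P ≤ 2 := (Group.rank_congr e).trans_le (rank_quaternion_le _)
    obtain ⟨a, m, hm, h1⟩ := Nat.exists_eq_pow_mul_and_not_dvd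
      (Nat.card_pos (α := MulAut P)).ne' 2 (by norm_num)
    have hm0 : m ≠ 0 := by rintro rfl; exact hm (dvd_zero _)
    refine S0144.result 2 3 a m.primeFactorsList.length Nat.prime_two Nat.prime_three ?_
    rw [h1, ← Nat.eq_prime_pow_of_unique_prime_dvd hm0]
    intro q hq hqm
    have hq2 : q ≠ 2 := by rintro rfl; exact hm hqm
    obtain ⟨r, -, hr', i, hi, hqi⟩ := H93.exists_dvd_pow_sub_one_of_dvd_card_mulAut hP hq hq2
      (h1 ▸ hqm.mul_left _)
    rw [Finset.mem_Icc] at hi
    have : i = 1 ∨ i = 2 := by omega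
    rcases this with rfl | rfl
    · exact absurd (Nat.dvd_one.mp hqi) hq.one_lt.ne'
    · exact (Nat.prime_dvd_prime_iff_eq hq Nat.prime_three).mp hqi

theorem solv {X : Type*} [Group X] [Finite X] (H : Subgroup X) [H.Normal]
    (hHall : (Nat.card H).Coprime H.index) (hF : H91.HasIntFPF H) (hs : Group.IsSolvable H)
    (hO : ∀ K : Subgroup X, K.Normal → (Nat.card K).Coprime (Nat.card H) → K = ⊥) :
    Group.IsSolvable X := by
  obtain ⟨_, ⟨n, rfl⟩, hmin⟩ := exists_minimal_of_wellFoundedLT
    (fun K : Subgroup X => K ∈ Set.range (derivedSeries X)) ⟨_, 0, rfl⟩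
  set R := derivedSeries X n with hR
  have hperf : ⁅R, R⁆ = R := le_antisymm (commutator_le_left R R)
    (hmin ⟨n + 1, rfl⟩ (commutator_le_left R R))
  have hker : ∀ {A : Type _} [Group A] [Group.IsSolvable A] (f : X →* A), R ≤ f.ker := by
    intro A _ _ f
    rw [← Subgroup.map_eq_bot_iff]
    by_contra hne
    have := Group.IsSolvable.commutator_lt_of_ne_bot hne
    rw [← map_commutator, hperf] at this
    exact lt_irrefl _ this
  have hRF : R ≤ centralizer (fittingSubgroup X : Set X) := by
    rw [← le_centralizer_iff, H3.fitting_eq_iSup_pCore, iSup_le_iff]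
    rintro ⟨p, hp⟩
    haveI := Fact.mk hp
    have hP : IsPGroup p (pCore p X) := H3.pCore_isPGroup p X
    haveI : (pCore p X).Normal := inferInstance
    by_cases hpH : p ∣ Nat.card H
    · have hle : pCore p X ≤ H := H2.normal_le_of_isPiHall (H2.isPiHall_of_coprime hHall)
        (H2.isPiNum_card_of_isPGroup hp hpH hP)
      haveI := isSolvable_mulAut hP (hF.of_injective _ (inclusion_injective hle))
      rw [le_centralizer_iff]
      intro r hr x hx
      have := congrArg Subtype.val (MulEquiv.congr_fun
        (hker (MulAut.conjNormal (G := X) (H := pCore p X)) hr) ⟨x, hx⟩)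
      simp only [MulAut.conjNormal_apply, MulAut.one_apply, mul_inv_eq_iff_eq_mul] at this
      exact this.symm
    · obtain ⟨k, hk⟩ := hP.exists_card_eq
      rw [hO (pCore p X) inferInstance
        (by rw [hk]; exact ((hp.coprime_iff_not_dvd).mpr hpH).pow_left k)]
      exact bot_le
  have hZ : R ⊓ H ≤ fittingSubgroup X := H3.le_fitting_of_isSolvable_of_le_centralizer
    (Group.isSolvable_of_isSolvable_injective (inclusion_injective inf_le_right))
    (inf_le_left.trans hRF)
  have hcop : (Nat.card (H.subgroupOf R)).Coprime (H.subgroupOf R).index := by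
    refine Nat.Coprime.coprime_dvd_left ?_
      (hHall.coprime_dvd_right (relIndex_dvd_index_of_normal H R))
    exact card_comap_dvd_of_injective H R.subtype R.subtype_injective
  obtain ⟨D, hD⟩ := exists_right_complement'_of_coprime hcop
  have hDtop : D = ⊤ := by
    rw [eq_top_iff, ← Subgroup.map_le_map_iff_of_injective R.subtype_injective,
      ← MonoidHom.range_eq_map, range_subtype]
    refine hperf.ge.trans (commutator_le.mpr fun x hx y hy => ?_)
    obtain ⟨⟨z, d⟩, e⟩ := hD.2 ⟨x, hx⟩
    obtain ⟨⟨z', d'⟩, e'⟩ := hD.2 ⟨y, hy⟩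
    have e1 : ((z : R) : X) * (d : R) = x := congrArg Subtype.val e
    have e2 : ((z' : R) : X) * (d' : R) = y := congrArg Subtype.val e'
    have hz : ∀ (z : H.subgroupOf R) (r : R), Commute ((z : R) : X) r := fun z r =>
      hRF r.2 _ (hZ ⟨(z : R).2, z.2⟩)
    refine ⟨(d : R) * d' * (d : R)⁻¹ * (d' : R)⁻¹,
      mul_mem (mul_mem (mul_mem d.2 d'.2) (inv_mem d.2)) (inv_mem d'.2), ?_⟩
    have h1 : x * y * x⁻¹ = ((d : R) : X) * y * ((d : R) : X)⁻¹ := by
      have := (hz z ((d : R) * ⟨y, hy⟩ * (d : R)⁻¹)).eq
      simp only [coe_mul, coe_inv] at this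
      rw [← e1]
      calc _ = ((z : R) : X) * (((d : R) : X) * y * ((d : R) : X)⁻¹) * ((z : R) : X)⁻¹ := by group
        _ = _ := by rw [this]; group
    have h2 := (hz z' d).eq
    have h3 := (hz z' ((d : R) * d' * (d : R)⁻¹ * (d' : R)⁻¹)).eq
    simp only [coe_mul, coe_inv] at h3
    rw [commutatorElement_def, h1, ← e2]
    simp only [coe_subtype, coe_mul, coe_inv]
    generalize ((z' : R) : X) = a at *
    generalize ((d : R) : X) = b at *
    generalize ((d' : R) : X) = c at *
    calc _ = a * (b * c * b⁻¹ * c⁻¹) * a⁻¹ := by rw [h3]; group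
      _ = (a * b) * c * b⁻¹ * c⁻¹ * a⁻¹ := by group
      _ = _ := by rw [h2]; group
  have hRc : (Nat.card R).Coprime (Nat.card H) := by
    have h1 := hD.symm.index_eq_card
    rw [hDtop, card_top] at h1
    rw [← h1]
    exact (hHall.coprime_dvd_right (relIndex_dvd_index_of_normal H R)).symm
  exact ⟨⟨n, hO R inferInstance hRc⟩⟩

/-- Let G be a finite group and H a non-normal subgroup meeting each of its conjugates by elements outside N_G(H) trivially, with the order of H coprime to its index in N_G(H); let π be the set of primes dividing the order of H and suppose G is π-separable (it has a chain of normal subgroups from 1 to G each of whose factors has order divisible only by primes in π or coprime to the order of H). Let O be the largest normal subgroup of G of order coprime to the order of H. Then G = O·N_G(H), O·H is normal in G, and G is solvable if and only if O is solvable and H has no subgroup isomorphic to SL₂(5). -/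
theorem result {G : Type*} [Group G] [Finite G] (H : Subgroup G)
    (hTI : Cfsg.IsTISubset (H : Set G)) (hnn : ¬ H.Normal)
    (hHall : (Nat.card H).Coprime (H.subgroupOf (Subgroup.normalizer (H : Set G))).index)
    (hsep : ∃ (n : ℕ) (M : Fin (n + 1) → Subgroup G), M 0 = ⊥ ∧ M (Fin.last n) = ⊤ ∧ Monotone M ∧ (∀ i, (M i).Normal) ∧
      ∀ i : Fin n, (∀ q : ℕ, q.Prime → q ∣ (M i.castSucc).relIndex (M i.succ) → q ∣ Nat.card H) ∨
        ((M i.castSucc).relIndex (M i.succ)).Coprime (Nat.card H))
    (O : Subgroup G) (hO : O = sSup {K : Subgroup G | K.Normal ∧ (Nat.card K).Coprime (Nat.card H)}) :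
    O ⊔ Subgroup.normalizer (H : Set G) = ⊤ ∧ (O ⊔ H).Normal ∧
    (Group.IsSolvable G ↔ Group.IsSolvable O ∧
      ∀ K : Subgroup G, K ≤ H → ¬ Nonempty (K ≃* Matrix.SpecialLinearGroup (Fin 2) (ZMod 5))) := by
  have hHallG := S4115.hall H hTI hHall
  have hpi := H2.isPiHall_of_coprime hHallG
  set π : Set ℕ := {p | p ∣ Nat.card H} with hπ
  have hcop_iff : ∀ n : ℕ, n.Coprime (Nat.card H) ↔ H2.IsPiNum πᶜ n := fun n =>
    ⟨fun h q hq hqn hqH => hq.one_lt.ne' (Nat.eq_one_of_dvd_coprimes h hqn hqH),
      fun h => Nat.coprime_of_dvd fun q hq hqn => h q hq hqn⟩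
  haveI hOn : O.Normal := hO ▸ sSup_normal _ (fun _ h => h.1)
  have hOle : ∀ K : Subgroup G, K.Normal → (Nat.card K).Coprime (Nat.card H) → K ≤ O :=
    fun K h1 h2 => hO ▸ le_sSup ⟨h1, h2⟩
  have hOc : (Nat.card O).Coprime (Nat.card H) := by
    obtain ⟨K, ⟨hK1, hK2⟩, hmax⟩ := exists_maximal_of_wellFoundedGT
      (fun K : Subgroup G => K.Normal ∧ (Nat.card K).Coprime (Nat.card H))
      ⟨⊥, inferInstance, by simp⟩
    have : O ≤ K := by
      rw [hO]
      refine sSup_le fun L hL => le_sup_left.trans (hmax (y := L ⊔ K) ⟨?_, ?_⟩ le_sup_right)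
      · haveI := hL.1
        infer_instance
      · exact (Nat.Coprime.mul_left hL.2 hK2).coprime_dvd_left (H2.card_sup_normal_dvd L K)
    exact hK2.coprime_dvd_left (card_dvd_of_le this)
  have hdisj : O ⊓ H = ⊥ := inf_eq_bot_of_coprime hOc
  set f := QuotientGroup.mk' O with hf
  have hfs : Function.Surjective f := QuotientGroup.mk'_surjective O
  have hbar : ∀ K : Subgroup (G ⧸ O), K.Normal → (Nat.card K).Coprime (Nat.card H) → K = ⊥ := by
    intro K _ hK
    have := hOle (K.comap f) inferInstance (by
      rw [hf, H2.card_comap_mk']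
      exact Nat.Coprime.mul_left hOc hK)
    rw [← map_comap_eq_self_of_surjective hfs K, Subgroup.map_eq_bot_iff, hf,
      QuotientGroup.ker_mk']
    exact this
  have hHb : H ≠ ⊥ := by rintro rfl; exact hnn inferInstance
  have h1 : O ⊔ normalizer (H : Set G) = ⊤ := by
    obtain ⟨n, M, h0, hn, -, hnorm, hidx⟩ := hsep
    have hsep' : H2.PiSeparable π G := H2.piSeparable_of_chain M h0 hn hnorm
      fun i => (hidx i).imp id (hcop_iff _).mp
    have hnt : Nontrivial (G ⧸ O) := by
      rw [QuotientGroup.nontrivial_iff]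
      rintro rfl
      exact hHb (by simpa using hdisj)
    obtain ⟨N, hN1, hN2, hN3⟩ := hsep' _ f hfs hnt
    have hN4 := hN3.resolve_right fun h => hN2 (hbar N hN1 ((hcop_iff _).mpr h))
    have hNle : N ≤ H.map f := H2.normal_le_of_isPiHall (H2.isPiHall_map hfs hpi) hN4
    obtain ⟨p, hp, hpN⟩ := H3.exists_prime_dvd_card hN2
    haveI := Fact.mk hp
    have hM : N.comap f ≤ O ⊔ H := by
      refine (comap_mono hNle).trans ?_
      rw [comap_map_eq, hf, QuotientGroup.ker_mk', sup_comm]
    obtain ⟨P⟩ := (inferInstance : Nonempty (Sylow p (N.comap f ⊓ H : Subgroup G)))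
    set Q := (P : Subgroup (N.comap f ⊓ H : Subgroup G)).map (N.comap f ⊓ H).subtype with hQ
    have hQle : Q ≤ N.comap f ⊓ H := map_subtype_le _
    have hi : ¬ p ∣ Q.relIndex (N.comap f) := by
      rw [← relIndex_mul_relIndex Q _ _ hQle inf_le_left]
      intro h
      rcases hp.dvd_mul.mp h with h | h
      · rw [hQ, relIndex, subgroupOf, comap_map_eq_self_of_injective (subtype_injective _)] at h
        exact P.not_dvd_index h
      · rw [inf_relIndex_left] at h
        exact (H2.isPiHall_iff.mp (H2.isPiHall_subgroupOf_normal hpi (N.comap f))).2 p hp h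
          (hN4 p hp hpN)
    have hQb : Q ≠ ⊥ := by
      intro h
      apply hi
      rw [h, relIndex_bot_left, hf, H2.card_comap_mk']
      exact hpN.mul_left _
    have hfr := H3.frattini_argument (hQle.trans inf_le_left) (P.2.map _) hi
    rw [eq_top_iff, ← hfr]
    refine sup_le (le_sup_of_le_right fun g hg => ?_)
      (hM.trans (sup_le_sup_left le_normalizer O))
    by_contra hgn
    obtain ⟨⟨x, hx⟩, hx1⟩ := ne_bot_iff_exists_ne_one.mp hQb
    exact hx1 (Subtype.ext (hTI g hgn x (hQle hx).2 (hQle ((mem_normalizer_iff.mp hg x).mp hx)).2))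
  have hHbar : (H.map f).Normal := by
    rw [← normalizer_eq_top_iff, eq_top_iff, ← map_top_of_surjective f hfs, ← h1, Subgroup.map_sup,
      (Subgroup.map_eq_bot_iff O).mpr (by rw [hf, QuotientGroup.ker_mk']), bot_sup_eq]
    exact le_normalizer_map f
  have h2 : (O ⊔ H).Normal := by
    have : (H.map f).comap f = O ⊔ H := by
      rw [comap_map_eq, hf, QuotientGroup.ker_mk', sup_comm]
    rw [← this]
    infer_instance
  refine ⟨h1, h2, fun hs => ⟨inferInstance, fun K _ ⟨e⟩ => ?_⟩, fun ⟨hOs, hSL⟩ => ?_⟩
  · haveI : Group.IsSolvable H91.SL25 := Group.isSolvable_of_surjective (f := e.toMonoidHom)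
      e.surjective
    haveI : Nontrivial H91.SL25 := ⟨_, _, H91.sl25_neg_one_ne⟩
    exact (Group.IsSolvable.commutator_lt_top_of_nontrivial H91.SL25).ne H91.commutator_sl25
  · have hF : H91.HasIntFPF H := by
      set L := O ⊔ H with hL
      have hHL : H ≤ L := le_sup_right
      have e := subgroupOfEquivOfLe hHL
      have hTI' : IsTISubset ((H.subgroupOf L : Subgroup L) : Set L) := by
        intro g hg x hx hgx
        refine Subtype.ext (hTI g (fun h => hg ?_) x hx hgx)
        exact mem_normalizer_iff.mpr fun y => mem_normalizer_iff.mp h y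
      have hHall' : (Nat.card (H.subgroupOf L)).Coprime ((H.subgroupOf L).subgroupOf
          (normalizer ((H.subgroupOf L : Subgroup L) : Set L))).index := by
        rw [Nat.card_congr e.toEquiv]
        exact hHallG.coprime_dvd_right ((relIndex_dvd_index_of_le le_normalizer).trans
          (relIndex_dvd_index_of_le hHL))
      have hnn' : ¬ (H.subgroupOf L).Normal := by
        intro h
        apply hnn
        rw [normal_subgroupOf_iff_le_normalizer hHL] at h
        rw [← normalizer_eq_top_iff, eq_top_iff, ← h1]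
        exact sup_le (le_sup_left.trans h) le_rfl
      obtain ⟨F, _, _, C, hC, ⟨e'⟩⟩ := (S4115.result _ hTI' hHall').2 hnn'
        ((S4115.result _ hTI' hHall').1.mpr ⟨O.subgroupOf L, inferInstance,
          H3.isComplement'_of_inf_eq_bot_of_sup_eq_top
            (by rw [subgroupOf, subgroupOf, ← comap_inf, hdisj, MonoidHom.comap_bot, ker_subtype])
            (by rw [← subgroupOf_sup le_sup_left hHL, subgroupOf_self])⟩)
      exact (H91.hasIntFPF_of_frob hC).of_injective (e.symm.trans e').toMonoidHom
        (e.symm.trans e').injective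
    have hHs : Group.IsSolvable H := by
      by_contra hns
      obtain ⟨g, -, hg, -⟩ := hF.nonsolvable hns
      have hinj : Function.Injective (H.subtype.comp g) := H.subtype_injective.comp hg
      refine hSL (H.subtype.comp g).range ?_ ⟨(MonoidHom.ofInjective hinj).symm⟩
      rintro _ ⟨x, rfl⟩
      exact (g x).2
    have hinj : Function.Injective (f.subgroupMap H) := by
      rw [← MonoidHom.ker_eq_bot_iff, eq_bot_iff]
      intro x hx
      have h3 : (x : G) ∈ O ⊓ H :=
        ⟨(QuotientGroup.eq_one_iff (x : G)).mp (congrArg Subtype.val hx), x.2⟩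
      rw [hdisj] at h3
      exact Subtype.ext h3
    let e := MulEquiv.ofBijective (f.subgroupMap H) ⟨hinj, f.subgroupMap_surjective H⟩
    haveI : Group.IsSolvable (G ⧸ O) := by
      refine solv (H.map f) (H2.isPiHall_coprime (H2.isPiHall_map hfs hpi))
        (hF.of_injective e.symm.toMonoidHom e.symm.injective)
        (Group.isSolvable_of_surjective (f.subgroupMap_surjective H)) fun K hK hc => hbar K hK ?_
      rwa [Nat.card_congr e.toEquiv]
    exact Group.isSolvable_of_ker_le_range O.subtype f (by simp [hf])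

end Cfsg.Agent.S4118
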