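import Cfsg.Statements.S4125
import Cfsg.Agent.H88.QBaer

set_option autoImplicit false
open Cfsg

namespace Cfsg.Agent.S4125

open Cfsg.Agent.H88 Subgroup

/-- Let G be a finite group and q a prime dividing its order such that every element of q-power order has a conjugacy class of prime-power size. Then G is q-solvable of q-length 1: there are normal subgroups K ≤ L of G with K of order prime to q, L/K a q-group and L of index prime to q. Moreover there is a prime p such that every element of q-power order has a class of p-power size (one prime serving for all of them), and for a Sylow q-subgroup Q: if p = q then Q is normal with a normal complement (a direct factor), while if p ≠ q then Q is abelian, the product of Q with the largest normal p-subgroup O_p(G) is normal in G, and G/O_{q'}(G) is solvable, where O_{q'}(G) is the largest normal subgroup of order prime to q. -/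
theorem result {G : Type*} [Group G] [Finite G] (q : ℕ) [Fact q.Prime] (hq : q ∣ Nat.card G)
    (hBaer : ∀ x : G, (∃ k : ℕ, orderOf x = q ^ k) → ∃ (r : ℕ) (a : ℕ), r.Prime ∧ (Subgroup.centralizer ({x} : Set G)).index = r ^ a) (Q : Sylow q G) :
    (∃ K L : Subgroup G, K.Normal ∧ L.Normal ∧ K ≤ L ∧ (Nat.card K).Coprime q ∧ (∃ m : ℕ, K.relIndex L = q ^ m) ∧ L.index.Coprime q) ∧
    ∃ p : ℕ, p.Prime ∧ (∀ x : G, (∃ k : ℕ, orderOf x = q ^ k) → ∃ a : ℕ, (Subgroup.centralizer ({x} : Set G)).index = p ^ a) ∧
      (p = q → (Q : Subgroup G).Normal ∧ ∃ N : Subgroup G, N.Normal ∧ N.IsComplement' (Q : Subgroup G)) ∧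
      (p ≠ q → IsMulCommutative (Q : Subgroup G) ∧ (Cfsg.pCore p G ⊔ (Q : Subgroup G)).Normal ∧
        ∀ _h : (Cfsg.pPrimeCore q G).Normal, Group.IsSolvable (G ⧸ Cfsg.pPrimeCore q G)) := by
  obtain ⟨p, hp, h⟩ := qbaer_one_prime hBaer
  have h1 := ((Fact.out : q.Prime).coprime_iff_not_dvd.2 Q.not_dvd_index).symm
  refine ⟨?_, p, hp, h, fun hpq => qbaer_direct (hpq ▸ h) Q, fun hpq =>
    ⟨(qbaer_comm hp hpq h Q).1, (qbaer_comm hp hpq h Q).2, fun _ =>
      qbaer_solvable hp hpq (qbaer_quotient hp _ h) (H3.pPrimeCore_quotient_pPrimeCore q G)⟩⟩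
  by_cases hpq : p = q
  · exact ⟨⊥, Q, inferInstance, (qbaer_direct (hpq ▸ h) Q).1, bot_le, by simp,
      by rw [relIndex_bot_left]; exact Q.isPGroup'.exists_card_eq, h1⟩
  · refine ⟨pCore p G, _, inferInstance, (qbaer_comm hp hpq h Q).2, le_sup_left,
      H3.coprime_card_of_isPGroup (H3.pCore_isPGroup p G) ((Nat.coprime_primes hp Fact.out).2 hpq),
      ?_, h1.coprime_dvd_left (index_dvd_of_le le_sup_right)⟩
    rw [relIndex_sup_left]
    exact H92.eq_pow_of_dvd Fact.out (relIndex_dvd_card _ _) Q.isPGroup'.exists_card_eq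

end Cfsg.Agent.S4125
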