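import Cfsg.Statements.S4126
import Cfsg.Agent.H92.Kazarin
import Cfsg.Agent.H92.KPi
import Cfsg.Agent.H7.Small
import Cfsg.Agent.H8.Fusion
import Cfsg.Agent.H89.PBasic

set_option autoImplicit false
open Cfsg

namespace Cfsg.Agent.S4126

open Cfsg.Agent.H92

universe u

theorem aux {p : ℕ} [hp : Fact p.Prime] (n : ℕ) : ∀ (G : Type u) [Group G] [Finite G] (N : Subgroup G)
    [N.Normal], Nat.card G = n → IsPGroup p N → (∀ x ∈ N, ∃ k, cs[x] = p ^ k) →
    ∀ g : G, (orderOf g).Coprime p → ∀ x ∈ N, Commute g x := by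
  induction n using Nat.strong_induction_on with
  | _ n ih =>
  intro G _ _ N _ hn hN h g hg x hx
  by_cases hb : N = ⊥
  · rw [hb, Subgroup.mem_bot] at hx
    rw [hx]; exact Commute.one_right g
  obtain ⟨P⟩ : Nonempty (Sylow p G) := inferInstance
  have hNP : N ≤ P := hN.le_sylow_of_normal P
  -- a central element of `P` inside `N`
  obtain ⟨z, hzN, hz1, hzP⟩ : ∃ z ∈ N, z ≠ 1 ∧ (P : Subgroup G) ≤ Ce[z] := by
    have hne : N.subgroupOf P ≠ ⊥ := by
      intro h0
      apply hb
      rw [Subgroup.subgroupOf_eq_bot, disjoint_iff, inf_eq_left.2 hNP] at h0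
      exact h0
    obtain ⟨z, hz, hzc, hz1⟩ := H89.exists_mem_center_of_normal P.isPGroup' hne
    refine ⟨z, hz, fun e => hz1 (Subtype.ext e), fun y hy => mem_C.2 ?_⟩
    exact congrArg Subtype.val (Subgroup.mem_center_iff.1 hzc ⟨y, hy⟩)
  have hzc : z ∈ Subgroup.center G := by
    obtain ⟨k, hk⟩ := h z hzN
    have h1 : ¬ p ∣ cs[z] := not_dvd_cs_iff.2 ⟨P, hzP⟩
    rw [← cs_eq_one_iff, hk]
    rcases k with _ | k
    · rfl
    · exact absurd (hk ▸ dvd_pow_self p k.succ_ne_zero) h1
  let M := Subgroup.zpowers z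
  have hMc : M ≤ Subgroup.center G := Subgroup.zpowers_le.2 hzc
  haveI : M.Normal := ⟨fun a ha g => by
    rw [Subgroup.mem_center_iff.1 (hMc ha) g, mul_inv_cancel_right]; exact ha⟩
  have hlt : Nat.card (G ⧸ M) < n := by
    rw [← hn, Subgroup.card_eq_card_quotient_mul_card_subgroup M]
    have : 1 < Nat.card M := (Subgroup.one_lt_card_iff_ne_bot M).2 (by simpa [M] using hz1)
    have h0 : 0 < Nat.card (G ⧸ M) := Nat.card_pos
    nlinarith
  haveI : (N.map (QuotientGroup.mk' M)).Normal := Subgroup.Normal.map inferInstance _ (QuotientGroup.mk'_surjective M)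
  have h2 := ih _ hlt (G ⧸ M) (N.map (QuotientGroup.mk' M)) rfl (hN.map _) (by
    rintro _ ⟨y, hy, rfl⟩
    exact eq_pow_of_dvd hp.out (cs_mk_dvd M y) (h y hy)) (g : G ⧸ M)
    (Nat.Coprime.coprime_dvd_left (orderOf_map_dvd (QuotientGroup.mk' M) g) hg) (x : G ⧸ M) ⟨x, hx, rfl⟩
  have h3 : x⁻¹ * (g * x * g⁻¹) ∈ M := by
    rw [← QuotientGroup.eq]
    simp only [QuotientGroup.mk_mul, QuotientGroup.mk_inv]
    rw [h2.eq]; group
  have h4 : x⁻¹ * (g * x * g⁻¹) = 1 := by
    refine eq_one_of_conj_eq_mul (n := g) (x := x) (m := orderOf g)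
      (Subgroup.mem_center_iff.1 (hMc h3) g) (by group) (by rw [pow_orderOf_eq_one]; exact Commute.one_left x) ?_
    obtain ⟨k, hk⟩ := orderOf_eq_pow_of_mem hN (Subgroup.zpowers_le.2 hzN h3)
    rw [hk]
    exact Nat.Coprime.pow_left _ hg.symm
  show g * x = x * g
  calc g * x = x * (x⁻¹ * (g * x * g⁻¹)) * g := by group
    _ = x * g := by rw [h4, mul_one]

/-- Let G be a finite group and p a prime. Suppose every element of order p, and when p = 2 also every element of order 4, has a conjugacy class of p-power size. Then G has a normal p-complement. -/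
theorem result {G : Type*} [Group G] [Finite G] (p : ℕ) [Fact p.Prime]
    (h : ∀ x : G, (orderOf x = p ∨ (p = 2 ∧ orderOf x = 4)) → ∃ a : ℕ, (Subgroup.centralizer ({x} : Set G)).index = p ^ a) :
    Cfsg.HasNormalPComplement p G := by
  have hp : p.Prime := Fact.out
  have hs : ∀ x : G, H7.Small p x → ∃ a, cs[x] = p ^ a := by
    intro x hx
    by_cases h1 : x = 1
    · exact ⟨0, by rw [h1, cs_one, pow_zero]⟩
    rcases hx with hx | ⟨h2, hx⟩
    · exact h x (Or.inl (orderOf_eq_prime hx h1))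
    · subst h2
      by_cases h3 : x ^ 2 = 1
      · exact h x (Or.inl (orderOf_eq_prime h3 h1))
      · refine h x (Or.inr ⟨rfl, ?_⟩)
        exact orderOf_eq_prime_pow (p := 2) (n := 1) (by simpa using h3) (by simpa using hx)
  obtain ⟨P⟩ : Nonempty (Sylow p G) := inferInstance
  have hO : ∀ x ∈ (P : Subgroup G), H7.Small p x → x ∈ pCore p G := by
    intro x hxP hx
    have h1 := normalClosure_le_of_cs_pow hp (hs x hx) hxP P.not_dvd_index
    exact H3.le_pCore (P.isPGroup'.to_le h1) (Subgroup.subset_normalClosure rfl)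
  obtain ⟨D, hDO, hDn, hDs, -, hD⟩ := H7.exists_small_subgroup (H3.pCore_isPGroup p G)
  haveI : D.Normal := by
    rw [← Subgroup.normalizer_eq_top_iff, eq_top_iff]
    refine le_trans ?_ hDn
    rw [Subgroup.normalizer_eq_top_iff.2 inferInstance]
  have hc : ∀ g : G, (orderOf g).Coprime p → g ∈ Subgroup.centralizer (pCore p G : Set G) := by
    intro g hg
    refine hD g (by rw [Subgroup.normalizer_eq_top_iff.2 inferInstance]; trivial) hg ?_
    rw [Subgroup.mem_centralizer_iff]
    intro x hx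
    exact (aux _ G D rfl ((H3.pCore_isPGroup p G).to_le hDO) (fun y hy => hs y (hDs y hy)) g hg x hx).eq.symm
  refine H8.hasNormalPComplement_of_forall_le_centralizes P fun Q hQ g hg hgc => ?_
  refine H7.mem_centralizer_of_small (P.isPGroup'.to_le hQ) hg hgc fun x hx hxs => ?_
  rw [← Subgroup.mem_centralizer_iff.1 (hc g hgc) x (hO x (hQ hx) hxs)]
  group

end Cfsg.Agent.S4126
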