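import Cfsg.Statements.S4127
import Cfsg.Agent.H92.Camina

set_option autoImplicit false
open Cfsg

namespace Cfsg.Agent.S4127

open Cfsg.Agent.H92



/-- Let G be a finite group, p a prime and p^a the largest power of p dividing the size of any conjugacy class of G. If some element of p-power order has a conjugacy class of size exactly p^a, then G has a normal p-complement. -/
theorem result {G : Type*} [Group G] [Finite G] (p : ℕ) [Fact p.Prime]
    (a : ℕ) (hmax : ∀ y : G, ¬ p ^ (a + 1) ∣ (Subgroup.centralizer ({y} : Set G)).index)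
    (hx : ∃ x : G, (∃ k : ℕ, orderOf x = p ^ k) ∧ (Subgroup.centralizer ({x} : Set G)).index = p ^ a) :
    Cfsg.HasNormalPComplement p G := by
  have hp : p.Prime := Fact.out
  obtain ⟨x, hx, hxa⟩ := hx
  obtain ⟨K, hKn, -, hKp, ⟨k, hk⟩, -⟩ := exists_normal_complement_of_cs_pow hx ⟨a, hxa⟩ (by
    intro y hy hyp hd
    apply hmax (x * y)
    rw [cs_mul_eq (mem_C'.1 hy) (coprime_of_pow_of_not_dvd hp hx hyp), hxa, pow_succ']
    exact Nat.mul_dvd_mul_right hd _)
  exact H8.hasNormalPComplement_of_normal hKp (IsPGroup.of_card hk)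

end Cfsg.Agent.S4127
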