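import Cfsg.Statements.S4135
import Cfsg.Agent.H92.Ito
import Cfsg.Agent.H67.Hall
import Cfsg.Agent.H3.Cores

set_option autoImplicit false
open Cfsg

namespace Cfsg.Agent.S4135

open Subgroup Cfsg.Agent.H92 Cfsg.Agent.H63 Cfsg.Agent.H67
open scoped Pointwise IsMulCommutative

theorem lemX {G : Type*} [Group G] [Finite G] {N C H : Subgroup G} [N.Normal]
    (hA : ∀ a ∈ C ⊓ N, a ∉ center G → Ce[a] = C) (hAH : C ⊓ N ≤ H) {p r : ℕ} (hp : p.Prime)
    (hr : r.Prime) (hpr : p ≠ r) {x y : G} (hx : x ∈ C ⊓ N) (hy : y ∈ C ⊓ N) (hxZ : x ∉ center G)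
    (hyZ : y ∉ center G) (hxr : ∃ k, orderOf x = r ^ k) (hyp : ∃ k, orderOf y = p ^ k)
    {u : G} (hu : u ∈ N) (hcs : (Ce[u]).relIndex H = C.relIndex H) :
    ∃ h ∈ H, h * u * h⁻¹ ∈ C ⊓ N := by
  by_contra hcon
  push Not at hcon
  set A := C ⊓ N with hAdef
  set k := (center G).relIndex A with hk
  have hab : IsMulCommutative A := ⟨⟨fun a b => Subtype.ext (by
    by_cases hb : (b : G) ∈ center G
    · exact mem_center_iff.1 hb a
    · exact mem_C.1 (hA b b.2 hb ▸ a.2.1))⟩⟩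
  have hout : ∀ s ∈ N, s ∉ A → k ∣ (Ce[s]).relIndex A := fun s hs hsA => by
    have : Ce[s] ⊓ A = center G ⊓ A := by
      refine le_antisymm (fun a ha => ⟨?_, ha.2⟩) (inf_le_inf_right _ (center_le_C s))
      by_contra haZ
      exact hsA ⟨hA a ha.2 haZ ▸ mem_C_comm.1 ha.1, hs⟩
    rw [hk, ← inf_relIndex_right, ← this, inf_relIndex_right]
  have hinvH : ∀ v : G, ∀ d ∈ H, ∀ s ∈ conjSet H v, d * s * d⁻¹ ∈ conjSet H v := by
    rintro v d hd _ ⟨g, hg, rfl⟩
    exact mem_conjSet.2 ⟨d * g, mul_mem hd hg, by group⟩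
  have hmemN : ∀ v ∈ N, ∀ s ∈ conjSet H v, s ∈ N := by
    rintro v hv _ ⟨g, hg, rfl⟩
    exact Normal.conj_mem inferInstance v hv g
  have h1 : k ∣ C.relIndex H := by
    rw [← hcs, ← ncard_conjSet]
    refine dvd_ncard_of_conj_invariant A k _ (fun d hd => hinvH u d (hAH hd)) fun s hs => ?_
    obtain ⟨g, hg, rfl⟩ := mem_conjSet.1 hs
    exact hout _ (hmemN u hu _ hs) (hcon g hg)
  have h2 : k ∣ (conjSet H y \ A).ncard := by
    refine dvd_ncard_of_conj_invariant A k _ (fun d hd s hs => ⟨hinvH y d (hAH hd) s hs.1, fun h => hs.2 ?_⟩)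
      fun s hs => hout s (hmemN y hy.2 s hs.1) hs.2
    have : s = d⁻¹ * (d * s * d⁻¹) * d := by group
    rw [this]
    exact A.mul_mem (A.mul_mem (A.inv_mem hd) h) hd
  set L := H ⊓ N[C] with hL
  have hLA : L ≤ N[A] := le_normalizer_inf inf_le_right (by rw [normalizer_eq_top]; exact le_top)
  have h3 : conjSet H y ∩ A = conjSet L y := by
    ext s
    constructor
    · rintro ⟨hs, hsA⟩
      obtain ⟨g, hg, rfl⟩ := mem_conjSet.1 hs
      refine mem_conjSet.2 ⟨g, ⟨hg, cj_eq_self_iff.1 ?_⟩, rfl⟩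
      have hZ : g * y * g⁻¹ ∉ center G := fun h => hyZ (by
        rw [← cs_eq_one_iff] at h ⊢; rwa [cs_conj] at h)
      have e := hA _ hsA hZ
      rwa [C_conj, hA y hy hyZ, ← cj_eq_smul] at e
    · intro hs
      obtain ⟨g, hg, rfl⟩ := mem_conjSet.1 hs
      exact ⟨mem_conjSet.2 ⟨g, hg.1, rfl⟩, conj_mem_of_mem_normalizer (hLA hg) hy⟩
  have h4 : k ∣ C.relIndex L := by
    have := Set.ncard_inter_add_ncard_diff_eq_ncard (conjSet H y) A
    rw [h3, ncard_conjSet, ncard_conjSet, hA y hy hyZ] at this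
    exact (Nat.dvd_add_left h2).1 (this ▸ h1)
  have key : ∀ q : ℕ, q.Prime → ∀ w ∈ A, w ∉ center G → (∃ k, orderOf w = q ^ k) →
      ∃ i j : ℕ, 0 < i ∧ q ^ i ∣ k ∧ k ∣ q ^ j * (q ^ i - 1) := by
    intro q hq w hw hwZ hwq
    haveI := Fact.mk hq
    obtain ⟨P, hP, hwP⟩ := exists_syl_ge (zpowers_le.2 hw) ((H92.isPGroup_zpowers_iff w).2 hwq)
    have hPA : P ≤ A := hall_le hP
    have hLP : L ≤ N[P] := hLA.trans
      (normalizer_le_normalizer_of_normal_hall hP (normalIn_of_isMulCommutative hab hPA))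
    obtain ⟨n, hn⟩ := IsPGroup.iff_card.1 (syl_isPGroup hP)
    have hc := H67.card_inf_mul_relIndex (center G) P
    obtain ⟨i, hi⟩ := eq_pow_of_dvd_pow hq (hn ▸ hc ▸ dvd_mul_left _ _ : (center G).relIndex P ∣ q ^ n)
    obtain ⟨j, hj⟩ := eq_pow_of_dvd_pow hq
      (hn ▸ hc ▸ dvd_mul_right _ _ : Nat.card ↥(center G ⊓ P) ∣ q ^ n)
    refine ⟨i, j, Nat.pos_of_ne_zero ?_, ?_, h4.trans ?_⟩
    · rintro rfl
      exact hwZ (relIndex_eq_one.1 hi (hwP (mem_zpowers w)))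
    · rw [← hi, hk, ← H3.card_map_mk', ← H3.card_map_mk']
      exact card_dvd_of_le (map_mono hPA)
    · have h5 : C.relIndex L ∣ ((P : Set G) \ (center G ⊓ P : Subgroup G)).ncard := by
        refine dvd_ncard_of_conj_invariant L _ _ (fun d hd s hs =>
          ⟨conj_mem_of_mem_normalizer (hLP hd) hs.1, fun h => hs.2 ⟨?_, hs.1⟩⟩) fun s hs => ?_
        · have h6 : d * s * d⁻¹ ∈ center G := h.1
          rw [← cs_eq_one_iff, cs_conj] at h6
          exact cs_eq_one_iff.1 h6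
        · rw [hA s (hPA hs.1) fun h => hs.2 ⟨h, hs.1⟩]
      rw [Set.ncard_diff (fun a ha => ha.2), ← Nat.card_coe_set_eq, ← Nat.card_coe_set_eq] at h5
      change _ ∣ Nat.card P - Nat.card ↥(center G ⊓ P) at h5
      rwa [← hc, hi, hj, ← Nat.mul_sub_one] at h5
  obtain ⟨i, j, hi, h5, h6⟩ := key p hp y hy hyZ hyp
  obtain ⟨i', j', hi', h5', h6'⟩ := key r hr x hx hxZ hxr
  have hc := (Nat.coprime_primes hp hr).2 hpr
  have e1 := (Nat.Coprime.pow i j' hc).dvd_of_dvd_mul_left (h5.trans h6')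
  have e2 := (Nat.Coprime.pow i' j hc.symm).dvd_of_dvd_mul_left (h5'.trans h6)
  have e3 := Nat.one_lt_pow hi.ne' hp.one_lt
  have e4 := Nat.one_lt_pow hi'.ne' hr.one_lt
  have := Nat.le_of_dvd (by omega) e1
  have := Nat.le_of_dvd (by omega) e2
  omega

/-- Let G be a finite group, r a prime and R a Sylow r-subgroup of G that is not central, N a normal subgroup of G containing R, and m a natural number such that every element of N has a conjugacy class in G of size 1 or m. Then N is nilpotent. -/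
theorem result {G : Type*} [Group G] [Finite G] (r : ℕ) [Fact r.Prime]
    (R : Sylow r G) (hR : ¬ (R : Subgroup G) ≤ Subgroup.center G) (N : Subgroup G) [N.Normal] (hRN : (R : Subgroup G) ≤ N)
    (m : ℕ) (h : ∀ x ∈ N, (Subgroup.centralizer ({x} : Set G)).index = 1 ∨ (Subgroup.centralizer ({x} : Set G)).index = m) : Group.IsNilpotent N := by
  have hr : r.Prime := Fact.out
  have hm : ∀ x ∈ N, x ∉ center G → cs[x] = m := fun x hx hxZ =>
    (h x hx).resolve_left fun h1 => hxZ (cs_eq_one_iff.1 h1)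
  have hrN : ∀ x : G, (∃ k, orderOf x = r ^ k) → x ∈ N := fun x hx => by
    obtain ⟨g, hg⟩ := exists_conj_mem_sylow R hx
    simpa [mul_assoc] using (inferInstance : N.Normal).conj_mem _ (hRN hg) g⁻¹
  by_cases hex : ∃ y ∈ N, y ∉ center G ∧ ∃ p : ℕ, p.Prime ∧ p ≠ r ∧ ∃ k, orderOf y = p ^ k
  swap
  · push Not at hex
    have hidx : ∃ k, (center G).relIndex N = r ^ k := by
      refine (eq_pow_iff_forall hr (relIndex_ne_zero' _ _)).2 fun q hq hd => ?_
      obtain ⟨y, hy, ⟨k, hk⟩, hyZ⟩ := exists_not_mem_of_dvd_relIndex hq hd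
      by_contra hne
      exact hex y hy hyZ q hq hne k hk
    obtain ⟨k, hk⟩ := hidx
    have hle : (center G).subgroupOf N ≤ center N := fun z hz => mem_center_iff.2 fun g =>
      Subtype.ext (mem_center_iff.1 hz g)
    haveI : Group.IsNilpotent (N ⧸ center N) := by
      obtain ⟨j, hj⟩ := eq_pow_of_dvd_pow hr (hk ▸ index_dvd_of_le hle : (center N).index ∣ r ^ k)
      exact IsPGroup.isNilpotent (IsPGroup.of_card (p := r) hj)
    exact Group.of_quotient_center_nilpotent this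
  obtain ⟨y, hyN, hyZ, p, hp, hpr, hyp⟩ := hex
  obtain ⟨x₀, hx₀, hx₀Z⟩ := SetLike.not_le_iff_exists.1 hR
  have h1 : r ∣ (center G).relIndex (Ce[y]) := by
    have h2 := dvd_relIndex_of_not_mem hr (center G) (Ce[x₀]) (orderOf_eq_pow_of_mem R.isPGroup' hx₀)
      (self_mem_C x₀) hx₀Z
    have h3 := card_C_eq_of_cs_eq ((hm x₀ (hRN hx₀) hx₀Z).trans (hm y hyN hyZ).symm)
    rw [← H67.card_mul_relIndex (center_le_C x₀), ← H67.card_mul_relIndex (center_le_C y)] at h3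
    rwa [← Nat.eq_of_mul_eq_mul_left Nat.card_pos h3]
  obtain ⟨x, hxy, hxr, hxZ⟩ := exists_not_mem_of_dvd_relIndex hr h1
  have hxN := hrN x hxr
  have hcop : ∀ a b : G, a ∈ N → b ∈ N → a ∉ center G → b ∉ center G → Commute a b →
      (orderOf a).Coprime (orderOf b) → Ce[a] = Ce[b] := by
    intro a b ha hb haZ hbZ hab hc
    have e := C_mul_of_coprime hab hc
    have hZ : a * b ∉ center G := fun h => haZ (zpowers_le.2 h (mem_zpowers_mul_of_coprime hab hc))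
    have e1 : Ce[a * b] = Ce[a] := eq_of_le_of_index_eq (e ▸ inf_le_left)
      ((hm _ (mul_mem ha hb) hZ).trans (hm a ha haZ).symm)
    have e2 : Ce[a * b] = Ce[b] := eq_of_le_of_index_eq (e ▸ inf_le_right)
      ((hm _ (mul_mem ha hb) hZ).trans (hm b hb hbZ).symm)
    rw [← e1, e2]
  have hxy' : Ce[x] = Ce[y] := hcop x y hxN hyN hxZ hyZ (mem_C.1 hxy)
    (coprime_of_pow_of_pow hr hp hpr.symm hxr hyp)
  have hA : ∀ a ∈ Ce[y] ⊓ N, a ∉ center G → Ce[a] = Ce[y] := by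
    intro a ha haZ
    refine (eq_of_le_of_index_eq (le_C_iff.2 ?_) ((hm y hyN hyZ).trans (hm a ha.2 haZ).symm)).symm
    refine mem_of_forall_primePow fun b hb q hq _ hbq => le_C_iff.1 ?_
    have hbA : b ∈ Ce[y] ⊓ N := zpowers_le.2 ha hb
    by_cases hbZ : b ∈ center G
    · rw [C_eq_top_iff.2 hbZ]; exact le_top
    by_cases hqr : q = r
    · subst hqr
      exact (hcop b y hbA.2 hyN hbZ hyZ (mem_C.1 hbA.1) (coprime_of_pow_of_pow hq hp hpr.symm hbq hyp)).ge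
    · rw [← hxy']
      exact (hcop b x hbA.2 hxN hbZ hxZ (mem_C.1 (hxy' ▸ hbA.1))
        (coprime_of_pow_of_pow hq hr hqr hbq hxr)).ge
  have hx' : x ∈ Ce[y] ⊓ N := ⟨hxy, hxN⟩
  have hy' : y ∈ Ce[y] ⊓ N := ⟨self_mem_C y, hyN⟩
  have hall : ∀ u ∈ N, ∃ g ∈ N, g * u * g⁻¹ ∈ Ce[y] ⊓ N := by
    intro u hu
    by_cases huZ : u ∈ center G
    · exact ⟨1, one_mem _, by simpa using ⟨center_le_C y huZ, hu⟩⟩
    refine lemX hA inf_le_right hp hr hpr hx' hy' hxZ hyZ hxr hyp hu ?_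
    obtain ⟨g, -, hg⟩ := lemX (H := ⊤) hA le_top hp hr hpr hx' hy' hxZ hyZ hxr hyp hu
      (by rw [relIndex_top_right, relIndex_top_right, hm u hu huZ, hm y hyN hyZ])
    have hZ : g * u * g⁻¹ ∉ center G := fun h => huZ (by
      rw [← cs_eq_one_iff] at h ⊢; rwa [cs_conj] at h)
    rw [← hA _ hg hZ, C_conj, ← cj_eq_smul, ← relIndex_cj g,
      cj_eq_self (H := N) (by rw [normalizer_eq_top]; trivial)]
  have htop : (Ce[y] ⊓ N).subgroupOf N = ⊤ := eq_top_of_forall_conj_mem fun u => by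
    obtain ⟨g, hg, h⟩ := hall u u.2
    exact ⟨⟨g, hg⟩, h⟩
  have hNC : N ≤ Ce[y] := (subgroupOf_eq_top.1 htop).trans inf_le_left
  haveI : IsMulCommutative N := ⟨⟨fun a b => Subtype.ext (by
    by_cases hb : (b : G) ∈ center G
    · exact mem_center_iff.1 hb a
    · exact mem_C.1 (hA b ⟨hNC b.2, b.2⟩ hb ▸ hNC a.2))⟩⟩
  infer_instance

end Cfsg.Agent.S4135
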