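import Cfsg.Statements.S4138
import Cfsg.Agent.H92.BHM
import Cfsg.Agent.H92.Ito
import Cfsg.Agent.H67.Hall
import Cfsg.Agent.S0055

set_option autoImplicit false
open Cfsg

namespace Cfsg.Agent.S4138

open Subgroup Cfsg.Agent.H92 Cfsg.Agent.H63 Cfsg.Agent.H67
open scoped Pointwise commutatorElement

theorem main {G : Type*} [Group G] [Finite G] {m n : ℕ} (hmn : n < m) (hn : 1 < n)
    (hcop : m.Coprime n) (htop : ∀ z : G, cs[z] ≤ m) (hsecond : ∀ z : G, cs[z] < m → cs[z] ≤ n)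
    {x y : G} (hx : cs[x] = n) (hy : cs[y] = m) (hxπ : PiElt (primesOf m) x) :
    IsMulCommutative (Ce[x]) ∧ IsMulCommutative (Ce[y]) ∧
    Cfsg.IsFrobeniusComplement ((Ce[y]).map (QuotientGroup.mk' (center G))) ∧
    Cfsg.frobeniusKernel ((Ce[y]).map (QuotientGroup.mk' (center G))) =
      ((Ce[x]).map (QuotientGroup.mk' (center G)) : Set (G ⧸ center G)) := by
  set π := primesOf m with hπ
  obtain ⟨M, N, hMn, hNn, hMab, hNm, hMN, hM1, hM2⟩ := exists_bhm (y := y) (fun g => hy ▸ htop g)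
  rw [hy] at hNm hM1 hM2
  have hco : ∀ {a b : G}, PiElt π a → PiElt πᶜ b → (orderOf a).Coprime (orderOf b) :=
    fun ha hb => PiNat.coprime ha hb
  have hM2' : ∀ w ∈ M, PiElt πᶜ w → w ∈ center G := fun w hw h =>
    hM2 w hw (piNat_compl_primesOf_iff.1 h)
  have hgt : ∀ w : G, n < cs[w] → cs[w] = m := fun w h => by
    have := htop w; have := hsecond w; omega
  have F0 : ∀ w : G, n ∣ cs[w] → cs[w] = n := fun w h => by
    refine le_antisymm ?_ (Nat.le_of_dvd (cs_pos w) h)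
    by_contra hc
    rw [hgt w (not_le.1 hc)] at h
    have := hcop.symm.eq_one_of_dvd h
    omega
  have F1 : ∀ w : G, m ∣ cs[w] → cs[w] = m := fun w h =>
    le_antisymm (htop w) (Nat.le_of_dvd (cs_pos w) h)
  have hnM : ∀ w : G, cs[w] ∣ n → w ∈ M := fun w h => hM1 w (hcop.symm.coprime_dvd_left h)
  have hxM : x ∈ M := hnM x (hx ▸ dvd_rfl)
  have hxZ : x ∉ center G := one_lt_cs_iff.1 (hx ▸ hn)
  have hMC : ∀ w ∈ M, M ≤ Ce[w] := fun w hw v hv => mem_C.2 (comm_of_isMulCommutative hMab hv hw)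
  -- `π'`-elements of `C(x)` are central
  have B : ∀ w : G, PiElt πᶜ w → Commute x w → w ∈ center G := fun w hw hc => by
    have e := C_mul_of_coprime hc (hco hxπ hw)
    have e1 : Ce[x * w] = Ce[x] := eq_of_le_of_index_eq (e ▸ inf_le_left)
      ((F0 _ (hx ▸ cs_dvd_cs_mul hc (hco hxπ hw))).trans hx.symm)
    exact hM2' w (hnM w (hx ▸ cs_dvd_of_le (e1 ▸ e ▸ inf_le_right))) hw
  have C : ∀ z : G, z ∉ center G → (cs[z]).Coprime n → cs[z] = m := fun z hz hc => by
    by_contra hne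
    have hzn : cs[z] ≤ n := hsecond z (lt_of_le_of_ne (htop z) hne)
    have hc' : (cs[z]).Coprime cs[x] := hx ▸ hc
    by_cases hle : cs[z * x] ≤ cs[x]
    · refine hz (mem_center_iff.2 fun g => commutatorElement_eq_one_iff_mul_comm.1 ?_)
      have h1 := commutator_mem_classStab hc' hle g
      obtain ⟨k, -, hk⟩ := mem_conjSet.1 (mem_classStab.1 h1 x (self_mem_conjSet ⊤ x))
      have h2 : ⁅g, z⁆ ∈ N := by
        have : ⁅g, z⁆ = ⁅k, x⁆ := by rw [commutatorElement_def k, hk, mul_inv_cancel_right]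
        rw [this]; exact hMN x hxM k
      have h3 : orderOf ⁅g, z⁆ ∣ n := (orderOf_dvd_card_of_mem h1).trans (hx ▸ card_classStab_dvd x)
      have h4 : orderOf ⁅g, z⁆ ∣ m := (orderOf_dvd_card_of_mem h2).trans hNm
      exact orderOf_eq_one_iff.1 (Nat.eq_one_of_dvd_coprimes hcop h4 h3)
    · have h1 := hgt _ (hx ▸ not_le.1 hle)
      have h2 := cs_mul_dvd_of_coprime hc'
      rw [h1, hx] at h2
      have := Nat.le_of_dvd (cs_pos z) (hcop.dvd_of_dvd_mul_right h2)
      omega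
  have C' : ∀ z : G, z ∉ center G → cs[z] ∣ m → cs[z] = m := fun z hz h =>
    C z hz (hcop.coprime_dvd_left h)
  have E : ∀ u : G, PiElt πᶜ u → cs[u] = m → ∀ t : G, PiElt π t → Commute u t → t ∈ center G := by
    intro u hu hum t ht hut
    refine mem_of_forall_primePow fun s hs r hr hrt hsr => ?_
    by_contra hsZ
    haveI := Fact.mk hr
    have hsπ : PiElt π s := by obtain ⟨k, rfl⟩ := mem_powers_iff_mem_zpowers.2 hs; exact ht.pow k
    have hc : Commute s u := mem_C.1 (zpowers_le.2 (mem_C'.2 hut) hs)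
    have e := C_mul_of_coprime hc (hco hsπ hu)
    have e1 : Ce[s * u] = Ce[u] := eq_of_le_of_index_eq (e ▸ inf_le_right)
      ((F1 _ (hum ▸ cs_dvd_cs_mul' hc (hco hsπ hu))).trans hum.symm)
    have e2 : Ce[u] ≤ Ce[s] := e1 ▸ e ▸ inf_le_left
    have e3 : Ce[u] = Ce[s] := eq_of_le_of_index_eq e2
      (hum.trans (C' s hsZ (hum ▸ cs_dvd_of_le e2)).symm)
    have hrn : ¬ r ∣ cs[x] := fun h => hr.one_lt.ne'
      (Nat.eq_one_of_dvd_coprimes hcop (ht r hr hrt).2 (hx ▸ h))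
    obtain ⟨P, hP⟩ := not_dvd_cs_iff.1 hrn
    obtain ⟨g, hg⟩ := exists_conj_mem_sylow P hsr
    have h1 : x ∈ Ce[g * s * g⁻¹] := mem_C_comm.1 (hP hg)
    rw [mem_C_conj, ← e3, ← mem_C_conj] at h1
    have h2 := B _ (hu.conj g) (mem_C.1 h1)
    rw [← cs_eq_one_iff, cs_conj] at h2
    omega
  set V := O[π](M) with hV
  have hVn : V.Normal := normalIn_top_iff.1 ((normalIn_top_iff.2 hMn).piCoreOf π)
  have hVM : V ≤ M := piCoreOf_le π M
  have hVab : IsMulCommutative V := isMulCommutative_of_le hMab hVM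
  have hmemV : ∀ w ∈ M, PiElt π w → w ∈ V := fun w hw h => zpowers_le.1
    (le_piCoreOf (normalIn_of_isMulCommutative hMab (zpowers_le.2 hw)) (isPi_zpowers_iff.2 h))
  have hVπ : ∀ w ∈ V, PiElt π w := fun w hw => piElt_of_mem (isPi_piCoreOf π M) hw
  have hNV : ∀ K : Subgroup G, K ≤ N[V] := fun K => by rw [normalizer_eq_top]; exact le_top
  have F : ∀ v : G, PiElt πᶜ v → v ∉ center G → cs[v] = m := by
    intro v hv hvZ
    obtain ⟨h1, h2⟩ := S0055.result (zpowers v) V (hNV _)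
      (isPi_coprime' (isPi_zpowers_iff.2 hv) (isPi_piCoreOf π M))
    rw [centralizer_zpowers] at h1 h2
    set D := ⁅V, zpowers v⁆ with hD
    have hDV : D ≤ V := h2 ▸ le_sup_right
    have hnorm : V ⊓ C1[v] ≤ N[D] := le_normalizer_of_le_centralizer fun a ha =>
      mem_centralizer_iff.2 fun d hd => comm_of_isMulCommutative hVab (hDV hd) ha.1
    obtain ⟨x', hx', x'', hx'', hxx⟩ := (mem_sup_of_le_normalizer hnorm).1 (h2 ▸ hmemV x hxM hxπ)
    have hx1 : x'' ≠ 1 := by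
      rintro rfl
      rw [mul_one] at hxx
      exact hvZ (B v hv (hxx ▸ mem_C.1 hx'.2))
    have hc : Commute x' v := mem_C.1 hx'.2
    have e := C_mul_of_coprime hc (hco (hVπ x' hx'.1) hv)
    set T := Ce[x' * v] with hT
    have hTD : T ≤ N[D] := le_normalizer_commutator (hNV _)
      (le_normalizer_of_le_centralizer (by rw [centralizer_zpowers, e]; exact inf_le_right))
    have hf : (Ce[x]).relIndex T < Nat.card D := by
      have e2 : Ce[x''] ⊓ T = (Ce[x]) ⊓ T := by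
        apply le_antisymm
        · intro a ha
          refine ⟨?_, ha.2⟩
          rw [← hxx]; exact inf_le_C_mul x' x'' ⟨(e ▸ ha.2 : a ∈ Ce[x'] ⊓ Ce[v]).1, ha.1⟩
        · intro a ha
          refine ⟨?_, ha.2⟩
          have : x'' = x'⁻¹ * x := by rw [← hxx]; group
          rw [this]
          exact inf_le_C_mul _ _ ⟨(C_inv x').symm ▸ (e ▸ ha.2 : a ∈ Ce[x'] ⊓ Ce[v]).1, ha.1⟩
      rw [← inf_relIndex_right, ← e2, inf_relIndex_right, ← ncard_conjSet, ← SetLike.coe_sort_coe,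
        Nat.card_coe_set_eq]
      refine Set.ncard_lt_ncard ⟨fun s hs => ?_, fun h => ?_⟩
      · obtain ⟨g, hg, rfl⟩ := mem_conjSet.1 hs
        exact conj_mem_of_mem_normalizer (hTD hg) hx''
      · obtain ⟨g, -, hg⟩ := mem_conjSet.1 (h D.one_mem)
        exact hx1 (by simpa using hg)
    have hDc : Nat.card D = T.relIndex V := by
      have a1 := card_sup_of_inf_eq_bot (Or.inl hnorm) h1
      have a2 := H67.card_inf_mul_relIndex T V
      have a3 : T ⊓ V = V ⊓ C1[v] := by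
        rw [e]
        exact le_antisymm (fun a ha => ⟨ha.2, ha.1.2⟩)
          fun a ha => ⟨⟨hMC x' (hVM hx'.1) (hVM ha.1), ha.2⟩, ha.1⟩
      rw [h2, ← a2, a3] at a1
      exact (Nat.eq_of_mul_eq_mul_left Nat.card_pos a1).symm
    have hle : T.relIndex V ≤ T.relIndex (Ce[x]) :=
      relIndex_le_of_le_right (hVM.trans (hMC x hxM)) (relIndex_ne_zero' _ _)
    have a1 := relIndex_mul_index (inf_le_right : Ce[x] ⊓ T ≤ T)
    have a2 := relIndex_mul_index (inf_le_right : T ⊓ Ce[x] ≤ Ce[x])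
    rw [inf_relIndex_right] at a1 a2
    rw [inf_comm, ← a1, hx] at a2
    have a3 : n < T.index := by
      by_contra hcon
      have := Nat.mul_le_mul_left ((Ce[x]).relIndex T) (not_lt.1 hcon)
      have := Nat.mul_lt_mul_of_lt_of_le (lt_of_lt_of_le hf (hDc ▸ hle)) (le_refl n) (by omega)
      omega
    exact C' v hvZ (hgt _ a3 ▸ cs_dvd_cs_mul' hc (hco (hVπ x' hx'.1) hv))
  have EF : ∀ t v : G, PiElt π t → PiElt πᶜ v → Commute v t → t ∈ center G ∨ v ∈ center G :=
    fun t v ht hv hc => by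
      by_cases hvZ : v ∈ center G
      · exact Or.inr hvZ
      · exact Or.inl (E v hv (F v hv hvZ) t ht hc)
  have hZM : center G ≤ M := fun z hz => hnM z (cs_eq_one_iff.2 hz ▸ one_dvd n)
  have GG : ∀ t : G, PiElt π t → t ∈ M := fun t ht => by
    by_cases htZ : t ∈ center G
    · exact hZM htZ
    refine hnM t (F0 t ?_).dvd
    have h1 : n.Coprime ((center G).relIndex (Ce[t])) := by
      rw [coprime_iff_no_common_prime]
      intro q hq hqn hd
      obtain ⟨w, hw, ⟨k, hk⟩, hwZ⟩ := exists_not_mem_of_dvd_relIndex hq hd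
      have hwπ : PiElt πᶜ w := piNat_compl_primesOf_iff.2 (hk ▸ Nat.Coprime.pow_left k
        (hcop.symm.coprime_dvd_left hqn))
      exact (EF t w ht hwπ (mem_C.1 hw)).elim htZ hwZ
    refine h1.dvd_of_dvd_mul_left ?_
    rw [relIndex_mul_index (center_le_C t), ← hx]
    exact index_dvd_of_le (center_le_C x)
  have hxM' : Ce[x] = M := le_antisymm (fun w hw => by
    obtain ⟨a, b, ha, hb, rfl, haπ, hbπ⟩ := exists_pi_parts π w
    exact mul_mem (GG a haπ) (hZM (B b hbπ (mem_C'.1 (zpowers_le.2 hw hb))))) (hMC x hxM)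
  have hyb : ∃ b : G, PiElt πᶜ b ∧ b ∉ center G ∧ Ce[b] = Ce[y] := by
    obtain ⟨a, b, ha, hb, hab, haπ, hbπ⟩ := exists_pi_parts π y
    have hbZ : b ∉ center G := fun h => by
      have h1 : y ∈ M := hab ▸ mul_mem (GG a haπ) (hZM h)
      have h2 := cs_dvd_of_le (hxM' ▸ hMC y h1 : Ce[x] ≤ Ce[y])
      rw [hx, hy] at h2
      have := Nat.le_of_dvd (by omega) h2
      omega
    exact ⟨b, hbπ, hbZ, (eq_of_le_of_index_eq (C_le_C_of_mem_zpowers hb)
      (hy.trans (F b hbπ hbZ).symm)).symm⟩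
  obtain ⟨b₀, hb₀, hb₀Z, hb₀y⟩ := hyb
  have hY : ∀ v ∈ Ce[y], ∃ a b : G, a ∈ center G ∧ PiElt πᶜ b ∧ b ∈ Ce[y] ∧ v = a * b := fun v hv => by
    obtain ⟨a, b, ha, hb, hab, haπ, hbπ⟩ := exists_pi_parts π v
    exact ⟨a, b, (EF a b₀ haπ hb₀ (mem_C'.1 (hb₀y ▸ zpowers_le.2 hv ha))).resolve_right hb₀Z, hbπ,
      zpowers_le.2 hv hb, hab⟩
  have hMY : ∀ w ∈ M, w ∈ Ce[y] → w ∈ center G := fun w hw hwy => by
    obtain ⟨a, b, ha, hb, -, rfl⟩ := hY w hwy
    exact mul_mem ha (hM2' b ((M.mul_mem_cancel_left (hZM ha)).1 hw) hb)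
  have hsup : ∀ v : G, cs[v] = m → M ⊔ Ce[v] = ⊤ := fun v hv => by
    rw [← index_eq_one]
    exact Nat.eq_one_of_dvd_coprimes hcop (hv ▸ index_dvd_of_le le_sup_right)
      (hx ▸ hxM' ▸ index_dvd_of_le le_sup_left)
  have hMdec : ∀ w ∈ M, ∃ a b : G, a ∈ V ∧ b ∈ center G ∧ w = a * b := fun w hw => by
    obtain ⟨a, b, ha, hb, hab, haπ, hbπ⟩ := exists_pi_parts π w
    exact ⟨a, b, hmemV a (zpowers_le.2 hw ha) haπ, hM2' b (zpowers_le.2 hw hb) hbπ, hab⟩
  have hYab : ∀ v ∈ Ce[y], ∀ v' ∈ Ce[y], Commute v' v := by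
    intro v hv v' hv'
    obtain ⟨a, b, ha, hb, hby, rfl⟩ := hY v hv
    refine Commute.mul_right (mem_center_iff.1 ha v') ?_
    by_cases hbZ : b ∈ center G
    · exact mem_center_iff.1 hbZ v'
    obtain ⟨h, hh, c, hc, hhc⟩ := mem_sup_of_normal_left.1
      (show v' ∈ M ⊔ Ce[b] by rw [hsup b (F b hb hbZ)]; trivial)
    obtain ⟨h₁, h₂, hh₁, hh₂, rfl⟩ := hMdec h hh
    have e1 : ⁅v', b⁆ = h₁ * (b * h₁⁻¹ * b⁻¹) := by
      have e2 : h₂ * c * b = b * (h₂ * c) := mem_C.1 (mul_mem (center_le_C b hh₂) hc)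
      calc ⁅v', b⁆ = h₁ * (h₂ * c * b) * (h₂ * c)⁻¹ * h₁⁻¹ * b⁻¹ := by
            rw [← hhc, commutatorElement_def]; group
        _ = _ := by rw [e2]; group
    have e2 : ⁅v', b⁆ ∈ V := e1 ▸ mul_mem hh₁ (hVn.conj_mem _ (inv_mem hh₁) b)
    have e3 : ⁅v', b⁆ ∈ center G := hMY _ (hVM e2)
      (mul_mem (mul_mem (mul_mem hv' hby) (inv_mem hv')) (inv_mem hby))
    have e4 : orderOf ⁅v', b⁆ ∣ orderOf b := orderOf_dvd_of_pow_eq_one (by
      rw [← commutatorElement_pow_right_of_central e3, pow_orderOf_eq_one, commutatorElement_one_right])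
    exact commutatorElement_eq_one_iff_commute.1 (orderOf_eq_one_iff.1
      ((hco (hVπ _ e2) hb).eq_one_of_dvd e4))
  refine ⟨hxM' ▸ hMab, ⟨⟨fun a b => Subtype.ext (hYab b b.2 a a.2)⟩⟩, ?_⟩
  rw [hxM']
  have hyZ : y ∉ center G := one_lt_cs_iff.1 (by omega)
  haveI : (M.map (QuotientGroup.mk' (center G))).Normal := hMn.map _ (QuotientGroup.mk'_surjective _)
  refine frobenius_of_fpf (M.map (QuotientGroup.mk' (center G))) _
    (ne_bot_of_mem (mem_map_of_mem _ hxM) fun h => hxZ ((QuotientGroup.eq_one_iff x).1 h))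
    (ne_bot_of_mem (mem_map_of_mem _ (self_mem_C y)) fun h => hyZ ((QuotientGroup.eq_one_iff y).1 h))
    (by rw [← Subgroup.map_sup, hsup y hy, map_top_of_surjective _ (QuotientGroup.mk'_surjective _)]) ?_ ?_
  · rw [disjoint_def]
    rintro _ ⟨w, hw, rfl⟩ ⟨v, hv, hvw⟩
    have : v⁻¹ * w ∈ center G := QuotientGroup.eq.1 hvw
    refine (QuotientGroup.eq_one_iff w).2 (hMY w hw ?_)
    simpa using mul_mem hv (center_le_C y this)
  · rintro _ ⟨v, hv, rfl⟩ hv1 _ ⟨w, hw, rfl⟩ hc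
    obtain ⟨a, b, ha, hb, -, rfl⟩ := hY v hv
    obtain ⟨c, d, hc', hd, rfl⟩ := hMdec w hw
    simp only [QuotientGroup.mk'_apply, QuotientGroup.mk_mul, (QuotientGroup.eq_one_iff a).2 ha,
      (QuotientGroup.eq_one_iff d).2 hd, one_mul, mul_one] at hv1 hc ⊢
    have h1 := commute_of_coprime_of_commutator_mem_center (commutator_mem_center_iff.2 hc)
      (hco (hVπ c hc') hb).symm
    exact (QuotientGroup.eq_one_iff c).2 ((EF c b (hVπ c hc') hb h1).resolve_right
      fun h => hv1 ((QuotientGroup.eq_one_iff b).2 h))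

/-- Let G be a finite group whose two largest conjugacy class sizes m > n > 1 are coprime, and let x, y ∈ G have classes of sizes n and m respectively. Then C_G(x) and C_G(y) are abelian, and G/Z(G) is a Frobenius group with kernel C_G(x)/Z(G) and complement C_G(y)/Z(G). -/
theorem result {G : Type*} [Group G] [Finite G] (m n : ℕ) (hmn : n < m) (hn : 1 < n)
    (hcop : m.Coprime n) (htop : ∀ z : G, (Subgroup.centralizer ({z} : Set G)).index ≤ m) (hsecond : ∀ z : G, (Subgroup.centralizer ({z} : Set G)).index < m → (Subgroup.centralizer ({z} : Set G)).index ≤ n)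
    (x y : G) (hx : (Subgroup.centralizer ({x} : Set G)).index = n) (hy : (Subgroup.centralizer ({y} : Set G)).index = m) :
    IsMulCommutative (Subgroup.centralizer ({x} : Set G)) ∧ IsMulCommutative (Subgroup.centralizer ({y} : Set G)) ∧
    Cfsg.IsFrobeniusComplement ((Subgroup.centralizer ({y} : Set G)).map (QuotientGroup.mk' (Subgroup.center G))) ∧
    Cfsg.frobeniusKernel ((Subgroup.centralizer ({y} : Set G)).map (QuotientGroup.mk' (Subgroup.center G))) =
      ((Subgroup.centralizer ({x} : Set G)).map (QuotientGroup.mk' (Subgroup.center G)) : Set (G ⧸ Subgroup.center G)) := by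
  obtain ⟨M, N, -, -, -, -, -, hM1, hM2⟩ := exists_bhm (y := y) (fun g => hy ▸ htop g)
  rw [hy] at hM1 hM2
  obtain ⟨a, b, ha, hb, hab, haπ, hbπ⟩ := exists_pi_parts (primesOf m) x
  have hbZ : b ∈ center G := hM2 b (hM1 b (hcop.symm.coprime_dvd_left (hx ▸ cs_dvd_of_mem_zpowers hb)))
    (piNat_compl_primesOf_iff.1 hbπ)
  have e : Ce[x] = Ce[a] := by rw [hab]; exact C_mul_of_mem_center hbZ
  rw [e] at hx ⊢
  exact main hmn hn hcop htop hsecond hx hy haπ

end Cfsg.Agent.S4138
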