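import Cfsg.Statements.S4142
import Cfsg.Agent.H92.Basic

set_option autoImplicit false
open Cfsg

namespace Cfsg.Agent.S4142

open Cfsg.Agent.H92

/-- Let G be a finite group and N a normal subgroup. Then the conjugacy class of every element g outside N is a union of cosets of N (gn is conjugate to g for all n ∈ N) if and only if for every g outside N the centralizer of g in G has the same order as the centralizer of gN in G/N. -/
theorem result {G : Type*} [Group G] [Finite G] (N : Subgroup G) [N.Normal] :
    (∀ g : G, g ∉ N → ∀ n ∈ N, ∃ x : G, x * g * x⁻¹ = g * n) ↔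
      ∀ g : G, g ∉ N → Nat.card (Subgroup.centralizer ({g} : Set G)) =
        Nat.card (Subgroup.centralizer ({(QuotientGroup.mk g : G ⧸ N)} : Set (G ⧸ N))) := by
  refine forall_congr' fun g => forall_congr' fun _ => ?_
  set Cb := Subgroup.centralizer ({(QuotientGroup.mk g : G ⧸ N)} : Set (G ⧸ N)) with hCb
  let D : Subgroup G := Cb.comap (QuotientGroup.mk' N)
  have hD : ∀ x, x ∈ D ↔ g⁻¹ * (x * g * x⁻¹) ∈ N := by
    intro x
    rw [Subgroup.mem_comap, hCb, Subgroup.mem_centralizer_singleton_iff, QuotientGroup.mk'_apply,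
      ← QuotientGroup.eq, QuotientGroup.mk_mul, QuotientGroup.mk_mul, QuotientGroup.mk_inv,
      eq_mul_inv_iff_mul_eq, eq_comm]
  have hcardD : Nat.card D = Nat.card Cb * Nat.card N := by
    have h1 : D.index = Cb.index := Subgroup.index_comap_of_surjective _ (QuotientGroup.mk'_surjective N)
    have h2 := D.index_mul_card
    have h3 := Cb.index_mul_card
    have h4 := N.card_eq_card_quotient_mul_card_subgroup
    rw [h1, h4, ← h3, mul_assoc] at h2
    exact Nat.eq_of_mul_eq_mul_left (Nat.pos_of_ne_zero Subgroup.index_ne_zero_of_finite) h2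
  have hle : Subgroup.centralizer ({g} : Set G) ≤ D := by
    intro x hx
    rw [Subgroup.mem_centralizer_singleton_iff] at hx
    rw [hD, hx]; simpa using N.one_mem
  have h1 := card_conjSet_mul D g
  rw [inf_eq_right.2 hle, hcardD] at h1
  let S : Set G := {y | g⁻¹ * y ∈ N}
  have hS : Nat.card S = Nat.card N := by
    refine Nat.card_congr ⟨fun y => ⟨g⁻¹ * y, y.2⟩, fun n => ⟨g * n, ?_⟩, ?_, ?_⟩
    · change g⁻¹ * (g * n) ∈ N
      simp
    · intro y; simp
    · intro n; simp
  have hsub : conjSet D g ⊆ S := by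
    rintro y ⟨x, hx, rfl⟩
    exact (hD x).1 hx
  constructor
  · intro h
    have : conjSet D g = S := by
      refine Set.Subset.antisymm hsub fun y hy => ?_
      obtain ⟨x, hx⟩ := h _ hy
      rw [mul_inv_cancel_left] at hx
      exact ⟨x, (hD x).2 (hx ▸ hy), hx⟩
    rw [this, hS, mul_comm] at h1
    exact Nat.eq_of_mul_eq_mul_right Nat.card_pos h1
  · intro h n hn
    rw [h, mul_comm] at h1
    have h2 := Nat.eq_of_mul_eq_mul_left Nat.card_pos h1
    rw [← hS] at h2
    have h3 : conjSet D g = S := Set.eq_of_subset_of_ncard_le hsub h2.ge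
    have h4 : g * n ∈ S := by
      change g⁻¹ * (g * n) ∈ N
      simpa using hn
    rw [← h3] at h4
    obtain ⟨x, -, hx⟩ := h4
    exact ⟨x, hx⟩

end Cfsg.Agent.S4142
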