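import Cfsg.Statements.S4149
import Cfsg.Agent.H92.Direct
import Cfsg.Agent.H8.Residual

set_option autoImplicit false
open Cfsg

namespace Cfsg.Agent.S4149

open Cfsg.Agent.H92

open Classical in
theorem half {G : Type*} [Group G] [Fintype G] {p : ℕ} (hp : p.Prime)
    (h : ¬ HasNormalPComplement p G) :
    Fintype.card G ≤ 2 * (Finset.univ.filter fun x : G => p ∣ cs[x]).card := by
  haveI := Fact.mk hp
  obtain ⟨P⟩ : Nonempty (Sylow p G) := inferInstance
  have h1 := two_mul_ncard_conjUnion_le (normalizer_le_normalizer_centralizer (P : Subgroup G))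
    (lt_of_le_not_ge (Subgroup.centralizer_le_normalizer _)
      fun hc => h (H8.hasNormalPComplement_of_normalizer_le_centralizer P hc))
  have h2 : (conjUnion (Subgroup.centralizer ((P : Subgroup G) : Set G))).ncard =
      (Finset.univ.filter fun x : G => ¬ p ∣ cs[x]).card := by
    rw [← Set.ncard_coe_finset]
    congr 1
    ext x
    simp only [Finset.coe_filter, Finset.mem_univ, true_and, Set.mem_setOf_eq]
    exact (not_dvd_cs_iff_conj P).symm
  have h3 := Finset.card_filter_add_card_filter_not (s := (Finset.univ : Finset G))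
    (fun x : G => p ∣ cs[x])
  rw [Nat.card_eq_fintype_card, h2] at h1
  rw [Finset.card_univ] at h3
  omega

open Classical in
theorem sum_le {G : Type*} [Group G] [Fintype G] (σ : ℕ) (hσ : ∀ x : G, (cs[x]).primeFactors.card ≤ σ)
    (ρ : Finset ℕ) (hρ : ∀ p ∈ ρ, p.Prime) :
    ∑ p ∈ ρ, (Finset.univ.filter fun x : G => p ∣ cs[x]).card ≤ Fintype.card G * σ := by
  simp only [Finset.card_filter]
  rw [Finset.sum_comm, ← Finset.card_univ, ← smul_eq_mul, ← Finset.sum_const]
  refine Finset.sum_le_sum fun x _ => le_trans ?_ (hσ x)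
  rw [← Finset.card_filter]
  refine Finset.card_le_card fun p hp => ?_
  rw [Finset.mem_filter] at hp
  exact Nat.mem_primeFactors.2 ⟨hρ p hp.1, hp.2, cs_ne_zero x⟩

/-- Let G be a finite group that has a normal p-complement for at most one prime p dividing its order, and let σ be a natural number such that every conjugacy class size of G has at most σ distinct prime divisors. Then the number of primes dividing at least one conjugacy class size of G is at most 2σ. -/
theorem result {G : Type*} [Group G] [Finite G] (σ : ℕ)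
    (hσ : ∀ x : G, ((Subgroup.centralizer ({x} : Set G)).index).primeFactors.card ≤ σ)
    (hnil : ∀ p q : ℕ, p.Prime → q.Prime → p ∣ Nat.card G → q ∣ Nat.card G →
      Cfsg.HasNormalPComplement p G → Cfsg.HasNormalPComplement q G → p = q) :
    Nat.card {p : ℕ | p.Prime ∧ ∃ x : G, p ∣ (Subgroup.centralizer ({x} : Set G)).index} ≤ 2 * σ := by
  classical
  haveI := Fintype.ofFinite G
  let ρ := (Nat.card G).primeFactors.filter fun p => ∃ x : G, p ∣ cs[x]
  have hρ : ∀ p, p ∈ ρ ↔ p.Prime ∧ ∃ x : G, p ∣ cs[x] := fun p => by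
    simp only [ρ, Finset.mem_filter, Nat.mem_primeFactors]
    exact ⟨fun h => ⟨h.1.1, h.2⟩, fun h => ⟨⟨h.1, let ⟨x, hx⟩ := h.2; hx.trans (cs_dvd_card x),
      Nat.card_pos.ne'⟩, h.2⟩⟩
  have e : {p : ℕ | p.Prime ∧ ∃ x : G, p ∣ cs[x]} = (ρ : Set ℕ) := by
    ext p; exact (hρ p).symm
  rw [e, Nat.card_coe_set_eq, Set.ncard_coe_finset]
  have h1 := sum_le σ hσ ρ fun p hp => ((hρ p).1 hp).1
  have hpos : 0 < Fintype.card G := Fintype.card_pos
  have h2 : ∀ τ : Finset ℕ, (∀ p ∈ τ, p.Prime ∧ ¬ HasNormalPComplement p G) →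
      τ.card * Fintype.card G ≤ 2 * ∑ p ∈ τ, (Finset.univ.filter fun x : G => p ∣ cs[x]).card := by
    intro τ hτ
    rw [Finset.mul_sum, ← smul_eq_mul, ← Finset.sum_const]
    exact Finset.sum_le_sum fun p hp => half (hτ p hp).1 (hτ p hp).2
  by_cases hc : ∃ p ∈ ρ, HasNormalPComplement p G
  · obtain ⟨p, hp, hpc⟩ := hc
    have hdvd : ∀ q ∈ ρ, q ∣ Nat.card G := fun q hq =>
      Nat.dvd_of_mem_primeFactors (Finset.mem_filter.1 hq).1
    have h3 := h2 (ρ.erase p) fun q hq => by
      obtain ⟨hqp, hq⟩ := Finset.mem_erase.1 hq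
      exact ⟨((hρ q).1 hq).1, fun h => hqp
        (hnil q p ((hρ q).1 hq).1 ((hρ p).1 hp).1 (hdvd q hq) (hdvd p hp) h hpc)⟩
    have h4 := Finset.add_sum_erase ρ
      (fun p => (Finset.univ.filter fun x : G => p ∣ cs[x]).card) hp
    have h5 : 0 < (Finset.univ.filter fun x : G => p ∣ cs[x]).card := by
      obtain ⟨x, hx⟩ := ((hρ p).1 hp).2
      exact Finset.card_pos.2 ⟨x, by simpa using hx⟩
    have h6 := Finset.card_erase_add_one hp
    by_contra hlt
    have h7 : 2 * σ ≤ (ρ.erase p).card := by omega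
    nlinarith
  · push Not at hc
    have h3 := h2 ρ fun q hq => ⟨((hρ q).1 hq).1, hc q hq⟩
    by_contra hlt
    nlinarith

end Cfsg.Agent.S4149
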