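import Cfsg.Statements.S4151
import Cfsg.Agent.H92.Isol
import Cfsg.Agent.H5.UniqueP
import Cfsg.Agent.H4.CoprimeGen
import Cfsg.Agent.H3.Fitting

set_option autoImplicit false
open Cfsg

namespace Cfsg.Agent.S4151

open Cfsg.Agent.H92
open Cfsg.Agent.H2 (IsPiNum)
open scoped Pointwise commutatorElement

theorem mem_zpowers_of_isCyclic {G : Type*} [Group G] [Finite G] {A : Subgroup G} (hA : IsCyclic A)
    {x y : G} (hx : x ∈ A) (hy : y ∈ A) (h : orderOf x ∣ orderOf y) : x ∈ Subgroup.zpowers y := by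
  have h1 : Subgroup.zpowers (⟨x, hx⟩ : A) ≤ Subgroup.zpowers (⟨y, hy⟩ : A) := by
    classical
    have := Fintype.ofFinite A
    have h2 := IsCyclic.card_pow_eq_one_le (α := A) (orderOf_pos y)
    have h3 : ((Subgroup.zpowers (⟨y, hy⟩ : A) : Subgroup A) : Set A) =
        {w : A | w ^ orderOf y = 1} := by
      refine Set.eq_of_subset_of_ncard_le (fun w hw => orderOf_dvd_iff_pow_eq_one.1
        (by simpa using orderOf_dvd_of_mem_zpowers hw)) ?_
      rw [← Set.ncard_coe_finset] at h2
      change _ ≤ Nat.card (Subgroup.zpowers (⟨y, hy⟩ : A))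
      rw [Nat.card_zpowers]
      simpa using h2
    refine Subgroup.zpowers_le.2 ?_
    rw [← SetLike.mem_coe, h3]
    exact Subtype.ext (orderOf_dvd_iff_pow_eq_one.1 h)
  obtain ⟨k, hk⟩ := h1 (Subgroup.mem_zpowers _)
  exact ⟨k, congrArg Subtype.val hk⟩

theorem isZGroup_of_abelian_cyclic {H : Type*} [Group H] [Finite H]
    (h : ∀ A : Subgroup H, IsMulCommutative A → IsCyclic A)
    (h2 : ∀ P : Sylow 2 H, IsMulCommutative (P : Subgroup H)) : IsZGroup H := by
  refine ⟨fun p hp P => ?_⟩
  haveI := Fact.mk hp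
  by_cases hp2 : p = 2
  · subst hp2
    exact h _ (h2 P)
  refine (H5.isCyclic_or_quaternion_of_unique P.isPGroup' fun x y hx hy => ?_).resolve_right
    fun h => hp2 h.1
  haveI : Nontrivial (P : Subgroup H) := by
    refine ⟨⟨x, 1, fun h1 => ?_⟩⟩
    rw [h1, orderOf_one] at hx
    exact hp.one_lt.ne hx
  haveI := P.isPGroup'.center_nontrivial
  obtain ⟨z, hz, hzp⟩ := H3.exists_mem_orderOf_eq_prime (N := Subgroup.center (P : Subgroup H)) hp
    (by
      obtain ⟨n, hn, h1⟩ := (P.isPGroup'.to_subgroup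
        (Subgroup.center (P : Subgroup H))).nontrivial_iff_card.1 inferInstance
      exact h1 ▸ dvd_pow_self p hn.ne')
  have key : ∀ w : (P : Subgroup H), IsCyclic
      (Subgroup.zpowers (z : H) ⊔ Subgroup.zpowers (w : H) : Subgroup H) := fun w =>
    h _ (H3.isMulCommutative_sup_zpowers (N := Subgroup.zpowers (z : H)) (le_C_iff.1
      (Subgroup.zpowers_le.2 (mem_C.2
        (congrArg Subtype.val (Subgroup.mem_center_iff.1 hz w)).symm))))
  have h1 := mem_zpowers_of_isCyclic (key x) (Subgroup.mem_sup_right (Subgroup.mem_zpowers _))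
    (Subgroup.mem_sup_left (Subgroup.mem_zpowers _)) (by simp [hx, hzp])
  have h3 := mem_zpowers_of_isCyclic (key y) (Subgroup.mem_sup_left (Subgroup.mem_zpowers _))
    (Subgroup.mem_sup_right (Subgroup.mem_zpowers _)) (by simp [hy, hzp])
  obtain ⟨k, hk⟩ := Subgroup.zpowers_le.2 h3 h1
  exact ⟨k, Subtype.ext hk⟩

/-- Let G be a finite group and H a non-normal subgroup meeting each of its conjugates by elements outside N_G(H) trivially, with the order of H coprime to its index in N_G(H), such that G is π-separable for π the set of primes dividing the order of H (G has a chain of normal subgroups from 1 to G each of whose factors has order divisible only by primes dividing the order of H or coprime to it). Suppose a Sylow 2-subgroup of H is abelian and Q is a complement of H in N_G(H). Then C_H(Q), the subgroup of elements of H commuting with Q, has order coprime to its index in G and has a normal complement in G. -/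
theorem result {G : Type*} [Group G] [Finite G] (H : Subgroup G)
    (hTI : Cfsg.IsTISubset (H : Set G)) (hnn : ¬ H.Normal)
    (hHall : (Nat.card H).Coprime (H.subgroupOf (Subgroup.normalizer (H : Set G))).index)
    (hsep : ∃ (n : ℕ) (M : Fin (n + 1) → Subgroup G), M 0 = ⊥ ∧ M (Fin.last n) = ⊤ ∧ Monotone M ∧ (∀ i, (M i).Normal) ∧
      ∀ i : Fin n, (∀ q : ℕ, q.Prime → q ∣ (M i.castSucc).relIndex (M i.succ) → q ∣ Nat.card H) ∨
        ((M i.castSucc).relIndex (M i.succ)).Coprime (Nat.card H))
    (h2 : ∀ P : Sylow 2 H, IsMulCommutative (P : Subgroup H))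
    (Q : Subgroup G) (hQ : Q ≤ Subgroup.normalizer (H : Set G)) (hQH : Q ⊓ H = ⊥) (hQH' : Q ⊔ H = Subgroup.normalizer (H : Set G)) :
    (Nat.card ↥(H ⊓ Subgroup.centralizer (Q : Set G))).Coprime (H ⊓ Subgroup.centralizer (Q : Set G)).index ∧
    ∃ N : Subgroup G, N.Normal ∧ N.IsComplement' (H ⊓ Subgroup.centralizer (Q : Set G)) := by
  set N0 := Subgroup.normalizer (H : Set G) with hN0
  let π : Set ℕ := {q | q ∣ Nat.card H}
  have hTI' : ∀ S : Subgroup G, S ≤ H → S ≠ ⊥ → Subgroup.normalizer (S : Set G) ≤ N0 := by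
    intro S hS hS0 g hg
    by_contra hc
    exact hS0 (eq_bot_iff.2 fun x hx => hTI g hc x (hS hx)
      (hS ((Subgroup.mem_normalizer_iff.1 hg x).1 hx)))
  have hHall' : (Nat.card H).Coprime (H.relIndex N0) := hHall
  -- `H` is a Hall subgroup
  have hsylH : ∀ (q : ℕ) [Fact q.Prime], q ∣ Nat.card H → ∃ S : Sylow q G, (S : Subgroup G) ≤ H := by
    intro q hq hd
    obtain ⟨S0⟩ : Nonempty (Sylow q H) := inferInstance
    let S : Subgroup G := (S0 : Subgroup H).map H.subtype
    have hS : S ≤ H := Subgroup.map_subtype_le _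
    have hS0 : S ≠ ⊥ := by
      intro h0
      have h1 : Nat.card S = Nat.card (S0 : Subgroup H) := H3.card_map_subtype _
      rw [h0, Subgroup.card_bot] at h1
      exact S0.not_dvd_index (by
        have := (S0 : Subgroup H).card_mul_index
        rw [← h1, one_mul] at this
        exact this ▸ hd)
    obtain ⟨P, hP⟩ := H4.exists_sylow_map_eq_of_maximal_in_normalizer (K := ⊤) le_top
      (S0.isPGroup'.map H.subtype) (fun V hV hSV _ hVN => by
        have h1 : V ≤ H := by
          have h2 : V ≤ N0 := hVN.trans (hTI' S hS hS0)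
          haveI : (H.subgroupOf N0).Normal := Subgroup.normal_in_normalizer
          intro v hv
          exact H8.mem_of_coprime_orderOf_index (N := H.subgroupOf N0) (g := ⟨v, h2 hv⟩)
            (coprime_of_pow_of_not_dvd hq.out
              (by simpa using orderOf_eq_pow_of_mem hV hv) fun h3 =>
                hq.out.one_lt.ne' (Nat.eq_one_of_dvd_coprimes hHall' hd h3))
        have h2 := S0.is_maximal' (hV.comap_subtype (K := H))
          (Subgroup.map_le_iff_le_comap.1 hSV)
        intro v hv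
        exact ⟨⟨v, h1 hv⟩, h2 ▸ hv, rfl⟩)
    refine exists_sylow_le_of_not_dvd_index fun h1 => P.not_dvd_index (h1.trans ?_)
    refine (Subgroup.index_dvd_of_le hS).trans ?_
    rw [show S = _ from hP.symm, Subgroup.index_map_subtype, Subgroup.index_top, mul_one]
  have hH : IsPiHall π H := ⟨fun q _ hd => hd, fun q hq hd => by
    haveI := Fact.mk hq
    obtain ⟨S, hS⟩ := hsylH q hd
    exact not_dvd_index_of_sylow_le S hS⟩
  have hOπ : ∀ M : Subgroup G, M.Normal → M ≤ H → M = ⊥ := by
    intro M hM hle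
    by_contra h0
    exact hnn (Subgroup.normalizer_eq_top_iff.1 (eq_top_iff.2
      ((Subgroup.normalizer_eq_top_iff.2 hM).ge.trans (hTI' M hle h0))))
  have hH0 : H ≠ ⊥ := fun h => hnn (h ▸ inferInstance)
  obtain ⟨n, Ms, hM0, hMn, -, hMnorm, hMfac⟩ := hsep
  have hsepG : H2.PiSeparable π G := H2.piSeparable_of_chain Ms hM0 hMn hMnorm fun i =>
    (hMfac i).imp (fun h q hq hd => h q hq hd) fun h q hq hd hq' =>
      hq.one_lt.ne' (Nat.eq_one_of_dvd_coprimes h hd hq')
  let L := piCore πᶜ G
  haveI hL : L.Normal := inferInstance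
  have hLπ : IsPiNum πᶜ (Nat.card L) := H3.piCore_pi πᶜ G
  have hHπ : IsPiNum π (Nat.card H) := fun q _ hd => hd
  have hcopHL : (Nat.card H).Coprime (Nat.card L) := hHπ.coprime hLπ
  have hLH : H ⊓ L = ⊥ := Subgroup.inf_eq_bot_of_coprime hcopHL
  -- `G = L N_G(H)`
  have hG : L ⊔ N0 = ⊤ := by
    haveI : Nontrivial (G ⧸ L) := by
      rw [QuotientGroup.nontrivial_iff]
      intro h
      rw [h, inf_top_eq] at hLH
      exact hH0 hLH
    obtain ⟨Mb, hMb, hMb0, hMb1⟩ := hsepG (G ⧸ L) _ (QuotientGroup.mk'_surjective L) inferInstance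
    have hMb2 : IsPiNum π (Nat.card Mb) := hMb1.resolve_right fun h =>
      hMb0 (le_bot_iff.1 (H3.piCore_quotient_piCore πᶜ G ▸ H3.le_piCore h))
    have hMH : Mb ≤ H.map (QuotientGroup.mk' L) :=
      H2.normal_le_of_isPiHall (H2.isPiHall_map (QuotientGroup.mk'_surjective L) hH) hMb2
    obtain ⟨q, hq, hqd⟩ := H3.exists_prime_dvd_card hMb0
    haveI := Fact.mk hq
    obtain ⟨S, hS⟩ := hsylH q (hMb2 q hq hqd)
    let M := Mb.comap (QuotientGroup.mk' L)
    obtain ⟨T, hT⟩ := H1.exists_sylow_eq_subgroupOf_of_isSubnormal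
      (Subgroup.Normal.isSubnormal (H := M) inferInstance) S
    have h1 := Sylow.normalizer_sup_eq_top T
    have h2 : (T : Subgroup M).map M.subtype ≠ ⊥ := by
      rw [Ne, Subgroup.map_eq_bot_iff_of_injective _ M.subtype_injective]
      exact T.ne_bot_of_dvd_card (by
        rw [H3.card_comap_mk']; exact hqd.mul_left _)
    have h3 : (T : Subgroup M).map M.subtype ≤ H := by
      rw [hT, Subgroup.subgroupOf_map_subtype]; exact inf_le_left.trans hS
    rw [eq_top_iff, ← h1]
    refine sup_le ((hTI' _ h3 h2).trans le_sup_right) fun m hm => ?_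
    have h4 : m ∈ (H.map (QuotientGroup.mk' L)).comap (QuotientGroup.mk' L) := hMH hm
    rw [Subgroup.comap_map_eq, QuotientGroup.ker_mk', sup_comm] at h4
    exact sup_le_sup_left Subgroup.le_normalizer L h4
  have hCL : ¬ L ≤ Subgroup.centralizer (H : Set G) := fun h => hnn
    (Subgroup.normalizer_eq_top_iff.1 (eq_top_iff.2 (hG ▸ sup_le
      (h.trans (Subgroup.centralizer_le_normalizer _)) le_rfl)))
  have hLN : L ⊓ N0 ≤ Subgroup.centralizer (H : Set G) := by
    intro l hl x hx
    have h1 : x⁻¹ * (l * x * l⁻¹) ∈ H ⊓ L := ⟨H.mul_mem (H.inv_mem hx)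
      ((Subgroup.mem_normalizer_iff.1 hl.2 x).1 hx), by
        have := L.mul_mem (hL.conj_mem' _ hl.1 x) (L.inv_mem hl.1)
        simpa [mul_assoc] using this⟩
    rw [hLH, Subgroup.mem_bot, inv_mul_eq_one, eq_mul_inv_iff_mul_eq] at h1
    exact h1
  haveI hZ : IsZGroup H := by
    refine isZGroup_of_abelian_cyclic (fun A hA => ?_) h2
    by_contra hc
    have hA' : ¬ IsCyclic (A.map H.subtype) := fun h => hc
      (isCyclic_of_surjective _ (A.equivMapOfInjective _ H.subtype_injective).symm.surjective)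
    refine hCL (H4.le_of_centralizer_singleton_le hA' Subgroup.le_normalizer_of_normal
      (H4.coprime_of_le_left hcopHL (Subgroup.map_subtype_le _)) fun a ha ha1 => ?_)
    refine le_trans (inf_le_inf_left _ ?_) hLN
    intro g hg
    by_contra hgN
    have haH := Subgroup.map_subtype_le _ ha
    exact ha1 (hTI g hgN a haH (by rwa [(mem_C.1 hg).eq, mul_inv_cancel_right]))
  have hsolv : Group.IsSolvable H := inferInstance
  have hQc : Nat.card Q = H.relIndex N0 := by
    have h1 := H1.card_sup_mul_card_inf_of_le_normalizer hQ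
    rw [hQH, hQH', Subgroup.card_bot, mul_one,
      ← H1.card_mul_relIndex (Subgroup.le_normalizer (H := H)), mul_comm] at h1
    exact (Nat.eq_of_mul_eq_mul_right Nat.card_pos h1).symm
  have hcop : (Nat.card Q).Coprime (Nat.card H) := hQc ▸ hHall'.symm
  set E := H ⊓ Subgroup.centralizer (Q : Set G) with hE
  let D : Subgroup G := ⁅H, Q⁆
  have hDH : D ≤ H := H4.commutator_le_left_of_le_normalizer hQ
  have hDE : D ⊔ E = H := H4.commutator_sup_centralizer hQ hcop (Or.inr hsolv)
  have hHD : H ≤ Subgroup.normalizer (D : Set G) := Subgroup.normalizer_commutator_ge_left _ _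
  have hQD : Q ≤ Subgroup.normalizer (D : Set G) := Subgroup.normalizer_commutator_ge_right _ _
  -- `D` is abelian
  haveI hH' : IsCyclic (⁅H, H⁆ : Subgroup G) := by
    rw [← Subgroup.map_subtype_commutator]
    haveI := IsZGroup.isCyclic_commutator H
    exact isCyclic_of_surjective _
      ((commutator H).equivMapOfInjective _ H.subtype_injective).surjective
  have hDC : D ≤ Subgroup.centralizer ((⁅H, H⁆ : Subgroup G) : Set G) := by
    have h1 : N0 ≤ Subgroup.normalizer ((⁅H, H⁆ : Subgroup G) : Set G) :=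
      H1.normalizer_le_normalizer_commutator_self H
    refine Subgroup.commutator_le.2 fun a ha b hb => ?_
    have ha' := h1 (Subgroup.le_normalizer ha)
    have hb' := h1 (hQ hb)
    let f := (⁅H, H⁆ : Subgroup G).normalizerMonoidHom
    have h3 : ⁅(⟨a, ha'⟩ : Subgroup.normalizer ((⁅H, H⁆ : Subgroup G) : Set G)), ⟨b, hb'⟩⁆ ∈
        f.ker := by
      rw [MonoidHom.mem_ker, map_commutatorElement, commutatorElement_eq_one_iff_mul_comm]
      apply (IsCyclic.mulAutMulEquiv (⁅H, H⁆ : Subgroup G)).injective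
      rw [map_mul, map_mul, mul_comm]
    rw [Subgroup.normalizerMonoidHom_ker] at h3
    exact h3
  haveI hDab : IsMulCommutative D := by
    let C : Subgroup H := (Subgroup.centralizer ((⁅H, H⁆ : Subgroup G) : Set G)).subgroupOf H
    have h1 := commutative_of_cyclic_center_quotient ((Abelianization.of (G := H)).comp C.subtype)
      (by
        intro c hc
        rw [MonoidHom.mem_ker, MonoidHom.comp_apply, ← MonoidHom.mem_ker,
          Abelianization.ker_of] at hc
        refine Subgroup.mem_center_iff.2 fun d => Subtype.ext (Subtype.ext ?_)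
        exact (d.2 _ (Subgroup.map_subtype_commutator H ▸ ⟨_, hc, rfl⟩)).symm)
    refine ⟨⟨fun a b => Subtype.ext ?_⟩⟩
    exact congrArg (fun z : C => ((z : H) : G))
      (h1 ⟨⟨a, hDH a.2⟩, hDC a.2⟩ ⟨⟨b, hDH b.2⟩, hDC b.2⟩)
  have hDE0 : Subgroup.centralizer (Q : Set G) ⊓ D = ⊥ := by
    have h1 := H4.centralizer_inf_commutator_eq_bot hQD (H4.coprime_of_le_right hcop hDH)
    rwa [H4.commutator_commutator_eq hQ hcop (Or.inr hsolv)] at h1
  have hcopED : (Nat.card E).Coprime (Nat.card D) := by
    refine Nat.coprime_of_dvd fun q hq h1 h2 => ?_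
    haveI := Fact.mk hq
    obtain ⟨e, he, heq⟩ := H3.exists_mem_orderOf_eq_prime hq h1
    obtain ⟨d, hd, hdq⟩ := H3.exists_mem_orderOf_eq_prime hq h2
    obtain ⟨P, hP⟩ := exists_sylow_mem (p := q) (g := (⟨e, he.1⟩ : H)) ⟨1, by simpa using heq⟩
    obtain ⟨g, hg⟩ := exists_conj_mem_sylow P (g := (⟨d, hDH hd⟩ : H)) ⟨1, by simpa using hdq⟩
    obtain ⟨k, hk⟩ := mem_zpowers_of_isCyclic (A := (P : Subgroup H)) inferInstance hP hg
      (by rw [orderOf_conj]; simp [heq, hdq])
    have h3 : e ∈ Subgroup.centralizer (Q : Set G) ⊓ D := ⟨he.2, by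
      have h4 : e = ((g : G) * d * (g : G)⁻¹) ^ k := (congrArg Subtype.val hk).symm
      exact h4 ▸ D.zpow_mem ((Subgroup.mem_normalizer_iff.1 (hHD g.2) d).1 hd) k⟩
    rw [hDE0, Subgroup.mem_bot] at h3
    rw [h3, orderOf_one] at heq
    exact hq.one_lt.ne heq
  let N := (D ⊔ Q) ⊔ L
  have hNE : N ⊔ E = ⊤ := by
    rw [eq_top_iff, ← hG, ← hQH', ← hDE]
    exact sup_le (le_sup_of_le_left le_sup_right) (sup_le (le_sup_of_le_left
      (le_sup_of_le_left le_sup_right)) (sup_le (le_sup_of_le_left
        (le_sup_of_le_left le_sup_left)) le_sup_right))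
  haveI hN : N.Normal := by
    refine Subgroup.normalizer_eq_top_iff.1 (eq_top_iff.2 (hNE ▸ sup_le Subgroup.le_normalizer ?_))
    exact H4.le_normalizer_sup (H4.le_normalizer_sup (inf_le_left.trans hHD)
      (inf_le_right.trans (Subgroup.centralizer_le_normalizer _))) Subgroup.le_normalizer_of_normal
  have hcopEN : (Nat.card E).Coprime (Nat.card N) := by
    have h1 : (Nat.card E).Coprime (Nat.card H) → True := fun _ => trivial
    have h2 : Nat.card E ∣ Nat.card H := Subgroup.card_dvd_of_le inf_le_left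
    refine (H3.coprime_card_sup ?_ (hcopHL.symm.coprime_dvd_right h2)).symm
    rw [sup_comm]
    exact H3.coprime_card_sup_of_le_normalizer hQD (hcop.coprime_dvd_right h2) hcopED.symm
  have hc : N.IsComplement' E := Subgroup.isComplement'_of_disjoint_and_mul_eq_univ
    (disjoint_iff.2 (Subgroup.inf_eq_bot_of_coprime hcopEN.symm)) (by
      rw [← Subgroup.normal_mul, hNE, Subgroup.coe_top])
  exact ⟨hc.index_eq_card ▸ hcopEN, N, hN, hc⟩

end Cfsg.Agent.S4151
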