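import Cfsg.Statements.S4152
import Cfsg.Agent.H92.KPi

set_option autoImplicit false
open Cfsg

namespace Cfsg.Agent.S4152

open Cfsg.Agent.H92
open Cfsg.Agent.H2 (IsPiNum)

theorem fiber_le {G : Type*} [Group G] [Finite G] (N : Subgroup G) [N.Normal] (π : Set ℕ)
    (u v : G ⧸ N) : Nat.card {q : G × G // (IsPiNum π (orderOf q.1) ∧ Commute q.1 q.2) ∧
      (q.1 : G ⧸ N) = u ∧ (q.2 : G ⧸ N) = v} ≤ tpi π N := by
  classical
  -- choose base points
  let s : G → G := fun x => if h : ∃ y : G, Commute x y ∧ (y : G ⧸ N) = v then h.choose else 1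
  have hs : ∀ x y : G, Commute x y → (y : G ⧸ N) = v → Commute x (s x) ∧ (s x : G ⧸ N) = v := by
    intro x y h1 h2
    have h : ∃ y : G, Commute x y ∧ (y : G ⧸ N) = v := ⟨y, h1, h2⟩
    simp only [s, dif_pos h]
    exact h.choose_spec
  let t : G → G := fun x => if h : ∃ y : G, Commute x y ∧ (y : G ⧸ N) = u then h.choose else 1
  have ht : ∀ x y : G, Commute x y → (y : G ⧸ N) = u → Commute x (t x) ∧ (t x : G ⧸ N) = u := by
    intro x y h1 h2
    have h : ∃ y : G, Commute x y ∧ (y : G ⧸ N) = u := ⟨y, h1, h2⟩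
    simp only [t, dif_pos h]
    exact h.choose_spec
  choose a b ha hb hab ha1 hb1 using fun g : G => exists_pi_parts π g
  have key : ∀ x y : G, Commute x y → (x : G ⧸ N) = u → (y : G ⧸ N) = v →
      (s x)⁻¹ * y ∈ N ∧ Commute x ((s x)⁻¹ * y) ∧ a ((s x)⁻¹ * y) ∈ N ∧
      (t (a ((s x)⁻¹ * y)))⁻¹ * (x * b ((s x)⁻¹ * y)) ∈ N ∧
      Commute (a ((s x)⁻¹ * y)) ((t (a ((s x)⁻¹ * y)))⁻¹ * (x * b ((s x)⁻¹ * y))) := by
    intro x y hxy hx hy
    obtain ⟨h1, h2⟩ := hs x y hxy hy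
    have h3 : (s x)⁻¹ * y ∈ N := QuotientGroup.eq.1 (h2.trans hy.symm)
    have h4 : Commute x ((s x)⁻¹ * y) := h1.inv_right.mul_right hxy
    set n := (s x)⁻¹ * y
    have h5 : Commute (a n) (x * b n) :=
      (mem_C.1 (Subgroup.zpowers_le.2 (mem_C'.2 h4) (ha n))).mul_right
        (commute_of_mem_zpowers (ha n) (hb n))
    have h6 : ((x * b n : G) : G ⧸ N) = u := by
      rw [QuotientGroup.mk_mul_of_mem _ (Subgroup.zpowers_le.2 h3 (hb n)), hx]
    obtain ⟨h7, h8⟩ := ht _ _ h5 h6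
    exact ⟨h3, h4, Subgroup.zpowers_le.2 h3 (ha n), QuotientGroup.eq.1 (h8.trans h6.symm),
      h7.inv_right.mul_right h5⟩
  refine Nat.card_le_card_of_injective (fun q =>
    ⟨(⟨_, (key q.1.1 q.1.2 q.2.1.2 q.2.2.1 q.2.2.2).2.2.1⟩,
      ⟨_, (key q.1.1 q.1.2 q.2.1.2 q.2.2.1 q.2.2.2).2.2.2.1⟩), by simpa using ha1 _,
      Subtype.ext (key q.1.1 q.1.2 q.2.1.2 q.2.2.1 q.2.2.2).2.2.2.2⟩) ?_
  rintro ⟨⟨x, y⟩, ⟨hx, hxy⟩, hxu, hyv⟩ ⟨⟨x', y'⟩, ⟨hx', hxy'⟩, hxu', hyv'⟩ he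
  simp only [Subtype.mk.injEq, Prod.mk.injEq] at he ⊢
  obtain ⟨e1, e2⟩ := he
  rw [e1, mul_right_inj] at e2
  have c1 := (key x y hxy hxu hyv).2.1
  have c2 := (key x' y' hxy' hxu' hyv').2.1
  have e3 : x = x' := pi_parts_unique (mem_C'.1 (Subgroup.zpowers_le.2 (mem_C'.2 c1) (hb _)))
    (mem_C'.1 (Subgroup.zpowers_le.2 (mem_C'.2 c2) (hb _))) hx (hb1 _) hx' (hb1 _) e2
  subst e3
  refine ⟨rfl, ?_⟩
  rw [mul_right_inj] at e2
  have e4 := hab ((s x)⁻¹ * y)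
  rw [e1, e2, ← hab] at e4
  exact mul_left_cancel e4

/-- Let G be a finite group, N a normal subgroup and π a set of primes. Then the number of conjugacy classes of π-elements of G (elements whose order is divisible only by primes in π) is at most the number of conjugacy classes of π-elements of N (under conjugation by N) times the number of conjugacy classes of π-elements of G/N. -/
theorem result {G : Type*} [Group G] [Finite G] (N : Subgroup G) [N.Normal] (π : Set ℕ) :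
    Nat.card {C : ConjClasses G // ∀ q : ℕ, q.Prime → (∃ g : G, ConjClasses.mk g = C ∧ q ∣ orderOf g) → q ∈ π} ≤ Nat.card {C : ConjClasses N // ∀ q : ℕ, q.Prime → (∃ g : N, ConjClasses.mk g = C ∧ q ∣ orderOf g) → q ∈ π} * Nat.card {C : ConjClasses (G ⧸ N) // ∀ q : ℕ, q.Prime → (∃ g : (G ⧸ N), ConjClasses.mk g = C ∧ q ∣ orderOf g) → q ∈ π} := by
  classical
  rw [← kpi_eq', ← kpi_eq', ← kpi_eq']
  refine Nat.le_of_mul_le_mul_left (c := Nat.card G) ?_ Nat.card_pos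
  have h1 : Nat.card G * (kpi π N * kpi π (G ⧸ N)) = tpi π (G ⧸ N) * tpi π N := by
    rw [tpi_eq, tpi_eq, Subgroup.card_eq_card_quotient_mul_card_subgroup N]; ring
  rw [h1, ← tpi_eq]
  let X := {q : G × G // IsPiNum π (orderOf q.1) ∧ Commute q.1 q.2}
  let Y := {q : (G ⧸ N) × (G ⧸ N) // IsPiNum π (orderOf q.1) ∧ Commute q.1 q.2}
  let f : X → Y := fun q => ⟨(q.1.1, q.1.2), q.2.1.of_dvd (orderOf_map_dvd (QuotientGroup.mk' N) _),
    q.2.2.map (QuotientGroup.mk' N)⟩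
  have := Fintype.ofFinite Y
  change Nat.card X ≤ Nat.card Y * _
  rw [← Nat.card_congr (Equiv.sigmaFiberEquiv f), Nat.card_sigma, Nat.card_eq_fintype_card,
    ← smul_eq_mul, ← Finset.card_univ, ← Finset.sum_const]
  refine Finset.sum_le_sum fun y _ => le_trans ?_ (fiber_le N π y.1.1 y.1.2)
  refine Nat.card_le_card_of_injective (fun q => ⟨q.1.1, q.1.2,
    congrArg (fun z : Y => z.1.1) q.2, congrArg (fun z : Y => z.1.2) q.2⟩) ?_
  intro a b hab
  exact Subtype.ext (Subtype.ext (Subtype.mk.inj hab))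

end Cfsg.Agent.S4152
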