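import Cfsg.Statements.S4153
import Cfsg.Agent.H92.Basic

set_option autoImplicit false
open Cfsg

namespace Cfsg.Agent.S4153

open Cfsg.Agent.H92

theorem card_inf_sylow {G : Type*} [Group G] [Finite G] (p : ℕ) [Fact p.Prime] (N : Subgroup G)
    [N.Normal] (Q : Sylow p G) (Pbar : Sylow p (G ⧸ N)) :
    Nat.card ↥(N ⊓ (Q : Subgroup G)) * Nat.card (Pbar : Subgroup (G ⧸ N)) =
      Nat.card (Q : Subgroup G) := by
  have h1 : Nat.card (Pbar : Subgroup (G ⧸ N)) =
      Nat.card ((Q.mapSurjective (QuotientGroup.mk'_surjective N) : Sylow p (G ⧸ N)) :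
        Subgroup (G ⧸ N)) := by
    rw [Sylow.card_eq_multiplicity, Sylow.card_eq_multiplicity]
  rw [h1, Sylow.coe_mapSurjective, ← Subgroup.relIndex_ker, QuotientGroup.ker_mk',
    ← Subgroup.inf_relIndex_right, Subgroup.relIndex,
    ← Nat.card_congr (Subgroup.subgroupOfEquivOfLe
      (inf_le_right : N ⊓ (Q : Subgroup G) ≤ Q)).toEquiv, Subgroup.card_mul_index]

/-- Let G be a finite group, p a prime, N a normal subgroup, P a Sylow p-subgroup of G and P̄ a Sylow p-subgroup of G/N. Count the elements of p-power order, the identity included. Then (number of such elements of G/N)/#P̄ ≤ (number of such elements of G)/#P, stated as a cross-multiplied inequality, with equality when N is central. -/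
theorem result {G : Type*} [Group G] [Finite G] (p : ℕ) [Fact p.Prime] (N : Subgroup G) [N.Normal]
    (P : Sylow p G) (Pbar : Sylow p (G ⧸ N)) :
    Nat.card {g : (G ⧸ N) // ∃ k : ℕ, orderOf g = p ^ k} * Nat.card (P : Subgroup G) ≤ Nat.card {g : G // ∃ k : ℕ, orderOf g = p ^ k} * Nat.card (Pbar : Subgroup (G ⧸ N)) ∧
    (N ≤ Subgroup.center G → Nat.card {g : (G ⧸ N) // ∃ k : ℕ, orderOf g = p ^ k} * Nat.card (P : Subgroup G) = Nat.card {g : G // ∃ k : ℕ, orderOf g = p ^ k} * Nat.card (Pbar : Subgroup (G ⧸ N))) := by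
  classical
  have hp : p.Prime := Fact.out
  -- every `p`-element of the quotient lifts into a Sylow subgroup
  have hlift : ∀ z : {g : (G ⧸ N) // ∃ k : ℕ, orderOf g = p ^ k},
      ∃ (Q : Sylow p G) (x : G), x ∈ (Q : Subgroup G) ∧ (x : G ⧸ N) = z := by
    rintro ⟨z, hz⟩
    obtain ⟨R, hR⟩ := exists_sylow_mem hz
    obtain ⟨Q, rfl⟩ := Sylow.mapSurjective_surjective (QuotientGroup.mk'_surjective N) p R
    obtain ⟨x, hx, rfl⟩ := hR
    exact ⟨Q, x, hx, rfl⟩
  choose Q x hxQ hx using hlift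
  let f : (Σ z : {g : (G ⧸ N) // ∃ k : ℕ, orderOf g = p ^ k}, ↥(N ⊓ (Q z : Subgroup G))) →
      {g : G // ∃ k : ℕ, orderOf g = p ^ k} := fun w =>
    ⟨x w.1 * w.2, orderOf_eq_pow_of_mem (Q w.1).isPGroup'
      ((Q w.1 : Subgroup G).mul_mem (hxQ _) w.2.2.2)⟩
  have hf : Function.Injective f := by
    rintro ⟨z, n⟩ ⟨z', n'⟩ h
    have h1 : x z * n = x z' * n' := congrArg Subtype.val h
    have h2 : z = z' := by
      apply Subtype.ext
      rw [← hx, ← hx, ← QuotientGroup.mk_mul_of_mem (x z) n.2.1, h1,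
        QuotientGroup.mk_mul_of_mem (x z') n'.2.1]
    subst h2
    congr 1
    exact Subtype.ext (mul_left_cancel h1)
  have := Fintype.ofFinite {g : (G ⧸ N) // ∃ k : ℕ, orderOf g = p ^ k}
  have hc : Nat.card (Σ z : {g : (G ⧸ N) // ∃ k : ℕ, orderOf g = p ^ k},
      ↥(N ⊓ (Q z : Subgroup G))) * Nat.card (Pbar : Subgroup (G ⧸ N)) =
      Nat.card {g : (G ⧸ N) // ∃ k : ℕ, orderOf g = p ^ k} * Nat.card (P : Subgroup G) := by
    rw [Nat.card_sigma, Finset.sum_mul]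
    simp_rw [card_inf_sylow p N _ Pbar, Sylow.card_eq_multiplicity]
    rw [Finset.sum_const, Finset.card_univ, ← Nat.card_eq_fintype_card, smul_eq_mul]
  rw [← hc]
  refine ⟨Nat.mul_le_mul_right _ (Nat.card_le_card_of_injective f hf), fun hN => ?_⟩
  congr 1
  refine Nat.card_congr (Equiv.ofBijective f ⟨hf, ?_⟩)
  rintro ⟨g, k, hk⟩
  have hz : ∃ j : ℕ, orderOf (g : G ⧸ N) = p ^ j := by
    have : orderOf (QuotientGroup.mk' N g) ∣ p ^ k := hk ▸ orderOf_map_dvd _ g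
    obtain ⟨j, -, hj⟩ := (Nat.dvd_prime_pow hp).1 this
    exact ⟨j, hj⟩
  set z : {g : (G ⧸ N) // ∃ k : ℕ, orderOf g = p ^ k} := ⟨_, hz⟩ with hzdef
  have h1 : (x z)⁻¹ * g ∈ N := QuotientGroup.eq.1 (hx z)
  have h2 : Commute ((x z)⁻¹) g := by
    have := Subgroup.mem_center_iff.1 (hN h1) g
    rw [← mul_assoc] at this
    exact (mul_right_cancel this).symm
  obtain ⟨j, hj⟩ := orderOf_eq_pow_of_mem (Q z).isPGroup' ((Q z : Subgroup G).inv_mem (hxQ z))
  have h3 : ∃ i : ℕ, orderOf ((x z)⁻¹ * g) = p ^ i := by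
    have h4 := h2.orderOf_mul_dvd_mul_orderOf
    rw [hj, hk, ← pow_add] at h4
    obtain ⟨i, -, hi⟩ := (Nat.dvd_prime_pow hp).1 h4
    exact ⟨i, hi⟩
  obtain ⟨y, hy⟩ := exists_conj_mem_sylow (Q z) h3
  rw [Subgroup.mem_center_iff.1 (hN h1) y, mul_inv_cancel_right] at hy
  exact ⟨⟨z, ⟨_, h1, hy⟩⟩, Subtype.ext (mul_inv_cancel_left _ _)⟩

end Cfsg.Agent.S4153
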