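import Cfsg.Statements.S4154

set_option autoImplicit false
open Cfsg

namespace Cfsg.Agent.S4154

theorem aux {H : Type*} [Group H] [Finite H] (β : H →* H)
    (h : ∀ x : H, ∃ c g : H, β c = c ∧ x = c * (g⁻¹ * β g)) (g : H)
    (hg : β (g⁻¹ * β g) = g⁻¹ * β g) : g⁻¹ * β g = 1 := by
  classical
  let C : Subgroup H := β.eqLocus (MonoidHom.id H)
  have hC : ∀ c : H, c ∈ C ↔ β c = c := fun c => Iff.rfl
  let F : (H ⧸ C) × C → H := fun z => (z.2 : H) *
    Quotient.liftOn' z.1 (fun y : H => y * β y⁻¹) (by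
      intro a b hab
      rw [QuotientGroup.leftRel_apply, hC, map_mul] at hab
      have : β b⁻¹ = (a⁻¹ * b)⁻¹ * β a⁻¹ := by
        rw [← hab]; simp
      rw [this]; group)
  have hsurj : Function.Surjective F := by
    intro x
    obtain ⟨c, y, hc, rfl⟩ := h x
    refine ⟨(QuotientGroup.mk y⁻¹, ⟨c, hc⟩), ?_⟩
    change c * (y⁻¹ * β y⁻¹⁻¹) = _
    rw [inv_inv]
  have hcard : Nat.card ((H ⧸ C) × C) = Nat.card H := by
    rw [Nat.card_prod, ← Subgroup.card_eq_card_quotient_mul_card_subgroup]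
  have hinj : Function.Injective F :=
    (Function.Surjective.bijective_of_nat_card_le hsurj hcard.le).1
  have : ((QuotientGroup.mk g⁻¹ : H ⧸ C), (1 : C)) =
      ((QuotientGroup.mk 1 : H ⧸ C), (⟨g⁻¹ * β g, hg⟩ : C)) := by
    apply hinj
    change (1 : H) * (g⁻¹ * β g⁻¹⁻¹) = (g⁻¹ * β g) * (1 * β 1⁻¹)
    simp
  have h2 := congrArg (fun z : (H ⧸ C) × C => (z.2 : H)) this
  exact h2.symm

/-- Let G be a finite group and α an automorphism of G such that every element of G is the product of an element fixed by α and an element of the form g⁻¹α(g). If N is a normal α-invariant subgroup, then the automorphism ᾱ induced on G/N has the same property, and every coset fixed by ᾱ contains an element fixed by α (so the fixed points of ᾱ are the images of the fixed points of α). -/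
theorem result {G : Type*} [Group G] [Finite G] (α : MulAut G)
    (hccp : ∀ x : G, ∃ c g : G, α c = c ∧ x = c * (g⁻¹ * α g))
    (N : Subgroup G) [N.Normal] (hN : ∀ n ∈ N, α n ∈ N) :
    (∀ x : G, ∃ c g : G, c⁻¹ * α c ∈ N ∧ x⁻¹ * (c * (g⁻¹ * α g)) ∈ N) ∧
    (∀ x : G, x⁻¹ * α x ∈ N → ∃ c : G, α c = c ∧ c⁻¹ * x ∈ N) := by
  constructor
  · intro x
    obtain ⟨c, g, hc, hx⟩ := hccp x
    refine ⟨c, g, ?_, ?_⟩
    · rw [hc, inv_mul_cancel]; exact N.one_mem
    · rw [← hx, inv_mul_cancel]; exact N.one_mem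
  · intro x hx
    let β : G ⧸ N →* G ⧸ N := QuotientGroup.map N N α.toMonoidHom (fun n hn => hN n hn)
    have hβ : ∀ y : G, β (QuotientGroup.mk y) = QuotientGroup.mk (α y) := fun y => rfl
    have h1 : ∀ z : G ⧸ N, ∃ c g : G ⧸ N, β c = c ∧ z = c * (g⁻¹ * β g) := by
      intro z
      obtain ⟨y, rfl⟩ := QuotientGroup.mk_surjective z
      obtain ⟨c, g, hc, hy⟩ := hccp y
      refine ⟨QuotientGroup.mk c, QuotientGroup.mk g, by rw [hβ, hc], ?_⟩
      rw [hβ, hy]; simp
    obtain ⟨c, g, hc, hxe⟩ := hccp x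
    refine ⟨c, hc, ?_⟩
    have h2 : c⁻¹ * x = g⁻¹ * α g := by rw [hxe]; group
    have h3 := aux β h1 (QuotientGroup.mk g) (by
      rw [hβ, ← QuotientGroup.mk_inv, ← QuotientGroup.mk_mul, ← h2, hβ, map_mul, map_inv, hc,
        QuotientGroup.mk_mul, QuotientGroup.mk_mul]
      congr 1
      exact (QuotientGroup.eq.2 hx).symm)
    rw [hβ, ← QuotientGroup.mk_inv, ← QuotientGroup.mk_mul, QuotientGroup.eq_one_iff] at h3
    rwa [h2]

end Cfsg.Agent.S4154
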