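import Cfsg.Statements.S4155
import Cfsg.Agent.H92.Isol
import Cfsg.Agent.H3.Fitting
import Cfsg.Agent.H4.Schmidt
import Cfsg.Agent.H5.Semiregular

set_option autoImplicit false
open Cfsg

namespace Cfsg.Agent.S4155

open Cfsg.Agent.H92



/-- Let G be a finite group and N a proper non-trivial normal nilpotent subgroup whose order is not a prime power, such that for every x outside N all elements of the coset xN have the same order as x. Then N is the Fitting subgroup of G, and for every prime q every Sylow q-subgroup of G/N is cyclic or generalized quaternion. -/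
theorem result {G : Type*} [Group G] [Finite G] (N : Subgroup G) [N.Normal] (hN1 : N ≠ ⊥) (hN2 : N ≠ ⊤)
    (heq : ∀ x : G, x ∉ N → ∀ n ∈ N, orderOf (x * n) = orderOf x)
    (hnil : Group.IsNilpotent N) (hnpp : ¬ IsPrimePow (Nat.card N)) :
    N = Cfsg.fittingSubgroup G ∧
    ∀ (q : ℕ) [Fact q.Prime] (Q : Sylow q (G ⧸ N)), IsCyclic (Q : Subgroup (G ⧸ N)) ∨ ∃ n : ℕ, Nonempty ((Q : Subgroup (G ⧸ N)) ≃* QuaternionGroup (2 ^ n)) := by
  have key : ∀ x : G, x ∉ N → ∀ n ∈ N, Commute x n → (orderOf x).Coprime (orderOf n) → n = 1 := by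
    intro x hx n hn hc hcop
    have h1 := heq x hx n hn
    rw [hc.orderOf_mul_eq_mul_orderOf_of_coprime hcop] at h1
    rw [← orderOf_eq_one_iff]
    exact Nat.eq_of_mul_eq_mul_left (orderOf_pos x) (by rw [h1, mul_one])
  have hr : ∀ q : ℕ, q.Prime → ∃ r : ℕ, r.Prime ∧ q ≠ r ∧ ∃ n ∈ N, orderOf n = r := by
    intro q hq
    by_contra hc
    push Not at hc
    apply hnpp
    obtain ⟨k, hk⟩ := (eq_pow_iff_forall hq (Nat.card_pos (α := N)).ne').2 fun r hr hd => by
      by_contra hne
      haveI := Fact.mk hr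
      obtain ⟨n, hn⟩ := exists_prime_orderOf_dvd_card' r hd
      exact hc r hr (Ne.symm hne) n n.2 (by rwa [Subgroup.orderOf_coe])
    refine (isPrimePow_nat_iff _).2 ⟨q, k, hq, Nat.pos_of_ne_zero ?_, hk.symm⟩
    rintro rfl
    exact hN1 (Subgroup.eq_bot_of_card_eq N hk)
  have hNF : N ≤ fittingSubgroup G := H3.le_fitting hnil
  refine ⟨le_antisymm hNF fun g hg => ?_, fun q _ Q => ?_⟩
  · by_contra hgN
    obtain ⟨x, hx, q, hq, -, hxq, hxN⟩ := exists_primePow_not_mem hgN
    obtain ⟨r, hr, hqr, n, hn, hnr⟩ := hr q hq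
    have hcop := coprime_of_pow_of_pow hq hr hqr hxq (b := orderOf n) ⟨1, by rw [hnr, pow_one]⟩
    have := key x hxN n hn (H4.commute_of_isNilpotent_of_coprime (H3.fitting_isNilpotent G)
      (Subgroup.zpowers_le.2 hg hx) (hNF hn) hcop) hcop
    rw [this, orderOf_one] at hnr
    exact hr.one_lt.ne hnr
  · have hq : q.Prime := Fact.out
    obtain ⟨r, hr, hqr, n, hn, hnr⟩ := hr q hq
    haveI := Fact.mk hr
    have h1 : pCore r G ⊓ N ≠ ⊥ := by
      intro h
      have : n ∈ pCore r G ⊓ N := ⟨H3.le_pCore_of_le_fitting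
        ((isPGroup_zpowers_iff n).2 ⟨1, by rw [hnr, pow_one]⟩)
        (Subgroup.zpowers_le.2 (hNF hn)) (Subgroup.mem_zpowers n), hn⟩
      rw [h, Subgroup.mem_bot] at this
      rw [this, orderOf_one] at hnr
      exact hr.one_lt.ne hnr
    have h2 := H3.inf_centralizer_ne_bot_of_isNilpotent hnil inf_le_right
      Subgroup.le_normalizer_of_normal h1
    set V := pCore r G ⊓ N ⊓ Subgroup.centralizer (N : Set G) with hV
    haveI : V.Normal := inferInstance
    haveI : Nontrivial V := (Subgroup.nontrivial_iff_ne_bot V).2 h2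
    let φ : G ⧸ N →* MulAut V := QuotientGroup.lift N MulAut.conjNormal fun a ha => by
      ext v
      simp [← Subgroup.mem_centralizer_iff.1 v.2.2 a ha |>.symm]
    letI : MulDistribMulAction (Q : Subgroup (G ⧸ N)) V :=
      MulDistribMulAction.compHom V (φ.comp (Q : Subgroup (G ⧸ N)).subtype)
    have hs : H5.Semireg (Q : Subgroup (G ⧸ N)) V := by
      intro a ha v hv
      obtain ⟨x, hx, hxq⟩ := exists_p_lift (QuotientGroup.mk'_surjective N) hq
        (orderOf_eq_pow_of_mem Q.isPGroup' a.2)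
      have h3 : φ a v = v := hv
      rw [← hx] at h3
      have h4 : x * v * x⁻¹ = v := congrArg Subtype.val h3
      refine Subtype.ext (key x (fun hxN => ha (Subtype.ext ?_)) v v.2.1.2
        (mul_inv_eq_iff_eq_mul.1 h4) (coprime_of_pow_of_pow hq hr hqr hxq
          (orderOf_eq_pow_of_mem (H3.pCore_isPGroup r G) v.2.1.1)))
      rw [← hx]
      exact (QuotientGroup.eq_one_iff x).2 hxN
    exact (hs.isCyclic_or_quaternion Q.isPGroup').imp_right fun h => h.2

end Cfsg.Agent.S4155
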