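import Cfsg.Statements.S4156
import Cfsg.Prelude.Def_Perm

set_option autoImplicit false
open Cfsg

namespace Cfsg.Agent.S4156

theorem hom_trivial_of_comm {A B : Type*} [Group A] [Group B] (hA : commutator A = ⊤) (f : A →* B)
    (hf : ∀ x y, f x * f y = f y * f x) (a : A) : f a = 1 := by
  have : commutator A ≤ f.ker := by
    rw [commutator_def, Subgroup.commutator_le]
    intro x _ y _
    rw [MonoidHom.mem_ker, map_commutatorElement, commutatorElement_eq_one_iff_mul_comm, hf]
  rw [hA] at this
  exact this (Subgroup.mem_top a)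

/-- Let n ≥ 5 and F a finite field. Then the projective special linear group PSL_n(F) contains a subgroup isomorphic to the alternating group of degree n + 1. -/
theorem result (n : ℕ) (hn : 5 ≤ n) (F : Type*) [Field F] [Finite F] :
    ∃ f : alternatingGroup (Fin (n + 1)) →* Matrix.ProjectiveSpecialLinearGroup (Fin n) F, Function.Injective f := by
  classical
  have h5 : 5 ≤ Nat.card (Fin (n + 1)) := by simp; omega
  have hsimple := alternatingGroup.isSimpleGroup h5
  have hperf := commutator_alternatingGroup_eq_top h5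
  set A := alternatingGroup (Fin (n + 1)) with hA
  let W := permSumZero F A (Fin (n + 1))
  let s : (Fin (n + 1) → F) →ₗ[F] F := ∑ i, LinearMap.proj i
  have hs : ∀ v, s v = ∑ i, v i := by intro v; simp [s]
  have hW : W.toSubmodule = LinearMap.ker s := by
    ext v; rw [LinearMap.mem_ker, hs]; rfl
  have hrank : Module.finrank F W.toSubmodule = n := by
    have h1 := LinearMap.finrank_range_add_finrank_ker s
    have h2 : LinearMap.range s = ⊤ := by
      rw [LinearMap.range_eq_top]
      intro c
      exact ⟨Pi.single 0 c, by rw [hs]; simp⟩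
    rw [h2, finrank_top, Module.finrank_self, Module.finrank_fin_fun] at h1
    rw [hW]; omega
  let b := Module.finBasisOfFinrankEq F W.toSubmodule hrank
  let ρ : A →* Matrix (Fin n) (Fin n) F :=
    ((LinearMap.toMatrixAlgEquiv b).toAlgHom.toMonoidHom).comp W.toRepresentation
  have hdet : ∀ a, (ρ a).det = 1 := by
    intro a
    have := hom_trivial_of_comm hperf ((Matrix.detMonoidHom.comp ρ).toHomUnits)
      (fun x y => mul_comm _ _) a
    exact congrArg Units.val this
  let ρ' : A →* Matrix.SpecialLinearGroup (Fin n) F :=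
    { toFun := fun a => ⟨ρ a, hdet a⟩
      map_one' := Subtype.ext (map_one ρ)
      map_mul' := fun x y => Subtype.ext (map_mul ρ x y) }
  refine ⟨(QuotientGroup.mk' _).comp ρ', ?_⟩
  rw [← MonoidHom.ker_eq_bot_iff]
  refine (MonoidHom.normal_ker _).eq_bot_or_eq_top.resolve_right fun htop => ?_
  have h1 : ∀ a, ρ' a ∈ Subgroup.center _ := by
    intro a
    have : a ∈ ((QuotientGroup.mk' (Subgroup.center
      (Matrix.SpecialLinearGroup (Fin n) F))).comp ρ').ker := by rw [htop]; trivial
    rwa [MonoidHom.mem_ker, MonoidHom.comp_apply, QuotientGroup.mk'_apply,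
      QuotientGroup.eq_one_iff] at this
  have h2 := hom_trivial_of_comm hperf ρ' (fun x y => Subgroup.mem_center_iff.1 (h1 y) _)
  have h3 : ∀ a, W.toRepresentation a = 1 := by
    intro a
    apply (LinearMap.toMatrixAlgEquiv b).injective
    rw [map_one]
    exact congrArg Subtype.val (h2 a)
  let i0 : Fin (n + 1) := ⟨0, by omega⟩
  let i1 : Fin (n + 1) := ⟨1, by omega⟩
  let i2 : Fin (n + 1) := ⟨2, by omega⟩
  have h01 : i0 ≠ i1 := by simp [i0, i1]
  have h02 : i0 ≠ i2 := by simp [i0, i2]
  have h12 : i1 ≠ i2 := by simp [i1, i2]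
  let a : A := ⟨Equiv.swap i0 i1 * Equiv.swap i0 i2, by
    rw [hA, Equiv.Perm.mem_alternatingGroup]; simp [h01, h02]⟩
  let v : W.toSubmodule := ⟨Pi.single i0 1 - Pi.single i1 1, by
    rw [hW, LinearMap.mem_ker, hs]; simp [Finset.sum_sub_distrib]⟩
  have h4 : W.toRepresentation a⁻¹ v = v := by rw [h3]; rfl
  have h5 := congrFun (congrArg Subtype.val h4) i0
  change (v : Fin (n + 1) → F) ((a⁻¹⁻¹ : A) • i0) = _ at h5
  rw [inv_inv] at h5
  have h6 : a • i0 = i2 := by
    change (Equiv.swap i0 i1 * Equiv.swap i0 i2) i0 = i2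
    rw [Equiv.Perm.mul_apply, Equiv.swap_apply_left, Equiv.swap_apply_of_ne_of_ne h02.symm h12.symm]
  rw [h6] at h5
  simp [v, h01, h02.symm, h12.symm] at h5

end Cfsg.Agent.S4156
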