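import Cfsg.Statements.S4162
import Cfsg.Agent.H53.AhAsm
import Cfsg.Agent.H81.AhNum
import Cfsg.Agent.H7.AhQuo
import Cfsg.Agent.H14.AhC4b
import Cfsg.Agent.H59.AhSd
import Cfsg.Agent.H85.AhCore
import Cfsg.Agent.H67.AhT2
import Cfsg.Agent.H39.AhNo5
import Cfsg.Agent.H22.AhTwo
import Cfsg.Agent.H36.AhOrth
import Cfsg.Agent.H79.AhLift
import Cfsg.Agent.H94.AhT
import Cfsg.Agent.H45.AhNsc
import Cfsg.Agent.H69.AhE2
import Cfsg.Agent.H64.AhE4
import Cfsg.Agent.H70.AhTrp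
import Cfsg.Agent.H29.AhO64P
import Cfsg.Agent.H32.AhO64

set_option autoImplicit false
open Cfsg

namespace Cfsg.Agent.S4162

/-- Let G be a non-trivial finite solvable group in which distinct conjugacy classes have distinct sizes. Then G is isomorphic to the symmetric group of degree 3. -/
theorem result {G : Type*} [Group G] [Finite G] [Nontrivial G] (hG : Group.IsSolvable G)
    (h : Function.Injective fun C : ConjClasses G => Nat.card C.carrier) : Nonempty (G ≃* Equiv.Perm (Fin 3)) := by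
  exact H53.AH.final H81.Ah.c2 H81.Ah.num H7.AhQ.quo H81.Ah.c4a (H14.AhC4b.c4b H81.Ah.sum)
    (H39.AH5.no5 H59.AhSd.sd (H67.AhT2.t2 H59.AhSd.sd H85.AhC.core)
      (H53.AH.t4 (H36.AhO.orth (H22.AH.two H39.AH5.cnt)) H79.AhLift.lift H45.Nsc.nsc
        (H69.AhE2.e2 H39.AH5.cnt) (H64.AhE.e4 H39.AH5.cnt)
        (H70.AhTrp.enum H39.AH5.cnt H70.AhTrp.trp (H32.AhO.o64 H29.AhO64P.o64p)))
      (H94.AH.t5 H79.AhLift.pair) (H94.AH.t7 H79.AhLift.pair)) G hG h

end Cfsg.Agent.S4162
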