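import Cfsg.Statements.S4170
import Mathlib
-- import your own Cfsg.Agent.* helpers here

set_option autoImplicit false
open scoped Pointwise
open Cfsg

namespace Cfsg.Agent.S4170

/-- Let p be an odd prime and G a nontrivial group of permutations of a finite set Ω that is generated by its elements of p-power order. Then Ω has two disjoint nonempty subsets Δ₁ and Δ₂ such that the index in G of the subgroup of elements mapping Δ₁ onto Δ₁ and Δ₂ onto Δ₂ (and hence also the complement of their union onto itself) is divisible by p. -/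
theorem result {Ω : Type*} [Fintype Ω] (p : ℕ) [Fact p.Prime] (hp : p ≠ 2) (G : Subgroup (Equiv.Perm Ω)) (hG : G ≠ ⊥) (hgen : Subgroup.closure {g : G | ∃ k : ℕ, orderOf g = p ^ k} = ⊤) :
    ∃ Δ₁ Δ₂ : Set Ω, Δ₁.Nonempty ∧ Δ₂.Nonempty ∧ Disjoint Δ₁ Δ₂ ∧ p ∣ (MulAction.stabilizer G Δ₁ ⊓ MulAction.stabilizer G Δ₂).index := by
  classical
  have h1 : ∃ g : G, (∃ k : ℕ, orderOf g = p ^ k) ∧ g ≠ 1 := by
    by_contra h
    push Not at h
    have : (⊤ : Subgroup G) ≤ ⊥ := hgen ▸ (Subgroup.closure_le _).2 fun g hg => h g hg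
    exact hG (eq_bot_iff.2 fun g hg =>
      congrArg Subtype.val (Subgroup.mem_bot.1 (this (Subgroup.mem_top (⟨g, hg⟩ : G)))))
  obtain ⟨g, ⟨k, hk⟩, hg1⟩ := h1
  have h2 : ∃ a : Ω, g • a ≠ a := by
    by_contra h
    push Not at h
    exact hg1 (Subtype.ext (Equiv.ext h))
  obtain ⟨a, ha⟩ := h2
  set P := Subgroup.zpowers g with hP
  have hPp : IsPGroup p P := IsPGroup.of_card (n := k) (by rw [hP, Nat.card_zpowers, hk])
  set O : Set Ω := MulAction.orbit P a with hO
  have haO : a ∈ O := MulAction.mem_orbit_self a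
  have hga : g • a ∈ O := ⟨⟨g, Subgroup.mem_zpowers g⟩, rfl⟩
  set K := MulAction.stabilizer G O with hK
  have hPK : P ≤ K := fun x hx => MulAction.smul_orbit (⟨x, hx⟩ : P) a
  have hOK : MulAction.orbit K a = O := by
    refine Set.Subset.antisymm ?_ ?_
    · rintro _ ⟨x, rfl⟩
      have := Set.smul_mem_smul_set (a := (x : G)) haO
      rwa [(x.2 : (x : G) • O = O)] at this
    · rintro _ ⟨x, rfl⟩
      exact ⟨⟨x, hPK x.2⟩, rfl⟩
  have hd : p ∣ O.ncard := by
    obtain ⟨n, hn⟩ := hPp.card_orbit a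
    rw [← Nat.card_coe_set_eq, hO, hn]
    refine dvd_pow_self p fun h0 => ha ?_
    rw [h0, pow_zero] at hn
    exact congrArg Subtype.val ((Nat.card_eq_one_iff_unique.1 hn).1.elim (⟨_, hga⟩ : O) ⟨a, haO⟩)
  refine ⟨{a}, O \ {a}, ⟨a, rfl⟩, ⟨g • a, hga, ha⟩, Set.disjoint_sdiff_right, ?_⟩
  set H := MulAction.stabilizer G ({a} : Set Ω) ⊓ MulAction.stabilizer G (O \ {a}) with hH
  have hle : H ≤ K := fun x hx => by
    have e : O = {a} ∪ (O \ {a}) := (Set.union_diff_cancel (Set.singleton_subset_iff.2 haO)).symm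
    change x • O = O
    rw [e, Set.smul_set_union, (hx.1 : x • ({a} : Set Ω) = {a}), (hx.2 : x • (O \ {a}) = O \ {a})]
  have hle2 : H.subgroupOf K ≤ MulAction.stabilizer K a := fun x hx => by
    have : (x : G) • ({a} : Set Ω) = {a} := hx.1
    rw [Set.smul_set_singleton] at this
    exact Set.singleton_injective this
  refine dvd_trans ?_ (Subgroup.relIndex_dvd_index_of_le hle)
  refine dvd_trans ?_ (Subgroup.index_dvd_of_le hle2)
  rwa [MulAction.index_stabilizer, hOK]

end Cfsg.Agent.S4170
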