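import Cfsg.Statements.S4172
import Cfsg.Agent.H63.BG1
import Cfsg.Agent.H8.Tate
import Cfsg.Agent.H2.Gaschutz
import Cfsg.Agent.H53.Basic
import Cfsg.Agent.H52.Pump
import Cfsg.Agent.H71.PRel

set_option autoImplicit false
open Cfsg

namespace Cfsg.Agent.S4172

open Subgroup Cfsg.Agent.H63 Cfsg.Agent.H52
open scoped commutatorElement

section
variable {G : Type*} [Group G] [Finite G] {p : ℕ} [hp : Fact p.Prime]

theorem gen {P U : Subgroup G} (h : (frattiniOf P).relIndex P = p ^ 2) (hU : U ≤ P)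
    (hn : ¬ U ≤ frattiniOf P) : ∃ y ∈ P, U ⊔ zpowers y = P := by
  have l := sup_le hU (frattiniOf_le P)
  by_cases e : P ≤ U ⊔ frattiniOf P
  · exact ⟨1, one_mem _, by rw [zpowers_one_eq_bot, sup_bot_eq,
      eq_of_sup_frattiniOf (le_antisymm l e)]⟩
  obtain ⟨y, hy, hy'⟩ := SetLike.not_le_iff_exists.1 e
  have l2 := sup_le l (zpowers_le.2 hy)
  refine ⟨y, hy, eq_of_sup_frattiniOf (le_antisymm (sup_le (sup_le hU (zpowers_le.2 hy))
    (frattiniOf_le P)) (le_trans (relIndex_eq_one.1 ?_) (sup_right_comm _ _ _).le))⟩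
  rw [← relIndex_mul_relIndex _ _ _ le_sup_right l, ← relIndex_mul_relIndex _ _ _ le_sup_left l2] at h
  have d : ∀ a, a ∣ p ^ 2 → a ≠ 1 → p ∣ a := fun a ha a1 => by_contra fun c =>
    a1 (Nat.Coprime.eq_one_of_dvd (Nat.Coprime.pow_right 2 ((hp.out.coprime_iff_not_dvd.2 c).symm)) ha)
  obtain ⟨a, ha⟩ := d _ (Dvd.intro _ h) fun c => hn (le_sup_left.trans (relIndex_eq_one.1 c))
  obtain ⟨b, hb⟩ := d _ ((Dvd.intro _ rfl).trans (Dvd.intro_left _ h)) fun c =>
    hy' (relIndex_eq_one.1 c (mem_sup_right (mem_zpowers y)))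
  rw [ha, hb] at h
  exact Nat.eq_one_of_mul_eq_one_left (m := a * b)
    (Nat.eq_of_mul_eq_mul_left (pow_pos hp.out.pos 2) (by rw [mul_one]; exact Eq.trans (by ring) h))

omit [Finite G] in
theorem der {P U : Subgroup G} {y : G} (e : U ⊔ zpowers y = P) (hn : P ≤ N[U]) : ⁅P, P⁆ ≤ U := by
  have hy : zpowers y ≤ N[U] := (e ▸ le_sup_right : zpowers y ≤ P).trans hn
  nth_rewrite 2 [← e]
  refine commutator_sup_le_of_le_normalizer le_normalizer hy
    (le_normalizer_iff_commutator_le_right.1 hn) ?_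
  rw [commutator_comm, ← e]
  exact commutator_sup_le_of_le_normalizer le_normalizer hy (le_normalizer_iff_commutator_le_right.1 hy)
    ((commutator_zpowers_zpowers_eq_bot rfl).le.trans bot_le)

theorem tate (P : Sylow p G) (hc : pPrimeCore p G = ⊥) {M : Subgroup G} (hM : M.IsSubnormal)
    (hP : P.1 ≤ N[M]) (h : M ⊓ P ≤ frattiniOf P.1) : M ≤ frattiniOf P.1 := by
  have hn : (M.subgroupOf (M ⊔ P)).Normal :=
    (normal_subgroupOf_iff_le_normalizer le_sup_left).2 (sup_le le_normalizer hP)
  obtain ⟨k, hk⟩ := H71.exists_relIndex_eq_pow P.2 M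
  have l : (pResidual p ↥(M ⊔ P)).map (M ⊔ P).subtype ≤ M := map_le_iff_le_comap.2
    (H8.pResidual_le_of_index_eq_pow (N := M.subgroupOf (M ⊔ P)) ((H53.relIndex_sup_of_le_normalizer hP).trans hk))
  have c := H8.hasNormalPComplement_iff_coprime.1 ((H8.isSylowIn_of_le P
    le_sup_right).hasNormalPComplement_of_le_frattini ((le_inf (inf_le_right.trans l) inf_le_left).trans h))
  have b := le_pPrimeCore_of_subnormal (isSubnormal_of_le_normalizer hM l (le_sup_left.trans
    (le_normalizer_map_subtype _))) (by rwa [card_map_of_injective (subtype_injective _)])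
  rw [hc, le_bot_iff, map_subtype_eq_bot_iff, H8.pResidual_eq_bot_iff] at b
  exact (le_inf le_rfl (le_sup_left.trans (P.3 b le_sup_right).le)).trans h

end

/-- Let p be a prime and G a finite group with a non-commutative Sylow p-subgroup P whose Frattini subgroup has index p² in P (P is generated by two elements). Suppose G has no nontrivial normal subgroup of order prime to p and the Frattini subgroup of P contains no nontrivial normal subgroup of G. Then the generalized Fitting subgroup F*(G) is the unique minimal normal subgroup of G, the image of P in G/F*(G) is cyclic, and if F*(G) is not commutative then P permutes the components of G transitively by conjugation. -/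
theorem result {G : Type*} [Group G] [Finite G] (p : ℕ) [Fact p.Prime] (P : Sylow p G) (hna : ¬ IsMulCommutative (P : Subgroup G)) (hgen : (frattini ↥(P : Subgroup G)).index = p ^ 2) (hcore : Cfsg.pPrimeCore p G = ⊥) (hfrat : ((frattini ↥(P : Subgroup G)).map (P : Subgroup G).subtype).normalCore = ⊥) [hFn : (Cfsg.generalizedFittingSubgroup G).Normal] :
    (Cfsg.generalizedFittingSubgroup G ≠ ⊥ ∧ ∀ K : Subgroup G, K.Normal → K ≠ ⊥ → Cfsg.generalizedFittingSubgroup G ≤ K) ∧
      IsCyclic ↥((P : Subgroup G).map (QuotientGroup.mk' (Cfsg.generalizedFittingSubgroup G))) ∧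
      (¬ IsMulCommutative (Cfsg.generalizedFittingSubgroup G) → ∀ K L : Subgroup G, Cfsg.IsComponent K → Cfsg.IsComponent L → ∃ x ∈ (P : Subgroup G), L = K.map (MulAut.conj x).toMonoidHom) := by
  have key : ∀ M : Subgroup G, M.IsSubnormal → P.1 ≤ N[M] → ¬ M ≤ frattiniOf P.1 →
      ∃ y ∈ P.1, M ⊓ P ⊔ zpowers y = P := fun M h1 h2 h3 => gen (by
    rw [frattiniOf, relIndex, ← hgen, subgroupOf, comap_map_eq_self_of_injective (subtype_injective _)])
    inf_le_right fun c => h3 (tate P hcore h1 h2 c)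
  have key' : ∀ M : Subgroup G, M.IsSubnormal → P.1 ≤ N[M] → ¬ M ≤ frattiniOf P.1 → ⁅P.1, P.1⁆ ≤ M :=
    fun M h1 h2 h3 => by
      obtain ⟨y, -, e⟩ := key M h1 h2 h3
      exact (der e (le_normalizer_inf h2 le_normalizer)).trans inf_le_left
  have nf : ∀ K : Subgroup G, K.Normal → K ≠ ⊥ → ¬ K ≤ frattiniOf P.1 := fun K _ ne c =>
    ne (le_bot_iff.1 (hfrat ▸ normal_le_normalCore.2 c))
  have hK := fun (K : Subgroup G) (n : K.Normal) ne =>
    key K n.isSubnormal (haveI := n; le_normalizer_of_normal) (nf K n ne)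
  have hK' := fun (K : Subgroup G) (n : K.Normal) ne =>
    key' K n.isSubnormal (haveI := n; le_normalizer_of_normal) (nf K n ne)
  have hD : ¬ ⁅P.1, P.1⁆ ≤ ⊥ := fun c => hna (derived_eq_bot_iff.1 (le_bot_iff.1 c))
  have h0 : generalizedFittingSubgroup G ≠ ⊥ := fun c => hD (by
    have := centralizer_fstar_le (G := G)
    rw [c] at this
    exact (le_centralizer_iff.1 bot_le).trans this)
  have hF := fitting_eq_pCore_of_pPrimeCore_eq_bot hcore
  have hVn : (pCore p G).Normal := pCore_normal p G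
  have hVP := pCore_le_sylow P
  have hV : IsElementaryAbelian p (pCore p G) := (frattiniOf_eq_bot_iff pCore_isPGroup).1
    (by_contra fun c => nf _ (normal_of_top_le_normalizer (le_normalizer_of_normal.trans
      (norm_le_norm_frattiniOf _))) c (frattiniOf_mono P.2 hVP))
  have cV : ∀ a ∈ pCore p G, ∀ b ∈ pCore p G, a * b = b * a := fun a ha b hb =>
    congrArg Subtype.val (hV.1.1.1 ⟨a, ha⟩ ⟨b, hb⟩)
  have hE : layer G ≠ ⊥ → pCore p G = ⊥ := fun ne => by_contra fun c => by
    have := layer_normal (G := G)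
    obtain ⟨y, hy, e⟩ := hK _ hVn c
    rw [inf_eq_left.2 hVP] at e
    have cE := commutator_eq_bot_iff_le_centralizer.1 (commutator_layer_pCore (G := G) (p := p))
    refine hD (le_trans ?_ ((H8.isSylowIn_inf_normal P (layer G)).inf_commutator_inf_centralizer
      ⟨⟨fun s t => Subtype.ext ?_⟩⟩).le)
    · exact le_inf (le_inf (le_inf (le_normalizer_iff_commutator_le_right.1 le_normalizer)
        (hK' _ this ne)) ((hK' _ this ne).trans (by rw [← Ly_top, commutator_Ly_self])))
        ((hK' _ hVn c).trans (le_centralizer_iff.1 cE))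
    obtain ⟨v, hv, i, hs⟩ := (H71.sup_zpowers_mem (le_normalizer_of_normal (mem_top y))).1 (e.ge s.2.1)
    obtain ⟨w, hw, j, ht⟩ := (H71.sup_zpowers_mem (le_normalizer_of_normal (mem_top y))).1 (e.ge t.2.1)
    have c1 : Commute (t : G) v := (cE t.2.2 v hv).symm
    have c2 : Commute w (s : G) := cE s.2.2 w hw
    have c3 : Commute (y ^ j) v := by
      rw [← inv_mul_cancel_left w (y ^ j), ← ht]
      exact Commute.mul_left (Commute.inv_left (cV w hw v hv)) c1
    have c4 : Commute (y ^ j) (s : G) := hs ▸ c3.mul_right (Commute.zpow_zpow_self y j i)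
    exact (ht ▸ c2.mul_left c4 : Commute (t : G) s).symm
  refine ⟨⟨h0, fun K n ne => ?_⟩, ?_, fun hc K L h1 h2 => by_contra fun c => ?_⟩
  · by_cases e : layer G = ⊥
    · have eV : generalizedFittingSubgroup G = pCore p G := by
        rw [generalizedFittingSubgroup, e, bot_sup_eq, hF]
      have hN := le_inf (hK' K n ne) (hK' _ hVn (eV ▸ h0))
      obtain ⟨y, hy, e⟩ := hK (K ⊓ pCore p G) inferInstance fun c => hD (c ▸ hN)
      rw [inf_eq_left.2 (inf_le_right.trans hVP)] at e
      refine eV.le.trans (le_trans (fun v hv => ?_) (inf_le_left : K ⊓ pCore p G ≤ K))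
      by_cases z : zpowers y ⊓ (K ⊓ pCore p G) = ⊥
      · have : IsMulCommutative ↥(K ⊓ pCore p G) :=
          ⟨⟨fun a b => Subtype.ext (cV _ a.2.2 _ b.2.2)⟩⟩
        obtain ⟨k, hk⟩ := IsPGroup.iff_card.1 (pCore_isPGroup.to_le (inf_le_right : K ⊓ pCore p G ≤ _))
        obtain ⟨C, hC⟩ := H2.gaschutz_exists (K ⊓ pCore p G) P (inf_le_right.trans hVP) (hk ▸
          Nat.Coprime.pow_left k ((Nat.Prime.coprime_iff_not_dvd Fact.out).2 P.not_dvd_index)) _
          (zpowers_le.2 hy) z e
        have b : pCore p G ⊓ C = ⊥ := by_contra fun c => hD (hC.disjoint.eq_bot ▸ le_inf hN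
          ((hK' _ (normal_of_top_le_normalizer (hC.sup_eq_top ▸ sup_le
            (fun a ha => centralizer_le_normalizer _ fun b (hb : b ∈ pCore p G ⊓ C) => cV _ hb.1 _ ha.2)
            (le_normalizer_inf le_normalizer_of_normal le_normalizer))) c).trans inf_le_right))
        obtain ⟨⟨a, b'⟩, rfl⟩ := hC.2 v
        have ha : (a : G) ∈ K ⊓ pCore p G := a.2
        have : (b' : G) = 1 :=
          mem_bot.1 (b ▸ mem_inf.2 ⟨(mul_mem_cancel_left (mem_inf.1 ha).2).1 hv, b'.2⟩)
        simpa only [this, mul_one] using ha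
      · obtain ⟨m, hm, i, rfl⟩ := (H71.sup_zpowers_mem (le_normalizer_of_normal (mem_top y))).1
          (e.ge (hVP hv))
        obtain ⟨⟨w, hw⟩, w1⟩ := ne_bot_iff_exists_ne_one.1 z
        obtain ⟨k, hk⟩ := (le_zpowers_iff y _).1 (inf_le_left : zpowers y ⊓ pCore p G ≤ _)
        have hw' : w ∈ zpowers (y ^ k) := hk ▸ mem_inf.2 ⟨hw.1, hw.2.2⟩
        have w1' : w ≠ 1 := fun c => w1 (Subtype.ext c)
        have o : orderOf (y ^ k) = p := orderOf_eq_prime (hV.2 _ (hk.ge (mem_zpowers _)).2) fun c =>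
          w1' (by simpa [c] using hw')
        refine mul_mem hm (zpowers_le.2 hw.2 ?_)
        rw [zpowers_eq_of_mem_of_prime (o ▸ Fact.out) hw' w1', ← hk]
        exact ⟨zpow_mem (mem_zpowers y) i, (mul_mem_cancel_left (mem_inf.1 hm).2).1 hv⟩
    · rw [generalizedFittingSubgroup, hF, hE e, sup_bot_eq]
      refine layer_le_iff.2 fun L hL => (IsComponent.le_or_commutator_eq_bot_of_normal hL K).resolve_right
        fun c => hD (le_trans (le_inf (hK' K n ne) (hK' C[K] inferInstance fun d =>
          IsComponent.not_le_centralizer hL ((d ▸ commutator_eq_bot_iff_le_centralizer.1 c).trans bot_le)))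
          ((le_fitting (isNilpotent_of_commutator_eq_bot (commutator_eq_bot_iff_le_centralizer.2
          (inf_le_right.trans (centralizer_anti inf_le_left))))).trans (hF.trans (hE e)).le))
  · obtain ⟨y, -, e⟩ := hK _ hFn h0
    rw [← e, Subgroup.map_sup, (Subgroup.map_eq_bot_iff _).2 (by rw [QuotientGroup.ker_mk']; exact inf_le_left),
      bot_sup_eq, MonoidHom.map_zpowers]
    infer_instance
  · have e := hF.trans (hE fun e => hc (by
      rw [generalizedFittingSubgroup, e, bot_sup_eq, hF]; exact hV.1))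
    have k := isComponentOf_top_iff.2 h1
    have t : P.1 ≤ N[(⊤ : Subgroup G)] := le_normalizer_of_normal
    have f := fun L hL (M : Subgroup G) (l : L ≤ M) c => IsComponent.not_le_of_isPGroup (L := L) hL P.2
      (l.trans (le_trans c (frattiniOf_le P.1)))
    exact hD (e ▸ le_trans (le_inf (key' _ (sn_top_iff.1 (IsComponentOf.sn_orbitSup k t))
      (le_normalizer_orbitSup _ K) (f K h1 _ (le_orbitSup _ K))) ((key' (coOrbit ⊤ P K)
      (sn_top_iff.1 (sn_sSup_components fun _ h => h.1)) (le_normalizer_coOrbit t K) (f L h2 _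
      (le_sSup ⟨isComponentOf_top_iff.2 h2, c⟩))).trans (commutator_eq_bot_iff_le_centralizer'.1
      (IsComponentOf.commutator_orbitSup_coOrbit k t)))) (IsComponent.center_orbitSup_le h1))

end Cfsg.Agent.S4172
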