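import Cfsg.Statements.S4176
import Cfsg.Agent.H93.ClassNumber
import Cfsg.Agent.H2.Hall
import Cfsg.Agent.H24.PSolv

set_option autoImplicit false
open Cfsg

namespace Cfsg.Agent.S4176

theorem key {k V H : Type*} [Field k] (p : ℕ) [Fact p.Prime] [CharP k p] [AddCommGroup V]
    [Module k V] [Group H] [Finite H] (hsol : Cfsg.IsPSolvable p H) (ρ : Representation k H V)
    (a : V) (A : Subgroup H) (hA : ∀ x ∈ A, ρ x a = a) (hpA : ¬ p ∣ A.index)
    (hspan : Submodule.span k {u : V | ∃ h : H, ρ h a = u} = ⊤) :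
    ∃ s : V, (∀ h, ρ h s = s) ∧ ∀ B : Subgroup H, A.index.Coprime B.index →
      ∀ b : V, (∀ x ∈ B, ρ x b = b) → b ∈ Submodule.span k {s} := by
  classical
  have hp : p.Prime := Fact.out
  haveI := Fintype.ofFinite (H ⧸ A)
  have hout : ∀ g : H, ρ (g : H ⧸ A).out a = ρ g a := by
    intro g
    obtain ⟨x, hx⟩ := QuotientGroup.mk_out_eq_mul A g
    rw [hx, map_mul, Module.End.mul_apply, hA x x.2]
  set s : V := ∑ q : H ⧸ A, ρ q.out a with hs
  have hsinv : ∀ h, ρ h s = s := by
    intro h
    rw [hs, map_sum]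
    refine Fintype.sum_equiv (MulAction.toPerm h) _ _ fun q => ?_
    rw [← Module.End.mul_apply, ← map_mul, ← hout (h * q.out)]
    congr 3
    rw [MulAction.toPerm_apply, ← MulAction.Quotient.mk_smul_out]
    rfl
  refine ⟨s, hsinv, fun B hcop b hb => ?_⟩
  obtain ⟨L, hL⟩ := (H2.piSolvSeparable_of_isPSolvable hp
    (H24.isPSolvable_subgroup hp hsol B)).piSeparable.exists_isPiHall
  obtain ⟨hL1, hL2⟩ := H2.isPiHall_iff.mp hL
  have hLk : (Nat.card L : k) ≠ 0 := by
    rw [Ne, CharP.cast_eq_zero_iff k p]
    exact fun h => hL1 p hp h rfl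
  have hAk : (A.index : k) ≠ 0 := by rwa [Ne, CharP.cast_eq_zero_iff k p]
  have hcop2 : A.index.Coprime (L.map B.subtype).index := by
    rw [Subgroup.index_map_of_injective _ B.subtype_injective, B.range_subtype]
    refine Nat.Coprime.mul_right (Nat.coprime_of_dvd fun q hq h1 h2 => ?_) hcop
    have : q = p := by simpa using hL2 q hq h2
    exact hpA (this ▸ h1)
  haveI := Fintype.ofFinite L
  set T : V →ₗ[k] V := ∑ l : L, ρ (l : B) with hT
  have hTa : ∀ h, T (ρ h a) = T a := by
    intro h
    obtain ⟨_, ⟨c, hc, rfl⟩, y, hy, rfl⟩ := H93.exists_mul_of_coprime_index _ _ hcop2 h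
    rw [map_mul, Module.End.mul_apply, hA y hy, hT, LinearMap.sum_apply, LinearMap.sum_apply]
    refine Fintype.sum_equiv (Equiv.mulRight (⟨c, hc⟩ : L)) _ _ fun l => ?_
    simp
  have hTfix : ∀ v : V, (∀ x ∈ B, ρ x v = v) → T v = (Nat.card L : k) • v := by
    intro v hv
    rw [hT, LinearMap.sum_apply, Finset.sum_congr rfl (fun (l : L) _ => hv _ (l : B).2),
      Finset.sum_const, Finset.card_univ, ← Nat.card_eq_fintype_card, Nat.cast_smul_eq_nsmul]
  have hTs : T a ∈ Submodule.span k {s} := by
    have h1 : T s = (A.index : k) • T a := by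
      rw [hs, map_sum, Finset.sum_congr rfl (fun q _ => hTa _), Finset.sum_const, Finset.card_univ,
        ← Nat.card_eq_fintype_card, Nat.cast_smul_eq_nsmul]
      rfl
    rw [hTfix s (fun x _ => hsinv x)] at h1
    rw [← (Submodule.span k {s}).smul_mem_iff hAk, ← h1]
    exact Submodule.smul_mem _ _ (Submodule.mem_span_singleton_self s)
  have hall : ∀ v : V, T v ∈ Submodule.span k {s} := by
    intro v
    have hv : v ∈ Submodule.span k {u : V | ∃ h : H, ρ h a = u} := hspan ▸ trivial
    induction hv using Submodule.span_induction with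
    | mem x hx =>
      obtain ⟨h, rfl⟩ := hx
      rw [hTa]; exact hTs
    | zero => simp
    | add x y _ _ hx hy => rw [map_add]; exact add_mem hx hy
    | smul c x _ hx => rw [map_smul]; exact Submodule.smul_mem _ _ hx
  rw [← (Submodule.span k {s}).smul_mem_iff hLk, ← hTfix b hb]
  exact hall b

/-- Let k be a field of prime characteristic p, H a finite p-soluble group and ρ a k-linear representation of H on V. Let a be a vector that is fixed by some Sylow p-subgroup of H and whose H-orbit spans V. Then the space of H-fixed vectors has dimension at most 1, and every vector b whose H-orbit has size coprime to the size of the orbit of a is fixed by H. -/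
theorem result {k V H : Type*} [Field k] (p : ℕ) [Fact p.Prime] [CharP k p] [AddCommGroup V] [Module k V]
    [Group H] [Finite H] (hsol : Cfsg.IsPSolvable p H) (ρ : Representation k H V) (a : V)
    (hfix : ∃ P : Sylow p H, ∀ x : H, x ∈ (P : Subgroup H) → ρ x a = a)
    (hspan : Submodule.span k {u : V | ∃ h : H, ρ h a = u} = ⊤) :
    Module.finrank k ρ.invariants ≤ 1 ∧
    ∀ b : V, (Nat.card {u : V | ∃ h : H, ρ h a = u}).Coprime (Nat.card {u : V | ∃ h : H, ρ h b = u}) → ∀ h : H, ρ h b = b := by
  letI : MulAction H V := MulAction.compHom V (ρ : H →* Module.End k V)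
  have horb : ∀ v : V, Nat.card {u : V | ∃ h : H, ρ h v = u} =
      (MulAction.stabilizer H v).index := by
    intro v
    rw [MulAction.index_stabilizer, ← Nat.card_coe_set_eq]
    rfl
  obtain ⟨P, hP⟩ := hfix
  obtain ⟨s, hs, h⟩ := key p hsol ρ a (MulAction.stabilizer H a) (fun x hx => hx)
    (fun hd => P.not_dvd_index (hd.trans (Subgroup.index_dvd_of_le hP))) hspan
  constructor
  · have h1 : ρ.invariants ≤ Submodule.span k {s} :=
      fun v hv => h ⊤ (by simp) v (fun c _ => hv c)
    refine (Submodule.finrank_mono h1).trans ?_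
    simpa using finrank_span_le_card (R := k) ({s} : Set V)
  · intro b hcop g
    rw [horb, horb] at hcop
    obtain ⟨c, rfl⟩ := Submodule.mem_span_singleton.mp (h _ hcop b (fun x hx => hx))
    rw [map_smul, hs]

end Cfsg.Agent.S4176
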