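import Cfsg.Statements.S4177
import Cfsg.Agent.H93.ClassNumber

set_option autoImplicit false
open Cfsg

namespace Cfsg.Agent.S4177

theorem card_ne_zero {k H : Type*} [Field k] [Group H] [Finite H]
    (hchar : ¬ ringChar k ∣ Nat.card H) (B : Subgroup H) : (Nat.card B : k) ≠ 0 := by
  intro h
  rw [ringChar.spec] at h
  exact hchar (h.trans (Subgroup.card_subgroup_dvd_card B))

/-- The averaging map over a subgroup. -/
noncomputable def avg {k V H : Type*} [Field k] [AddCommGroup V] [Module k V] [Group H] [Finite H]
    (ρ : Representation k H V) (B : Subgroup H) : V →ₗ[k] V :=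
  haveI := Fintype.ofFinite B
  (Nat.card B : k)⁻¹ • ∑ b : B, ρ b

theorem avg_apply_mul {k V H : Type*} [Field k] [AddCommGroup V] [Module k V] [Group H] [Finite H]
    (ρ : Representation k H V) (B : Subgroup H) (c : H) (hc : c ∈ B) (v : V) :
    avg ρ B (ρ c v) = avg ρ B v := by
  unfold avg
  simp only [LinearMap.smul_apply, LinearMap.sum_apply]
  congr 1
  letI := Fintype.ofFinite B
  refine Fintype.sum_equiv (Equiv.mulRight (⟨c, hc⟩ : B)) _ _ ?_
  intro b
  simp

theorem mul_avg {k V H : Type*} [Field k] [AddCommGroup V] [Module k V] [Group H] [Finite H]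
    (ρ : Representation k H V) (B : Subgroup H) (c : H) (hc : c ∈ B) (v : V) :
    ρ c (avg ρ B v) = avg ρ B v := by
  unfold avg
  simp only [LinearMap.smul_apply, LinearMap.sum_apply, map_smul, map_sum]
  congr 1
  letI := Fintype.ofFinite B
  refine Fintype.sum_equiv (Equiv.mulLeft (⟨c, hc⟩ : B)) _ _ ?_
  intro b
  simp

theorem avg_of_fixed {k V H : Type*} [Field k] [AddCommGroup V] [Module k V] [Group H] [Finite H]
    (hchar : ¬ ringChar k ∣ Nat.card H)
    (ρ : Representation k H V) (B : Subgroup H) (v : V) (hv : ∀ c ∈ B, ρ c v = v) :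
    avg ρ B v = v := by
  unfold avg
  simp only [LinearMap.smul_apply, LinearMap.sum_apply]
  letI := Fintype.ofFinite B
  rw [Finset.sum_congr rfl (fun (b : B) _ => hv b b.2), Finset.sum_const, Finset.card_univ,
    ← Nat.card_eq_fintype_card, ← Nat.cast_smul_eq_nsmul k, smul_smul,
    inv_mul_cancel₀ (card_ne_zero hchar B), one_smul]

theorem avg_eq {k V H : Type*} [Field k] [AddCommGroup V] [Module k V] [Group H] [Finite H]
    (hchar : ¬ ringChar k ∣ Nat.card H)
    (ρ : Representation k H V) (B : Subgroup H) (a : V)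
    (ha : ∀ h : H, avg ρ B (ρ h a) = avg ρ B a) : avg ρ B a = avg ρ ⊤ a := by
  have h1 : avg ρ B (avg ρ ⊤ a) = avg ρ ⊤ a :=
    avg_of_fixed hchar ρ B _ fun c _ => mul_avg ρ ⊤ c trivial a
  rw [← h1]
  conv_rhs => enter [2]; unfold avg
  simp only [LinearMap.smul_apply, LinearMap.sum_apply, map_smul, map_sum, ha]
  letI := Fintype.ofFinite (⊤ : Subgroup H)
  rw [Finset.sum_const, Finset.card_univ,
    ← Nat.card_eq_fintype_card, ← Nat.cast_smul_eq_nsmul k, smul_smul,
    inv_mul_cancel₀ (card_ne_zero hchar ⊤), one_smul]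

theorem avg_mem_span {k V H : Type*} [Field k] [AddCommGroup V] [Module k V] [Group H] [Finite H]
    (ρ : Representation k H V) (B : Subgroup H) (a : V)
    (hspan : Submodule.span k {u : V | ∃ h : H, ρ h a = u} = ⊤)
    (ha : ∀ h : H, avg ρ B (ρ h a) = avg ρ B a) (v : V) :
    avg ρ B v ∈ Submodule.span k {avg ρ B a} := by
  have hv : v ∈ Submodule.span k {u : V | ∃ h : H, ρ h a = u} := hspan ▸ trivial
  induction hv using Submodule.span_induction with
  | mem x hx =>
    obtain ⟨h, rfl⟩ := hx
    rw [ha]; exact Submodule.mem_span_singleton_self _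
  | zero => simp
  | add x y _ _ hx hy => rw [map_add]; exact add_mem hx hy
  | smul c x _ hx => rw [map_smul]; exact Submodule.smul_mem _ _ hx

/-- Let k be a field whose characteristic does not divide the order of the finite group H (for instance a field of characteristic zero), and ρ a k-linear representation of H on V. Let a be a vector whose H-orbit spans V. Then the space of H-fixed vectors has dimension at most 1, and every vector b whose H-orbit has size coprime to the size of the orbit of a is fixed by H. -/
theorem result {k V H : Type*} [Field k] [AddCommGroup V] [Module k V] [Group H] [Finite H]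
    (hchar : ¬ ringChar k ∣ Nat.card H) (ρ : Representation k H V) (a : V)
    (hspan : Submodule.span k {u : V | ∃ h : H, ρ h a = u} = ⊤) :
    Module.finrank k ρ.invariants ≤ 1 ∧
    ∀ b : V, (Nat.card {u : V | ∃ h : H, ρ h a = u}).Coprime (Nat.card {u : V | ∃ h : H, ρ h b = u}) → ∀ h : H, ρ h b = b := by
  constructor
  · have h1 : ρ.invariants ≤ Submodule.span k {avg ρ ⊤ a} := by
      intro v hv
      rw [← avg_of_fixed hchar ρ ⊤ v (fun c _ => hv c)]
      exact avg_mem_span ρ ⊤ a hspan (fun h => avg_apply_mul ρ ⊤ h trivial a) v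
    refine (Submodule.finrank_mono h1).trans ?_
    simpa using finrank_span_le_card (R := k) ({avg ρ ⊤ a} : Set V)
  · intro b hcop h
    letI : MulAction H V := MulAction.compHom V (ρ : H →* Module.End k V)
    have horb : ∀ v : V, Nat.card {u : V | ∃ h : H, ρ h v = u} =
        (MulAction.stabilizer H v).index := by
      intro v
      rw [MulAction.index_stabilizer, ← Nat.card_coe_set_eq]
      rfl
    rw [horb, horb] at hcop
    have ha : ∀ g : H, avg ρ (MulAction.stabilizer H b) (ρ g a) =
        avg ρ (MulAction.stabilizer H b) a := by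
      intro g
      obtain ⟨c, hc, y, hy, rfl⟩ := H93.exists_mul_of_coprime_index _ _ hcop g
      have hy' : ρ y a = a := hy
      rw [map_mul, Module.End.mul_apply, hy', avg_apply_mul ρ _ c hc]
    have hb := avg_mem_span ρ _ a hspan ha b
    rw [avg_of_fixed hchar ρ _ b (fun c hc => hc), avg_eq hchar ρ _ a ha,
      Submodule.mem_span_singleton] at hb
    obtain ⟨c, rfl⟩ := hb
    rw [map_smul, mul_avg ρ ⊤ h trivial]

end Cfsg.Agent.S4177
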