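import Cfsg.Statements.S4178

set_option autoImplicit false
open Cfsg

namespace Cfsg.Agent.S4178

theorem index_le_of_map {G X : Type*} [Group G] [Finite X] (R : Subgroup G) (f : G → X) (x₀ : X)
    (h0 : ∀ g, f g ≠ x₀) (hf : ∀ g h, f g = f h → g⁻¹ * h ∈ R) : R.index + 1 ≤ Nat.card X := by
  have hinj : Function.Injective (fun q : G ⧸ R => (⟨f q.out, h0 _⟩ : {x // x ≠ x₀})) := by
    intro q q' h
    rw [← q.out_eq', ← q'.out_eq']
    exact QuotientGroup.eq.mpr (hf _ _ (congrArg Subtype.val h))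
  have h1 := Nat.card_le_card_of_injective _ hinj
  have h2 : Nat.card {x // x ≠ x₀} < Nat.card X :=
    Finite.card_subtype_lt (x := x₀) (fun h => h rfl)
  exact lt_of_le_of_lt h1 h2

/-- Let F be a finite field with q elements, V a non-zero finite-dimensional F-space of dimension d, H a group of invertible linear maps of V, and R the subgroup of H generated by the elements of H that fix some non-zero vector (have eigenvalue 1). Then the index of R in H is at most q^d − 1; and if H leaves invariant some proper non-zero subspace, the index is at most q^(d/2) − 1. -/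
theorem result {F V : Type*} [Field F] [Fintype F] [AddCommGroup V] [Module F V] [FiniteDimensional F V] [Nontrivial V]
    (H : Subgroup (V ≃ₗ[F] V)) :
    (Subgroup.closure {h : ↥H | ∃ v : V, v ≠ 0 ∧ (h : V ≃ₗ[F] V) v = v}).index ≤ Fintype.card F ^ Module.finrank F V - 1 ∧
    ((∃ W : Submodule F V, W ≠ ⊥ ∧ W ≠ ⊤ ∧ ∀ h ∈ H, ∀ w ∈ W, h w ∈ W) →
      ((Subgroup.closure {h : ↥H | ∃ v : V, v ≠ 0 ∧ (h : V ≃ₗ[F] V) v = v}).index : ℝ) ≤ Real.sqrt ((Fintype.card F : ℝ) ^ Module.finrank F V) - 1) := by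
  haveI : Finite V := Module.finite_of_finite F
  set R := Subgroup.closure {h : ↥H | ∃ v : V, v ≠ 0 ∧ (h : V ≃ₗ[F] V) v = v} with hR
  have hA : ∀ W : Submodule F V, (∀ h ∈ H, ∀ w ∈ W, h w ∈ W) → W ≠ ⊥ →
      R.index + 1 ≤ Nat.card W := by
    intro W hW hne
    obtain ⟨w, hw, hw0⟩ := Submodule.exists_mem_ne_zero_of_ne_bot hne
    refine index_le_of_map R (fun g => (⟨(g : V ≃ₗ[F] V) w, hW g g.2 w hw⟩ : W)) 0 ?_ ?_
    · intro g h
      exact hw0 ((g : V ≃ₗ[F] V).map_eq_zero_iff.mp (congrArg Subtype.val h))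
    · intro g h hgh
      refine Subgroup.subset_closure ⟨w, hw0, ?_⟩
      have : (g : V ≃ₗ[F] V) w = (h : V ≃ₗ[F] V) w := congrArg Subtype.val hgh
      change (g : V ≃ₗ[F] V).symm ((h : V ≃ₗ[F] V) w) = w
      rw [← this, LinearEquiv.symm_apply_apply]
  have hB : ∀ W : Submodule F V, (∀ h ∈ H, ∀ w ∈ W, h w ∈ W) → W ≠ ⊤ →
      R.index + 1 ≤ Nat.card (V ⧸ W) := by
    intro W hW hne
    haveI : Finite (V ⧸ W) := Finite.of_surjective _ W.mkQ_surjective
    obtain ⟨v, hv⟩ : ∃ v, v ∉ W := by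
      by_contra h
      push Not at h
      exact hne (eq_top_iff.mpr fun v _ => h v)
    refine index_le_of_map R (fun g => W.mkQ ((g : V ≃ₗ[F] V) v)) 0 ?_ ?_
    · intro g h
      apply hv
      have := hW _ (g⁻¹).2 _ ((Submodule.Quotient.mk_eq_zero W).mp h)
      change (g : V ≃ₗ[F] V).symm ((g : V ≃ₗ[F] V) v) ∈ W at this
      rwa [LinearEquiv.symm_apply_apply] at this
    · intro g h hgh
      refine Subgroup.subset_closure ?_
      by_contra hcon
      simp only [Set.mem_setOf_eq, not_exists, not_and] at hcon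
      set x : V ≃ₗ[F] V := ((g⁻¹ * h : H) : V ≃ₗ[F] V) with hx
      have hxW : ∀ w ∈ W, x w ∈ W := hW _ (g⁻¹ * h).2
      have h1 : x v - v ∈ W := by
        have := hW _ (g⁻¹).2 _ ((Submodule.Quotient.eq W).mp hgh.symm)
        change (g : V ≃ₗ[F] V).symm ((h : V ≃ₗ[F] V) v - (g : V ≃ₗ[F] V) v) ∈ W at this
        rwa [map_sub, LinearEquiv.symm_apply_apply] at this
      have hinj : ∀ a b : V, x a - a = x b - b → a = b := by
        intro a b hab
        by_contra hne
        refine hcon (a - b) (sub_ne_zero.mpr hne) ?_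
        rw [map_sub, sub_eq_sub_iff_sub_eq_sub, hab]
      have hsurj : Function.Surjective (fun w : W => (⟨x w - w, W.sub_mem (hxW w w.2) w.2⟩ : W)) :=
        Finite.surjective_of_injective fun a b hab =>
          Subtype.ext (hinj a b (congrArg Subtype.val hab))
      obtain ⟨w, hw⟩ := hsurj ⟨_, h1⟩
      exact hv (hinj w v (congrArg Subtype.val hw) ▸ w.2)
  have hV : Nat.card V = Fintype.card F ^ Module.finrank F V := by
    rw [Module.natCard_eq_pow_finrank (K := F), Nat.card_eq_fintype_card]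
  constructor
  · have := hA ⊤ (fun _ _ _ _ => trivial) top_ne_bot
    rw [Nat.card_congr Submodule.topEquiv.toEquiv, hV] at this
    omega
  · rintro ⟨W, h1, h2, hW⟩
    have h3 := Nat.mul_le_mul (hA W hW h1) (hB W hW h2)
    rw [← Submodule.card_eq_card_quotient_mul_card, hV] at h3
    rw [le_sub_iff_add_le]
    refine Real.le_sqrt_of_sq_le ?_
    rw [sq]
    exact_mod_cast h3

end Cfsg.Agent.S4178
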