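import Cfsg.Statements.S4182

set_option autoImplicit false
open Cfsg

namespace Cfsg.Agent.S4182

open scoped Pointwise

theorem pgroup_cover {P : Type*} [Group P] [Finite P] {p : ℕ} [hp : Fact p.Prime] (hP : IsPGroup p P)
    {ι : Type*} [Fintype ι] (A : ι → Subgroup P) (hA : ∀ i, A i ≠ ⊤) (hc : ∀ g, ∃ i, g ∈ A i) :
    p + 1 ≤ Fintype.card ι := by
  classical
  by_contra hlt
  have hle : Fintype.card ι ≤ p := by omega
  have := Fintype.ofFinite P
  have h1 : ∀ i, p * Nat.card (A i) ≤ Nat.card P := by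
    intro i
    obtain ⟨k, hk⟩ := hP.index (A i)
    have hk0 : k ≠ 0 := by
      rintro rfl
      exact hA i (Subgroup.index_eq_one.mp (by simpa using hk))
    rw [← (A i).index_mul_card, hk]
    apply Nat.mul_le_mul_right
    exact Nat.le_self_pow hk0 p
  have h2 : (Finset.univ.erase (1 : P)) ⊆
      Finset.univ.biUnion (fun i => (Finset.univ.filter (fun g : P => g ∈ A i)).erase 1) := by
    intro g hg
    obtain ⟨i, hi⟩ := hc g
    simp only [Finset.mem_biUnion, Finset.mem_univ, true_and, Finset.mem_erase, Finset.mem_filter]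
    exact ⟨i, (Finset.mem_erase.mp hg).1, hi⟩
  have h3 := (Finset.card_le_card h2).trans Finset.card_biUnion_le
  have h4 : ∀ i, ((Finset.univ.filter (fun g : P => g ∈ A i)).erase 1).card + 1 = Nat.card (A i) := by
    intro i
    rw [Finset.card_erase_add_one (by simp), Nat.card_eq_fintype_card, Fintype.card_subtype]
  have h5 : (Finset.univ.erase (1 : P)).card + 1 = Nat.card P := by
    rw [Finset.card_erase_add_one (by simp), Nat.card_eq_fintype_card, Finset.card_univ]
  set c := (Finset.univ.erase (1 : P)).card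
  have h6 : ∀ i ∈ (Finset.univ : Finset ι),
      p * ((Finset.univ.filter (fun g : P => g ∈ A i)).erase 1).card ≤ c + 1 - p := by
    intro i _
    have a := h1 i
    rw [← h4 i, ← h5] at a
    rw [mul_add] at a
    omega
  have h7 := Finset.sum_le_card_nsmul _ _ _ h6
  rw [← Finset.mul_sum, Finset.card_univ, smul_eq_mul] at h7
  have h8 : p * c ≤ p * (c + 1 - p) :=
    (Nat.mul_le_mul_left p h3).trans (h7.trans (Nat.mul_le_mul_right _ hle))
  have h9 := Nat.le_of_mul_le_mul_left h8 hp.out.pos
  obtain ⟨i, -⟩ := hc 1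
  have a := h1 i
  rw [← h5] at a
  have b : 0 < Nat.card (A i) := Nat.card_pos
  have := hp.out.two_le
  have : p ≤ c + 1 := le_trans (Nat.le_mul_of_pos_right p b) a
  omega

def gen {G : Type*} [Group G] (p : ℕ) (H : Subgroup G) : Subgroup G :=
  Subgroup.closure {g : G | g ∈ H ∧ ∃ k : ℕ, orderOf g = p ^ k}

theorem gen_le {G : Type*} [Group G] (p : ℕ) (H : Subgroup G) : gen p H ≤ H :=
  (Subgroup.closure_le _).mpr fun _ h => h.1

theorem gen_mono {G : Type*} [Group G] (p : ℕ) {H K : Subgroup G} (h : H ≤ K) : gen p H ≤ gen p K :=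
  Subgroup.closure_mono fun _ hx => ⟨h hx.1, hx.2⟩

theorem mem_gen {G : Type*} [Group G] {p : ℕ} {H : Subgroup G} {x : G} (hx : x ∈ H)
    (h : ∃ k : ℕ, orderOf x = p ^ k) : x ∈ gen p H := Subgroup.subset_closure ⟨hx, h⟩

theorem gen_gen {G : Type*} [Group G] (p : ℕ) (H : Subgroup G) : gen p (gen p H) = gen p H :=
  le_antisymm (gen_le _ _) ((Subgroup.closure_le _).mpr fun _ hx => mem_gen (mem_gen hx.1 hx.2) hx.2)

theorem gen_smul {G : Type*} [Group G] (p : ℕ) {H : Subgroup G} (h : gen p H = H) (y : G) :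
    gen p (MulAut.conj y • H) = MulAut.conj y • H := by
  refine le_antisymm (gen_le _ _) ?_
  conv_lhs => rw [← h]
  change (gen p H).map (MulAut.conj y).toMonoidHom ≤ _
  rw [Subgroup.map_le_iff_le_comap, gen, Subgroup.closure_le]
  rintro x ⟨hx, k, hk⟩
  refine mem_gen (Subgroup.smul_mem_pointwise_smul x _ _ hx) ⟨k, ?_⟩
  rw [← hk]
  exact (MulAut.conj y).orderOf_eq x

theorem main.{u} (p : ℕ) [hp : Fact p.Prime] {ι : Type*} [Fintype ι] (hι : Fintype.card ι ≤ p) (n : ℕ) :
    ∀ (G : Type u) [Group G] [Finite G], Nat.card G = n → gen p (⊤ : Subgroup G) = ⊤ →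
      ∀ K : ι → Subgroup G, (∀ g : G, (∃ k : ℕ, orderOf g = p ^ k) → ∃ i, g ∈ K i) → ∃ i, K i = ⊤ := by
  classical
  induction n using Nat.strong_induction_on with
  | _ n ih =>
  intro G _ _ hn hgen K hcov
  by_contra hK
  rw [not_exists] at hK
  have key : ∀ M : Subgroup G, M ≠ ⊤ → gen p M = M → ∃ i, M ≤ gen p (K i) := by
    intro M hM hg
    have hlt : Nat.card M < n := by
      rw [← hn, ← M.index_mul_card]
      have h1 : M.index ≠ 1 := fun e => hM (Subgroup.index_eq_one.mp e)
      have h2 : M.index ≠ 0 := Subgroup.index_ne_zero_of_finite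
      have h3 : 0 < Nat.card M := Nat.card_pos
      have h4 : 2 ≤ M.index := by omega
      nlinarith
    obtain ⟨i, hi⟩ := ih _ hlt M rfl (by
      apply Subgroup.map_injective M.subtype_injective
      rw [gen, MonoidHom.map_closure, ← MonoidHom.range_eq_map, Subgroup.range_subtype]
      conv_rhs => rw [← hg, gen]
      congr 1
      ext x
      constructor
      · rintro ⟨y, ⟨-, k, hk⟩, rfl⟩
        exact ⟨y.2, k, by rw [← hk]; exact Subgroup.orderOf_coe y⟩
      · rintro ⟨hx, k, hk⟩
        exact ⟨⟨x, hx⟩, ⟨trivial, k, by rw [← hk]; exact (Subgroup.orderOf_coe (⟨x, hx⟩ : M)).symm⟩, rfl⟩)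
      (fun i => (K i).subgroupOf M) (by
        rintro g ⟨k, hk⟩
        exact hcov g ⟨k, by rw [← hk]; exact Subgroup.orderOf_coe g⟩)
    refine ⟨i, ?_⟩
    rw [← hg]
    exact gen_mono p (Subgroup.subgroupOf_eq_top.mp hi)
  have hKi : ∀ i, gen p (K i) ≠ ⊤ := fun i e => hK i (top_le_iff.mp (e ▸ gen_le p (K i)))
  have hnorm : ∀ M : Subgroup G, Maximal (fun M => M ≠ ⊤ ∧ gen p M = M) M → M.Normal := by
    intro M hM
    rw [← Subgroup.normalizer_eq_top_iff, eq_top_iff, ← hgen, gen, Subgroup.closure_le]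
    rintro x ⟨-, k, hk⟩
    by_contra hx
    have hconj : ∀ y : G, ∃ i, MulAut.conj y • M = gen p (K i) := by
      intro y
      have hne : ∀ (z : G) (L : Subgroup G), L ≠ ⊤ → MulAut.conj z • L ≠ ⊤ := by
        intro z L hL e
        apply hL
        have := congrArg (fun X => (MulAut.conj z)⁻¹ • X) e
        simp only [inv_smul_smul] at this
        rw [this, eq_top_iff]
        intro w _
        rw [Subgroup.mem_pointwise_smul_iff_inv_smul_mem]; trivial
      obtain ⟨i, hi⟩ := key _ (hne y M hM.1.1) (gen_smul p hM.1.2 y)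
      refine ⟨i, le_antisymm hi ?_⟩
      have h1 : M ≤ MulAut.conj y⁻¹ • gen p (K i) := by
        rw [map_inv, Subgroup.subset_pointwise_smul_iff, inv_inv]; exact hi
      have h2 := hM.2 ⟨hne _ _ (hKi i), gen_smul p (gen_gen p _) _⟩ h1
      rw [map_inv, Subgroup.pointwise_smul_subset_iff, inv_inv] at h2
      exact h2
    choose f hf using hconj
    obtain ⟨j, hj⟩ := hcov x ⟨k, hk⟩
    have hxj : x ∈ gen p (K j) := mem_gen hj ⟨k, hk⟩
    -- the map Fin p → ι
    have hinj : ∀ a : ℕ, 0 < a → a < p → MulAut.conj (x ^ a) • M ≠ M := by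
      intro a ha0 hap e
      apply hx
      have h1 : x ^ a ∈ Subgroup.normalizer (M : Set G) := by
        rw [Subgroup.mem_normalizer_iff]
        intro h
        constructor
        · intro hh
          rw [← e]
          exact Subgroup.smul_mem_pointwise_smul h _ _ hh
        · intro hh
          rw [← e, Subgroup.mem_pointwise_smul_iff_inv_smul_mem] at hh
          simp only [MulAut.smul_def, MulAut.conj_inv_apply] at hh
          simpa [mul_assoc] using hh
      have hcop : a.Coprime (orderOf x) := by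
        rw [hk]
        exact Nat.Coprime.pow_right _ ((Nat.coprime_of_lt_prime ha0.ne' hap hp.out).symm)
      have h2 : x ∈ Subgroup.zpowers (x ^ a) := mem_zpowers_pow_iff.mpr (by
        rw [Nat.gcd_comm]; simpa [Nat.Coprime, Nat.gcd_comm] using hcop)
      exact (Subgroup.zpowers_le.mpr h1) h2
    let F : Option (Fin p) → ι := fun o => o.elim j (fun a => f (x ^ (a : ℕ)))
    have hj' : ∀ a : ℕ, f (x ^ a) ≠ j := by
      intro a e
      apply hx
      have h1 := hf (x ^ a)
      rw [e] at h1
      rw [← h1, Subgroup.mem_pointwise_smul_iff_inv_smul_mem] at hxj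
      have h2 : (MulAut.conj (x ^ a))⁻¹ • x = x := by
        simp only [MulAut.smul_def, MulAut.conj_inv_apply]
        group
      rw [h2] at hxj
      exact Subgroup.le_normalizer hxj
    have hlt : ∀ a b : ℕ, a < b → b < p → f (x ^ a) ≠ f (x ^ b) := by
      intro a b hab hb e
      apply hinj (b - a) (by omega) (by omega)
      have h1 := hf (x ^ a)
      rw [e, ← hf (x ^ b)] at h1
      have h2 : x ^ b = x ^ a * x ^ (b - a) := by rw [← pow_add]; congr 1; omega
      rw [h2, map_mul, mul_smul] at h1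
      exact (smul_left_cancel _ h1).symm
    have hF : Function.Injective F := by
      rintro (_ | a) (_ | b) e
      · rfl
      · exact absurd e.symm (hj' b)
      · exact absurd e (hj' a)
      · rcases lt_trichotomy (a : ℕ) b with h | h | h
        · exact absurd e (hlt _ _ h b.2)
        · rw [Fin.ext h]
        · exact absurd e.symm (hlt _ _ h a.2)
    have := Fintype.card_le_of_injective F hF
    simp at this
    omega
  have hmax : ∀ i, ∃ M : Subgroup G, gen p (K i) ≤ M ∧ Maximal (fun M => M ≠ ⊤ ∧ gen p M = M) M :=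
    fun i => Finite.exists_le_maximal (p := fun M : Subgroup G => M ≠ ⊤ ∧ gen p M = M)
      ⟨hKi i, gen_gen p _⟩
  choose M hM1 hM2 using hmax
  obtain ⟨P⟩ : Nonempty (Sylow p G) := inferInstance
  have := pgroup_cover P.isPGroup' (fun i => (M i).subgroupOf (P : Subgroup G)) (by
    intro i e
    rw [Subgroup.subgroupOf_eq_top] at e
    apply (hM2 i).1.1
    have hN := hnorm _ (hM2 i)
    rw [eq_top_iff, ← hgen, gen, Subgroup.closure_le]
    rintro x ⟨-, k, hk⟩
    have h1 : IsPGroup p (Subgroup.zpowers x) := IsPGroup.of_card (by rw [Nat.card_zpowers, hk])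
    obtain ⟨Q, hQ⟩ := h1.exists_le_sylow
    obtain ⟨g, rfl⟩ := MulAction.exists_smul_eq G P Q
    have h2 := hQ (Subgroup.mem_zpowers x)
    rw [Sylow.coe_subgroup_smul, Subgroup.mem_pointwise_smul_iff_inv_smul_mem] at h2
    have h3 := hN.conj_mem _ (e h2) g
    simpa [mul_assoc] using h3) (by
    intro g
    obtain ⟨k, hk⟩ := IsPGroup.iff_orderOf.mp P.isPGroup' g
    have hk' : orderOf (g : G) = p ^ k := by rw [← hk]; exact Subgroup.orderOf_coe g
    obtain ⟨i, hi⟩ := hcov g ⟨k, hk'⟩
    exact ⟨i, hM1 i (mem_gen hi ⟨k, hk'⟩)⟩)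
  omega

/-- Let p be a prime and G a finite group generated by its p-elements. If a finite family of proper subgroups of G covers the set of p-elements of G (every element of p-power order lies in one of them), then the family has at least p + 1 members. -/
theorem result {G : Type*} [Group G] [Finite G] (p : ℕ) [Fact p.Prime] (hgen : Subgroup.closure {g : G | ∃ k : ℕ, orderOf g = p ^ k} = ⊤)
    {ι : Type*} [Fintype ι] (K : ι → Subgroup G) (hK : ∀ i, K i ≠ ⊤)
    (hcov : ∀ g : G, (∃ k : ℕ, orderOf g = p ^ k) → ∃ i, g ∈ K i) :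
    p + 1 ≤ Fintype.card ι := by
  by_contra h
  obtain ⟨i, hi⟩ := main p (ι := ι) (by omega) _ G rfl (by
    rw [← hgen, gen]; congr 1; ext x; simp [hgen]) K hcov
  exact hK i hi

end Cfsg.Agent.S4182
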