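import Cfsg.Statements.S4184
import Cfsg.Agent.H92.Camina
import Cfsg.Agent.H89.PBasic

set_option autoImplicit false
open Cfsg

namespace Cfsg.Agent.S4184

open Cfsg.Agent.H92

theorem exists_central {G : Type*} [Group G] [Finite G] {p : ℕ} [Fact p.Prime] (P : Sylow p G)
    (hp : p ∣ Nat.card G) : ∃ z : G, orderOf z = p ∧ (P : Subgroup G) ≤ Ce[z] := by
  have hP : (⊤ : Subgroup (P : Subgroup G)) ≠ ⊥ := by
    haveI : Nontrivial (P : Subgroup G) := (Subgroup.nontrivial_iff_ne_bot _).2 (P.ne_bot_of_dvd_card hp)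
    exact top_ne_bot
  obtain ⟨z, -, hz, hzp⟩ := H89.exists_center_orderOf_of_normal P.isPGroup' hP
  exact ⟨z, by rwa [Subgroup.orderOf_coe], fun y hy => mem_C.2
    (congrArg Subtype.val (Subgroup.mem_center_iff.1 hz ⟨y, hy⟩))⟩

def T (B : Set ℕ) (m n : ℕ) : Prop := ∀ q : ℕ, q.Prime → q ∈ B → m.factorization q ≤ n.factorization q

theorem T.of_dvd {B : Set ℕ} {m n n' : ℕ} (h : T B m n) (hn : n ∣ n') (hn' : n' ≠ 0) : T B m n' :=
  fun q hq hB => (h q hq hB).trans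
    ((Nat.factorization_le_iff_dvd (ne_zero_of_dvd_ne_zero hn' hn) hn').2 hn q)

theorem aux {G : Type*} [Group G] [Finite G] {m : ℕ} (hm : m ≠ 0) (B : Set ℕ)
    (hdvd : ∀ x : G, cs[x] ∣ m) (hT : ∀ x : G, x ≠ 1 → (T B m cs[x] ↔ ¬ T Bᶜ m cs[x]))
    {p r : ℕ} (hp : p.Prime) (hr : r.Prime) (hpB : p ∉ B) (hrB : r ∈ B) (hpm : p ∣ m) (hrm : r ∣ m)
    (hmG : m ∣ Nat.card G) : (Nat.card G).factorization r ≤ m.factorization r := by
  by_contra hlt
  haveI := Fact.mk hp
  haveI := Fact.mk hr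
  have hpr : r ≠ p := fun e => hpB (e ▸ hrB)
  have hne : ∀ {x : G} {q : ℕ}, q.Prime → orderOf x = q → x ≠ 1 := fun hq hx e =>
    hq.one_lt.ne (by rw [← hx, e, orderOf_one])
  have hmul : ∀ x y : G, x ≠ 1 → y ≠ 1 → Commute x y → (orderOf x).Coprime (orderOf y) →
      T B m cs[x] → T B m cs[y] := by
    intro x y hx hy hc hcop h
    have hxy : x * y ≠ 1 := fun e => hx (by
      have := mem_zpowers_mul_of_coprime hc hcop
      rwa [e, Subgroup.zpowers_one_eq_bot, Subgroup.mem_bot] at this)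
    rw [hT y hy]
    exact fun h' => (hT _ hxy).1 (h.of_dvd (cs_dvd_cs_mul hc hcop) (cs_ne_zero _))
      (h'.of_dvd (cs_dvd_cs_mul' hc hcop) (cs_ne_zero _))
  obtain ⟨P⟩ : Nonempty (Sylow p G) := inferInstance
  obtain ⟨z, hz, hPz⟩ := exists_central P (hpm.trans hmG)
  have hz1 : T B m cs[z] := by
    rw [hT z (hne hp hz)]
    intro h
    have := h p hp hpB
    rw [Nat.factorization_eq_zero_of_not_dvd (not_dvd_cs_iff.2 ⟨P, hPz⟩)] at this
    exact absurd (hp.factorization_pos_of_dvd hm hpm) (not_lt.2 this)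
  have hrz : r ∣ Nat.card Ce[z] := by
    by_contra h
    apply hlt
    rw [← cs_mul_card z, Nat.factorization_mul (cs_ne_zero z) Nat.card_pos.ne', Finsupp.add_apply,
      Nat.factorization_eq_zero_of_not_dvd h, add_zero]
    exact (Nat.factorization_le_iff_dvd (cs_ne_zero z) hm).2 (hdvd z) r
  obtain ⟨⟨y, hyz⟩, hy⟩ := exists_prime_orderOf_dvd_card' r hrz
  rw [← Subgroup.orderOf_coe] at hy
  change orderOf y = r at hy
  have hcop : (orderOf y).Coprime (orderOf z) := by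
    rw [hy, hz]; exact (Nat.coprime_primes hr hp).2 hpr
  have hy1 := hmul z y (hne hp hz) (hne hr hy) (mem_C'.1 hyz) hcop.symm hz1
  have h1 : ¬ r ∣ (Ce[z]).relIndex (Ce[y]) := by
    intro h
    have h2 := (Nat.factorization_le_iff_dvd (cs_ne_zero _) hm).2 (hdvd (y * z)) r
    have h0 : (Ce[z]).relIndex (Ce[y]) ≠ 0 := Subgroup.index_ne_zero_of_finite
    rw [cs_mul_eq (mem_C.1 hyz) hcop, Nat.factorization_mul h0 (cs_ne_zero _), Finsupp.add_apply] at h2
    have h3 := hr.factorization_pos_of_dvd h0 h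
    have h4 := hy1 r hr hrB
    omega
  obtain ⟨R, hyR⟩ := exists_sylow_mem (p := r) (g := y) ⟨1, by rw [hy, pow_one]⟩
  obtain ⟨w, hw, hRw⟩ := exists_central R (hrm.trans hmG)
  have hwy : w ∈ Ce[y] := mem_C_comm.1 (hRw hyR)
  obtain ⟨S, hS⟩ := exists_sylow_le_of_not_dvd_index h1
  obtain ⟨c, hc⟩ := exists_conj_mem_sylow S (g := ⟨w, hwy⟩)
    ⟨1, by rw [← Subgroup.orderOf_coe, pow_one]; exact hw⟩
  have h2 : (c : G) * w * (c : G)⁻¹ ∈ Ce[z] := hS hc
  have hw' : orderOf ((c : G) * w * (c : G)⁻¹) = r := by rw [orderOf_conj, hw]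
  have h3 := hmul z _ (hne hp hz) (hne hr hw') (mem_C'.1 h2)
    (by rw [hw', hz]; exact (Nat.coprime_primes hp hr).2 hpr.symm) hz1 r hr hrB
  rw [cs_conj, Nat.factorization_eq_zero_of_not_dvd (not_dvd_cs_iff.2 ⟨R, hRw⟩)] at h3
  exact absurd (hr.factorization_pos_of_dvd hm hrm) (not_lt.2 h3)

/-- Let G and M be finite groups with trivial centres and the same set of conjugacy class sizes, and suppose the prime graph of M is disconnected: the prime divisors of #M split into two non-empty parts such that M has no element of order pq with p in one part and q in the other. Then #G = #M. -/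
theorem result {G M : Type*}
    [Group G] [Finite G] [Group M] [Finite M] (hZG : Subgroup.center G = ⊥) (hZM : Subgroup.center M = ⊥)
    (h : Set.range (fun g : G => (Subgroup.centralizer ({g} : Set G)).index) = Set.range (fun g : M => (Subgroup.centralizer ({g} : Set M)).index))
    (hdisc : ∃ A : Set ℕ, (∃ a ∈ A, a.Prime ∧ a ∣ Nat.card M) ∧ (∃ b ∉ A, b.Prime ∧ b ∣ Nat.card M) ∧
      ∀ a ∈ A, ∀ b ∉ A, a.Prime → b.Prime → a ∣ Nat.card M → b ∣ Nat.card M → ¬ ∃ x : M, orderOf x = a * b) :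
    Nat.card G = Nat.card M := by
  obtain ⟨A, ⟨a, haA, ha, haM⟩, ⟨b, hbA, hb, hbM⟩, hdisc⟩ := hdisc
  have hm : Nat.card M ≠ 0 := Nat.card_pos.ne'
  have hGM : ∀ x : G, ∃ y : M, cs[y] = cs[x] := fun x => (h.le ⟨x, rfl⟩ :)
  have hMG : ∀ y : M, ∃ x : G, cs[x] = cs[y] := fun y => (h.ge ⟨y, rfl⟩ :)
  have hfac : ∀ (y : M) (q : ℕ), (Nat.card M).factorization q =
      (cs[y]).factorization q + (Nat.card Ce[y]).factorization q := fun y q => by
    rw [← cs_mul_card y, Nat.factorization_mul (cs_ne_zero y) Nat.card_pos.ne', Finsupp.add_apply]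
  have hC : ∀ (y : M) (p q : ℕ), p.Prime → q.Prime → p ∣ orderOf y → q ∣ Nat.card Ce[y] →
      (p ∈ A ↔ q ∈ A) := by
    intro y p q hp hq hpy hqy
    by_contra hn
    have hpq : p ≠ q := fun e => hn (e ▸ Iff.rfl)
    haveI := Fact.mk hq
    obtain ⟨⟨v, hv⟩, hvq⟩ := exists_prime_orderOf_dvd_card' q hqy
    rw [← Subgroup.orderOf_coe] at hvq
    change orderOf v = q at hvq
    have hu : orderOf (y ^ (orderOf y / p)) = p := orderOf_pow_orderOf_div (orderOf_pos y).ne' hpy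
    have hc : Commute (y ^ (orderOf y / p)) v := (mem_C'.1 hv).pow_left _
    have ho := hc.orderOf_mul_eq_mul_orderOf_of_coprime
      (by rw [hu, hvq]; exact (Nat.coprime_primes hp hq).2 hpq)
    rw [hu, hvq] at ho
    have hpM : p ∣ Nat.card M := hpy.trans (orderOf_dvd_natCard y)
    have hqM : q ∣ Nat.card M := hqy.trans (Subgroup.card_subgroup_dvd_card _)
    by_cases hpA : p ∈ A
    · exact hdisc p hpA q (fun hqA => hn ⟨fun _ => hqA, fun _ => hpA⟩) hp hq hpM hqM ⟨_, ho⟩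
    · exact hdisc q (by by_contra hqA; exact hn ⟨fun h => absurd h hpA, fun h => absurd h hqA⟩) p hpA
        hq hp hqM hpM ⟨_, ho.trans (mul_comm _ _)⟩
  have hTM : ∀ y : M, y ≠ 1 → (T A (Nat.card M) cs[y] ↔ ¬ T Aᶜ (Nat.card M) cs[y]) := by
    intro y hy
    obtain ⟨p, hp, hpy⟩ := Nat.exists_prime_and_dvd (fun e => hy (orderOf_eq_one_iff.1 e))
    have hpC : p ∣ Nat.card Ce[y] := hpy.trans ((Ce[y]).orderOf_dvd_natCard (self_mem_C y))
    have h1 : ∀ B : Set ℕ, p ∈ B → ¬ T B (Nat.card M) cs[y] := fun B hB hT => by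
      have h2 := hT p hp hB
      have h3 := hp.factorization_pos_of_dvd Nat.card_pos.ne' hpC
      have h4 := hfac y p
      omega
    have h2 : ∀ B : Set ℕ, (∀ q ∈ B, q.Prime → ¬ q ∣ Nat.card Ce[y]) → T B (Nat.card M) cs[y] :=
      fun B hB q hq hqB => by
        rw [hfac y q, Nat.factorization_eq_zero_of_not_dvd (hB q hqB hq), add_zero]
    by_cases hpA : p ∈ A
    · exact iff_of_false (h1 A hpA) (not_not.2 (h2 _ fun q hqA hq hd => hqA ((hC y p q hp hq hpy hd).1 hpA)))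
    · exact iff_of_true (h2 _ fun q hqA hq hd => hpA ((hC y p q hp hq hpy hd).2 hqA)) (h1 _ hpA)
  have hTG : ∀ x : G, x ≠ 1 → (T A (Nat.card M) cs[x] ↔ ¬ T Aᶜ (Nat.card M) cs[x]) := by
    intro x hx
    obtain ⟨y, hy⟩ := hGM x
    rw [← hy]
    refine hTM y fun e => hx ?_
    rw [e, cs_one, eq_comm, cs_eq_one_iff, hZG] at hy
    exact hy
  have hdvd : ∀ x : G, cs[x] ∣ Nat.card M := fun x => by
    obtain ⟨y, hy⟩ := hGM x
    exact hy ▸ cs_dvd_card y
  have hMG' : Nat.card M ∣ Nat.card G := by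
    rw [← Nat.factorization_prime_le_iff_dvd hm Nat.card_pos.ne']
    intro q hq
    obtain ⟨p, hp, hpM, hpq⟩ : ∃ p : ℕ, p.Prime ∧ p ∣ Nat.card M ∧ ¬ (p ∈ A ↔ q ∈ A) := by
      by_cases hqA : q ∈ A
      · exact ⟨b, hb, hbM, fun e => hbA (e.2 hqA)⟩
      · exact ⟨a, ha, haM, fun e => hqA (e.1 haA)⟩
    haveI := Fact.mk hp
    obtain ⟨y, hy⟩ := exists_prime_orderOf_dvd_card' p hpM
    obtain ⟨x, hx⟩ := hMG y
    rw [hfac y q, Nat.factorization_eq_zero_of_not_dvd fun hd => hpq (hC y p q hp hq (hy ▸ dvd_rfl) hd),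
      add_zero, ← hx]
    exact (Nat.factorization_le_iff_dvd (cs_ne_zero x) Nat.card_pos.ne').2 (cs_dvd_card x) q
  refine Nat.dvd_antisymm ?_ hMG'
  rw [← Nat.factorization_prime_le_iff_dvd Nat.card_pos.ne' hm]
  intro r hr
  by_cases hrG : r ∣ Nat.card G
  swap
  · rw [Nat.factorization_eq_zero_of_not_dvd hrG]; exact Nat.zero_le _
  have hrM : r ∣ Nat.card M := by
    by_contra hn
    haveI := Fact.mk hr
    obtain ⟨R⟩ : Nonempty (Sylow r G) := inferInstance
    have := sylow_le_center_of_not_dvd_cs R fun x hx => hn (hx.trans (hdvd x))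
    rw [hZG, le_bot_iff] at this
    exact R.ne_bot_of_dvd_card hrG this
  by_cases hrA : r ∈ A
  · exact aux hm A hdvd hTG hb hr hbA hrA hbM hrM hMG'
  · refine aux hm Aᶜ hdvd (fun x hx => ?_) ha hr (not_not.2 haA) hrA haM hrM hMG'
    rw [compl_compl, hTG x hx, not_not]

end Cfsg.Agent.S4184
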