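import Cfsg.Statements.S4186

set_option autoImplicit false
open Cfsg

namespace Cfsg.Agent.S4186

/-- Let T and X be subgroups of a group with T a finite 2-group normalizing X but not centralizing it. Then some element of T inverts some non-identity element of X under conjugation. -/
theorem result {G : Type*} [Group G] (T X : Subgroup G) [Finite ↥T] (hT : IsPGroup 2 ↥T) (hTN : T ≤ Subgroup.normalizer (X : Set G)) (hTC : ¬ T ≤ Subgroup.centralizer (X : Set G)) : ∃ t ∈ T, ∃ x ∈ X, x ≠ 1 ∧ t * x * t⁻¹ = x⁻¹ := by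
  classical
  obtain ⟨t, htT, htC⟩ := SetLike.not_le_iff_exists.mp hTC
  have hex : ∃ k : ℕ, t ^ (2 ^ k) ∈ Subgroup.centralizer (X : Set G) := by
    obtain ⟨k, hk⟩ := hT ⟨t, htT⟩
    refine ⟨k, ?_⟩
    have : t ^ (2 ^ k) = 1 := by simpa using congrArg Subtype.val hk
    rw [this]; exact one_mem _
  have h0 : Nat.find hex ≠ 0 := by
    intro h
    have := Nat.find_spec hex
    rw [h] at this
    exact htC (by simpa using this)
  obtain ⟨k, hk⟩ := Nat.exists_eq_succ_of_ne_zero h0
  have h1 := Nat.find_spec hex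
  have h2 := Nat.find_min hex (m := k) (by omega)
  rw [hk] at h1
  set s := t ^ (2 ^ k) with hs
  have hsT : s ∈ T := pow_mem htT _
  have hss : s * s ∈ Subgroup.centralizer (X : Set G) := by
    have : s * s = t ^ (2 ^ k.succ) := by
      rw [hs, ← pow_add, pow_succ]; congr 1; ring
    rw [this]; exact h1
  rw [Subgroup.mem_centralizer_iff] at h2 hss
  push Not at h2
  obtain ⟨x, hxX, hx⟩ := h2
  have hsx : s * x * s⁻¹ ∈ X := (Subgroup.mem_normalizer_iff.mp (hTN hsT) x).mp hxX
  refine ⟨s, hsT, x⁻¹ * (s * x * s⁻¹), mul_mem (inv_mem hxX) hsx, ?_, ?_⟩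
  · intro h
    apply hx
    have : s * x * s⁻¹ = x := by
      rw [inv_mul_eq_one] at h; exact h.symm
    calc x * s = (s * x * s⁻¹) * s := by rw [this]
      _ = s * x := by group
  · have h3 := hss x hxX
    calc s * (x⁻¹ * (s * x * s⁻¹)) * s⁻¹ = s * x⁻¹ * s⁻¹ * ((s * s * x) * (s * s)⁻¹) := by group
      _ = s * x⁻¹ * s⁻¹ * ((x * (s * s)) * (s * s)⁻¹) := by rw [h3]
      _ = (x⁻¹ * (s * x * s⁻¹))⁻¹ := by group

end Cfsg.Agent.S4186
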