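import Cfsg.Statements.S4188
import Cfsg.Agent.H88.FpfCore
import Cfsg.Agent.H67.Sol

set_option autoImplicit false
open Cfsg

namespace Cfsg.Agent.S4188

open Cfsg.Agent.H63 Cfsg.Agent.H67 Cfsg.Agent.H69 Cfsg.Agent.H88 Subgroup
open scoped IsMulCommutative commutatorElement

universe u

theorem cop {X : Type*} [Group X] [Finite X] {N P : Subgroup X} (hN : Odd (Nat.card N))
    (hP : IsPGroup 2 P) : (Nat.card P).Coprime (Nat.card N) := by
  have := Fact.mk Nat.prime_two
  obtain ⟨k, hk⟩ := hP.exists_card_eq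
  rw [hk]
  exact (Nat.coprime_two_left.mpr hN).pow_left k

theorem cent_eq_bot {X : Type*} [Group X] [Finite X] {N P : Subgroup X} (hm : MinNormal N P)
    (hf : P ⊓ C[N] = ⊥) {c : X} (hc : c ∈ P) (h1 : c ≠ 1) (hn : P ≤ N[zpowers c]) :
    N ⊓ C1[c] = ⊥ := by
  have e : C1[c] = C[zpowers c] := by
    ext x
    rw [mem_centralizer_iff_le, zpowers_le, mem_centralizer_singleton_comm]
  rw [e]
  apply hm.inf_eq_bot (le_normalizer_centralizer hn)
  intro h
  apply h1
  have : c ∈ P ⊓ C[N] := ⟨hc, le_centralizer_iff.1 h (mem_zpowers c)⟩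
  rwa [hf, mem_bot] at this

theorem dichotomy {X : Type*} [Group X] [Finite X] {N P : Subgroup X} (hNa : IsMulCommutative N)
    (hN : Odd (Nat.card N)) (hP : IsPGroup 2 P) (hm : MinNormal N P) (hf : P ⊓ C[N] = ⊥) :
    (∃ Q N₁ : Subgroup X, ∃ t ∈ P, Q ≤ P ∧ Q.relIndex P = 2 ∧ Q ≤ N[N₁] ∧ Q ≤ N[cj t N₁] ∧ N₁ ≠ ⊥ ∧
      N₁ ⊔ cj t N₁ = N ∧ N₁ ⊓ cj t N₁ = ⊥) ∨ P = ⊥ ∨
    (∃ A : Subgroup X, A ≤ P ∧ IsCyclic A ∧ 2 * A.relIndex P ≤ Nat.card A ∧ Nat.card A < Nat.card N) := by
  have := Fact.mk Nat.prime_two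
  by_cases hP0 : P = ⊥
  · exact Or.inr (Or.inl hP0)
  obtain ⟨A, hA, -⟩ := H67.Aux.exists_scn_ge hP (A := ⊥) ⟨bot_le, le_normalizer_bot _⟩ inferInstance
  by_cases hc : IsCyclic A
  · refine Or.inr (Or.inr ⟨A, scn_le hA, hc, ?_, ?_⟩)
    · have h1 := relIndex_cent_dvd_totient hc (scn_normalIn hA).2
      rw [← Subgroup.inf_relIndex_right, inf_comm, scn_cent hA] at h1
      obtain ⟨k, hk⟩ := (hP.to_le (scn_le hA)).exists_card_eq
      have hk0 : k ≠ 0 := by
        rintro rfl
        exact scn_ne_bot hA hP0 (Subgroup.card_eq_one.1 hk)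
      obtain ⟨k, rfl⟩ : ∃ j, k = j + 1 := ⟨k - 1, by omega⟩
      rw [hk, Nat.totient_prime_pow_succ Nat.prime_two] at h1
      have := Nat.le_of_dvd (by positivity) h1
      rw [hk, pow_succ]
      omega
    · have h1 : Semiregular N A := fun a ha h1 => cent_eq_bot hm hf (scn_le hA ha) h1
        (le_norm_of_isCyclic hc (zpowers_le.2 ha) (scn_normalIn hA).2)
      have h2 := h1.card_dvd_pred ((scn_le hA).trans hm.norm)
      have h3 : 1 < Nat.card N := (Subgroup.one_lt_card_iff_ne_bot N).2 hm.ne_bot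
      have := Nat.le_of_dvd (by omega) h2
      omega
  left
  obtain ⟨V, ⟨hVA, hVe, hV4⟩, hVn⟩ := H67.Aux.exists_normal_elemOf_of_comm (n := 2) hP (scn_normalIn hA)
    (scn_comm hA) (two_le_rankP_of_comm (hP.to_le (scn_le hA)) (scn_comm hA) hc)
  have hVP : V ≤ P := hVn.1
  have hVne : V ≠ ⊥ := by
    rintro rfl
    simp at hV4
  have hVnc : ¬ IsCyclic V := not_isCyclic_of_two_le_rankP (p := 2)
    (ElemOf.le_rankP ⟨le_rfl, hVe, hV4⟩)
  have hcV : (Nat.card V).Coprime (Nat.card N) := cop hN (hP.to_le hVP)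
  obtain ⟨z, ⟨hzV, -, hzC⟩, hz1⟩ := exists_ne_one_of_ne_bot
    (inf_center_ne_bot_of_isNilpotent (isNilpotent_of_isPGroup Nat.prime_two hP) hVn hVne)
  have hcen : ∀ c ∈ P, c ≠ 1 → (∀ g ∈ P, g * c * g⁻¹ = c) → N ⊓ C1[c] = ⊥ := fun c hc h1 h =>
    cent_eq_bot hm hf hc h1 (le_normalizer_of_cj fun g hg => by rw [cj_zpowers, h g hg])
  have hzc : ∀ g ∈ P, g * z * g⁻¹ = z := fun g hg => by rw [hzC g hg, mul_inv_cancel_right]
  have hz0 := hcen z (hVP hzV) hz1 hzc
  obtain ⟨a, haV, ha1, ha0⟩ := exists_cent1_ne_bot hVe.1 hVnc (hVP.trans hm.norm) hcV hm.ne_bot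
  obtain ⟨t, htP, hta⟩ : ∃ t ∈ P, t * a * t⁻¹ ≠ a := by
    by_contra h
    push Not at h
    exact ha0 (hcen a (hVP haV) ha1 h)
  have hconj : ∀ g ∈ P, g * a * g⁻¹ ∈ V ∧ g * a * g⁻¹ ≠ 1 ∧ g * a * g⁻¹ ≠ z := by
    intro g hg
    refine ⟨conj_mem_of_mem_normalizer (hVn.2 hg) haV, fun h => ha1 (by simpa using h), fun h => ?_⟩
    have : a = z := by
      rw [← hzc g hg] at h
      simpa using h
    exact ha0 (this ▸ hz0)
  have haz : a ≠ z := by simpa using (hconj 1 (one_mem _)).2.2
  set b := t * a * t⁻¹ with hb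
  obtain ⟨hbV, hb1, hbz⟩ := hconj t htP
  rw [← hb] at hbV hb1 hbz
  have hall : ∀ v ∈ V, v = 1 ∨ v = z ∨ v = a ∨ v = b := by
    have h1 : ({1, z, a, b} : Set X) = V := by
      apply Set.eq_of_subset_of_ncard_le
      · rintro v (rfl | rfl | rfl | rfl)
        exacts [one_mem _, hzV, haV, hbV]
      · rw [Set.ncard_insert_of_notMem (by simp [hz1.symm, ha1.symm, hb1.symm]),
          Set.ncard_insert_of_notMem (by simp [haz.symm, hbz.symm]), Set.ncard_pair hta.symm]
        exact (show (V : Set X).ncard = 2 ^ 2 from hV4).le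
      · exact Set.toFinite _
    intro v hv
    have : v ∈ ({1, z, a, b} : Set X) := h1 ▸ hv
    simpa using this
  have hab : a * b = z := by
    rcases hall _ (V.mul_mem haV hbV) with h | h | h | h
    · exfalso
      apply hta
      have := hVe.2 a haV
      rw [pow_two] at this
      exact mul_left_cancel (h.trans this.symm)
    · exact h
    · exact absurd (by simpa using h) hb1
    · exact absurd (by simpa using h) ha1
  have hcj : cj t (N ⊓ C1[a]) = N ⊓ C1[b] := by
    rw [cj_inf, cj_eq_self (hm.norm htP), cj_centralizer_singleton]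
  refine ⟨P ⊓ C1[a], N ⊓ C1[a], t, htP, inf_le_left, ?_, ?_, ?_, ha0, ?_, ?_⟩
  · rw [inf_comm, Subgroup.inf_relIndex_right, Subgroup.relIindex_eq_two_iff']
    refine ⟨t⁻¹, inv_mem htP, fun g hg => ?_⟩
    have e1 : t⁻¹ * g ∈ C1[a] ↔ g * a * g⁻¹ = b := by
      rw [mem_centralizer_singleton_iff, hb]
      constructor
      · intro h
        calc g * a * g⁻¹ = t * (t⁻¹ * g * a) * g⁻¹ := by group
          _ = _ := by rw [h]; group
      · intro h
        calc t⁻¹ * g * a = t⁻¹ * (g * a * g⁻¹) * g := by group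
          _ = _ := by rw [h]; group
    have e2 : g ∈ C1[a] ↔ g * a * g⁻¹ = a := by
      rw [mem_centralizer_singleton_iff, mul_inv_eq_iff_eq_mul]
    rw [e1, e2]
    obtain ⟨h1, h2, h3⟩ := hconj g hg
    rcases hall _ h1 with h | h | h | h
    · exact absurd h h2
    · exact absurd h h3
    · exact Or.inr ⟨h, fun h' => hta (h'.symm.trans h)⟩
    · exact Or.inl ⟨h, fun h' => hta (h.symm.trans h')⟩
  · exact le_normalizer_inf (inf_le_left.trans hm.norm) (inf_le_right.trans Subgroup.le_normalizer)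
  · rw [hcj]
    refine le_normalizer_inf (inf_le_left.trans hm.norm) (le_trans ?_ Subgroup.le_normalizer)
    rintro g ⟨hg, hga⟩
    have h1 : Commute g a := mem_centralizer_singleton_iff.1 hga
    have h2 : Commute g z := hzC g hg
    have e : b = a⁻¹ * z := by rw [← hab]; group
    rw [mem_centralizer_singleton_iff, e]
    exact h1.inv_right.mul_right h2
  · rw [hcj]
    refine le_antisymm (sup_le inf_le_left inf_le_left) ?_
    apply coprime_abelian_gen_cent1 hVe.1 hVnc (hVP.trans hm.norm) hcV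
    intro v hv hv1
    rcases hall v hv with rfl | rfl | rfl | rfl
    · exact absurd rfl hv1
    · rw [hz0]; exact bot_le
    · exact le_sup_left
    · exact le_sup_right
  · rw [hcj, eq_bot_iff, ← hz0]
    rintro x ⟨⟨hx, h1⟩, -, h2⟩
    refine ⟨hx, mem_centralizer_singleton_iff.2 ?_⟩
    rw [← hab]
    exact Commute.mul_right (mem_centralizer_singleton_iff.1 h1) (mem_centralizer_singleton_iff.1 h2)

theorem bound : ∀ (n : ℕ) (X : Type u) [Group X] [Finite X] (N P : Subgroup X), Nat.card N = n →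
    IsMulCommutative N → Odd (Nat.card N) → N ≠ ⊥ → IsPGroup 2 P → P ≤ N[N] →
    2 * C[N].relIndex P + 1 ≤ Nat.card N ^ 2 := by
  intro n
  induction n using Nat.strong_induction_on with
  | _ n ih =>
  have faith : ∀ (X : Type u) [Group X] [Finite X] (N P : Subgroup X), Nat.card N = n →
      IsMulCommutative N → Odd (Nat.card N) → N ≠ ⊥ → IsPGroup 2 P → P ≤ N[N] → P ⊓ C[N] = ⊥ →
      2 * Nat.card P + 1 ≤ Nat.card N ^ 2 := by
    intro X _ _ N P hn hNa hN hne hP hPN hf
    by_cases hm : MinNormal N P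
    · rcases dichotomy hNa hN hP hm hf with ⟨Q, N₁, t, ht, hQ, hi, h1, h2, h3, h4, h5⟩ | rfl |
        ⟨A, hA, -, h1, h2⟩
      · have l1 : N₁ ≤ N := h4 ▸ le_sup_left
        have l2 : cj t N₁ ≤ N := h4 ▸ le_sup_right
        have hc : Nat.card N = Nat.card N₁ * Nat.card (cj t N₁) := by
          rw [← h4]
          exact card_sup_of_inf_eq_bot (Or.inl (le_normalizer_of_le_centralizer (l1.trans
            ((le_centralizer_iff_isMulCommutative.2 hNa).trans (centralizer_anti l2))))) h5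
        have g1 : 1 < Nat.card N₁ := (Subgroup.one_lt_card_iff_ne_bot _).2 h3
        have g2 : Nat.card (cj t N₁) = Nat.card N₁ := card_cj _ _
        have a1 := ih _ (by rw [← hn, hc, g2]; nlinarith) X N₁ Q rfl (isMulCommutative_of_le hNa l1)
          (hN.of_dvd_nat (card_dvd_of_le l1)) h3 (hP.to_le hQ) h1
        have a2 := ih _ (by rw [← hn, hc, g2]; nlinarith) X (cj t N₁) Q rfl
          (isMulCommutative_of_le hNa l2) (hN.of_dvd_nat (card_dvd_of_le l2))
          (fun h => h3 (cj_eq_bot_iff.1 h)) (hP.to_le hQ) h2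
        have a3 : Nat.card Q ≤ C[N₁].relIndex Q * C[cj t N₁].relIndex Q := by
          refine le_trans ?_ Subgroup.relIndex_inf_le
          rw [← H67.centralizer_sup, h4, ← Subgroup.inf_relIndex_right,
            eq_bot_iff.2 ((inf_le_inf_left _ hQ).trans (inf_comm _ _).le |>.trans hf.le),
            Subgroup.relIndex_bot_left]
        have a4 := card_mul_relIndex hQ
        rw [hi] at a4
        rw [hc, mul_pow, ← a4]
        nlinarith [Nat.mul_le_mul a1 a2]
      · have : 1 < Nat.card N := (Subgroup.one_lt_card_iff_ne_bot _).2 hne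
        rw [Subgroup.card_bot]
        nlinarith
      · rw [← card_mul_relIndex hA]
        nlinarith
    · obtain ⟨U, hUN, hU0, hPU, hUne⟩ : ∃ U, U ≤ N ∧ U ≠ ⊥ ∧ P ≤ N[U] ∧ U ≠ N := by
        by_contra hc
        push Not at hc
        exact hm ⟨hne, hPN, hc⟩
      have hNU : U ⊴ N := ⟨hUN, le_normalizer_of_le_centralizer
        ((le_centralizer_iff_isMulCommutative.2 hNa).trans (centralizer_anti hUN))⟩
      have hlt : U < N := lt_of_le_of_ne hUN hUne
      have a1 := ih _ (hn ▸ card_lt_of_lt hlt) X U P rfl (isMulCommutative_of_le hNa hUN)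
        (hN.of_dvd_nat (card_dvd_of_le hUN)) hU0 hP hPU
      have a2 := ih _ (hn ▸ card_quo_lt hNU hU0) (Coset U) (N /ᵍ U) (P /ᵍ U) rfl
        (quo_isMulCommutative U hNa) (quo_odd U hN) (quo_ne_bot hlt hNU.2) (quo_isPGroup U hP)
        (quo_norms U hPN)
      rw [← cosetpre_quo C[N /ᵍ U], relIndex_quo_eq (le_cosetpre _) hPU] at a2
      have a3 : Nat.card P ≤ C[U].relIndex P * (cosetpre U C[N /ᵍ U]).relIndex P := by
        refine le_trans ?_ Subgroup.relIndex_inf_le
        have : C[U] ⊓ cosetpre U C[N /ᵍ U] ⊓ P = ⊥ := by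
          rw [eq_bot_iff, ← hf]
          refine le_inf inf_le_right (stable_factor_cent (N := U) (cop (hN.of_dvd_nat
            (card_dvd_of_le hUN)) (hP.to_le inf_le_right)) (inf_le_left.trans inf_le_left) ?_)
          rw [commutator_comm, ← quo_cents_iff (inf_le_right.trans hPU) hNU.2,
            quo_le_iff (inf_le_right.trans hPU)]
          exact inf_le_left.trans inf_le_right
        rw [← Subgroup.inf_relIndex_right, this, Subgroup.relIndex_bot_left]
      rw [← card_quo_mul hNU, mul_pow]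
      nlinarith [Nat.mul_le_mul a1 a2]
  intro X _ _ N P hn hNa hN hne hP hPN
  set K := P ⊓ C[N] with hK
  have hPK : P ≤ N[K] := le_normalizer_inf Subgroup.le_normalizer (le_normalizer_centralizer hPN)
  have hNK : N ≤ N[K] := le_normalizer_of_le_centralizer' inf_le_right
  have hc : (Nat.card N).Coprime (Nat.card K) := (cop hN (hP.to_le inf_le_left)).symm
  have hd : K ⊓ N = ⊥ := inf_eq_bot_of_coprime' hc.symm
  have e1 := card_quo_of_disjoint hNK hd
  have := faith (Coset K) (N /ᵍ K) (P /ᵍ K) (e1.trans hn) (quo_isMulCommutative K hNa) (quo_odd K hN)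
    (fun h => hne (by rw [← Subgroup.card_eq_one, ← e1, h, Subgroup.card_bot])) (quo_isPGroup K hP)
    (quo_norms K hPN) (by
      rw [← H63.coprime_quo_cent inf_le_left hNK hc (Or.inl (isSolvable_of_comm' hNa)), quo_self])
  rwa [e1, card_quo hPK, hK, inf_comm, Subgroup.inf_relIndex_right] at this

/-- Let G be a finite group that is the semidirect product of a normal abelian subgroup N of odd order by a 2-subgroup P, and suppose N is the unique minimal normal subgroup of G. Then the index of the Frattini subgroup of P in P is at most #N − 1. -/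
theorem result {G : Type*} [Group G] [Finite G] (N P : Subgroup G) (hN : N.Normal) (hNab : IsMulCommutative ↥N) (hNodd : Odd (Nat.card ↥N)) (hP : IsPGroup 2 ↥P) (hdisj : N ⊓ P = ⊥) (hprod : N ⊔ P = ⊤) (hmin : N ≠ ⊥ ∧ ∀ M : Subgroup G, M.Normal → M ≠ ⊥ → N ≤ M) : (frattini ↥P).index ≤ Nat.card ↥N - 1 := by
  have := Fact.mk Nat.prime_two
  have hNN : N[N] = ⊤ := Subgroup.normalizer_eq_top N
  have hNC := le_centralizer_iff_isMulCommutative.2 hNab
  have hPN : P ≤ N[N] := hNN ▸ le_top
  have hm : MinNormal N P := ⟨hmin.1, hPN, fun K hK h0 hn => le_antisymm hK (hmin.2 K (by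
    rw [← Subgroup.normalizer_eq_top_iff, eq_top_iff, ← hprod]
    exact sup_le (le_normalizer_of_le_centralizer (hNC.trans (centralizer_anti hK))) hn) h0)⟩
  have hf : P ⊓ C[N] = ⊥ := by
    by_contra h0
    have := hmin.2 (P ⊓ C[N]) (by
      rw [← Subgroup.normalizer_eq_top_iff, eq_top_iff, ← hprod]
      exact sup_le (le_normalizer_of_le_centralizer' inf_le_right)
        (le_normalizer_inf Subgroup.le_normalizer (le_normalizer_centralizer hPN))) h0
    exact hmin.1 (eq_bot_iff.2 (hdisj ▸ le_inf le_rfl (this.trans inf_le_left)))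
  have e0 : (frattini P).index * Nat.card (frattiniOf P) = Nat.card P := by
    rw [frattiniOf, Subgroup.card_map_of_injective P.subtype_injective, Subgroup.index_mul_card]
  have hN1 : 1 < Nat.card N := (Subgroup.one_lt_card_iff_ne_bot _).2 hmin.1
  rcases dichotomy hNab hNodd hP hm hf with ⟨Q, N₁, t, ht, hQ, hi, h1, h2, h3, h4, h5⟩ | rfl |
    ⟨A, hA, hc, h1, h2⟩
  · have l1 : N₁ ≤ N := h4 ▸ le_sup_left
    have l2 : cj t N₁ ≤ N := h4 ▸ le_sup_right
    have hc : Nat.card N = Nat.card N₁ ^ 2 := by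
      rw [← h4, card_sup_of_inf_eq_bot (Or.inl (le_normalizer_of_le_centralizer (l1.trans
        (hNC.trans (centralizer_anti l2))))) h5, card_cj, pow_two]
    have a1 := bound _ G N₁ Q rfl (isMulCommutative_of_le hNab l1)
      (hNodd.of_dvd_nat (card_dvd_of_le l1)) h3 (hP.to_le hQ) h1
    have a2 : Nat.card ↥(C[N₁] ⊓ Q) ≤ Nat.card (frattiniOf P) := by
      refine Nat.card_le_card_of_injective (fun k => (⟨(k : G)⁻¹ * (t * k * t⁻¹),
        derived_le_frattiniOf hP (by
          have := commutator_mem_commutator (inv_mem (hQ k.2.2)) ht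
          rw [commutatorElement_def, inv_inv] at this
          simpa only [mul_assoc] using this)⟩ : frattiniOf P)) ?_
      intro k l hkl
      have e1 : (k : G)⁻¹ * (t * k * t⁻¹) = (l : G)⁻¹ * (t * l * t⁻¹) := congrArg Subtype.val hkl
      have e2 : (l : G) * (k : G)⁻¹ = t * (l * (k : G)⁻¹) * t⁻¹ := by
        calc (l : G) * (k : G)⁻¹ = l * ((k : G)⁻¹ * (t * k * t⁻¹)) * (t * k * t⁻¹)⁻¹ := by group
          _ = _ := by rw [e1]; group
      have m1 : (l : G) * (k : G)⁻¹ ∈ C[N₁] := mul_mem l.2.1 (inv_mem k.2.1)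
      have m2 : (l : G) * (k : G)⁻¹ ∈ C[cj t N₁] := by
        rw [← cj_centralizer, e2]
        exact conj_mem_cj m1
      have m3 : (l : G) * (k : G)⁻¹ ∈ P ⊓ C[N] := by
        rw [← h4, H67.centralizer_sup]
        exact ⟨hQ (mul_mem l.2.2 (inv_mem k.2.2)), m1, m2⟩
      rw [hf, mem_bot, mul_inv_eq_one] at m3
      exact Subtype.ext m3.symm
    have a3 := card_inf_mul_relIndex C[N₁] Q
    have a4 := card_mul_relIndex hQ
    rw [hi] at a4
    have a5 : 0 < Nat.card (frattiniOf P) := Nat.card_pos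
    have : (frattini P).index ≤ 2 * C[N₁].relIndex Q := by
      apply Nat.le_of_mul_le_mul_right _ a5
      rw [e0, ← a4, ← a3]
      nlinarith
    omega
  · rw [Subgroup.card_bot] at e0
    have := Nat.eq_one_of_mul_eq_one_right e0
    omega
  · obtain ⟨x, hx⟩ := (Subgroup.isCyclic_iff_exists_zpowers_eq_top A).1 hc
    have hxP : x ∈ P := hA (hx ▸ mem_zpowers x)
    have a1 : orderOf (x ^ 2) ≤ Nat.card (frattiniOf P) := by
      rw [← Nat.card_zpowers]
      exact card_le_of_le (zpowers_le.2 (pow_mem_frattiniOf hP hxP))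
    have a2 : Nat.card A ≤ 2 * orderOf (x ^ 2) := by
      rw [← hx, Nat.card_zpowers]
      apply Nat.le_of_dvd (by have := orderOf_pos (x ^ 2); omega)
      rw [orderOf_dvd_iff_pow_eq_one, pow_mul, pow_orderOf_eq_one]
    have a3 := card_mul_relIndex hA
    have a5 : 0 < Nat.card (frattiniOf P) := Nat.card_pos
    have : (frattini P).index ≤ 2 * A.relIndex P := by
      apply Nat.le_of_mul_le_mul_right _ a5
      rw [e0, ← a3]
      nlinarith
    omega

end Cfsg.Agent.S4188
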