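import Cfsg.Statements.S4189
import Cfsg.Agent.H9.Taussky
import Cfsg.Agent.H87.AutTwo

set_option autoImplicit false
open Cfsg

namespace Cfsg.Agent.S4189

open Subgroup

/-- Let P be a finite non-abelian 2-group whose commutator subgroup has index 4 and whose automorphism group is not a 2-group (some automorphism has order that is not a power of 2). Then P is isomorphic to the quaternion group of order 8. -/
theorem result {P : Type*} [Group P] [Finite P] (hP : IsPGroup 2 P) (hna : ¬ IsMulCommutative P) (h4 : (commutator P).index = 4) (haut : ¬ IsPGroup 2 (MulAut P)) : Nonempty (P ≃* QuaternionGroup 2) := by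
  have := Fact.mk Nat.prime_two
  rcases H9.taussky hP h4 with h | ⟨a, b, n, h⟩
  · exact absurd (IsPGroup.isMulCommutative_of_card_eq_prime_sq (p := 2) h) hna
  by_contra h1
  refine haut ((H87.isPGroup_mulAut_of_relIndex_two h.isPGroup h.a_mem h.relIndex_zpowers
    fun w hw hwa h2 => h1 ?_).of_equiv (MulAut.congr topEquiv))
  have h3 := h.of_mem hw hwa
  rw [h.ord] at h2
  have h5 : n = 1 := by
    have := (Nat.pow_dvd_pow_iff_le_right (k := n + 1) (l := 2) one_lt_two).1
      (h2 ▸ orderOf_dvd_of_pow_eq_one h3.b_pow_four)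
    have := h.one_le
    omega
  subst h5
  have h6 : w * w = a ^ 2 ^ 1 := h3.sq.resolve_left fun h6 =>
    absurd (h2 ▸ orderOf_dvd_of_pow_eq_one ((sq w).trans h6)) (by norm_num)
  obtain ⟨e⟩ := h3.equiv_quaternion h6 (h3.conj.resolve_right fun h7 => by omega)
  exact ⟨topEquiv.symm.trans e⟩

end Cfsg.Agent.S4189
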