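import Cfsg.Statements.S4196
import Cfsg.Agent.S4195

set_option autoImplicit false
open Cfsg

namespace Cfsg.Agent.S4196

/-- A finite group G has elementary abelian Sylow 2-subgroups (commutative with every element squaring to the identity) if and only if every 2-element of G has a Sylow 2-subgroup in its centralizer and is conjugate to its inverse. -/
theorem result {G : Type*} [Group G] [Finite G] (P : Sylow 2 G) :
    (IsMulCommutative (P : Subgroup G) ∧ ∀ x ∈ (P : Subgroup G), x ^ 2 = 1) ↔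
      ∀ x : G, (∃ k : ℕ, orderOf x = 2 ^ k) → (∃ Q : Sylow 2 G, (Q : Subgroup G) ≤ Subgroup.centralizer ({x} : Set G)) ∧ IsConj x x⁻¹ := by
  haveI : Fact (Nat.Prime 2) := ⟨Nat.prime_two⟩
  constructor
  · rintro ⟨hc, hsq⟩ x ⟨k, hk⟩
    have hx : IsPGroup 2 (Subgroup.zpowers x) := IsPGroup.of_card (by rw [Nat.card_zpowers, hk])
    obtain ⟨Q, hQ⟩ := hx.exists_le_sylow
    have hxQ : x ∈ (Q : Subgroup G) := hQ (Subgroup.mem_zpowers x)
    let e : P ≃* Q := Sylow.equiv P Q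
    refine ⟨⟨Q, ?_⟩, ?_⟩
    · intro y hy
      rw [Subgroup.mem_centralizer_singleton_iff]
      have h1 : e.symm ⟨y, hy⟩ * e.symm ⟨x, hxQ⟩ = e.symm ⟨x, hxQ⟩ * e.symm ⟨y, hy⟩ :=
        hc.is_comm.comm _ _
      rw [← map_mul, ← map_mul] at h1
      exact congrArg Subtype.val (e.symm.injective h1)
    · have h1 : (e.symm ⟨x, hxQ⟩) ^ 2 = 1 := Subtype.ext (hsq _ (e.symm ⟨x, hxQ⟩).2)
      rw [← map_pow, MulEquiv.map_eq_one_iff] at h1
      have h2 : x ^ 2 = 1 := congrArg Subtype.val h1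
      have h3 : x⁻¹ = x := by
        rw [pow_two] at h2
        exact inv_eq_of_mul_eq_one_right h2
      rw [h3]
  · intro h
    have hsq : ∀ x ∈ (P : Subgroup G), x ^ 2 = 1 := by
      intro x hx
      by_cases hx1 : x = 1
      · simp [hx1]
      obtain ⟨k, hk⟩ := IsPGroup.iff_orderOf.mp P.isPGroup' ⟨x, hx⟩
      rw [Subgroup.orderOf_mk] at hk
      obtain ⟨⟨Q, hQ⟩, hr⟩ := h x ⟨k, hk⟩
      rw [← Cfsg.Agent.S4195.result x hx1 Q hQ hr]
      exact pow_orderOf_eq_one x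
    refine ⟨⟨⟨fun a b => ?_⟩⟩, hsq⟩
    apply Subtype.ext
    have ha := hsq a a.2
    have hb := hsq b b.2
    have hab := hsq (a * b) (mul_mem a.2 b.2)
    rw [pow_two] at ha hb hab
    push_cast
    have h1 : (a : G) * b = ((a : G) * b)⁻¹ := (inv_eq_of_mul_eq_one_right hab).symm
    rw [h1, mul_inv_rev, inv_eq_of_mul_eq_one_right ha, inv_eq_of_mul_eq_one_right hb]

end Cfsg.Agent.S4196
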