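import Cfsg.Statements.S4203
import Cfsg.Agent.S0144
import Cfsg.Agent.H94.SylowNum
import Cfsg.Agent.H2.SchurZassenhaus
import Cfsg.Agent.H4.CoprimeAction

set_option autoImplicit false
open Cfsg

namespace Cfsg.Agent.S4203

universe u

open Subgroup

theorem aux (n : ℕ) : ∀ (G : Type u) [Group G] [Finite G], Nat.card G = n →
    (∀ M : Subgroup G, IsCoatom M → ∃ p : ℕ, p.Prime ∧ (M.index = p ∨ M.index = p ^ 2)) →
    Group.IsSolvable G := by
  induction n using Nat.strong_induction_on with
  | _ n ih =>
  intro G _ _ hn h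
  rcases subsingleton_or_nontrivial G with hs | hs
  · infer_instance
  obtain ⟨N, hNn, hN0, -, hmin⟩ := H2.exists_minimal_normal_le (⊤ : Subgroup G) top_ne_bot
  have hQ : Group.IsSolvable (G ⧸ N) := by
    refine ih _ (hn ▸ H2.card_quotient_lt_of_ne_bot hN0) _ rfl fun M hM => ?_
    obtain ⟨p, hp, h1⟩ := h _ (isCoatom_comap_of_surjective (QuotientGroup.mk'_surjective N) hM)
    rw [index_comap_of_surjective _ (QuotientGroup.mk'_surjective N)] at h1
    exact ⟨p, hp, h1⟩
  suffices hN : Group.IsSolvable N from
    Group.isSolvable_of_ker_le_range N.subtype (QuotientGroup.mk' N) (by simp)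
  have hc1 : Nat.card N ≠ 1 := fun h => hN0 (card_eq_one.1 h)
  have hne : (Nat.card N).primeFactors.Nonempty :=
    Nat.nonempty_primeFactors.2 (lt_of_le_of_ne Nat.card_pos hc1.symm)
  set q := (Nat.card N).primeFactors.max' hne with hq
  have hqm : q ∈ (Nat.card N).primeFactors := Finset.max'_mem _ _
  have hqp : q.Prime := Nat.prime_of_mem_primeFactors hqm
  have hqmax : ∀ r : ℕ, r.Prime → r ∣ Nat.card N → r ≤ q := fun r hr hd =>
    Finset.le_max' _ r (Nat.mem_primeFactors.2 ⟨hr, hd, Nat.card_pos.ne'⟩)
  have : Fact q.Prime := ⟨hqp⟩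
  obtain ⟨Q, hQN⟩ := H8.exists_isSylowIn q N
  rcases eq_top_or_exists_le_coatom (normalizer (Q : Set G)) with h1 | ⟨M, hM, hQM⟩
  · rcases hmin Q (normalizer_eq_top_iff.1 h1) hQN.le with h2 | h2
    · have := hQN.not_dvd
      rw [h2, relIndex_bot_left] at this
      exact absurd (Nat.dvd_of_mem_primeFactors hqm) this
    · exact H4.isSolvable_of_isPGroup (h2 ▸ hQN.isPGroup)
  obtain ⟨p, hp, hidx⟩ := h M hM
  have hMN : M ⊔ N = ⊤ := by
    rw [eq_top_iff]
    intro g _
    obtain ⟨a, ha, b, hb, rfl⟩ := hQN.frattini (g := g) (le_normalizer_of_normal (mem_top g))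
    exact mul_mem (mem_sup_right ha) (mem_sup_left (hQM hb))
  have hidx2 : M.index = M.relIndex N := by
    rw [← H94.relIndex_sup_of_le_left (K := N) (le_refl M), hMN, relIndex_top_right]
  have hmod : M.index ≡ 1 [MOD q] := by
    have e1 := H94.card_sylow_of_isSylowIn hQN
    have e2 := H94.card_sylow_of_isSylowIn
      (hQN.mono (le_inf (le_normalizer.trans hQM) hQN.le) (inf_le_right : M ⊓ N ≤ N))
    have e3 : (normalizer (Q : Set G)).relIndex (M ⊓ N) * M.relIndex N =
        (normalizer (Q : Set G)).relIndex N := by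
      rw [← inf_relIndex_right M N, ← inf_relIndex_right (normalizer (Q : Set G)) (M ⊓ N),
        relIndex_mul_relIndex _ _ _ inf_le_right inf_le_right, ← inf_assoc, inf_eq_left.2 hQM,
        inf_relIndex_right]
    have m1 := card_sylow_modEq_one q N
    have m2 := card_sylow_modEq_one q (M ⊓ N : Subgroup G)
    rw [e1, ← e3, ← e2] at m1
    rw [hidx2]
    have := (m2.mul_right (M.relIndex N)).symm.trans m1
    rwa [one_mul] at this
  have hpN : p ∣ Nat.card N := by
    refine dvd_trans ?_ (relIndex_dvd_card M N)
    rw [← hidx2]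
    rcases hidx with h | h <;> rw [h]
    exact dvd_pow_self p two_ne_zero
  have hpq := hqmax p hp hpN
  have hp2 := hp.two_le
  have hq3 : q = 3 := by
    have key : ∀ m, q ∣ m → 0 < m → q ≤ m := fun m h1 h2 => Nat.le_of_dvd h2 h1
    rcases hidx with h | h
    · rw [h] at hmod
      have := key _ ((Nat.modEq_iff_dvd' hp.one_le).1 hmod.symm) (by omega)
      omega
    · rw [h] at hmod
      have h3 := (Nat.modEq_iff_dvd' (Nat.one_le_pow _ _ hp.pos)).1 hmod.symm
      have h4 : p ^ 2 - 1 = (p + 1) * (p - 1) := by simpa using Nat.sq_sub_sq p 1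
      rw [h4] at h3
      rcases (Nat.Prime.dvd_mul hqp).1 h3 with h5 | h5
      · have h6 : q = p + 1 := by
          rcases hpq.eq_or_lt with h7 | h7
          · rw [← h7] at h5
            have := (Nat.dvd_add_right (dvd_refl p)).1 h5
            exact absurd (Nat.dvd_one.1 this) hp.one_lt.ne'
          · have := key _ h5 (by omega)
            omega
        rcases hp.eq_two_or_odd' with h8 | h8
        · omega
        · have : Even q := h6 ▸ h8.add_one
          have := hqp.even_iff.1 this
          omega
      · have := key _ h5 (by omega)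
        omega
  refine S0144.result 2 3 ((Nat.card N).factorization 2) ((Nat.card N).factorization 3)
    Nat.prime_two Nat.prime_three ?_
  apply Nat.eq_of_factorization_eq Nat.card_pos.ne' (by positivity)
  intro r
  rw [Nat.factorization_mul (by positivity) (by positivity), Nat.prime_two.factorization_pow,
    Nat.prime_three.factorization_pow, Finsupp.add_apply, Finsupp.single_apply, Finsupp.single_apply]
  by_cases h2 : 2 = r
  · subst h2; simp
  by_cases h3 : 3 = r
  · subst h3; simp
  rw [if_neg h2, if_neg h3, add_zero, Nat.factorization_eq_zero_iff]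
  by_cases hr : r.Prime
  · right; left
    intro hd
    have := hqmax r hr hd
    have := hr.two_le
    omega
  · exact Or.inl hr

/-- A finite group in which every maximal subgroup has index a prime or the square of a prime is solvable. -/
theorem result {G : Type*} [Group G] [Finite G] (h : ∀ M : Subgroup G, IsCoatom M → ∃ p : ℕ, p.Prime ∧ (M.index = p ∨ M.index = p ^ 2)) : Group.IsSolvable G := by
  exact aux _ G rfl h

end Cfsg.Agent.S4203
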