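import Cfsg.Statements.S4211
import Cfsg.Agent.H89.PBasic
import Cfsg.Agent.H7.CommCalc
import Cfsg.Agent.H9.Taussky
import Cfsg.Agent.H90.MetaAut
import Cfsg.Agent.H71.PRel
import Cfsg.Agent.H87.CyclicSylow

set_option autoImplicit false
open Cfsg

namespace Cfsg.Agent.S4211

open Subgroup H89
open scoped commutatorElement

theorem zpowers_eq {G : Type*} [Group G] [Finite G] {p m : ℕ} [hp : Fact p.Prime] {x c : G}
    (hx : orderOf x = p ^ (m + 1)) (hc : c ∈ zpowers x) (hcp : orderOf c = p) :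
    zpowers c = zpowers (x ^ p ^ m) := by
  refine H90.zpowers_eq_of_mem_of_pow_prime (p := p)
    (by rw [← pow_mul, ← pow_succ, ← hx, pow_orderOf_eq_one]) ?_
    (H90.ne_one_of_orderOf_prime hp.out hcp)
  obtain ⟨i, rfl⟩ := hc
  refine (H9.zpow_mem_zpowers_pow_iff (hx ▸ pow_dvd_pow p m.le_succ) i).2 ?_
  have h1 := pow_orderOf_eq_one (x ^ i)
  rw [hcp, ← zpow_natCast, ← zpow_mul, H9.zpow_eq_one_iff_dvd hx, pow_succ, Nat.cast_mul] at h1
  exact (mul_dvd_mul_iff_right (Int.natCast_ne_zero.2 hp.out.ne_zero)).1 h1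

theorem exists_quat {G : Type*} [Group G] [Finite G] (hn : ∀ H : Subgroup G, H.Normal) (N : ℕ) :
    ∀ x y : G, orderOf x + orderOf y = N → ¬ Commute y x →
      ∃ x y : G, orderOf x = 4 ∧ y * y = x ^ 2 ∧ y * x * y⁻¹ = x⁻¹ := by
  have h1 : ∀ x y : G, ⁅y, x⁆ ∈ zpowers x := fun x y =>
    mul_mem ((hn _).conj_mem x (mem_zpowers x) y) (inv_mem (mem_zpowers x))
  have h2 : ∀ x y : G, ⁅y, x⁆ ∈ zpowers y := fun x y => by
    rw [← commutatorElement_inv]; exact inv_mem (h1 y x)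
  have h3 : ∀ x c : G, c ∈ zpowers x → Commute x c := by
    rintro x _ ⟨k, rfl⟩
    exact (Commute.refl x).zpow_right k
  induction N using Nat.strong_induction_on with
  | _ N ih =>
  intro x y hN hxy
  wlog hle : orderOf y ≤ orderOf x generalizing x y
  · exact this y x (by omega) (fun h => hxy h.symm) (by omega)
  by_contra hcon
  have hmin : ∀ x' y' : G, orderOf x' + orderOf y' < N → Commute y' x' := fun x' y' h => by
    by_contra h4
    exact hcon (ih _ h x' y' rfl h4)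
  have hlt : ∀ (z : G) (q : ℕ), q.Prime → q ∣ orderOf z → orderOf (z ^ q) < orderOf z :=
    fun z q hq hd => by
      rw [orderOf_pow_of_dvd hq.ne_zero hd]
      exact Nat.div_lt_self (orderOf_pos z) hq.one_lt
  have hx : ∀ q : ℕ, q.Prime → q ∣ orderOf x → ⁅y, x⁆ ^ q = 1 := fun q hq hd => by
    rw [← H7.comm_pow_right (h3 _ _ (h1 x y)), commutatorElement_eq_one_iff_commute]
    exact hmin _ _ (by have := hlt x q hq hd; omega)
  have hy : ∀ q : ℕ, q.Prime → q ∣ orderOf y → ⁅y, x⁆ ^ q = 1 := fun q hq hd => by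
    rw [← H7.comm_pow_left (h3 _ _ (h2 x y)), commutatorElement_eq_one_iff_commute]
    exact hmin _ _ (by have := hlt y q hq hd; omega)
  have hc1 : ⁅y, x⁆ ≠ 1 := fun h => hxy (commutatorElement_eq_one_iff_commute.1 h)
  obtain ⟨p, hp, hd⟩ := Nat.exists_prime_and_dvd (mt orderOf_eq_one_iff.1 hc1)
  have := Fact.mk hp
  have hc : orderOf ⁅y, x⁆ = p :=
    orderOf_eq_prime (hx p hp (hd.trans (orderOf_dvd_of_mem_zpowers (h1 x y)))) hc1
  have hpow : ∀ z : G, ⁅y, x⁆ ∈ zpowers z → (∀ q : ℕ, q.Prime → q ∣ orderOf z → ⁅y, x⁆ ^ q = 1) →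
      ∃ m, orderOf z = p ^ (m + 1) := fun z hz h => by
    have h4 := Nat.eq_prime_pow_of_unique_prime_dvd (orderOf_pos z).ne' fun {q} hq hd =>
      ((Nat.prime_dvd_prime_iff_eq hp hq).1 (hc ▸ orderOf_dvd_of_pow_eq_one (h q hq hd))).symm
    generalize (orderOf z).primeFactorsList.length = m at h4
    rcases m with _ | m
    · rw [orderOf_eq_one_iff.1 h4, zpowers_one_eq_bot] at hz
      exact absurd hz hc1
    · exact ⟨m, h4⟩
  obtain ⟨m, hm⟩ := hpow x (h1 x y) hx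
  obtain ⟨n, hn'⟩ := hpow y (h2 x y) hy
  obtain ⟨d, rfl⟩ : ∃ d, m = d + n := ⟨m - n, by
    have := (Nat.pow_le_pow_iff_right hp.one_lt).1 (hm ▸ hn' ▸ hle)
    omega⟩
  have h4 := zpowers_eq hm (h1 x y) hc
  have h5 := zpowers_eq hn' (h2 x y) hc
  obtain ⟨k, hk⟩ := H90.exists_nat_pow_of_mem_zpowers
    (h4.le (h5.ge (inv_mem (mem_zpowers (y ^ p ^ n)))))
  have h6 : (x ^ (k * p ^ d) * y) ^ p ^ n = ⁅y, x⁆ ^ (k * p ^ d * (p ^ n).choose 2) := by
    rw [H7.mul_pow_class2 (H7.mul_eq_comm_mul _ y) (h3 _ _ (h1 _ y)) (h3 _ _ (h2 _ y)),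
      H7.comm_pow_right (h3 _ _ (h1 x y)), ← pow_mul, ← pow_mul x, mul_assoc k _ (p ^ n),
      ← pow_add, mul_comm k (p ^ (d + n)), pow_mul x, hk, inv_mul_cancel_right]
  have h7 : ¬ p ∣ k * p ^ d * (p ^ n).choose 2 := fun h7 => by
    rw [orderOf_dvd_iff_pow_eq_one.1 (hc.dvd.trans h7)] at h6
    have h8 := orderOf_le_of_pow_eq_one (pow_pos hp.pos n) h6
    have h9 : p ^ n < p ^ (n + 1) := Nat.pow_lt_pow_right hp.one_lt n.lt_succ_self
    have h10 := (((Commute.refl x).pow_left (k * p ^ d)).inv_left).mul_left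
      (hmin x (x ^ (k * p ^ d) * y) (by omega))
    rw [inv_mul_cancel_left] at h10
    exact hxy h10
  obtain rfl : d = 0 := by
    by_contra h8
    exact h7 (((dvd_pow_self p h8).mul_left k).mul_right _)
  have h8 : p ^ n = 2 := by
    by_contra h8
    exact h7 ((H7.prime_dvd_choose_two_pow hp h8).mul_left _)
  obtain ⟨rfl, rfl⟩ := (Nat.prime_two.pow_eq_iff).1 h8
  have h9 : ∀ z : G, orderOf z = 2 ^ (1 + 1) → ⁅y, x⁆ ∈ zpowers z → ⁅y, x⁆ = z ^ 2 :=
    fun z hz hz' => H87.eq_of_mem_zpowers_of_sq hz' (pow_mem (mem_zpowers z) 2)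
      (orderOf_dvd_iff_pow_eq_one.1 hc.dvd) ((pow_mul z 2 2).symm.trans
        (orderOf_dvd_iff_pow_eq_one.1 hz.dvd)) hc1
      (pow_ne_one_of_lt_orderOf two_ne_zero (by rw [hz]; norm_num))
  refine hcon ⟨x, y, hm, by rw [← sq, ← h9 y hn' (h2 x y), h9 x hm (h1 x y)], ?_⟩
  have h10 := h9 x hm (h1 x y)
  rw [commutatorElement_def, mul_inv_eq_iff_eq_mul] at h10
  rw [h10, eq_inv_iff_mul_eq_one, ← pow_succ, ← pow_succ]
  exact orderOf_dvd_iff_pow_eq_one.1 hm.dvd

/-- A finite non-abelian group in which every subgroup is normal is the internal direct product of a subgroup isomorphic to the quaternion group of order `8`, an elementary abelian `2`-subgroup and an abelian subgroup of odd order. -/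
theorem result {G : Type*} [Group G] [Finite G] (hna : ¬ IsMulCommutative G) (hn : ∀ H : Subgroup G, H.Normal) : ∃ Q E A : Subgroup G, Nonempty (Q ≃* QuaternionGroup 2) ∧ Cfsg.IsElementaryAbelian 2 E ∧ IsMulCommutative A ∧ Odd (Nat.card A) ∧ E ⊓ A = ⊥ ∧ Q ⊓ (E ⊔ A) = ⊥ ∧ Q ⊔ (E ⊔ A) = ⊤ := by
  have := Fact.mk Nat.prime_two
  obtain ⟨x, y, hx, hy, hyx⟩ : ∃ x y : G, orderOf x = 4 ∧ y * y = x ^ 2 ∧ y * x * y⁻¹ = x⁻¹ := by
    by_contra h
    refine hna ⟨⟨fun a b => ?_⟩⟩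
    by_contra h1
    exact h (exists_quat hn _ b a rfl h1)
  have hx4 : x ^ 4 = 1 := hx ▸ pow_orderOf_eq_one x
  have hx2 : x ^ 2 ≠ 1 := pow_ne_one_of_lt_orderOf two_ne_zero (by rw [hx]; norm_num)
  have hyx' : ¬ Commute y x := fun h => hx2 (by
    rwa [h.eq, mul_inv_cancel_right, eq_inv_iff_mul_eq_one, ← sq] at hyx)
  have hM : H9.MC (closure {x, y}) x y 1 := ⟨le_rfl, hx, H9.not_mem_zpowers_of_not_commute hyx',
    H9.mem_closure_pair_iff' (hyx ▸ inv_mem (mem_zpowers x)) (hy ▸ pow_mem (mem_zpowers x) 2),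
    Or.inl hyx, Or.inr hy⟩
  set Q := closure ({x, y} : Set G) with hQ
  obtain ⟨P, hP⟩ := hM.isPGroup.exists_le_sylow
  obtain ⟨A, hA⟩ := exists_right_complement'_of_coprime (N := (P : Subgroup G)) P.card_coprime_index
  have hodd : Odd (Nat.card A) := by
    rw [← hA.symm.index_eq_card]
    exact Nat.not_even_iff_odd.1 fun h => P.not_dvd_index h.two_dvd
  have hAc : IsMulCommutative A := ⟨⟨fun a b => by
    by_contra h
    obtain ⟨u, -, hu, -⟩ := exists_quat (G := A) (fun H => Normal.of_map_injective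
      A.subtype_injective (hn _)) _ b a rfl h
    exact hodd.not_two_dvd_nat ((by norm_num : 2 ∣ 4).trans (hu ▸ orderOf_dvd_natCard u))⟩⟩
  have hmem : ∀ g : G, Commute x g → Commute y g → g ∈ centralizer (Q : Set G) := fun g h1 h2 => by
    rw [hQ, centralizer_closure]
    rintro _ (rfl | rfl)
    exacts [h1, h2]
  have hconj : ∀ u g : G, u ^ 4 = 1 → g * u * g⁻¹ = u ∨ g * u * g⁻¹ = u⁻¹ := by
    intro u g hu
    obtain ⟨k, hk⟩ := H90.exists_nat_pow_of_mem_zpowers ((hn _).conj_mem u (mem_zpowers u) g)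
    rw [pow_eq_pow_mod k hu] at hk
    have h1 := Nat.mod_lt k four_pos
    generalize k % 4 = j at hk h1
    interval_cases j
    · rw [pow_zero, eq_comm, conj_eq_one_iff] at hk
      simp [hk]
    · exact Or.inl (hk.symm.trans (pow_one u))
    · have h2 : u ^ 2 = 1 := by rw [← conj_eq_one_iff (a := g), ← conj_pow, ← hk, ← pow_mul, hu]
      rw [h2, eq_comm, conj_eq_one_iff] at hk
      simp [hk]
    · exact Or.inr (by rw [← hk, eq_inv_iff_mul_eq_one, ← pow_succ, hu])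
  have hexp : ∀ w ∈ (P : Subgroup G) ⊓ centralizer (Q : Set G), w ^ 2 = 1 := by
    intro w hw
    by_contra h
    obtain ⟨m, hm⟩ := IsPGroup.iff_orderOf.1 P.isPGroup' ⟨w, hw.1⟩
    rw [orderOf_mk] at hm
    obtain ⟨m, rfl⟩ : ∃ k, m = k + 2 := ⟨m - 2, by
      by_contra h1
      exact h (orderOf_dvd_iff_pow_eq_one.1 (hm ▸ pow_dvd_pow 2 (show m ≤ 1 by omega)))⟩
    have h1 := H9.orderOf_pow_prime_pow Nat.prime_two hm (Nat.le_add_right m 2)
    rw [Nat.add_sub_cancel_left] at h1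
    have h2 := pow_mem hw.2 (2 ^ m)
    generalize w ^ 2 ^ m = v at h1 h2
    have h3 : Commute x v := h2 x hM.a_mem
    have h4 : Commute y v := h2 y hM.b_mem
    have h5 : y * (x * v) * y⁻¹ = x⁻¹ * v := by
      rw [← conj_mul, hyx, h4.eq, mul_inv_cancel_right]
    rcases hconj (x * v) y (by
      rw [h3.mul_pow, hx4, one_mul]; exact orderOf_dvd_iff_pow_eq_one.1 h1.dvd) with h6 | h6
    · rw [h5, mul_left_inj, inv_eq_iff_mul_eq_one, ← sq] at h6
      exact hx2 h6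
    · rw [h5, h3.eq, mul_inv_rev, mul_right_inj, eq_inv_iff_mul_eq_one, ← sq] at h6
      exact pow_ne_one_of_lt_orderOf two_ne_zero (by rw [h1]; norm_num) h6
  have hel : IsElementaryAbelian 2 ((P : Subgroup G) ⊓ centralizer (Q : Set G)) :=
    ⟨isMulCommutative_of_comm fun a ha b hb => by
      rw [← inv_eq_of_mul_eq_one_right ((sq _).symm.trans (hexp _ (mul_mem ha hb))), mul_inv_rev,
        inv_eq_of_mul_eq_one_right ((sq _).symm.trans (hexp a ha)),
        inv_eq_of_mul_eq_one_right ((sq _).symm.trans (hexp b hb))], hexp⟩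
  have hz : x ^ 2 ^ 1 ∈ (P : Subgroup G) ⊓ centralizer (Q : Set G) :=
    ⟨hP hM.z_mem, fun s hs => (hM.commute_z hs).symm⟩
  obtain ⟨E, hE, h1, h2⟩ := H71.exists_compl_of_elem hel (zpowers_le.2 hz)
  have hPA : (P : Subgroup G) ⊓ A = ⊥ := hA.disjoint.eq_bot
  have hAQ : A ≤ centralizer (Q : Set G) := fun a ha s hs =>
    commute_of_normal_of_disjoint _ _ (hn _) (hn _) hA.disjoint s a (hP hs) ha
  refine ⟨Q, E, A, hM.equiv_quaternion hy hyx, H71.elem_of_le hel hE, hAc, hodd,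
    le_bot_iff.1 (hPA ▸ inf_le_inf_right _ (hE.trans inf_le_left)),
    (eq_bot_iff_forall _).2 fun u hu => ?_, ?_⟩
  · rcases (hM.central_iff hu.1).1 (fun s hs => Commute.symm
      (sup_le (hE.trans inf_le_right) hAQ hu.2 s hs)) with h3 | rfl
    · exact h3
    have := hn A
    obtain ⟨e, he, a, ha, h3⟩ := mem_sup_of_normal_right.1 hu.2
    have h4 : a = 1 := hPA.le ⟨eq_inv_mul_of_mul_eq h3 ▸
      (P : Subgroup G).mul_mem ((P : Subgroup G).inv_mem (hE he).1) hz.1, ha⟩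
    rw [h4, mul_one] at h3
    exact h1.le ⟨mem_zpowers _, h3 ▸ he⟩
  · rw [eq_top_iff, ← hA.sup_eq_top, ← sup_assoc]
    refine sup_le_sup_right (fun g hg => ?_) _
    have h3 : ∀ q ∈ Q, Commute x (q * g) → Commute y (q * g) → g ∈ Q ⊔ E := fun q hq h3 h4 => by
      have h5 : q * g ∈ Q ⊔ E := sup_le_sup_right (zpowers_le.2 hM.z_mem) E
        (h2.ge ⟨mul_mem (hP hq) hg, hmem _ h3 h4⟩)
      exact (mul_mem_cancel_left (mem_sup_left hq)).1 h5
    have h4 : ∀ a b : G, b * a * b⁻¹ = a → Commute a b := fun a b h =>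
      (mul_inv_eq_iff_eq_mul.1 h).symm
    have hy4 : y ^ 4 = 1 := hM.b_pow_four
    have hxy : x * y * x⁻¹ = y⁻¹ := by
      have h5 : y⁻¹ = x ^ 2 * y := by
        rw [← hy, inv_eq_iff_mul_eq_one, ← hy4]; simp only [pow_succ, pow_zero, one_mul, mul_assoc]
      rw [h5]
      calc _ = x * (y * x⁻¹ * y⁻¹) * y := by group
        _ = _ := by rw [← conj_inv, hyx, inv_inv, sq]
    have h5 : ∀ q a : G, q * g * a * (q * g)⁻¹ = q * (g * a * g⁻¹) * q⁻¹ := fun q a => by group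
    rcases hconj x g hx4 with h6 | h6 <;> rcases hconj y g hy4 with h7 | h7
    · exact h3 1 (one_mem _) (h4 _ _ (by rw [one_mul, h6])) (h4 _ _ (by rw [one_mul, h7]))
    · exact h3 x hM.a_mem (h4 _ _ (by rw [h5, h6, mul_inv_cancel_right]))
        (h4 _ _ (by rw [h5, h7, ← conj_inv, hxy, inv_inv]))
    · exact h3 y hM.b_mem (h4 _ _ (by rw [h5, h6, ← conj_inv, hyx, inv_inv]))
        (h4 _ _ (by rw [h5, h7, mul_inv_cancel_right]))
    · refine h3 (x * y) (mul_mem hM.a_mem hM.b_mem) (h4 _ _ ?_) (h4 _ _ ?_)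
      · rw [h5, h6]
        calc _ = x * (y * x * y⁻¹)⁻¹ * x⁻¹ := by group
          _ = _ := by rw [hyx]; group
      · rw [h5, h7]
        calc _ = (x * y * x⁻¹)⁻¹ := by group
          _ = _ := by rw [hxy, inv_inv]

end Cfsg.Agent.S4211
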