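import Cfsg.Statements.S4214
import Cfsg.Agent.H94.SylowNum
import Cfsg.Agent.H2.Hall
import Cfsg.Agent.H1.Nilp
import Cfsg.Agent.H3.Frattini
import Cfsg.Agent.H4.CoprimeAction
import Cfsg.Agent.H92.Isol

set_option autoImplicit false
open Cfsg

namespace Cfsg.Agent.S4214

open Subgroup
open scoped Pointwise commutatorElement

universe u

theorem relIndex_centralizer_modEq {G : Type*} [Group G] [Finite G] {s : ℕ} [Fact s.Prime]
    {P A : Subgroup G} (hP : IsPGroup s P) (hA : ¬ s ∣ Nat.card A)
    (hPA : P ≤ normalizer (A : Set G)) : (centralizer (P : Set G)).relIndex A ≡ 1 [MOD s] := by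
  have h := H94.relIndex_normalizer_modEq_one_of_coprime hP hA hPA
  have e : centralizer (P : Set G) ⊓ A = normalizer (P : Set G) ⊓ A := by
    refine le_antisymm (inf_le_inf_right _ (centralizer_le_normalizer _)) fun a ha => ⟨?_, ha.2⟩
    intro x hx
    have h1 : x⁻¹ * (a * x * a⁻¹) ∈ P :=
      P.mul_mem (P.inv_mem hx) (H4.conj_mem_of_mem_normalizer ha.1 hx)
    have h2 : x⁻¹ * (a * x * a⁻¹) ∈ A := by
      have := A.mul_mem (H4.inv_conj_mem_of_mem_normalizer (hPA hx) ha.2) (A.inv_mem ha.2)
      simpa [mul_assoc] using this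
    have h3 := H8.eq_one_of_mem_of_coprime hP h1
      (((Nat.Prime.coprime_iff_not_dvd Fact.out).2 hA).symm.coprime_dvd_left
        (H94.orderOf_dvd_card_of_mem h2))
    have h4 : a * x * a⁻¹ = x := by
      have := congrArg (x * ·) h3
      simpa [mul_assoc] using this
    calc x * a = a * x * a⁻¹ * a := by rw [h4]
      _ = a * x := by group
  rw [← inf_relIndex_right, e, inf_relIndex_right]
  exact h

theorem chain {G : Type*} [Group G] [Finite G] (K : Subgroup G) (L : Subgroup G) :
    Group.IsSolvable L → L ≤ normalizer (K : Set G) → (Nat.card L).Coprime (Nat.card K) →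
      (centralizer (L : Set G)).relIndex K ∈ Submonoid.closure
        {f : ℕ | f ∣ Nat.card K ∧ ∃ s : ℕ, s.Prime ∧ s ∣ Nat.card L ∧ f ≡ 1 [MOD s]} := by
  induction L using WellFoundedLT.induction with
  | ind L ih =>
  intro hs hL hc
  by_cases h0 : L = ⊥
  · subst h0
    have : centralizer ((⊥ : Subgroup G) : Set G) = ⊤ := by simp
    rw [this, relIndex_top_left]
    exact Submonoid.one_mem _
  have hnt : Nontrivial L := (nontrivial_iff_ne_bot L).2 h0
  obtain ⟨M, hM, hCM⟩ := (eq_top_or_exists_le_coatom (commutator L)).resolve_left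
    (Group.IsSolvable.commutator_lt_top_of_nontrivial L).ne
  have hMn : M.Normal := ⟨fun m hm g => by
    have : g * m * g⁻¹ = ⁅g, m⁆ * m := by group
    rw [this]
    exact M.mul_mem (hCM (commutator_mem_commutator (mem_top _) (mem_top _))) hm⟩
  have hprime := H3.index_coatom_prime_of_normal hM
  have : Fact M.index.Prime := ⟨hprime⟩
  obtain ⟨z, hz⟩ := exists_prime_orderOf_dvd_card' (G := L ⧸ M) M.index dvd_rfl
  obtain ⟨x, hx, k, hk⟩ := H92.exists_p_lift (QuotientGroup.mk'_surjective M) hprime (x := z)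
    ⟨1, by rw [hz, pow_one]⟩
  have hxM : x ∉ M := fun h => by
    rw [← hx, QuotientGroup.mk'_apply, (QuotientGroup.eq_one_iff x).2 h, orderOf_one] at hz
    exact hprime.one_lt.ne hz
  have htop : M ⊔ zpowers x = ⊤ := hM.2 _ (left_lt_sup.2 (by rwa [zpowers_le]))
  set L' := M.map L.subtype with hL'
  have hlt : L' < L := by
    refine lt_of_le_of_ne (map_subtype_le M) fun h => hxM ?_
    obtain ⟨y, hy, hyx⟩ : (x : G) ∈ L' := h.ge x.2
    rwa [← Subtype.ext hyx]
  have hsup : L' ⊔ zpowers (x : G) = L := by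
    have := congrArg (map L.subtype) htop
    rwa [Subgroup.map_sup, MonoidHom.map_zpowers, ← MonoidHom.range_eq_map, range_subtype] at this
  have h1 := ih L' hlt (H1.isSolvable_of_le hlt.le) (hlt.le.trans hL)
    (hc.coprime_dvd_left (card_dvd_of_le hlt.le))
  have hsL : M.index ∣ Nat.card L := M.index_dvd_card
  have hsK : ¬ M.index ∣ Nat.card K := fun h =>
    hprime.one_lt.ne' (Nat.eq_one_of_dvd_coprimes hc hsL h)
  have hLn : L ≤ normalizer (L' : Set G) := by
    refine le_trans ?_ (le_normalizer_map L.subtype)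
    rw [normalizer_eq_top, ← MonoidHom.range_eq_map, range_subtype]
  have h2 := relIndex_centralizer_modEq (s := M.index) (P := zpowers (x : G))
    (A := centralizer (L' : Set G) ⊓ K)
    (H94.isPGroup_zpowers_of_orderOf (k := k) (by rw [Subgroup.orderOf_coe, hk]))
    (fun h => hsK (h.trans (card_dvd_of_le inf_le_right)))
    ((zpowers_le.2 x.2).trans (H4.le_normalizer_inf (H4.le_normalizer_centralizer hLn) hL))
  have e : centralizer (L : Set G) = centralizer ((zpowers (x : G) : Subgroup G) : Set G) ⊓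
      centralizer (L' : Set G) := by
    conv_lhs => rw [← hsup]
    refine le_antisymm (le_inf (centralizer_le (by exact_mod_cast le_sup_right))
      (centralizer_le (by exact_mod_cast le_sup_left))) ?_
    rw [le_centralizer_iff, sup_le_iff]
    exact ⟨le_centralizer_iff.1 inf_le_right, le_centralizer_iff.1 inf_le_left⟩
  rw [e, ← relIndex_inf_mul_relIndex]
  refine Submonoid.mul_mem _ (Submonoid.subset_closure ⟨?_, M.index, hprime, hsL, h2⟩)
    (Submonoid.closure_mono ?_ h1)
  · exact (relIndex_dvd_card _ _).trans (card_dvd_of_le inf_le_right)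
  · rintro f ⟨hf, s, hs1, hs2, hs3⟩
    exact ⟨hf, s, hs1, hs2.trans (card_dvd_of_le hlt.le), hs3⟩

/-- The admissible factors. -/
def Adm (G : Type*) [Group G] (m : ℕ) : Set ℕ :=
  {f | (∃ q e : ℕ, q.Prime ∧ f = q ^ e) ∧ (∃ K L : Subgroup G, K.Normal ∧ L.Normal ∧ K < L ∧
    (∀ M : Subgroup G, M.Normal → K ≤ M → M ≤ L → M = K ∨ M = L) ∧ f ∣ K.relIndex L) ∧
    (∃ q : ℕ, q.Prime ∧ q ∣ m ∧ f ≡ 1 [MOD q])}

theorem adm_quotient {G : Type*} [Group G] (N : Subgroup G) [N.Normal] {m m' : ℕ} (h : m' ∣ m) :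
    Adm (G ⧸ N) m' ⊆ Adm G m := by
  have hs := QuotientGroup.mk'_surjective N
  rintro f ⟨h1, ⟨K, L, hK, hL, hKL, hmin, hd⟩, q, hq, hqm, hf⟩
  refine ⟨h1, ⟨K.comap (QuotientGroup.mk' N), L.comap (QuotientGroup.mk' N), inferInstance,
    inferInstance, (comap_lt_comap_of_surjective hs).2 hKL, fun M hM h2 h3 => ?_, ?_⟩,
    q, hq, hqm.trans h, hf⟩
  · have hNM : N ≤ M := le_trans (fun n hn => by
      rw [mem_comap, QuotientGroup.mk'_apply, (QuotientGroup.eq_one_iff n).2 hn]
      exact K.one_mem) h2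
    have e : (M.map (QuotientGroup.mk' N)).comap (QuotientGroup.mk' N) = M := by
      rw [comap_map_eq, QuotientGroup.ker_mk', sup_eq_left.2 hNM]
    rcases hmin (M.map (QuotientGroup.mk' N)) (hM.map _ hs)
      (by rw [← map_comap_eq_self_of_surjective hs K]; exact map_mono h2)
      (map_le_iff_le_comap.2 h3) with h4 | h4
    · left; rw [← h4, e]
    · right; rw [← h4, e]
  · rwa [relIndex_comap, map_comap_eq_self_of_surjective hs]

theorem main (G : Type u) [Group G] [Finite G] : Group.IsSolvable G → ∀ H : Subgroup G,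
    (Nat.card H).Coprime H.index →
      (normalizer (H : Set G)).index ∈ Submonoid.closure (Adm G (Nat.card H)) := by
  refine H1.card_induction (P := fun G _ _ => Group.IsSolvable G → ∀ H : Subgroup G,
    (Nat.card H).Coprime H.index →
      (normalizer (H : Set G)).index ∈ Submonoid.closure (Adm G (Nat.card H)))
    (fun G _ _ ih hs H hH => ?_) G
  rcases subsingleton_or_nontrivial G with h0 | h0
  · rw [Subsingleton.elim (normalizer (H : Set G)) ⊤, index_top]
    exact Submonoid.one_mem _
  obtain ⟨K, hK, hK0, -, hmin⟩ := H2.exists_minimal_normal_le (⊤ : Subgroup G) top_ne_bot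
  obtain ⟨-, r, hr, hKr⟩ := H2.minimal_normal_solvable K hK0 inferInstance hmin
  have : Fact r.Prime := ⟨hr⟩
  have hsurj := QuotientGroup.mk'_surjective K
  have hHall := H2.isPiHall_of_coprime hH
  have h1 := ih (G ⧸ K) (H1.card_quotient_lt hK0) inferInstance (H.map (QuotientGroup.mk' K))
    (H2.isPiHall_coprime (H2.isPiHall_map hsurj hHall))
  have e : (normalizer ((H.map (QuotientGroup.mk' K) : Subgroup (G ⧸ K)) : Set (G ⧸ K))).comap
      (QuotientGroup.mk' K) = normalizer (H : Set G) ⊔ K := by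
    rw [comap_normalizer_eq_of_surjective _ hsurj, comap_map_eq, QuotientGroup.ker_mk']
    refine le_antisymm (fun g hg => ?_) (sup_le (H4.le_normalizer_sup le_rfl
      (by rw [normalizer_eq_top K]; exact le_top)) (le_sup_right.trans le_normalizer))
    have hle : MulAut.conj g • H ≤ H ⊔ K := H1.conj_smul_le_of_mem_normalizer le_sup_left hg
    obtain ⟨x, hx⟩ := H2.isPiHall_conj
      (H2.isPiHall_subgroupOf_of_le hHall (le_sup_left : H ≤ H ⊔ K))
      (H2.isPiHall_subgroupOf_of_le (H2.isPiHall_conj_smul hHall g) hle)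
    have hx' := H2.conj_smul_eq_of_subgroupOf le_sup_left hle x hx
    have h2 : (x : G)⁻¹ * g ∈ normalizer (H : Set G) := by
      rw [H8.mem_normalizer_iff_conj_smul_eq, ← H8.conj_smul_conj_smul, ← hx',
        H8.conj_inv_smul_conj_smul]
    have h3 : (x : G) ∈ normalizer (H : Set G) ⊔ K := sup_le_sup_right le_normalizer K x.2
    simpa using mul_mem h3 (mem_sup_left h2)
  rw [← relIndex_mul_index (le_sup_left : normalizer (H : Set G) ≤ normalizer (H : Set G) ⊔ K),
    H94.relIndex_sup_of_le_left le_rfl, ← e, index_comap_of_surjective _ hsurj]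
  refine Submonoid.mul_mem _ ?_ (Submonoid.closure_mono (adm_quotient K (card_map_dvd _ _)) h1)
  by_cases hrH : r ∣ Nat.card H
  · have hKH : K ≤ H := H2.normal_le_of_isPiHall hHall (H2.isPiNum_card_of_isPGroup hr hrH hKr)
    rw [relIndex_eq_one.2 (hKH.trans le_normalizer)]
    exact Submonoid.one_mem _
  · obtain ⟨k, hk⟩ := hKr.exists_card_eq
    have hc : (Nat.card H).Coprime (Nat.card K) := by
      rw [hk]; exact ((Nat.Prime.coprime_iff_not_dvd hr).2 hrH).symm.pow_right k
    have h2 := chain K H inferInstance (by rw [normalizer_eq_top]; exact le_top) hc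
    have e2 : centralizer (H : Set G) ⊓ K = normalizer (H : Set G) ⊓ K := by
      refine le_antisymm (inf_le_inf_right _ (centralizer_le_normalizer _)) fun a ha => ⟨?_, ha.2⟩
      intro x hx
      have h1 : x⁻¹ * (a * x * a⁻¹) ∈ H :=
        H.mul_mem (H.inv_mem hx) (H4.conj_mem_of_mem_normalizer ha.1 hx)
      have h2 : x⁻¹ * (a * x * a⁻¹) ∈ K := by
        have := K.mul_mem (hK.conj_mem' a ha.2 x) (K.inv_mem ha.2)
        simpa [mul_assoc] using this
      have h3 : x⁻¹ * (a * x * a⁻¹) ∈ H ⊓ K := ⟨h1, h2⟩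
      rw [disjoint_iff.1 (disjoint_of_coprime_natCard hc), mem_bot] at h3
      have h4 : a * x * a⁻¹ = x := by
        have := congrArg (x * ·) h3
        simpa [mul_assoc] using this
      calc x * a = a * x * a⁻¹ * a := by rw [h4]
        _ = a * x := by group
    rw [← inf_relIndex_right, ← e2, inf_relIndex_right]
    refine Submonoid.closure_mono ?_ h2
    rintro f ⟨hf, hs⟩
    refine ⟨?_, ⟨⊥, K, inferInstance, hK, bot_lt_iff_ne_bot.2 hK0, fun M hM _ h => hmin M hM h,
      by rwa [relIndex_bot_left]⟩, hs⟩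
    obtain ⟨j, -, hj⟩ := (Nat.dvd_prime_pow hr).1 (hk ▸ hf)
    exact ⟨r, j, hr, hj⟩

/-- Let `G` be a finite solvable group of order `mn` with `gcd(m, n) = 1`. Then the number of subgroups of order `m` is a product of natural numbers each of which is a power of a prime, divides the order of some chief factor of `G` (a quotient `L/K` of normal subgroups `K < L` of `G` with no normal subgroup of `G` strictly between them), and is congruent to `1` modulo some prime divisor of `m`. -/
theorem result {G : Type*} [Group G] [Finite G] [Group.IsSolvable G] (m n : ℕ) (hG : Nat.card G = m * n) (hmn : Nat.Coprime m n) : ∃ (k : ℕ) (f : Fin k → ℕ), Nat.card {H : Subgroup G // Nat.card H = m} = ∏ i, f i ∧ ∀ i, (∃ q e : ℕ, q.Prime ∧ f i = q ^ e) ∧ (∃ K L : Subgroup G, K.Normal ∧ L.Normal ∧ K < L ∧ (∀ M : Subgroup G, M.Normal → K ≤ M → M ≤ L → M = K ∨ M = L) ∧ f i ∣ K.relIndex L) ∧ (∃ q : ℕ, q.Prime ∧ q ∣ m ∧ f i ≡ 1 [MOD q]) := by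
  have hm : m ≠ 0 := fun h => by
    rw [h, zero_mul] at hG
    exact Nat.card_pos.ne' hG
  obtain ⟨H, hH⟩ := H2.exists_isPiHall {p | ¬ p ∣ n} G
  have hHm : Nat.card H = m := (H2.isPiHall_iff_card_eq hG hm hmn).1 hH
  have h1 := main G inferInstance H (H2.isPiHall_coprime hH)
  let iA : MulAction G (Subgroup G) := MulAction.compHom (Subgroup G) (MulAut.conj (G := G))
  have h2 : MulAction.stabilizer G H = normalizer (H : Set G) := by
    ext g
    rw [MulAction.mem_stabilizer_iff, H8.mem_normalizer_iff_conj_smul_eq]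
    rfl
  have h3 : MulAction.orbit G H = {K : Subgroup G | Nat.card K = m} := by
    ext K
    constructor
    · rintro ⟨g, rfl⟩
      exact (H8.card_conj_smul H g).trans hHm
    · intro hK
      exact H2.hall_conj_of_card_eq (H2.isPiHall_coprime hH) (hHm.trans hK.symm)
  have h4 : Nat.card {H : Subgroup G // Nat.card H = m} = (normalizer (H : Set G)).index := by
    rw [← h2, MulAction.index_stabilizer, h3]
    rfl
  obtain ⟨l, hl, hl'⟩ := Submonoid.exists_list_of_mem_closure h1
  refine ⟨l.length, fun i => l[i.1], by rw [h4, ← hl']; exact (Fin.prod_univ_getElem l).symm, fun i => ?_⟩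
  have := hl _ (List.getElem_mem i.2)
  rwa [hHm] at this

end Cfsg.Agent.S4214
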