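import Cfsg.Statements.S4230


set_option autoImplicit false
open Cfsg

namespace Cfsg.Agent.S4230

/-- Let p be an odd prime, q a natural number not divisible by p, and e the multiplicative order of q modulo p. For a natural number f, p divides the value at q of the f-th cyclotomic polynomial if and only if f = e·p^j for some j ≥ 0. -/
theorem result (p q f : ℕ) (hp : p.Prime) (hp2 : p ≠ 2) (hpq : ¬ p ∣ q) :
    ((p : ℤ) ∣ (Polynomial.cyclotomic f ℤ).eval (q : ℤ)) ↔ ∃ j : ℕ, f = orderOf (q : ZMod p) * p ^ j := by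
  have : Fact p.Prime := ⟨hp⟩
  have hq0 : (q : ZMod p) ≠ 0 := by rwa [Ne, ZMod.natCast_eq_zero_iff]
  have hfin : 0 < orderOf (q : ZMod p) := by
    apply IsOfFinOrder.orderOf_pos
    exact isOfFinOrder_iff_pow_eq_one.mpr ⟨p - 1, by have := hp.one_lt; omega,
      ZMod.pow_card_sub_one_eq_one hq0⟩
  have hpe : ¬ p ∣ orderOf (q : ZMod p) := by
    intro h
    have h1 := ZMod.orderOf_dvd_card_sub_one hq0
    have h2 := Nat.le_of_dvd (by have := hp.one_lt; omega) (h.trans h1)
    have := hp.one_lt; omega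
  have key : ((p : ℤ) ∣ (Polynomial.cyclotomic f ℤ).eval (q : ℤ)) ↔
      (Polynomial.cyclotomic f (ZMod p)).IsRoot (q : ZMod p) := by
    rw [← ZMod.intCast_zmod_eq_zero_iff_dvd, Polynomial.IsRoot.def,
      ← Polynomial.map_cyclotomic_int f (ZMod p), Polynomial.eval_map]
    have := Polynomial.eval₂_at_apply (p := Polynomial.cyclotomic f ℤ) (Int.castRingHom (ZMod p))
      (q : ℤ)
    simp only [eq_intCast, Int.cast_natCast] at this
    rw [this]
  rw [key]
  rcases Nat.eq_zero_or_pos f with rfl | hf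
  · simp only [Polynomial.cyclotomic_zero, Polynomial.IsRoot.def, Polynomial.eval_one, one_ne_zero,
      false_iff, not_exists]
    intro j h
    exact (mul_pos hfin (pow_pos hp.pos j)).ne h
  obtain ⟨k, m, hm, rfl⟩ := Nat.exists_eq_pow_mul_and_not_dvd hf.ne' p hp.one_lt.ne'
  have : NeZero (m : ZMod p) := ⟨by rwa [Ne, ZMod.natCast_eq_zero_iff]⟩
  rw [Polynomial.isRoot_cyclotomic_prime_pow_mul_iff_of_charP]
  constructor
  · intro h
    exact ⟨k, by rw [← h.eq_orderOf, mul_comm]⟩
  · rintro ⟨j, hj⟩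
    have h1 : m = orderOf (q : ZMod p) := by
      apply Nat.dvd_antisymm
      · have : m ∣ orderOf (q : ZMod p) * p ^ j := hj ▸ Dvd.intro_left _ rfl
        exact Nat.Coprime.dvd_of_dvd_mul_right
          (((Nat.Prime.coprime_iff_not_dvd hp).mpr hm).symm.pow_right j) this
      · have : orderOf (q : ZMod p) ∣ p ^ k * m := hj ▸ Dvd.intro _ rfl
        exact Nat.Coprime.dvd_of_dvd_mul_left
          (((Nat.Prime.coprime_iff_not_dvd hp).mpr hpe).symm.pow_right k) this
    rw [h1]
    exact IsPrimitiveRoot.orderOf _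

end Cfsg.Agent.S4230
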