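import Cfsg.Statements.S4234
import Cfsg.Agent.H29.PSL13

set_option autoImplicit false
open Cfsg

namespace Cfsg.Agent.S4234

/-- Let K be isomorphic to PSL(2, 13) or to SL(2, 13) and let S be a finite abelian group of order coprime to the order of K. Then in the direct product K × S every subgroup that is not normal has a normalizer that is a maximal subgroup. -/
theorem result {K S : Type*} [Group K] [CommGroup S] [Finite K] [Finite S]
    (hK : Nonempty (K ≃* Matrix.ProjectiveSpecialLinearGroup (Fin 2) (ZMod 13)) ∨
      Nonempty (K ≃* Matrix.SpecialLinearGroup (Fin 2) (ZMod 13)))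
    (hKS : (Nat.card K).Coprime (Nat.card S)) (H : Subgroup (K × S)) (hH : ¬ H.Normal) :
    IsCoatom (Subgroup.normalizer (H : Set (K × S))) := by
  have : Fact (Nat.Prime 13) := ⟨by norm_num⟩
  have key : ∀ H : Subgroup K, ¬ H.Normal → IsCoatom (Subgroup.normalizer (H : Set K)) := by
    have tr : ∀ {X : Type} [Group X] (e : K ≃* X),
        (∀ H : Subgroup X, ¬ H.Normal → IsCoatom (Subgroup.normalizer (H : Set X))) →
        ∀ H : Subgroup K, ¬ H.Normal → IsCoatom (Subgroup.normalizer (H : Set K)) := by
      intro X _ e h H hH
      have h1 : (H.map e.toMonoidHom).comap e.toMonoidHom = H :=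
        Subgroup.comap_map_eq_self_of_injective e.injective H
      have := Subgroup.isCoatom_comap_of_surjective (φ := e.toMonoidHom) e.surjective
        (h (H.map e.toMonoidHom) fun hn => hH (h1 ▸ hn.comap _))
      rwa [Subgroup.comap_normalizer_eq_of_surjective _ e.surjective, h1] at this
    rcases hK with ⟨⟨e⟩⟩ | ⟨⟨e⟩⟩
    · exact tr e (H29.psl_thirteen (by simp))
    · exact tr e (H29.sl_thirteen (by simp))
  rw [H29.normalizer_prod_coprime hKS]
  refine Subgroup.isCoatom_comap_of_surjective Prod.fst_surjective (key _ fun hn => hH ?_)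
  rw [← Subgroup.normalizer_eq_top_iff, H29.normalizer_prod_coprime hKS,
    Subgroup.normalizer_eq_top, Subgroup.comap_top]

end Cfsg.Agent.S4234
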