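import Cfsg.Statements.S4235
import Cfsg.Agent.H61.Part1
import Cfsg.Agent.S0042
import Cfsg.Agent.S0035
import Cfsg.Agent.H15.BSW1

set_option autoImplicit false
open scoped Pointwise
open Cfsg

namespace Cfsg.Agent.S4235

open Cfsg.Agent.H63 Cfsg.Agent.H67 Cfsg.Agent.H61.Part in
theorem aux {G : Type*} [Group G] [Finite G] (hG : ¬ Group.IsSolvable G) {S M F : Subgroup G}
    (hS : IsSyl 2 S ⊤) (hSM : S ≤ M) (hM : Group.IsSolvable M)
    (hmax : ∀ M' : Subgroup G, M ≤ M' → Group.IsSolvable M' → M' = M)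
    (h1 : F ≤ M) (h2 : M ≤ N[F]) (h3 : ∀ a ∈ M, a ∉ F → ∀ x ∈ F, x * a = a * x → x = 1)
    (h4 : ∀ g : G, g ∉ M → F ⊓ (MulAut.conj g • F) = ⊥) (h5 : F ≠ ⊥) :
    H11.SEK M F := by
  have hM0 : M ≠ ⊤ := fun h => hG (isSolvable_of_top (h ▸ hM))
  have hTI : ∀ x ∈ F, x ≠ 1 → ∀ g : G, g * x * g⁻¹ ∈ F → g ∈ M := fun x hx hx1 g hg => by
    by_contra hgM
    have : g * x * g⁻¹ ∈ F ⊓ (MulAut.conj g • F) :=
      ⟨hg, by rw [← cj_eq_smul]; exact conj_mem_cj hx⟩
    rw [h4 g hgM, Subgroup.mem_bot] at this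
    exact hx1 (conj_eq_one_iff.1 this)
  have hcent : ∀ x ∈ F, x ≠ 1 → ∀ c, Commute c x → c ∈ F := fun x hx hx1 c hc => by
    by_contra hcF
    exact hx1 (h3 c (hTI x hx hx1 c (by rw [hc.eq, mul_inv_cancel_right]; exact hx)) hcF x hx
      hc.eq.symm)
  have hns : NoSol G := noSol_of_abelian fun A hA hAc => by
    by_contra hA1
    have hAM : A ≤ M := by
      rw [← hmax (M ⊔ A) le_sup_left (isSolvable_sup hM (isSolvable_of_isMulCommutative hAc)
        (le_top.trans (normalIn_top_iff.2 hA).norm))]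
      exact le_sup_right
    have hAn : ∀ L : Subgroup G, L ≤ N[A] := fun L => le_top.trans (normalIn_top_iff.2 hA).norm
    have hAF : A ≤ F := by
      by_cases hi : A ⊓ F = ⊥
      · obtain ⟨x, hx, hx1⟩ := exists_ne_one_of_ne_bot h5
        intro a ha
        exact hcent x hx hx1 a
          (le_centralizer_of_inf_eq_bot (hAM.trans h2) (hAn F) hi hx a ha)
      · obtain ⟨x, hx, hx1⟩ := exists_ne_one_of_ne_bot hi
        exact fun a ha => hcent x hx.2 hx1 a (comm_of_isMulCommutative hAc ha hx.1)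
    obtain ⟨a, ha, ha1⟩ := exists_ne_one_of_ne_bot hA1
    exact hM0 (eq_top_iff.2 fun g _ => hTI a (hAF ha) ha1 g (hAF (hA.conj_mem a ha g)))
  have hFM : F ≠ M := by
    rintro rfl
    obtain ⟨N, hN, hNn, hNnil⟩ := S0042.result F ⟨h5, hM0, h4⟩
    have hN1 := hns N hNn (isSolvable_of_isNilpotent hNnil)
    obtain ⟨N', hN', -, hc⟩ := S0035.result F ⟨h5, hM0, h4⟩
    have : N' = N := SetLike.coe_injective (hN'.trans hN.symm)
    rw [this, hN1] at hc
    exact hM0 (Subgroup.isComplement'_bot_left.1 hc)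
  have hker : IsFrobeniusKer M F := isFrobeniusKer_of_cent1 ⟨h1, h2⟩ h5 hFM
    fun x hx hx1 c hc => hcent x hx hx1 c (Subgroup.mem_centralizer_singleton_iff.1 hc.2)
  obtain ⟨H, hH⟩ := hker
  have hnil : Group.IsNilpotent F := H69.Frobenius_sol_kernel_nil hH (isSolvable_of_le hM h1)
  obtain ⟨P, rfl⟩ := exists_sylow_top hS
  have hev : 2 ∣ Nat.card (P : Subgroup G) := by
    refine prime_dvd_card_hall hS Nat.prime_two rfl ?_
    rw [Subgroup.card_top, ← even_iff_two_dvd, ← Nat.not_odd_iff_even]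
    exact fun h => hG (S0205.result h)
  obtain ⟨u, hu, hu2⟩ := exists_orderOf_eq_prime Nat.prime_two hev
  obtain ⟨g, hg, hgu⟩ := hns.exists_conj_ne P hu2 hu
  have hg2 : orderOf (g * u * g⁻¹) = 2 := by rw [orderOf_conj', hu2]
  have hPM : IsSyl 2 (P : Subgroup G) M := hall_of_le hS hSM le_top
  have hPF : (P : Subgroup G) ≤ F := by
    by_cases hi : (P : Subgroup G) ⊓ F = ⊥
    · exfalso
      have hinv : ∀ a ∈ (P : Subgroup G), orderOf a = 2 → ∀ x ∈ F, a * x * a⁻¹ = x⁻¹ := by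
        intro a ha ha2 x hx
        have haF : a ∉ F := fun h => H10.ne_one_of_orderOf_two ha2
          (by have : a ∈ (P : Subgroup G) ⊓ F := ⟨ha, h⟩; rwa [hi, Subgroup.mem_bot] at this)
        exact H15.inverts_of_fpf (H10.mul_self_of_orderOf_two ha2) (h2 (hSM ha))
          (fun y hy hc => h3 a (hSM ha) haF y hy hc.symm) hx
      obtain ⟨x, hx, hx1⟩ := exists_ne_one_of_ne_bot h5
      have hmem : (g * u * g⁻¹) * u ∈ F := by
        refine hcent x hx hx1 _ ?_
        have e1 := hinv u hu hu2 x hx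
        have e2 := hinv _ hg hg2 x⁻¹ (inv_mem hx)
        show g * u * g⁻¹ * u * x = x * (g * u * g⁻¹ * u)
        calc g * u * g⁻¹ * u * x = (g * u * g⁻¹) * (u * x * u⁻¹) * (g * u * g⁻¹)⁻¹ *
              (g * u * g⁻¹ * u) := by group
          _ = _ := by rw [e1, e2, inv_inv]
      have : (g * u * g⁻¹) * u ∈ (P : Subgroup G) ⊓ F := ⟨mul_mem hg hu, hmem⟩
      rw [hi, Subgroup.mem_bot] at this
      exact hgu ((eq_inv_of_mul_eq_one_left this).trans (H10.inv_eq_of_orderOf_two hu2))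
    · have hd : 2 ∣ Nat.card F :=
        (dvd_card_of_isPGroup Nat.prime_two (P.isPGroup'.to_le inf_le_left) hi).trans
          (card_dvd_of_le' inf_le_right)
      have hh := hH.isHallOf_left.hall
      exact le_of_normal_hall hh ⟨h1, h2⟩ hSM
        (isPi_of_isPGroup_of_mem Nat.prime_two P.isPGroup' ⟨Nat.prime_two, hd⟩)
  refine sek_of_TI hM0 h1 (fun l hl x hx => conj_mem_of_mem_normalizer (h2 hl) hx) hTI ?_
    (fun t ht ht2 c hc => hcent t ht (H10.ne_one_of_orderOf_two ht2) c hc) ?_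
    ⟨_, hPF hg, u, hPF hu, hg2, hu2, hgu⟩
  · intro t ht ht2
    obtain ⟨m, hm, hle⟩ := exists_cj_le_syl hPM (Subgroup.zpowers_le.2 ht)
      (H11.isPGroup_zpowers_two ht2)
    have := conj_mem_of_mem_normalizer' (h2 hm) (hPF (hle (conj_mem_cj (Subgroup.mem_zpowers t))))
    simpa [mul_assoc] using this
  · intro t ht ht2 x hx hxo
    have := le_centralizer_of_isNilpotent_of_coprime hnil (Subgroup.zpowers_le.2 hx)
      (Subgroup.zpowers_le.2 ht)
      (by rw [Nat.card_zpowers, Nat.card_zpowers, ht2]; exact Nat.coprime_two_right.2 hxo)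
      (Subgroup.mem_zpowers x) t (Subgroup.mem_zpowers t)
    exact this.symm

/-- Let G be a finite group. Call a subgroup maximal solvable if it is solvable and not properly contained in a solvable subgroup. Suppose F assigns to each maximal solvable subgroup M a normal subgroup F(M) of M such that: every element of M outside F(M) centralizes no non-identity element of F(M); F(M) meets each conjugate g F(M) g⁻¹ with g outside M trivially; and F(M) is nontrivial unless M is abelian. Then G is solvable, or G is isomorphic to SL(2, K) for a finite field K of characteristic 2 with at least 4 elements, or G is isomorphic to a Suzuki group. -/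
theorem result {G : Type*} [Group G] [Finite G] (F : Subgroup G → Subgroup G)
    (h : ∀ M : Subgroup G, (Group.IsSolvable M ∧ ∀ M' : Subgroup G, M < M' → ¬ Group.IsSolvable M') →
      F M ≤ M ∧ M ≤ Subgroup.normalizer (F M : Set G) ∧
      (∀ a ∈ M, a ∉ F M → ∀ x ∈ F M, x * a = a * x → x = 1) ∧
      (∀ g : G, g ∉ M → F M ⊓ (MulAut.conj g • F M) = ⊥) ∧
      (F M ≠ ⊥ ∨ IsMulCommutative M)) :
    Group.IsSolvable G ∨
      (∃ (K : Type) (_ : Field K) (_ : Fintype K), (∃ n : ℕ, 2 ≤ n ∧ Fintype.card K = 2 ^ n) ∧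
        Nonempty (G ≃* Matrix.SpecialLinearGroup (Fin 2) K)) ∨
      Cfsg.Lie.IsoSuzuki G := by
  by_cases hG : Group.IsSolvable G
  · exact Or.inl hG
  right
  obtain ⟨S, hS⟩ := H67.exists_syl 2 (⊤ : Subgroup G)
  obtain ⟨M, hSM, hM, hmax⟩ := H63.exists_maximal_ge (fun M : Subgroup G => Group.IsSolvable M)
    (H61.Part.isSolvable_normalizer_syl hS)
  obtain ⟨h1, h2, h3, h4, h5⟩ := h M ⟨hM, fun M' hlt hs => hlt.ne' (hmax M' hs hlt.le)⟩
  have hSM' : S ≤ M := (le_inf le_top Subgroup.le_normalizer).trans hSM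
  rcases h5 with h5 | h5
  swap
  · exact absurd (H61.Part.isSolvable_of_top (H61.Part.isSolvable_of_norm_le_cent hS
      (H63.le_cent_of_comm h5 hSM hSM'))) hG
  have hsek := aux hG hS hSM' hM (fun M' hle hs => hmax M' hs hle) h1 h2 h3 h4 h5
  rcases H61.Part.sek_classify hsek with ⟨-, K, _, _, hc, h2K, -, ⟨e⟩⟩ | ⟨-, h6⟩
  · left
    obtain ⟨n, -, hn⟩ := FiniteField.card K 2
    refine ⟨K, inferInstance, inferInstance, ⟨n, ?_, hn⟩, ⟨e.trans (H57.psl2EquivSL2 K)⟩⟩
    by_contra hlt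
    have h1 : (n : ℕ) = 1 := by have := n.pos; omega
    rw [hn, h1] at h2K
    exact absurd h2K (by decide)
  · exact Or.inr h6

end Cfsg.Agent.S4235
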