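import Cfsg.Statements.S4237
import Cfsg.Agent.H1.Miller

set_option autoImplicit false
open Cfsg

namespace Cfsg.Agent.S4237

/-- Let G be a finite group, p a prime and a a natural number such that p^(a+1) divides the order of G. Then the number of subgroups of G of order p^a is congruent to 1 or to 1 + p modulo p². -/
theorem result {G : Type*} [Group G] [Finite G] (p a : ℕ) (hp : p.Prime) (hdvd : p ^ (a + 1) ∣ Nat.card G) :
    Nat.card {H : Subgroup G // Nat.card H = p ^ a} ≡ 1 [MOD p ^ 2] ∨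
      Nat.card {H : Subgroup G // Nat.card H = p ^ a} ≡ 1 + p [MOD p ^ 2] := by
  have : Fact p.Prime := ⟨hp⟩
  change H1.nSub G _ ≡ _ [MOD _] ∨ H1.nSub G _ ≡ _ [MOD _]
  by_cases h2 : p = 2
  · subst h2
    have := H1.nSub_modEq_one hp ((pow_dvd_pow 2 (Nat.le_succ a)).trans hdvd)
    simp only [Nat.ModEq] at this ⊢
    omega
  rcases Nat.eq_zero_or_pos a with rfl | ha
  · left
    rw [H1.nSub, pow_zero, H1.card_subtype_eq_one ⊥ fun H => Subgroup.card_eq_one]
  let P : Sylow p G := default
  have h1 := H1.nSub_modEq_sylow hp P hdvd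
  have h3 := P.pow_dvd_card_of_pow_dvd_card hdvd
  by_cases hc : IsCyclic P
  · left
    rwa [H1.nSub_of_isCyclic ((pow_dvd_pow p (Nat.le_succ a)).trans h3)] at h1
  · right
    obtain ⟨m, hm⟩ := IsPGroup.iff_card.1 P.2
    rw [hm, Nat.pow_dvd_pow_iff_le_right hp.one_lt] at h3
    exact h1.trans (H1.kulakoff hp hm hc (fun h => absurd h h2) ha h3)

end Cfsg.Agent.S4237
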