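import Cfsg.Statements.S4238
import Cfsg.Agent.H1.Npc

set_option autoImplicit false
open Cfsg

namespace Cfsg.Agent.S4238

theorem card_quot_lt {K : Type*} [Group K] [Finite K] (M : Subgroup K) [M.Normal] (h : M ≠ ⊥) :
    Nat.card (K ⧸ M) < Nat.card K := by
  rw [Subgroup.card_eq_card_quotient_mul_card_subgroup M]
  have h1 : 1 < Nat.card M := (Subgroup.one_lt_card_iff_ne_bot M).mpr h
  have h2 : 0 < Nat.card (K ⧸ M) := Nat.card_pos
  nlinarith

theorem card_sub_lt {K : Type*} [Group K] [Finite K] (M : Subgroup K) (h : M ≠ ⊤) :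
    Nat.card M < Nat.card K := by
  rw [← M.index_mul_card]
  have h1 : M.index ≠ 1 := fun e => h (Subgroup.index_eq_one.mp e)
  have h2 : M.index ≠ 0 := Subgroup.index_ne_zero_of_finite
  have h3 : 0 < Nat.card M := Nat.card_pos
  have h4 : 2 ≤ M.index := by omega
  nlinarith

theorem core {K : Type*} [Group K] [Finite K] {p : ℕ} [hp : Fact p.Prime]
    (hsub : ∀ H : Subgroup K, H ≠ ⊤ → Cfsg.HasNormalPComplement p H)
    (hquo : ∀ (M : Subgroup K) [M.Normal], M ≠ ⊥ → Cfsg.HasNormalPComplement p (K ⧸ M))
    (hk : Cfsg.pPrimeCore p K = ⊥ → ∃ k : K, orderOf k = Monoid.exponent K) :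
    Cfsg.HasNormalPComplement p K := by
  by_contra hn
  have hcore : Cfsg.pPrimeCore p K = ⊥ := by
    by_contra hc
    have := H3.pPrimeCore_characteristic p K
    exact hn (H8.hasNormalPComplement_of_quotient
      ((Nat.Prime.coprime_iff_not_dvd hp.out).mp (H3.pPrimeCore_coprime p K).symm) (hquo _ hc))
  obtain ⟨k, hk⟩ := hk hcore
  obtain ⟨Q, g, hQn, hQ, hgc, hgn, htop⟩ := H1.exists_normal_of_minimal_not_npc hn hsub
  obtain ⟨a, b, ha, hb, hab, ⟨j, haj⟩, hbc⟩ := H8.exists_pPart_mul_pPrimePart p k
  have hcomm : Commute a b := by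
    obtain ⟨m, rfl⟩ := ha
    obtain ⟨n, rfl⟩ := hb
    exact Commute.zpow_zpow_self k m n
  have hcen : ∀ Z : Subgroup K, Z ≤ Subgroup.center K → Z = ⊥ := by
    intro Z hZ
    by_contra h
    have : Z.Normal := ⟨fun n hn g => by
      rw [Subgroup.mem_center_iff.mp (hZ hn) g]; simpa using hn⟩
    exact hn (H1.npc_of_quotient_central hZ (hquo Z h))
  -- the quotient `K/Q`
  have hq1 : Subgroup.zpowers (QuotientGroup.mk' Q g) = ⊤ := by
    rw [← MonoidHom.map_zpowers, eq_top_iff, ← Subgroup.map_top_of_surjective _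
      (QuotientGroup.mk'_surjective Q), ← htop, Subgroup.map_sup]
    refine sup_le ?_ le_rfl
    rw [(Subgroup.map_eq_bot_iff Q).mpr (by rw [QuotientGroup.ker_mk'])]
    exact bot_le
  have hq2 : Nat.card (K ⧸ Q) ∣ orderOf g := by
    rw [← Subgroup.card_top, ← hq1, Nat.card_zpowers]
    exact orderOf_map_dvd _ g
  have hq3 : orderOf g ∣ orderOf b := by
    have h1 : orderOf g ∣ orderOf a * orderOf b := by
      refine (Monoid.order_dvd_exponent g).trans ?_
      rw [← hk, hab]
      exact hcomm.orderOf_mul_dvd_mul_orderOf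
    refine Nat.Coprime.dvd_of_dvd_mul_left ?_ h1
    exact (hgc.pow_right j).coprime_dvd_right (orderOf_dvd_of_pow_eq_one haj)
  have hq4 : orderOf (QuotientGroup.mk' Q b) = orderOf b := by
    apply Nat.dvd_antisymm (orderOf_map_dvd _ b)
    apply orderOf_dvd_of_pow_eq_one
    apply H8.eq_one_of_mem_of_coprime hQ
    · apply (QuotientGroup.eq_one_iff _).mp
      change QuotientGroup.mk' Q _ = 1
      rw [map_pow, pow_orderOf_eq_one]
    · exact hbc.coprime_dvd_left (orderOf_pow_dvd _)
  have hq5 : Subgroup.zpowers (QuotientGroup.mk' Q b) = ⊤ := by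
    apply Subgroup.eq_top_of_le_card
    rw [Nat.card_zpowers, hq4]
    exact Nat.le_of_dvd (orderOf_pos b) (hq2.trans hq3)
  have htop' : Q ⊔ Subgroup.zpowers b = ⊤ := by
    have := congrArg (Subgroup.comap (QuotientGroup.mk' Q)) hq5
    rwa [← MonoidHom.map_zpowers, Subgroup.comap_map_eq, QuotientGroup.ker_mk', Subgroup.comap_top,
      sup_comm] at this
  have haQ : a ∈ Q := by
    apply H8.mem_of_coprime_orderOf_index
    exact (((hgc.coprime_dvd_left hq2).pow_right j).coprime_dvd_right
      (orderOf_dvd_of_pow_eq_one haj)).symm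
  have hQb : Q ≠ ⊥ := by
    rintro rfl
    apply hgn
    rw [Subgroup.mem_centralizer_iff]
    intro h hh
    have : h = 1 := by simpa using hh
    simp [this]
  have hQnt : Nontrivial Q := (Subgroup.nontrivial_iff_ne_bot Q).mpr hQb
  have ha1 : a ≠ 1 := by
    intro ha1
    obtain ⟨x, hx⟩ := exists_ne (1 : Q)
    apply hx
    apply H8.eq_one_of_coprime_of_isPGroup hQ
    refine hbc.coprime_dvd_left ?_
    rw [← Subgroup.orderOf_coe]
    refine (Monoid.order_dvd_exponent _).trans ?_
    rw [← hk, hab, ha1, one_mul]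
  let Z : Subgroup K := Q ⊓ Subgroup.centralizer (Q : Set K)
  have hZn : Z.Normal := inferInstance
  have hZb : Z ≠ ⊥ := by
    have := hQ.center_nontrivial
    obtain ⟨⟨z, hz⟩, hz1⟩ := exists_ne (1 : Subgroup.center Q)
    intro h
    apply hz1
    have : (z : K) ∈ Z := Subgroup.mem_inf.mpr ⟨z.2, Subgroup.mem_centralizer_iff.mpr fun y hy =>
      congrArg Subtype.val (Subgroup.mem_center_iff.mp hz ⟨y, hy⟩)⟩
    rw [h, Subgroup.mem_bot] at this
    exact Subtype.ext (Subtype.ext this)
  by_cases hZt : Z ⊔ Subgroup.zpowers b = ⊤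
  · apply ha1
    have : Subgroup.zpowers a ≤ Subgroup.center K := by
      rw [Subgroup.zpowers_le, ← Subgroup.centralizer_univ, ← Subgroup.coe_top, ← hZt]
      have h1 : Z ⊔ Subgroup.zpowers b ≤ Subgroup.centralizer {a} := by
        refine sup_le (fun z hz => ?_) (Subgroup.zpowers_le.mpr ?_)
        · exact Subgroup.mem_centralizer_singleton_iff.mpr
            (Subgroup.mem_centralizer_iff.mp hz.2 a haQ).symm
        · exact Subgroup.mem_centralizer_singleton_iff.mpr hcomm.symm
      rw [Subgroup.mem_centralizer_iff]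
      intro h hh
      exact Subgroup.mem_centralizer_singleton_iff.mp (h1 hh)
    simpa using hcen _ this
  · apply hZb
    apply hcen
    have h1 := H1.mem_centralizer_of_npc_subgroup (hsub _ hZt) (hQ.to_inf_left (K := Subgroup.centralizer (Q : Set K)))
      le_sup_left (Subgroup.mem_sup_right (Subgroup.mem_zpowers b))
      (Subgroup.le_normalizer_of_normal (Subgroup.mem_top b)) hbc
    have h2 : Q ⊔ Subgroup.zpowers b ≤ Subgroup.centralizer (Z : Set K) := by
      refine sup_le (fun x hx => ?_) (Subgroup.zpowers_le.mpr h1)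
      rw [Subgroup.mem_centralizer_iff]
      intro z hz
      exact (Subgroup.mem_centralizer_iff.mp hz.2 x hx).symm
    intro z hz
    rw [Subgroup.mem_center_iff]
    intro y
    exact (Subgroup.mem_centralizer_iff.mp (h2 (htop' ▸ Subgroup.mem_top y)) z hz).symm

theorem main.{u} {G : Type u} [Group G] [Finite G] (p : ℕ) [Fact p.Prime]
    (h : ∀ (H : Subgroup G) (N : Subgroup H) [N.Normal], Cfsg.pPrimeCore p (H ⧸ N) = ⊥ →
        ∃ k : H ⧸ N, orderOf k = Monoid.exponent (H ⧸ N)) (n : ℕ) :
    ∀ (H : Type u) [Group H] (i : H →* G) (_ : Function.Injective i) (L : Type u) [Group L] [Finite L]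
      (f : H →* L) (_ : Function.Surjective f), Nat.card L = n → Cfsg.HasNormalPComplement p L := by
  induction n using Nat.strong_induction_on with
  | _ n ih =>
  intro H _ i hi L _ _ f hf hn
  apply core
  · intro U hU
    exact ih _ (hn ▸ card_sub_lt U hU) (U.comap f) (i.comp (Subgroup.subtype _))
      (hi.comp (Subgroup.subtype_injective _)) U (f.subgroupComap U)
      (MonoidHom.subgroupComap_surjective_of_surjective f U hf) rfl
  · intro M _ hM
    exact ih _ (hn ▸ card_quot_lt M hM) H i hi (L ⧸ M) ((QuotientGroup.mk' M).comp f)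
      ((QuotientGroup.mk'_surjective M).comp hf) rfl
  · intro hc
    let e := MonoidHom.ofInjective hi
    let f' : i.range →* L := f.comp e.symm.toMonoidHom
    have hf' : Function.Surjective f' := hf.comp e.symm.surjective
    let e' := QuotientGroup.quotientKerEquivOfSurjective f' hf'
    obtain ⟨k, hk⟩ := h i.range f'.ker (by
      rw [← H3.comap_pPrimeCore_equiv e', hc]
      exact (MonoidHom.ker_eq_bot_iff _).mpr e'.injective)
    exact ⟨e' k, by rw [MulEquiv.orderOf_eq, hk, Monoid.exponent_eq_of_mulEquiv e']⟩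

/-- Let G be a finite group and p a prime. Then G has a normal p-complement if and only if every section K = H/N of G (N a normal subgroup of a subgroup H) whose largest normal subgroup of order prime to p is trivial contains an element whose order equals the exponent of K. -/
theorem result {G : Type*} [Group G] [Finite G] (p : ℕ) [Fact p.Prime] :
    Cfsg.HasNormalPComplement p G ↔
      ∀ (H : Subgroup G) (N : Subgroup H) [N.Normal], Cfsg.pPrimeCore p (H ⧸ N) = ⊥ →
        ∃ k : H ⧸ N, orderOf k = Monoid.exponent (H ⧸ N) := by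
  constructor
  · intro h H N _ hc
    exact H1.exists_orderOf_eq_exponent_of_isPGroup (H1.isPGroup_of_npc_of_core
      (H8.HasNormalPComplement.quotient (H8.HasNormalPComplement.subgroup h H) N) hc)
  · intro h
    exact main p h _ G (MonoidHom.id G) Function.injective_id G (MonoidHom.id G)
      Function.surjective_id rfl

end Cfsg.Agent.S4238
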