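import Cfsg.Statements.S4240
import Cfsg.Agent.H89.MaxNilp
import Cfsg.Agent.H89.OddHall
import Cfsg.Agent.H5.FPFSolvable
import Cfsg.Agent.H4.CoprimeExt
import Cfsg.Agent.H92.ClassSize
import Cfsg.Agent.H24.Deg

set_option autoImplicit false
open Cfsg

namespace Cfsg.Agent.S4240

open Subgroup

universe u

theorem normalizer_inv {G : Type*} [Group G] {φ : MulAut G} {H : Subgroup G}
    (h : H.map (φ : G →* G) = H) :
    (normalizer (H : Set G)).map (φ : G →* G) = normalizer (H : Set G) := by
  rw [map_normalizer_eq_of_bijective H φ.bijective, h]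

theorem centralizer_inv {G : Type*} [Group G] [Finite G] {φ : MulAut G} {H : Subgroup G}
    (h : H.map (φ : G →* G) = H) :
    (centralizer (H : Set G)).map (φ : G →* G) = centralizer (H : Set G) := by
  refine H5.map_eq_of_forall_mem fun x hx y hy => ?_
  have hy' : y ∈ H.map (φ : G →* G) := h.symm ▸ hy
  obtain ⟨z, hz, rfl⟩ := hy'
  simpa using congrArg φ (hx z hz)

theorem solv {ι : Type*} (G : Type u) [Group G] [Finite G] (φ : ι → MulAut G)
    (hsyl : ∀ (q : ℕ) [Fact q.Prime], ∃ Q : Sylow q G,
      ∀ i, (Q : Subgroup G).map (φ i : G →* G) = Q)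
    (hnil : ∀ H : Subgroup G, H ≠ ⊤ → (∀ i, H.map (φ i : G →* G) = H) → Group.IsNilpotent H) :
    Group.IsSolvable G := by
  induction h : Nat.card G using Nat.strong_induction_on generalizing G with
  | _ n ih =>
    by_cases hs : ∀ N : Subgroup G, N.Normal → (∀ i, N.map (φ i : G →* G) = N) → N ≠ ⊥ → N = ⊤
    swap
    · push Not at hs
      obtain ⟨N, hN, hNi, h0, h1⟩ := hs
      have h2 := hnil N h1 hNi
      have h3 : Group.IsSolvable (G ⧸ N) := by
        refine ih _ ?_ (G ⧸ N) (fun i => H5.quotAut (φ i) N (hNi i)) ?_ ?_ rfl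
        · rw [← h, ← index_eq_card, ← N.card_mul_index]
          have h4 : 1 < Nat.card N := (one_lt_card_iff_ne_bot N).2 h0
          have h5 : 0 < N.index := Nat.pos_of_ne_zero index_ne_zero_of_finite
          nlinarith
        · intro q _
          obtain ⟨Q, hQ⟩ := hsyl q
          refine ⟨Q.mapSurjective (QuotientGroup.mk'_surjective N), fun i =>
            H5.map_eq_of_forall_mem ?_⟩
          rintro _ ⟨x, hx, rfl⟩
          exact ⟨φ i x, hQ i ▸ mem_map_of_mem (φ i : G →* G) hx, rfl⟩
        · intro H hH hHi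
          rw [← map_comap_eq_self_of_surjective (QuotientGroup.mk'_surjective N) H]
          refine H3.isNilpotent_map (hnil _ (fun h4 => hH ?_) fun i =>
            H5.map_eq_of_forall_mem fun x hx => ?_) _
          · rw [← map_comap_eq_self_of_surjective (QuotientGroup.mk'_surjective N) H, h4,
              map_top_of_surjective _ (QuotientGroup.mk'_surjective N)]
          · exact hHi i ▸ mem_map_of_mem (H5.quotAut (φ i) N (hNi i) : G ⧸ N →* G ⧸ N) hx
      exact Group.isSolvable_of_ker_le_range N.subtype (QuotientGroup.mk' N) (by simp)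
    by_contra hns
    have htop : ∀ (p : ℕ) [Fact p.Prime], ¬ IsPGroup p (⊤ : Subgroup G) := fun p _ h1 =>
      hns (H89.isSolvable_of_isPGroup Fact.out (h1.of_equiv topEquiv))
    obtain ⟨q, hq, hqG, hq2⟩ : ∃ q : ℕ, q.Prime ∧ q ∣ Nat.card G ∧ q ≠ 2 := by
      by_contra h1
      push Not at h1
      obtain ⟨k, hk⟩ := (H92.eq_pow_iff_forall Nat.prime_two Nat.card_pos.ne').2 h1
      exact hns (H89.isSolvable_of_isPGroup Nat.prime_two (IsPGroup.of_card hk))
    have := Fact.mk hq
    obtain ⟨Q, hQ⟩ := hsyl q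
    have hqQ : q ∣ Nat.card (Q : Subgroup G) := by
      rw [Q.card_eq_multiplicity]
      exact dvd_pow_self q (hq.factorization_pos_of_dvd Nat.card_pos.ne' hqG).ne'
    have hQ0 : (Q : Subgroup G) ≠ ⊥ := by
      intro h0
      rw [h0, card_bot] at hqQ
      exact hq.not_dvd_one hqQ
    have hN : ∀ X : Subgroup G, X ≠ ⊥ → X ≤ Q → (∀ i, X.map (φ i : G →* G) = X) →
        HasNormalPComplement q (normalizer (X : Set G)) := by
      intro X h0 h1 h2
      have h3 := hnil (normalizer (X : Set G)) (fun h3 => htop q ?_) fun i => normalizer_inv (h2 i)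
      · exact H8.hasNormalPComplement_of_isNilpotent q
      · rw [← hs X (normalizer_eq_top_iff.1 h3) h2 h0]
        exact Q.isPGroup'.to_le h1
    have h1 : HasNormalPComplement q G := by
      refine (S0108.result hq2 Q).2 ⟨?_, ?_⟩
      · refine hN _ (H6.thompsonSubgroupOf_ne_bot hqQ) (H6.thompsonSubgroupOf_le _) fun i => ?_
        rw [H6.map_thompsonSubgroupOf_of_injective (φ i).injective, hQ]
      · refine H8.HasNormalPComplement.mono (hN ((Q : Subgroup G) ⊓ centralizer (Q : Set G))
          (H3.inf_centralizer_ne_bot_of_isNilpotent Q.isPGroup'.isNilpotent le_rfl le_normalizer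
            hQ0) inf_le_left fun i => ?_) (centralizer_le_normalizer _)
        rw [map_inf _ _ _ (φ i).injective, hQ]
        exact congrArg _ (centralizer_inv (hQ i))
    rw [H8.hasNormalPComplement_iff_not_dvd] at h1
    by_cases h2 : pResidual q G = ⊥
    · exact hns (H89.isSolvable_of_isPGroup hq (H8.pResidual_eq_bot_iff.1 h2))
    · rw [hs _ inferInstance (fun i => H8.map_equiv_pResidual (φ i)) h2, card_top] at h1
      exact h1 hqG

/-- Let a finite group A act by automorphisms on a finite group G of order coprime to that of A. Suppose every maximal A-invariant proper subgroup of G is nilpotent while G is not. Then G is solvable, the order of G has the form p^a·q^b for two distinct primes p and q, and G has a normal A-invariant Sylow subgroup for some prime dividing its order. -/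
theorem result {A G : Type*} [Group A] [Group G] [Finite A] [Finite G] [MulDistribMulAction A G]
    (hcop : (Nat.card A).Coprime (Nat.card G))
    (hmax : ∀ H : Subgroup G, H ≠ ⊤ → (∀ a : A, ∀ x ∈ H, a • x ∈ H) →
      (∀ K : Subgroup G, H < K → (∀ a : A, ∀ x ∈ K, a • x ∈ K) → K = ⊤) → Group.IsNilpotent H)
    (hG : ¬ Group.IsNilpotent G) :
    Group.IsSolvable G ∧
      (∃ p q a b : ℕ, p.Prime ∧ q.Prime ∧ p ≠ q ∧ Nat.card G = p ^ a * q ^ b) ∧
      ∃ (p : ℕ) (P : Sylow p G), p.Prime ∧ p ∣ Nat.card G ∧ (P : Subgroup G).Normal ∧ (∀ a : A, ∀ x ∈ (P : Subgroup G), a • x ∈ (P : Subgroup G)) := by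
  set φ := MulDistribMulAction.toMulAut A G
  have hnil : ∀ H : Subgroup G, H ≠ ⊤ → H4.Ext.Inv φ H → Group.IsNilpotent H := by
    intro H hH hi
    obtain ⟨M, hHM, hM⟩ := Finite.exists_le_maximal
      (p := fun K : Subgroup G => K ≠ ⊤ ∧ H4.Ext.Inv φ K) ⟨hH, hi⟩
    refine H3.isNilpotent_of_le hHM (hmax M hM.1.1 hM.1.2 fun K hK hKi => ?_)
    by_contra h
    exact hK.not_ge (hM.2 ⟨h, hKi⟩ hK.le)
  have hsyl := H4.Ext.exists_inv_sylow φ hcop (H89.isSolvable_or_of_coprime hcop)
  have hsol : Group.IsSolvable G := solv G φ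
    (fun q _ => (hsyl q).imp fun Q hQ => hQ.map_eq)
    fun H hH hi => hnil H hH ((H4.Ext.inv_iff_map_eq φ).2 hi)
  have hnt : (⊥ : Subgroup G) ≠ ⊤ := by
    intro h
    have : Subsingleton G := subsingleton_iff.1 (subsingleton_of_bot_eq_top h)
    exact hG inferInstance
  obtain ⟨M, hM, -, -, hq⟩ := H24.exists_normal_index_prime_of_isSolvable ⊥ hnt
  generalize hqM : M.index = q at hq
  have := Fact.mk hq
  have h1 : pResidual q G ≤ M := H8.pResidual_le_of_index_eq_pow (k := 1) (by rw [hqM, pow_one])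
  have h2 := hnil (pResidual q G) (fun h => hq.ne_one (by
    rw [← hqM, index_eq_one, eq_top_iff, ← h]; exact h1)) (H4.Ext.inv_of_characteristic φ _)
  have h3 : ∀ (p : ℕ) [Fact p.Prime], p ≠ q → ∀ P : Sylow p G, (P : Subgroup G).Normal := by
    intro p hp hpq P
    have h4 : (P : Subgroup G) ≤ pResidual q G := fun x hx => by
      obtain ⟨k, hk⟩ := (IsPGroup.iff_orderOf.1 P.isPGroup') ⟨x, hx⟩
      rw [← orderOf_coe] at hk
      exact H8.mem_pResidual_of_coprime (hk ▸ Nat.Coprime.pow_left _
        ((Nat.coprime_primes hp.out hq).2 hpq))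
    have h5 : (P.subtype h4 : Subgroup (pResidual q G)).Normal := inferInstance
    have h6 := Sylow.characteristic_of_normal (P.subtype h4) h5
    rw [← map_subgroupOf_eq_of_le h4]
    exact ConjAct.normal_of_characteristic_of_normal (K := (P.subtype h4 : Subgroup (pResidual q G)))
  obtain ⟨Q, hQ⟩ := hsyl q
  obtain ⟨p, hp, hpq, P, hP⟩ : ∃ p : ℕ, p.Prime ∧ p ≠ q ∧ ∃ P : Sylow p G,
      (P : Subgroup G) ⊔ Q = ⊤ := by
    by_contra h4
    push Not at h4
    have h5 : (Q : Subgroup G).Normal := by
      rw [← normalizer_eq_top_iff, ← index_eq_one]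
      refine Nat.eq_one_iff_not_exists_prime_dvd.2 fun p hp h6 => ?_
      have := Fact.mk hp
      by_cases hpq : p = q
      · subst hpq
        exact Q.not_dvd_index (h6.trans (index_dvd_of_le le_normalizer))
      obtain ⟨P⟩ : Nonempty (Sylow p G) := inferInstance
      have h7 := Sylow.characteristic_of_normal P (h3 p hpq P)
      have h8 := hnil _ (h4 p hp hpq P) ((H4.Ext.inv_of_characteristic φ _).sup hQ)
      have h9 : ((Q : Subgroup G).subgroupOf (P ⊔ Q)).Normal :=
        (inferInstance : (Q.subtype (le_sup_right : _ ≤ (P : Subgroup G) ⊔ Q) :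
          Subgroup ↥((P : Subgroup G) ⊔ Q)).Normal)
      exact P.not_dvd_index (h6.trans (index_dvd_of_le (le_sup_left.trans
        ((normal_subgroupOf_iff_le_normalizer le_sup_right).1 h9))))
    have h6 : ∀ (p : ℕ) (_ : Fact p.Prime) (P : Sylow p G), (P : Subgroup G).Normal := by
      intro p hp P
      by_cases hpq : p = q
      · subst hpq
        obtain ⟨g, rfl⟩ := MulAction.exists_smul_eq G Q P
        rwa [Sylow.smul_eq_of_normal]
      · exact h3 p hpq P
    exact hG (((Group.isNilpotent_of_finite_tfae (G := G)).out 3 0).1 h6)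
  have := Fact.mk hp
  have hPn := h3 p hpq P
  have h4 : Nat.card G = Nat.card (P : Subgroup G) * Nat.card (Q : Subgroup G) := by
    refine (IsComplement'.card_mul_card (isComplement'_of_disjoint_and_mul_eq_univ
      (IsPGroup.disjoint_of_ne p q hpq _ _ P.isPGroup' Q.isPGroup') ?_)).symm
    rw [← normal_mul, hP, coe_top]
  refine ⟨hsol, ⟨p, q, _, _, hp, hq, hpq, by
    rw [h4, P.card_eq_multiplicity, Q.card_eq_multiplicity]⟩, p, P, hp, ?_, hPn, ?_⟩
  · by_contra h5
    have h6 : (P : Subgroup G) = ⊥ := by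
      rw [← card_eq_one, P.card_eq_multiplicity, Nat.factorization_eq_zero_of_not_dvd h5, pow_zero]
    rw [h6, bot_sup_eq] at hP
    exact hG ((hP ▸ Q.isPGroup').of_equiv topEquiv).isNilpotent
  · have h7 := Sylow.characteristic_of_normal P hPn
    exact H4.Ext.inv_of_characteristic φ _

end Cfsg.Agent.S4240
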