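import Cfsg.Statements.S4242
import Cfsg.Agent.H94.MinNonClosed
import Cfsg.Agent.H4.Schmidt
import Cfsg.Agent.H3.Frattini
import Cfsg.Agent.H90.Basic

set_option autoImplicit false
open Cfsg

namespace Cfsg.Agent.S4242

open Subgroup
open Cfsg.Agent.H2 (IsPiNum)

/-- Let G be a finite group and p a prime dividing its order. Every maximal subgroup of G of order divisible by p is nilpotent if and only if G is nilpotent, or G is a minimal non-nilpotent group, or G is the internal direct product of a normal subgroup of order p and a normal minimal non-nilpotent subgroup of order prime to p. -/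
theorem result {G : Type*} [Group G] [Finite G] (p : ℕ) (hp : p.Prime) (hpG : p ∣ Nat.card G) :
    (∀ M : Subgroup G, IsCoatom M → p ∣ Nat.card M → Group.IsNilpotent M) ↔
      (Group.IsNilpotent G ∨ Cfsg.IsMinimalNonNilpotent G ∨
        ∃ Z K : Subgroup G, Z.Normal ∧ K.Normal ∧ Z ⊓ K = ⊥ ∧ Z ⊔ K = ⊤ ∧ Nat.card Z = p ∧
          Cfsg.IsMinimalNonNilpotent K ∧ ¬ p ∣ Nat.card K) := by
  have : Fact p.Prime := ⟨hp⟩
  constructor
  · intro h
    by_cases hnil : Group.IsNilpotent G
    · exact Or.inl hnil
    by_cases hmin : ∀ H : Subgroup G, H ≠ ⊤ → Group.IsNilpotent H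
    · exact Or.inr (Or.inl ⟨hnil, hmin⟩)
    right; right
    have h' : ∀ H : Subgroup G, H ≠ ⊤ → p ∣ Nat.card H → Group.IsNilpotent H := by
      intro H hH hd
      obtain ⟨M, hM, hHM⟩ := (eq_top_or_exists_le_coatom H).resolve_left hH
      have := h M hM (hd.trans (card_dvd_of_le hHM))
      exact H1.isNilpotent_of_le hHM
    push Not at hmin
    obtain ⟨H, hH, hHn⟩ := hmin
    obtain ⟨K, hK, hHK⟩ := (eq_top_or_exists_le_coatom H).resolve_left hH
    have hKn : ¬ Group.IsNilpotent K := fun _ => hHn (H1.isNilpotent_of_le hHK)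
    have hKp : ¬ p ∣ Nat.card K := fun hd => hKn (h K hK hd)
    have hKπ : IsPiNum {p}ᶜ (Nat.card K) := (H94.isPiNum_compl_singleton_iff hp).2 hKp
    have hpp : IsPiNum {p} p := by simpa using H2.isPiNum_prime_pow hp (Set.mem_singleton p) 1
    -- an element of order `p` centralizing `K`
    obtain ⟨z, hz, hzK⟩ : ∃ z : G, orderOf z = p ∧ z ∈ centralizer (K : Set G) := by
      by_cases hN : ∃ N : Subgroup G, N.Normal ∧ N ≠ ⊥ ∧ IsPGroup p N
      · obtain ⟨N, hN, hN0, hNp⟩ := hN
        obtain ⟨n, hn, hcard⟩ := hNp.nontrivial_iff_card.1 ((nontrivial_iff_ne_bot N).2 hN0)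
        have hpN : p ∣ Nat.card N := hcard ▸ dvd_pow_self p hn.ne'
        obtain ⟨z, hz⟩ := exists_prime_orderOf_dvd_card' p hpN
        refine ⟨z, by rw [Subgroup.orderOf_coe, hz], fun x hx => ?_⟩
        have hne : N ⊔ zpowers x ≠ ⊤ := by
          intro htop
          have h1 : zpowers x = K := by
            refine H1.eq_of_le_of_card_le (zpowers_le.2 hx) (Nat.le_of_dvd Nat.card_pos ?_)
            have h2 := H2.card_sup_normal_dvd (zpowers x) N
            rw [sup_comm, htop, card_top] at h2
            refine Nat.Coprime.dvd_of_dvd_mul_right ?_ ((card_subgroup_dvd_card K).trans h2)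
            exact ((H2.isPiNum_card_of_isPGroup hp (Set.mem_singleton p) hNp).coprime hKπ).symm
          exact hKn (h1 ▸ H1.isNilpotent_of_isMulCommutative (zpowers x))
        refine H4.commute_of_isNilpotent_of_coprime (h' _ hne
          (hpN.trans (card_dvd_of_le le_sup_left))) (mem_sup_right (mem_zpowers x))
          (mem_sup_left z.2) ?_
        rw [Subgroup.orderOf_coe, hz]
        exact (hpp.coprime (H94.isPiNum_orderOf_of_mem hKπ hx)).symm
      · have hc : HasNormalPComplement p G := by
          refine H8.hasNormalPComplement_of_forall_normalizer fun Q hQ hQ0 => ?_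
          have hne : normalizer (Q : Set G) ≠ ⊤ := fun ht =>
            hN ⟨Q, normalizer_eq_top_iff.1 ht, hQ0, hQ⟩
          obtain ⟨n, hn, hcard⟩ := hQ.nontrivial_iff_card.1 ((nontrivial_iff_ne_bot Q).2 hQ0)
          have := h' _ hne ((hcard ▸ dvd_pow_self p hn.ne').trans (card_dvd_of_le le_normalizer))
          refine H8.hasNormalPComplement_of_forall_centralizes fun U hU g _ hg u hu => ?_
          obtain ⟨k, hk⟩ := H94.exists_orderOf_eq_of_mem_pGroup hU hu
          exact H90.commute_of_coprime_of_isNilpotent (by rw [hk]; exact hg.symm.pow_left k)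
        have hR := H8.hasNormalPComplement_iff_not_dvd.1 hc
        have hKR : K = pResidual p G := by
          refine (hK.le_iff.1 (fun x hx => H8.mem_pResidual_of_coprime ?_)).resolve_left
            (fun ht => hR (by rwa [ht, card_top])) |>.symm
          exact (hpp.coprime (H94.isPiNum_orderOf_of_mem hKπ hx)).symm
        have hhom : H94.PiHom {p} G := by
          refine H94.piHom_of_pGroup fun q Q x hq hqp hQ hx hxQ => ?_
          have : Fact q.Prime := ⟨hq⟩
          by_cases hx1 : x = 1
          · rw [hx1]; exact one_mem _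
          have hne : zpowers x ⊔ Q ≠ ⊤ := by
            intro htop
            have h2 := H1.card_sup_dvd_of_le_normalizer (zpowers_le.2 hxQ)
            rw [htop, card_top, Nat.card_zpowers] at h2
            obtain ⟨k, hk⟩ := hQ.exists_card_eq
            have h3 := Nat.Coprime.dvd_of_dvd_mul_left (hx.coprime hKπ).symm
              ((card_subgroup_dvd_card K).trans h2)
            rw [hk] at h3
            obtain ⟨j, -, hj⟩ := (Nat.dvd_prime_pow hq).1 h3
            exact hKn (IsPGroup.of_card hj).isNilpotent
          obtain ⟨k, hk⟩ := (H92.isPiNum_singleton_iff hp (orderOf_pos x).ne').1 hx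
          have hk0 : k ≠ 0 := fun h => hx1 (by rwa [h, pow_zero, orderOf_eq_one_iff] at hk)
          have hd : p ∣ Nat.card (zpowers x ⊔ Q : Subgroup G) :=
            (hk ▸ dvd_pow_self p hk0).trans
              (H94.orderOf_dvd_card_of_mem (mem_sup_left (mem_zpowers x)))
          intro y hy
          exact H4.commute_of_isNilpotent_of_coprime (h' _ hne hd) (mem_sup_right hy)
            (mem_sup_left (mem_zpowers x)) (hx.coprime (H94.isPiNum_orderOf_of_mem
              (H2.isPiNum_card_of_isPGroup hq hqp hQ) hy)).symm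
        obtain ⟨z, hz⟩ := exists_prime_orderOf_dvd_card' p hpG
        refine ⟨z, hz, hhom K z hKπ (hz ▸ hpp) ?_⟩
        rw [hKR, normalizer_eq_top]
        trivial
    have hzK' : z ∉ K := fun hm => hKp (hz ▸ H94.orderOf_dvd_card_of_mem hm)
    have htop : zpowers z ⊔ K = ⊤ := hK.2 _ (right_lt_sup.2 (by rwa [zpowers_le]))
    have hZc : zpowers z ≤ centralizer (K : Set G) := zpowers_le.2 hzK
    have hZn : (zpowers z).Normal := H1.normal_of_top_le_normalizer (by
      rw [← htop]
      exact sup_le le_normalizer ((le_centralizer_iff.1 hZc).trans (centralizer_le_normalizer _)))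
    have hcard : Nat.card (zpowers z) = p := by rw [Nat.card_zpowers, hz]
    have hdis : zpowers z ⊓ K = ⊥ :=
      disjoint_iff.1 (disjoint_of_coprime_natCard (hcard ▸ hpp.coprime hKπ))
    refine ⟨zpowers z, K, hZn, H1.normal_of_top_le_normalizer (by
      rw [← htop]
      exact sup_le (hZc.trans (centralizer_le_normalizer _)) le_normalizer), hdis, htop, hcard,
      ⟨hKn, fun L hL => ?_⟩, hKp⟩
    have hne : zpowers z ⊔ L.map K.subtype ≠ ⊤ := by
      intro ht
      have h1 : (zpowers z ⊔ L.map K.subtype) ⊓ K = K := by rw [ht, top_inf_eq]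
      have h2 : K ≤ L.map K.subtype := by
        intro k hk
        have hk' : k ∈ zpowers z ⊔ L.map K.subtype := by rw [ht]; trivial
        obtain ⟨a, ha, b, hb, rfl⟩ := (H1.mem_sup_of_le_normalizer'
          (by rw [normalizer_eq_top]; exact le_top)).1 hk'
        have : a ∈ zpowers z ⊓ K :=
          ⟨ha, by simpa using K.mul_mem hk (K.inv_mem (map_subtype_le L hb))⟩
        rw [hdis, mem_bot] at this
        rwa [this, one_mul]
      refine hL (eq_top_iff.2 fun k _ => ?_)
      obtain ⟨l, hl, hlk⟩ := h2 k.2
      rwa [← Subtype.ext hlk]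
    have := h' _ hne (hcard ▸ card_dvd_of_le le_sup_left)
    have : Group.IsNilpotent (L.map K.subtype) := H1.isNilpotent_of_le (B := zpowers z ⊔ _)
      le_sup_right
    exact Group.nilpotent_of_mulEquiv (L.equivMapOfInjective _ K.subtype_injective).symm
  · rintro (h | h | ⟨Z, K, hZ, hK, h1, h2, h3, h4, h5⟩) M hM hd
    · infer_instance
    · exact h.2 M hM.1
    have hc : IsComplement' Z K := H3.isComplement'_of_inf_eq_bot_of_sup_eq_top h1 h2
    have hZM : Z ≤ M := by
      obtain ⟨x, hx⟩ := exists_prime_orderOf_dvd_card' p hd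
      rw [← Subgroup.orderOf_coe] at hx
      have hxZ : (x : G) ∈ Z := H8.mem_of_coprime_orderOf_index (by
        rw [hx, hc.symm.index_eq_card]; exact (Nat.Prime.coprime_iff_not_dvd hp).2 h5)
      rw [← H1.eq_of_le_of_card_le (zpowers_le.2 hxZ) (by rw [Nat.card_zpowers, hx, h3]),
        zpowers_le]
      exact x.2
    have hZc : Z ≤ center G := by
      have : IsCyclic Z := isCyclic_of_prime_card h3
      rw [← centralizer_univ, ← coe_top, ← h2, le_centralizer_iff, sup_le_iff]
      refine ⟨le_centralizer Z, fun k hk z hz => ?_⟩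
      exact commute_of_normal_of_disjoint Z K hZ hK (disjoint_iff.2 h1) z k hz hk
    let φ : G →* K := hc.symm.QuotientMulEquiv.toMonoidHom.comp (QuotientGroup.mk' Z)
    have hker : φ.ker = Z := by
      ext x
      simp [φ]
    have hne : M.map φ ≠ ⊤ := by
      intro ht
      have := congrArg (comap φ) ht
      rw [comap_map_eq, hker, sup_eq_left.2 hZM, comap_top] at this
      exact hM.1 this
    have := h4.2 _ hne
    refine Subgroup.isNilpotent_of_ker_le_center (φ.subgroupMap M) (fun x hx => ?_)
    have hx' : (x : G) ∈ φ.ker := congrArg Subtype.val (MonoidHom.mem_ker.1 hx)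
    rw [hker] at hx'
    exact mem_center_iff.2 fun g => Subtype.ext (mem_center_iff.1 (hZc hx') g)

end Cfsg.Agent.S4242
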