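import Cfsg.Statements.S4245
import Cfsg.Agent.H89.SolvInd
import Cfsg.Agent.H81.Basic
import Cfsg.Agent.S0219

set_option autoImplicit false
open Cfsg

namespace Cfsg.Agent.S4245

/-- Let G be a finite group with a subgroup A of prime-power index. Suppose A has a normal cyclic subgroup B such that A/B is cyclic of order a power of 2. Then G is solvable. -/
theorem result {G : Type*} [Group G] [Finite G] (A : Subgroup G) (p s : ℕ) (hp : p.Prime) (hA : A.index = p ^ s)
    (B : Subgroup A) [B.Normal] (hB : IsCyclic B) (hAB : IsCyclic (A ⧸ B)) (r : ℕ) (hr : Nat.card (A ⧸ B) = 2 ^ r) :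
    Group.IsSolvable G := by
  have h2 : Fact (Nat.Prime 2) := ⟨Nat.prime_two⟩
  refine H89.isSolvable_of_index_prime_pow (fun A _ => ∃ (B : Subgroup A) (_ : B.Normal),
    IsCyclic B ∧ IsCyclic (A ⧸ B) ∧ IsPGroup 2 (A ⧸ B)) ?_ ?_ hp ?_ G A s hA
    ⟨B, inferInstance, hB, hAB, IsPGroup.of_card hr⟩
  · rintro A A' _ _ _ _ f hf ⟨B, _, h1, h3, h4⟩
    have h5 : Function.Injective (QuotientGroup.map (B.comap f) B f le_rfl) := by
      rw [injective_iff_map_eq_one]
      intro x hx
      obtain ⟨x, rfl⟩ := QuotientGroup.mk_surjective x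
      rw [QuotientGroup.map_mk, QuotientGroup.eq_one_iff] at hx
      exact (QuotientGroup.eq_one_iff _).2 hx
    refine ⟨B.comap f, inferInstance, ?_, isCyclic_of_injective _ h5, h4.of_injective _ h5⟩
    refine isCyclic_of_injective (f.subgroupComap B) ?_
    intro x y hxy
    exact Subtype.ext (hf (congrArg Subtype.val hxy))
  · rintro A A' _ _ _ _ f hf ⟨B, hBn, h1, h3, h4⟩
    have := hBn.map f hf
    have h5 : Function.Surjective (QuotientGroup.map B (B.map f) f (Subgroup.le_comap_map f B)) := by
      intro x
      obtain ⟨x, rfl⟩ := QuotientGroup.mk_surjective x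
      obtain ⟨x, rfl⟩ := hf x
      exact ⟨x, rfl⟩
    exact ⟨B.map f, inferInstance, isCyclic_of_surjective _ (f.subgroupMap_surjective B),
      isCyclic_of_surjective _ h5, h4.of_surjective _ h5⟩
  · rintro G _ _ _ A s hA ⟨B, hBn, h1, h3, h4⟩
    obtain ⟨r, hr⟩ := IsPGroup.iff_card.1 h4
    by_cases hev : 2 ∣ Nat.card B
    · obtain ⟨z, hz⟩ := exists_prime_orderOf_dvd_card' 2 hev
      have hz' : orderOf (z : A) = 2 := by rw [Subgroup.orderOf_coe, hz]
      refine H89.isSolvable_of_card_prime (H89.card_prime_of_centralizes hp hA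
        (g := ((z : A) : G)) ?_ fun a ha => ?_)
      · intro h
        rw [← Subgroup.orderOf_coe, h, orderOf_one] at hz'
        omega
      · have h5 := H81.involution_unique_of_isCyclic h1 (hBn.conj_mem _ z.2 ⟨a, ha⟩) z.2
          (by rw [← hz']; exact (MulAut.conj (⟨a, ha⟩ : A)).orderOf_eq _) hz'
        rw [Subgroup.mem_centralizer_singleton_iff]
        exact congrArg Subtype.val (mul_inv_eq_iff_eq_mul.1 h5)
    have hcomm : IsMulCommutative (B.map A.subtype) := by
      have := isCyclic_of_surjective _ (A.subtype.subgroupMap_surjective B)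
      exact IsCyclic.isMulCommutative
    have hind : (B.map A.subtype).index = 2 ^ r * p ^ s := by
      rw [Subgroup.index_map_of_injective _ A.subtype_injective, Subgroup.range_subtype, hA,
        Subgroup.index_eq_card, hr]
    by_cases hp2 : p = 2
    · subst hp2
      exact H89.isSolvable_of_abelian_index_prime_pow hp _ hcomm (r + s) (by rw [hind, pow_add])
    rcases Nat.eq_zero_or_pos r with rfl | hr0
    · exact H89.isSolvable_of_abelian_index_prime_pow hp _ hcomm s (by rw [hind, pow_zero, one_mul])
    obtain ⟨T⟩ : Nonempty (Sylow 2 A) := inferInstance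
    have hT : IsCyclic (T : Subgroup A) := by
      refine isCyclic_of_injective ((QuotientGroup.mk' B).comp (T : Subgroup A).subtype) ?_
      rw [injective_iff_map_eq_one]
      intro x hx
      have h5 : (x : A) ∈ (T : Subgroup A) ⊓ B := ⟨x.2, (QuotientGroup.eq_one_iff _).1 hx⟩
      rw [H3.inf_eq_bot_of_isPGroup_of_coprime T.isPGroup'
        ((Nat.Prime.coprime_iff_not_dvd Nat.prime_two).2 hev).symm] at h5
      exact Subtype.ext h5
    have hnd : ¬ 2 ∣ ((T : Subgroup A).map A.subtype).index := by
      rw [Subgroup.index_map_of_injective _ A.subtype_injective, Subgroup.range_subtype, hA]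
      intro h
      rcases (Nat.Prime.dvd_mul Nat.prime_two).1 h with h | h
      · exact T.not_dvd_index h
      · exact hp2 ((Nat.prime_dvd_prime_iff_eq Nat.prime_two hp).1
          (Nat.prime_two.dvd_of_dvd_pow h)).symm
    have hG : Even (Nat.card G) := by
      rw [even_iff_two_dvd]
      refine dvd_trans ?_ (B.map A.subtype).index_dvd_card
      rw [hind]
      exact Dvd.dvd.mul_right (dvd_pow_self 2 hr0.ne') _
    obtain ⟨H, hH⟩ := S0219.result hG ((T.isPGroup'.map A.subtype).toSylow hnd)
      (isCyclic_of_surjective _ (A.subtype.subgroupMap_surjective T))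
    rcases (Subgroup.normal_of_index_eq_two hH).eq_bot_or_eq_top with h | h
    · rw [h, Subgroup.index_bot] at hH
      exact H89.isSolvable_of_card_prime (hH ▸ Nat.prime_two)
    · rw [h, Subgroup.index_top] at hH
      omega

end Cfsg.Agent.S4245
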