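import Cfsg.Statements.S4261
import Cfsg.Agent.S0048
import Cfsg.Agent.H8.Residual
import Cfsg.Agent.H94.Basic

set_option autoImplicit false
open Cfsg

namespace Cfsg.Agent.S4261

/-- Let M be a maximal subgroup of a finite solvable group G such that x^[G : M] lies in M for every x in G. Then M is normal in G. -/
theorem result {G : Type*} [Group G] [Finite G] (hG : Group.IsSolvable G) (M : Subgroup G) (hM : IsCoatom M)
    (hexp : ∀ x : G, x ^ M.index ∈ M) : M.Normal := by
  obtain ⟨p, k, hp, hk⟩ : ∃ p k : ℕ, p.Prime ∧ M.index = p ^ k := by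
    have := Cfsg.Agent.S0048.result M hM
    obtain ⟨p, k, hp, -, hk⟩ := (isPrimePow_nat_iff _).1 this
    exact ⟨p, k, hp, hk.symm⟩
  have : Fact p.Prime := ⟨hp⟩
  have hle : pResidual p G ≤ M := by
    rw [H8.pResidual_le_iff]
    intro g hg
    have h2 : (orderOf g).Coprime M.index := hk ▸ hg.pow_right k
    obtain ⟨m, hm⟩ := exists_pow_eq_self_of_coprime h2.symm
    rw [← hm]
    exact M.pow_mem (hexp _) _
  have hN : (pResidual p G).Normal := H8.pResidual_normal p
  have hq : IsPGroup p (G ⧸ pResidual p G) := H8.isPGroup_quotient_pResidual p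
  have hnil : Group.IsNilpotent (G ⧸ pResidual p G) := hq.isNilpotent
  have hM' : M = (M.map (QuotientGroup.mk' (pResidual p G))).comap (QuotientGroup.mk' _) := by
    rw [Subgroup.comap_map_eq, QuotientGroup.ker_mk', sup_eq_left.2 hle]
  have hco : IsCoatom (M.map (QuotientGroup.mk' (pResidual p G))) := H94.isCoatom_map_mk' hM hle
  have hn : (M.map (QuotientGroup.mk' (pResidual p G))).Normal :=
    Subgroup.NormalizerCondition.normal_of_coatom _ Group.normalizerCondition_of_isNilpotent hco
  rw [hM']
  infer_instance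

end Cfsg.Agent.S4261
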