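import Cfsg.Statements.S4263
import Cfsg.Agent.H3.Fitting
import Cfsg.Agent.H92.ClassSize

set_option autoImplicit false
open Cfsg

namespace Cfsg.Agent.S4263

theorem pow_index_mem_of_isNilpotent {G : Type*} [Group G] [Finite G] [Group.IsNilpotent G]
    (K : Subgroup G) (x : G) : x ^ K.index ∈ K := by
  induction h : K.index using Nat.strong_induction_on generalizing K with
  | _ n ih =>
    by_cases hK : K = ⊤
    · rw [hK]; trivial
    have h1 := H3.lt_normalizer_of_isNilpotent hK
    have h2 := ih _ (h ▸ Subgroup.index_strictAnti h1) (Subgroup.normalizer (K : Set G)) rfl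
    rw [← h, ← Subgroup.relIndex_mul_index h1.le, mul_comm, pow_mul]
    have h3 := Subgroup.pow_index_mem (K.subgroupOf (Subgroup.normalizer (K : Set G))) ⟨_, h2⟩
    exact h3

/-- Let G be a finite group. An element x lies in the Fitting subgroup F(G) if and only if, for every subgroup H of G, the power x^[G : H] lies in H. -/
theorem result {G : Type*} [Group G] [Finite G] (x : G) :
    x ∈ Cfsg.fittingSubgroup G ↔ ∀ H : Subgroup G, x ^ H.index ∈ H := by
  have hN := H3.fitting_normal G
  constructor
  · intro hx H
    have := H3.fitting_isNilpotent G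
    have h1 := pow_index_mem_of_isNilpotent (H.subgroupOf (fittingSubgroup G)) ⟨x, hx⟩
    obtain ⟨k, hk⟩ := H92.relIndex_normal_dvd_index H (fittingSubgroup G)
    rw [hk, pow_mul]
    exact H.pow_mem h1 k
  · intro h
    rw [← QuotientGroup.eq_one_iff, ← orderOf_eq_one_iff]
    by_contra h1
    obtain ⟨p, hp, h2⟩ := Nat.exists_prime_and_dvd h1
    have := Fact.mk hp
    obtain ⟨P⟩ : Nonempty (Sylow p G) := inferInstance
    have h3 : x ^ (P : Subgroup G).index ∈ pCore p G := by
      rw [H3.pCore_eq_iInf_sylow, Subgroup.mem_iInf]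
      intro Q
      have h4 : (P : Subgroup G).index = (Q : Subgroup G).index := by
        apply Nat.eq_of_mul_eq_mul_left (Nat.card_pos (α := (P : Subgroup G)))
        rw [Subgroup.card_mul_index, P.card_eq_multiplicity, ← Q.card_eq_multiplicity,
          Subgroup.card_mul_index]
      rw [h4]
      exact h _
    have h4 := H3.pCore_le_fitting h3
    rw [← QuotientGroup.eq_one_iff, QuotientGroup.mk_pow, ← orderOf_dvd_iff_pow_eq_one] at h4
    exact P.not_dvd_index (h2.trans h4)

end Cfsg.Agent.S4263
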