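import Cfsg.Statements.S4264
import Cfsg.Agent.H71.ClassNum

set_option autoImplicit false
open Cfsg

namespace Cfsg.Agent.S4264

/-- Let G be a subgroup of the symmetric group of degree d ≥ 1. Then G has at most 5^{d−1} conjugacy classes. -/
theorem result (d : ℕ) (hd : 1 ≤ d) (G : Subgroup (Equiv.Perm (Fin d))) : Nat.card (ConjClasses ↥G) ≤ 5 ^ (d - 1) := by
  refine le_trans (Cfsg.Agent.H71.ClassNum.card_conjClasses_le (G := G) (α := Fin d)) ?_
  rw [Fintype.card_fin]
  exact Nat.pow_le_pow_left (by norm_num) _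

end Cfsg.Agent.S4264
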