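import Cfsg.Statements.S4269
import Cfsg.Agent.H94.Pronormal
import Cfsg.Agent.H1.Card

set_option autoImplicit false
open Cfsg

namespace Cfsg.Agent.S4269

open scoped Pointwise commutatorElement
open Subgroup

/-- Let G be a finite group, V an abelian normal subgroup and H a subgroup with HV = G. Then H is pronormal in G (H and gHg⁻¹ are conjugate inside the subgroup they generate, for every g) if and only if every H-invariant subgroup U of V satisfies U = N_U(H)·[H, U], that is, U is the join of U ∩ N_G(H) and the commutator subgroup [H, U]. -/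
theorem result {G : Type*} [Group G] [Finite G]
    (V : Subgroup G) [V.Normal] (hV : IsMulCommutative ↥V) (H : Subgroup G) (hHV : H ⊔ V = ⊤) :
    Cfsg.IsPronormal H ↔
      ∀ U : Subgroup G, U ≤ V → (∀ h ∈ H, U.map (MulAut.conj h).toMonoidHom = U) →
        U = (U ⊓ Subgroup.normalizer (H : Set G)) ⊔ ⁅H, U⁆ := by
  have hVn : V.Normal := inferInstance
  have hcomm : ∀ a ∈ V, ∀ b ∈ V, a * b = b * a := fun a ha b hb =>
    congrArg Subtype.val (hV.is_comm.comm ⟨a, ha⟩ ⟨b, hb⟩)
  rw [H94.isPronormal_iff]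
  constructor
  · intro h U hUV hU
    have hHU : H ≤ normalizer (U : Set G) := fun x hx => H1.mem_normalizer_iff_conj_smul.2 (hU x hx)
    have hCU : ⁅H, U⁆ ≤ U := by
      rw [commutator_le]
      intro a ha u hu
      rw [commutatorElement_def]
      exact U.mul_mem ((mem_normalizer_iff.1 (hHU ha) u).1 hu) (U.inv_mem hu)
    refine le_antisymm (fun u hu => ?_) (sup_le inf_le_left hCU)
    obtain ⟨x, hx, hx'⟩ := h u
    have hHC : H ≤ normalizer ((⁅H, U⁆ : Subgroup G) : Set G) := normalizer_commutator_ge_left H U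
    have hJ : H ⊔ MulAut.conj u • H ≤ H ⊔ ⁅H, U⁆ := by
      refine sup_le le_sup_left fun y hy => ?_
      rw [H1.mem_conj_smul_iff] at hy
      have h1 : y = ⁅u⁻¹ * y * u, u⁆⁻¹ * (u⁻¹ * y * u) := by
        rw [commutatorElement_def]; group
      rw [h1]
      exact mul_mem (mem_sup_right (inv_mem (commutator_mem_commutator hy hu))) (mem_sup_left hy)
    have hx2 := hJ hx
    rw [sup_comm, H1.mem_sup_of_le_normalizer' hHC] at hx2
    obtain ⟨c, hc, a, ha, rfl⟩ := hx2
    rw [H94.conj_mul_smul_of_mem_normalizer c (le_normalizer ha)] at hx'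
    have h2 := H94.inv_mul_mem_normalizer hx'
    have h3 : u = c * (c⁻¹ * u) := by group
    rw [h3]
    exact mul_mem (mem_sup_right hc) (mem_sup_left ⟨U.mul_mem (U.inv_mem (hCU hc)) hu, h2⟩)
  · intro h g
    have hg : g ∈ V ⊔ H := by rw [sup_comm, hHV]; trivial
    rw [H1.mem_sup_of_le_normalizer' le_normalizer_of_normal] at hg
    obtain ⟨v, hv, a, ha, rfl⟩ := hg
    rw [H94.conj_mul_smul_of_mem_normalizer v (le_normalizer ha)]
    set J := H ⊔ MulAut.conj v • H with hJ
    let U : Subgroup G :=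
      { carrier := {u | u ∈ V ∧ ∀ a ∈ H, ⁅a, u⁆ ∈ J}
        one_mem' := ⟨V.one_mem, fun a _ => by simp⟩
        mul_mem' := by
          rintro u w ⟨hu, hu'⟩ ⟨hw, hw'⟩
          refine ⟨V.mul_mem hu hw, fun a ha => ?_⟩
          have h1 : ⁅a, w⁆ ∈ V := V.mul_mem (hVn.conj_mem w hw a) (V.inv_mem hw)
          have h2 : ⁅a, u * w⁆ = ⁅a, u⁆ * (u * ⁅a, w⁆ * u⁻¹) := by
            simp only [commutatorElement_def]; group
          rw [h2, hcomm u hu _ h1, mul_inv_cancel_right]
          exact J.mul_mem (hu' a ha) (hw' a ha)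
        inv_mem' := by
          rintro u ⟨hu, hu'⟩
          refine ⟨V.inv_mem hu, fun a ha => ?_⟩
          have h1 : ⁅a, u⁆⁻¹ ∈ V := V.inv_mem (V.mul_mem (hVn.conj_mem u hu a) (V.inv_mem hu))
          have h2 : ⁅a, u⁻¹⁆ = u⁻¹ * ⁅a, u⁆⁻¹ * u := by
            simp only [commutatorElement_def]; group
          rw [h2, hcomm u⁻¹ (V.inv_mem hu) _ h1, inv_mul_cancel_right]
          exact J.inv_mem (hu' a ha) }
    have hUinv : ∀ b ∈ H, ∀ u ∈ U, b * u * b⁻¹ ∈ U := by
      rintro b hb u ⟨hu, hu'⟩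
      refine ⟨hVn.conj_mem u hu b, fun a ha => ?_⟩
      have h2 : ⁅a, b * u * b⁻¹⁆ = b * ⁅b⁻¹ * a * b, u⁆ * b⁻¹ := by
        simp only [commutatorElement_def]; group
      rw [h2]
      exact J.mul_mem (J.mul_mem (mem_sup_left hb)
        (hu' _ (H.mul_mem (H.mul_mem (H.inv_mem hb) ha) hb))) (J.inv_mem (mem_sup_left hb))
    have hHU : H ≤ normalizer (U : Set G) := fun b hb =>
      mem_normalizer_fintype (hUinv b hb)
    have hU := h U (fun u hu => hu.1) (fun b hb => H1.mem_normalizer_iff_conj_smul.1 (hHU hb))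
    have hvU : v ∈ U := by
      refine ⟨hv, fun a ha => ?_⟩
      have h2 : ⁅a, v⁆ = a * (v * a⁻¹ * v⁻¹) := by simp only [commutatorElement_def]; group
      rw [h2]
      exact J.mul_mem (mem_sup_left ha) (mem_sup_right (H1.conj_mem_conj_smul v (H.inv_mem ha)))
    have hCJ : ⁅H, U⁆ ≤ J := by
      rw [commutator_le]
      exact fun a ha u hu => hu.2 a ha
    rw [hU, sup_comm, H1.mem_sup_of_le_normalizer'
      (inf_le_left.trans (normalizer_commutator_ge_right H U))] at hvU
    obtain ⟨c, hc, n, hn, hcn⟩ := hvU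
    refine ⟨c, hCJ hc, ?_⟩
    rw [← H94.conj_mul_smul_of_mem_normalizer c hn.2, hcn]

end Cfsg.Agent.S4269
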