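import Cfsg.Statements.S4270
import Cfsg.Agent.H94.Pronormal
import Cfsg.Agent.H1.Card

set_option autoImplicit false
open Cfsg

namespace Cfsg.Agent.S4270

open scoped Pointwise
open Subgroup

theorem exists_sylow_inf_eq {G : Type*} [Group G] [Finite G] {p : ℕ} [Fact p.Prime]
    {A T : Subgroup G} [A.Normal] (hT : H8.IsSylowIn p T A) (P : Sylow p G) :
    ∃ a : G, ((a • P : Sylow p G) : Subgroup G) ⊓ A = T := by
  obtain ⟨a, ha, h⟩ := (H8.isSylowIn_inf_normal P A).exists_conj_eq hT
  refine ⟨a, ?_⟩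
  rw [← h, smul_inf, Sylow.coe_subgroup_smul,
    H1.mem_normalizer_iff_conj_smul.1 (le_normalizer ha)]

theorem le_normalizer_of_inf_eq {G : Type*} [Group G] {A T P : Subgroup G} [A.Normal]
    (h : P ⊓ A = T) : P ≤ normalizer (T : Set G) := by
  rw [← h]
  exact (le_inf le_normalizer le_normalizer_of_normal).trans inf_normalizer_le_normalizer_inf

theorem aux {G : Type*} [Group G] [Finite G] {p : ℕ} [Fact p.Prime]
    (A : Subgroup G) [A.Normal] {T H : Subgroup G} (hT : H8.IsSylowIn p T A) (hTH : T ≤ H)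
    (hB : IsPronormal ((H ⊓ A).subgroupOf A))
    (hK : IsPronormal ((H ⊓ normalizer (T : Set G)).subgroupOf (normalizer (T : Set G))))
    (a : G) (ha : a ∈ A) :
    ∃ x ∈ H ⊔ MulAut.conj a • H, MulAut.conj a • H = MulAut.conj x • H := by
  rw [H94.isPronormal_subgroupOf_iff inf_le_right] at hB hK
  set B := H ⊓ A with hBdef
  set K := H ⊓ normalizer (T : Set G) with hKdef
  set J := H ⊔ MulAut.conj a • H with hJ
  have hTB : H8.IsSylowIn p T B := hT.mono (le_inf hTH hT.le) inf_le_right
  have hHB : H ≤ normalizer (B : Set G) :=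
    (le_inf le_normalizer le_normalizer_of_normal).trans inf_normalizer_le_normalizer_inf
  have hH : H = B ⊔ K := by
    refine le_antisymm (fun h hh => ?_) (sup_le inf_le_left inf_le_left)
    obtain ⟨n, hn, m, hm, rfl⟩ := hTB.frattini (hHB hh)
    exact mul_mem (mem_sup_left hn) (mem_sup_right ⟨by simpa using H.mul_mem (H.inv_mem hn.1) hh, hm⟩)
  obtain ⟨y, hy, hy'⟩ := hB a ha
  have hyJ : y ∈ J := (sup_le_sup inf_le_left (pointwise_smul_le_pointwise_smul_iff.2 inf_le_left)) hy
  have hc := H94.inv_mul_mem_normalizer hy'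
  obtain ⟨n, hn, m, hm, hnm⟩ := hTB.frattini (inv_mem hc)
  -- y⁻¹ a = m⁻¹ n⁻¹
  have h1 : a = y * (m⁻¹ * n⁻¹) := by rw [← mul_inv_rev, ← hnm]; group
  have hmB : m⁻¹ ∈ normalizer (B : Set G) := by
    have : m⁻¹ = (y⁻¹ * a) * n := by rw [h1]; group
    rw [this]
    exact mul_mem hc (le_normalizer hn)
  have h2 : MulAut.conj a • H = MulAut.conj y • MulAut.conj m⁻¹ • H := by
    rw [h1, H1.conj_smul_conj_smul, ← mul_assoc,
      H94.conj_mul_smul_of_mem_normalizer _ (le_normalizer (H.inv_mem hn.1))]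
  have h3 : MulAut.conj m⁻¹ • H ≤ J := by
    have : MulAut.conj m⁻¹ • H = MulAut.conj y⁻¹ • MulAut.conj a • H := by
      rw [h2, H8.conj_inv_smul_conj_smul]
    rw [this]
    exact H1.conj_smul_le_of_mem le_sup_right (J.inv_mem hyJ)
  obtain ⟨x, hx, hx'⟩ := hK m⁻¹ (inv_mem hm)
  have hxH : x ∈ H ⊔ MulAut.conj m⁻¹ • H :=
    (sup_le_sup inf_le_left (pointwise_smul_le_pointwise_smul_iff.2 inf_le_left)) hx
  have hxB : x ∈ normalizer (B : Set G) :=
    (sup_le hHB (H1.conj_smul_le_of_mem hHB hmB)) hxH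
  refine ⟨y * x, J.mul_mem hyJ ((sup_le le_sup_left h3) hxH), ?_⟩
  rw [h2, ← H1.conj_smul_conj_smul]
  congr 1
  rw [hH, smul_sup, smul_sup, hx', H1.mem_normalizer_iff_conj_smul.1 hxB,
    H1.mem_normalizer_iff_conj_smul.1 hmB]

/-- Let p be a prime and G a finite group with a normal subgroup A such that, both in A and in G/A, every subgroup containing a Sylow p-subgroup of that group is pronormal in that group. Let T be a Sylow p-subgroup of A. Then every subgroup of G containing a Sylow p-subgroup of G is pronormal in G if and only if (i) every subgroup of N_G(T)/T containing a Sylow p-subgroup of N_G(T)/T is pronormal there, and (ii) for every subgroup H of G containing a Sylow p-subgroup of G, the image of N_G(H) in G/A is the full normalizer of the image of H. (Pronormal: H and gHg⁻¹ are conjugate inside the subgroup they generate, for every g.) -/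
theorem result {G : Type*} [Group G] [Finite G] {p : ℕ} [Fact p.Prime]
    (A : Subgroup G) [A.Normal] (hA : (∀ K : Subgroup ↥A, (∃ P : Sylow p ↥A, (P : Subgroup ↥A) ≤ K) → Cfsg.IsPronormal K)) (hQ : (∀ K : Subgroup (G ⧸ A), (∃ P : Sylow p (G ⧸ A), (P : Subgroup (G ⧸ A)) ≤ K) → Cfsg.IsPronormal K))
    (T : Subgroup G) (hT : ∃ P : Sylow p ↥A, (P : Subgroup ↥A).map A.subtype = T) [(T.subgroupOf (Subgroup.normalizer (T : Set G))).Normal] :
    (∀ K : Subgroup G, (∃ P : Sylow p G, (P : Subgroup G) ≤ K) → Cfsg.IsPronormal K) ↔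
      ((∀ K : Subgroup (↥(Subgroup.normalizer (T : Set G)) ⧸ T.subgroupOf (Subgroup.normalizer (T : Set G))), (∃ P : Sylow p (↥(Subgroup.normalizer (T : Set G)) ⧸ T.subgroupOf (Subgroup.normalizer (T : Set G))), (P : Subgroup (↥(Subgroup.normalizer (T : Set G)) ⧸ T.subgroupOf (Subgroup.normalizer (T : Set G)))) ≤ K) → Cfsg.IsPronormal K) ∧
        ∀ K : Subgroup G, (∃ P : Sylow p G, (P : Subgroup G) ≤ K) →
          (Subgroup.normalizer (K : Set G)).map (QuotientGroup.mk' A) = Subgroup.normalizer ((K.map (QuotientGroup.mk' A) : Subgroup (G ⧸ A)) : Set (G ⧸ A))) := by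
  have hT' : H8.IsSylowIn p T A := H8.isSylowIn_iff_exists_sylow.2 hT
  set N := normalizer (T : Set G) with hN
  constructor
  · intro h
    constructor
    · rintro K ⟨Q, hQ⟩
      obtain ⟨P₀⟩ : Nonempty (Sylow p G) := inferInstance
      obtain ⟨a, ha⟩ := exists_sylow_inf_eq hT' P₀
      have hPN := le_normalizer_of_inf_eq ha
      set f := QuotientGroup.mk' (T.subgroupOf N) with hf
      have hfs : Function.Surjective f := QuotientGroup.mk'_surjective _
      obtain ⟨R, rfl⟩ := Sylow.mapSurjective_surjective hfs p Q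
      have hR : H8.IsSylowIn p ((R : Subgroup N).map N.subtype) ⊤ :=
        (H8.isSylowIn_map_subtype R).trans_of_not_dvd le_top (by
          rw [relIndex_top_right]
          exact fun h' => (a • P₀).not_dvd_index (h'.trans (index_dvd_of_le hPN)))
      obtain ⟨S, hS⟩ := H8.isSylowIn_top_iff.1 hR
      have h1 := h ((K.comap f).map N.subtype) ⟨S, by
        rw [hS]
        exact map_mono (map_le_iff_le_comap.1 hQ)⟩
      have h2 := H94.IsPronormal.subgroupOf h1 (map_subtype_le _)
      rw [← comap_subtype, comap_map_eq_self_of_injective N.subtype_injective] at h2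
      have h3 := H94.IsPronormal.map hfs h2
      rwa [map_comap_eq_self_of_surjective hfs] at h3
    · intro K hK
      refine le_antisymm (le_normalizer_map _) fun g hg => ?_
      obtain ⟨g, rfl⟩ := QuotientGroup.mk'_surjective A g
      obtain ⟨x, hx, hx'⟩ := H94.isPronormal_iff.1 (h K hK) g
      have h1 : K ⊔ MulAut.conj g • K ≤ K ⊔ A := by
        refine sup_le le_sup_left ?_
        rw [← QuotientGroup.ker_mk' A, ← comap_map_eq, ← map_le_iff_le_comap, H94.map_conj_smul',
          H1.mem_normalizer_iff_conj_smul.1 hg]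
      have h2 := h1 hx
      rw [sup_comm, H1.mem_sup_of_le_normalizer' le_normalizer_of_normal] at h2
      obtain ⟨a, ha, k, hk, rfl⟩ := h2
      refine ⟨k * ((a * k)⁻¹ * g), mul_mem (le_normalizer hk) (H94.inv_mul_mem_normalizer hx'), ?_⟩
      have : QuotientGroup.mk' A a = 1 := (QuotientGroup.eq_one_iff a).2 ha
      simp only [map_mul, map_inv, this]
      group
  · rintro ⟨h1, h2⟩
    have key : ∀ H : Subgroup G, (∃ P : Sylow p G, (P : Subgroup G) ≤ H ∧ (P : Subgroup G) ⊓ A = T) →
        IsPronormal H := by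
      rintro H ⟨P, hPH, hPT⟩
      have hTH : T ≤ H := hPT ▸ inf_le_left.trans hPH
      have hPN := le_normalizer_of_inf_eq hPT
      have hB : IsPronormal ((H ⊓ A).subgroupOf A) :=
        hA _ ⟨hT'.toSylow, by rw [hT'.coe_toSylow]; exact comap_mono (le_inf hTH hT'.le)⟩
      have hK : IsPronormal ((H ⊓ N).subgroupOf N) := by
        refine H94.IsPronormal.of_map (f := QuotientGroup.mk' (T.subgroupOf N)) ?_ (h1 _ ?_)
        · rw [QuotientGroup.ker_mk']
          exact comap_mono (le_inf hTH le_normalizer)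
        · refine ⟨(P.subtype hPN).mapSurjective (QuotientGroup.mk'_surjective _), ?_⟩
          rw [Sylow.coe_mapSurjective]
          exact map_mono (comap_mono (le_inf hPH hPN))
      rw [H94.isPronormal_iff]
      intro g
      obtain ⟨x, hx, hx'⟩ := H94.isPronormal_iff.1 (hQ (H.map (QuotientGroup.mk' A))
        ⟨P.mapSurjective (QuotientGroup.mk'_surjective _), map_mono hPH⟩) (QuotientGroup.mk' A g)
      rw [← H94.map_conj_smul', ← Subgroup.map_sup] at hx
      obtain ⟨x, hx, rfl⟩ := hx
      have h3 := H94.inv_mul_mem_normalizer hx'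
      rw [← h2 H ⟨P, hPH⟩] at h3
      obtain ⟨n, hn, hn'⟩ := h3
      have ha : x⁻¹ * g * n⁻¹ ∈ A := by
        rw [← QuotientGroup.ker_mk' A, MonoidHom.mem_ker, map_mul, map_mul, map_inv, map_inv, hn']
        group
      obtain ⟨y, hy, hy'⟩ := aux A hT' hTH hB hK _ ha
      rw [H94.conj_mul_smul_of_mem_normalizer _ (inv_mem hn)] at hy hy'
      refine ⟨x * y, mul_mem hx ?_, ?_⟩
      · refine (sup_le le_sup_left ?_ : _ ≤ H ⊔ MulAut.conj g • H) hy
        rw [← H1.conj_smul_conj_smul]
        exact H1.conj_smul_le_of_mem le_sup_right (inv_mem hx)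
      · rw [← H1.conj_smul_conj_smul, ← hy', H1.conj_smul_conj_smul, mul_inv_cancel_left]
    rintro K ⟨P, hP⟩
    obtain ⟨a, ha⟩ := exists_sylow_inf_eq hT' P
    have h3 := H94.IsPronormal.conj_smul (key (MulAut.conj a • K) ⟨a • P,
      pointwise_smul_le_pointwise_smul_iff.2 hP, ha⟩) a⁻¹
    rwa [H8.conj_inv_smul_conj_smul] at h3

end Cfsg.Agent.S4270
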