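import Cfsg.Statements.S4271
import Cfsg.Agent.S4270

set_option autoImplicit false
open Cfsg

namespace Cfsg.Agent.S4271

open scoped Pointwise
open Subgroup

/-- Let p be a prime and G a finite group with a normal subgroup A such that every subgroup of A containing a Sylow p-subgroup of A is pronormal in A, and the Sylow p-subgroups of G/A are self-normalizing. Let T be a Sylow p-subgroup of A. Then every subgroup of G containing a Sylow p-subgroup of G is pronormal in G if and only if every subgroup of N_G(T)/T containing a Sylow p-subgroup of N_G(T)/T is pronormal in N_G(T)/T. (Pronormal: H and gHg⁻¹ are conjugate inside the subgroup they generate, for every g.) -/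
theorem result {G : Type*} [Group G] [Finite G] {p : ℕ} [Fact p.Prime]
    (A : Subgroup G) [A.Normal] (hA : (∀ K : Subgroup ↥A, (∃ P : Sylow p ↥A, (P : Subgroup ↥A) ≤ K) → Cfsg.IsPronormal K))
    (hQ : ∀ P : Sylow p (G ⧸ A), Subgroup.normalizer ((P : Subgroup (G ⧸ A)) : Set (G ⧸ A)) = P)
    (T : Subgroup G) (hT : ∃ P : Sylow p ↥A, (P : Subgroup ↥A).map A.subtype = T) [(T.subgroupOf (Subgroup.normalizer (T : Set G))).Normal] :
    (∀ K : Subgroup G, (∃ P : Sylow p G, (P : Subgroup G) ≤ K) → Cfsg.IsPronormal K) ↔ (∀ K : Subgroup (↥(Subgroup.normalizer (T : Set G)) ⧸ T.subgroupOf (Subgroup.normalizer (T : Set G))), (∃ P : Sylow p (↥(Subgroup.normalizer (T : Set G)) ⧸ T.subgroupOf (Subgroup.normalizer (T : Set G))), (P : Subgroup (↥(Subgroup.normalizer (T : Set G)) ⧸ T.subgroupOf (Subgroup.normalizer (T : Set G)))) ≤ K) → Cfsg.IsPronormal K) := by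
  have key : ∀ (K J : Subgroup (G ⧸ A)) (P : Sylow p (G ⧸ A)) (g : G ⧸ A), (P : Subgroup _) ≤ K →
      K ≤ J → MulAut.conj g • K ≤ J → g ∈ J := by
    intro K J P g hP hJ hg
    have h1 := H8.isSylowIn_of_le P (hP.trans hJ)
    have h2 := H8.isSylowIn_of_le (g • P)
      ((pointwise_smul_le_pointwise_smul_iff.2 hP).trans hg)
    obtain ⟨x, hx, hx'⟩ := h1.exists_conj_eq h2
    have h3 := H94.inv_mul_mem_normalizer hx'.symm
    rw [hQ P] at h3
    have h4 := J.mul_mem hx (hJ (hP h3))
    simpa using h4
  rw [S4270.result A hA (by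
    rintro K ⟨P, hP⟩
    rw [H94.isPronormal_iff]
    exact fun g => ⟨g, key K _ P g hP le_sup_left le_sup_right, rfl⟩) T hT]
  refine and_iff_left ?_
  rintro K ⟨P, hP⟩
  refine le_antisymm (le_normalizer_map _) fun g hg => ?_
  have := key (K.map (QuotientGroup.mk' A)) _ (P.mapSurjective (QuotientGroup.mk'_surjective A)) g
    (map_mono hP) le_rfl (H1.mem_normalizer_iff_conj_smul.1 hg).le
  exact map_mono le_normalizer this

end Cfsg.Agent.S4271
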