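import Cfsg.Statements.S4321
import Cfsg.Agent.H92.ClassSize

set_option autoImplicit false
open Cfsg

namespace Cfsg.Agent.S4321

open Subgroup H92

section
variable {G : Type*} [Group G] [Finite G] {p : ℕ} [hp : Fact p.Prime]

omit hp in
theorem core1 {u v : G} (h : cs[u].Coprime cs[v]) (c : Commute u v) : u ∈ Ce[v].normalCore := fun b => by
  obtain ⟨d, hd, e, he, rfl⟩ := H1.factorization_of_coprime_index h.symm b
  have : d * e * u * (d * e)⁻¹ = d * u * d⁻¹ := by rw [mul_assoc d, (mem_C.1 he).eq]; group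
  exact this ▸ mul_mem (mul_mem hd (mem_C.2 c)) (inv_mem hd)

theorem exists_comm {u v : G} (hu : ∃ k, orderOf u = p ^ k) (h : ¬ p ∣ cs[v]) :
    ∃ g : G, Commute (g * u * g⁻¹) v := by
  obtain ⟨k, hk⟩ := hu
  obtain ⟨g, hg⟩ := H1.exists_conj_le_of_not_dvd_index (P := zpowers u)
    (IsPGroup.of_card ((Nat.card_zpowers u).trans hk)) h
  exact ⟨g, mem_C.1 (hg (mem_conj_smul.2 (by simp [mul_assoc])))⟩

theorem core2 {u v : G} (h : cs[u].Coprime cs[v]) (hu : ∃ k, orderOf u = p ^ k) (hv : ¬ p ∣ cs[v]) :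
    u ∈ Ce[v].normalCore := by
  obtain ⟨g, hg⟩ := exists_comm hu hv
  simpa [mul_assoc] using Ce[v].normalCore_normal.conj_mem _ (core1 (by rwa [cs_conj]) hg) g⁻¹

theorem core3 {u v : G} (h : cs[u].Coprime cs[v]) (hv : ∃ k, orderOf v = p ^ k) (hu : ¬ p ∣ cs[u]) :
    u ∈ Ce[v].normalCore := by
  obtain ⟨g, hg⟩ := exists_comm hv hu
  have : Commute (g⁻¹ * u * g) v := by simpa [mul_assoc] using hg.symm.map (MulAut.conj g⁻¹)
  simpa [mul_assoc] using Ce[v].normalCore_normal.conj_mem _ (core1 (by rwa [cs_conj']) this) g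

theorem central (h : ∀ g : G, ¬ p ∣ cs[g]) {τ : G} (hτ : ∃ k, orderOf τ = p ^ k) (g : G) :
    Commute g τ := by
  refine mem_C.1 ((eq_top_of_forall_conj_mem fun x => ?_).ge (mem_top g))
  obtain ⟨d, hd⟩ := exists_comm hτ (h x)
  exact ⟨d⁻¹, mem_C.2 (by simpa [mul_assoc] using hd.symm.map (MulAut.conj d⁻¹))⟩

theorem central' (H : Subgroup G) [hH : H.Normal] (h : ∀ u ∈ H, ¬ p ∣ cs[u]) {τ : G}
    (hτ : ∃ k, orderOf τ = p ^ k) (hc : ∀ g : G, g * τ * g⁻¹ * τ⁻¹ ∈ H) : ∀ u ∈ H, Commute u τ := by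
  let X := (zpowers (τ : G ⧸ H)).comap (QuotientGroup.mk' H)
  have ct : ∀ g : G ⧸ H, Commute g τ := by
    rintro ⟨g⟩
    exact mul_inv_eq_iff_eq_mul.1 (mul_inv_eq_one.1 ((QuotientGroup.eq_one_iff _).2 (hc g)))
  have : (zpowers (τ : G ⧸ H)).Normal := ⟨by
    rintro _ ⟨i, rfl⟩ g
    exact ⟨i, by rw [((ct g).zpow_right i).eq, mul_inv_cancel_right]⟩⟩
  have HX : H ≤ X := fun u hu => by simp [X, (QuotientGroup.eq_one_iff u).2 hu]
  intro u hu
  refine mem_C.1 ((eq_top_of_forall_conj_mem (H := Ce[τ].subgroupOf H) fun x => ?_).ge (mem_top ⟨u, hu⟩))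
  obtain ⟨⟨d, i, hi⟩, hd⟩ := exists_comm (G := X) (p := p) (u := ⟨τ, mem_zpowers _⟩) (v := ⟨x, HX x.2⟩)
    (by rwa [← orderOf_coe]) fun n => h x x.2 (n.trans (cs_subgroup_dvd X _))
  have m : τ ^ i * d⁻¹ ∈ H := by
    rw [← QuotientGroup.eq_one_iff]
    simpa [mul_inv_eq_one] using hi
  refine ⟨⟨_, m⟩, mem_C.2 ?_⟩
  have h1 : Commute (x : G) (d * τ * d⁻¹) := hd.symm.map X.subtype
  have h2 := h1.conj (τ ^ i * d⁻¹)
  rwa [show τ ^ i * d⁻¹ * (d * τ * d⁻¹) * (τ ^ i * d⁻¹)⁻¹ = τ by group] at h2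

theorem core {y z : G} (hy : orderOf y = p) (hz : orderOf z = p) (ny : cs[y] ≠ 1) (nz : cs[z] ≠ 1)
    (hc : Commute y z) (cop : cs[y].Coprime cs[z])
    (H : ∀ x : G, p ∣ orderOf x → cs[x].Coprime cs[y] ∨ cs[x].Coprime cs[z])
    (hw : cs[y * z].Coprime cs[y]) : False := by
  classical
  let C := Ce[z].normalCore
  have yC : y ∈ C := core1 cop hc
  have s1 : ∀ g : G, ∃ c : G, c * z * c⁻¹ = (g * y * g⁻¹)⁻¹ * y * z := fun g => by
    obtain ⟨c, h1, e, he, rfl⟩ := H1.factorization_of_coprime_index hw g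
    refine ⟨c, ?_⟩
    have : c * e * y * (c * e)⁻¹ = c * y * c⁻¹ := by rw [mul_assoc c, (mem_C.1 he).eq]; group
    rw [this, mul_assoc _ y, ← mul_inv_eq_iff_eq_mul.2 (mem_C.1 h1).eq]
    group
  have yz : ∀ c : G, Commute y (c * z * c⁻¹) := fun c => by
    simpa [mul_assoc] using (mem_C.1 (yC c⁻¹)).map (MulAut.conj c)
  have s2 : ∀ g : G, Commute y (g * y * g⁻¹) := fun g => by
    obtain ⟨c, h⟩ := s1 g
    have : g * y * g⁻¹ = y * z * (c * z * c⁻¹)⁻¹ := by rw [h]; group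
    exact this ▸ ((Commute.refl y).mul_right hc).mul_right (yz c).inv_right
  have s3 : ∀ g : G, ((g * y * g⁻¹)⁻¹ * y) ^ p = 1 := fun g => by
    rw [(s2 g).symm.inv_left.mul_pow, inv_pow, conj_pow, ← hy, pow_orderOf_eq_one]; simp
  have pz : p ∣ cs[z] := by
    obtain ⟨g, hg⟩ : ∃ g : G, (g * y * g⁻¹)⁻¹ * y ≠ 1 := by
      by_contra h
      push Not at h
      exact ny (cs_eq_one_iff.2 (mem_center_iff.2 fun g =>
        mul_inv_eq_iff_eq_mul.1 (inv_mul_eq_one.1 (h g))))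
    let f : Function.End {x // IsConj z x} := fun x => ⟨(g * y * g⁻¹)⁻¹ * y * x, by
      obtain ⟨d, hd⟩ := isConj_iff.1 x.2
      obtain ⟨e, he, d', hd', rfl⟩ := H1.factorization_of_coprime_index cop d
      obtain ⟨c, h⟩ := s1 (e⁻¹ * g)
      refine isConj_iff.2 ⟨e * c, ?_⟩
      rw [← hd, mul_assoc e d', (mem_C.1 hd').eq]
      calc _ = e * (c * z * c⁻¹) * e⁻¹ := by group
        _ = (g * y * g⁻¹)⁻¹ * (e * y) * z * e⁻¹ := by rw [h]; group
        _ = _ := by rw [(mem_C.1 he).eq]; group⟩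
    have hf : ∀ k x, ((f ^ k) x).1 = ((g * y * g⁻¹)⁻¹ * y) ^ k * x := fun k x => by
      induction k with
      | zero => rw [pow_zero, pow_zero, one_mul]; rfl
      | succ k ih => rw [pow_succ', pow_succ', mul_assoc, ← ih]; rfl
    have := Fintype.ofFinite {x // IsConj z x}
    have h1 := Equiv.Perm.card_fixedPoints_modEq (f := f) (p := p) (n := 1)
      (funext fun x => Subtype.ext (by rw [hf, pow_one, s3, one_mul]; rfl))
    have : IsEmpty (Function.fixedPoints f) := ⟨fun x => hg (mul_eq_right.1 (congrArg Subtype.val x.2))⟩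
    rwa [← Nat.card_eq_fintype_card, card_isConj, Fintype.card_eq_zero, Nat.modEq_zero_iff_dvd] at h1
  have nA : ∀ {x : G}, cs[x].Coprime cs[z] → ¬ p ∣ cs[x] := fun h n =>
    hp.1.one_lt.ne' (Nat.eq_one_of_dvd_coprimes h n pz)
  have pe : ∀ {u : G}, (∃ k, orderOf u = p ^ k) → u ∉ C → cs[u].Coprime cs[y] := by
    rintro u ⟨k, hk⟩ hu
    refine (H u ?_).resolve_right fun h => hu (core3 h ⟨1, by simpa⟩ (nA h))
    rcases k with _ | k
    · exact absurd (orderOf_eq_one_iff.1 hk ▸ one_mem C) hu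
    · exact hk ▸ dvd_pow_self p k.succ_ne_zero
  have mix : ∀ {v g : G}, orderOf v = p → ¬ p ∣ orderOf g → Commute v g →
      (orderOf v).Coprime (orderOf g) ∧ p ∣ orderOf (v * g) := fun {v g} hv hg c =>
    have := hv.symm ▸ hp.1.coprime_iff_not_dvd.2 hg
    ⟨this, hv ▸ orderOf_dvd_of_mem_zpowers (mem_zpowers_mul_of_coprime c this)⟩
  obtain ⟨P, hP⟩ := exists_sylow_le_of_not_dvd_index (nA cop)
  let K := (P : Subgroup G) ⊔ C
  have mK : ∀ {x}, x ∈ K ↔ ∃ u ∈ (P : Subgroup G), ∃ c ∈ C, u * c = x := mem_sup_of_normal_right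
  have pP : ∀ {u}, u ∈ (P : Subgroup G) → ∃ k, orderOf u = p ^ k := fun {u} hu => by
    simpa using IsPGroup.iff_orderOf.1 P.isPGroup' ⟨u, hu⟩
  have nc : ∀ {a b : ℕ}, a ≠ 1 → a ∣ b → ¬ b.Coprime a := fun h d c =>
    h (Nat.eq_one_of_dvd_coprimes c d dvd_rfl)
  have yK : Ce[y] ≤ K := subgroupOf_eq_top.1 (eq_top_of_forall_not_dvd_index fun q hq => by
    rcases eq_or_ne q p with rfl | n
    · exact fun h => P.not_dvd_index ((h.trans (relIndex_dvd_of_le_left _ le_sup_left)).trans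
        (relIndex_dvd_index_of_le hP))
    have := Fact.mk hq
    obtain ⟨Q⟩ : Nonempty (Sylow q Ce[y]) := inferInstance
    refine not_dvd_index_of_sylow_le Q fun g hg => mem_sup_right ?_
    obtain ⟨k, hk⟩ := IsPGroup.iff_orderOf.1 Q.isPGroup' ⟨g, hg⟩
    have c := mem_C'.1 g.2
    obtain ⟨m1, m2⟩ := mix hy (not_dvd_of_eq_pow hp.1 hq n.symm ⟨k, by simpa using hk⟩) c
    have h := (H _ m2).resolve_left (nc ny (cs_dvd_cs_mul c m1))
    exact zpowers_le.2 (core3 h ⟨1, by simpa⟩ (nA h)) (mem_zpowers_mul_of_coprime' c m1))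
  have pK : ∀ {u : G}, (∃ k, orderOf u = p ^ k) → u ∈ K := fun {u} hu => by
    by_cases h : u ∈ C
    · exact mem_sup_right h
    exact yK (normalCore_le _ (core2 (pe hu h) hu (nA cop)))
  have nK : K.Normal := ⟨fun x hx g => by
    obtain ⟨u, hu, c, hc, rfl⟩ := mK.1 hx
    rw [← conj_mul]
    exact mul_mem (pK (by rw [orderOf_conj]; exact pP hu))
      (mem_sup_right (Ce[z].normalCore_normal.conj_mem c hc g))⟩
  obtain ⟨t, ht, td⟩ := Nat.exists_prime_and_dvd ny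
  have := Fact.mk ht
  have nB : ∀ {x : G}, cs[x].Coprime cs[y] → ¬ t ∣ cs[x] := fun h n =>
    ht.one_lt.ne' (Nat.eq_one_of_dvd_coprimes h n td)
  obtain ⟨T, hT⟩ := exists_sylow_le_of_not_dvd_index (nB cop.symm)
  obtain ⟨τ, τT, τy⟩ := SetLike.not_le_iff_exists.1 fun l => not_dvd_index_of_sylow_le T l td
  obtain ⟨k, hk⟩ : ∃ k, orderOf τ = t ^ k := by simpa using IsPGroup.iff_orderOf.1 T.isPGroup' ⟨τ, τT⟩
  have oq : ∀ (N : Subgroup G) [N.Normal], ∃ k, orderOf (τ : G ⧸ N) = t ^ k := fun N _ =>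
    eq_pow_of_dvd ht (orderOf_map_dvd (QuotientGroup.mk' N) τ) ⟨k, hk⟩
  have c1 := central (G := G ⧸ K) (p := t) (by
    rintro ⟨g⟩
    obtain ⟨d, hd, e, he, rfl⟩ := H1.factorization_of_coprime_index cop.symm g
    obtain ⟨a, b, -, hb, rfl, ha', hb'⟩ := exists_p_parts hp.1 d
    have c := mem_C'.1 (zpowers_le.2 hd hb)
    obtain ⟨m1, m2⟩ := mix hz hb' c
    have : (Quot.mk _ (a * b * e) : G ⧸ K) = QuotientGroup.mk b := by
      show ((a * b * e : G) : G ⧸ K) = b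
      simp [(QuotientGroup.eq_one_iff a).2 (pK ha'), (QuotientGroup.eq_one_iff e).2 (yK he)]
    rw [this]
    exact fun n => nB ((H _ m2).resolve_right (nc nz (cs_dvd_cs_mul c m1)))
      ((n.trans (cs_mk_dvd K b)).trans (cs_dvd_cs_mul' c m1))) (oq K)
  have := nK.map (QuotientGroup.mk' C) (QuotientGroup.mk'_surjective C)
  have c2 := central' (p := t) (K.map (QuotientGroup.mk' C)) (by
    rintro _ ⟨x, hx, rfl⟩
    obtain ⟨u, hu, c, hc, rfl⟩ := mK.1 hx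
    rw [map_mul, QuotientGroup.mk'_apply, QuotientGroup.mk'_apply, (QuotientGroup.eq_one_iff c).2 hc, mul_one]
    by_cases h : u ∈ C
    · rw [(QuotientGroup.eq_one_iff u).2 h, cs_one]
      exact ht.not_dvd_one
    · exact fun n => nB (pe (pP hu) h) (n.trans (cs_mk_dvd C u))) (oq C) (by
    rintro ⟨g⟩
    refine ⟨g * τ * g⁻¹ * τ⁻¹, (QuotientGroup.eq_one_iff _).1 ?_, rfl⟩
    simp [(c1 g).eq])
  obtain ⟨c, h⟩ := s1 τ
  obtain ⟨e, he, d, hd, rfl⟩ := H1.factorization_of_coprime_index cop c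
  have m : e⁻¹ * (τ * e * τ⁻¹) ∈ Ce[z] := normalCore_le _ ((QuotientGroup.eq_one_iff (N := C) _).1 (by
    have : Commute (e : G ⧸ C) τ := c2 _ ⟨e, yK he, rfl⟩
    simp [← this.eq]))
  set n := (τ * y * τ⁻¹)⁻¹ * y with hn
  have e1 : e * z * e⁻¹ = n * z := by rw [← h, mul_assoc e d, (mem_C.1 hd).eq]; group
  have τz := mul_inv_eq_iff_eq_mul.2 (mem_C.1 (hT τT)).eq
  have e2 : τ * n * τ⁻¹ = n := mul_right_cancel (b := z) <|
    calc _ = τ * n * τ⁻¹ * (τ * z * τ⁻¹) := by rw [τz]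
      _ = τ * (e * z * e⁻¹) * τ⁻¹ := by rw [e1]; group
      _ = e * (e⁻¹ * (τ * e * τ⁻¹) * (τ * z * τ⁻¹) * (e⁻¹ * (τ * e * τ⁻¹))⁻¹) * e⁻¹ := by group
      _ = _ := by rw [τz, (mem_C.1 m).eq, mul_inv_cancel_right, e1]
  have c3 : Commute n⁻¹ τ := Commute.inv_left (mul_inv_eq_iff_eq_mul.1 e2).symm
  have e3 : (n⁻¹ * τ) ^ t ^ k = 1 := by
    rw [show n⁻¹ * τ = y⁻¹ * τ * y⁻¹⁻¹ by rw [hn]; group, conj_pow, ← hk, pow_orderOf_eq_one]; simp
  rw [c3.mul_pow, ← hk, pow_orderOf_eq_one, mul_one, inv_pow, inv_eq_one, hk] at e3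
  have e4 : n = 1 := orderOf_eq_one_iff.1 (Nat.eq_one_of_dvd_coprimes
    (((Nat.coprime_primes ht hp.1).2 fun e => nA cop (e ▸ td)).pow_left k)
    (orderOf_dvd_of_pow_eq_one e3) (orderOf_dvd_of_pow_eq_one (s3 τ)))
  exact τy (mem_C.2 (mul_inv_eq_iff_eq_mul.1 (inv_mul_eq_one.1 e4)))

theorem core' (hZ : ¬ p ∣ Nat.card (center G)) {x x' : G} (hx : p ∣ orderOf x) (hx' : p ∣ orderOf x')
    (H : ∀ z : G, p ∣ orderOf z → cs[z].Coprime cs[x] ∨ cs[z].Coprime cs[x']) : False := by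
  have ex : ∀ x : G, p ∣ orderOf x → ∃ y, orderOf y = p ∧ cs[y] ≠ 1 ∧ cs[y] ∣ cs[x] := fun x hx =>
    have o := orderOf_pow_orderOf_div (orderOf_pos x).ne' hx
    ⟨_, o, fun h => hZ (o ▸ orderOf_dvd_natCard _ (cs_eq_one_iff.1 h)), cs_dvd_of_le (C_le_C_pow x _)⟩
  obtain ⟨y, hy, ny, dy⟩ := ex x hx
  obtain ⟨z, hz, nz, dz⟩ := ex x' hx'
  replace H : ∀ w : G, p ∣ orderOf w → cs[w].Coprime cs[y] ∨ cs[w].Coprime cs[z] := fun w hw =>
    (H w hw).imp (·.coprime_dvd_right dy) (·.coprime_dvd_right dz)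
  have cop := (H y hy.symm.dvd).resolve_left fun h => ny (by simpa using h)
  obtain ⟨z, hz, e, hc⟩ : ∃ z' : G, orderOf z' = p ∧ cs[z'] = cs[z] ∧ Commute y z' := by
    by_cases h : p ∣ cs[y]
    · obtain ⟨g, hg⟩ := exists_comm (u := y) (v := z) ⟨1, by simpa⟩ fun n =>
        hp.1.one_lt.ne' (Nat.eq_one_of_dvd_coprimes cop h n)
      exact ⟨_, (orderOf_conj' g z).trans hz, cs_conj' g z, by simpa [mul_assoc] using hg.conj g⁻¹⟩
    · obtain ⟨g, hg⟩ := exists_comm (u := z) ⟨1, by simpa⟩ h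
      exact ⟨_, (orderOf_conj g z).trans hz, cs_conj g z, hg.symm⟩
  rw [← e] at nz H cop
  have o : orderOf (y * z) = p := orderOf_eq_prime (by
    rw [hc.mul_pow, ← hy, pow_orderOf_eq_one, hy, ← hz, pow_orderOf_eq_one, one_mul]) fun h => by
      rw [eq_inv_of_mul_eq_one_left h, C_inv] at cop
      exact nz (by simpa using cop)
  rcases H _ o.symm.dvd with h | h
  · exact core hy hz ny nz hc cop H h
  · exact core hz hy nz ny hc.symm cop.symm (fun w hw => (H w hw).symm) (hc.eq ▸ h)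

end


/-- Let `G` be a finite group and `p` a prime not dividing the order of the centre of `G`. Consider the primes dividing the size of some conjugacy class of a `p`-singular element (an element of order divisible by `p`), two of them adjacent when their product divides such a class size. Then any two distinct such primes are joined by a path with at most 3 edges (the graph is connected of diameter at most 3). -/
theorem result {G : Type*} [Group G] [Finite G] (p : ℕ) [Fact p.Prime]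
    (hZ : ¬ p ∣ Nat.card ↥(Subgroup.center G)) (r s : ℕ) (hr : (r.Prime ∧ ∃ x : G, p ∣ orderOf x ∧ r ∣ (Subgroup.centralizer ({x} : Set G)).index)) (hs : (s.Prime ∧ ∃ x : G, p ∣ orderOf x ∧ s ∣ (Subgroup.centralizer ({x} : Set G)).index)) (hrs : r ≠ s) :
    (∃ x : G, p ∣ orderOf x ∧ r * s ∣ (Subgroup.centralizer ({x} : Set G)).index) ∨ (∃ t : ℕ, (t.Prime ∧ ∃ x : G, p ∣ orderOf x ∧ t ∣ (Subgroup.centralizer ({x} : Set G)).index) ∧ t ≠ r ∧ t ≠ s ∧ (∃ x : G, p ∣ orderOf x ∧ r * t ∣ (Subgroup.centralizer ({x} : Set G)).index) ∧ (∃ x : G, p ∣ orderOf x ∧ t * s ∣ (Subgroup.centralizer ({x} : Set G)).index)) ∨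
      (∃ t u : ℕ, (t.Prime ∧ ∃ x : G, p ∣ orderOf x ∧ t ∣ (Subgroup.centralizer ({x} : Set G)).index) ∧ (u.Prime ∧ ∃ x : G, p ∣ orderOf x ∧ u ∣ (Subgroup.centralizer ({x} : Set G)).index) ∧ t ≠ r ∧ u ≠ s ∧ t ≠ u ∧ (∃ x : G, p ∣ orderOf x ∧ r * t ∣ (Subgroup.centralizer ({x} : Set G)).index) ∧ (∃ x : G, p ∣ orderOf x ∧ t * u ∣ (Subgroup.centralizer ({x} : Set G)).index) ∧ (∃ x : G, p ∣ orderOf x ∧ u * s ∣ (Subgroup.centralizer ({x} : Set G)).index)) := by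
  by_contra! h
  obtain ⟨h1, h2, h3⟩ := h
  obtain ⟨x, hx, rx⟩ := hr.2
  obtain ⟨x', hx', sx⟩ := hs.2
  have ed : ∀ {a b : ℕ} {w : G}, a.Prime → b.Prime → a ≠ b → p ∣ orderOf w → a ∣ cs[w] → b ∣ cs[w] →
      ∃ w : G, p ∣ orderOf w ∧ a * b ∣ cs[w] := fun ha hb n hw h h' =>
    ⟨_, hw, ((Nat.coprime_primes ha hb).2 n).mul_dvd_of_dvd_of_dvd h h'⟩
  replace h1 : ¬ ∃ w : G, p ∣ orderOf w ∧ r * s ∣ cs[w] := fun ⟨w, a, b⟩ => h1 w a b
  replace h2 : ∀ t, t.Prime → t ≠ r → t ≠ s → (∃ w : G, p ∣ orderOf w ∧ r * t ∣ cs[w]) →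
      ¬ ∃ w : G, p ∣ orderOf w ∧ t * s ∣ cs[w] := fun t ht a b c ⟨w, d, e⟩ =>
    h2 t ⟨ht, w, d, (dvd_mul_right _ _).trans e⟩ a b c w d e
  refine core' hZ hx hx' fun z hz => by_contra fun n => ?_
  push Not at n
  obtain ⟨t, ht, tz, tx⟩ := Nat.Prime.not_coprime_iff_dvd.1 n.1
  obtain ⟨u, hu, uz, ux⟩ := Nat.Prime.not_coprime_iff_dvd.1 n.2
  have ts : t ≠ s := by rintro rfl; exact h1 (ed hr.1 ht hrs hx rx tx)
  have ur : u ≠ r := by rintro rfl; exact h1 (ed hu hs.1 hrs hx' ux sx)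
  by_cases a : t = r <;> by_cases b : u = s
  · subst a b; exact h1 (ed ht hu hrs hz tz uz)
  · subst a; exact h2 u hu ur b (ed ht hu ur.symm hz tz uz) (ed hu hs.1 b hx' ux sx)
  · subst b; exact h2 t ht a ts (ed hr.1 ht (Ne.symm a) hx rx tx) (ed ht hu ts hz tz uz)
  by_cases c : t = u
  · subst c; exact h2 t ht a ts (ed hr.1 ht (Ne.symm a) hx rx tx) (ed hu hs.1 b hx' ux sx)
  obtain ⟨w, d, e⟩ := ed hu hs.1 b hx' ux sx
  exact h3 t u ⟨ht, z, hz, tz⟩ ⟨hu, z, hz, uz⟩ a b c (ed hr.1 ht (Ne.symm a) hx rx tx)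
    (ed ht hu c hz tz uz) w d e

end Cfsg.Agent.S4321
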