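import Cfsg.Statements.S4323
import Cfsg.Agent.H94.AbCent

set_option autoImplicit false
open Cfsg

namespace Cfsg.Agent.S4323

open Subgroup

/-- Let `q` be a prime and `A` a non-cyclic group of order `q²` acting by automorphisms on a finite group `G` of order prime to `q`, such that the fixed-point subgroup `C_G(a)` is abelian for every non-identity `a ∈ A`. Then `G` is solvable. -/
theorem result {A G : Type*} [Group A] [Finite A]
    [Group G] [Finite G] [MulDistribMulAction A G] (q : ℕ) (hq : q.Prime) (hA : Nat.card A = q ^ 2) (hnc : ¬ IsCyclic A)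
    (hcop : ¬ q ∣ Nat.card G) (h : ∀ a : A, a ≠ 1 → IsMulCommutative ↥(FixedPoints.subgroup (Subgroup.zpowers a) G)) :
    Group.IsSolvable G := by
  have : Fact q.Prime := ⟨hq⟩
  set φ := MulDistribMulAction.toMulAut A G with hφ
  have := H4.Ext.finite_semidirect φ
  have hc : IsMulCommutative A := IsPGroup.isMulCommutative_of_card_eq_prime_sq hA
  have he : ∀ a : A, a ^ q = 1 := by
    intro a
    have h1 : orderOf a ∣ q ^ 2 := hA ▸ orderOf_dvd_natCard a
    obtain ⟨k, hk, h2⟩ := (Nat.dvd_prime_pow hq).1 h1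
    have h3 : k ≠ 2 := fun e => hnc (isCyclic_of_orderOf_eq_card a (by rw [h2, e, hA]))
    refine orderOf_dvd_iff_pow_eq_one.1 (h2 ▸ ?_)
    have h4 : k ≤ 1 := by omega
    simpa using pow_dvd_pow q h4
  have hAe : IsElementaryAbelian q (H4.Ext.R φ ⊤) := by
    refine ⟨H67.isMulCommutative_map inferInstance _, ?_⟩
    rintro _ ⟨a, -, rfl⟩
    rw [← map_pow, he, map_one]
  have key := H94.AbCent.main hq _ _ (H4.Ext.R φ ⊤) (H4.Ext.L φ ⊤) rfl hAe
    (by rw [H4.Ext.card_R, card_top, hA, pow_two]) (H88.norm_RL φ)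
    (H88.cop_RL φ (hA ▸ ((Nat.Prime.coprime_iff_not_dvd hq).2 hcop).pow_left 2)) ?_
  · exact solvable_of_surjective (f := (H88.eqL φ).symm.toMonoidHom) (H88.eqL φ).symm.surjective
  · rintro _ ⟨a, -, rfl⟩ ha
    have ha1 : a ≠ 1 := fun h => ha (by rw [h, map_one])
    refine H67.isMulCommutative_of_le
      (H67.isMulCommutative_map (h a ha1) (SemidirectProduct.inl (φ := φ))) ?_
    rintro _ ⟨⟨y, -, rfl⟩, hy⟩
    refine ⟨y, ?_, rfl⟩
    have h2 : φ a y = y := by
      apply SemidirectProduct.inl_injective (φ := φ)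
      rw [← H4.Ext.inr_conj_inl, mul_inv_eq_iff_eq_mul]
      exact (mem_centralizer_singleton_iff.1 hy).symm
    rintro ⟨_, k, rfl⟩
    exact MulAction.mem_fixedBy.1 (MulAction.mem_fixedBy_zpow (MulAction.mem_fixedBy.2 h2) k)

end Cfsg.Agent.S4323
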