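import Cfsg.Statements.S4330
import Cfsg.Agent.H4.RegOrb
import Cfsg.Agent.H3.Fitting

set_option autoImplicit false
open Pointwise
open Cfsg

namespace Cfsg.Agent.S4330

open Subgroup in
open scoped IsMulCommutative commutatorElement in
theorem aux {p : ℕ} [hp : Fact p.Prime] (hp2 : p ≠ 2) (n : ℕ) :
    ∀ (G : Type*) [Group G] [Finite G], Nat.card G = n → Group.IsSolvable G → ∀ a : G,
      (∀ c, ∃ g, IsConj c g ∧ ∃ R : Subgroup G, IsPGroup p R ∧ a ∈ R ∧ g * a * g⁻¹ ∈ R) →
      a ∈ pCore p G := by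
  induction n using Nat.strong_induction_on with
  | _ n ih =>
  intro G _ _ hn hG a h
  by_cases h0 : (⊤ : Subgroup G) = ⊥
  · rw [mem_bot.1 (h0.le (mem_top a))]; exact one_mem _
  obtain ⟨M, q, hq, hM, M1, -, M2, -⟩ := H3.exists_minimal_normal_elementary_le (⊤ : Subgroup G)
    inferInstance h0
  have : Fact q.Prime := ⟨hq⟩
  have hMq : IsPGroup q M := fun x => ⟨1, Subtype.ext (by simpa using M2.2 x x.2)⟩
  have h1 := ih _ (by
    rw [← hn, card_eq_card_quotient_mul_card_subgroup M]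
    exact lt_mul_of_one_lt_right Nat.card_pos ((one_lt_card_iff_ne_bot M).2 M1)) (G ⧸ M) rfl
    inferInstance (QuotientGroup.mk' M a) fun c => by
      obtain ⟨c, rfl⟩ := QuotientGroup.mk'_surjective M c
      obtain ⟨g, h1, R, h2, h3, h4⟩ := h c
      exact ⟨_, (QuotientGroup.mk' M).map_isConj h1, R.map _, h2.map _, mem_map_of_mem _ h3,
        by simpa using mem_map_of_mem (QuotientGroup.mk' M) h4⟩
  by_cases e : q = p
  · subst e
    exact H3.comap_pCore_le (QuotientGroup.mk' M) (by rwa [QuotientGroup.ker_mk']) h1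
  have := M2.1
  have cop : (Nat.card M).Coprime p := by
    obtain ⟨k, hk⟩ := hMq.exists_card_eq
    exact hk ▸ ((Nat.coprime_primes hq hp.out).2 e).pow_left k
  have h2 : MulAut.conjNormal (H := M) a = 1 := by
    by_contra k
    obtain ⟨v, hv⟩ := H4.RO.cl hp2 _ G M (MulAut.conjNormal (H := M))
      ((pCore p (G ⧸ M)).comap (QuotientGroup.mk' M)) (fun x hx => by
        obtain ⟨k, hk⟩ := H3.pCore_isPGroup p _ ⟨_, hx⟩
        have h3 : x ^ p ^ k ∈ M := (QuotientGroup.eq_one_iff _).1 (congrArg Subtype.val hk)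
        exact ⟨k, MulEquiv.ext fun v => Subtype.ext (by
          rw [MulAut.conjNormal_apply, setLike_mul_comm h3 v.2]; simp)⟩) cop rfl a h1 k
    obtain ⟨g, h3, R, h4, h5, h6⟩ := h v
    obtain ⟨s, rfl⟩ := isConj_iff.1 h3
    have h7 : ⁅s * v * s⁻¹, a⁆ ∈ M ⊓ R := ⟨by
      rw [show ⁅s * v * s⁻¹, a⁆ = s * v * s⁻¹ * (a * s * (v : G)⁻¹ * (a * s)⁻¹) by group]
      exact mul_mem (hM.conj_mem _ v.2 _) (hM.conj_mem _ (inv_mem v.2) _), R.mul_mem h6 (R.inv_mem h5)⟩
    rw [disjoint_iff.1 (IsPGroup.disjoint_of_ne q p e M R hMq h4), mem_bot,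
      commutatorElement_eq_one_iff_mul_comm] at h7
    refine hv s⁻¹ (Subtype.ext ?_)
    calc _ = s⁻¹ * (a * (s * v * s⁻¹)) * a⁻¹ * s := by simp [mul_assoc]
      _ = _ := by rw [← h7]; group
  let C := (pCore p (G ⧸ M)).comap (QuotientGroup.mk' M) ⊓ centralizer (M : Set G)
  have hC : Group.IsNilpotent C := by
    have := (H3.pCore_isPGroup p (G ⧸ M)).isNilpotent
    refine Subgroup.isNilpotent_of_ker_le_center (((QuotientGroup.mk' M).comp C.subtype).codRestrict
      (pCore p (G ⧸ M)) fun x => x.2.1) fun x hx => mem_center_iff.2 fun y => Subtype.ext ?_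
    exact (y.2.2 x ((QuotientGroup.eq_one_iff _).1 (congrArg Subtype.val hx))).symm
  obtain ⟨g, -, R, h4, h5, -⟩ := h 1
  refine H3.le_pCore_of_le_fitting (P := zpowers a) (h4.to_le (zpowers_le.2 h5))
    (zpowers_le.2 (H3.le_fitting hC (show a ∈ C from ⟨h1, fun x hx => ?_⟩))) (mem_zpowers a)
  have := congrArg Subtype.val (DFunLike.congr_fun h2 ⟨x, hx⟩)
  simp only [MulAut.conjNormal_apply, MulAut.one_apply] at this
  rw [← mul_inv_eq_iff_eq_mul.1 this]

/-- Let G be a finite solvable group, p an odd prime and A a p-subgroup of G such that every conjugacy class of G contains an element g for which A is subnormal in the subgroup generated by A and its conjugate by g. Then A is contained in O_p(G). (The hypothesis that p is odd is needed.) -/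
theorem result {G : Type*} [Group G] [Finite G]
    (hG : Group.IsSolvable G) (p : ℕ) [Fact p.Prime] (hp : p ≠ 2) (A : Subgroup G) (hA : IsPGroup p A)
    (h : ∀ c : G, ∃ g : G, IsConj c g ∧ (A.subgroupOf (A ⊔ MulAut.conj g • A)).IsSubnormal) :
    A ≤ Cfsg.pCore p G := by
  refine fun a ha => aux hp _ G rfl hG a fun c => (h c).imp fun g hg => ⟨hg.1, A ⊔ MulAut.conj g • A,
    ?_, Subgroup.mem_sup_left ha, Subgroup.mem_sup_right (Subgroup.smul_mem_pointwise_smul a _ A ha)⟩
  have h1 := H3.le_pCore_of_isSubnormal hg.2 hA.comap_subtype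
  have h2 := Subgroup.map_mono (f := (A ⊔ MulAut.conj g • A).subtype) h1
  rw [Subgroup.subgroupOf_map_subtype, inf_eq_left.2 le_sup_left] at h2
  refine (IsPGroup.to_sup_of_normal_right' (hA.map (MulAut.conj g).toMonoidHom)
    (H3.map_pCore_isPGroup (A ⊔ MulAut.conj g • A)) ?_).to_le
      (sup_le (h2.trans le_sup_right) le_sup_left)
  exact le_sup_right.trans (Subgroup.le_normalizer.trans (H3.normalizer_le_normalizer_map_pCore _))

end Cfsg.Agent.S4330
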