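import Cfsg.Statements.S4331
import Cfsg.Agent.H1.Subnormal
import Cfsg.Agent.H3.Cores
import Cfsg.Agent.S0144

set_option autoImplicit false
open Cfsg

namespace Cfsg.Agent.S4331

/-- The semilinear affine group of the field with nine elements: the element with coordinates
`a, b, e, x, y` is the map `z ↦ (a + b i) z' + (x + y i)`, where `z'` is `z` or its conjugate. -/
@[ext] structure Aff where
  a : ZMod 3
  b : ZMod 3
  e : ZMod 3
  x : ZMod 3
  y : ZMod 3
  h1 : (a * a + b * b) * (a * a + b * b) = 1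
  h2 : e * e = 1

instance instMulAff : Mul Aff where
  mul g h := ⟨g.a * h.a - g.e * g.b * h.b, g.b * h.a + g.e * g.a * h.b, g.e * h.e,
    g.a * h.x - g.e * g.b * h.y + g.x, g.b * h.x + g.e * g.a * h.y + g.y,
    by
      have e : (g.a * h.a - g.e * g.b * h.b) * (g.a * h.a - g.e * g.b * h.b) +
          (g.b * h.a + g.e * g.a * h.b) * (g.b * h.a + g.e * g.a * h.b) =
          (g.a * g.a + g.b * g.b) * (h.a * h.a + h.b * h.b) := by
        linear_combination (g.a * g.a + g.b * g.b) * (h.b * h.b) * g.h2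
      rw [e]
      linear_combination (h.a * h.a + h.b * h.b) * (h.a * h.a + h.b * h.b) * g.h1 + h.h1,
    by linear_combination (h.e * h.e) * g.h2 + h.h2⟩

instance instOneAff : One Aff := ⟨⟨1, 0, 1, 0, 0, by decide, by decide⟩⟩

instance instInvAff : Inv Aff where
  inv g := ⟨(g.a * g.a + g.b * g.b) * g.a, -((g.a * g.a + g.b * g.b) * g.e * g.b), g.e,
    -((g.a * g.a + g.b * g.b) * (g.a * g.x + g.b * g.y)),
    (g.a * g.a + g.b * g.b) * g.e * (g.b * g.x - g.a * g.y),
    by
      have e : (g.a * g.a + g.b * g.b) * g.a * ((g.a * g.a + g.b * g.b) * g.a) +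
          -((g.a * g.a + g.b * g.b) * g.e * g.b) * -((g.a * g.a + g.b * g.b) * g.e * g.b) =
          (g.a * g.a + g.b * g.b) := by
        linear_combination (g.a * g.a + g.b * g.b) * g.h1 +
          (g.a * g.a + g.b * g.b) * (g.a * g.a + g.b * g.b) * g.b * g.b * g.h2
      rw [e]
      exact g.h1,
    g.h2⟩

theorem mul_a (g h : Aff) : (g * h).a = g.a * h.a - g.e * g.b * h.b := rfl
theorem mul_b (g h : Aff) : (g * h).b = g.b * h.a + g.e * g.a * h.b := rfl
theorem mul_e (g h : Aff) : (g * h).e = g.e * h.e := rfl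
theorem mul_x (g h : Aff) : (g * h).x = g.a * h.x - g.e * g.b * h.y + g.x := rfl
theorem mul_y (g h : Aff) : (g * h).y = g.b * h.x + g.e * g.a * h.y + g.y := rfl

instance instDecEqAff : DecidableEq Aff := fun g h =>
  decidable_of_iff (g.a = h.a ∧ g.b = h.b ∧ g.e = h.e ∧ g.x = h.x ∧ g.y = h.y) Aff.ext_iff.symm

/-- Coordinates. -/
def equivSub : Aff ≃ {v : ZMod 3 × ZMod 3 × ZMod 3 × ZMod 3 × ZMod 3 //
    (v.1 * v.1 + v.2.1 * v.2.1) * (v.1 * v.1 + v.2.1 * v.2.1) = 1 ∧ v.2.2.1 * v.2.2.1 = 1} where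
  toFun g := ⟨(g.a, g.b, g.e, g.x, g.y), g.h1, g.h2⟩
  invFun v := ⟨v.1.1, v.1.2.1, v.1.2.2.1, v.1.2.2.2.1, v.1.2.2.2.2, v.2.1, v.2.2⟩
  left_inv _ := rfl
  right_inv _ := rfl

instance instFintypeAff : Fintype Aff := Fintype.ofEquiv _ equivSub.symm

instance instGroupAff : Group Aff :=
  Group.ofLeftAxioms
    (fun g h k => by
      have h2 := g.h2
      ext <;> simp only [mul_a, mul_b, mul_e, mul_x, mul_y]
      · linear_combination (-(h.e * k.b * g.a * h.b) + h.e * k.b * g.a * h.b) * h2 +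
          (g.b * h.e * h.a * k.b - g.b * h.e * h.a * k.b) * h2 - (g.a * h.e * h.b * k.b) * h2
      · linear_combination (-(g.b * h.e * h.b * k.b)) * h2
      · ring
      · linear_combination (-(g.a * h.e * h.b * k.y)) * h2
      · linear_combination (-(g.b * h.e * h.b * k.y)) * h2)
    (by decide +kernel) (by decide +kernel)

/-- The conjugation map. -/
def s : Aff := ⟨1, 0, -1, 0, 0, by decide, by decide⟩

/-- The stabilizer of zero. -/
def S : Subgroup Aff where
  carrier := {g | g.x = 0 ∧ g.y = 0}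
  one_mem' := ⟨rfl, rfl⟩
  mul_mem' := fun {g h} hg hh => ⟨by rw [mul_x, hg.1, hh.1, hh.2]; ring,
    by rw [mul_y, hg.2, hh.1, hh.2]; ring⟩
  inv_mem' := fun {g} hg => ⟨by
      show -((g.a * g.a + g.b * g.b) * (g.a * g.x + g.b * g.y)) = 0
      rw [hg.1, hg.2]; ring, by
      show (g.a * g.a + g.b * g.b) * g.e * (g.b * g.x - g.a * g.y) = 0
      rw [hg.1, hg.2]; ring⟩

theorem card_aff : Fintype.card Aff = 144 := by decide +kernel

theorem pow_eight : ∀ g : Aff, g.x = 0 → g.y = 0 → g * g * (g * g) * (g * g * (g * g)) = 1 := by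
  decide +kernel

theorem conj_good : ∀ c : Aff, ∃ h : Aff, (h * c * h⁻¹) * s = s * (h * c * h⁻¹) ∨
    ((h * c * h⁻¹).x = 0 ∧ (h * c * h⁻¹).y = 0) := by
  decide +kernel

theorem exists_three : ∃ g : Aff, s * (g * s * g⁻¹) ≠ 1 ∧
    s * (g * s * g⁻¹) * (s * (g * s * g⁻¹)) * (s * (g * s * g⁻¹)) = 1 := by
  decide +kernel

/-- There is a finite solvable group G with a subgroup A of order 2 such that every conjugacy class of G contains an element g for which A is subnormal in the subgroup generated by A and g, and yet A is not contained in O_2(G). (So the corresponding criteria for odd primes fail at the prime 2, even for solvable groups.) -/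
theorem result :
    ∃ (G : Type) (_ : Group G) (_ : Finite G) (A : Subgroup G), Group.IsSolvable G ∧ Nat.card A = 2 ∧
      (∀ c : G, ∃ g : G, IsConj c g ∧ (A.subgroupOf (A ⊔ Subgroup.zpowers g)).IsSubnormal) ∧
      ¬ A ≤ Cfsg.pCore 2 G := by
  have : Fact (Nat.Prime 2) := ⟨Nat.prime_two⟩
  refine ⟨Aff, inferInstance, inferInstance, Subgroup.zpowers s,
    S0144.result 2 3 4 2 Nat.prime_two Nat.prime_three
      (by rw [Nat.card_eq_fintype_card, card_aff]; norm_num), ?_, fun c => ?_, fun h => ?_⟩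
  · rw [Nat.card_zpowers]
    exact orderOf_eq_prime (by rw [pow_two]; decide +kernel) (by decide +kernel)
  · obtain ⟨h, hh⟩ := conj_good c
    refine ⟨h * c * h⁻¹, isConj_iff.2 ⟨h, rfl⟩, ?_⟩
    rcases hh with hh | hh
    · refine Subgroup.Normal.isSubnormal ?_
      refine Subgroup.normal_subgroupOf_of_le_normalizer (sup_le Subgroup.le_normalizer ?_)
      refine le_trans ?_ (Subgroup.centralizer_le_normalizer _)
      rintro _ ⟨i, rfl⟩ _ ⟨j, rfl⟩
      exact ((Commute.symm hh).zpow_left j).zpow_right i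
    · have hS : IsPGroup 2 S := fun g => ⟨3, Subtype.ext (by
        have := pow_eight g g.2.1 g.2.2
        rw [Subgroup.coe_pow, OneMemClass.coe_one, ← this]
        norm_num
        simp only [pow_succ, pow_zero, one_mul, mul_assoc])⟩
      have hle : Subgroup.zpowers s ⊔ Subgroup.zpowers (h * c * h⁻¹) ≤ S := by
        rw [sup_le_iff, Subgroup.zpowers_le, Subgroup.zpowers_le]
        exact ⟨⟨rfl, rfl⟩, hh⟩
      exact (H1.SnIn.of_isPGroup (hS.to_le hle) le_sup_left).subgroupOf
  · obtain ⟨g, hg1, hg3⟩ := exists_three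
    have hs : s ∈ pCore 2 Aff := h (Subgroup.mem_zpowers s)
    have hm : s * (g * s * g⁻¹) ∈ pCore 2 Aff :=
      mul_mem hs ((inferInstance : (pCore 2 Aff).Normal).conj_mem s hs g)
    obtain ⟨k, hk⟩ := H3.pCore_isPGroup 2 Aff ⟨_, hm⟩
    have h2 : (s * (g * s * g⁻¹)) ^ 2 ^ k = 1 := congrArg Subtype.val hk
    have h3 : (s * (g * s * g⁻¹)) ^ 3 = 1 := by rw [pow_three', hg3]
    have h4 := Nat.dvd_gcd (orderOf_dvd_of_pow_eq_one h2) (orderOf_dvd_of_pow_eq_one h3)
    rw [Nat.Coprime.gcd_eq_one (Nat.Coprime.pow_left k (by norm_num)), Nat.dvd_one,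
      orderOf_eq_one_iff] at h4
    exact hg1 h4

end Cfsg.Agent.S4331
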