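import Cfsg.Statements.S4332
import Cfsg.Agent.H1.Subnormal
import Cfsg.Agent.H3.Cores

set_option autoImplicit false
open Pointwise
open Cfsg

namespace Cfsg.Agent.S4332

open Equiv Equiv.Perm

theorem comm_of_disjoint {α : Type*} [DecidableEq α] {x y z u v w : α}
    (h1 : u ≠ x) (h2 : u ≠ y) (h3 : u ≠ z) (h4 : v ≠ x) (h5 : v ≠ y) (h6 : v ≠ z)
    (h7 : w ≠ x) (h8 : w ≠ y) (h9 : w ≠ z) :
    Commute (swap x y * swap x z) (swap u v * swap u w) := by
  refine Equiv.Perm.Disjoint.commute fun a => ?_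
  by_cases h : a = x ∨ a = y ∨ a = z
  · right
    rcases h with rfl | rfl | rfl <;>
      simp [swap_apply_of_ne_of_ne, h1.symm, h2.symm, h3.symm, h4.symm, h5.symm, h6.symm, h7.symm,
        h8.symm, h9.symm]
  · left
    push Not at h
    simp [swap_apply_of_ne_of_ne, h.1, h.2.1, h.2.2]

theorem exists_threeCycle (c : Perm (Fin 8)) :
    ∃ τ : Perm (Fin 8), τ.IsThreeCycle ∧ Commute τ (c * τ * c⁻¹) := by
  have conj : ∀ x y z : Fin 8, c * (swap x y * swap x z) * c⁻¹ =
      swap (c x) (c y) * swap (c x) (c z) := by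
    intro x y z
    rw [swap_apply_apply, swap_apply_apply]; group
  by_cases hs : c.support.card ≤ 5
  · have h3 : 2 < c.supportᶜ.card := by rw [Finset.card_compl, Fintype.card_fin]; omega
    obtain ⟨x, y, z, hx, hy, hz, hxy, hxz, hyz⟩ := Finset.two_lt_card_iff.1 h3
    rw [Finset.mem_compl, notMem_support] at hx hy hz
    exact ⟨_, isThreeCycle_swap_mul_swap_same hxy hxz hyz, by rw [conj, hx, hy, hz]⟩
  push Not at hs
  obtain ⟨x, hx⟩ : c.support.Nonempty := Finset.card_pos.1 (by omega)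
  rw [mem_support] at hx
  by_cases h3 : c (c (c x)) = x
  · have h1 : c (c x) ≠ c x := c.injective.ne hx
    have h2 : c (c x) ≠ x := fun h => hx (by rw [h] at h3; exact h3)
    refine ⟨_, isThreeCycle_swap_mul_swap_same hx.symm h2.symm h1.symm, ?_⟩
    rw [conj, h3]
    generalize c (c x) = w at h1 h2
    generalize c x = v at hx h1
    have : swap v w * swap v x = swap x v * swap x w := by
      ext a
      simp only [Perm.mul_apply, swap_apply_def]
      split_ifs <;> simp_all
    rw [this]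
  have key : ∀ y : Fin 8, c y ≠ y → y ≠ x → c y ≠ x → c x ≠ y →
      ({c⁻¹ x, x, c x, c⁻¹ y, y, c y} : Finset (Fin 8)).card ≤ 5 →
      ∃ τ : Perm (Fin 8), τ.IsThreeCycle ∧ Commute τ (c * τ * c⁻¹) := by
    intro y hy hyx h1 h2 hc
    obtain ⟨z, hz, hz'⟩ := Finset.exists_mem_notMem_of_card_lt_card (lt_of_le_of_lt hc hs)
    rw [mem_support] at hz
    simp only [Finset.mem_insert, Finset.mem_singleton, not_or] at hz'
    obtain ⟨a1, a2, a3, a4, a5, a6⟩ := hz'
    refine ⟨_, isThreeCycle_swap_mul_swap_same hyx.symm (Ne.symm a2) (Ne.symm a5), ?_⟩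
    rw [conj]
    exact comm_of_disjoint hx h2 (Ne.symm a3) h1 hy (Ne.symm a6)
      (fun h => a1 (by rw [← h]; simp)) (fun h => a4 (by rw [← h]; simp)) hz
  by_cases h2 : c (c x) = x
  · obtain ⟨y, hy, hy'⟩ := Finset.exists_mem_notMem_of_card_lt_card
      (s := {x, c x}) (t := c.support) (lt_of_le_of_lt Finset.card_le_two (by omega))
    rw [mem_support] at hy
    simp only [Finset.mem_insert, Finset.mem_singleton, not_or] at hy'
    refine key y hy hy'.1 (fun h => hy'.2 (c.injective (h.trans h2.symm))) (Ne.symm hy'.2) ?_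
    have : c⁻¹ x = c x := by rw [Perm.inv_eq_iff_eq, h2]
    rw [this, Finset.insert_comm, Finset.insert_idem]
    exact Finset.card_le_five
  · refine key (c (c x)) (c.injective.ne (c.injective.ne hx)) h2 h3 (c.injective.ne hx).symm ?_
    have : c⁻¹ (c (c x)) = c x := by simp
    rw [this, Finset.insert_idem]
    exact Finset.card_le_five

/-- In the symmetric group of degree 8, let A be the subgroup generated by a 3-cycle. Then every conjugacy class contains an element g for which A is subnormal in the subgroup generated by A and its conjugate by g, although O_3 of the symmetric group of degree 8 is trivial. -/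
theorem result
    (σ : Equiv.Perm (Fin 8)) (hσ : σ.IsThreeCycle) :
    (∀ c : Equiv.Perm (Fin 8), ∃ g : Equiv.Perm (Fin 8), IsConj c g ∧
      ((Subgroup.zpowers σ).subgroupOf (Subgroup.zpowers σ ⊔ MulAut.conj g • Subgroup.zpowers σ)).IsSubnormal) ∧
    Cfsg.pCore 3 (Equiv.Perm (Fin 8)) = ⊥ := by
  constructor
  · intro c
    obtain ⟨τ, hτ, hc⟩ := exists_threeCycle c
    obtain ⟨h, rfl⟩ := isConj_iff.1 (Equiv.Perm.isConj_iff_cycleType_eq.2
      (hτ.cycleType.trans hσ.cycleType.symm))
    refine ⟨h * c * h⁻¹, isConj_iff.2 ⟨h, rfl⟩, Subgroup.Normal.isSubnormal ?_⟩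
    refine Subgroup.normal_subgroupOf_of_le_normalizer (sup_le Subgroup.le_normalizer ?_)
    refine le_trans ?_ (Subgroup.centralizer_le_normalizer _)
    rintro _ ⟨_, ⟨i, rfl⟩, rfl⟩ _ ⟨j, rfl⟩
    have h1 : Commute (h * τ * h⁻¹) (h * c * h⁻¹ * (h * τ * h⁻¹) * (h * c * h⁻¹)⁻¹) := by
      have := hc.map (MulAut.conj h)
      simp only [MulAut.conj_apply] at this
      rwa [show h * c * h⁻¹ * (h * τ * h⁻¹) * (h * c * h⁻¹)⁻¹ = h * (c * τ * c⁻¹) * h⁻¹ by group]
    have h2 := (h1.zpow_left j).zpow_right i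
    rw [conj_zpow (a := h * c * h⁻¹)] at h2
    exact h2
  · by_contra hne
    have hA := Equiv.Perm.alternatingGroup_le_of_normal (α := Fin 8) (by simp)
      ((Subgroup.nontrivial_iff_ne_bot _).2 hne)
    have : Fact (Nat.Prime 3) := ⟨Nat.prime_three⟩
    obtain ⟨k, hk⟩ := (H3.pCore_isPGroup 3 (Equiv.Perm (Fin 8))).exists_card_eq
    have h1 := Subgroup.card_dvd_of_le hA
    rw [hk, nat_card_alternatingGroup] at h1
    have h2 : 2 ∣ 3 ^ k := Dvd.dvd.trans (by simp [Nat.factorial]) h1
    exact absurd (Nat.prime_two.dvd_of_dvd_pow h2) (by decide)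

end Cfsg.Agent.S4332
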