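import Cfsg.Statements.S4333
import Cfsg.Agent.H1.Zipper

set_option autoImplicit false
open Pointwise
open Cfsg

namespace Cfsg.Agent.S4333

/-- Let A be a subgroup of a finite group G. If A is subnormal in the subgroup generated by A and its conjugate by g⁻¹ a g, for every a ∈ A and every g ∈ G, then A is subnormal in G. (A sharpening of Wielandt's subnormality criterion: only conjugates of A by conjugates of elements of A are needed.) -/
theorem result {G : Type*} [Group G] [Finite G]
    (A : Subgroup G)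
    (h : ∀ a ∈ A, ∀ g : G, (A.subgroupOf (A ⊔ MulAut.conj (g⁻¹ * a * g) • A)).IsSubnormal) :
    A.IsSubnormal := by
  have key : ∀ T : Subgroup G, A ≤ T → H1.SnIn A T := by
    intro T
    induction T using WellFoundedLT.induction with
    | ind T ih =>
    intro hT
    by_contra hn
    obtain ⟨M, hAM, hMT, hM⟩ := H1.zipper hT (fun H h1 h2 => ih H h2 h1) hn
    by_cases hN : T ≤ Subgroup.normalizer (M : Set G)
    · exact hn ((ih M hMT hAM).trans (H1.SnIn.of_normal hMT.le hN))
    have hN' : T ⊓ Subgroup.normalizer (M : Set G) ≤ M :=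
      hM _ (le_inf hT (hAM.trans Subgroup.le_normalizer))
        (lt_of_le_of_ne inf_le_left fun h => hN (inf_eq_left.1 h))
    have h1 : ∀ a ∈ A, ∀ g ∈ T, g⁻¹ * a * g ∈ M := by
      intro a ha g hg
      have hx : g⁻¹ * a * g ∈ T := T.mul_mem (T.mul_mem (T.inv_mem hg) (hT ha)) hg
      set x := g⁻¹ * a * g with hxdef
      have hJ : A ⊔ MulAut.conj x • A ≤ T := sup_le hT (H1.conj_smul_le_of_mem hT hx)
      rcases hJ.eq_or_lt with hJ' | hJ'
      · exact absurd (hJ' ▸ H1.SnIn.of_subgroupOf le_sup_left (h a ha g)) hn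
      have h2 : MulAut.conj x • A ≤ M := le_sup_right.trans (hM _ le_sup_left hJ')
      have h3 : A ≤ MulAut.conj x⁻¹ • M := by
        intro y hy
        rw [H1.mem_conj_smul_iff, inv_inv]
        exact h2 (H1.conj_mem_conj_smul _ hy)
      have h4 : MulAut.conj x⁻¹ • M < T := by
        have := (H1.mem_normalizer_iff_conj_smul.1 (Subgroup.le_normalizer (T.inv_mem hx)))
        rw [← this]
        refine lt_of_le_of_ne (Subgroup.pointwise_smul_le_pointwise_smul_iff.2 hMT.le) fun h => ?_
        exact hMT.ne (smul_left_cancel _ h)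
      have h5 := hM _ h3 h4
      have h6 : x⁻¹ ∈ Subgroup.normalizer (M : Set G) :=
        Subgroup.mem_normalizer_fintype fun m hm => h5 (H1.conj_mem_conj_smul _ hm)
      exact hN' ⟨hx, by simpa using Subgroup.inv_mem _ h6⟩
    set W : Subgroup G := sSup {U | ∃ g ∈ T, U = MulAut.conj g • A} with hW
    have hWM : W ≤ M := by
      apply sSup_le
      rintro U ⟨g, hg, rfl⟩ y hy
      rw [H1.mem_conj_smul_iff] at hy
      have := h1 _ hy g⁻¹ (T.inv_mem hg)
      simpa [mul_assoc] using this
    have hAW : A ≤ W := le_sSup ⟨1, T.one_mem, by simp⟩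
    have hWn : T ≤ Subgroup.normalizer (W : Set G) := by
      apply H1.le_normalizer_sSup_of_conj
      rintro x hx U ⟨m, hm, rfl⟩
      rw [H1.conj_smul_conj_smul]
      exact le_sSup ⟨x * m, T.mul_mem hx hm, rfl⟩
    exact hn ((ih W (hWM.trans_lt hMT) hAW).trans (H1.SnIn.of_normal (hWM.trans hMT.le) hWn))
  exact (key ⊤ le_top).isSubnormal

end Cfsg.Agent.S4333
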