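import Cfsg.Statements.S4334
import Cfsg.Agent.H94.Ferguson
import Cfsg.Agent.H2.NilpotentHall
import Cfsg.Agent.H92.KPi
import Cfsg.Agent.H90.Basic

set_option autoImplicit false
open Cfsg

namespace Cfsg.Agent.S4334

open scoped Pointwise
open Subgroup
open Cfsg.Agent.H2 (IsPiNum)

theorem core {G : Type*} [Group G] [Finite G] {σ : Set ℕ} {Hs Ht K T : Subgroup G}
    (hH : IsPiHall σ Hs) (hsn : Group.IsNilpotent Hs) (hc : Hs ≤ centralizer (Ht : Set G))
    (hT : T ≤ Ht) (hTK : T ≤ K) (hKT : K ≤ normalizer (T : Set G))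
    (h1 : IsPiNum σᶜ (Nat.card T)) (h2 : IsPiNum σ (T.relIndex K)) :
    ∃ g : G, K ≤ MulAut.conj g • (Hs ⊔ Ht) := by
  have hn : (T.subgroupOf K).Normal := normal_subgroupOf_of_le_normalizer hKT
  obtain ⟨W, hW⟩ := Subgroup.exists_right_complement'_of_coprime (N := T.subgroupOf K)
    (by rw [H2.card_subgroupOf_of_le hTK]; exact (h2.coprime h1).symm)
  have hWσ : IsPiNum σ (Nat.card (W.map K.subtype)) := by
    rw [card_map_of_injective K.subtype_injective, ← hW.symm.index_eq_card]; exact h2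
  set N := normalizer (T : Set G) with hN
  have hsN : Hs ≤ N := hc.trans ((centralizer_le (by exact_mod_cast hT)).trans
    (centralizer_le_normalizer _))
  have hnil : Group.IsNilpotent (Hs.subgroupOf N) :=
    Group.nilpotent_of_mulEquiv (subgroupOfEquivOfLe hsN).symm
  obtain ⟨n, hn⟩ := H2.le_conj_of_isNilpotent_isPiHall (K := (W.map K.subtype).subgroupOf N) hnil
    (H2.isPiHall_subgroupOf_of_le hH hsN) (hWσ.of_dvd (H2.card_subgroupOf_dvd _ _))
  refine ⟨n, fun k hk => ?_⟩
  obtain ⟨⟨⟨t, ht⟩, ⟨w, hw⟩⟩, htw⟩ := (hW.existsUnique ⟨k, hk⟩).exists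
  have htw' : (t : G) * w = k := congrArg Subtype.val htw
  rw [← htw']
  refine mul_mem ?_ ?_
  · rw [H8.mem_conj_smul]
    exact mem_sup_right (hT (H4.inv_conj_mem_of_mem_normalizer n.2 ht))
  · have := hn (x := ⟨w, hKT w.2⟩) (mem_subgroupOf.2 (mem_map_of_mem K.subtype hw))
    rw [H8.mem_conj_smul, mem_subgroupOf] at this
    rw [H8.mem_conj_smul]
    exact mem_sup_left this

theorem isPiHall_left {G : Type*} [Group G] [Finite G] {σ τ π : Set ℕ} (hσ : σ ⊆ π)
    (hd : Disjoint σ τ) {Hs Ht : Subgroup G} (hH : IsPiHall π (Hs ⊔ Ht))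
    (hs : IsPiNum σ (Nat.card Hs)) (ht : IsPiNum τ (Nat.card Ht))
    (hc : Hs ≤ centralizer (Ht : Set G)) : IsPiHall σ Hs := by
  rw [H2.isPiHall_iff] at hH ⊢
  refine ⟨hs, ?_⟩
  rw [← relIndex_mul_index (le_sup_left : Hs ≤ Hs ⊔ Ht)]
  refine IsPiNum.mul ?_ (hH.2.mono (Set.compl_subset_compl.2 hσ))
  have h1 := H1.card_sup_dvd_of_le_normalizer (hc.trans (centralizer_le_normalizer _))
  rw [← H1.card_mul_relIndex (le_sup_left : Hs ≤ Hs ⊔ Ht)] at h1
  exact (ht.mono (Set.subset_compl_iff_disjoint_left.2 hd)).of_dvd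
    (Nat.dvd_of_mul_dvd_mul_left Nat.card_pos h1)

/-- Let σ and τ be disjoint sets of primes with union π. Suppose a finite group G has a Hall π-subgroup H which is the direct product of a nilpotent σ-subgroup and a τ-subgroup (two elementwise-commuting subgroups generating H), and that the maximal τ-subgroups of G are pairwise conjugate. Then the maximal π-subgroups of G are pairwise conjugate. -/
theorem result {G : Type*} [Group G] [Finite G]
    (σ τ π : Set ℕ) (hπ : π = σ ∪ τ) (hd : Disjoint σ τ) (H Hs Ht : Subgroup G) (hH : Cfsg.IsPiHall π H)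
    (hs : Cfsg.IsPiSubgroup σ Hs) (ht : Cfsg.IsPiSubgroup τ Ht) (hsn : Group.IsNilpotent Hs)
    (hjoin : Hs ⊔ Ht = H) (hcomm : ∀ a ∈ Hs, ∀ b ∈ Ht, a * b = b * a) (hD : Cfsg.IsDPiGroup τ G) :
    Cfsg.IsDPiGroup π G := by
  subst hjoin
  have hc : Hs ≤ centralizer (Ht : Set G) := fun a ha b hb => (hcomm a ha b hb).symm
  have hHs : IsPiHall σ Hs := isPiHall_left (hπ ▸ Set.subset_union_left) hd hH hs ht hc
  have hHt : IsPiHall τ Ht := isPiHall_left (hπ ▸ Set.subset_union_right) hd.symm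
    (by rwa [sup_comm]) ht hs (le_centralizer_iff.1 hc)
  have hcent : ∀ p : ℕ, p.Prime → p ∈ σ → ∀ U : Subgroup G, IsPGroup p U → ∀ q : ℕ, q.Prime →
      q ∈ π → q ≠ p → ¬ q ∣ (centralizer (U : Set G)).index := by
    intro p hp hpσ U hU q hq hqπ hqp
    have : Fact p.Prime := ⟨hp⟩
    have : Fact q.Prime := ⟨hq⟩
    obtain ⟨g, hg⟩ := H2.le_conj_of_isNilpotent_isPiHall hsn hHs
      (H2.isPiNum_card_of_isPGroup hp hpσ hU)
    have hU' : MulAut.conj g⁻¹ • U ≤ Hs := by
      rw [← H8.conj_inv_smul_conj_smul Hs g]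
      exact pointwise_smul_le_pointwise_smul_iff.2 hg
    have hUp := H8.isPGroup_conj_smul hU g⁻¹
    rw [← H8.index_conj_smul _ g⁻¹, ← H8.centralizer_conj_smul]
    intro hdv
    rw [hπ] at hqπ
    rcases hqπ with hqσ | hqτ
    · obtain ⟨Q, hQ⟩ := H8.exists_isSylowIn q Hs
      have hle : Q ≤ centralizer ((MulAut.conj g⁻¹ • U : Subgroup G) : Set G) := by
        intro y hy u hu
        obtain ⟨a, ha⟩ := H94.exists_orderOf_eq_of_mem_pGroup hUp hu
        obtain ⟨b, hb⟩ := H94.exists_orderOf_eq_of_mem_pGroup hQ.isPGroup hy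
        have := H90.commute_of_coprime_of_isNilpotent (G := Hs) (x := ⟨u, hU' hu⟩)
          (y := ⟨y, hQ.le hy⟩) (by
            rw [← Subgroup.orderOf_coe, ← Subgroup.orderOf_coe]
            exact H92.coprime_of_pow_of_pow hp hq hqp.symm ⟨a, ha⟩ ⟨b, hb⟩)
        exact congrArg Subtype.val this
      have h1 := hdv.trans (index_dvd_of_le hle)
      rw [← relIndex_mul_index hQ.le] at h1
      rcases (hq.dvd_mul).1 h1 with h | h
      · exact hQ.not_dvd h
      · exact (H2.isPiHall_iff.1 hHs).2 q hq h hqσ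
    · have hle : Ht ≤ centralizer ((MulAut.conj g⁻¹ • U : Subgroup G) : Set G) :=
        (le_centralizer_iff.1 hc).trans (centralizer_le (by exact_mod_cast hU'))
      exact (H2.isPiHall_iff.1 hHt).2 q hq (hdv.trans (index_dvd_of_le hle)) hqτ
  have hdom : ∀ K : Subgroup G, IsPiNum π (Nat.card K) →
      ∃ g : G, K ≤ MulAut.conj g • (Hs ⊔ Ht) := by
    intro K hK
    obtain ⟨N, hN, hN1, hN2, -⟩ := H92.exists_normal_pi_complement (G := K) σ fun p hpσ hp => by
      have : Fact p.Prime := ⟨hp⟩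
      refine H8.hasNormalPComplement_of_forall_centralizes fun Q hQ g hg hgc => ?_
      have h1 : (g : G) ∈ normalizer ((Q.map K.subtype : Subgroup G) : Set G) :=
        le_normalizer_map K.subtype (mem_map_of_mem _ hg)
      have h2 : (⟨g, h1⟩ : normalizer ((Q.map K.subtype : Subgroup G) : Set G)) ∈
          (centralizer ((Q.map K.subtype : Subgroup G) : Set G)).subgroupOf _ := by
        refine H8.mem_of_coprime_orderOf_index (Nat.coprime_of_dvd fun q hq hd1 hd2 => ?_)
        rw [← Subgroup.orderOf_coe, Subgroup.orderOf_coe g] at hd1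
        refine hcent p hp hpσ _ (hQ.map K.subtype) q hq
          (hK q hq (hd1.trans (orderOf_dvd_natCard g))) ?_
          (hd2.trans (relIndex_dvd_index_of_le (centralizer_le_normalizer _)))
        rintro rfl
        exact (Nat.Prime.coprime_iff_not_dvd hq).1 hgc.symm hd1
      rw [mem_subgroupOf] at h2
      intro u hu
      exact Subtype.ext (h2 u (mem_map_of_mem K.subtype hu))
    have hT1 : IsPiNum σᶜ (Nat.card (N.map K.subtype)) := by
      rwa [card_map_of_injective K.subtype_injective]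
    have hTτ : IsPiNum τ (Nat.card (N.map K.subtype)) := fun q hq hqd => by
      have := hK q hq (hqd.trans (card_dvd_of_le (map_subtype_le N)))
      rw [hπ] at this
      exact this.resolve_left (hT1 q hq hqd)
    obtain ⟨H', hH'⟩ := H94.exists_dPi_of_isDPiGroup hD
    obtain ⟨b, hb⟩ := hH'.2 Ht ht
    have hb' : Ht = MulAut.conj b • H' :=
      H2.eq_of_isPiHall_of_le hHt (by rw [H8.card_conj_smul]; exact hH'.1) hb
    obtain ⟨c, hc'⟩ := hH'.2 _ hTτ
    obtain ⟨g, hg⟩ := core (K := MulAut.conj (b * c⁻¹) • K)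
      (T := MulAut.conj (b * c⁻¹) • N.map K.subtype) hHs hsn hc
      (by
        rw [hb', ← inv_mul_cancel_right b c, ← H8.conj_smul_conj_smul H' _ c,
          inv_mul_cancel_right]
        exact pointwise_smul_le_pointwise_smul_iff.2 hc')
      (pointwise_smul_le_pointwise_smul_iff.2 (map_subtype_le N))
      (by
        rw [H8.normalizer_conj_smul]
        refine pointwise_smul_le_pointwise_smul_iff.2 ?_
        refine le_trans ?_ (le_normalizer_map K.subtype)
        rw [normalizer_eq_top, ← MonoidHom.range_eq_map, range_subtype])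
      (by rwa [H8.card_conj_smul])
      (by
        rw [relIndex_pointwise_smul, relIndex, subgroupOf,
          comap_map_eq_self_of_injective K.subtype_injective]
        exact hN2)
    refine ⟨(b * c⁻¹)⁻¹ * g, ?_⟩
    rw [← H8.conj_smul_conj_smul, ← H8.conj_inv_smul_conj_smul K (b * c⁻¹)]
    exact pointwise_smul_le_pointwise_smul_iff.2 hg
  have hmax : ∀ M : Subgroup G, Maximal (IsPiSubgroup π) M →
      ∃ g : G, M = MulAut.conj g • (Hs ⊔ Ht) := by
    intro M hM
    obtain ⟨g, hg⟩ := hdom M hM.prop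
    refine ⟨g, hM.eq_of_le ?_ hg⟩
    exact (H2.isPiHall_iff.1 (H2.isPiHall_conj_smul hH g)).1
  intro M₁ M₂ h₁ h₂
  obtain ⟨g₁, rfl⟩ := hmax M₁ h₁
  obtain ⟨g₂, rfl⟩ := hmax M₂ h₂
  exact ⟨g₂ * g₁⁻¹, by rw [H8.map_conj_eq_smul, H8.conj_smul_conj_smul, inv_mul_cancel_right]⟩

end Cfsg.Agent.S4334
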