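import Cfsg.Statements.S4337
import Cfsg.Agent.H94.Swaps
import Cfsg.Agent.S0144

set_option autoImplicit false
open Cfsg

namespace Cfsg.Agent.S4337

/-- In a finite symmetric group, any three transpositions generate a solvable subgroup. -/
theorem result (n : ℕ) (a b c : Equiv.Perm (Fin n))
    (ha : a.IsSwap) (hb : b.IsSwap) (hc : c.IsSwap) :
    Group.IsSolvable (Subgroup.closure ({a, b, c} : Set (Equiv.Perm (Fin n)))) := by
  have hr : ({a, b, c} : Set (Equiv.Perm (Fin n))) = Set.range ![a, b, c] := by
    ext x
    simp only [Set.mem_insert_iff, Set.mem_singleton_iff, Set.mem_range, Fin.exists_fin_succ,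
      Matrix.cons_val_zero, Matrix.cons_val_succ, Fin.exists_fin_zero, or_false, eq_comm]
  rw [hr]
  have key := fun p hp => H94.prime_le_of_dvd_card_closure_swaps (p := p) ![a, b, c]
    (fun i => by fin_cases i <;> assumption) hp
  set N := Nat.card (Subgroup.closure (Set.range ![a, b, c])) with hN
  have hN0 : N ≠ 0 := Nat.card_pos.ne'
  refine S0144.result 2 3 (N.factorization 2) (N.factorization 3) Nat.prime_two Nat.prime_three ?_
  rw [← hN]
  refine Nat.eq_of_factorization_eq hN0 (by positivity) fun p => ?_
  rw [Nat.factorization_mul (by positivity) (by positivity), Nat.prime_two.factorization_pow,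
    Nat.prime_three.factorization_pow, Finsupp.add_apply, Finsupp.single_apply,
    Finsupp.single_apply]
  by_cases h2 : 2 = p
  · subst h2; simp
  by_cases h3 : 3 = p
  · subst h3; simp
  rw [if_neg h2, if_neg h3]
  by_contra h
  have h' : p ∈ N.factorization.support := Finsupp.mem_support_iff.2 h
  have hp := Nat.prime_of_mem_primeFactors h'
  have h4 := key p hp (Nat.dvd_of_mem_primeFactors h')
  have h5 := hp.two_le
  have : p = 4 := by omega
  subst this
  exact absurd hp (by decide)

end Cfsg.Agent.S4337
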