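import Cfsg.Statements.S4342
-- import your own Cfsg.Agent.* helpers here

set_option autoImplicit false
open Cfsg

namespace Cfsg.Agent.S4342

theorem card_quot_center {H : Type*} [Group H] [Finite H] (p : ℕ) [Fact p.Prime] :
    Nat.card (Sylow p (H ⧸ Subgroup.center H)) = Nat.card (Sylow p H) := by
  symm
  have hs : Function.Surjective (QuotientGroup.mk' (Subgroup.center H)) :=
    QuotientGroup.mk'_surjective _
  apply Nat.card_congr
  refine Equiv.ofBijective (fun P => P.mapSurjective hs) ⟨?_, Sylow.mapSurjective_surjective hs p⟩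
  intro P Q hPQ
  have h1 : (P : Subgroup H).map (QuotientGroup.mk' (Subgroup.center H)) =
      (Q : Subgroup H).map (QuotientGroup.mk' (Subgroup.center H)) := by
    rw [← Sylow.coe_mapSurjective hs, ← Sylow.coe_mapSurjective hs]
    exact congrArg _ hPQ
  have h2 : (Q : Subgroup H) ≤ Subgroup.normalizer ((P : Subgroup H) : Set H) := by
    intro y hy
    have : QuotientGroup.mk' (Subgroup.center H) y ∈
        (P : Subgroup H).map (QuotientGroup.mk' (Subgroup.center H)) := by
      rw [h1]; exact ⟨y, hy, rfl⟩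
    obtain ⟨z, hz, hzy⟩ := this
    rw [QuotientGroup.mk'_apply, QuotientGroup.mk'_apply, QuotientGroup.eq] at hzy
    have h3 : y = z * (z⁻¹ * y) := by group
    rw [h3]
    exact Subgroup.mul_mem _ (Subgroup.le_normalizer hz) (Subgroup.center_le_normalizer _ hzy)
  have h3 : (Q : Subgroup H) ⊓ Subgroup.normalizer ((P : Subgroup H) : Set H) = (Q : Subgroup H) ⊓ P :=
    Q.isPGroup'.inf_normalizer_sylow P
  rw [inf_eq_left.2 h2] at h3
  have h4 : (Q : Subgroup H) ≤ P := by rw [h3]; exact inf_le_right
  exact Sylow.ext (Q.is_maximal' P.isPGroup' h4)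

/-- Let H be a normal subgroup of a finite group G and p a prime not dividing the index of H. Then the number of Sylow p-subgroups of H/Z(H) equals the number of Sylow p-subgroups of G. -/
theorem result {G : Type*} [Group G] [Finite G]
    (p : ℕ) [Fact p.Prime] (H : Subgroup G) [H.Normal] (hp : ¬ p ∣ H.index) :
    Nat.card (Sylow p (H ⧸ Subgroup.center H)) = Nat.card (Sylow p G) := by
  rw [card_quot_center]
  symm
  have hle : ∀ P : Sylow p G, (P : Subgroup G) ≤ H := by
    intro P x hx
    obtain ⟨k, hk⟩ := P.isPGroup' ⟨x, hx⟩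
    have hk' : x ^ p ^ k = 1 := by simpa using congrArg Subtype.val hk
    have h1 : (x : G ⧸ H) ^ p ^ k = 1 := by rw [← QuotientGroup.mk_pow, hk']; rfl
    have h2 : (x : G ⧸ H) ^ H.index = 1 := by rw [Subgroup.index_eq_card]; exact pow_card_eq_one'
    have hcop : (p ^ k).Coprime H.index :=
      Nat.Coprime.pow_left _ ((Nat.Prime.coprime_iff_not_dvd Fact.out).2 hp)
    have h3 : (x : G ⧸ H) = 1 := by
      have := pow_gcd_eq_one.2 ⟨h1, h2⟩
      rwa [hcop, pow_one] at this
    exact (QuotientGroup.eq_one_iff x).1 h3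
  apply Nat.card_congr
  refine Equiv.ofBijective (fun P => P.subtype (hle P)) ⟨fun P Q h => Sylow.subtype_injective h, ?_⟩
  intro R
  obtain ⟨Q, hQ⟩ := R.exists_comap_subtype_eq
  exact ⟨Q, Sylow.ext hQ⟩

end Cfsg.Agent.S4342
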