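import Cfsg.Statements.S4344
-- import your own Cfsg.Agent.* helpers here

set_option autoImplicit false
open Cfsg
open scoped Pointwise

namespace Cfsg.Agent.S4344

/-- Let S be a finite non-abelian simple group, M a maximal subgroup of S and C a cyclic normal subgroup of M. If a Sylow p-subgroup P of S (for a prime p dividing the order of S) is contained in C, then the number of Sylow p-subgroups of S equals the index of M. -/
theorem result {S : Type*} [Group S] [Finite S]
    [IsSimpleGroup S] (hS : ¬ IsMulCommutative S) (p : ℕ) [Fact p.Prime] (hp : p ∣ Nat.card S)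
    (M : Subgroup S) (hM : IsCoatom M) (C : Subgroup S) (hCM : C ≤ M) (hCn : (C.subgroupOf M).Normal)
    (hC : IsCyclic C) (P : Sylow p S) (hP : (P : Subgroup S) ≤ C) :
    Nat.card (Sylow p S) = M.index := by
  rw [Sylow.card_eq_index_normalizer]
  congr 1
  have hle : M ≤ Subgroup.normalizer ((P : Subgroup S) : Set S) := by
    intro m hm
    -- conjugate of P by m is a subgroup of C of the same order
    have hQ : (MulAut.conj m • (P : Subgroup S)) ≤ C := by
      intro x hx
      rw [Subgroup.mem_pointwise_smul_iff_inv_smul_mem] at hx
      have h1 := hCn.conj_mem ⟨_, hCM (hP hx)⟩ (hP hx) ⟨m, hm⟩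
      rw [Subgroup.mem_subgroupOf] at h1
      simpa [mul_assoc] using h1
    have hsyl : ((m • P : Sylow p S) : Subgroup S) ≤ C := hQ
    have hcomm : IsMulCommutative C := hC.isMulCommutative
    have h2 : (m • P).subtype hsyl = P.subtype hP := by
      have hn : ((P.subtype hP : Sylow p C) : Subgroup C).Normal := inferInstance
      have := Sylow.unique_of_normal (P.subtype hP) hn
      exact Subsingleton.elim _ _
    have h3 : m • P = P := Sylow.subtype_injective h2
    exact Sylow.smul_eq_iff_mem_normalizer.1 h3
  rcases hle.eq_or_lt with h | h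
  · exact h.symm
  · exfalso
    have htop := hM.2 _ h
    have hn : (P : Subgroup S).Normal := Subgroup.normalizer_eq_top_iff.1 htop
    rcases hn.eq_bot_or_eq_top with h1 | h1
    · exact P.ne_bot_of_dvd_card hp h1
    · apply hM.1
      rw [eq_top_iff, ← h1]
      exact hP.trans hCM

end Cfsg.Agent.S4344
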