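import Cfsg.Statements.S4354
import Cfsg.Agent.H92.Isol
import Cfsg.Agent.H92.Direct
import Cfsg.Agent.H1.Zipper

set_option autoImplicit false
open Cfsg

namespace Cfsg.Agent.S4354

open Cfsg.Agent.H92
open scoped Pointwise



/-- Let G be a finite group and p a prime such that the Sylow p-subgroups of G are non-abelian while every element of p-power order has conjugacy class size prime to p, and suppose no nontrivial proper normal subgroup N of G has this property and no quotient G/N by such an N has it. Then G is simple. -/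
theorem result {G : Type*} [Group G] [Finite G]
    (p : ℕ) [Fact p.Prime] (h : ((∃ P : Sylow p G, ¬ IsMulCommutative P) ∧ ∀ x : G, (∃ k : ℕ, orderOf x = p ^ k) → ¬ p ∣ (Subgroup.centralizer ({x} : Set G)).index))
    (hmin : ∀ (N : Subgroup G) [N.Normal], N ≠ ⊥ → N ≠ ⊤ →
      ¬ ((∃ P : Sylow p N, ¬ IsMulCommutative P) ∧ ∀ x : N, (∃ k : ℕ, orderOf x = p ^ k) → ¬ p ∣ (Subgroup.centralizer ({x} : Set N)).index) ∧
      ¬ ((∃ P : Sylow p (G ⧸ N), ¬ IsMulCommutative P) ∧ ∀ x : (G ⧸ N), (∃ k : ℕ, orderOf x = p ^ k) → ¬ p ∣ (Subgroup.centralizer ({x} : Set (G ⧸ N))).index)) :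
    IsSimpleGroup G := by
  obtain ⟨⟨P, hP⟩, h⟩ := h
  have hp : p.Prime := Fact.out
  have hnt : Nontrivial G := by
    by_contra hc
    rw [not_nontrivial_iff_subsingleton] at hc
    exact hP ⟨⟨fun a b => Subsingleton.elim _ _⟩⟩
  refine ⟨fun N hN => ?_⟩
  by_contra hcon
  rw [not_or] at hcon
  obtain ⟨h1, h2⟩ := hmin N hcon.1 hcon.2
  have hN1 : ∀ x : N, (∃ k : ℕ, orderOf x = p ^ k) → ¬ p ∣ cs[x] := fun x hx hd =>
    h x (by simpa using hx) (hd.trans (cs_subgroup_dvd N x))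
  have hN2 : ∀ x : G ⧸ N, (∃ k : ℕ, orderOf x = p ^ k) → ¬ p ∣ cs[x] := by
    intro x hx hd
    obtain ⟨y, rfl, hy⟩ := exists_p_lift (QuotientGroup.mk'_surjective N) hp hx
    exact h y hy (hd.trans (cs_mk_dvd N y))
  have h1' : ∀ Q : Sylow p N, IsMulCommutative Q := fun Q => by
    by_contra hc
    exact h1 ⟨⟨Q, hc⟩, hN1⟩
  have h2' : ∀ Q : Sylow p (G ⧸ N), IsMulCommutative Q := fun Q => by
    by_contra hc
    exact h2 ⟨⟨Q, hc⟩, hN2⟩
  obtain ⟨Q, hQ⟩ := H1.exists_sylow_eq_subgroupOf_of_isSubnormal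
    (Subgroup.Normal.isSubnormal hN) P
  have hPN : ∀ a ∈ (P : Subgroup G), a ∈ N → ∀ b ∈ (P : Subgroup G), b ∈ N → a * b = b * a := by
    intro a ha haN b hb hbN
    have := (h1' Q).is_comm.comm ⟨⟨a, haN⟩, by change _ ∈ (Q : Subgroup N); rw [hQ]; exact ha⟩
      ⟨⟨b, hbN⟩, by change _ ∈ (Q : Subgroup N); rw [hQ]; exact hb⟩
    exact congrArg (fun z : Q => ((z : N) : G)) this
  let f := QuotientGroup.mk' N
  have hf : Function.Surjective f := QuotientGroup.mk'_surjective N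
  let Pb : Sylow p (G ⧸ N) := P.mapSurjective hf
  -- every element of `P` is a central element times an element of `N`
  have key : ∀ x ∈ (P : Subgroup G), ∃ z ∈ (P : Subgroup G),
      z ∈ Subgroup.centralizer ((P : Subgroup G) : Set G) ∧ z⁻¹ * x ∈ N := by
    intro x hx
    have hxp := orderOf_eq_pow_of_mem P.isPGroup' hx
    obtain ⟨g, hg⟩ := (not_dvd_cs_iff_conj P).1 (h x hxp)
    have hgP : g * x * g⁻¹ ∈ (P : Subgroup G) :=
      mem_sylow_of_le_C P (by rw [orderOf_conj]; exact hxp) (le_C_iff.2 hg)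
    obtain ⟨nb, hnb, hconj⟩ := H8.exists_normalizer_conj_eq_of_comm Pb (h2' Pb) (x := f x)
      (g := f g) ⟨x, hx, rfl⟩ ⟨g * x * g⁻¹, hgP, by simp⟩
    -- lift `nb` to the normalizer of `P`
    obtain ⟨n, rfl⟩ := hf nb
    have hle : MulAut.conj n • (P : Subgroup G) ≤ (P : Subgroup G) ⊔ N := by
      intro y hy
      rw [mem_conj_smul] at hy
      have h3 : f y ∈ (Pb : Subgroup (G ⧸ N)) := by
        have := (Subgroup.mem_normalizer_iff.1 hnb (f (n⁻¹ * y * n))).1 ⟨_, hy, rfl⟩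
        simpa [mul_assoc] using this
      have h4 : y ∈ ((P : Subgroup G).map f).comap f := h3
      rwa [Subgroup.comap_map_eq, QuotientGroup.ker_mk'] at h4
    obtain ⟨c, hc, hcn⟩ := H8.sylow_exists_mul_mem_normalizer P le_sup_left hle
    rw [sup_comm] at hc
    obtain ⟨m, hm, u, hu, rfl⟩ := (H1.mem_sup_of_le_normalizer'
      (Subgroup.le_normalizer_of_normal (H := N))).1 hc
    set t := m * u * n with ht
    have hz : t⁻¹ * (g * x * g⁻¹) * t ∈ (P : Subgroup G) := by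
      have := (Subgroup.mem_normalizer_iff.1 (Subgroup.inv_mem _ hcn) _).1 hgP
      simpa using this
    refine ⟨_, hz, ?_, ?_⟩
    · have := (Subgroup.mem_normalizer_iff.1 (normalizer_le_normalizer_centralizer _
        (Subgroup.inv_mem _ hcn)) _).1 hg
      simpa using this
    · rw [← QuotientGroup.eq]
      change f _ = f x
      have hm1 : f m = 1 := (QuotientGroup.eq_one_iff m).2 hm
      have hu1 : u * (g * x * g⁻¹) = (g * x * g⁻¹) * u := hg u hu
      have e : t⁻¹ * (g * x * g⁻¹) * t = n⁻¹ * u⁻¹ * m⁻¹ * (g * x * g⁻¹) * m * u * n := by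
        rw [ht]; group
      have e2 : f u⁻¹ * f (g * x * g⁻¹) * f u = f (g * x * g⁻¹) := by
        rw [← map_mul, ← map_mul, mul_assoc, ← hu1]; simp
      rw [e]
      simp only [map_mul, map_inv, hm1, inv_one, mul_one] at e2 hconj ⊢
      calc (f n)⁻¹ * (f u)⁻¹ * (f g * f x * (f g)⁻¹) * f u * f n
          = (f n)⁻¹ * ((f u)⁻¹ * (f g * f x * (f g)⁻¹) * f u) * f n := by group
        _ = f x := by rw [e2, ← hconj]; group
  refine hP ⟨⟨fun a b => Subtype.ext ?_⟩⟩
  obtain ⟨z, hz, hzc, hzN⟩ := key a a.2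
  obtain ⟨w, hw, hwc, hwN⟩ := key b b.2
  have ha' : z⁻¹ * a ∈ (P : Subgroup G) := Subgroup.mul_mem _ (Subgroup.inv_mem _ hz) a.2
  have hb' : w⁻¹ * b ∈ (P : Subgroup G) := Subgroup.mul_mem _ (Subgroup.inv_mem _ hw) b.2
  have c1 : Commute (z⁻¹ * a) (w⁻¹ * b) := hPN _ ha' hzN _ hb' hwN
  have c2 : Commute (z⁻¹ * a) w := hwc _ ha'
  have c3 : Commute z (b : G) := (hzc _ b.2).symm
  have c4 : Commute (z⁻¹ * a) (b : G) := by simpa using c2.mul_right c1
  have c5 : Commute (a : G) (b : G) := by simpa using c3.mul_left c4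
  exact c5

end Cfsg.Agent.S4354
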