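import Cfsg.Statements.S4359
import Cfsg.Agent.H84.SimsSeq

set_option autoImplicit false
open Pointwise
open Cfsg

namespace Cfsg.Agent.S4359

/-- Let P be a subgroup of a finite group G and g an element such that P ∩ g⁻¹Pg is a normal subgroup of prime index p in g⁻¹Pg. Let n ≥ 1 and let K be the subgroup generated by P and its conjugates g⁻ⁱPgⁱ for i ≤ n. Suppose that g normalizes no non-identity normal subgroup of P and that P meets the center of K trivially. Then the order of P is pᵗ for some t with 1 ≤ t ≤ 3n and t ≠ 3n - 1. -/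
theorem result {G : Type*} [Group G] [Finite G]
    (P : Subgroup G) (g : G) (p : ℕ) (hp : p.Prime)
    (hN : ((P ⊓ MulAut.conj g⁻¹ • P).subgroupOf (MulAut.conj g⁻¹ • P)).Normal)
    (hidx : (P ⊓ MulAut.conj g⁻¹ • P).relIndex (MulAut.conj g⁻¹ • P) = p)
    (n : ℕ) (hn : 1 ≤ n) (K : Subgroup G) (hK : K = ⨆ i ∈ Finset.range (n + 1), MulAut.conj (g ^ i)⁻¹ • P)
    (h1 : ∀ Q : Subgroup G, Q ≤ P → (Q.subgroupOf P).Normal → MulAut.conj g • Q = Q → Q = ⊥)
    (h2 : P ⊓ (Subgroup.center K).map K.subtype = ⊥) :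
    ∃ t : ℕ, Nat.card P = p ^ t ∧ 1 ≤ t ∧ t ≤ 3 * n ∧ t ≠ 3 * n - 1 := by
  obtain ⟨t, x, X, ht, h, -, hX⟩ := H84.exists_simsSys P g hp
    ((H84.normal_subgroupOf_iff_le_normalizer' inf_le_right).mp hN) hidx
    fun Q hQ hPQ hg => h1 Q hQ ((H84.normal_subgroupOf_iff_le_normalizer' hQ).mpr hPQ) hg
  obtain ⟨u, hu1, hut, htu, hu, -⟩ := h.exists_u ht
  have hP : P = X (1 - t) 0 := by
    have := hX 0
    rw [zpow_zero, inv_one, H84.cj, H98.map_conj_one] at this
    rw [this]
    congr 1
    omega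
  have hc : Nat.card P = p ^ t := by rw [hP]; exact h.card _ _ t (by omega) le_rfl
  have key : 2 * u ≤ t + n := by
    by_contra hlt
    have hxP : x (u - t) ∈ P := by rw [hP]; exact h.mem (by omega) (by omega)
    have hPK : P ≤ K := by
      rw [hK]
      refine le_trans ?_ (le_iSup₂_of_le (f := fun i (_ : i ∈ Finset.range (n + 1)) =>
        MulAut.conj (g ^ i)⁻¹ • P) 0 (by simp) le_rfl)
      simp
    have hKC : K ≤ Subgroup.centralizer {x (u - t)} := by
      rw [hK]
      refine iSup₂_le fun i hi => ?_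
      have hi' := Finset.mem_range.mp hi
      have := hX i
      rw [zpow_natCast] at this
      change H84.cj (g ^ i)⁻¹ P ≤ _
      rw [this]
      exact h.gen (by omega) fun c h3 h4 =>
        Subgroup.mem_centralizer_singleton_iff.mpr (hu _ _ (by omega) (by omega))
    apply h.ne_one ht (u - t)
    rw [← Subgroup.mem_bot, ← h2]
    refine ⟨hxP, ⟨_, hPK hxP⟩, Subgroup.mem_center_iff.mpr fun k => Subtype.ext ?_, rfl⟩
    exact Subgroup.mem_centralizer_singleton_iff.mp (hKC k.2)
  exact ⟨t, hc, ht, by omega, by omega⟩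

end Cfsg.Agent.S4359
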