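import Cfsg.Statements.S4372
import Cfsg.Agent.H12.RO15

set_option autoImplicit false
open Cfsg

namespace Cfsg.Agent.S4372

/-- Let the finite solvable group A act faithfully by automorphisms on the finite group K with the orders of A and K coprime. Then there are two elements x, y of K such that only the identity of A fixes both. -/
theorem result {A K : Type*} [Group A] [Finite A] [Group K] [Finite K]
    [MulDistribMulAction A K] [FaithfulSMul A K] (hA : Group.IsSolvable A) (hcop : (Nat.card A).Coprime (Nat.card K)) :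
    ∃ x y : K, ∀ a : A, a • x = x → a • y = y → a = 1 := by
  let φ := MulDistribMulAction.toMulAut A K
  have : Finite (K ⋊[φ] A) := Finite.of_equiv _ SemidirectProduct.equivProd.symm
  have e1 := MonoidHom.ofInjective (SemidirectProduct.inr_injective (φ := φ))
  have e2 := MonoidHom.ofInjective (SemidirectProduct.inl_injective (φ := φ))
  have h1 : (SemidirectProduct.inl : K →* K ⋊[φ] A).range.Normal := by
    rw [SemidirectProduct.range_inl_eq_ker_rightHom]
    infer_instance
  have h2 : ∀ (a : A) (k : K), Commute (SemidirectProduct.inr a : K ⋊[φ] A)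
      (SemidirectProduct.inl k) ↔ a • k = k := fun a k => by
    rw [commute_iff_eq, ← mul_inv_eq_iff_eq_mul, ← map_inv, ← SemidirectProduct.inl_aut,
      SemidirectProduct.inl_inj]
    rfl
  obtain ⟨_, ⟨x, rfl⟩, _, ⟨y, rfl⟩, h⟩ := H12.RO.good
    (Group.isSolvable_of_surjective (f := e1.toMonoidHom) e1.surjective)
    (Subgroup.le_normalizer_of_normal (H := (SemidirectProduct.inl : K →* K ⋊[φ] A).range))
    (by rwa [← Nat.card_congr e1.toEquiv, ← Nat.card_congr e2.toEquiv])
  refine ⟨x, y, fun a ha hb => FaithfulSMul.eq_of_smul_eq_smul (α := K) fun k => ?_⟩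
  rw [one_smul]
  exact (h2 a k).1 (h _ ⟨a, rfl⟩ ((h2 a x).2 ha) ((h2 a y).2 hb) _ ⟨k, rfl⟩)

end Cfsg.Agent.S4372
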