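import Cfsg.Statements.S4377
-- import your own Cfsg.Agent.* helpers here

set_option autoImplicit false
open Cfsg

namespace Cfsg.Agent.S4377

theorem card_pow_eq {G : Type*} [Group G] [Finite G] (n : ℕ) (hn : n ≠ 0) :
    Nat.card {g : G // g ^ n = 1} = ∑ d ∈ n.divisors, Nat.card {g : G // orderOf g = d} := by
  classical
  have := Fintype.ofFinite G
  simp only [Nat.card_eq_fintype_card, Fintype.card_subtype]
  convert (sum_card_orderOf_eq_card_pow_eq_one (G := G) hn).symm

theorem card_zero {G : Type*} [Group G] [Finite G] :
    Nat.card {g : G // orderOf g = 0} = 0 := by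
  have : IsEmpty {g : G // orderOf g = 0} := ⟨fun g => (orderOf_pos g.1).ne' g.2⟩
  exact Nat.card_of_isEmpty

theorem card_eq_sum {G : Type*} [Group G] [Finite G] (N : ℕ) (_hN : N ≠ 0) (h : Nat.card G ∣ N) :
    Nat.card {g : G // g ^ 0 = 1} = Nat.card {g : G // g ^ N = 1} := by
  apply Nat.card_congr
  apply Equiv.subtypeEquivRight
  intro g
  simp only [pow_zero, true_iff]
  exact orderOf_dvd_iff_pow_eq_one.1 ((orderOf_dvd_natCard g).trans h)

/-- Two finite groups have the same number of elements of each order if and only if, for every n, they have the same number of elements g with gⁿ = 1. -/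
theorem result {G H : Type*} [Group G] [Finite G] [Group H] [Finite H] :
    (∀ n : ℕ, Nat.card {g : G // orderOf g = n} = Nat.card {h : H // orderOf h = n}) ↔
      ∀ n : ℕ, Nat.card {g : G // g ^ n = 1} = Nat.card {h : H // h ^ n = 1} := by
  constructor
  · intro h n
    have key : ∀ n : ℕ, n ≠ 0 → Nat.card {g : G // g ^ n = 1} = Nat.card {h : H // h ^ n = 1} := by
      intro n hn
      rw [card_pow_eq n hn, card_pow_eq n hn]
      exact Finset.sum_congr rfl fun d _ => h d
    by_cases hn : n = 0
    · subst hn
      have h0 : Nat.card G * Nat.card H ≠ 0 := mul_ne_zero Nat.card_pos.ne' Nat.card_pos.ne'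
      rw [card_eq_sum _ h0 (dvd_mul_right _ _), card_eq_sum _ h0 (dvd_mul_left _ _)]
      exact key _ h0
    · exact key n hn
  · intro h n
    induction n using Nat.strong_induction_on with
    | _ n ih =>
      by_cases hn : n = 0
      · subst hn
        rw [card_zero, card_zero]
      · have h1 := h n
        rw [card_pow_eq n hn, card_pow_eq n hn, ← Nat.cons_self_properDivisors hn,
          Finset.sum_cons, Finset.sum_cons] at h1
        have h2 : ∑ d ∈ n.properDivisors, Nat.card {g : G // orderOf g = d} =
            ∑ d ∈ n.properDivisors, Nat.card {g : H // orderOf g = d} :=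
          Finset.sum_congr rfl fun d hd => ih d (Nat.mem_properDivisors.1 hd).2
        omega

end Cfsg.Agent.S4377
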