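import Cfsg.Statements.S4381
import Cfsg.Agent.H4.CoprimeExt
import Cfsg.Agent.H71.Maschke
import Cfsg.Agent.H3.Frattini
import Cfsg.Agent.H7.PBasic
import Cfsg.Agent.H92.ClassSize
import Cfsg.Agent.H8.SylowIn

set_option autoImplicit false
open Pointwise
open Cfsg

namespace Cfsg.Agent.S4381

open Subgroup
open scoped IsMulCommutative

theorem exists_max {A G : Type*} [Group A] [Group G] [Finite G] [MulDistribMulAction A G]
    {U : Subgroup G} (hU : U ≠ ⊤) (hUA : ∀ a : A, ∀ x ∈ U, a • x ∈ U) :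
    ∃ M : Subgroup G, U ≤ M ∧ M ≠ ⊤ ∧ (∀ a : A, ∀ x ∈ M, a • x ∈ M) ∧
      ∀ L : Subgroup G, M < L → (∀ a : A, ∀ x ∈ L, a • x ∈ L) → L = ⊤ := by
  obtain ⟨M, hUM, hM⟩ := Finite.exists_le_maximal
    (p := fun M : Subgroup G => M ≠ ⊤ ∧ ∀ a : A, ∀ x ∈ M, a • x ∈ M) (a := U) ⟨hU, hUA⟩
  refine ⟨M, hUM, hM.prop.1, hM.prop.2, fun L hL hLA => ?_⟩
  by_contra h
  exact hL.ne (hM.eq_of_le ⟨h, hLA⟩ hL.le)

theorem frattini_inv {A G : Type*} [Group A] [Group G] [MulDistribMulAction A G] (a : A) :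
    ∀ x ∈ frattini G, a • x ∈ frattini G := fun x hx =>
  H4.Ext.inv_of_characteristic (MulDistribMulAction.toMulAut A G) (frattini G) a x hx

theorem frattini_le {A G : Type*} [Group A] [Finite A] [Group G] [Finite G]
    [MulDistribMulAction A G] {M : Subgroup G} (hM : M ≠ ⊤) (hMA : ∀ a : A, ∀ x ∈ M, a • x ∈ M)
    (hmax : ∀ L : Subgroup G, M < L → (∀ a : A, ∀ x ∈ L, a • x ∈ L) → L = ⊤) :
    frattini G ≤ M := by
  by_contra h
  have h1 : M < M ⊔ frattini G := left_lt_sup.2 h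
  have h2 : H4.Ext.Inv (MulDistribMulAction.toMulAut A G) (M ⊔ frattini G) :=
    H4.Ext.Inv.sup hMA (H4.Ext.inv_of_characteristic _ _)
  exact hM (frattini_nongenerating (hmax _ h1 h2))

/-- Let the finite group A act by automorphisms on the finite group G with the orders of A and G coprime, and assume that A or G is solvable. Call a proper A-invariant subgroup of G maximal A-invariant when no A-invariant subgroup lies strictly between it and G. Then all maximal A-invariant subgroups of G are conjugate under elements of the fixed-point subgroup C_G(A) if and only if G is a p-group for some prime p and A leaves invariant no subgroup strictly between the Frattini subgroup of G and G. In that case, if G is nontrivial, the Frattini subgroup is the only maximal A-invariant subgroup (a trivial G has none). -/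
theorem result {A G : Type*} [Group A] [Finite A]
    [Group G] [Finite G] [MulDistribMulAction A G] (hcop : (Nat.card A).Coprime (Nat.card G)) (hsol : Group.IsSolvable A ∨ Group.IsSolvable G) :
    ((∀ M N : Subgroup G, (M ≠ ⊤ ∧ (∀ a : A, ∀ x ∈ M, a • x ∈ M) ∧ ∀ L : Subgroup G, M < L → (∀ a : A, ∀ x ∈ L, a • x ∈ L) → L = ⊤) → (N ≠ ⊤ ∧ (∀ a : A, ∀ x ∈ N, a • x ∈ N) ∧ ∀ L : Subgroup G, N < L → (∀ a : A, ∀ x ∈ L, a • x ∈ L) → L = ⊤) →
        ∃ c : G, (∀ a : A, a • c = c) ∧ N = MulAut.conj c • M) ↔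
      ((∃ p : ℕ, p.Prime ∧ IsPGroup p G) ∧ ∀ L : Subgroup G, frattini G < L → (∀ a : A, ∀ x ∈ L, a • x ∈ L) → L = ⊤)) ∧
    (((∃ p : ℕ, p.Prime ∧ IsPGroup p G) ∧ ∀ L : Subgroup G, frattini G < L → (∀ a : A, ∀ x ∈ L, a • x ∈ L) → L = ⊤) →
      ∀ M : Subgroup G, (M ≠ ⊤ ∧ (∀ a : A, ∀ x ∈ M, a • x ∈ M) ∧ ∀ L : Subgroup G, M < L → (∀ a : A, ∀ x ∈ L, a • x ∈ L) → L = ⊤) ↔ (M = frattini G ∧ M ≠ ⊤)) := by
  classical
  refine ⟨⟨fun h => ?_, fun h M N hM hN => ?_⟩, fun h M => ⟨fun hM => ⟨?_, hM.1⟩, ?_⟩⟩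
  rotate_left
  · have e1 : ∀ M : Subgroup G, (M ≠ ⊤ ∧ (∀ a : A, ∀ x ∈ M, a • x ∈ M) ∧
        ∀ L : Subgroup G, M < L → (∀ a : A, ∀ x ∈ L, a • x ∈ L) → L = ⊤) → M = frattini G := by
      intro M hM
      by_contra hne
      exact hM.1 (h.2 M (lt_of_le_of_ne (frattini_le hM.1 hM.2.1 hM.2.2) (Ne.symm hne)) hM.2.1)
    exact ⟨1, fun a => smul_one a, by rw [map_one, one_smul, e1 M hM, e1 N hN]⟩
  · by_contra hne
    exact hM.1 (h.2 M (lt_of_le_of_ne (frattini_le hM.1 hM.2.1 hM.2.2) (Ne.symm hne)) hM.2.1)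
  · rintro ⟨rfl, hne⟩
    exact ⟨hne, frattini_inv, h.2⟩
  -- the main implication
  rcases subsingleton_or_nontrivial G with hG | hG
  · refine ⟨⟨2, Nat.prime_two, IsPGroup.of_card (n := 0) ?_⟩, fun L _ _ => Subsingleton.elim _ _⟩
    rw [Nat.card_of_subsingleton (1 : G), pow_zero]
  obtain ⟨M, -, hM⟩ := exists_max (A := A) (U := (⊥ : Subgroup G)) bot_ne_top
    (fun a x hx => by rw [mem_bot.1 hx, smul_one]; exact one_mem _)
  obtain ⟨p, hp, hpG⟩ : ∃ p : ℕ, p.Prime ∧ IsPGroup p G := by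
    by_contra hc
    push Not at hc
    refine hM.1 (H92.eq_top_of_forall_not_dvd_index fun q hq => ?_)
    have : Fact q.Prime := ⟨hq⟩
    obtain ⟨Q, hQ⟩ := H4.Ext.exists_inv_sylow (MulDistribMulAction.toMulAut A G) hcop hsol q
    have hQt : (Q : Subgroup G) ≠ ⊤ := fun ht =>
      hc q hq ((ht ▸ Q.isPGroup' : IsPGroup q (⊤ : Subgroup G)).of_equiv topEquiv)
    obtain ⟨N, hQN, hN⟩ := exists_max (A := A) hQt hQ
    obtain ⟨c, -, hc'⟩ := h M N hM hN
    rw [← H8.index_conj_smul M c, ← hc']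
    exact H92.not_dvd_index_of_sylow_le Q hQN
  have : Fact p.Prime := ⟨hp⟩
  have hΦM := frattini_le hM.1 hM.2.1 hM.2.2
  have hMn : M.Normal := H7.normal_of_commutator_le (N := M)
    ((commutator_mono le_top le_rfl).trans ((H3.commutator_le_frattini hpG).trans hΦM)) le_rfl
  have huniq : ∀ U : Subgroup G, U ≠ ⊤ → (∀ a : A, ∀ x ∈ U, a • x ∈ U) → U ≤ M := by
    intro U hU hUA
    obtain ⟨N, hUN, hN⟩ := exists_max (A := A) hU hUA
    obtain ⟨c, -, hc'⟩ := h M N hM hN
    rw [hc', hMn.conj_smul_eq_self] at hUN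
    exact hUN
  refine ⟨⟨p, hp, hpG⟩, fun L hL hLA => ?_⟩
  by_contra hLt
  -- Maschke in the Frattini quotient
  have hs := QuotientGroup.mk'_surjective (frattini G)
  have hcomm : IsMulCommutative (G ⧸ frattini G) :=
    Subgroup.Normal.quotient_commutative_iff_commutator_le.2 (H3.commutator_le_frattini hpG)
  let ψ : A → G ⧸ frattini G →* G ⧸ frattini G := fun a =>
    QuotientGroup.map _ _ (MulDistribMulAction.toMonoidHom G a) (fun x hx => frattini_inv a x hx)
  have hψ : ∀ a (x : G), ψ a (x : G ⧸ frattini G) = ((a • x : G) : G ⧸ frattini G) :=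
    fun a x => rfl
  let φ : A →* MulAut (G ⧸ frattini G) :=
    { toFun := fun a =>
        { toFun := ψ a
          invFun := ψ a⁻¹
          left_inv := fun x => by
            obtain ⟨x, rfl⟩ := QuotientGroup.mk_surjective x
            rw [hψ, hψ, inv_smul_smul]
          right_inv := fun x => by
            obtain ⟨x, rfl⟩ := QuotientGroup.mk_surjective x
            rw [hψ, hψ, smul_inv_smul]
          map_mul' := map_mul _ }
      map_one' := by
        ext x
        obtain ⟨x, rfl⟩ := QuotientGroup.mk_surjective x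
        show ψ 1 x = x
        rw [hψ, one_smul]
      map_mul' := fun a b => by
        ext x
        obtain ⟨x, rfl⟩ := QuotientGroup.mk_surjective x
        show ψ (a * b) x = ψ a (ψ b x)
        rw [hψ, hψ, hψ, mul_smul] }
  have hpQ : IsPGroup p (G ⧸ frattini G) := hpG.to_quotient _
  have hΦQ : frattini (G ⧸ frattini G) = ⊥ := by
    rw [← H3.map_frattini_eq_of_isPGroup hpG hs, Subgroup.map_eq_bot_iff, QuotientGroup.ker_mk']
  obtain ⟨W, hW⟩ := H3.exists_isComplement'_of_inf_frattini_eq_bot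
    (L.map (QuotientGroup.mk' (frattini G))) (by rw [hΦQ, inf_bot_eq])
  obtain ⟨W', hW1, hW2, hW3⟩ := H71.maschke_abstract (V := G ⧸ frattini G) φ
    (U := L.map (QuotientGroup.mk' (frattini G))) (W := W)
    (by
      rintro a _ ⟨x, hx, rfl⟩
      exact ⟨a • x, hLA a x hx, rfl⟩)
    (disjoint_iff.1 hW.disjoint) hW.sup_eq_top
    (hcop.coprime_dvd_right ((card_map_dvd _ _).trans (card_subgroup_dvd_card L)))
  have hW't : W' ≠ ⊤ := by
    rintro rfl
    rw [inf_top_eq, Subgroup.map_eq_bot_iff, QuotientGroup.ker_mk'] at hW2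
    exact hL.not_ge hW2
  have h1 : W'.comap (QuotientGroup.mk' (frattini G)) ≤ M := by
    refine huniq _ (fun ht => hW't ?_) fun a x hx => hW1 a _ hx
    rw [← map_comap_eq_self_of_surjective hs W', ht, map_top_of_surjective _ hs]
  have h2 : L ≤ M := huniq L hLt hLA
  apply hM.1
  have h3 := congrArg (comap (QuotientGroup.mk' (frattini G))) hW3
  rw [← comap_sup_eq _ _ _ hs, comap_map_eq, QuotientGroup.ker_mk', comap_top] at h3
  exact top_le_iff.1 (h3 ▸ sup_le (sup_le h2 hΦM) h1)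

end Cfsg.Agent.S4381
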