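import Cfsg.Statements.S4383
import Cfsg.Agent.H34.TwoMax
import Cfsg.Agent.H2.Hall

set_option autoImplicit false
open Pointwise
open Cfsg

namespace Cfsg.Agent.S4383

/-- A finite group with exactly two conjugacy classes of maximal subgroups is solvable and its order has exactly two prime divisors. -/
theorem result {G : Type*} [Group G] [Finite G]
    (M₁ M₂ : Subgroup G) (h1 : IsCoatom M₁) (h2 : IsCoatom M₂) (hne : ∀ g : G, M₂ ≠ MulAut.conj g • M₁)
    (hall : ∀ M : Subgroup G, IsCoatom M → ∃ g : G, M = MulAut.conj g • M₁ ∨ M = MulAut.conj g • M₂) :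
    Group.IsSolvable G ∧ (Nat.card G).primeFactors.card = 2 := by
  classical
  have cv : H34.TwoMax.Cov M₁ M₂ := by
    intro H hH
    obtain ⟨M, hM, hle⟩ := (eq_top_or_exists_le_coatom H).resolve_left hH
    obtain ⟨g, h | h⟩ := hall M hM
    · refine ⟨g, Or.inl ⟨h1.1, fun k hk => ?_⟩⟩
      have := hle hk
      rw [h, Subgroup.mem_pointwise_smul_iff_inv_smul_mem] at this
      simpa using this
    · refine ⟨g, Or.inr ⟨h2.1, fun k hk => ?_⟩⟩
      have := hle hk
      rw [h, Subgroup.mem_pointwise_smul_iff_inv_smul_mem] at this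
      simpa using this
  have hs : Group.IsSolvable G := H34.TwoMax.sol _ G rfl M₁ M₂ cv
  refine ⟨hs, le_antisymm ?_ ?_⟩
  · have aux : ∀ (r : ℕ) (H L : Subgroup G) (g : G), r.Prime → Cfsg.IsPiHall {r}ᶜ H → L ≠ ⊤ →
        (∀ h ∈ H, g⁻¹ * h * g ∈ L) → r = L.index.minFac := by
      intro r H L g _ hH hL hg
      have pr : L.index.minFac.Prime := Nat.minFac_prime fun e => hL (Subgroup.index_eq_one.1 e)
      have d : L.index ∣ H.index := by
        have := Subgroup.index_dvd_of_le (H34.TwoMax.st hg)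
        rwa [MulAction.index_stabilizer_of_transitive] at this
      by_contra e
      exact hH.2 _ pr (fun e' => e (Set.mem_singleton_iff.1 e').symm) ((Nat.minFac_dvd _).trans d)
    have sub : (Nat.card G).primeFactors ⊆ {M₁.index.minFac, M₂.index.minFac} := by
      intro r hr
      have rp := Nat.prime_of_mem_primeFactors hr
      obtain ⟨H, hH⟩ := H2.exists_isPiHall {r}ᶜ G
      have hH' : H ≠ ⊤ := by
        intro e
        refine hH.1 r rp ?_ rfl
        rw [e, Subgroup.card_top]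
        exact Nat.dvd_of_mem_primeFactors hr
      obtain ⟨g, h | h⟩ := cv H hH'
      · rw [aux r H M₁ g rp hH h.1 h.2]
        simp
      · rw [aux r H M₂ g rp hH h.1 h.2]
        simp
    exact (Finset.card_le_card sub).trans Finset.card_le_two
  · by_contra hlt
    have ne : M₂ ≠ M₁ := by simpa using hne 1
    have nt : Nat.card G ≠ 1 := by
      intro e
      have : Subsingleton G := (Nat.card_eq_one_iff_unique.1 e).1
      exact ne (Subsingleton.elim _ _)
    obtain ⟨p, pp, pd⟩ := Nat.exists_prime_and_dvd nt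
    have : Fact p.Prime := ⟨pp⟩
    have hG : IsPGroup p G := by
      refine IsPGroup.iff_card.2 ⟨_, Nat.eq_prime_pow_of_unique_prime_dvd Nat.card_pos.ne' ?_⟩
      intro d hd hd'
      exact Finset.card_le_one.1 (show (Nat.card G).primeFactors.card ≤ 1 by omega) d
        (Nat.mem_primeFactors.2 ⟨hd, hd', Nat.card_pos.ne'⟩) p
        (Nat.mem_primeFactors.2 ⟨pp, pd, Nat.card_pos.ne'⟩)
    have := hG.isNilpotent
    have nc : NormalizerCondition G := Group.normalizerCondition_of_isNilpotent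
    have n1 : M₁.Normal := Subgroup.NormalizerCondition.normal_of_coatom M₁ nc h1
    have n2 : M₂.Normal := Subgroup.NormalizerCondition.normal_of_coatom M₂ nc h2
    have x1 : ¬ M₁ ≤ M₂ := fun h => h2.1 (h1.2 _ (lt_of_le_of_ne h ne.symm))
    have x2 : ¬ M₂ ≤ M₁ := fun h => h1.1 (h2.2 _ (lt_of_le_of_ne h ne))
    obtain ⟨x, hx, hx'⟩ := SetLike.not_le_iff_exists.1 x1
    obtain ⟨y, hy, hy'⟩ := SetLike.not_le_iff_exists.1 x2
    have top : (M₁ ⊓ M₂) ⊔ Subgroup.zpowers (x * y) = ⊤ := by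
      by_contra e
      have m : x * y ∈ (M₁ ⊓ M₂) ⊔ Subgroup.zpowers (x * y) :=
        Subgroup.mem_sup_right (Subgroup.mem_zpowers _)
      obtain ⟨g, h | h⟩ := cv _ e
      · have := n1.conj_mem _ (h.2 _ m) g
        rw [show g * (g⁻¹ * (x * y) * g) * g⁻¹ = x * y by group] at this
        exact hy' ((M₁.mul_mem_cancel_left hx).1 this)
      · have := n2.conj_mem _ (h.2 _ m) g
        rw [show g * (g⁻¹ * (x * y) * g) * g⁻¹ = x * y by group] at this
        exact hx' ((M₂.mul_mem_cancel_right hy).1 this)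
    have aux : ∀ (A B : Subgroup G) [A.Normal] [B.Normal] (u : G), (A ⊓ B) ⊔ Subgroup.zpowers u = ⊤ →
        orderOf (u : G ⧸ B) ∣ orderOf (u : G ⧸ A) → A ≤ B := by
      intro A B _ _ u ht hd a ha
      have m : a ∈ (A ⊓ B) ⊔ Subgroup.zpowers u := ht ▸ Subgroup.mem_top a
      obtain ⟨d, hd', z, ⟨k, rfl⟩, e⟩ := Subgroup.mem_sup_of_normal_left.1 m
      have m1 : u ^ k ∈ A := (A.mul_mem_cancel_left hd'.1).1 (e ▸ ha)
      rw [← QuotientGroup.eq_one_iff, QuotientGroup.mk_zpow, ← orderOf_dvd_iff_zpow_eq_one] at m1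
      have m2 : u ^ k ∈ B := by
        rw [← QuotientGroup.eq_one_iff, QuotientGroup.mk_zpow, ← orderOf_dvd_iff_zpow_eq_one]
        exact (Int.natCast_dvd_natCast.2 hd).trans m1
      exact e ▸ B.mul_mem hd'.2 m2
    obtain ⟨i, hi⟩ := IsPGroup.iff_orderOf.1 (hG.to_quotient M₁) (x * y : G)
    obtain ⟨j, hj⟩ := IsPGroup.iff_orderOf.1 (hG.to_quotient M₂) (x * y : G)
    rcases le_total i j with h | h
    · exact x2 (aux M₂ M₁ (x * y) (by rwa [inf_comm]) (by rw [hi, hj]; exact pow_dvd_pow p h))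
    · exact x1 (aux M₁ M₂ (x * y) top (by rw [hi, hj]; exact pow_dvd_pow p h))

end Cfsg.Agent.S4383
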