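import Cfsg.Statements.S4385
import Cfsg.Agent.H84.Glaub2

set_option autoImplicit false
open Pointwise
open Cfsg

namespace Cfsg.Agent.S4385

open Cfsg.Agent.H84 Cfsg.Agent.H98

/-- Let H be a subgroup of a finite group G whose largest normal 2-subgroup O_2(H) is nontrivial and such that H/O_2(H) is a dihedral group of order at least 4. Let P be a Sylow 2-subgroup of H and S a Sylow 2-subgroup of G containing P. Suppose y ∈ S lies outside P, normalizes P, has y² in the product of P with the centralizer of P in G, and normalizes no non-identity normal subgroup of H contained in P. Then P has order 4, 8 or 16, and H modulo its largest normal subgroup of odd order is isomorphic to the four-group, to the symmetric group of degree 4, or to the direct product of the symmetric group of degree 4 with a group of order 2. -/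
theorem result {G : Type*} [Group G] [Finite G]
    (H : Subgroup G) (hO : Cfsg.pCore 2 ↥H ≠ ⊥) (n : ℕ) (hn : 2 ≤ n) (hdih : Nonempty (↥H ⧸ Cfsg.pCore 2 ↥H ≃* DihedralGroup n))
    (P : Subgroup G) (hPH : P ≤ H) (hP : IsPGroup 2 P) (hPsyl : ¬ 2 ∣ P.relIndex H)
    (S : Sylow 2 G) (hPS : P ≤ (S : Subgroup G)) (y : G) (hyS : y ∈ (S : Subgroup G)) (hyP : y ∉ P)
    (hy2 : y ^ 2 ∈ P ⊔ Subgroup.centralizer (P : Set G)) (hyN : MulAut.conj y • P = P)
    (hyQ : ∀ Q : Subgroup G, Q ≤ P → (Q.subgroupOf H).Normal → MulAut.conj y • Q = Q → Q = ⊥) :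
    (Nat.card P = 4 ∨ Nat.card P = 8 ∨ Nat.card P = 16) ∧
    (Nonempty (↥H ⧸ Cfsg.oddCore ↥H ≃* Multiplicative (ZMod 2) × Multiplicative (ZMod 2)) ∨
     Nonempty (↥H ⧸ Cfsg.oddCore ↥H ≃* Equiv.Perm (Fin 4)) ∨
     Nonempty (↥H ⧸ Cfsg.oddCore ↥H ≃* Equiv.Perm (Fin 4) × Multiplicative (ZMod 2))) := by
  have : Fact (Nat.Prime 2) := ⟨Nat.prime_two⟩
  have hi := relIndex_of_dihedral hdih
  obtain ⟨e⟩ := hdih
  obtain ⟨hodd, hpow, h, hgen⟩ := dihedral_core hn e
  have hS : SylIn 2 P H := sylIn_iff_not_dvd_relIndex.mpr ⟨hPH, hP, hPsyl⟩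
  have hS' : SylIn 2 (cj (h : G)⁻¹ P) H := hS.map_conj_of_mem (H.inv_mem h.2)
  have hQP := pCoreOf_le_of_sylIn hS
  have hQP' := pCoreOf_le_of_sylIn hS'
  have hQ2 : (pCoreOf 2 H).relIndex P = 2 := by
    have e1 := Subgroup.relIndex_mul_relIndex _ _ _ hQP hPH
    obtain ⟨k, hk⟩ := hP.index ((pCoreOf 2 H).subgroupOf P)
    rw [hi, Subgroup.relIndex, hk] at e1
    rw [Subgroup.relIndex, hk]
    obtain ⟨m, hm⟩ := hodd
    rcases k with _ | _ | k
    · omega
    · rfl
    · rw [pow_succ, pow_succ, mul_assoc, mul_assoc, mul_comm, mul_assoc, mul_assoc] at e1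
      omega
  have hQh : cj (h : G)⁻¹ (pCoreOf 2 H) = pCoreOf 2 H :=
    cj_eq_of_mem_normalizer (le_normalizer_pCoreOf 2 H (H.inv_mem h.2))
  have hQ2' : (pCoreOf 2 H).relIndex (cj (h : G)⁻¹ P) = 2 := by
    rwa [← hQh, Subgroup.relIndex_map_map_of_injective _ _ (MulAut.conj _).injective]
  have p2 : ∀ {T : Subgroup G}, IsPGroup 2 T → ∀ a : H, (a : G) ∈ T → ∃ k, a ^ 2 ^ k = 1 :=
    fun hT a ha => by
      obtain ⟨k, hk⟩ := hT ⟨a, ha⟩
      exact ⟨k, Subtype.ext (congrArg Subtype.val hk :)⟩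
  have hH : ∀ K : Subgroup G, P ≤ K → cj (h : G)⁻¹ P ≤ K → H ≤ K := by
    intro K h1 h2
    obtain ⟨a, ha, haQ⟩ := SetLike.not_le_iff_exists.mp fun hle : P ≤ pCoreOf 2 H => by
      rw [Subgroup.relIndex_eq_one.mpr hle] at hQ2
      omega
    exact Subgroup.subgroupOf_eq_top.mp (hgen ⟨a, hPH ha⟩
      (fun h' => haQ ((mem_pCoreOf_iff _).mpr h')) (p2 hP _ ha) (K.subgroupOf H)
      (fun q hq => h1 (hQP ((mem_pCoreOf_iff _).mpr hq))) (h1 ha)
      (h2 (by simpa using conj_mem_map_conj (g := (h : G)⁻¹) ha)))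
  have hinf : P ⊓ cj (h : G)⁻¹ P = pCoreOf 2 H := by
    refine le_antisymm ?_ (le_inf hQP hQP')
    by_contra hn'
    have e1 := sup_eq_of_relIndex_prime Nat.prime_two hQ2 hQP inf_le_left hn'
    have e2 : H ≤ cj (h : G)⁻¹ P := hH _ (e1.ge.trans (sup_le hQP' inf_le_right)) le_rfl
    rw [pCoreOf_eq_self (hS'.isPGroup.to_le e2), Subgroup.relIndex_self] at hi
    omega
  have hyP' : y ∈ Subgroup.normalizer (P : Set G) := mem_normalizer_of_cj_eq hyN
  have hg : cj (y * h)⁻¹ P = cj (h : G)⁻¹ P := by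
    rw [mul_inv_rev, cj, ← map_conj_map_conj,
      show P.map _ = P from cj_eq_of_mem_normalizer (Subgroup.inv_mem _ hyP')]
  have hN : ∀ N ≤ P, H ≤ Subgroup.normalizer (N : Set G) →
      cj y⁻¹ H ≤ Subgroup.normalizer (N : Set G) → N = ⊥ := by
    intro N h1 h2 h3
    have h4 : cj y N ≤ P := (Subgroup.map_mono h1).trans (cj_eq_of_mem_normalizer hyP').le
    have h5 : H ≤ Subgroup.normalizer (cj y N : Set G) := by
      rw [← map_conj_normalizer, ← map_conj_map_conj_inv y H]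
      exact Subgroup.map_mono h3
    have h6 : y * y ∈ Subgroup.normalizer (N : Set G) := by
      rw [← pow_two]
      exact sup_le (hPH.trans h2) ((centralizer_anti h1).trans (centralizer_le_normalizer' N)) hy2
    refine le_bot_iff.mp (le_sup_left.trans (hyQ (N ⊔ cj y N) (sup_le h1 h4)
      ((normal_subgroupOf_iff_le_normalizer' ((sup_le h1 h4).trans hPH)).mpr
        (le_normalizer_sup h2 h5)) ?_).le)
    change cj y _ = _
    rw [cj, Subgroup.map_sup, map_conj_map_conj, show N.map _ = N from cj_eq_of_mem_normalizer h6,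
      sup_comm]
  obtain ⟨t, x, X, ht, hs, hsh, hX⟩ := exists_simsSys P (y * h) Nat.prime_two
    (by rw [hg, hinf]; exact hS'.le.trans (le_normalizer_pCoreOf 2 H))
    (by rw [hg, hinf, hQ2']) (fun N h1 h2 h3 => by
      have h4 := mem_normalizer_of_cj_eq h3
      have h5 : H ≤ Subgroup.normalizer (N : Set G) := hH _ h2 (by
        rw [← hg, ← cj_eq_of_mem_normalizer (Subgroup.inv_mem _ h4), ← map_conj_normalizer]
        exact Subgroup.map_mono h2)
      exact hyQ N h1 ((normal_subgroupOf_iff_le_normalizer' (h1.trans hPH)).mpr h5)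
        (cj_eq_of_mem_normalizer ((Subgroup.mul_mem_cancel_right _ (h5 h.2)).mp h4)))
  have hs' := hs.translate (-t)
  have hsh' : ∀ c : ℤ, x (c + 1 + -t) = (y * h)⁻¹ * x (c + -t) * (y * h) := fun c => by
    rw [add_right_comm, hsh, zpow_one]
  have X0 : P = X (1 + -t) (t + -t) := by
    have := hX 0
    rw [zpow_zero, inv_one, cj, map_conj_one] at this
    rw [this]
    congr 1 <;> omega
  have X1 : cj (h : G)⁻¹ P = X (2 + -t) (t + 1 + -t) := by
    have := hX 1
    rw [zpow_one, hg] at this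
    rw [this]
    congr 1 <;> omega
  have X2 : cj (y * h)⁻¹ (cj (h : G)⁻¹ P) = X (3 + -t) (t + 2 + -t) := by
    have := hX 2
    rw [zpow_two, mul_inv_rev, cj, ← map_conj_map_conj, ← cj, ← cj, hg] at this
    rw [this]
    congr 1 <;> omega
  obtain ⟨x, X, hs, hsh, X0, X1, X2⟩ : ∃ (x : ℤ → G) (X : ℤ → ℤ → Subgroup G), SimsSys 2 t x X ∧
      (∀ c, x (c + 1) = (y * h)⁻¹ * x c * (y * h)) ∧ P = X 1 t ∧ cj (h : G)⁻¹ P = X 2 (t + 1) ∧
      cj (y * h)⁻¹ (cj (h : G)⁻¹ P) = X 3 (t + 2) := ⟨_, _, hs', hsh', X0, X1, X2⟩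
  have XQ : pCoreOf 2 H = X 2 t := by
    rw [← hinf, X1, X0]
    exact le_antisymm (fun w hw => hs.inf hw.1 hw.2 (by omega) (by omega) (by omega))
      (le_inf (hs.mono (by omega) le_rfl (by omega)) (hs.mono le_rfl (by omega) (by omega)))
  have ht2 : 2 ≤ t := by
    by_contra h2
    refine hO (eq_bot_iff.mpr fun q hq => Subtype.ext ?_)
    exact hs.eq_one (XQ ▸ (mem_pCoreOf_iff q).mpr hq) (by omega)
  have m1 : x 1 ∈ P := X0 ▸ hs.mem le_rfl (by omega)
  have m2 : x (t + 1) ∈ cj (h : G)⁻¹ P := X1 ▸ hs.mem (by omega) le_rfl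
  have hH' : ∀ K : Subgroup G, (∀ c : ℤ, 1 ≤ c → c ≤ t + 1 → x c ∈ K) → H ≤ K := fun K hK =>
    hH K (X0 ▸ hs.gen (by omega) fun c h1 h2 => hK c h1 (by omega))
      (X1 ▸ hs.gen (by omega) fun c h1 h2 => hK c (by omega) h2)
  obtain ⟨h1, h2⟩ := glauberman_core hs ht2 hsh (H := H) (fun c h1 h2 => by
      by_cases hc : c ≤ t
      · exact hPH (X0 ▸ hs.mem h1 hc)
      · exact hS'.le (X1 ▸ hs.mem (by omega) h2)) hH' hodd
    (XQ ▸ (mem_pCoreOf_iff _).mpr (hpow ⟨_, hPH m1⟩ ⟨_, hS'.le m2⟩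
      (fun h' => hs.not_mem (a := 1) (b := t) (by omega) (by omega)
        (XQ ▸ (mem_pCoreOf_iff _).mpr h' :))
      (fun h' => hs.rev.not_mem (a := -(t + 1)) (b := -2) (by omega) (by omega) (by
        have := XQ ▸ (mem_pCoreOf_iff _).mpr h'
        simpa using this)) (p2 hP _ m1) (p2 hS'.isPGroup _ m2)) :)
    (fun N h1 h2 => by
      have h3 := hH' _ fun c h3 h4 => h2 c h3 (by omega)
      have h4 : cj (y * h)⁻¹ H ≤ Subgroup.normalizer (N : Set G) :=
        Subgroup.map_le_iff_le_comap.mpr (hH _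
          (Subgroup.map_le_iff_le_comap.mp (hg.le.trans (hS'.le.trans h3)))
          (Subgroup.map_le_iff_le_comap.mp (X2.le.trans
            (hs.gen (by omega) fun c h4 h5 => h2 c (by omega) h5))))
      have h5 := cj_eq_of_mem_normalizer (h3 h.2)
      refine hN N ?_ h3 ?_
      · rw [← h5, ← map_conj_map_conj_inv (h : G) P]
        exact Subgroup.map_mono (h1.trans X1.ge)
      · rw [← h5, ← map_conj_normalizer, show y⁻¹ = h * (y * h)⁻¹ by group, cj,
          ← map_conj_map_conj]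
        exact Subgroup.map_mono h4)
  refine ⟨?_, h2⟩
  rw [X0, hs.card 1 t t (by omega) le_rfl]
  rcases h1 with rfl | rfl | rfl <;> simp

end Cfsg.Agent.S4385
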