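import Cfsg.Statements.S4387
-- import your own Cfsg.Agent.* helpers here

set_option autoImplicit false
open Pointwise
open Cfsg

namespace Cfsg.Agent.S4387

/-- Let G be a non-trivial finite group in which any two maximal subgroups are conjugate. Then G is cyclic of prime-power order. -/
theorem result {G : Type*} [Group G] [Finite G] [Nontrivial G]
    (h : ∀ M N : Subgroup G, IsCoatom M → IsCoatom N → ∃ g : G, N = MulAut.conj g • M) :
    IsCyclic G ∧ IsPrimePow (Nat.card G) := by
  classical
  obtain ⟨M, hM, -⟩ := (eq_top_or_exists_le_coatom (⊥ : Subgroup G)).resolve_left bot_ne_top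
  -- conjugates of M do not cover G
  have hex : ∃ x : G, ∀ g : G, x ∉ MulAut.conj g • M := by
    by_contra hc
    push Not at hc
    have hfix : ∀ x : G, ∃ c : G ⧸ M, x • c = c := by
      intro x
      obtain ⟨g, hg⟩ := hc x
      refine ⟨(g : G ⧸ M), ?_⟩
      rw [Subgroup.mem_pointwise_smul_iff_inv_smul_mem] at hg
      change ((x * g : G) : G ⧸ M) = (g : G ⧸ M)
      rw [eq_comm, QuotientGroup.eq]
      simpa [mul_assoc] using hg
    have hnt : Nontrivial (G ⧸ M) := by
      rw [← Finite.one_lt_card_iff_nontrivial, ← Subgroup.index_eq_card]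
      exact Subgroup.one_lt_index_of_ne_top hM.1
    have := Fintype.ofFinite G
    have := Fintype.ofFinite (G ⧸ M)
    have hsum := MulAction.sum_card_fixedBy_eq_card_orbits_mul_card_group G (G ⧸ M)
    have horb : Fintype.card (Quotient (MulAction.orbitRel G (G ⧸ M))) = 1 := by
      rw [Fintype.card_eq_one_iff_nonempty_unique]
      have := (MulAction.pretransitive_iff_unique_quotient_of_nonempty G (G ⧸ M)).1 inferInstance
      exact this
    rw [horb, one_mul] at hsum
    have hlt : ∑ _a : G, 1 < ∑ a : G, Fintype.card (MulAction.fixedBy (G ⧸ M) a) := by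
      apply Finset.sum_lt_sum
      · intro a _
        obtain ⟨c, hc⟩ := hfix a
        exact Fintype.card_pos_iff.2 ⟨⟨c, hc⟩⟩
      · refine ⟨1, Finset.mem_univ _, ?_⟩
        simp only [MulAction.fixedBy_one_eq_univ]
        rw [Fintype.card_congr (Equiv.Set.univ _)]
        exact Fintype.one_lt_card
    simp only [Finset.sum_const, Finset.card_univ, smul_eq_mul, mul_one] at hlt
    omega
  obtain ⟨x, hx⟩ := hex
  have htop : Subgroup.zpowers x = ⊤ := by
    rcases eq_top_or_exists_le_coatom (Subgroup.zpowers x) with h1 | ⟨N, hN, hle⟩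
    · exact h1
    · obtain ⟨g, rfl⟩ := h M N hM hN
      exact absurd (hle (Subgroup.mem_zpowers x)) (hx g)
  have hcyc : IsCyclic G := ⟨⟨x, fun y => by
    change y ∈ Subgroup.zpowers x
    rw [htop]; trivial⟩⟩
  refine ⟨hcyc, ?_⟩
  -- all coatoms are equal to M
  have hall : ∀ N : Subgroup G, IsCoatom N → N = M := by
    intro N hN
    obtain ⟨g, rfl⟩ := h M N hM hN
    ext y
    rw [Subgroup.mem_pointwise_smul_iff_inv_smul_mem]
    have : (MulAut.conj g)⁻¹ • y = y := by
      have hc : ∀ a b : G, a * b = b * a := fun a b => hcyc.isMulCommutative.is_comm.comm a b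
      simp only [MulAut.smul_def, MulAut.conj_inv_apply]
      rw [hc g⁻¹ y]; simp
    rw [this]
  -- for each prime p dividing |G|, x^p generates a coatom
  have hord : orderOf x = Nat.card G := by rw [← Nat.card_zpowers, htop, Subgroup.card_top]
  have hidx : ∀ p : ℕ, p.Prime → p ∣ Nat.card G → M.index = p := by
    intro p hp hpd
    have hi : (Subgroup.zpowers (x ^ p)).index = p := by
      have h1 := (Subgroup.zpowers (x ^ p)).index_mul_card
      rw [Nat.card_zpowers, orderOf_pow_of_dvd hp.ne_zero (hord ▸ hpd), hord] at h1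
      obtain ⟨k, hk⟩ := hpd
      have hk0 : 0 < k := by
        rcases Nat.eq_zero_or_pos k with rfl | h
        · have := (Nat.card_pos (α := G)); omega
        · exact h
      rw [hk, Nat.mul_div_cancel_left _ hp.pos] at h1
      exact Nat.eq_of_mul_eq_mul_right hk0 h1
    have hco : IsCoatom (Subgroup.zpowers (x ^ p)) := by
      refine ⟨fun ht => ?_, fun K hK => ?_⟩
      · rw [ht, Subgroup.index_top] at hi
        exact hp.one_lt.ne hi
      · have h1 := Subgroup.relIndex_mul_index hK.le
        rw [hi] at h1
        rcases (Nat.dvd_prime hp).1 (Dvd.intro_left _ h1) with h2 | h2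
        · exact Subgroup.index_eq_one.1 h2
        · rw [h2] at h1
          have h3 : (Subgroup.zpowers (x ^ p)).relIndex K = 1 := by
            have := hp.pos
            nlinarith
          exact absurd (Subgroup.relIndex_eq_one.1 h3) hK.not_ge
    rw [← hall _ hco, hi]
  have hne : Nat.card G ≠ 1 := Finite.one_lt_card.ne'
  rw [isPrimePow_iff_unique_prime_dvd]
  obtain ⟨p, hp, hpd⟩ := Nat.exists_prime_and_dvd hne
  refine ⟨p, ⟨hp, hpd⟩, fun q hq => ?_⟩
  rw [← hidx q hq.1 hq.2, hidx p hp hpd]

end Cfsg.Agent.S4387
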