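import Cfsg.Statements.S4396
import Cfsg.Agent.H88.FrobFree
import Cfsg.Agent.H91.FrobPack
import Cfsg.Agent.H59.PermMod
import Cfsg.Agent.H3.Fitting

set_option autoImplicit false
open Cfsg

namespace Cfsg.Agent.S4396

set_option linter.style.haveILetI false

/-- Let the finite group A act faithfully and linearly on a finite-dimensional vector space V over a field k, and suppose A is a Frobenius group with nilpotent kernel F (every Frobenius kernel is nilpotent) and complement H such that F fixes no nonzero vector. Then V is free as a module for H: there is a subspace W with V the direct sum of the translates hW, h ∈ H. (No assumption on the characteristic of k.) -/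
theorem result {k V A : Type*} [Field k] [AddCommGroup V] [Module k V] [FiniteDimensional k V] [Group A] [Finite A] [DecidableEq A]
    (ρ : Representation k A V) (hρ : Function.Injective ρ)
    (Fk Hc : Subgroup A) [Fk.Normal] (hHc : Cfsg.IsFrobeniusComplement Hc) (hker : Cfsg.frobeniusKernel Hc = (Fk : Set A)) (hnil : Group.IsNilpotent ↥Fk)
    (hCF : ∀ v : V, (∀ f ∈ Fk, ρ f v = v) → v = 0) :
    ∃ W : Submodule k V, DirectSum.IsInternal (fun h : ↥Hc => W.map (ρ (h : A))) := by
  haveI := hnil
  obtain ⟨N, hNn, hNF, hNk, hNC⟩ : ∃ N : Subgroup A, N.Normal ∧ N ≤ Fk ∧ (Nat.card N : k) ≠ 0 ∧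
      ∀ v : V, (∀ f ∈ N, ρ f v = v) → v = 0 := by
    obtain ⟨p, hp⟩ := CharP.exists k
    rcases CharP.char_is_prime_or_zero k p with hpp | rfl
    · haveI : Fact p.Prime := ⟨hpp⟩
      refine ⟨(pPrimeCore p Fk).map Fk.subtype, H3.map_pPrimeCore_normal Fk,
        Subgroup.map_subtype_le _, ?_, ?_⟩
      · rw [Ne, CharP.cast_eq_zero_iff k p, ← hpp.coprime_iff_not_dvd]
        exact (H3.map_pPrimeCore_coprime Fk).symm
      · intro v hv
        by_contra hv0
        haveI := H3.map_pPrimeCore_normal (p := p) Fk
        let W : Submodule k V :=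
          { carrier := {v | ∀ f ∈ (pPrimeCore p Fk).map Fk.subtype, ρ f v = v}
            add_mem' := fun ha hb f hf => by rw [map_add, ha f hf, hb f hf]
            zero_mem' := fun f _ => map_zero _
            smul_mem' := fun c x hx f hf => by rw [map_smul, hx f hf] }
        obtain ⟨w, hw, hw0, hwP⟩ := H59.exists_ne_zero_fixed_of_isPGroup
          (H3.map_pCore_isPGroup (p := p) Fk) (ρ.comp ((pCore p Fk).map Fk.subtype).subtype) W
          (fun g x hx f hf => by
            have h1 := hx _ (this.conj_mem' f hf g)
            simp only [MonoidHom.comp_apply, Subgroup.coe_subtype]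
            conv_rhs => rw [← h1]
            simp only [← Module.End.mul_apply, ← map_mul]
            congr 2; group)
          (fun h => hv0 (by
            have h1 : v ∈ W := hv
            rwa [h] at h1))
        refine hw0 (hCF w fun f hf => ?_)
        have h1 : (⟨f, hf⟩ : Fk) ∈ pCore p Fk ⊔ pPrimeCore p Fk :=
          H3.fitting_le_pCore_sup_pPrimeCore (by
            rw [H3.fitting_eq_top_iff.mpr hnil]; trivial)
        let S : Subgroup Fk :=
          { carrier := {f | ρ f w = w}
            mul_mem' := fun {a b} ha hb => by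
              show ρ (a * b) w = w
              rw [map_mul, Module.End.mul_apply, hb, ha]
            one_mem' := by show ρ 1 w = w; simp
            inv_mem' := fun {a} ha => by
              show ρ (a : A)⁻¹ w = w
              conv_lhs => rw [← (show ρ a w = w from ha)]
              rw [← Module.End.mul_apply, ← map_mul]; simp }
        have h2 : pCore p Fk ⊔ pPrimeCore p Fk ≤ S :=
          sup_le (fun a ha => hwP ⟨a, a, ha, rfl⟩) (fun a ha => hw a ⟨a, ha, rfl⟩)
        exact h2 h1
    · haveI := CharP.charP_to_charZero k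
      exact ⟨Fk, inferInstance, le_rfl, Nat.cast_ne_zero.mpr Nat.card_pos.ne', hCF⟩
  have hsum : H88.nsum ρ N = 0 := by
    ext x
    exact hNC _ fun f hf => congrArg (fun e : Module.End k V => e x) (H88.mul_nsum ρ N hf)
  have hc := H91.frob_isComplement' hHc hker
  have hsol : Group.IsSolvable N :=
    Group.isSolvable_of_isSolvable_injective (Subgroup.inclusion_injective hNF)
  have hfp : ∀ h ∈ Hc, h ≠ 1 → ∀ n ∈ N, Commute h n → n = 1 := by
    intro h hh h1 n hn hcm
    by_contra hn1
    exact h1 (Subgroup.disjoint_def.mp hc.disjoint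
      (H91.frob_mem_of_commute_kernel hHc hker (hNF hn) hn1 hcm) hh)
  let π : A →* Hc := hc.symm.QuotientMulEquiv.toMonoidHom.comp (QuotientGroup.mk' Fk)
  have hπ1 : ∀ n ∈ Fk, π n = 1 := by
    intro n hn
    simp only [π, MonoidHom.comp_apply, QuotientGroup.mk'_apply,
      (QuotientGroup.eq_one_iff n).mpr hn, map_one]
  have hπ2 : ∀ h : Hc, π h = h := by
    intro h
    show hc.symm.QuotientMulEquiv (QuotientGroup.mk (h : A)) = h
    rw [MulEquiv.apply_eq_iff_symm_apply]
    rfl
  refine H88.free_of_freeNum (ρ.comp Hc.subtype)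
    (H88.freeNum_of_nsum Hc N hsol hNk hfp ρ hsum).1 fun S _ _ _ σ => ?_
  have h1 := H88.freeNum_of_nsum Hc N hsol hNk hfp (ρ.linHom (σ.comp π)) (by
    ext φ x
    letI := Fintype.ofFinite N
    rw [H88.nsum_apply]
    simp only [Representation.linHom_apply, LinearMap.sum_apply, LinearMap.comp_apply,
      MonoidHom.comp_apply, LinearMap.zero_apply]
    have h2 : ∑ n : N, σ (π n) (φ (ρ (n : A)⁻¹ x)) = ∑ n : N, φ (ρ n x) := by
      refine Fintype.sum_equiv (Equiv.inv N) _ _ fun n => ?_
      rw [hπ1 n (hNF n.2)]; simp
    rw [h2, ← map_sum, ← H88.nsum_apply, hsum]; simp)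
  have h2 : (ρ.linHom (σ.comp π)).comp Hc.subtype =
      Representation.linHom (ρ.comp Hc.subtype) σ := by
    ext h φ x
    simp [hπ2]
  rwa [h2] at h1

end Cfsg.Agent.S4396
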