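import Cfsg.Statements.S4399
import Cfsg.Agent.H9.Taussky

set_option autoImplicit false
open Cfsg

namespace Cfsg.Agent.S4399

/-- Let S be a finite 2-group whose commutator quotient S/[S,S] is a Klein four-group (order 4 and exponent 2). Then S itself has order 4, or S is dihedral of order at least 8, semidihedral of order at least 16 (order 2^(k+4) with an element a of order 2^(k+3) and an involution b with b a b⁻¹ = a^(2^(k+2)−1)), or generalized quaternion of order at least 8. -/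
theorem result {S : Type*} [Group S] [Finite S] (h2 : IsPGroup 2 S) (hab : Nat.card (Abelianization S) = 4)
    (hexp : ∀ x : Abelianization S, x ^ 2 = 1) :
    Nat.card S = 4 ∨
    ((∃ k : ℕ, Nonempty (S ≃* DihedralGroup (2 ^ (k + 2)))) ∨
      (∃ k : ℕ, Nat.card S = 2 ^ (k + 4) ∧ ∃ a b : S, orderOf a = 2 ^ (k + 3) ∧ orderOf b = 2 ∧ b * a * b⁻¹ = a ^ (2 ^ (k + 2) - 1)) ∨
      (∃ k : ℕ, Nonempty (S ≃* QuaternionGroup (2 ^ (k + 1))))) := by
  rcases H9.taussky h2 hab with h | ⟨a, b, n, h⟩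
  · exact Or.inl h
  right
  obtain ⟨n, rfl⟩ : ∃ m, n = m + 1 := ⟨n - 1, by have := h.one_le; omega⟩
  obtain ⟨c, hc, ⟨h1, h3⟩ | ⟨h1, h3⟩ | ⟨hn, h1, h3⟩⟩ := h.normalize
  · obtain ⟨e⟩ := hc.equiv_dihedral h1 h3
    exact Or.inl ⟨n, ⟨Subgroup.topEquiv.symm.trans e⟩⟩
  · obtain ⟨e⟩ := hc.equiv_quaternion h1 h3
    exact Or.inr (Or.inr ⟨n, ⟨Subgroup.topEquiv.symm.trans e⟩⟩)
  · obtain ⟨n, rfl⟩ : ∃ m, n = m + 1 := ⟨n - 1, by omega⟩
    refine Or.inr (Or.inl ⟨n, hc.card_top, a, c, hc.ord, H9.orderOf_eq_two_iff.mpr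
      ⟨fun h0 => hc.not_mem (h0 ▸ Subgroup.one_mem _), h1⟩, ?_⟩)
    rw [h3, H9.inv_mul_pow_eq a Nat.one_le_two_pow]

end Cfsg.Agent.S4399
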