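import Cfsg.Statements.S4400
import Cfsg.Agent.H69.SecRank

set_option autoImplicit false
open Cfsg

namespace Cfsg.Agent.S4400

open Subgroup Cfsg.Agent.H69

/-- Let S be a finite 2-group of sectional 2-rank at most 4, and let P and Q be normal non-abelian subgroups of S whose centres have order 2 and are different. Then P and Q commute elementwise and intersect trivially, and PQ contains its own centralizer in S. -/
theorem result {S : Type*} [Group S] [Finite S] (h2 : IsPGroup 2 S) (hr : Cfsg.SectionalPRankLE 2 4 S)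
    (P Q : Subgroup S) [P.Normal] [Q.Normal] (hP : ¬ IsMulCommutative ↥P) (hQ : ¬ IsMulCommutative ↥Q)
    (hZP : Nat.card ↥(Subgroup.center ↥P) = 2) (hZQ : Nat.card ↥(Subgroup.center ↥Q) = 2)
    (hne : (Subgroup.center ↥P).map P.subtype ≠ (Subgroup.center ↥Q).map Q.subtype) :
    ⁅P, Q⁆ = ⊥ ∧ P ⊓ Q = ⊥ ∧ Subgroup.centralizer ((P ⊔ Q : Subgroup S) : Set S) ≤ P ⊔ Q := by
  obtain ⟨z, hz, ez⟩ := exists_CZ hP hZP
  obtain ⟨w, hw, ew⟩ := exists_CZ hQ hZQ
  have hzw : z ≠ w := fun e => hne (by rw [ez, ew, e])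
  obtain ⟨h1, h3, h4⟩ := hz.pair h2 (secLE_of_sectional hr) (S := ⊤) hw hzw le_top le_top
    (fun s _ x hx => Normal.conj_mem inferInstance x hx s)
    (fun s _ x hx => Normal.conj_mem inferInstance x hx s)
  refine ⟨?_, h1, fun c hc => h4 c (fun y hy => (hc y (mem_sup_left hy)).symm)
    (fun y hy => (hc y (mem_sup_right hy)).symm)⟩
  rw [commutator_eq_bot_iff_le_centralizer]
  exact fun a ha b hb => (h3 a ha b hb).symm

end Cfsg.Agent.S4400
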