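import Cfsg.Statements.S4401
import Cfsg.Agent.H69.SecRank

set_option autoImplicit false
open Cfsg

namespace Cfsg.Agent.S4401

open Subgroup Cfsg.Agent.H69

/-- Let S be a finite 2-group of sectional 2-rank at most 4 and P a proper non-abelian subgroup whose centre has order 2. Let S₀ be the centralizer in S of Z(P) and suppose P is normal in S₀. Then either S₀ = S, or P has sectional 2-rank at most 2 and S₀ has index 2 in S. -/
theorem result {S : Type*} [Group S] [Finite S] (h2 : IsPGroup 2 S) (hr : Cfsg.SectionalPRankLE 2 4 S)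
    (P : Subgroup S) (hPlt : P ≠ ⊤) (hP : ¬ IsMulCommutative ↥P) (hZP : Nat.card ↥(Subgroup.center ↥P) = 2)
    (S₀ : Subgroup S) (hS₀ : S₀ = Subgroup.centralizer (((Subgroup.center ↥P).map P.subtype : Subgroup S) : Set S))
    (hPn : ∀ s ∈ S₀, ∀ x ∈ P, s * x * s⁻¹ ∈ P) :
    S₀ = ⊤ ∨ (Cfsg.SectionalPRankLE 2 2 ↥P ∧ S₀.index = 2) := by
  obtain ⟨z, hz, ez⟩ := exists_CZ hP hZP
  have hr' := secLE_of_sectional hr
  have hmem : ∀ s, s ∈ S₀ ↔ s * z = z * s := by
    intro s
    rw [hS₀, ez, zpowers_eq_closure, centralizer_closure, mem_centralizer_singleton_iff]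
  have hPS : P ≤ S₀ := fun x hx => (hmem x).2 (hz.cen x hx)
  refine or_iff_not_imp_left.2 fun hne => ?_
  have hnil := h2.isNilpotent
  have hnc := Group.normalizerCondition_of_isNilpotent (G := S)
  -- conjugates of `P` under the normalizer
  have hconj : ∀ g ∈ normalizer (S₀ : Set S), P.map (MulAut.conj g).toMonoidHom ≤ S₀ ∧
      ∀ s ∈ S₀, ∀ x ∈ P.map (MulAut.conj g).toMonoidHom,
        s * x * s⁻¹ ∈ P.map (MulAut.conj g).toMonoidHom := by
    intro g hg
    refine ⟨?_, ?_⟩
    · rintro _ ⟨x, hx, rfl⟩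
      exact (mem_normalizer_iff.1 hg x).1 (hPS hx)
    · rintro s hs _ ⟨x, hx, rfl⟩
      have : g⁻¹ * s * g ∈ S₀ := by
        have := (mem_normalizer_iff.1 (inv_mem hg) s).1 hs
        simpa using this
      refine ⟨_, hPn _ this x hx, ?_⟩
      simp [mul_assoc]
  have hzne : ∀ g, g ∉ S₀ → z ≠ g * z * g⁻¹ := by
    intro g hg e
    apply hg
    rw [hmem]
    calc g * z = g * z * g⁻¹ * g := by group
      _ = z * g := by rw [← e]
  obtain ⟨g, hgN, hgS⟩ := SetLike.exists_of_lt (hnc S₀ (lt_top_iff_ne_top.2 hne))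
  set Q := P.map (MulAut.conj g).toMonoidHom with hQ
  set w := g * z * g⁻¹ with hw
  have hwQ : CZ Q w := hz.conj g
  obtain ⟨hi, hc, hcen⟩ := hz.pair h2 hr' hwQ (hzne g hgS) hPS (hconj g hgN).1 hPn (hconj g hgN).2
  -- every element of the normalizer outside `S₀` maps `z` to `w`
  have hsw : ∀ n ∈ normalizer (S₀ : Set S), n ∉ S₀ → n * z * n⁻¹ = w := by
    intro n hn hnS
    by_contra hne'
    have hR := hz.conj n
    obtain ⟨-, c1, -⟩ := hz.pair h2 hr' hR (hzne n hnS) hPS (hconj n hn).1 hPn (hconj n hn).2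
    obtain ⟨-, c2, -⟩ := hwQ.pair h2 hr' hR (Ne.symm hne') (hconj g hgN).1 (hconj n hn).1
      (hconj g hgN).2 (hconj n hn).2
    obtain ⟨x, hx, y, hy, hxy⟩ := hR.nonab
    apply hxy
    obtain ⟨a, ha, b, hb, rfl⟩ := exists_mul_of_mem_sup_comm hc
      (hcen x (fun u hu => (c1 u hu x hx).symm) (fun u hu => (c2 u hu x hx).symm))
    exact (Commute.mul_left (c1 a ha y hy) (c2 b hb y hy)).eq
  have hwS : ∀ s ∈ S₀, s * w = w * s := by
    intro s hs
    have : g⁻¹ * s * g ∈ S₀ := by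
      have := (mem_normalizer_iff.1 (inv_mem hgN) s).1 hs
      simpa using this
    rw [hmem] at this
    calc s * w = g * (g⁻¹ * s * g * z) * g⁻¹ := by rw [hw]; group
      _ = _ := by rw [this, hw]; group
  have hcos : ∀ n ∈ normalizer (S₀ : Set S), n ∉ S₀ → g⁻¹ * n ∈ S₀ := by
    intro n hn hnS
    rw [hmem]
    calc g⁻¹ * n * z = g⁻¹ * (n * z * n⁻¹) * n := by group
      _ = _ := by rw [hsw n hn hnS, hw]; group
  have hg2 : g * g ∈ S₀ := by
    have := S₀.inv_mem (hcos g⁻¹ (inv_mem hgN) (fun h => hgS (by simpa using S₀.inv_mem h)))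
    simpa using this
  have hgw : g * w * g⁻¹ = z := by
    have := (hmem _).1 hg2
    calc g * w * g⁻¹ = (g * g * z) * (g * g)⁻¹ := by rw [hw]; group
      _ = z := by rw [this]; group
  have hzw : z * w = w * z := hc z hz.mem w hwQ.mem
  have hzS : z ∈ S₀ := hPS hz.mem
  -- `z * w` is central in the normalizer
  have hcN : ∀ n ∈ normalizer (S₀ : Set S), n * (z * w) * n⁻¹ = z * w := by
    intro n hn
    have hS : ∀ s ∈ S₀, s * (z * w) * s⁻¹ = z * w := by
      intro s hs
      calc s * (z * w) * s⁻¹ = (s * z) * w * s⁻¹ := by group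
        _ = z * (s * w) * s⁻¹ := by rw [(hmem s).1 hs]; group
        _ = _ := by rw [hwS s hs]; group
    by_cases hnS : n ∈ S₀
    · exact hS n hnS
    · calc n * (z * w) * n⁻¹ = g * (g⁻¹ * n * (z * w) * (g⁻¹ * n)⁻¹) * g⁻¹ := by group
        _ = g * z * g⁻¹ * (g * w * g⁻¹) := by rw [hS _ (hcos n hn hnS)]; group
        _ = _ := by rw [hgw, ← hw, hzw]
  have htop : normalizer (S₀ : Set S) = ⊤ := by
    by_contra hN
    obtain ⟨h, hhN, hhS⟩ := SetLike.exists_of_lt (hnc _ (lt_top_iff_ne_top.2 hN))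
    apply hhS
    have hcj : ∀ n ∈ normalizer (S₀ : Set S), h * n * h⁻¹ ∈ normalizer (S₀ : Set S) :=
      fun n hn => (mem_normalizer_iff.1 hhN n).1 hn
    have hcj' : ∀ n ∈ normalizer (S₀ : Set S), h⁻¹ * n * h ∈ normalizer (S₀ : Set S) := by
      intro n hn
      have := (mem_normalizer_iff.1 (inv_mem hhN) n).1 hn
      simpa using this
    have hSN : S₀ ≤ normalizer (S₀ : Set S) := le_normalizer
    have hwS0 : w ∈ S₀ := (hconj g hgN).1 hwQ.mem
    -- `h` fixes `z * w`
    have e1 : h * (z * w) * h⁻¹ = z * w := by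
      have hc1 : ∀ n ∈ normalizer (S₀ : Set S), h * (z * w) * h⁻¹ * n = n * (h * (z * w) * h⁻¹) := by
        intro n hn
        calc h * (z * w) * h⁻¹ * n
            = h * (h⁻¹ * n * h * (z * w) * (h⁻¹ * n * h)⁻¹) * h⁻¹ * n := by rw [hcN _ (hcj' n hn)]
          _ = _ := by group
      have hc2 := fun y (hy : y ∈ P) => hc1 y (hSN (hPS hy))
      have hc3 := fun y (hy : y ∈ Q) => hc1 y (hSN ((hconj g hgN).1 hy))
      have hg1 := hc1 g hgN
      rcases hz.mem_of_cent hwQ hc (hcen _ hc2 hc3) hc2 hc3 with e | e | e | e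
      · exfalso
        apply hzne g hgS
        have : z * w = 1 := by simpa using e
        calc z = z * (z * w) := by rw [this, mul_one]
          _ = w := by rw [← mul_assoc, hz.zz, one_mul]
      · exact absurd ((hmem g).2 (by rw [e] at hg1; exact hg1.symm)) hgS
      · exfalso
        apply hzne g hgS
        rw [e] at hg1
        calc z = g * w * g⁻¹ := hgw.symm
          _ = w := by rw [← hg1]; group
      · exact e
    set x := h * z * h⁻¹ with hx
    have hxN : x ∈ normalizer (S₀ : Set S) := hcj z (hSN hzS)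
    have hcomm : ∀ n ∈ normalizer (S₀ : Set S), n * x * n⁻¹ = x ∨ n * x * n⁻¹ = x * (z * w) := by
      intro n hn
      by_cases hnS : h⁻¹ * n * h ∈ S₀
      · left
        calc n * x * n⁻¹ = h * (h⁻¹ * n * h * z) * h⁻¹ * n⁻¹ := by rw [hx]; group
          _ = x := by rw [(hmem _).1 hnS, hx]; group
      · right
        calc n * x * n⁻¹ = h * (h⁻¹ * n * h * z * (h⁻¹ * n * h)⁻¹) * h⁻¹ := by rw [hx]; group
          _ = h * (z * z * w) * h⁻¹ := by rw [hsw _ (hcj' n hn) hnS, hz.zz, one_mul]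
          _ = x * (h * (z * w) * h⁻¹) := by rw [hx]; group
          _ = _ := by rw [e1]
    have hw1 : w ∉ P := fun h => hwQ.ne (mem_bot.1 (hi ▸ ⟨h, hwQ.mem⟩ : w ∈ (⊥ : Subgroup S)))
    have hz1 : z ∉ Q := fun h => hz.ne (mem_bot.1 (hi ▸ ⟨hz.mem, h⟩ : z ∈ (⊥ : Subgroup S)))
    have hxS : x ∈ S₀ := by
      by_contra hxS
      obtain ⟨p, hp, q, hq, hpq⟩ := hz.nonab
      have hs := hcos x hxN hxS
      have hpQ : x * p * x⁻¹ ∈ Q := ⟨_, hPn _ hs p hp, by simp [mul_assoc]⟩
      have hp1 : p ≠ 1 := by rintro rfl; simp at hpq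
      have hpz : p ≠ z := by rintro rfl; exact hpq (hz.cen q hq).symm
      rcases hcomm p⁻¹ (hSN (hPS (P.inv_mem hp))) with e | e
      · have : x * p * x⁻¹ = p := by
          calc x * p * x⁻¹ = p * (p⁻¹ * x * p⁻¹⁻¹) * x⁻¹ := by group
            _ = p := by rw [e]; group
        rw [this] at hpQ
        exact hp1 (mem_bot.1 (hi ▸ ⟨hp, hpQ⟩ : p ∈ (⊥ : Subgroup S)))
      · have e' : x * p * x⁻¹ = p * z * w := by
          calc x * p * x⁻¹ = p * (p⁻¹ * x * p⁻¹⁻¹) * x⁻¹ := by group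
            _ = p * (x * (z * w) * x⁻¹) := by rw [e]; group
            _ = _ := by rw [hcN x hxN]; group
        rw [e'] at hpQ
        have : p * z ∈ Q := by simpa using Q.mul_mem hpQ (Q.inv_mem hwQ.mem)
        have h1 : p * z = 1 := mem_bot.1 (hi ▸ ⟨P.mul_mem hp hz.mem, this⟩ : p * z ∈ (⊥ : Subgroup S))
        apply hpz
        calc p = p * (z * z) := by rw [hz.zz, mul_one]
          _ = z := by rw [← mul_assoc, h1, one_mul]
    have hxP : ∀ y ∈ P, x * y = y * x := by
      intro y hy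
      rcases hcomm y (hSN (hPS hy)) with e | e
      · calc x * y = y * x * y⁻¹ * y := by rw [e]
          _ = _ := by group
      · exfalso
        apply hw1
        have h1 : z * w = x⁻¹ * y * x⁻¹⁻¹ * y⁻¹ := by
          calc z * w = x⁻¹ * (x * (z * w)) := by group
            _ = _ := by rw [← e]; group
        have h3 : z * w ∈ P := h1 ▸ P.mul_mem (hPn _ (S₀.inv_mem hxS) y hy) (P.inv_mem hy)
        simpa using P.mul_mem (P.inv_mem hz.mem) h3
    have hxQ : ∀ y ∈ Q, x * y = y * x := by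
      intro y hy
      rcases hcomm y (hSN ((hconj g hgN).1 hy)) with e | e
      · calc x * y = y * x * y⁻¹ * y := by rw [e]
          _ = _ := by group
      · exfalso
        apply hz1
        have h1 : z * w = x⁻¹ * y * x⁻¹⁻¹ * y⁻¹ := by
          calc z * w = x⁻¹ * (x * (z * w)) := by group
            _ = _ := by rw [← e]; group
        have h3 : z * w ∈ Q :=
          h1 ▸ Q.mul_mem ((hconj g hgN).2 _ (S₀.inv_mem hxS) y hy) (Q.inv_mem hy)
        simpa using Q.mul_mem h3 (Q.inv_mem hwQ.mem)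
    rcases hz.mem_of_cent hwQ hc (hcen _ hxP hxQ) hxP hxQ with e | e | e | e
    · exact absurd (by simpa [hx] using e) hz.ne
    · apply hSN
      rw [hmem]
      calc h * z = x * h := by rw [hx]; group
        _ = _ := by rw [e]
    · have : g⁻¹ * h ∈ S₀ := by
        rw [hmem]
        calc g⁻¹ * h * z = g⁻¹ * x * h := by rw [hx]; group
          _ = _ := by rw [e, hw]; group
      simpa using mul_mem hgN (hSN this)
    · exfalso
      rw [← e1, hx] at e
      have : z = z * w := by simpa using e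
      exact hwQ.ne (by simpa using this)
  refine ⟨sectional_of_secLE (secLE_subgroup_iff.2 fun K N hKP hK => ?_), ?_⟩
  · by_contra hlt
    let f := (MulAut.conj g).toMonoidHom
    have hf : Function.Injective f := (MulAut.conj g).injective
    have hKQ : K.map f ≤ Q := map_mono hKP
    have hcK : ∀ a ∈ K, ∀ b ∈ K.map f, a * b = b * a := fun a ha b hb => hc a (hKP ha) b (hKQ hb)
    have hK' : ∀ x ∈ K, x ^ 2 ∈ N ⊓ K := fun x hx => ⟨hK x hx, pow_mem hx 2⟩
    have b1 := card_le_of_secLE hr' (K := K ⊔ K.map f) (N := N ⊓ K ⊔ (N ⊓ K).map f)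
      (fun x hx => sq_mem_sup_comm hcK hK' (by
        rintro _ ⟨y, hy, rfl⟩
        exact ⟨y ^ 2, hK' y hy, map_pow f y 2⟩) hx)
    have hiK : K ⊓ K.map f = ⊥ := eq_bot_iff.2 ((inf_le_inf hKP hKQ).trans hi.le)
    rw [card_sup_comm hcK hiK, card_sup_comm (A := N ⊓ K)
      (fun a ha b hb => hcK a ha.2 b (map_mono inf_le_right hb))
      (eq_bot_iff.2 ((inf_le_inf inf_le_right (map_mono inf_le_right)).trans hiK.le)),
      card_map_of_injective hf, card_map_of_injective hf] at b1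
    have h3 : Nat.card (N.subgroupOf K) * N.relIndex K = Nat.card K := card_mul_index _
    have h4 : Nat.card (N.subgroupOf K) = Nat.card ↥(N ⊓ K) := by
      rw [← card_map_of_injective K.subtype_injective, subgroupOf_map_subtype]
    rw [h4] at h3
    have h5 : 0 < Nat.card ↥(N ⊓ K) := Nat.card_pos
    rw [← h3] at b1
    have h6 : 5 ≤ N.relIndex K := by omega
    have h7 : 25 ≤ N.relIndex K * N.relIndex K := Nat.mul_le_mul h6 h6
    have h8 : 0 < Nat.card ↥(N ⊓ K) * Nat.card ↥(N ⊓ K) := Nat.mul_pos h5 h5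
    nlinarith
  · rw [index_eq_two_iff']
    refine ⟨g⁻¹, fun b => ?_⟩
    by_cases hb : b ∈ S₀
    · refine Or.inr ⟨hb, fun h => hgS ?_⟩
      simpa using S₀.inv_mem (S₀.mul_mem h (S₀.inv_mem hb))
    · exact Or.inl ⟨hcos b (htop ▸ mem_top b) hb, hb⟩

end Cfsg.Agent.S4401
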