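import Cfsg.Statements.S4403
import Cfsg.Agent.H89.PBasic
import Cfsg.Agent.H52.FStar
import Cfsg.Agent.H3.Fitting
import Cfsg.Agent.H90.Metacyclic
import Cfsg.Agent.H38.HupP
import Cfsg.Agent.S0081

set_option autoImplicit false
open Cfsg

namespace Cfsg.Agent.S4403

open Subgroup H89

theorem exists_mem_inf {G : Type*} [Group G] [Finite G] {p : ℕ} [hp : Fact p.Prime] (P : Sylow p G)
    (hP : IsCyclic (P : Subgroup G)) {A B : Subgroup G} (h : ⁅A, B⁆ = ⊥) (hA : p ∣ Nat.card A)
    (hB : p ∣ Nat.card B) : A ⊓ centralizer (A : Set G) ≠ ⊥ := by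
  obtain ⟨a, ha, hao⟩ := H3.exists_mem_orderOf_eq_prime hp.out hA
  obtain ⟨b, hb, hbo⟩ := H3.exists_mem_orderOf_eq_prime hp.out hB
  have h1 : IsPGroup p (zpowers a ⊔ zpowers b : Subgroup G) :=
    IsPGroup.to_sup_of_normal_left' (H90.isPGroup_zpowers (k := 1) (by simp [← hao]))
      (H90.isPGroup_zpowers (k := 1) (by simp [← hbo])) (H52.le_normalizer_of_commutator_eq_bot
        (H52.commutator_eq_bot_symm (H52.commutator_eq_bot_mono h (zpowers_le.2 ha)
          (zpowers_le.2 hb))))
  obtain ⟨Q, hQ⟩ := h1.exists_le_sylow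
  have : IsCyclic (Q : Subgroup G) := isCyclic_of_surjective _ (Sylow.equiv P Q).surjective
  have h2 := H38.zpowers_eq_of_isCyclic (C := (Q : Subgroup G))
    (x := ⟨a, hQ (mem_sup_left (mem_zpowers a))⟩) (y := ⟨b, hQ (mem_sup_right (mem_zpowers b))⟩)
    (by rw [orderOf_mk, orderOf_mk, hao, hbo])
  obtain ⟨k, hk⟩ := h2.le (mem_zpowers _)
  have h3 : a ∈ B := (show b ^ k = a from congrArg Subtype.val hk) ▸ zpow_mem hb k
  intro h4
  exact H90.ne_one_of_orderOf_prime hp.out hao
    (mem_bot.1 (h4 ▸ ⟨ha, H52.commutator_eq_bot_iff_le_centralizer'.1 h h3⟩))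

/-- Let K be a finite group, p a prime dividing its order with O_{p'}(K) = 1 (no nontrivial normal subgroup of order prime to p), and P a cyclic Sylow p-subgroup of K. Then either P is normal and self-centralizing in K with K/P cyclic of order dividing p − 1 (so K is the semidirect product of P by a group of automorphisms of P of order dividing p − 1), or the generalized Fitting subgroup F*(K) is a non-abelian simple group and p does not divide the index of F*(K) in K. -/
theorem result {K : Type*} [Group K] [Finite K] (p : ℕ) [Fact p.Prime] (hp : p ∣ Nat.card K) (hO : Cfsg.pPrimeCore p K = ⊥)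
    (P : Sylow p K) (hP : IsCyclic ↥(P : Subgroup K)) :
    ((P : Subgroup K).Normal ∧ Subgroup.centralizer ((P : Subgroup K) : Set K) = (P : Subgroup K) ∧
      (∀ (_ : (P : Subgroup K).Normal), IsCyclic (K ⧸ (P : Subgroup K))) ∧ (P : Subgroup K).index ∣ p - 1) ∨
    (IsSimpleGroup ↥(Cfsg.generalizedFittingSubgroup K) ∧ ¬ IsMulCommutative ↥(Cfsg.generalizedFittingSubgroup K) ∧
      ¬ p ∣ (Cfsg.generalizedFittingSubgroup K).index) := by
  have hp' : p.Prime := Fact.out
  have h0 : pCore p K ≤ P := (H3.pCore_isPGroup p K).le_sylow_of_normal P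
  by_cases hE : layer K = ⊥
  · have h1 := H52.fstar_eq_pCore_iff_centralizer_le.1 (H52.fstar_eq_pCore_iff.2 ⟨hE, hO⟩)
    have h2 : (P : Subgroup K) = pCore p K :=
      le_antisymm (((le_centralizer _).trans (centralizer_le h0)).trans h1) h0
    have h3 : (P : Subgroup K).Normal := h2 ▸ inferInstance
    have h4 : centralizer ((P : Subgroup K) : Set K) = P :=
      le_antisymm (by rw [h2]; exact h1) (le_centralizer _)
    have h5 : (MulAut.conjNormal : K →* MulAut (P : Subgroup K)).ker = P := by
      refine Eq.trans ?_ h4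
      ext x
      simp only [MonoidHom.mem_ker, mem_centralizer_iff, MulEquiv.ext_iff, Subtype.ext_iff,
        MulAut.conjNormal_apply, Subtype.forall, MulAut.one_apply, mul_inv_eq_iff_eq_mul,
        SetLike.mem_coe]
      exact forall₂_congr fun _ _ => eq_comm
    obtain ⟨n, hn⟩ := IsPGroup.iff_card.1 P.isPGroup'
    have h6 : (P : Subgroup K).index ∣ p - 1 := by
      have h6 := card_subgroup_dvd_card (MulAut.conjNormal : K →* MulAut (P : Subgroup K)).range
      rw [← index_ker, h5, IsCyclic.card_mulAut, hn] at h6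
      rcases n with _ | n
      · rw [show (P : Subgroup K).index = 1 by simpa using h6]
        exact one_dvd _
      · rw [Nat.totient_prime_pow_succ hp'] at h6
        exact ((hp'.coprime_iff_not_dvd.2 P.not_dvd_index).symm.pow_right n).dvd_of_dvd_mul_left h6
    refine Or.inl ⟨h3, h4, fun _ => ?_, h6⟩
    by_cases h7 : p = 2
    · subst h7
      exact isCyclic_of_card_dvd_prime (p := 2) (h6.trans (one_dvd _))
    · have : IsCyclic (ZMod (Nat.card (P : Subgroup K)))ˣ :=
        hn ▸ ZMod.isCyclic_units_of_prime_pow p hp' h7 n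
      have : IsCyclic (MulAut (P : Subgroup K)) :=
        isCyclic_of_surjective _ (IsCyclic.mulAutMulEquiv (P : Subgroup K)).symm.surjective
      exact isCyclic_of_surjective _ ((QuotientGroup.quotientKerEquivRange _).symm.trans
        (QuotientGroup.quotientMulEquivOfEq h5)).surjective
  obtain ⟨L, hL⟩ := H52.layer_ne_bot_iff.1 hE
  have hLp := H52.IsComponent.dvd_card_of_pPrimeCore_eq_bot hO hL
  have hLq := H52.IsComponent.isQuasisimple hL
  have h1 : center L = ⊥ := by
    have h1 : IsPGroup p (center L) := by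
      refine ((H3.pCore_isPGroup p K).comap_subtype (K := L)).to_le fun x hx => ?_
      rw [← H3.fitting_eq_pCore hO]
      exact H52.IsComponent.center_le_fitting hL (H52.map_center_subtype L ▸ mem_map_of_mem _ hx)
    obtain ⟨S, hS⟩ := h1.exists_le_sylow
    obtain ⟨Q, hQ⟩ := S.exists_comap_subtype_eq
    have : IsCyclic (Q : Subgroup K) := isCyclic_of_surjective _ (Sylow.equiv P Q).surjective
    have : IsMulCommutative (S : Subgroup L) := hQ ▸ comap_injective_isMulCommutative _ L.subtype_injective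
    have h2 := H8.center_inf_commutator_inf_sylow_le S
    rwa [commutator_self_eq_bot_iff.2 this, hLq.1.commutator_eq_top, inf_top_eq, inf_eq_left.2 hS,
      le_bot_iff] at h2
  have h2 : L ⊓ centralizer (L : Set K) = ⊥ := by rw [← H52.map_center_subtype, h1, Subgroup.map_bot]
  have h3 : generalizedFittingSubgroup K = L := by
    refine le_antisymm ?_ (H52.IsComponent.le_fstar hL)
    rw [H52.fstar_eq_layer_sup_pCore hO, sup_le_iff, H52.layer_le_iff]
    refine ⟨fun M hM => ?_, ?_⟩
    · by_contra h3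
      exact exists_mem_inf P hP (H52.IsComponent.commutator_eq_bot_of_ne hL hM
        fun h4 => h3 h4.ge) hLp (H52.IsComponent.dvd_card_of_pPrimeCore_eq_bot hO hM) h2
    · rcases (H3.pCore_isPGroup p K).card_eq_or_dvd with h3 | h3
      · rw [card_eq_one.1 h3]; exact bot_le
      · exact absurd h2 (exists_mem_inf P hP (H52.IsComponent.commutator_pCore hL) hLp h3)
  have hN : L.Normal := h3 ▸ H52.fstar_normal
  have h4 := H52.IsQuasisimple.isSimpleGroup_of_center_eq_bot hLq h1
  rw [h3]
  refine Or.inr ⟨h4, H52.IsQuasisimple.not_isMulCommutative hLq, fun h5 => ?_⟩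
  obtain ⟨g, hg⟩ := (Subgroup.isCyclic_iff_exists_zpowers_eq_top _).1 hP
  have hgP : g ∈ (P : Subgroup K) := hg ▸ mem_zpowers g
  obtain ⟨Q, N, hN', h6⟩ := S0081.result P L fun x hx => by
    obtain ⟨k, rfl⟩ := H90.exists_nat_pow_of_mem_zpowers (hg.ge hx.2)
    by_cases h6 : p ∣ k
    · obtain ⟨j, rfl⟩ := h6
      exact ⟨⟨g, hgP⟩ ^ (p * j), by
        rw [mul_comm, pow_mul]; exact pow_mem_frattini P.isPGroup' _, rfl⟩
    · obtain ⟨n, hn⟩ := P.isPGroup' ⟨g, hgP⟩
      have h7 := H90.mem_of_pow_mem_of_coprime hx.1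
        (H90.coprime_orderOf_of_not_dvd (congrArg Subtype.val hn) h6)
      exact absurd (h5.trans (index_dvd_of_le (hg ▸ zpowers_le.2 h7))) P.not_dvd_index
  rcases hN'.eq_bot_or_eq_top with rfl | rfl
  · have h7 : (Q : Subgroup L) = ⊤ := by simpa using h6.sup_eq_top
    exact H52.IsQuasisimple.not_isPGroup hLq ((h7 ▸ Q.isPGroup').of_equiv topEquiv)
  · have h7 := h6.index_eq_card
    rw [card_top] at h7
    exact Q.not_dvd_index (h7 ▸ hLp)

end Cfsg.Agent.S4403
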