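import Cfsg.Statements.S4404
import Cfsg.Agent.H86.NG4

set_option autoImplicit false
open Cfsg

namespace Cfsg.Agent.S4404

/-- Let S be a finite solvable group and M a normal elementary abelian 2-subgroup of S. Suppose S contains an elementary abelian subgroup of order p³ for some odd prime p, and a cyclic 3-subgroup Q such that the cubes of the elements of Q centralize M and the commutator subgroup [Q, M] has order 4 (a four-group inside M). Then S contains an elementary abelian subgroup F of order r³, for some odd prime r, whose centralizer of [Q, M] in F — the subgroup C_F([Q, M]) — is not cyclic. -/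
theorem result {S : Type*} [Group S] [Finite S]
    [Group.IsSolvable S] (M : Subgroup S) [M.Normal] (hM : Cfsg.IsElementaryAbelian 2 M)
    (p : ℕ) (hp : p.Prime) (hp2 : p ≠ 2) (E : Subgroup S) (hE : Cfsg.IsElementaryAbelian p E) (hE3 : Nat.card ↥E = p ^ 3)
    (Q : Subgroup S) (hQc : IsCyclic ↥Q) (hQ3 : IsPGroup 3 ↥Q)
    (hQ1 : ∀ x ∈ Q, x ^ 3 ∈ Subgroup.centralizer (M : Set S)) (hQM : Nat.card ↥⁅Q, M⁆ = 4) :
    ∃ (r : ℕ) (F : Subgroup S), r.Prime ∧ r ≠ 2 ∧ Cfsg.IsElementaryAbelian r F ∧ Nat.card ↥F = r ^ 3 ∧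
      ¬ IsCyclic ↥(F ⊓ Subgroup.centralizer ((⁅Q, M⁆ : Subgroup S) : Set S)) := by
  have := hM.1
  let _ : CommGroup M := { (inferInstance : Group M) with mul_comm := hM.1.is_comm.comm }
  let _ : MulDistribMulAction S M := MulDistribMulAction.compHom M (MulAut.conjNormal (H := M))
  have sm : ∀ (g : S) (m : M), ((g • m : M) : S) = g * m * g⁻¹ := fun _ _ => rfl
  obtain ⟨x, rfl⟩ := (Subgroup.isCyclic_iff_exists_zpowers_eq_top Q).1 hQc
  have e : ⁅Subgroup.zpowers x, M⁆ = (H86.NG4.V M x).map M.subtype := by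
    refine le_antisymm (Subgroup.commutator_le.2 fun g hg m hm => ?_) ?_
    · have h : Subgroup.zpowers x ≤ H86.NG4.St S (H86.NG4.V M x) :=
        Subgroup.zpowers_le.2 (H86.NG4.St_of_V le_rfl)
      refine ⟨g • ⟨m, hm⟩ / ⟨m, hm⟩, ?_, by simp [sm, commutatorElement_def, div_eq_mul_inv]⟩
      obtain ⟨i, rfl⟩ := (Submonoid.mem_powers_iff _ _).1 (mem_powers_iff_mem_zpowers.2 hg)
      clear hg
      induction i with
      | zero => simp
      | succ n ih =>
        rw [pow_succ', mul_smul, ← div_mul_div_cancel _ (x ^ n • (⟨m, hm⟩ : M))]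
        exact Subgroup.mul_mem _ ⟨_, rfl⟩ ih
    · rintro _ ⟨_, ⟨m, rfl⟩, rfl⟩
      have := Subgroup.commutator_mem_commutator (Subgroup.mem_zpowers x) m.2
      simpa [sm, commutatorElement_def, div_eq_mul_inv] using this
  refine H86.NG4.main (M := M) (fun m => Subtype.ext (hM.2 m m.2)) hp hp2 hE hE3 hQ3
    (fun m => Subtype.ext ?_) ?_ fun g h => ?_
  · rw [sm, ← hQ1 x (Subgroup.mem_zpowers x) m m.2, mul_inv_cancel_right]
  · rw [← hQM, e, Subgroup.card_map_of_injective M.subtype_injective]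
  · rw [e]
    rintro _ ⟨u, hu, rfl⟩
    exact (mul_inv_eq_iff_eq_mul.1 ((sm g u).symm.trans (congrArg Subtype.val (h u hu)))).symm

end Cfsg.Agent.S4404
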