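import Cfsg.Statements.S4405
import Cfsg.Agent.H3.Primitive
import Cfsg.Agent.H3.Fitting
import Cfsg.Agent.H3.Frattini
import Cfsg.Agent.H9.BaerSuzuki
import Cfsg.Agent.H12.Burnside
import Cfsg.Agent.H83.CharP

set_option autoImplicit false
open Cfsg

namespace Cfsg.Agent.S4405

open Subgroup
open scoped commutatorElement

theorem norm5 {Q : Type*} [Group Q] {E : Subgroup Q} (hc : ∀ a ∈ E, ∀ b ∈ E, a * b = b * a)
    (h2 : ∀ a ∈ E, a * a = 1) {W t c : Q} (hW : W ^ 5 = 1) (hn : ∀ a ∈ E, W * a * W⁻¹ ∈ E)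
    (hf : ∀ a ∈ E, W * a * W⁻¹ = a → a = 1) (ht : t * W * t⁻¹ = W⁻¹) (hcE : c ∈ E)
    (htc : t * c * t⁻¹ = c) : ∃ h ∈ E, c = h⁻¹ * (t * h * t⁻¹) := by
  obtain ⟨a1, d1⟩ : ∃ a, W * c * W⁻¹ = a := ⟨_, rfl⟩
  obtain ⟨a2, d2⟩ : ∃ a, W * a1 * W⁻¹ = a := ⟨_, rfl⟩
  obtain ⟨a3, d3⟩ : ∃ a, W * a2 * W⁻¹ = a := ⟨_, rfl⟩
  obtain ⟨a4, d4⟩ : ∃ a, W * a3 * W⁻¹ = a := ⟨_, rfl⟩
  have m1 := d1 ▸ hn _ hcE
  have m2 := d2 ▸ hn _ m1
  have m3 := d3 ▸ hn _ m2
  have m4 := d4 ▸ hn _ m3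
  have d5 : W * a4 * W⁻¹ = c := by
    calc _ = W ^ 5 * c * (W ^ 5)⁻¹ := by
          rw [← d4, ← d3, ← d2, ← d1]
          simp only [pow_succ, pow_zero, one_mul, mul_inv_rev, mul_assoc]
      _ = _ := by rw [hW, one_mul, inv_one, mul_one]
  have key : ∀ a, t * (W * a * W⁻¹) * t⁻¹ = W⁻¹ * (t * a * t⁻¹) * W := fun a => by
    calc _ = (t * W * t⁻¹) * (t * a * t⁻¹) * (t * W * t⁻¹)⁻¹ := by
          simp only [mul_inv_rev, inv_inv, mul_assoc, inv_mul_cancel_left]
      _ = _ := by rw [ht, inv_inv]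
  have t1 : t * a1 * t⁻¹ = a4 := by
    rw [← d1, key, htc, ← d5]; simp only [mul_assoc, inv_mul_cancel_left, inv_mul_cancel, mul_one]
  have t2 : t * a2 * t⁻¹ = a3 := by
    rw [← d2, key, t1, ← d4]; simp only [mul_assoc, inv_mul_cancel_left, inv_mul_cancel, mul_one]
  have mN : a1 * a2 * a3 * a4 ∈ E := E.mul_mem (E.mul_mem (E.mul_mem m1 m2) m3) m4
  have hN := hf _ (E.mul_mem hcE mN) (by
    calc _ = (W * c * W⁻¹) * (W * a1 * W⁻¹) * (W * a2 * W⁻¹) * (W * a3 * W⁻¹) * (W * a4 * W⁻¹) := by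
          simp only [mul_assoc, inv_mul_cancel_left]
      _ = _ := by rw [d1, d2, d3, d4, d5, hc c hcE _ mN])
  refine ⟨a1 * a2, E.mul_mem m1 m2, ?_⟩
  rw [inv_eq_of_mul_eq_one_right (h2 _ (E.mul_mem m1 m2))]
  have : t * (a1 * a2) * t⁻¹ = (t * a1 * t⁻¹) * (t * a2 * t⁻¹) := by
    simp only [mul_assoc, inv_mul_cancel_left]
  rw [this, t1, t2, hc a4 m4 a3 m3, ← mul_assoc]
  exact mul_left_cancel ((h2 c hcE).trans hN.symm)

/-- Let G be a finite group of order 320 = 64·5 whose largest normal 2-subgroup H = O₂(G) equals the Fitting subgroup F(G) and is extraspecial of order 32 containing no elementary abelian subgroup of order 8 (so H is the central product of a quaternion group and a dihedral group of order 8). If T is an involution of G outside H whose centralizer in H contains an elementary abelian subgroup of order 4, then C_H(T) itself is elementary abelian of order 4. -/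
theorem result {G : Type*} [Group G] [Finite G]
    (hG : Nat.card G = 320) (hHF : Cfsg.pCore 2 G = Cfsg.fittingSubgroup G)
    (hex : Cfsg.IsExtraspecial 2 ↥(Cfsg.pCore 2 G)) (h32 : Nat.card ↥(Cfsg.pCore 2 G) = 32)
    (hminus : ∀ A : Subgroup G, A ≤ Cfsg.pCore 2 G → Cfsg.IsElementaryAbelian 2 A → Nat.card ↥A ≤ 4)
    (T : G) (hT : orderOf T = 2) (hTH : T ∉ Cfsg.pCore 2 G)
    (V : Subgroup G) (hV : V ≤ Cfsg.pCore 2 G ⊓ Subgroup.centralizer ({T} : Set G)) (hV4 : Nat.card ↥V = 4) (hVe : Cfsg.IsElementaryAbelian 2 V) :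
    Nat.card ↥(Cfsg.pCore 2 G ⊓ Subgroup.centralizer ({T} : Set G)) = 4 ∧
      Cfsg.IsElementaryAbelian 2 (Cfsg.pCore 2 G ⊓ Subgroup.centralizer ({T} : Set G)) := by
  have : Fact (Nat.Prime 2) := ⟨Nat.prime_two⟩
  have : Fact (Nat.Prime 5) := ⟨by norm_num⟩
  have hHn : (pCore 2 G).Normal := pCore_normal 2 G
  have hHp : IsPGroup 2 (pCore 2 G) := H83.pCore_isPGroup
  have hle : ∀ N : Subgroup G, N.Normal → IsPGroup 2 N → N ≤ pCore 2 G :=
    fun N a b => H83.le_pCore a b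
  have hsol : Group.IsSolvable G := H12.isSolvable_of_card_dvd_pow_mul_pow (p := 2) (q := 5)
    (a := 6) (b := 1) Nat.prime_two (by norm_num) (by rw [hG]; norm_num)
  have hcf := H3.centralizer_fitting_le G
  rw [← hHF] at hcf
  generalize pCore 2 G = H at *
  have hT2 : T * T = 1 := by rw [← pow_two, ← hT, pow_orderOf_eq_one]
  have hTi : T⁻¹ = T := inv_eq_of_mul_eq_one_right hT2
  -- an element of order five inverted by `T`
  obtain ⟨w, hwo, hwT, hw1⟩ : ∃ a : G, Odd (orderOf a) ∧ T * a * T⁻¹ = a⁻¹ ∧ a ≠ 1 := by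
    by_contra hc
    push Not at hc
    exact hTH (hle _ inferInstance (H9.isPGroup_normalClosure_of_not_inverts hT2 hc)
      (subset_normalClosure (Set.mem_singleton T)))
  have hwc : (orderOf w).Coprime 2 := Nat.coprime_two_right.2 hwo
  have hw5 : w ^ 5 = 1 := by
    have h1 : orderOf w ∣ 2 ^ 6 * 5 := by
      have := _root_.orderOf_dvd_natCard w
      rwa [hG] at this
    exact orderOf_dvd_iff_pow_eq_one.1 ((hwc.pow_right 6).dvd_of_dvd_mul_left h1)
  -- the centre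
  set Z := H ⊓ centralizer (H : Set G) with hZ
  have hZn : Z.Normal := inferInstance
  have hZe : Z.subgroupOf H = center H := by
    ext x
    rw [mem_subgroupOf, mem_center_iff]
    exact ⟨fun h g => Subtype.ext (h.2 g g.2), fun h => ⟨x.2, fun g hg =>
      congrArg Subtype.val (h ⟨g, hg⟩)⟩⟩
  have hZ2 : Nat.card Z = 2 := by
    rw [← hex.2, ← hZe, Nat.card_congr (subgroupOfEquivOfLe inf_le_left).toEquiv]
  have hsq : ∀ a ∈ H, a * a ∈ Z := fun a ha => by
    have := H3.pow_mem_frattini hHp ⟨a, ha⟩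
    rw [hex.1.2.1, ← hZe, pow_two] at this
    exact this
  have hcm : ∀ a ∈ H, ∀ b ∈ H, ⁅a, b⁆ ∈ Z := fun a ha b hb => by
    have : ⁅(⟨a, ha⟩ : H), ⟨b, hb⟩⁆ ∈ commutator H :=
      commutator_mem_commutator (mem_top _) (mem_top _)
    rw [hex.1.2.2, ← hZe] at this
    exact this
  have hZ1 : ∀ a ∈ Z, a * a = 1 := fun a ha => by
    rw [← pow_two, ← hZ2]
    exact orderOf_dvd_iff_pow_eq_one.1 (orderOf_dvd_natCard Z ha)
  have hZc : ∀ a ∈ Z, ∀ g : G, g * a * g⁻¹ = a := fun a ha g => by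
    obtain ⟨z, hz1, hz⟩ := (Nat.card_eq_two_iff' (1 : Z)).1 hZ2
    by_cases h1 : a = 1
    · simp [h1]
    · have e1 := hz ⟨a, ha⟩ fun h => h1 (congrArg Subtype.val h)
      have e2 := hz ⟨_, hZn.conj_mem a ha g⟩ fun h => h1 (by
        simpa using congrArg Subtype.val h)
      exact congrArg Subtype.val (e2.trans e1.symm)
  let π : G →* G ⧸ Z := QuotientGroup.mk' Z
  have hπ : ∀ a, π a = 1 ↔ a ∈ Z := fun a => QuotientGroup.eq_one_iff a
  have hEn : (H.map π).Normal := hHn.map π (QuotientGroup.mk'_surjective Z)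
  have hE : Nat.card (H.map π) = 16 := by
    have h1 := (Z.subgroupOf H).card_mul_index
    rw [hZe, hex.2, h32, ← hZe] at h1
    rw [← relIndex_ker, QuotientGroup.ker_mk', relIndex]
    omega
  have hW : π w ^ 5 = 1 := by rw [← map_pow, hw5, map_one]
  have hF : H.map π ⊓ centralizer (zpowers (π w) : Set (G ⧸ Z)) = ⊥ := by
    have h1 := H3.card_modEq_card_inf_centralizer (q := 5) (Q := zpowers (π w)) (L := H.map π)
      (H83.isPGroup_zpowers (k := 1) (by simpa using hW)) le_normalizer_of_normal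
    have h2 := card_dvd_of_le
      (inf_le_left : H.map π ⊓ centralizer (zpowers (π w) : Set (G ⧸ Z)) ≤ _)
    have h3 : Nat.card ↥(H.map π ⊓ centralizer (zpowers (π w) : Set (G ⧸ Z))) ≠ 16 := fun h => by
      have h4 := eq_of_le_of_card_ge
        (inf_le_left : H.map π ⊓ centralizer (zpowers (π w) : Set (G ⧸ Z)) ≤ _) (by rw [h, hE])
      refine hw1 (H83.eq_one_of_mem_pgroup hHp (hcf (H83.mem_cent_of_stable (A := Z) hwc
        (hHp.to_le inf_le_left) (fun a ha => ?_) fun r hr => ?_)) hwc)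
      · rw [← hZc a ha w, inv_mul_cancel_right, hZc a ha w]
      · rw [← hπ, map_commutatorElement, commutatorElement_eq_one_iff_mul_comm]
        exact ((h4.ge ⟨r, hr, rfl⟩).2 _ (mem_zpowers _)).symm
    rw [hE] at h1 h2
    rw [← card_eq_one]
    have h4 := Nat.le_of_dvd (by norm_num) h2
    generalize Nat.card ↥(H.map π ⊓ centralizer (zpowers (π w) : Set (G ⧸ Z))) = n at *
    unfold Nat.ModEq at h1
    interval_cases n <;> simp_all
  have hC : ∀ c ∈ H ⊓ centralizer ({T} : Set G), c * c = 1 := by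
    intro c hc
    have hTc : T * c * T⁻¹ = c := by rw [hc.2 T rfl, mul_inv_cancel_right]
    obtain ⟨_, ⟨h, hh, rfl⟩, h1⟩ := norm5 (E := H.map π) (W := π w) (t := π T) (c := π c)
      (by
        rintro _ ⟨a, ha, rfl⟩ _ ⟨b, hb, rfl⟩
        rw [← commutatorElement_eq_one_iff_mul_comm, ← map_commutatorElement, hπ]
        exact hcm a ha b hb)
      (by rintro _ ⟨a, ha, rfl⟩; rw [← map_mul, hπ]; exact hsq a ha) hW
      (fun a ha => hEn.conj_mem a ha _)
      (fun a ha h => mem_bot.1 (hF.le ⟨ha, by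
        rintro _ ⟨n, rfl⟩
        exact (Commute.zpow_left (mul_inv_eq_iff_eq_mul.1 h) n :)⟩))
      (by rw [← map_inv, ← map_mul, ← map_mul, hwT, map_inv]) ⟨c, hc.1, rfl⟩
      (by rw [← map_inv, ← map_mul, ← map_mul, hTc])
    have h2 : c⁻¹ * (h⁻¹ * (T * h * T⁻¹)) ∈ Z := by
      rw [← hπ]; simp only [map_mul, map_inv]; rw [← h1, inv_mul_cancel]
    obtain ⟨z, hz⟩ : ∃ z, c⁻¹ * (h⁻¹ * (T * h * T⁻¹)) = z := ⟨_, rfl⟩
    rw [hz] at h2
    have h3 : h⁻¹ * (T * h * T⁻¹) = c * z := by rw [← hz, mul_inv_cancel_left]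
    have h4 : T * (c * z) * T⁻¹ = c * z := by
      calc _ = (T * c * T⁻¹) * (T * z * T⁻¹) := by simp only [mul_assoc, inv_mul_cancel_left]
        _ = _ := by rw [hTc, hZc z h2]
    have h5 : (c * z) * (c * z) = 1 := by
      calc _ = (c * z) * (T * (c * z) * T⁻¹) := by rw [h4]
        _ = h⁻¹ * (T * h * (T⁻¹ * T) * h⁻¹ * (T * h * (T⁻¹ * T⁻¹))) := by
          rw [← h3]; simp only [mul_assoc]
        _ = 1 := by
          rw [inv_mul_cancel, mul_one, mul_inv_cancel_right, hTi, hT2, mul_one, ← mul_assoc T, hT2,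
            one_mul, inv_mul_cancel]
    have h6 : c * z = z * c := mul_inv_eq_iff_eq_mul.1 (hZc z h2 c)
    calc c * c = c * (z * z) * c := by rw [hZ1 z h2, mul_one]
      _ = (c * z) * (z * c) := by simp only [mul_assoc]
      _ = 1 := by rw [← h6, h5]
  have hEA : IsElementaryAbelian 2 (H ⊓ centralizer ({T} : Set G)) := by
    refine H83.isEA_iff.2 ⟨fun a ha b hb => ?_, fun a ha => by rw [pow_two, hC a ha]⟩
    have := hC _ (mul_mem ha hb)
    rw [← inv_eq_of_mul_eq_one_right this, mul_inv_rev, inv_eq_of_mul_eq_one_right (hC a ha),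
      inv_eq_of_mul_eq_one_right (hC b hb)]
  exact ⟨le_antisymm (hminus _ inf_le_left hEA) (hV4 ▸ card_le_of_le hV), hEA⟩

end Cfsg.Agent.S4405
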