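import Cfsg.Statements.S4406
-- import your own Cfsg.Agent.* helpers here

set_option autoImplicit false
open Cfsg

namespace Cfsg.Agent.S4406

set_option synthInstance.maxSize 2000 in
theorem aux1_0 : ∀ u : Equiv.Perm (Fin 4), Equiv.Perm.sign u = 1 → u * u = 1 → u ≠ 1 →
    ∀ v : Equiv.Perm (Fin 4), Equiv.Perm.sign v = 1 → v * v = 1 → v ≠ 1 → u ≠ v →
    ∀ a : Equiv.Perm (Fin 4), a * a * a = 1 → a ≠ 1 →
    (a * u * a⁻¹ = v ∧ a * v * a⁻¹ = u * v) ∨ (a⁻¹ * u * a = v ∧ a⁻¹ * v * a = u * v) := by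
  decide +kernel

theorem aux1 : ∀ a u v : Equiv.Perm (Fin 4), Equiv.Perm.sign u = 1 → Equiv.Perm.sign v = 1 →
    u * u = 1 → v * v = 1 → u ≠ 1 → v ≠ 1 → u ≠ v → a * a * a = 1 → a ≠ 1 →
    (a * u * a⁻¹ = v ∧ a * v * a⁻¹ = u * v) ∨ (a⁻¹ * u * a = v ∧ a⁻¹ * v * a = u * v) :=
  fun a u v h1 h2 h3 h4 h5 h6 h7 h8 h9 => aux1_0 u h1 h3 h5 v h2 h4 h6 h7 a h8 h9

set_option synthInstance.maxSize 2000 in
theorem aux2_0 : ∀ u : Equiv.Perm (Fin 4), Equiv.Perm.sign u = 1 → u * u = 1 → u ≠ 1 →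
    ∀ v : Equiv.Perm (Fin 4), Equiv.Perm.sign v = 1 → v * v = 1 → v ≠ 1 → u ≠ v →
    ∀ w : Equiv.Perm (Fin 4), Equiv.Perm.sign w = 1 → w * w = 1 →
    w = 1 ∨ w = u ∨ w = v ∨ w = u * v := by
  decide +kernel

theorem aux2 : ∀ u v w : Equiv.Perm (Fin 4), Equiv.Perm.sign u = 1 → Equiv.Perm.sign v = 1 →
    u * u = 1 → v * v = 1 → u ≠ 1 → v ≠ 1 → u ≠ v → Equiv.Perm.sign w = 1 → w * w = 1 →
    w = 1 ∨ w = u ∨ w = v ∨ w = u * v :=
  fun u v w h1 h2 h3 h4 h5 h6 h7 h8 h9 => aux2_0 u h1 h3 h5 v h2 h4 h6 h7 w h8 h9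

theorem aux3 : ∀ u : Equiv.Perm (Fin 4), Equiv.Perm.sign u = 1 → u * u * u * u = 1 → u * u = 1 := by
  decide +kernel

abbrev A4 := ↥(alternatingGroup (Fin 4))

theorem aux1' (a u v : A4) (hu : u * u = 1) (hv : v * v = 1) (hu1 : u ≠ 1) (hv1 : v ≠ 1)
    (huv : u ≠ v) (ha : a ^ 3 = 1) (ha1 : a ≠ 1) :
    ∃ a' : A4, (a' = a ∨ a' = a⁻¹) ∧ a' * u * a'⁻¹ = v ∧ a' * v * a'⁻¹ = u * v := by
  have := aux1 a u v u.2 v.2 (congrArg Subtype.val hu) (congrArg Subtype.val hv)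
    (fun h => hu1 (Subtype.ext h)) (fun h => hv1 (Subtype.ext h)) (fun h => huv (Subtype.ext h))
    (by have := congrArg Subtype.val ha; simpa [pow_succ] using this) (fun h => ha1 (Subtype.ext h))
  rcases this with ⟨h1, h2⟩ | ⟨h1, h2⟩
  · exact ⟨a, Or.inl rfl, Subtype.ext h1, Subtype.ext h2⟩
  · exact ⟨a⁻¹, Or.inr rfl, Subtype.ext (by simpa using h1), Subtype.ext (by simpa using h2)⟩

theorem aux2' (u v w : A4) (hu : u * u = 1) (hv : v * v = 1) (hu1 : u ≠ 1) (hv1 : v ≠ 1)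
    (huv : u ≠ v) (hw : w * w = 1) : w = 1 ∨ w = u ∨ w = v ∨ w = u * v := by
  have := aux2 u v w u.2 v.2 (congrArg Subtype.val hu) (congrArg Subtype.val hv)
    (fun h => hu1 (Subtype.ext h)) (fun h => hv1 (Subtype.ext h)) (fun h => huv (Subtype.ext h))
    w.2 (congrArg Subtype.val hw)
  rcases this with h | h | h | h
  · exact Or.inl (Subtype.ext h)
  · exact Or.inr (Or.inl (Subtype.ext h))
  · exact Or.inr (Or.inr (Or.inl (Subtype.ext h)))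
  · exact Or.inr (Or.inr (Or.inr (Subtype.ext h)))

theorem aux3' (u : A4) (hu : u ^ 4 = 1) : u * u = 1 :=
  Subtype.ext (aux3 u u.2 (by have := congrArg Subtype.val hu; simpa [pow_succ] using this))

theorem exists_mem_sylow {G : Type*} [Group G] [Finite G] (Q : Sylow 3 G) (N : Subgroup G)
    [hN : N.Normal] (x : G) (hx : x ∈ N) (hx3 : orderOf x = 3) :
    ∃ y ∈ N, y ∈ (Q : Subgroup G) ∧ orderOf y = 3 := by
  have : Fact (Nat.Prime 3) := ⟨Nat.prime_three⟩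
  have hP : IsPGroup 3 (Subgroup.zpowers x) :=
    IsPGroup.of_card (n := 1) (by rw [Nat.card_zpowers, hx3, pow_one])
  obtain ⟨P, hP⟩ := hP.exists_le_sylow
  obtain ⟨g, rfl⟩ := MulAction.exists_smul_eq G Q P
  have h1 := hP (Subgroup.mem_zpowers x)
  rw [Sylow.coe_subgroup_smul, Subgroup.mem_pointwise_smul_iff_inv_smul_mem] at h1
  refine ⟨_, ?_, h1, ?_⟩
  · simpa using hN.conj_mem x hx g⁻¹
  · rw [← hx3]
    exact MulEquiv.orderOf_eq (MulAut.conj g)⁻¹ x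

/-- In the direct product P = A₄ × A₄, let X be the Sylow 2-subgroup, X₁ and X₂ its intersections with the two direct factors, Q a Sylow 3-subgroup and Q₁, Q₂ its intersections with the two factors. Then every subgroup B of X of order 4 either meets X₁ or X₂ nontrivially, or is normalized by one of the two subgroups of Q of order 3 other than Q₁ and Q₂. -/
theorem result
    (X : Sylow 2 (↥(alternatingGroup (Fin 4)) × ↥(alternatingGroup (Fin 4))))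
    (Q : Sylow 3 (↥(alternatingGroup (Fin 4)) × ↥(alternatingGroup (Fin 4))))
    (B : Subgroup (↥(alternatingGroup (Fin 4)) × ↥(alternatingGroup (Fin 4)))) (hBX : B ≤ (X : Subgroup _)) (hB4 : Nat.card ↥B = 4) :
    B ⊓ ((X : Subgroup _) ⊓ Subgroup.prod ⊤ ⊥) ≠ ⊥ ∨ B ⊓ ((X : Subgroup _) ⊓ Subgroup.prod ⊥ ⊤) ≠ ⊥ ∨
      ∃ R : Subgroup (↥(alternatingGroup (Fin 4)) × ↥(alternatingGroup (Fin 4))), R ≤ (Q : Subgroup _) ∧ Nat.card ↥R = 3 ∧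
        R ≠ (Q : Subgroup _) ⊓ Subgroup.prod ⊤ ⊥ ∧ R ≠ (Q : Subgroup _) ⊓ Subgroup.prod ⊥ ⊤ ∧ R ≤ Subgroup.normalizer (B : Set _) := by
  have h3 : Fact (Nat.Prime 3) := ⟨Nat.prime_three⟩
  by_contra hcon
  rw [not_or, not_or, not_not, not_not] at hcon
  obtain ⟨h1, h2, hcon⟩ := hcon
  apply hcon
  have hinj1 : ∀ g ∈ B, g.2 = 1 → g = 1 := by
    intro g hg hg2
    have : g ∈ B ⊓ ((X : Subgroup _) ⊓ Subgroup.prod ⊤ ⊥) := ⟨hg, hBX hg, trivial, hg2⟩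
    rw [h1] at this
    exact this
  have hinj2 : ∀ g ∈ B, g.1 = 1 → g = 1 := by
    intro g hg hg2
    have : g ∈ B ⊓ ((X : Subgroup _) ⊓ Subgroup.prod ⊥ ⊤) := ⟨hg, hBX hg, hg2, trivial⟩
    rw [h2] at this
    exact this
  have hsq : ∀ g ∈ B, g.1 * g.1 = 1 ∧ g.2 * g.2 = 1 := by
    intro g hg
    have : (⟨g, hg⟩ : B) ^ 4 = 1 := by
      have h5 : (⟨g, hg⟩ : B) ^ Nat.card B = 1 := pow_card_eq_one'
      rwa [hB4] at h5
    have h4 : g ^ 4 = 1 := congrArg Subtype.val this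
    exact ⟨aux3' _ (congrArg Prod.fst h4), aux3' _ (congrArg Prod.snd h4)⟩
  obtain ⟨c, hc⟩ : ∃ c : A4, orderOf c = 3 := by
    apply exists_prime_orderOf_dvd_card'
    rw [nat_card_alternatingGroup]
    simp [Nat.factorial]
  obtain ⟨⟨a, a1⟩, ha1, haQ, ha3⟩ := exists_mem_sylow Q (Subgroup.prod ⊤ ⊥) (c, 1) ⟨trivial, rfl⟩
    (by rw [Prod.orderOf_mk, hc, orderOf_one]; rfl)
  obtain ⟨⟨b1, b⟩, hb1, hbQ, hb3⟩ := exists_mem_sylow Q (Subgroup.prod ⊥ ⊤) (1, c) ⟨rfl, trivial⟩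
    (by rw [Prod.orderOf_mk, hc, orderOf_one]; rfl)
  obtain rfl : a1 = 1 := ha1.2
  obtain rfl : b1 = 1 := hb1.1
  rw [Prod.orderOf_mk, orderOf_one, Nat.lcm_one_right] at ha3
  rw [Prod.orderOf_mk, orderOf_one, Nat.lcm_one_left] at hb3
  obtain ⟨g₁, g₂, hg1, hg2, hg12⟩ : ∃ g₁ g₂ : B, g₁ ≠ 1 ∧ g₂ ≠ 1 ∧ g₁ ≠ g₂ := by
    have := Fintype.ofFinite B
    have hc : 2 < Fintype.card B := by rw [← Nat.card_eq_fintype_card, hB4]; norm_num
    obtain ⟨x, y, z, hxy, hxz, hyz⟩ := Fintype.two_lt_card_iff.1 hc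
    by_cases hx : x = 1
    · exact ⟨y, z, hx ▸ hxy.symm, hx ▸ hxz.symm, hyz⟩
    · by_cases hy : y = 1
      · exact ⟨x, z, hx, hy ▸ hyz.symm, hxz⟩
      · exact ⟨x, y, hx, hy, hxy⟩
  obtain ⟨⟨u₁, v₁⟩, hm1⟩ := g₁
  obtain ⟨⟨u₂, v₂⟩, hm2⟩ := g₂
  have hu1 : u₁ ≠ 1 := fun h => hg1 (Subtype.ext (hinj2 _ hm1 h))
  have hu2 : u₂ ≠ 1 := fun h => hg2 (Subtype.ext (hinj2 _ hm2 h))
  have hv1 : v₁ ≠ 1 := fun h => hg1 (Subtype.ext (hinj1 _ hm1 h))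
  have hv2 : v₂ ≠ 1 := fun h => hg2 (Subtype.ext (hinj1 _ hm2 h))
  have hfst : ∀ g ∈ B, ∀ g' ∈ B, g.1 = g'.1 → g = g' := by
    intro g hg g' hg' h
    have := hinj2 _ (B.mul_mem (B.inv_mem hg) hg') (by simp [h])
    exact inv_mul_eq_one.1 this
  have hsnd : ∀ g ∈ B, ∀ g' ∈ B, g.2 = g'.2 → g = g' := by
    intro g hg g' hg' h
    have := hinj1 _ (B.mul_mem (B.inv_mem hg) hg') (by simp [h])
    exact inv_mul_eq_one.1 this
  have hu12 : u₁ ≠ u₂ := fun h => hg12 (Subtype.ext (hfst _ hm1 _ hm2 h))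
  have hv12 : v₁ ≠ v₂ := fun h => hg12 (Subtype.ext (hsnd _ hm1 _ hm2 h))
  have ha1' : a ≠ 1 := by rintro rfl; simp at ha3
  have hb1' : b ≠ 1 := by rintro rfl; simp at hb3
  obtain ⟨a', haa, ha'1, ha'2⟩ := aux1' a u₁ u₂ (hsq _ hm1).1 (hsq _ hm2).1 hu1 hu2 hu12
    (ha3 ▸ pow_orderOf_eq_one a) ha1'
  obtain ⟨b', hbb, hb'1, hb'2⟩ := aux1' b v₁ v₂ (hsq _ hm1).2 (hsq _ hm2).2 hv1 hv2 hv12
    (hb3 ▸ pow_orderOf_eq_one b) hb1'
  have ha'3 : orderOf a' = 3 := by rcases haa with rfl | rfl <;> simp [ha3]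
  have hb'3 : orderOf b' = 3 := by rcases hbb with rfl | rfl <;> simp [hb3]
  have ha'Q : ((a', 1) : A4 × A4) ∈ (Q : Subgroup _) := by
    rcases haa with rfl | rfl
    · exact haQ
    · simpa using Subgroup.inv_mem _ haQ
  have hb'Q : ((1, b') : A4 × A4) ∈ (Q : Subgroup _) := by
    rcases hbb with rfl | rfl
    · exact hbQ
    · simpa using Subgroup.inv_mem _ hbQ
  refine ⟨Subgroup.zpowers (a', b'), ?_, ?_, ?_, ?_, ?_⟩
  · rw [Subgroup.zpowers_le]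
    simpa using Subgroup.mul_mem _ ha'Q hb'Q
  · rw [Nat.card_zpowers, Prod.orderOf_mk, ha'3, hb'3]; rfl
  · intro h
    have : ((a', b') : A4 × A4) ∈ (Q : Subgroup _) ⊓ Subgroup.prod ⊤ ⊥ := h ▸ Subgroup.mem_zpowers _
    have h5 : b' = 1 := this.2.2
    rw [h5] at hb'3; simp at hb'3
  · intro h
    have : ((a', b') : A4 × A4) ∈ (Q : Subgroup _) ⊓ Subgroup.prod ⊥ ⊤ := h ▸ Subgroup.mem_zpowers _
    have h5 : a' = 1 := this.2.1
    rw [h5] at ha'3; simp at ha'3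
  · rw [Subgroup.zpowers_le]
    apply Subgroup.mem_normalizer_fintype
    have k1 : ((a', b') : A4 × A4) * (u₁, v₁) * (a', b')⁻¹ ∈ B := by
      have : ((a', b') : A4 × A4) * (u₁, v₁) * (a', b')⁻¹ = (u₂, v₂) := Prod.ext ha'1 hb'1
      rw [this]; exact hm2
    have k2 : ((a', b') : A4 × A4) * (u₂, v₂) * (a', b')⁻¹ ∈ B := by
      have : ((a', b') : A4 × A4) * (u₂, v₂) * (a', b')⁻¹ = (u₁, v₁) * (u₂, v₂) := Prod.ext ha'2 hb'2
      rw [this]; exact B.mul_mem hm1 hm2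
    intro g hg
    rcases aux2' u₁ u₂ g.1 (hsq _ hm1).1 (hsq _ hm2).1 hu1 hu2 hu12 (hsq _ hg).1 with h | h | h | h
    · rw [hinj2 g hg h, mul_one, mul_inv_cancel]; exact B.one_mem
    · rw [hfst g hg _ hm1 h]; exact k1
    · rw [hfst g hg _ hm2 h]; exact k2
    · rw [hfst g hg _ (B.mul_mem hm1 hm2) h]
      have h6 := B.mul_mem k1 k2
      have h7 : ∀ x y z : A4 × A4, x * y * x⁻¹ * (x * z * x⁻¹) = x * (y * z) * x⁻¹ := by
        intro x y z; group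
      rw [h7] at h6
      exact h6

end Cfsg.Agent.S4406
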