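import Cfsg.Statements.S4407
import Cfsg.Agent.H51.Thompson

set_option autoImplicit false
open Cfsg

namespace Cfsg.Agent.S4407

open Subgroup

theorem core {S : Type*} [Group S] {M : Type*} [AddCommGroup M] [Module (ZMod 2) M] [Finite M]
    (ρ : Representation (ZMod 2) S M)
    (hirr : ∀ N : Submodule (ZMod 2) M, (∀ s : S, ∀ m ∈ N, ρ s m ∈ N) → N = ⊥ ∨ N = ⊤)
    (a r s : S) (ha : a ^ 3 = 1) (hr : r ^ 4 = 1) (hs : s * s = 1) (hsr : s * r = r⁻¹ * s)
    (hsa : s * a = a * s) (hza : r * r * a = a⁻¹ * (r * r))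
    (hab : a * (r * a * r⁻¹) = (r * a * r⁻¹) * a) (hgen : closure {a, r, s} = ⊤)
    (hfix : ∀ m, ρ a m = m → ρ (r * a * r⁻¹) m = m → m = 0) (v : M) (hv : v ≠ 0)
    (hav : ρ a v = v) :
    Nat.card M = 16 ∧ Nat.card {m : M // ρ (r * r) m = m ∧ ρ s m = m} = 4 ∧
      Nat.card {m : M // ρ (r * r) m = m ∧ ρ (s * r) m = m} = 2 := by
  set b := r * a * r⁻¹ with hb
  set z := r * r with hz
  clear_value b z
  have h2 : ∀ m : M, m + m = 0 := fun m => by
    rw [← two_smul (ZMod 2) m, show (2 : ZMod 2) = 0 from rfl, zero_smul]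
  have act : ∀ (g h : S) (m : M), ρ g (ρ h m) = ρ (g * h) m := fun g h m => by
    rw [map_mul]; rfl
  have hzz : z * z = 1 := by rw [← hr, hz]; simp only [pow_succ, pow_zero, one_mul, mul_assoc]
  have hri : r⁻¹ = r * z := by
    rw [inv_eq_iff_mul_eq_one, ← mul_assoc, ← hz, hzz]
  have hai : a⁻¹ = a * a := by
    rw [inv_eq_iff_mul_eq_one, ← ha]; simp only [pow_succ, pow_zero, one_mul, mul_assoc]
  have hbi : b⁻¹ = b * b := by rw [hb]; simp only [mul_inv_rev, inv_inv, hai]; group
  have hzs : s * z = z * s := by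
    rw [hz, ← mul_assoc, hsr, mul_assoc, hsr, ← mul_assoc, ← mul_inv_rev, ← hz,
      inv_eq_of_mul_eq_one_left hzz]
  have hza' : z * a⁻¹ = a * z := by
    have : z * a⁻¹ * z⁻¹ = (z * a * z⁻¹)⁻¹ := by group
    rw [← mul_inv_eq_iff_eq_mul, this, hza]; group
  have hzb : z * b = b⁻¹ * z := by
    have : z * b = r * (z * a) * r⁻¹ := by rw [hb, hz]; group
    rw [this, hza, hb, hz]; group
  have hzb' : z * b⁻¹ = b * z := by
    have : z * b⁻¹ * z⁻¹ = (z * b * z⁻¹)⁻¹ := by group
    rw [← mul_inv_eq_iff_eq_mul, this, hzb]; group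
  have har : a * r = r * b⁻¹ := by
    have : r * b⁻¹ = (z * a⁻¹) * r⁻¹ := by rw [hb, hz]; group
    rw [this, hza', hz]; group
  have hsb : s * b = b⁻¹ * s := by
    have h1 : s * r⁻¹ = r * s := by
      have h3 : r * (s * r) = s := by rw [hsr]; group
      conv_lhs => rw [← h3]
      group
    calc s * b = (s * r) * a * r⁻¹ := by rw [hb]; group
      _ = r⁻¹ * (s * a) * r⁻¹ := by rw [hsr]; group
      _ = r⁻¹ * a * (s * r⁻¹) := by rw [hsa]; group
      _ = r⁻¹ * (a * r) * s := by rw [h1]; group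
      _ = b⁻¹ * s := by rw [har]; group
  -- a vector fixed by `a`, `s`, `z`
  have step : ∀ (t : S), t * t = 1 → ∀ (P : M → Prop), (∀ m, P m → P (ρ t m)) →
      (∀ m m', P m → P m' → P (m + m')) → ∀ u, u ≠ 0 → P u → ∃ w, w ≠ 0 ∧ P w ∧ ρ t w = w := by
    intro t ht P hP1 hP2 u hu hPu
    by_cases h : u + ρ t u = 0
    · refine ⟨u, hu, hPu, ?_⟩
      have := h2 u
      rw [← this] at h
      exact add_left_cancel h
    · refine ⟨u + ρ t u, h, hP2 _ _ hPu (hP1 _ hPu), ?_⟩
      rw [map_add, act, ht, map_one, add_comm]; rfl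
  have hfi : ∀ (g : S) (m : M), ρ g m = m → ρ g⁻¹ m = m := fun g m h => by
    conv_lhs => rw [← h]
    rw [act, inv_mul_cancel, map_one]; rfl
  obtain ⟨u, hu, hau, hsu⟩ := step s hs (fun m => ρ a m = m)
    (fun m h => by rw [act, ← hsa, ← act, h]) (fun m m' h h' => by rw [map_add, h, h']) v hv hav
  obtain ⟨w, hw, ⟨haw, hsw⟩, hzw⟩ := step z hzz (fun m => ρ a m = m ∧ ρ s m = m)
    (fun m h => ⟨by rw [act, ← hza', ← act, hfi _ _ h.1], by rw [act, hzs, ← act, h.2]⟩)
    (fun m m' h h' => ⟨by rw [map_add, h.1, h'.1], by rw [map_add, h.2, h'.2]⟩) u hu ⟨hau, hsu⟩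
  have haw1 : ρ a (ρ b w) = ρ b w := by rw [act, hab, ← act, haw]
  have hbw : ρ b⁻¹ w = w + ρ b w := by
    have h0 : w + ρ b w + ρ b⁻¹ w = 0 := by
      refine hfix _ ?_ ?_
      · have : a * b⁻¹ = b⁻¹ * a := by
          have := (show Commute a b from hab).inv_right; exact this
        rw [map_add, map_add, haw, haw1, act, this, ← act, haw]
      · rw [map_add, map_add, act, act, mul_inv_cancel, map_one, ← hbi]
        change _ + w = _
        abel
    have := h2 (w + ρ b w)
    rw [← h0] at this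
    exact (add_left_cancel this).symm
  set w1 := ρ b w with hw1
  set w2 := ρ r w with hw2
  set w3 := ρ r w1 with hw3
  have ea2 : ρ a w2 = w2 + w3 := by rw [hw2, act, har, ← act, hbw, map_add]
  have ea3 : ρ a w3 = w2 := by
    rw [hw3, hw1, act, act, har, mul_assoc, inv_mul_cancel, mul_one]
  have er2 : ρ r w2 = w := by rw [hw2, act, ← hz, hzw]
  have er3 : ρ r w3 = w + w1 := by rw [hw3, hw1, act, act, ← hz, hzb, ← act, hzw, hbw]
  have es1 : ρ s w1 = w + w1 := by rw [hw1, act, hsb, ← act, hsw, hbw]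
  have es2 : ρ s w2 = w2 := by rw [hw2, act, hsr, ← act, hsw, hri, ← act, hzw]
  have es3 : ρ s w3 = w3 := by
    rw [hw3, hw1, act, act, hsr, mul_assoc, hsb, hri, mul_assoc, ← mul_assoc z, hzb', ← act,
      ← act, hsw, ← act, hzw]
  let e : ZMod 2 × ZMod 2 × ZMod 2 × ZMod 2 → M :=
    fun c => c.1 • w + c.2.1 • w1 + c.2.2.1 • w2 + c.2.2.2 • w3
  have eA : ∀ c, ρ a (e c) = e (c.1, c.2.1, c.2.2.1 + c.2.2.2, c.2.2.1) := fun c => by
    simp only [e, map_add, map_smul, haw, haw1, ea2, ea3]; module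
  have eR : ∀ c, ρ r (e c) = e (c.2.2.1 + c.2.2.2, c.2.2.2, c.1, c.2.1) := fun c => by
    simp only [e, map_add, map_smul, er2, er3, ← hw2, ← hw3]; module
  have eS : ∀ c, ρ s (e c) = e (c.1 + c.2.1, c.2.1, c.2.2.1, c.2.2.2) := fun c => by
    simp only [e, map_add, map_smul, hsw, es1, es2, es3]; module
  have ind2 : ∀ c d : ZMod 2, c • w + d • w1 = 0 → c = 0 ∧ d = 0 := by
    have h01 : ∀ c : ZMod 2, c = 0 ∨ c = 1 := by decide
    intro c d h
    rcases h01 c with rfl | rfl <;> rcases h01 d with rfl | rfl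
    · exact ⟨rfl, rfl⟩
    · exfalso
      simp only [zero_smul, one_smul, zero_add] at h
      apply hw
      have := congrArg (ρ b⁻¹) h
      rwa [hw1, act, inv_mul_cancel, map_one, map_zero] at this
    · exfalso
      simp only [zero_smul, one_smul, add_zero] at h
      exact hw h
    · exfalso
      simp only [one_smul] at h
      rw [← h2 w] at h
      exact hw (hfix w haw (add_left_cancel h))
  have einj : Function.Injective e := by
    have h0 : ∀ c, e c = 0 → c = 0 := by
      rintro ⟨c0, c1, c2, c3⟩ h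
      have h3 := eA (c0, c1, c2, c3)
      rw [h, map_zero] at h3
      have h4 : ρ r (c3 • w + (c2 - c3) • w1) = 0 := by
        rw [map_add, map_smul, map_smul, ← hw2, ← hw3]
        simp only [e] at h h3
        linear_combination (norm := module) -h3 - h
      have h5 : c3 • w + (c2 - c3) • w1 = 0 := by
        have := congrArg (ρ r⁻¹) h4
        rwa [act, inv_mul_cancel, map_one, map_zero] at this
      obtain ⟨rfl, h6⟩ := ind2 _ _ h5
      rw [sub_zero] at h6
      subst h6
      simp only [e, zero_smul, add_zero] at h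
      obtain ⟨rfl, rfl⟩ := ind2 _ _ h
      rfl
    intro c d h
    have : e (c - d) = e c - e d := by
      simp only [e, Prod.fst_sub, Prod.snd_sub]; module
    exact sub_eq_zero.1 (h0 _ (by rw [this, h, sub_self]))
  have esurj : Function.Surjective e := by
    let N : Submodule (ZMod 2) M :=
      { carrier := Set.range e
        add_mem' := by
          rintro _ _ ⟨c, rfl⟩ ⟨d, rfl⟩
          exact ⟨c + d, by simp only [e, Prod.fst_add, Prod.snd_add]; module⟩
        zero_mem' := ⟨0, by simp [e]⟩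
        smul_mem' := by
          rintro k _ ⟨c, rfl⟩
          exact ⟨k • c, by simp only [e, Prod.smul_fst, Prod.smul_snd, smul_eq_mul]; module⟩ }
    have hN : ∀ g : S, ∀ m ∈ N, ρ g m ∈ N := by
      intro g
      have hg : g ∈ closure {a, r, s} := hgen ▸ mem_top g
      induction hg using closure_induction'' with
      | mem x hx =>
        rintro _ ⟨c, rfl⟩
        rcases hx with rfl | rfl | rfl
        · exact ⟨_, (eA c).symm⟩
        · exact ⟨_, (eR c).symm⟩
        · exact ⟨_, (eS c).symm⟩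
      | inv_mem x hx =>
        rintro _ ⟨c, rfl⟩
        rcases hx with rfl | rfl | rfl
        · rw [hai, ← act, eA, eA]; exact ⟨_, rfl⟩
        · rw [hri, hz, ← act, ← act, eR, eR, eR]; exact ⟨_, rfl⟩
        · rw [inv_eq_of_mul_eq_one_left hs, eS]; exact ⟨_, rfl⟩
      | one => intro m hm; rw [map_one]; exact hm
      | mul x y _ _ hx hy => intro m hm; rw [← act]; exact hx _ (hy _ hm)
    rcases hirr N hN with h | h
    · exfalso
      have : w ∈ N := ⟨(1, 0, 0, 0), by simp [e]⟩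
      rw [h] at this
      exact hw this
    · intro m
      have : m ∈ N := h ▸ Submodule.mem_top
      exact this
  let E := Equiv.ofBijective e ⟨einj, esurj⟩
  refine ⟨?_, ?_, ?_⟩
  · rw [← Nat.card_congr E]; simp
  · rw [← Nat.card_congr (E.subtypeEquiv (p := fun c => c.2.1 = 0 ∧ c.2.2.2 = 0) ?_)]
    · rw [Nat.card_eq_fintype_card]; decide
    · intro c
      change _ ↔ ρ z (e c) = e c ∧ ρ s (e c) = e c
      rw [hz, ← act, eR, eR, eS, einj.eq_iff, einj.eq_iff]
      revert c; decide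
  · rw [← Nat.card_congr (E.subtypeEquiv (p := fun c => c.2.1 = 0 ∧ c.2.2.2 = 0 ∧ c.1 = c.2.2.1) ?_)]
    · rw [Nat.card_eq_fintype_card]; decide
    · intro c
      change _ ↔ ρ z (e c) = e c ∧ ρ (s * r) (e c) = e c
      rw [hz, ← act, ← act, eR, eR, eS, einj.eq_iff, einj.eq_iff]
      revert c; decide

open DihedralGroup in
/-- the two four-subgroups -/
def B4 (k : ZMod 4) : Subgroup (DihedralGroup 4) where
  carrier := {d | d = 1 ∨ d = r 2 ∨ d = sr k ∨ d = sr (k + 2)}
  one_mem' := Or.inl rfl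
  mul_mem' := by
    intro a b
    simp only [Set.mem_setOf_eq]
    revert a b k; decide
  inv_mem' := by
    intro a
    simp only [Set.mem_setOf_eq]
    revert a k; decide

open DihedralGroup in
theorem mem_B4 {k : ZMod 4} {d : DihedralGroup 4} :
    d ∈ B4 k ↔ d = 1 ∨ d = r 2 ∨ d = sr k ∨ d = sr (k + 2) := Iff.rfl

theorem card_B4 (k : ZMod 4) : Nat.card (B4 k) = 4 := by
  rw [Nat.card_congr (Equiv.subtypeEquivRight (fun d => mem_B4 (k := k) (d := d))),
    Nat.card_eq_fintype_card]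
  revert k; decide

open DihedralGroup in
theorem eq_B4 (k : ZMod 4) (B : Subgroup (DihedralGroup 4)) (h4 : Nat.card B = 4)
    (h2 : ∀ b ∈ B, b ^ 2 = 1) : B = B4 k ∨ B = B4 (k + 1) := by
  have key : ∀ (k : ZMod 4) (x y : DihedralGroup 4), x ^ 2 = 1 → y ^ 2 = 1 → (x * y) ^ 2 = 1 →
      (x = 1 ∨ x = r 2 ∨ x = sr k ∨ x = sr (k + 2)) ∨
      (y = 1 ∨ y = r 2 ∨ y = sr (k + 1) ∨ y = sr (k + 1 + 2)) := by decide
  have : B ≤ B4 k ∨ B ≤ B4 (k + 1) := by
    by_cases h : B ≤ B4 k
    · exact Or.inl h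
    · obtain ⟨x, hx, hx'⟩ := SetLike.not_le_iff_exists.1 h
      exact Or.inr fun y hy =>
        (key k x y (h2 x hx) (h2 y hy) (h2 _ (mul_mem hx hy))).resolve_left hx'
  rcases this with h | h
  · exact Or.inl (eq_of_le_of_card_ge h (by rw [card_B4, h4]))
  · exact Or.inr (eq_of_le_of_card_ge h (by rw [card_B4, h4]))

theorem sq3 : ∀ j : ZMod 3, j * j + 1 ≠ 0 := by decide

theorem gen_two {S : Type*} [Group S] [Finite S] {A : Subgroup S} (hA : IsElementaryAbelian 3 A)
    (hA9 : Nat.card A = 9) {u w : S} (hu : u ∈ A) (hw : w ∈ A) (hu1 : u ≠ 1)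
    (hw1 : w ∉ zpowers u) : closure {u, w} = A := by
  have hle : closure {u, w} ≤ A := by
    rw [closure_le]; rintro _ (rfl | rfl); exacts [hu, hw]
  have h3 : Nat.card (zpowers u) = 3 := by
    rw [Nat.card_zpowers]
    haveI : Fact (Nat.Prime 3) := ⟨Nat.prime_three⟩
    exact orderOf_eq_prime (hA.2 u hu) hu1
  have hlt : zpowers u < closure {u, w} :=
    lt_of_le_of_ne (zpowers_le_of_mem (subset_closure (Or.inl rfl))) fun h =>
      hw1 (h ▸ subset_closure (Or.inr rfl))
  have h1 : Nat.card (zpowers u) < Nat.card (closure {u, w} : Subgroup S) := by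
    refine lt_of_le_of_ne (card_le_of_le hlt.le) fun h => hlt.ne ?_
    exact eq_of_le_of_card_ge hlt.le h.ge
  have h2 := card_dvd_of_le hle
  rw [hA9] at h2
  refine eq_of_le_of_card_ge hle ?_
  rw [hA9]
  rw [h3] at h1
  have h5 := Nat.le_of_dvd (by norm_num) h2
  generalize Nat.card (closure {u, w} : Subgroup S) = n at *
  interval_cases n <;> simp_all

/-- Let S be a finite group with a normal elementary abelian subgroup A of order 9 that is self-centralizing (C_S(A) = A), and a dihedral subgroup X of order 8 with S = AX. Let M be a finite-dimensional module for S over the field with two elements that is faithful and irreducible. Then M has 16 elements, and X contains exactly one subgroup B of order 4 and exponent 2 whose fixed points on M form a subspace with exactly 2 elements (equivalently, M is free of rank one over the group algebra of B). -/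
theorem result {S : Type*} [Group S] [Finite S]
    (A : Subgroup S) [A.Normal] (hA : Cfsg.IsElementaryAbelian 3 A) (hA9 : Nat.card ↥A = 9)
    (hAC : Subgroup.centralizer (A : Set S) = A) (X : Subgroup S) (hX : Nonempty (↥X ≃* DihedralGroup 4)) (hAX : A ⊔ X = ⊤)
    {M : Type*} [AddCommGroup M] [Module (ZMod 2) M] [Finite M] (ρ : Representation (ZMod 2) S M)
    (hfaith : Function.Injective ρ)
    (hirr : ∀ N : Submodule (ZMod 2) M, (∀ s : S, ∀ m ∈ N, ρ s m ∈ N) → N = ⊥ ∨ N = ⊤) (hM : Nontrivial M) :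
    Nat.card M = 16 ∧
      ∃! B : Subgroup S, B ≤ X ∧ Nat.card ↥B = 4 ∧ (∀ b ∈ B, b ^ 2 = 1) ∧
        Nat.card {m : M // ∀ b ∈ B, ρ b m = m} = 2 := by
  classical
  obtain ⟨e⟩ := hX
  let f : DihedralGroup 4 →* S := X.subtype.comp e.symm.toMonoidHom
  have hf : Function.Injective f := X.subtype_injective.comp e.symm.injective
  have hfX : f.range = X := by
    rw [MonoidHom.range_comp, MonoidHom.range_eq_top.2 e.symm.surjective, ← MonoidHom.range_eq_map,
      range_subtype]
  have hcomm : ∀ a ∈ A, ∀ b ∈ A, a * b = b * a := (H51.isEA_iff.1 hA).1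
  have hinv : ∀ a ∈ A, a⁻¹ = a * a := fun a ha => by
    rw [inv_eq_iff_mul_eq_one, ← hA.2 a ha]; simp only [pow_succ, pow_zero, one_mul, mul_assoc]
  have hself : ∀ a ∈ A, a⁻¹ = a → a = 1 := fun a ha h => by
    rw [hinv a ha] at h; simpa using h
  have hconj : ∀ g : S, ∀ a ∈ A, g * a * g⁻¹ ∈ A := fun g a ha => ‹A.Normal›.conj_mem a ha g
  have hfa : ∀ d, (∀ a ∈ A, f d * a * (f d)⁻¹ = a) → d = 1 := by
    intro d hd
    have h1 : f d ∈ A := by
      rw [← hAC]; intro a ha
      rw [← mul_inv_eq_iff_eq_mul.1 (hd a ha)]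
    have h2 : d ^ 3 = 1 := hf (by rw [map_pow, hA.2 _ h1, map_one])
    exact (by decide : ∀ d : DihedralGroup 4, d ^ 3 = 1 → d = 1) d h2
  set r := f (DihedralGroup.r 1) with hr
  have hz : r * r = f (DihedralGroup.r 2) := by rw [hr, ← map_mul]; rfl
  have hr4 : r ^ 4 = 1 := by rw [hr, ← map_pow, ← map_one f]; congr 1
  have hzz : r * r * (r * r) = 1 := by
    rw [← hr4]; simp only [pow_succ, pow_zero, one_mul, mul_assoc]
  -- `z` inverts `A`
  have hzinv : ∀ a ∈ A, r * r * a * (r * r)⁻¹ = a⁻¹ := by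
    set z := r * r with hzdef
    have hzi : z⁻¹ = z := inv_eq_of_mul_eq_one_left hzz
    by_contra hcon
    push Not at hcon
    obtain ⟨a, ha, hne⟩ := hcon
    have hw : a * (z * a * z⁻¹) ∈ A := mul_mem ha (hconj _ _ ha)
    have hw1 : a * (z * a * z⁻¹) ≠ 1 := fun h => hne (eq_inv_of_mul_eq_one_right h)
    have hwz : z * (a * (z * a * z⁻¹)) * z⁻¹ = a * (z * a * z⁻¹) := by
      rw [hcomm a ha _ (hconj _ _ ha), hzi]
      calc z * (z * a * z * a) * z = (z * z) * a * z * a * z := by group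
        _ = a * (z * a * z) := by rw [hzz]; group
        _ = z * a * z * a := by
          have := hcomm a ha _ (hconj z _ ha); rwa [hzi] at this
    set w := a * (z * a * z⁻¹) with hwdef
    obtain ⟨c, hc, hc1⟩ : ∃ c ∈ A, z * c * z⁻¹ ≠ c := by
      by_contra h
      push Not at h
      exact absurd (hfa _ (hz ▸ h)) (by decide)
    have hu : c⁻¹ * (z * c * z⁻¹) ∈ A := mul_mem (inv_mem hc) (hconj _ _ hc)
    have hu1 : c⁻¹ * (z * c * z⁻¹) ≠ 1 := fun h => hc1 (inv_mul_eq_one.1 h).symm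
    have huz : z * (c⁻¹ * (z * c * z⁻¹)) * z⁻¹ = (c⁻¹ * (z * c * z⁻¹))⁻¹ := by
      rw [hzi]
      calc z * (c⁻¹ * (z * c * z)) * z = z * c⁻¹ * z * c * (z * z) := by group
        _ = _ := by rw [hzz]; simp only [mul_inv_rev, inv_inv, hzi]; group
    set u := c⁻¹ * (z * c * z⁻¹) with hudef
    have hzp : ∀ x ∈ zpowers u, z * x * z⁻¹ = x⁻¹ := by
      rintro _ ⟨k, rfl⟩
      simp only
      rw [← conj_zpow, huz, inv_zpow]
    have hwu : w ∉ zpowers u := fun h => hw1 (hself w hw (by rw [← hzp w h, hwz]))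
    have hru : r * u * r⁻¹ ∈ zpowers u := by
      by_contra hcon
      have hg := gen_two hA hA9 hu (hconj r u hu) hu1 hcon
      have : ∀ x ∈ closure {u, r * u * r⁻¹}, z * x * z⁻¹ = x⁻¹ := by
        intro x hx
        induction hx using closure_induction with
        | mem x hx =>
          rcases hx with rfl | rfl
          · exact huz
          · calc z * (r * u * r⁻¹) * z⁻¹ = r * (z * u * z⁻¹) * r⁻¹ := by rw [hzdef]; group
              _ = _ := by rw [huz]; group
        | one => simp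
        | mul x y hx hy h1 h2 =>
          rw [hg] at hx hy
          calc z * (x * y) * z⁻¹ = (z * x * z⁻¹) * (z * y * z⁻¹) := by group
            _ = _ := by rw [h1, h2, hcomm x hx y hy, mul_inv_rev]
        | inv x _ h =>
          calc z * x⁻¹ * z⁻¹ = (z * x * z⁻¹)⁻¹ := by group
            _ = _ := by rw [h]
      exact hw1 (hself w hw (by rw [← this w (hg ▸ hw), hwz]))
    obtain ⟨k, hk⟩ := hru
    simp only at hk
    have h1 : z * u * z⁻¹ = u ^ (k * k) := by
      calc z * u * z⁻¹ = r * (r * u * r⁻¹) * r⁻¹ := by rw [hzdef]; group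
        _ = _ := by rw [← hk, ← conj_zpow, ← hk, ← zpow_mul]
    have h3 : u ^ (k * k + 1) = 1 := by rw [zpow_add_one, ← h1, huz, inv_mul_cancel]
    haveI : Fact (Nat.Prime 3) := ⟨Nat.prime_three⟩
    have h4 := orderOf_dvd_iff_zpow_eq_one.2 h3
    rw [orderOf_eq_prime (hA.2 u hu) hu1] at h4
    have h5 : ((k * k + 1 : ℤ) : ZMod 3) = 0 := (ZMod.intCast_zmod_eq_zero_iff_dvd _ 3).2 h4
    push_cast at h5
    exact sq3 _ h5
  have hzinv' : ∀ a ∈ A, r * r * a = a⁻¹ * (r * r) := fun a ha => by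
    rw [← hzinv a ha]; group
  have hCA : ∀ m : M, (∀ a ∈ A, ρ a m = m) → m = 0 := by
    let N : Submodule (ZMod 2) M :=
      { carrier := {m | ∀ a ∈ A, ρ a m = m}
        add_mem' := fun hx hy a ha => by rw [map_add, hx a ha, hy a ha]
        zero_mem' := fun a _ => map_zero _
        smul_mem' := fun k x hx a ha => by rw [map_smul, hx a ha] }
    rcases hirr N (fun g m hm a ha => by
      have h1 := hm _ (hconj g⁻¹ a ha)
      conv_rhs => rw [← h1]
      rw [← Module.End.mul_apply, ← Module.End.mul_apply, ← map_mul, ← map_mul]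
      congr 2; group) with h | h
    · intro m hm
      have : m ∈ N := hm
      rwa [h] at this
    · exfalso
      have : A = ⊥ := by
        rw [eq_bot_iff]
        intro a ha
        refine mem_bot.2 (hfaith ?_)
        ext m
        have : m ∈ N := h ▸ Submodule.mem_top
        rw [this a ha, map_one]; rfl
      rw [this] at hA9; simp at hA9
  -- the general case
  have main : ∀ (k : ZMod 4) (a : S), a ∈ A → a ≠ 1 →
      f (DihedralGroup.sr k) * a = a * f (DihedralGroup.sr k) →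
      closure {a, r * a * r⁻¹} = A ∧ ∀ v : M, v ≠ 0 → ρ a v = v →
      Nat.card M = 16 ∧ ∃! B : Subgroup S, B ≤ X ∧ Nat.card ↥B = 4 ∧ (∀ b ∈ B, b ^ 2 = 1) ∧
        Nat.card {m : M // ∀ b ∈ B, ρ b m = m} = 2 := by
    intro k a ha ha1 hsa
    set s := f (DihedralGroup.sr k) with hs
    have hsr : s * r = r⁻¹ * s := by
      rw [hs, hr, ← map_inv, ← map_mul, ← map_mul]; congr 1
      exact (by decide : ∀ k : ZMod 4, DihedralGroup.sr k * DihedralGroup.r 1 =
        (DihedralGroup.r 1)⁻¹ * DihedralGroup.sr k) k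
    have hsr' : s * r = f (DihedralGroup.sr (k + 1)) := by rw [hs, hr, ← map_mul]; rfl
    have hgenA : closure {a, r * a * r⁻¹} = A := by
      refine gen_two hA hA9 ha (hconj r a ha) ha1 ?_
      rintro ⟨j, hj⟩
      simp only at hj
      have h1 : s * (r * a * r⁻¹) * s⁻¹ = r * a * r⁻¹ := by
        rw [← hj, ← conj_zpow, hsa, mul_inv_cancel_right]
      have h2 : s * (r * a * r⁻¹) * s⁻¹ = (r * a * r⁻¹)⁻¹ := by
        calc s * (r * a * r⁻¹) * s⁻¹ = (s * r) * a * (s * r)⁻¹ := by group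
          _ = r⁻¹ * (s * a) * s⁻¹ * r := by rw [hsr]; group
          _ = r⁻¹ * (a⁻¹)⁻¹ * r := by rw [hsa]; group
          _ = r * (r * r)⁻¹ * (a⁻¹)⁻¹ * (r * r) * r⁻¹ := by group
          _ = r * a⁻¹ * r⁻¹ := by rw [← hzinv _ (inv_mem ha)]; group
          _ = _ := by group
      have := hself _ (hconj r a ha) (by rw [← h2, h1])
      exact ha1 (by simpa using this)
    refine ⟨hgenA, fun v hv hav => ?_⟩
    have hgen : closure {a, r, s} = ⊤ := by
      rw [eq_top_iff, ← hAX, sup_le_iff, ← hgenA, closure_le, ← hfX]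
      have h1 : a ∈ closure {a, r, s} := subset_closure (Or.inl rfl)
      have h2 : r ∈ closure {a, r, s} := subset_closure (Or.inr (Or.inl rfl))
      have h3 : s ∈ closure {a, r, s} := subset_closure (Or.inr (Or.inr rfl))
      refine ⟨?_, ?_⟩
      · rintro _ (rfl | rfl)
        · exact h1
        · exact mul_mem (mul_mem h2 h1) (inv_mem h2)
      · rintro _ ⟨d, rfl⟩
        have : ∀ (k : ZMod 4) (d : DihedralGroup 4), ∃ i : Fin 4, ∃ j : Fin 2,
            d = DihedralGroup.sr k ^ (j : ℕ) * DihedralGroup.r 1 ^ (i : ℕ) := by decide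
        obtain ⟨i, j, rfl⟩ := this k d
        rw [map_mul, map_pow, map_pow]
        exact mul_mem (pow_mem h3 _) (pow_mem h2 _)
    have hfix : ∀ m, ρ a m = m → ρ (r * a * r⁻¹) m = m → m = 0 := by
      intro m h1 h2
      refine hCA m fun x hx => ?_
      rw [← hgenA] at hx
      induction hx using closure_induction with
      | mem x hx => rcases hx with rfl | rfl; exacts [h1, h2]
      | one => rw [map_one]; rfl
      | mul x y _ _ h3 h4 => rw [map_mul, Module.End.mul_apply, h4, h3]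
      | inv x _ h3 =>
        conv_lhs => rw [← h3]
        rw [← Module.End.mul_apply, ← map_mul, inv_mul_cancel, map_one]; rfl
    obtain ⟨h16, h4, h2⟩ := core ρ hirr a r s (hA.2 a ha) hr4
      (by rw [hs, ← map_mul, DihedralGroup.sr_mul_self, map_one]) hsr hsa (hzinv' a ha)
      (hcomm _ ha _ (hconj r a ha)) hgen hfix v hv hav
    have hB : ∀ j : ZMod 4, Nat.card {m : M // ∀ b ∈ (B4 j).map f, ρ b m = m} =
        Nat.card {m : M // ρ (r * r) m = m ∧ ρ (f (DihedralGroup.sr j)) m = m} := by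
      intro j
      refine Nat.card_congr (Equiv.subtypeEquivRight fun m => ⟨fun h => ⟨?_, ?_⟩, ?_⟩)
      · exact h _ (hz ▸ mem_map_of_mem f (Or.inr (Or.inl rfl)))
      · exact h _ (mem_map_of_mem f (Or.inr (Or.inr (Or.inl rfl))))
      · rintro ⟨h1, h3⟩ _ ⟨d, (rfl | rfl | rfl | rfl), rfl⟩
        · rw [map_one, map_one]; rfl
        · rwa [← hz]
        · exact h3
        · have : f (DihedralGroup.sr (j + 2)) = f (DihedralGroup.sr j) * (r * r) := by
            rw [hz, ← map_mul]; rfl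
          rw [this, map_mul, Module.End.mul_apply, h1, h3]
    refine ⟨h16, (B4 (k + 1)).map f, ⟨hfX ▸ map_le_range _ _, ?_, ?_, ?_⟩, ?_⟩
    · rw [card_map_of_injective hf, card_B4]
    · rintro _ ⟨d, hd, rfl⟩
      rw [← map_pow, ← map_one f]; congr 1
      rcases hd with rfl | rfl | rfl | rfl
      · decide
      · decide
      · exact DihedralGroup.sr_mul_self _ ▸ pow_two _
      · exact DihedralGroup.sr_mul_self _ ▸ pow_two _
    · rw [hB, ← hsr', h2]
    · rintro B ⟨hBX, hB4, hB2, hBc⟩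
      have hBm : (B.comap f).map f = B := map_comap_eq_self (hfX ▸ hBX)
      rcases eq_B4 k (B.comap f) (by rw [← card_map_of_injective hf, hBm, hB4])
        (fun b hb => hf (by rw [map_pow, hB2 _ hb, map_one])) with h | h
      · exfalso
        rw [← hBm, h, hB, h4] at hBc
        exact absurd hBc (by decide)
      · rw [← hBm, h]
  set s := f (DihedralGroup.sr 0) with hs
  have hss : s * s = 1 := by rw [hs, ← map_mul, ← map_one f]; congr 1
  have hsi : s⁻¹ = s := inv_eq_of_mul_eq_one_left hss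
  obtain ⟨c, hc, hc1⟩ : ∃ c ∈ A, c * (s * c * s⁻¹) ≠ 1 := by
    by_contra h
    push Not at h
    refine absurd (hfa (DihedralGroup.sr 2) fun x hx => ?_) (by decide)
    have : f (DihedralGroup.sr 2) = s * (r * r) := by rw [hz, hs, ← map_mul]; rfl
    rw [this]
    calc s * (r * r) * x * (s * (r * r))⁻¹ = s * (r * r * x * (r * r)⁻¹) * s⁻¹ := by group
      _ = x := by rw [hzinv x hx, ← eq_inv_of_mul_eq_one_right (h _ (inv_mem hx)) |>.symm, inv_inv]
  set a := c * (s * c * s⁻¹) with hadef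
  have ha : a ∈ A := mul_mem hc (hconj _ _ hc)
  have hsa : s * a = a * s := by
    have := hcomm c hc _ (hconj s c hc)
    calc s * a = s * ((s * c * s⁻¹) * c) := by rw [hadef, this]
      _ = (s * s) * c * s⁻¹ * c := by group
      _ = c * (s * c * s⁻¹) * s := by rw [hss, hsi]; simp only [one_mul, mul_assoc, hss, mul_one]
  obtain ⟨hg0, h0⟩ := main 0 a ha hc1 hsa
  set b := r * a * r⁻¹ with hb
  have hbA : b ∈ A := hconj r a ha
  have hab := hcomm a ha b hbA
  have hrb : r * b * r⁻¹ = a⁻¹ := by rw [← hzinv a ha, hb]; group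
  have hsb : s * b * s⁻¹ = b⁻¹ := by
    have hsr : s * r = r⁻¹ * s := by
      rw [hs, hr, ← map_inv, ← map_mul, ← map_mul]; congr 1
    calc s * (r * a * r⁻¹) * s⁻¹ = (s * r) * a * (s * r)⁻¹ := by group
      _ = r⁻¹ * (s * a) * s⁻¹ * r := by rw [hsr]; group
      _ = r⁻¹ * (a⁻¹)⁻¹ * r := by rw [hsa]; group
      _ = r * (r * r)⁻¹ * (a⁻¹)⁻¹ * (r * r) * r⁻¹ := by group
      _ = r * a⁻¹ * r⁻¹ := by rw [← hzinv _ (inv_mem ha)]; group
      _ = _ := by rw [hb]; group
  have hne : a * b⁻¹ ≠ 1 := by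
    intro h
    have h1 : a = b := mul_inv_eq_one.1 h
    apply hc1
    refine hself a ha ?_
    conv_lhs => rw [h1, ← hsb, ← h1, hsa, mul_inv_cancel_right]
  have hs1 : f (DihedralGroup.sr 1) * (a * b⁻¹) = a * b⁻¹ * f (DihedralGroup.sr 1) := by
    have : f (DihedralGroup.sr 1) = s * r := by rw [hs, hr, ← map_mul]; rfl
    rw [this, ← mul_inv_eq_iff_eq_mul]
    calc s * r * (a * b⁻¹) * (s * r)⁻¹ = s * ((r * a * r⁻¹) * (r * b * r⁻¹)⁻¹) * s⁻¹ := by group
      _ = (s * b * s⁻¹) * (s * a * s⁻¹) := by rw [hrb, ← hb]; group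
      _ = a * b⁻¹ := by
        rw [hsb, hsa, mul_inv_cancel_right]
        exact ((show Commute a b from hab).inv_right).symm
  obtain ⟨-, h1⟩ := main 1 (a * b⁻¹) (mul_mem ha (inv_mem hbA)) hne hs1
  obtain ⟨m, hm⟩ := exists_ne (0 : M)
  have act : ∀ (g h : S) (m : M), ρ g (ρ h m) = ρ (g * h) m := fun g h m => by
    rw [map_mul]; rfl
  have hN : ∀ x ∈ A, ρ x (m + ρ x m + ρ (x * x) m) = m + ρ x m + ρ (x * x) m := by
    intro x hx
    rw [map_add, map_add, act, act, ← hinv x hx, mul_inv_cancel, map_one]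
    change _ + m = _
    abel
  have hfi : ∀ (g : S) (m : M), ρ g m = m → ρ g⁻¹ m = m := fun g m h => by
    conv_lhs => rw [← h]
    rw [act, inv_mul_cancel, map_one]; rfl
  have hr0 : ∀ (g : S) (v : M), v ≠ 0 → ρ g v ≠ 0 := fun g v hv h => hv (by
    have := congrArg (ρ g⁻¹) h
    rwa [act, inv_mul_cancel, map_one, map_zero] at this)
  by_cases e1 : m + ρ a m + ρ (a * a) m = 0
  swap
  · exact h0 _ e1 (hN a ha)
  by_cases e2 : m + ρ b m + ρ (b * b) m = 0
  swap
  · refine h0 (ρ r _) (hr0 _ _ e2) ?_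
    have : a * r = r * b⁻¹ := by rw [← inv_inv a, ← hrb]; group
    rw [act, this, ← act, hfi _ _ (hN b hbA)]
  by_cases e3 : m + ρ (a * b⁻¹) m + ρ (a * b⁻¹ * (a * b⁻¹)) m = 0
  swap
  · exact h1 _ e3 (hN _ (mul_mem ha (inv_mem hbA)))
  have hC : Commute a b := hab
  by_cases e4 : m + ρ (a * b) m + ρ (a * b * (a * b)) m = 0
  swap
  · refine h1 (ρ r _) (hr0 _ _ e4) ?_
    have : a * b⁻¹ * r = r * (a * b)⁻¹ := by
      have h3 : a = r * b⁻¹ * r⁻¹ := by rw [← inv_inv a, ← hrb]; group
      calc a * b⁻¹ * r = (r * b⁻¹ * r⁻¹) * (r * a * r⁻¹)⁻¹ * r := by rw [← h3, ← hb]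
        _ = _ := by group
    rw [act, this, ← act, hfi _ _ (hN _ (mul_mem ha hbA))]
  exfalso
  have h2 : ∀ m : M, m + m = 0 := fun m => by
    rw [← two_smul (ZMod 2) m, show (2 : ZMod 2) = 0 from rfl, zero_smul]
  have q1 : a * b⁻¹ = b * b * a := by rw [hC.inv_right.eq, hinv b hbA]
  have q2 : b * b * a * (b * b * a) = b * (a * a) := by
    rw [← q1, hC.inv_right.symm.mul_mul_mul_comm, ← hinv _ (inv_mem hbA), inv_inv,
      (hC.mul_left hC).eq]
  have q3 : a * b * (a * b) = b * b * (a * a) := by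
    rw [hC.eq, hC.mul_mul_mul_comm]
  rw [q1, q2] at e3
  rw [q3, hC.eq] at e4
  have f1 := congrArg (ρ b) e1
  have f2 := congrArg (ρ (b * b)) e1
  simp only [map_add, map_zero, act] at f1 f2
  apply hm
  linear_combination (norm := abel) e2 + e3 + e4 - f1 - f2 - h2 m

end Cfsg.Agent.S4407
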