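import Cfsg.Statements.S4409
import Cfsg.Agent.H51.N8b
import Cfsg.Agent.H67.Hall
import Cfsg.Agent.H3.Fitting
import Cfsg.Agent.H3.Cores
import Cfsg.Agent.H3.Frattini
import Cfsg.Agent.H54.KInfCor
import Cfsg.Agent.H7.Pairing

set_option autoImplicit false
open Cfsg

namespace Cfsg.Agent.S4409

open Subgroup H51.Eight
open scoped commutatorElement

theorem fix_le {G : Type*} [Group G] [Finite G] {T H : Subgroup G} [T.Normal]
    (hcop : (Nat.card H).Coprime (Nat.card T)) (hTH : ⁅T, H⁆ = T) {x : G} (hx : x ∈ T)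
    (h : ∀ g ∈ H, ⁅x, g⁆ ∈ ⁅T, T⁆) : x ∈ ⁅T, T⁆ := by
  let f := QuotientGroup.mk' ⁅T, T⁆
  haveI : IsMulCommutative (T.map f) := by
    refine ⟨⟨?_⟩⟩
    rintro ⟨_, a, ha, rfl⟩ ⟨_, b, hb, rfl⟩
    apply Subtype.ext
    change f a * f b = f b * f a
    rw [← commutatorElement_eq_one_iff_mul_comm, ← map_commutatorElement]
    exact (QuotientGroup.eq_one_iff _).2 (commutator_mem_commutator ha hb)
  haveI : (T.map f).Normal := Normal.map inferInstance f (QuotientGroup.mk'_surjective _)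
  have h1 := H4.centralizer_inf_commutator_eq_bot (A := H.map f) (V := T.map f)
    le_normalizer_of_normal
    (Nat.Coprime.coprime_dvd_left (card_map_dvd _ _) (Nat.Coprime.coprime_dvd_right
      (card_map_dvd _ _) hcop))
  rw [← map_commutator, hTH] at h1
  have h2 : f x ∈ (⊥ : Subgroup (G ⧸ ⁅T, T⁆)) := by
    rw [← h1]
    refine ⟨?_, mem_map_of_mem f hx⟩
    rintro _ ⟨g, hg, rfl⟩
    symm
    rw [← commutatorElement_eq_one_iff_mul_comm, ← map_commutatorElement]
    exact (QuotientGroup.eq_one_iff _).2 (h g hg)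
  exact (QuotientGroup.eq_one_iff _).1 (mem_bot.1 h2)

/-- Let S be a finite solvable group with O_{2'}(S) = 1 that contains a non-cyclic abelian subgroup of order 8, while no proper subgroup of S of 2-power index contains one. Then a Sylow 2-subgroup X of S is normal in S, and one of the following holds: X is abelian; X is extraspecial of order at least 32; X has a generalized quaternion subgroup X₀ of index 2 with X = X₀·C_X(X₀); or X is special with centre of order 4. -/
theorem result {S : Type*} [Group S] [Finite S]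
    [Group.IsSolvable S] (hO : Cfsg.pPrimeCore 2 S = ⊥)
    (h8 : ∃ A : Subgroup S, IsMulCommutative ↥A ∧ ¬ IsCyclic ↥A ∧ Nat.card ↥A = 8)
    (hmin : ∀ R : Subgroup S, R ≠ ⊤ → (∃ k : ℕ, R.index = 2 ^ k) →
      ¬ ∃ A : Subgroup S, A ≤ R ∧ IsMulCommutative ↥A ∧ ¬ IsCyclic ↥A ∧ Nat.card ↥A = 8)
    (X : Sylow 2 S) :
    (X : Subgroup S).Normal ∧
      (IsMulCommutative ↥X ∨
        (Cfsg.IsExtraspecial 2 ↥X ∧ 32 ≤ Nat.card ↥X) ∨
        (∃ (X₀ : Subgroup S) (k : ℕ), X₀ ≤ (X : Subgroup S) ∧ X₀.relIndex (X : Subgroup S) = 2 ∧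
          Nonempty (↥X₀ ≃* QuaternionGroup (2 ^ (k + 1))) ∧ X₀ ⊔ ((X : Subgroup S) ⊓ Subgroup.centralizer (X₀ : Set S)) = (X : Subgroup S)) ∨
        (Cfsg.IsSpecial 2 ↥X ∧ Nat.card ↥(Subgroup.center ↥X) = 4)) := by
  haveI : Fact (Nat.Prime 2) := ⟨Nat.prime_two⟩
  obtain ⟨H, -, hH1, hH2⟩ := H67.exists_hall (M := (⊤ : Subgroup S)) ({2}ᶜ : Set ℕ) inferInstance
  have hH : (Nat.card H).Coprime 2 :=
    ((Nat.Prime.coprime_iff_not_dvd Nat.prime_two).2 fun h => hH1 2 Nat.prime_two h rfl).symm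
  rw [relIndex_top_right] at hH2
  have hidx : ∀ R : Subgroup S, H ≤ R → ∃ k, R.index = 2 ^ k := fun R hR =>
    ⟨_, Nat.eq_prime_pow_of_unique_prime_dvd index_ne_zero_of_finite fun hd hd' =>
      by_contra fun h => hH2 _ hd h (hd'.trans (index_dvd_of_le hR))⟩
  set T := pCore 2 S with hT
  have hTp : IsPGroup 2 T := H3.pCore_isPGroup 2 S
  have hCT : centralizer (T : Set S) ≤ T := H3.centralizer_pCore_le hO
  have hTX : T ≤ (X : Subgroup S) := hTp.le_sylow_of_normal X
  have hcop := H4.coprime_card_of_isPGroup hH hTp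
  have hHT : H ≤ normalizer (T : Set S) := le_normalizer_of_normal
  obtain ⟨A, hAc, hAn, hA8⟩ := h8
  have hAp : IsPGroup 2 A := IsPGroup.of_card (n := 3) hA8
  -- minimality
  have hsup : ∀ Y : Subgroup S, IsPGroup 2 Y → H ≤ normalizer (Y : Set S) → N8 Y →
      ∀ P : Subgroup S, IsPGroup 2 P → Y ≤ P → P ≤ Y := by
    intro Y hY hn h P hP hYP x hx
    obtain ⟨B, hB, hB'⟩ := h.exists_sub hY
    have : Y ⊔ H = ⊤ := by
      by_contra hne
      exact hmin _ hne (hidx _ le_sup_right) ⟨B, hB.trans le_sup_left, hB'⟩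
    obtain ⟨y, hy, g, hg, rfl⟩ := (H4.mem_sup_iff_of_le_normalizer hn).1 (this ▸ mem_top x)
    have h1 : g ∈ P := by simpa using mul_mem (inv_mem (hYP hy)) hx
    have h2 : g ∈ H ⊓ P := ⟨hg, h1⟩
    rw [(disjoint_of_coprime_natCard (H4.coprime_card_of_isPGroup hH hP)).eq_bot] at h2
    rw [mem_bot.1 h2, mul_one]; exact hy
  by_cases hne : ⁅T, H⁆ = ⊥
  · have h1 : H ≤ T := (le_centralizer_iff.1 (commutator_eq_bot_iff_le_centralizer.1 hne)).trans hCT
    have h2 : H = ⊥ := by
      rw [← (disjoint_of_coprime_natCard hcop).eq_bot, inf_eq_left.2 h1]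
    have h3 : A = ⊤ := by
      by_contra h
      exact hmin A h (hidx A (h2 ▸ bot_le)) ⟨A, le_rfl, hAc, hAn, hA8⟩
    have h4 : ∀ a b : S, a * b = b * a := fun a b =>
      congrArg Subtype.val (hAc.is_comm.comm (⟨a, h3 ▸ mem_top a⟩ : A) ⟨b, h3 ▸ mem_top b⟩)
    exact ⟨⟨fun n hn g => by rwa [h4 g n, mul_inv_cancel_right]⟩,
      Or.inl ⟨⟨fun a b => Subtype.ext (h4 _ _)⟩⟩⟩
  have hT8 : N8 T := by
    by_contra h8
    obtain ⟨P, hP⟩ := hAp.exists_le_sylow
    exact (sm_of_not_n8 hTp hH hHT hne h8).not_n8 (hTp.le_sylow_of_normal P) P.isPGroup'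
      le_normalizer_of_normal (inf_le_right.trans hCT) ((n8_of_exists hAc hAn hA8).mono hP)
  have hXT : (X : Subgroup S) = T := le_antisymm (hsup T hTp hHT hT8 _ X.isPGroup' hTX) hTX
  have hprop : ∀ Y : Subgroup S, Y ≤ T → H ≤ normalizer (Y : Set S) → N8 Y → Y = T :=
    fun Y hY hn h => le_antisymm hY (hsup Y (hTp.to_le hY) hn h T hTp hY)
  change (X : Subgroup S).Normal ∧ (IsMulCommutative (X : Subgroup S) ∨
    (IsExtraspecial 2 (X : Subgroup S) ∧ 32 ≤ Nat.card (X : Subgroup S)) ∨ _ ∨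
    (IsSpecial 2 (X : Subgroup S) ∧ Nat.card (center (X : Subgroup S)) = 4))
  rw [hXT]
  refine ⟨inferInstance, ?_⟩
  by_cases hc : IsMulCommutative T
  · exact Or.inl hc
  right
  have hDT : ⁅T, H⁆ ≤ T := H4.commutator_le_left_of_le_normalizer hHT
  by_cases hD : ⁅T, H⁆ = T
  swap
  · have hHD : H ≤ normalizer ((⁅T, H⁆ : Subgroup S) : Set S) :=
      H4.le_normalizer_commutator hHT le_normalizer
    obtain ⟨hsm, h | ⟨c, hcT, hcH, hcD, hc1, hc2, h8⟩⟩ :=
      split hTp hH hHT hne fun h => hD (hprop _ hDT hHD h)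
    · exact absurd h.symm hD
    set D := ⁅T, H⁆ with hDdef
    have hY : D ⊔ zpowers c = T := hprop _ (sup_le hDT (zpowers_le_of_mem hcT))
      (H4.le_normalizer_sup hHD ((le_centralizer_iff.1 (zpowers_le_of_mem hcH)).trans
        (centralizer_le_normalizer _))) h8
    have hcn : c ∈ normalizer (D : Set S) := centralizer_le_normalizer _ hcD
    rcases hsm with ⟨⟨e⟩⟩ | ⟨⟨e⟩⟩
    · exfalso
      apply hc
      have hDc : ∀ a ∈ D, ∀ b ∈ D, Commute a b := fun a ha b hb => by
        have : e ⟨a, ha⟩ * e ⟨b, hb⟩ = e ⟨b, hb⟩ * e ⟨a, ha⟩ :=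
          (by decide : ∀ u v : DihedralGroup 2, u * v = v * u) _ _
        rw [← map_mul, ← map_mul] at this
        exact congrArg Subtype.val (e.injective this)
      have key : ∀ a ∈ T, Commute a c ∧ ∀ d ∈ D, Commute d a := by
        intro a ha
        rw [← hY] at ha
        rcases (mem_sup_zpowers hcn hc2).1 ha with ha | ha
        · exact ⟨hcD a ha, fun d hd => hDc d hd a ha⟩
        · have e : a = a * c⁻¹ * c := by simp
          rw [e]
          exact ⟨(show Commute _ c from hcD _ ha).mul_left (Commute.refl c),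
            fun d hd => (hDc d hd _ ha).mul_right (hcD d hd)⟩
      refine ⟨⟨fun a b => Subtype.ext ?_⟩⟩
      change (a : S) * b = b * a
      have ha : (a : S) ∈ D ⊔ zpowers c := hY.ge a.2
      rcases (mem_sup_zpowers hcn hc2).1 ha with ha | ha
      · exact (key b b.2).2 a ha
      · have e : (a : S) = a * c⁻¹ * c := by simp
        rw [e]
        exact (((key b b.2).2 _ ha).mul_left (key b b.2).1.symm).eq
    · refine Or.inr (Or.inl ⟨D, 0, hDT, ?_, ⟨e⟩, le_antisymm (sup_le hDT inf_le_left) ?_⟩)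
      · rw [← hY]; exact relIndex_sup_zpowers hcn hc2 hc1
      · conv_lhs => rw [← hY]
        exact sup_le_sup_left (zpowers_le_of_mem (mem_inf.2 ⟨hcT, hcD⟩)) _
  obtain ⟨K, hKn, hKT, hK2, hK3, hK4, hK5⟩ := H54.exists_critical_normal hTp
  have hHK : H ≤ normalizer (K : Set S) := le_normalizer_of_normal
  have hK : K = T := by
    by_contra hK
    have h1 : ⁅K, H⁆ ≠ ⊥ := fun h => hne (by
      rw [commutator_eq_bot_iff_le_centralizer, le_centralizer_iff] at h ⊢
      exact fun g hg => hK5 g (Nat.Coprime.coprime_dvd_left (orderOf_dvd_natCard _ hg) hH) (h hg))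
    exact (sm_of_not_n8 (hTp.to_le hKT) hH hHK h1 fun h => hK (hprop _ hKT hHK h)).not_n8 hKT hTp
      le_normalizer_of_normal hK4 hT8
  subst hK
  set Z := T ⊓ centralizer (T : Set S) with hZ
  have hHZ : H ≤ normalizer (Z : Set S) := le_normalizer_of_normal
  have hZ8 : ¬ N8 Z := fun h => hc ⟨⟨fun a b => Subtype.ext (by
    have h1 : (b : S) ∈ Z := (hprop Z inf_le_left hHZ h).ge b.2
    exact h1.2 a a.2)⟩⟩
  have hT1 : ⁅T, T⁆ ≠ ⊥ := fun h => hc ⟨⟨fun a b => Subtype.ext
    (commutator_eq_bot_iff_le_centralizer.1 h b.2 a a.2)⟩⟩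
  have hZc : IsMulCommutative Z := ⟨⟨fun a b => Subtype.ext (b.2.2 a a.2.1)⟩⟩
  have hZT : Z ≤ ⁅T, T⁆ := by
    by_cases h1 : ⁅Z, H⁆ = ⊥
    · intro z hz
      refine fix_le hcop hD hz.1 fun g hg => ?_
      have := commutator_mem_commutator hz hg
      rw [h1] at this
      rw [mem_bot.1 this]; exact one_mem _
    · by_contra hcon
      have hsm := sm_of_not_n8 (hTp.to_le inf_le_left) hH hHZ h1 hZ8
      have h2 : ⁅T, T⁆ ≠ Z := fun h => hcon h.ge
      have h3 := cent_of_cyclic (hsm.cyclic hK3 h2) (hTp.to_le (hK3.trans inf_le_left)) hH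
        le_normalizer_of_normal
      obtain ⟨-, h4 | ⟨c, hcZ, -, -, -, -, h8⟩⟩ := split (hTp.to_le inf_le_left) hH hHZ h1
        fun h => hZ8 (h.mono (H4.commutator_le_left_of_le_normalizer hHZ))
      · have h5 := H4.centralizer_inf_commutator_eq_bot hHZ
          (H4.coprime_card_of_isPGroup hH (hTp.to_le inf_le_left))
        rw [← h4] at h5
        exact hT1 (le_bot_iff.1 (h5 ▸ le_inf h3 hK3))
      · exact hZ8 (h8.mono (sup_le (H4.commutator_le_left_of_le_normalizer hHZ)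
          (zpowers_le_of_mem hcZ)))
  have hZe : Z = ⁅T, T⁆ := le_antisymm hZT hK3
  have hZ2 : ∀ z ∈ Z, z ^ 2 = 1 := by
    have : ⁅T, T⁆ ≤ Z ⊓ closure {z | z ∈ Z ∧ z ^ 2 = 1} := by
      refine le_inf hK3 (commutator_le.2 fun a ha b hb => subset_closure ⟨hK3
        (commutator_mem_commutator ha hb), ?_⟩)
      have h1 := (hK3 (commutator_mem_commutator ha hb)).2 a ha
      have h2 := hK2 a ha b hb
      calc ⁅a, b⁆ ^ 2 = a * (⁅a, b⁆ * a⁻¹) * ⁅a, b⁆ := by
            rw [← (show Commute a ⁅a, b⁆ from h1).inv_left.eq, mul_inv_cancel_left, sq]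
        _ = a ^ 2 * b * (a ^ 2)⁻¹ * b⁻¹ := by simp only [commutatorElement_def, sq]; group
        _ = 1 := by rw [← h2]; group
    intro z hz
    have h1 := (this (hZT hz)).2
    clear hz
    have key : z ∈ Z ∧ z ^ 2 = 1 := by
      induction h1 using closure_induction with
      | mem x hx => exact hx
      | one => exact ⟨one_mem _, one_pow _⟩
      | mul x y _ _ hx hy =>
        exact ⟨mul_mem hx.1 hy.1, by
          rw [(show Commute x y from hy.1.2 x hx.1.1).mul_pow, hx.2, hy.2, one_mul]⟩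
      | inv x _ hx => exact ⟨inv_mem hx.1, by rw [inv_pow, hx.2, inv_one]⟩
    exact key.2
  have hcen : (center T).map T.subtype = Z := by
    ext z
    constructor
    · rintro ⟨z, hz, rfl⟩
      exact ⟨z.2, fun a ha => congrArg Subtype.val (mem_center_iff.1 hz ⟨a, ha⟩)⟩
    · intro hz
      exact ⟨⟨z, hz.1⟩, mem_center_iff.2 fun a => Subtype.ext (hz.2 a a.2), rfl⟩
  have hcom : commutator T = center T := by
    apply map_injective T.subtype_injective
    rw [hcen, map_subtype_commutator, hZe]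
  have hsp : IsSpecial 2 T := ⟨hTp, le_antisymm ((H3.frattini_le_iff hTp).2 ⟨hcom.le, fun x =>
    mem_center_iff.2 fun a => Subtype.ext (hK2 x x.2 a a.2)⟩)
    (hcom ▸ H3.commutator_le_frattini hTp), hcom⟩
  have hcard : Nat.card (center T) = Nat.card Z := by
    rw [← hcen, card_map_of_injective T.subtype_injective]
  have hZ4 : Nat.card Z = 2 ∨ Nat.card Z = 4 := by
    obtain ⟨n, hn⟩ := IsPGroup.iff_card.1 (hTp.to_le (inf_le_left : Z ≤ T))
    have h1 : Nat.card Z ≠ 1 := fun h => hT1 (hZe ▸ card_eq_one.1 h)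
    have h2 : Nat.card Z ≤ 4 := by
      by_contra h2
      have hcy : ¬ IsCyclic Z := fun h => by
        obtain ⟨g, hg⟩ := IsCyclic.exists_ofOrder_eq_natCard (α := Z)
        have := Nat.le_of_dvd two_pos (orderOf_dvd_of_pow_eq_one (x := g) (n := 2)
          (Subtype.ext (hZ2 _ g.2)))
        omega
      obtain ⟨x, hx, y, hy, h⟩ := exists_two hZc (hTp.to_le inf_le_left) hcy
      exact hZ8 (n8_of_card le_rfl h hx hy (fun w hw => ⟨hw.2 x hx.1, hw.2 y hy.1⟩) (by omega))
    rw [hn] at h1 h2 ⊢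
    rcases n with _ | _ | _ | n
    · simp at h1
    · simp
    · simp
    · exfalso
      have : 2 ^ 3 ≤ 2 ^ (n + 1 + 1 + 1) := Nat.pow_le_pow_right two_pos (by omega)
      omega
  rcases hZ4 with h | h
  swap
  · exact Or.inr (Or.inr ⟨hsp, hcard.trans h⟩)
  have hes : IsExtraspecial 2 T := ⟨hsp, hcard.trans h⟩
  refine Or.inl ⟨hes, ?_⟩
  obtain ⟨B, hBT, hBc, -, hB8⟩ := hT8.exists_sub hTp
  have hB8' : Nat.card (B.subgroupOf T) = 8 := by rw [H4.card_subgroupOf_of_le hBT, hB8]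
  have hBle : B.subgroupOf T ≤ centralizer (B.subgroupOf T : Set T) := fun a ha b hb =>
    Subtype.ext (show (b : S) * a = a * b from
      congrArg Subtype.val (hBc.is_comm.comm (⟨b, hb⟩ : B) ⟨a, ha⟩))
  have hCne : centralizer (B.subgroupOf T : Set T) ≠ ⊤ := fun h' => by
    have := card_le_of_le (centralizer_eq_top_iff_subset.1 h')
    rw [hB8', hcard, h] at this
    omega
  obtain ⟨n, hn⟩ := IsPGroup.iff_card.1 hTp
  have hd := card_dvd_of_le hBle
  have hd2 := (centralizer (B.subgroupOf T : Set T)).card_mul_index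
  have hd3 : (centralizer (B.subgroupOf T : Set T)).index ≠ 1 := fun h => hCne (index_eq_one.1 h)
  have hd4 : (centralizer (B.subgroupOf T : Set T)).index ≠ 0 := index_ne_zero_of_finite
  have hd5 := card_le_of_le hBle
  have hd6 : 2 ≤ (centralizer (B.subgroupOf T : Set T)).index := by omega
  rw [hB8'] at hd5
  by_contra hlt
  have h16 : Nat.card T = 16 := by
    have h6 : 16 ≤ Nat.card T := by rw [← hd2]; nlinarith
    rw [hn] at h6 hlt ⊢
    have h7 : 4 ≤ n := (Nat.pow_le_pow_iff_right (a := 2) (by norm_num)).1 h6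
    have h8 : n < 5 := (Nat.pow_lt_pow_iff_right (a := 2) (by norm_num)).1 (by omega)
    rw [show n = 4 by omega]; rfl
  have h9 : centralizer (B.subgroupOf T : Set T) = B.subgroupOf T := by
    refine (eq_of_le_of_card_ge hBle ?_).symm
    rw [hB8']
    rw [h16] at hd2
    nlinarith
  have := H7.IsExtraspecial.card_mul_eq_sq hes h9
  rw [h16, hB8'] at this
  omega

end Cfsg.Agent.S4409
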