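import Cfsg.Statements.S4410
import Cfsg.Agent.H3.Fitting

set_option autoImplicit false
open Cfsg

namespace Cfsg.Agent.S4410

section
variable {V : Type*} [AddCommGroup V] [Module (ZMod 2) V]

theorem add_self (w : V) : w + w = 0 := by
  have : ((1 : ZMod 2) + 1) • w = 0 := by
    have h : ((1 : ZMod 2) + 1) = 0 := by decide
    rw [h, zero_smul]
  simpa [add_smul] using this

/-- `b` is a transvection with axis vector `w` (or trivial). -/
def Tv (b : V ≃ₗ[ZMod 2] V) (w : V) : Prop := b w = w ∧ ∀ x, b x = x ∨ b x = x + w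

theorem Tv.conj {b : V ≃ₗ[ZMod 2] V} {w : V} (h : Tv b w) (g : V ≃ₗ[ZMod 2] V) :
    Tv (g * b * g⁻¹) (g w) := by
  refine ⟨?_, fun x => ?_⟩
  · simp [h.1]
  · rcases h.2 (g⁻¹ x) with h1 | h1
    · left; simp only [LinearEquiv.mul_apply, h1]
      exact g.apply_symm_apply x
    · right; simp only [LinearEquiv.mul_apply, h1, map_add]
      congr 1
      exact g.apply_symm_apply x

theorem Tv.mul {a b : V ≃ₗ[ZMod 2] V} {w : V} (ha : Tv a w) (hb : Tv b w) : Tv (a * b) w := by
  refine ⟨by simp [ha.1, hb.1], fun x => ?_⟩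
  simp only [LinearEquiv.mul_apply]
  rcases hb.2 x with h1 | h1 <;> rcases ha.2 x with h2 | h2
  · left; rw [h1, h2]
  · right; rw [h1, h2]
  · right; rw [h1, map_add, h2, ha.1]
  · left; rw [h1, map_add, h2, ha.1, add_assoc, add_self, add_zero]

theorem Tv.sq {a : V ≃ₗ[ZMod 2] V} {w : V} (ha : Tv a w) : a * a = 1 := by
  ext x
  simp only [LinearEquiv.mul_apply, LinearEquiv.coe_one, id]
  rcases ha.2 x with h | h
  · rw [h, h]
  · rw [h, map_add, h, ha.1, add_assoc, add_self, add_zero]

theorem eq_of_tv {a b : V ≃ₗ[ZMod 2] V} {w : V} (ha : a * a = 1) (hb : Tv b w) (haw : a w = w)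
    (hodd : Odd (orderOf (a * b))) : a = b := by
  have hai : a⁻¹ = a := inv_eq_of_mul_eq_one_right ha
  have h1 : Tv (a * b * a⁻¹) w := by
    have := hb.conj a
    rwa [haw] at this
  have h2 := (h1.mul hb).sq
  have h4 : (a * b) ^ 4 = 1 := by
    rw [← h2, hai]; simp only [pow_succ, pow_zero, one_mul, mul_assoc]
  have h5 : orderOf (a * b) ∣ 2 ^ 2 := orderOf_dvd_of_pow_eq_one h4
  have h6 : orderOf (a * b) = 1 :=
    Nat.Coprime.eq_one_of_dvd (Nat.Coprime.pow_right 2 ((Nat.coprime_two_right).mpr hodd)) h5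
  have h7 : a * b = 1 := orderOf_eq_one_iff.mp h6
  have := hb.sq
  calc a = a * (b * b) := by rw [this, mul_one]
    _ = b := by rw [← mul_assoc, h7, one_mul]

end

set_option linter.style.haveILetI false
set_option maxHeartbeats 400000 in

/-- Let V be a finite-dimensional vector space over the field with two elements and S a solvable group of linear automorphisms of V with O₂(S) = 1. If P ∈ S has order 4 and (P − 1)³ = 0 on V, then the image of (P − 1)² has at least 4 elements; equivalently, in the decomposition of V into indecomposable modules for the cyclic group generated by P, at least two summands have dimension 3. -/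
theorem result
    {V : Type*} [AddCommGroup V] [Module (ZMod 2) V] [Finite V]
    (S : Subgroup (V ≃ₗ[ZMod 2] V)) (hS : Group.IsSolvable ↥S) (hO2 : Cfsg.pCore 2 ↥S = ⊥)
    (P : V ≃ₗ[ZMod 2] V) (hPS : P ∈ S) (hP4 : orderOf P = 4)
    (hcub : ((P : V →ₗ[ZMod 2] V) - LinearMap.id) ^ 3 = 0) :
    4 ≤ Nat.card ↥(LinearMap.range (((P : V →ₗ[ZMod 2] V) - LinearMap.id) ^ 2)) := by
  classical
  haveI : Finite (V ≃ₗ[ZMod 2] V) :=
    Finite.of_injective (fun e : V ≃ₗ[ZMod 2] V => (e : V → V)) DFunLike.coe_injective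
  haveI : Fact (Nat.Prime 2) := ⟨Nat.prime_two⟩
  haveI := hS
  set f := ((P : V →ₗ[ZMod 2] V) - LinearMap.id) ^ 2 with hf
  have hneg : ∀ w : V, -w = w := fun w => neg_eq_of_add_eq_zero_right (add_self w)
  have hfx : ∀ x, f x = (P * P) x + x := by
    intro x
    simp only [hf, pow_two, Module.End.mul_apply, LinearMap.sub_apply, LinearMap.id_apply,
      LinearEquiv.coe_coe, map_sub, LinearEquiv.mul_apply, sub_eq_add_neg, hneg, map_add,
      LinearMap.add_apply, LinearMap.neg_apply]
    rw [add_assoc, ← add_assoc (P x) (P x), add_self, zero_add]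
  have hP4' : P ^ 4 = 1 := hP4 ▸ pow_orderOf_eq_one P
  have hzz : (P * P) * (P * P) = 1 := by
    rw [← hP4']; simp only [pow_succ, pow_zero, one_mul, mul_assoc]
  have hz1 : P * P ≠ 1 := by
    intro h
    have : orderOf P ∣ 2 := orderOf_dvd_of_pow_eq_one (by rw [pow_two, h])
    rw [hP4] at this
    omega
  by_contra hlt
  push Not at hlt
  obtain ⟨x0, hx0⟩ : ∃ x0, (P * P) x0 ≠ x0 := by
    by_contra h
    push Not at h
    exact hz1 (LinearEquiv.ext h)
  set z := P * P with hz
  set v := z x0 + x0 with hv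
  have hv0 : v ≠ 0 := by
    intro h
    apply hx0
    have := eq_neg_of_add_eq_zero_left h
    rwa [hneg] at this
  have hzzx : ∀ x, z (z x) = x := fun x => by
    have := congrArg (fun e : V ≃ₗ[ZMod 2] V => e x) hzz
    simpa using this
  have hT : Tv z v := by
    refine ⟨by rw [hv, map_add, hzzx, add_comm], fun x => ?_⟩
    by_contra hc
    push Not at hc
    set u := z x + x with hu
    have hu0 : u ≠ 0 := by
      intro h
      apply hc.1
      have := eq_neg_of_add_eq_zero_left h
      rwa [hneg] at this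
    have huv : u ≠ v := by
      intro h
      apply hc.2
      rw [← h, hu, add_comm (z x), ← add_assoc, add_self, zero_add]
    have hvm : v ∈ LinearMap.range f := ⟨x0, hfx x0⟩
    have hum : u ∈ LinearMap.range f := ⟨x, hfx x⟩
    have huv0 : u + v ≠ 0 := fun h => huv (by
      have := eq_neg_of_add_eq_zero_left h
      rwa [hneg] at this)
    haveI : Fintype ↥(LinearMap.range f) := Fintype.ofFinite _
    have hcard : ({0, ⟨v, hvm⟩, ⟨u, hum⟩, ⟨u + v, add_mem hum hvm⟩} :
        Finset ↥(LinearMap.range f)).card = 4 := by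
      rw [Finset.card_eq_four]
      refine ⟨_, _, _, _, ?_, ?_, ?_, ?_, ?_, ?_, rfl⟩
      · exact fun h => hv0 (congrArg Subtype.val h).symm
      · exact fun h => hu0 (congrArg Subtype.val h).symm
      · exact fun h => huv0 (congrArg Subtype.val h).symm
      · exact fun h => huv (congrArg Subtype.val h).symm
      · intro h
        have := congrArg Subtype.val h
        simp only at this
        exact hu0 (by simpa using this.symm)
      · intro h
        have := congrArg Subtype.val h
        simp only at this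
        exact hv0 (by simpa using this)
    have := Finset.card_le_univ ({0, ⟨v, hvm⟩, ⟨u, hum⟩, ⟨u + v, add_mem hum hvm⟩} :
        Finset ↥(LinearMap.range f))
    rw [hcard, ← Nat.card_eq_fintype_card] at this
    omega
  -- group theory
  set F := fittingSubgroup ↥S with hF
  haveI : F.Normal := H3.fitting_normal _
  have hFodd : ¬ 2 ∣ Nat.card F := by
    have := H3.not_dvd_relIndex_pCore_fitting (G := ↥S) (p := 2)
    rwa [hO2, Subgroup.relIndex_bot_left] at this
  have hodd : ∀ a : ↥S, a ∈ F → Odd (orderOf (a : V ≃ₗ[ZMod 2] V)) := by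
    intro a ha
    rw [Subgroup.orderOf_coe, ← Nat.not_even_iff_odd, even_iff_two_dvd]
    intro h2
    exact hFodd (h2.trans (F.orderOf_dvd_natCard ha))
  set p : ↥S := ⟨P, hPS⟩ with hp
  have hz2 : orderOf z = 2 := orderOf_eq_prime (by rw [pow_two, hzz]) hz1
  obtain ⟨g, hgF, hg⟩ : ∃ g ∈ F, g * (p * p) ≠ (p * p) * g := by
    by_contra h
    push Not at h
    have h1 : p * p ∈ F := H3.centralizer_fitting_le ↥S (by
      rw [Subgroup.mem_centralizer_iff]; exact h)
    have h2 := hodd _ h1
    have h3 : ((p * p : ↥S) : V ≃ₗ[ZMod 2] V) = z := rfl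
    rw [h3, hz2] at h2
    exact absurd h2 (by decide)
  -- the class of `p * p` modulo `F`
  have key : ∀ a b : ↥S, (QuotientGroup.mk a : ↥S ⧸ F) = QuotientGroup.mk (p * p) →
      (QuotientGroup.mk b : ↥S ⧸ F) = QuotientGroup.mk (p * p) →
      Odd (orderOf ((a : V ≃ₗ[ZMod 2] V) * b)) := by
    intro a b ha hb
    have : a * b ∈ F := by
      rw [← QuotientGroup.eq_one_iff, QuotientGroup.mk_mul, ha, hb, ← QuotientGroup.mk_mul]
      have : p * p * (p * p) = 1 := Subtype.ext hzz
      rw [this, QuotientGroup.mk_one]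
    exact hodd _ this
  have hg1 : (QuotientGroup.mk g : ↥S ⧸ F) = 1 := (QuotientGroup.eq_one_iff g).mpr hgF
  set t : ↥S := g * (p * p) * g⁻¹ with ht
  have qt : (QuotientGroup.mk t : ↥S ⧸ F) = QuotientGroup.mk (p * p) := by
    rw [ht, QuotientGroup.mk_mul, QuotientGroup.mk_mul, QuotientGroup.mk_inv, hg1]; simp
  have qc : ∀ a : ↥S, (QuotientGroup.mk a : ↥S ⧸ F) = QuotientGroup.mk (p * p) →
      (QuotientGroup.mk (p * a * p⁻¹) : ↥S ⧸ F) = QuotientGroup.mk (p * p) := by
    intro a ha
    rw [QuotientGroup.mk_mul, QuotientGroup.mk_mul, ha, ← QuotientGroup.mk_mul,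
      ← QuotientGroup.mk_mul]
    congr 1; group
  have q1 := qc t qt
  have q3 := qc _ (qc _ q1)
  set T : V ≃ₗ[ZMod 2] V := (t : V ≃ₗ[ZMod 2] V) with hTT
  set w : V := (g : V ≃ₗ[ZMod 2] V) v with hw
  have hTw : Tv T w := hT.conj (g : V ≃ₗ[ZMod 2] V)
  have hTz : T ≠ z := by
    intro h
    apply hg
    have h' : t = p * p := Subtype.ext h
    rw [ht] at h'
    calc g * (p * p) = g * (p * p) * g⁻¹ * g := by group
      _ = p * p * g := by rw [h']
  have hPT : P * T * P⁻¹ ≠ T := by
    intro h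
    have h1 : P * T = T * P := by
      calc P * T = P * T * P⁻¹ * P := by group
        _ = T * P := by rw [h]
    have h2 : z * T = T * z := by
      rw [hz, mul_assoc, h1, ← mul_assoc, h1, mul_assoc]
    have h3 : (T * z) ^ 2 = 1 := by
      calc (T * z) ^ 2 = T * (z * T) * z := by simp only [pow_two, mul_assoc]
        _ = (T * T) * (z * z) := by rw [h2]; simp only [mul_assoc]
        _ = 1 := by rw [hTw.sq, hzz, one_mul]
    have h4 : Odd (orderOf (T * z)) := key t (p * p) qt rfl
    have h5 : orderOf (T * z) = 1 :=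
      Nat.Coprime.eq_one_of_dvd ((Nat.coprime_two_right).mpr h4) (orderOf_dvd_of_pow_eq_one h3)
    apply hTz
    have h7 : T * z = 1 := orderOf_eq_one_iff.mp h5
    calc T = T * (z * z) := by rw [hzz, mul_one]
      _ = z := by rw [← mul_assoc, h7, one_mul]
  have e1 : ((p * t * p⁻¹ : ↥S) : V ≃ₗ[ZMod 2] V) = P * T * P⁻¹ := by
    rw [Subgroup.coe_mul, Subgroup.coe_mul, Subgroup.coe_inv]
  have e3 : ((p * (p * (p * t * p⁻¹) * p⁻¹) * p⁻¹ : ↥S) : V ≃ₗ[ZMod 2] V) =
      P * (P * (P * T * P⁻¹) * P⁻¹) * P⁻¹ := by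
    rw [← e1]
    rw [Subgroup.coe_mul, Subgroup.coe_mul, Subgroup.coe_inv, Subgroup.coe_mul (x := p * _),
      Subgroup.coe_mul (x := p), Subgroup.coe_inv]
  have o1 : Odd (orderOf (T * (P * T * P⁻¹))) := by rw [← e1]; exact key t _ qt q1
  have o2 : Odd (orderOf (z * (P * T * P⁻¹))) := by rw [← e1]; exact key (p * p) _ rfl q1
  have o3 : Odd (orderOf (T * (P * (P * (P * T * P⁻¹) * P⁻¹) * P⁻¹))) := by
    rw [← e3]; exact key t _ qt q3
  have hT1 : Tv (P * T * P⁻¹) (P w) := hTw.conj P
  have hT3 : Tv (P * (P * (P * T * P⁻¹) * P⁻¹) * P⁻¹) (P (P (P w))) := (hT1.conj P).conj P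
  have a1 : T v = v + w := by
    rcases hTw.2 v with h | h
    · exact absurd (eq_of_tv hTw.sq hT h (key t (p * p) qt rfl)) hTz
    · exact h
  have a2 : T (P w) = P w + w := by
    rcases hTw.2 (P w) with h | h
    · exact absurd (eq_of_tv hTw.sq hT1 h o1).symm hPT
    · exact h
  have a3 : z (P w) = P w + v := by
    rcases hT.2 (P w) with h | h
    · exfalso
      have h1 := eq_of_tv hzz hT1 h o2
      apply hTz
      calc T = P⁻¹ * (P * T * P⁻¹) * P := by group
        _ = z := by rw [← h1, hz]; group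
    · exact h
  have a4 : P (P (P w)) = P w + v := a3
  have a5 : T (P (P (P w))) = P (P (P w)) := by
    rw [a4, map_add, a1, a2, add_assoc, add_comm v w, ← add_assoc w, add_self, zero_add]
  have a6 := eq_of_tv hTw.sq hT3 a5 o3
  apply hPT
  calc P * T * P⁻¹ = P * (P * (P * (P * T * P⁻¹) * P⁻¹) * P⁻¹) * P⁻¹ := by rw [← a6]
    _ = P ^ 4 * T * (P ^ 4)⁻¹ := by
      simp only [pow_succ, pow_zero, one_mul, mul_assoc, mul_inv_rev]
    _ = T := by rw [hP4']; group

end Cfsg.Agent.S4410
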