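import Cfsg.Statements.S4412
import Cfsg.Agent.H20.Wt8

set_option autoImplicit false
open Cfsg

namespace Cfsg.Agent.S4412

/-- Let p be an odd prime, P a finite p-group and I an elementary abelian subgroup of order 8 of Aut(P). Call T ∈ I, T ≠ 1, broad when its fixed-point subgroup C_P(T) is not cyclic. Suppose I has a proper subgroup I₀ containing no broad element such that the product of any two broad elements lies in I₀. Then P is abelian of rank exactly 3 (generated by three elements but not by two), there are exactly three broad elements and they generate I, and I₀ is exactly the set of products of two broad elements. -/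
theorem result
    {P : Type*} [Group P] [Finite P] (p : ℕ) (hp : p.Prime) (hp2 : p ≠ 2) (hP : IsPGroup p P)
    (I : Subgroup (MulAut P)) (hI : Cfsg.IsElementaryAbelian 2 I) (hI8 : Nat.card ↥I = 8)
    (I₀ : Subgroup (MulAut P)) (hI₀ : I₀ < I)
    (hdisj : ∀ T ∈ I₀, T ≠ 1 → ∃ g : P, ∀ x : P, (T x = x ↔ x ∈ Subgroup.zpowers g))
    (hprod : ∀ T ∈ I, ∀ T' ∈ I, T ≠ 1 → T' ≠ 1 → (¬ ∃ g : P, ∀ x : P, (T x = x ↔ x ∈ Subgroup.zpowers g)) →
      (¬ ∃ g : P, ∀ x : P, (T' x = x ↔ x ∈ Subgroup.zpowers g)) → T * T' ∈ I₀) :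
    IsMulCommutative P ∧ (∃ a b c : P, Subgroup.closure {a, b, c} = ⊤) ∧ (¬ ∃ a b : P, Subgroup.closure {a, b} = ⊤) ∧
      Nat.card {T : MulAut P // T ∈ I ∧ T ≠ 1 ∧ ¬ ∃ g : P, ∀ x : P, (T x = x ↔ x ∈ Subgroup.zpowers g)} = 3 ∧
      Subgroup.closure {T : MulAut P | T ∈ I ∧ T ≠ 1 ∧ ¬ ∃ g : P, ∀ x : P, (T x = x ↔ x ∈ Subgroup.zpowers g)} = I ∧
      (I₀ : Set (MulAut P)) = {S : MulAut P | ∃ T T' : MulAut P, T ∈ I ∧ T' ∈ I ∧ T ≠ 1 ∧ T' ≠ 1 ∧
        (¬ ∃ g : P, ∀ x : P, (T x = x ↔ x ∈ Subgroup.zpowers g)) ∧ (¬ ∃ g : P, ∀ x : P, (T' x = x ↔ x ∈ Subgroup.zpowers g)) ∧ S = T * T'} := by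
  classical
  have : Fact p.Prime := ⟨hp⟩
  have hodd : Odd (Nat.card P) := by
    obtain ⟨k, hk⟩ := IsPGroup.iff_card.1 hP
    rw [hk]
    exact (hp.odd_of_ne_two hp2).pow
  have hcm : ∀ T ∈ I, ∀ U ∈ I, T * U = U * T := fun T hT U hU =>
    congrArg Subtype.val (hI.1.is_comm.comm (⟨T, hT⟩ : I) ⟨U, hU⟩)
  have hc : ∀ T ∈ I, ∀ U ∈ I, ∀ x, U (T x) = T (U x) := fun T hT U hU x =>
    congrArg (fun V : MulAut P => V x) (hcm U hU T hT)
  have hsq : ∀ T ∈ I, T * T = 1 := fun T hT => by rw [← pow_two]; exact hI.2 T hT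
  have h2 : ∀ T ∈ I, ∀ x, T (T x) = x := fun T hT x =>
    congrArg (fun V : MulAut P => V x) (hsq T hT)
  obtain ⟨x1, w1, c1⟩ := H20.Wt.step hodd I hc h2 I le_rfl (by omega)
  obtain ⟨x2, w2, c2⟩ := H20.Wt.step hodd I hc h2 (I ⊓ MulAction.stabilizer (MulAut P) x1)
    inf_le_left (by omega)
  obtain ⟨x3, w3, c3⟩ := H20.Wt.step hodd I hc h2 (I ⊓ MulAction.stabilizer (MulAut P) x1 ⊓
    MulAction.stabilizer (MulAut P) x2) (inf_le_left.trans inf_le_left) (by omega)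
  have triv : ∀ T ∈ I, T x1 = x1 → T x2 = x2 → T x3 = x3 → T = 1 := by
    intro T hT a b c
    have hb : I ⊓ MulAction.stabilizer (MulAut P) x1 ⊓ MulAction.stabilizer (MulAut P) x2 ⊓
      MulAction.stabilizer (MulAut P) x3 = ⊥ := Subgroup.card_eq_one.1 (by omega)
    exact Subgroup.mem_bot.1 (hb ▸ (⟨⟨⟨hT, a⟩, b⟩, c⟩ : T ∈ I ⊓ MulAction.stabilizer (MulAut P) x1 ⊓
      MulAction.stabilizer (MulAut P) x2 ⊓ MulAction.stabilizer (MulAut P) x3))
  have ex : ∀ a b : P, (∀ T ∈ I, T a = a ∨ T a = a⁻¹) → (∀ T ∈ I, T b = b ∨ T b = b⁻¹) →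
      ∃ T ∈ I, T ≠ 1 ∧ T a = a ∧ T b = b := by
    intro a b ha hb
    have e1 := H20.Wt.half_le I a ha
    have e2 := H20.Wt.half_le (I ⊓ MulAction.stabilizer (MulAut P) a) b (fun T hT => hb T hT.1)
    obtain ⟨⟨T, hT⟩, hT1⟩ := Subgroup.ne_bot_iff_exists_ne_one.1
      (fun h : I ⊓ MulAction.stabilizer (MulAut P) a ⊓ MulAction.stabilizer (MulAut P) b = ⊥ => by
        rw [h, Subgroup.card_bot] at e2; omega)
    exact ⟨T, hT.1.1, fun h => hT1 (Subtype.ext h), hT.1.2, hT.2⟩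
  obtain ⟨T1, m1, n1, h12, h13⟩ := ex x2 x3 w2 w3
  obtain ⟨T2, m2, n2, h21, h23⟩ := ex x1 x3 w1 w3
  obtain ⟨T3, m3, n3, h31, h32⟩ := ex x1 x2 w1 w2
  have k1 : T1 x1 ≠ x1 := fun h => n1 (triv T1 m1 h h12 h13)
  have k2 : T2 x2 ≠ x2 := fun h => n2 (triv T2 m2 h21 h h23)
  have k3 : T3 x3 ≠ x3 := fun h => n3 (triv T3 m3 h31 h32 h)
  have h11 := (w1 T1 m1).resolve_left k1
  have h22 := (w2 T2 m2).resolve_left k2
  have h33 := (w3 T3 m3).resolve_left k3
  have j1 : x1 ≠ x1⁻¹ := fun h => k1 (h11.trans h.symm)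
  have j2 : x2 ≠ x2⁻¹ := fun h => k2 (h22.trans h.symm)
  have j3 : x3 ≠ x3⁻¹ := fun h => k3 (h33.trans h.symm)
  have b1 := H20.Wt.nc hp hP T1 T2 x2 x3 h12 h13 h22 j2 h23 j3
  have b2 := H20.Wt.nc hp hP T2 T1 x1 x3 h21 h23 h11 j1 h13 j3
  have b3 := H20.Wt.nc hp hP T3 T1 x1 x2 h31 h32 h11 j1 h12 j2
  have i12 := hprod T1 m1 T2 m2 n1 n2 b1 b2
  have i13 := hprod T1 m1 T3 m3 n1 n3 b1 b3
  have i23 := hprod T2 m2 T3 m3 n2 n3 b2 b3
  have ap : ∀ (T U : MulAut P) (x : P), (T * U) x = T (U x) := fun _ _ _ => rfl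
  have hall : ∀ T ∈ I, T = 1 ∨ T = T1 ∨ T = T2 ∨ T = T3 ∨ T = T1 * T2 ∨ T = T1 * T3 ∨
      T = T2 * T3 ∨ T = T1 * T2 * T3 := by
    intro T hT
    have key : ∀ U ∈ I, T x1 = U x1 → T x2 = U x2 → T x3 = U x3 → T = U := by
      intro U hU a b c
      have := triv (U * T) (I.mul_mem hU hT) (by rw [ap, a, h2 U hU]) (by rw [ap, b, h2 U hU])
        (by rw [ap, c, h2 U hU])
      calc T = U * U * T := by rw [hsq U hU, one_mul]
        _ = U := by rw [mul_assoc, this, mul_one]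
    rcases w1 T hT with a | a <;> rcases w2 T hT with b | b <;> rcases w3 T hT with c | c
    · exact Or.inl (triv T hT a b c)
    · exact Or.inr <| Or.inr <| Or.inr <| Or.inl (key _ m3 (by rw [a, h31]) (by rw [b, h32])
        (by rw [c, h33]))
    · exact Or.inr <| Or.inr <| Or.inl (key _ m2 (by rw [a, h21]) (by rw [b, h22])
        (by rw [c, h23]))
    · exact Or.inr <| Or.inr <| Or.inr <| Or.inr <| Or.inr <| Or.inr <| Or.inl
        (key _ (I.mul_mem m2 m3) (by rw [a, ap, h31, h21]) (by rw [b, ap, h32, h22])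
        (by rw [c, ap, h33, map_inv, h23]))
    · exact Or.inr <| Or.inl (key _ m1 (by rw [a, h11]) (by rw [b, h12]) (by rw [c, h13]))
    · exact Or.inr <| Or.inr <| Or.inr <| Or.inr <| Or.inr <| Or.inl
        (key _ (I.mul_mem m1 m3) (by rw [a, ap, h31, h11]) (by rw [b, ap, h32, h12])
        (by rw [c, ap, h33, map_inv, h13]))
    · exact Or.inr <| Or.inr <| Or.inr <| Or.inr <| Or.inl
        (key _ (I.mul_mem m1 m2) (by rw [a, ap, h21, h11]) (by rw [b, ap, h22, map_inv, h12])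
        (by rw [c, ap, h23, h13]))
    · exact Or.inr <| Or.inr <| Or.inr <| Or.inr <| Or.inr <| Or.inr <| Or.inr
        (key _ (I.mul_mem (I.mul_mem m1 m2) m3) (by rw [a, ap, ap, h31, h21, h11])
        (by rw [b, ap, ap, h32, h22, map_inv, h12])
        (by rw [c, ap, ap, h33, map_inv, h23, map_inv, h13]))
  have n12 : T1 * T2 ≠ 1 := fun h => j1 (by
    have := congrArg (fun V : MulAut P => V x1) h
    simp only [ap, h21, h11] at this
    exact this.symm)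
  have n13 : T1 * T3 ≠ 1 := fun h => j1 (by
    have := congrArg (fun V : MulAut P => V x1) h
    simp only [ap, h31, h11] at this
    exact this.symm)
  have n23 : T2 * T3 ≠ 1 := fun h => j2 (by
    have := congrArg (fun V : MulAut P => V x2) h
    simp only [ap, h32, h22] at this
    exact this.symm)
  have d12 := hdisj _ i12 n12
  have d13 := hdisj _ i13 n13
  have d23 := hdisj _ i23 n23
  have f3 : (T1 * T2) x3 = x3 := by rw [ap, h23, h13]
  have f2 : (T1 * T3) x2 = x2 := by rw [ap, h32, h12]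
  have f1 : (T2 * T3) x1 = x1 := by rw [ap, h31, h21]
  have hw : ∀ x : P, (∀ T ∈ I, T x = x ∨ T x = x⁻¹) → x = 1 ∨
      (T1 x = x⁻¹ ∧ T2 x = x ∧ T3 x = x) ∨ (T1 x = x ∧ T2 x = x⁻¹ ∧ T3 x = x) ∨
      (T1 x = x ∧ T2 x = x ∧ T3 x = x⁻¹) := by
    intro x hx
    by_cases hx1 : x = x⁻¹
    · exact Or.inl (H20.Wt.eq_one_of_inv hodd hx1)
    right
    rcases hx T1 m1 with a | a <;> rcases hx T2 m2 with b | b <;> rcases hx T3 m3 with c | c
    · exact absurd d12 (H20.Wt.nc hp hP _ T3 x3 x f3 (by rw [ap, b, a]) h33 j3 c hx1)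
    · exact Or.inr (Or.inr ⟨a, b, c⟩)
    · exact Or.inr (Or.inl ⟨a, b, c⟩)
    · exact absurd d23 (H20.Wt.nc hp hP _ T1 x1 x f1 (by rw [ap, c, map_inv, b, inv_inv]) h11 j1 a
        hx1)
    · exact Or.inl ⟨a, b, c⟩
    · exact absurd d13 (H20.Wt.nc hp hP _ T2 x2 x f2 (by rw [ap, c, map_inv, a, inv_inv]) h22 j2 b
        hx1)
    · exact absurd d12 (H20.Wt.nc hp hP _ T3 x3 x f3 (by rw [ap, b, map_inv, a, inv_inv]) h33 j3 c
        hx1)
    · exact absurd d12 (H20.Wt.nc hp hP _ T1 x x3 (by rw [ap, b, map_inv, a, inv_inv]) f3 a hx1 h13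
        j3)
  have mS : T1 * T2 * T3 ∈ I := I.mul_mem (I.mul_mem m1 m2) m3
  have hfpf : ∀ x : P, (T1 * T2 * T3) x = x → x = 1 := by
    intro x hx
    have := H20.Wt.gen hodd I hc h2 ((T1 * T2 * T3).toMonoidHom.eqLocus (MonoidHom.id P)) ⊥
      (fun T hT y hy => by
        show (T1 * T2 * T3) (T y) = T y
        have hy' : (T1 * T2 * T3) y = y := hy
        rw [hc T hT _ mS, hy'])
      (fun y hy hwy => by
        have hy' : (T1 * T2 * T3) y = y := hy
        rw [ap, ap] at hy'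
        refine Subgroup.mem_bot.2 ?_
        rcases hw y hwy with h | ⟨a, b, c⟩ | ⟨a, b, c⟩ | ⟨a, b, c⟩
        · exact h
        · rw [c, b, a] at hy'; exact H20.Wt.eq_one_of_inv hodd hy'.symm
        · rw [c, b, map_inv, a] at hy'; exact H20.Wt.eq_one_of_inv hodd hy'.symm
        · rw [c, map_inv, b, map_inv, a] at hy'; exact H20.Wt.eq_one_of_inv hodd hy'.symm)
    exact Subgroup.mem_bot.1 (this hx)
  have hcomm : ∀ a b : P, a * b = b * a := fun a b =>
    MonoidHom.FixedPointFree.commute_all_of_involutive (φ := T1 * T2 * T3) hfpf (h2 _ mS) a b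
  have dS : ∃ g : P, ∀ x : P, ((T1 * T2 * T3) x = x ↔ x ∈ Subgroup.zpowers g) :=
    ⟨1, fun x => ⟨fun h => by rw [hfpf x h]; exact one_mem _, fun h => by
      rw [Subgroup.zpowers_one_eq_bot, Subgroup.mem_bot] at h
      rw [h, map_one]⟩⟩
  have hset : {T : MulAut P | T ∈ I ∧ T ≠ 1 ∧ ¬ ∃ g : P, ∀ x : P, (T x = x ↔ x ∈ Subgroup.zpowers g)}
      = {T1, T2, T3} := by
    ext T
    simp only [Set.mem_setOf_eq, Set.mem_insert_iff, Set.mem_singleton_iff]
    constructor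
    · rintro ⟨hT, h1, hb⟩
      rcases hall T hT with h | h | h | h | h | h | h | h
      · exact absurd h h1
      · exact Or.inl h
      · exact Or.inr (Or.inl h)
      · exact Or.inr (Or.inr h)
      · exact absurd (h ▸ d12) hb
      · exact absurd (h ▸ d13) hb
      · exact absurd (h ▸ d23) hb
      · exact absurd (h ▸ dS) hb
    · rintro (rfl | rfl | rfl)
      · exact ⟨m1, n1, b1⟩
      · exact ⟨m2, n2, b2⟩
      · exact ⟨m3, n3, b3⟩
  have e12 : T1 ≠ T2 := fun h => k1 (h ▸ h21)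
  have e13 : T1 ≠ T3 := fun h => k1 (h ▸ h31)
  have e23 : T2 ≠ T3 := fun h => k2 (h ▸ h32)
  refine ⟨⟨⟨hcomm⟩⟩, ?_, ?_, ?_, ?_, ?_⟩
  · obtain ⟨g1, hg1⟩ := d23
    obtain ⟨g2, hg2⟩ := d13
    obtain ⟨g3, hg3⟩ := d12
    refine ⟨g1, g2, g3, eq_top_iff.2 (H20.Wt.gen hodd I hc h2 ⊤ _ (fun _ _ _ _ => trivial)
      fun y _ hwy => ?_)⟩
    rcases hw y hwy with h | ⟨a, b, c⟩ | ⟨a, b, c⟩ | ⟨a, b, c⟩
    · rw [h]; exact one_mem _
    · exact Subgroup.zpowers_le.2 (Subgroup.subset_closure (by simp))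
        ((hg1 y).1 (by rw [ap, c, b]))
    · exact Subgroup.zpowers_le.2 (Subgroup.subset_closure (by simp))
        ((hg2 y).1 (by rw [ap, c, a]))
    · exact Subgroup.zpowers_le.2 (Subgroup.subset_closure (by simp))
        ((hg3 y).1 (by rw [ap, b, a]))
  · exact H20.Wt.not_two hp hodd hP hcomm T1 T2 x1 x2 x3 (fun h => j1 (by rw [h, inv_one]))
      (fun h => j2 (by rw [h, inv_one])) (fun h => j3 (by rw [h, inv_one])) h11 h12 h13 h22 h21 h23
  · show Nat.card ↥{T : MulAut P | T ∈ I ∧ T ≠ 1 ∧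
      ¬ ∃ g : P, ∀ x : P, (T x = x ↔ x ∈ Subgroup.zpowers g)} = 3
    rw [hset, Nat.card_coe_set_eq]
    exact Set.ncard_eq_three.2 ⟨T1, T2, T3, e12, e13, e23, rfl⟩
  · rw [hset]
    refine le_antisymm ((Subgroup.closure_le _).2 ?_) fun T hT => ?_
    · rintro T (rfl | rfl | rfl)
      exacts [m1, m2, m3]
    · have a1 : T1 ∈ Subgroup.closure ({T1, T2, T3} : Set (MulAut P)) :=
        Subgroup.subset_closure (by simp)
      have a2 : T2 ∈ Subgroup.closure ({T1, T2, T3} : Set (MulAut P)) :=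
        Subgroup.subset_closure (by simp)
      have a3 : T3 ∈ Subgroup.closure ({T1, T2, T3} : Set (MulAut P)) :=
        Subgroup.subset_closure (by simp)
      rcases hall T hT with h | h | h | h | h | h | h | h <;> rw [h]
      exacts [one_mem _, a1, a2, a3, mul_mem a1 a2, mul_mem a1 a3, mul_mem a2 a3,
        mul_mem (mul_mem a1 a2) a3]
  · ext T
    constructor
    · intro hT
      rcases hall T (hI₀.le hT) with h | h | h | h | h | h | h | h
      · exact ⟨T1, T1, m1, m1, n1, n1, b1, b1, h.trans (hsq T1 m1).symm⟩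
      · exact absurd (hdisj T1 (h ▸ hT) n1) b1
      · exact absurd (hdisj T2 (h ▸ hT) n2) b2
      · exact absurd (hdisj T3 (h ▸ hT) n3) b3
      · exact ⟨T1, T2, m1, m2, n1, n2, b1, b2, h⟩
      · exact ⟨T1, T3, m1, m3, n1, n3, b1, b3, h⟩
      · exact ⟨T2, T3, m2, m3, n2, n3, b2, b3, h⟩
      · have h3 : T3 ∈ I₀ := by
          have := I₀.mul_mem (I₀.inv_mem i12) (h ▸ hT : T1 * T2 * T3 ∈ I₀)
          rwa [inv_mul_cancel_left] at this
        exact absurd (hdisj T3 h3 n3) b3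
    · rintro ⟨U, V, hU, hV, a, b, c, d, rfl⟩
      exact hprod U hU V hV a b c d

end Cfsg.Agent.S4412
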