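import Cfsg.Statements.S4414
import Cfsg.Agent.H51.Weights
import Cfsg.Agent.H59.PermMod

set_option autoImplicit false
open Cfsg

namespace Cfsg.Agent.S4414

open Subgroup H51.Wt

theorem core {S : Type*} [Group S] [Finite S] {k : Type*} [Field k] [Finite k] [CharP k 2]
    {W : Type*} [AddCommGroup W] [Module k W] (ρ : Representation k S W)
    {V : Subgroup S} [V.Normal] [Fintype V] (hc : (Fintype.card V : k) ≠ 0)
    (hV : IsMulCommutative V) (hk : HasEnoughRootsOfUnity k (Monoid.exponent V))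
    (T : Subgroup S) (hT : IsPGroup 2 T) {q : ℕ} (hq : q.Prime) (hq2 : q ≠ 2) (x : S)
    (hx : orderOf x = q)
    (hfree : ∀ y ∈ zpowers x, y ≠ 1 → ∀ l : Ch k V, y • l = l → l = 1)
    (hCV : ∀ w : W, (∀ v : V, ρ v w = w) → w = 0) (w0 : W) (hw0 : w0 ≠ 0)
    [Finite {w : W // ∀ t ∈ T, ρ t w = w}] :
    Nat.card k ^ 2 ≤ Nat.card {w : W // ∀ t ∈ T, ρ t w = w} ∧
      ((∀ w, (∀ t ∈ T, ρ t w = w) → ∀ t ∈ T, ρ t (ρ x w) = ρ x w) →
        Nat.card {w : W // ∀ t ∈ T, ρ t w = w} ≠ Nat.card k ^ 2) := by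
  classical
  haveI : Fact (Nat.Prime 2) := ⟨Nat.prime_two⟩
  haveI : Fact q.Prime := ⟨hq⟩
  have hone : ∀ w, pr ρ (1 : Ch k V) w = 0 := fun w => hCV _ fun v => by
    rw [rho_pr, Ch.one_apply, Units.val_one, one_smul]
  have hne : ∀ (g : S) (w : W), w ≠ 0 → ρ g w ≠ 0 := fun g w hw h => hw (by
    have := congrArg (ρ g⁻¹) h
    rwa [act, inv_mul_cancel, map_one, map_zero] at this)
  have hsupp : ∀ (g : S) (l : Ch k V) (w : W), pr ρ (g • l) (ρ g w) ≠ 0 ↔ pr ρ l w ≠ 0 := by
    intro g l w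
    rw [← rho_pr_conj]
    exact ⟨fun h h' => h (by rw [h', map_zero]), hne g _⟩
  -- fixed vectors supported on an orbit
  have hfixv : ∀ (l : Ch k V) (w : W), pr ρ l w ≠ 0 → ∃ c : W, (∀ t ∈ T, ρ t c = c) ∧
      ∀ m : Ch k V, pr ρ m c ≠ 0 ↔ m ∈ MulAction.orbit T l := by
    intro l w hw
    let U : Submodule k W :=
      { carrier := {u | ∀ m : Ch k V, m ∉ MulAction.orbit T l → pr ρ m u = 0}
        add_mem' := fun h1 h2 m hm => by rw [map_add, h1 m hm, h2 m hm, add_zero]
        zero_mem' := fun m _ => map_zero _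
        smul_mem' := fun a u h m hm => by rw [map_smul, h m hm, smul_zero] }
    obtain ⟨c, hcU, hc0, hcf⟩ := H59.exists_ne_zero_fixed_of_isPGroup hT (ρ.comp T.subtype) U
      (fun g u hu m hm => by
        by_contra h
        have h1 : pr ρ ((g : S) • ((g : S)⁻¹ • m)) (ρ g u) ≠ 0 := by rwa [smul_inv_smul]
        refine (hsupp _ _ _).1 h1 (hu _ fun h2 => hm ?_)
        have := MulAction.mem_orbit_of_mem_orbit g h2
        rwa [Subgroup.smul_def, smul_inv_smul] at this)
      (fun h => hw (by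
        have : pr ρ l w ∈ U := fun m hm => by
          rw [pr_pr ρ hc, if_neg]
          rintro rfl
          exact hm (MulAction.mem_orbit_self _)
        rwa [h] at this))
    refine ⟨c, fun t ht => hcf ⟨t, ht⟩, fun m => ⟨fun h => by_contra fun h' => h (hcU m h'), ?_⟩⟩
    obtain ⟨m0, hm0⟩ := exists_pr_ne_zero ρ hc hV hk hc0
    have h0 : m0 ∈ MulAction.orbit T l := by_contra fun h' => hm0 (hcU _ h')
    intro hm
    obtain ⟨t, rfl⟩ : m ∈ MulAction.orbit T m0 := by
      rwa [MulAction.orbit_eq_iff.2 h0]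
    have := (hsupp t m0 c).2 hm0
    rwa [show ρ t c = c from hcf t] at this
  have notinv : ∀ y ∈ zpowers x, y ≠ 1 → ∀ (l : Ch k V) (w : W), pr ρ l w ≠ 0 →
      ¬ ∀ m ∈ MulAction.orbit T l, y • m ∈ MulAction.orbit T l := by
    intro y hy hy1 l w hw hinv
    have hyq : y ^ q = 1 := by
      obtain ⟨j, rfl⟩ := hy
      simp only
      rw [← zpow_natCast, ← zpow_mul, mul_comm, zpow_mul, zpow_natCast, ← hx, pow_orderOf_eq_one,
        one_zpow]
    have hP : IsPGroup q (zpowers y) :=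
      IsPGroup.of_card (n := 1) (by rw [Nat.card_zpowers, orderOf_eq_prime hyq hy1, pow_one])
    let O : SubMulAction (zpowers y) (Ch k V) :=
      { carrier := MulAction.orbit T l
        smul_mem' := by
          rintro ⟨z, hz⟩ m hm
          obtain ⟨j, rfl⟩ := mem_powers_iff_mem_zpowers.2 hz
          change y ^ j • m ∈ _
          clear hz
          induction j with
          | zero => simpa using hm
          | succ j ih => rw [pow_succ', mul_smul]; exact hinv _ ih }
    have hd : ¬ q ∣ Nat.card O := by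
      intro hd
      have h1 : Nat.card O ∣ Nat.card T := by
        change Nat.card (MulAction.orbit T l) ∣ _
        rw [Nat.card_congr (MulAction.orbitEquivQuotientStabilizer T l)]
        exact Subgroup.card_quotient_dvd_card _
      obtain ⟨j, hj⟩ := IsPGroup.iff_card.1 hT
      rw [hj] at h1
      exact hq2 ((Nat.prime_dvd_prime_iff_eq hq Nat.prime_two).1 (hq.dvd_of_dvd_pow (hd.trans h1)))
    obtain ⟨⟨m, hm⟩, hfix⟩ := hP.nonempty_fixed_point_of_prime_not_dvd_card O hd
    have h2 : y • m = m := congrArg Subtype.val (hfix ⟨y, mem_zpowers y⟩)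
    obtain ⟨t, ht⟩ := hm
    have h3 := (hsupp t l w).2 hw
    have h4 : (t : S) • l = 1 := (show (t : S) • l = m from ht).trans (hfree y hy hy1 m h2)
    rw [h4] at h3
    exact h3 (hone _)
  have hx1 : x ≠ 1 := by
    rintro rfl
    rw [orderOf_one] at hx
    exact hq.one_lt.ne hx
  obtain ⟨l, hl⟩ := exists_pr_ne_zero ρ hc hV hk hw0
  obtain ⟨c1, hc1, hs1⟩ := hfixv l w0 hl
  have h1 := notinv x (mem_zpowers x) hx1 l w0 hl
  push Not at h1
  obtain ⟨m, hm, hm'⟩ := h1
  have hmx : pr ρ (x • m) (ρ x c1) ≠ 0 := (hsupp _ _ _).2 ((hs1 m).2 hm)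
  obtain ⟨c2, hc2, hs2⟩ := hfixv _ _ hmx
  have hdisj : ∀ n ∈ MulAction.orbit T l, n ∉ MulAction.orbit T (x • m) := by
    intro n h1 h2
    apply hm'
    rw [← MulAction.orbit_eq_iff.2 h1, MulAction.orbit_eq_iff.2 h2]
    exact MulAction.mem_orbit_self _
  have p1 : ∀ (a b : k), ∀ n ∈ MulAction.orbit T l, pr ρ n (a • c1 + b • c2) = a • pr ρ n c1 := by
    intro a b n hn
    have : pr ρ n c2 = 0 := by_contra fun h => hdisj n hn ((hs2 n).1 h)
    rw [map_add, map_smul, map_smul, this, smul_zero, add_zero]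
  have p2 : ∀ (a b : k), ∀ n ∈ MulAction.orbit T (x • m),
      pr ρ n (a • c1 + b • c2) = b • pr ρ n c2 := by
    intro a b n hn
    have : pr ρ n c1 = 0 := by_contra fun h => hdisj n ((hs1 n).1 h) hn
    rw [map_add, map_smul, map_smul, this, smul_zero, zero_add]
  let φ : k × k → {w : W // ∀ t ∈ T, ρ t w = w} := fun z => ⟨z.1 • c1 + z.2 • c2, fun t ht => by
    rw [map_add, map_smul, map_smul, hc1 t ht, hc2 t ht]⟩
  have hφ : Function.Injective φ := by
    rintro ⟨a, b⟩ ⟨a', b'⟩ h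
    have h0 : a • c1 + b • c2 = a' • c1 + b' • c2 := congrArg Subtype.val h
    have e1 := congrArg (pr ρ l) h0
    have e2 := congrArg (pr ρ (x • m)) h0
    rw [p1 _ _ _ (MulAction.mem_orbit_self _), p1 _ _ _ (MulAction.mem_orbit_self _)] at e1
    rw [p2 _ _ _ (MulAction.mem_orbit_self _), p2 _ _ _ (MulAction.mem_orbit_self _)] at e2
    rw [smul_left_injective k ((hs1 _).2 (MulAction.mem_orbit_self _)) e1,
      smul_left_injective k ((hs2 _).2 (MulAction.mem_orbit_self _)) e2]
  have hcard : Nat.card (k × k) = Nat.card k ^ 2 := by rw [Nat.card_prod, sq]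
  refine ⟨hcard ▸ Nat.card_le_card_of_injective φ hφ, fun hinv he => ?_⟩
  have hsurj := (hφ.bijective_of_nat_card_le (he.trans hcard.symm).le).2
  obtain ⟨⟨a, b⟩, hab⟩ := hsurj ⟨ρ x c1, hinv c1 hc1⟩
  obtain ⟨⟨a', b'⟩, hab'⟩ := hsurj ⟨ρ x c2, hinv c2 hc2⟩
  have e1 : a • c1 + b • c2 = ρ x c1 := congrArg Subtype.val hab
  have e2 : a' • c1 + b' • c2 = ρ x c2 := congrArg Subtype.val hab'
  have hxi : x⁻¹ ≠ 1 := inv_ne_one.2 hx1
  have ha : a = 0 := by
    by_contra ha
    refine notinv x⁻¹ (inv_mem (mem_zpowers x)) hxi l w0 hl fun n hn => ?_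
    rw [← hs1, ← hsupp x, smul_inv_smul, ← e1, p1 _ _ _ hn]
    exact smul_ne_zero ha ((hs1 n).2 hn)
  have hb : b' = 0 := by
    by_contra hb
    refine notinv x⁻¹ (inv_mem (mem_zpowers x)) hxi _ _ hmx fun n hn => ?_
    rw [← hs2, ← hsupp x, smul_inv_smul, ← e2, p2 _ _ _ hn]
    exact smul_ne_zero hb ((hs2 n).2 hn)
  rw [ha, zero_smul, zero_add] at e1
  rw [hb, zero_smul, add_zero] at e2
  refine notinv (x * x) (mul_mem (mem_zpowers x) (mem_zpowers x)) (fun h => ?_) l w0 hl
    fun n hn => ?_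
  · have := orderOf_dvd_of_pow_eq_one (show x ^ 2 = 1 by rwa [sq])
    rw [hx] at this
    exact hq2 ((Nat.prime_dvd_prime_iff_eq hq Nat.prime_two).1 this)
  · have f1 : pr ρ (x • n) c2 ≠ 0 := by
      intro h
      apply (hsupp x n c1).2 ((hs1 n).2 hn)
      rw [← e1, map_smul, h, smul_zero]
    rw [← hs1, mul_smul]
    intro h
    apply (hsupp x _ c2).2 f1
    rw [← e2, map_smul, h, smul_zero]

/-- Let S be a finite solvable group whose order is divisible only by the primes 2, p, q (p, q distinct odd primes), with a Sylow system S₂, S_p, S_q (pairwise permutable Sylow subgroups) such that: S_p is a minimal normal subgroup of S of order p or p²; S_q has order q and [S_p, S_q] = S_p; and O₂(S) = 1. Let E be an irreducible module for S over the field with two elements on which S_p acts faithfully, and E₀ the subspace of fixed points of S₂. Then either E₀ has at least 8 elements, or E₀ has exactly 4 elements and S_q does not leave E₀ invariant. -/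
theorem result {S : Type*} [Group S] [Finite S]
    [Group.IsSolvable S] (p q : ℕ) (hp : p.Prime) (hq : q.Prime) (hp2 : p ≠ 2) (hq2 : q ≠ 2) (hpq : p ≠ q)
    (hπ : ∀ r : ℕ, r.Prime → r ∣ Nat.card S → r = 2 ∨ r = p ∨ r = q)
    (S₂ : Sylow 2 S) (Sp : Sylow p S) (Sq : Sylow q S)
    (h2q : Nat.card ↥((S₂ : Subgroup S) ⊔ (Sq : Subgroup S)) = Nat.card ↥S₂ * Nat.card ↥Sq)
    (h2p : Nat.card ↥((S₂ : Subgroup S) ⊔ (Sp : Subgroup S)) = Nat.card ↥S₂ * Nat.card ↥Sp)
    (hpq' : Nat.card ↥((Sp : Subgroup S) ⊔ (Sq : Subgroup S)) = Nat.card ↥Sp * Nat.card ↥Sq)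
    (hSpN : (Sp : Subgroup S).Normal) (hSpmin : ∀ N : Subgroup S, N.Normal → N ≤ (Sp : Subgroup S) → N = ⊥ ∨ N = (Sp : Subgroup S))
    (hSpcard : Nat.card ↥Sp = p ∨ Nat.card ↥Sp = p ^ 2)
    (hSq : Nat.card ↥Sq = q) (hcomm : ⁅(Sp : Subgroup S), (Sq : Subgroup S)⁆ = (Sp : Subgroup S))
    (hO2 : Cfsg.pCore 2 S = ⊥)
    {E : Type*} [AddCommGroup E] [Module (ZMod 2) E] [Finite E] (ρ : Representation (ZMod 2) S E) (hE : Nontrivial E)
    (hirr : ∀ N : Submodule (ZMod 2) E, (∀ s : S, ∀ m ∈ N, ρ s m ∈ N) → N = ⊥ ∨ N = ⊤)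
    (hfaith : ∀ x ∈ (Sp : Subgroup S), ρ x = 1 → x = 1) :
    8 ≤ Nat.card {v : E // ∀ s ∈ (S₂ : Subgroup S), ρ s v = v} ∨
      (Nat.card {v : E // ∀ s ∈ (S₂ : Subgroup S), ρ s v = v} = 4 ∧
        ∃ x ∈ (Sq : Subgroup S), ∃ v : E, (∀ s ∈ (S₂ : Subgroup S), ρ s v = v) ∧ ¬ ∀ s ∈ (S₂ : Subgroup S), ρ s (ρ x v) = ρ x v) := by
  classical
  haveI : Fact (Nat.Prime 2) := ⟨Nat.prime_two⟩
  haveI : Fact p.Prime := ⟨hp⟩
  haveI : Fact q.Prime := ⟨hq⟩
  set V : Subgroup S := (Sp : Subgroup S) with hVdef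
  haveI := Fintype.ofFinite V
  have hcop : (Nat.card V).Coprime 2 := by
    have : p.Coprime 2 := (Nat.coprime_primes hp Nat.prime_two).2 hp2
    rcases hSpcard with h | h
    · exact h ▸ this
    · exact (show Nat.card V = p ^ 2 from h) ▸ Nat.Coprime.pow_left 2 this
  have hV : IsMulCommutative V := by
    rcases hSpcard with h | h
    · haveI := isCyclic_of_prime_card (α := V) h
      infer_instance
    · exact IsPGroup.isMulCommutative_of_card_eq_prime_sq (G := V) h
  let k := GaloisField 2 (Nat.card V).totient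
  have hk : HasEnoughRootsOfUnity k (Monoid.exponent V) :=
    haveI := galoisField_roots 2 hcop
    HasEnoughRootsOfUnity.of_dvd k Group.exponent_dvd_nat_card
  have hc : (Fintype.card V : k) ≠ 0 := by
    rw [Ne, CharP.cast_eq_zero_iff k 2, ← Nat.card_eq_fintype_card]
    exact (Nat.Prime.coprime_iff_not_dvd Nat.prime_two).1 hcop.symm
  let b := Module.finBasis (ZMod 2) k
  set d := Module.finrank (ZMod 2) k with hd
  have hd0 : d ≠ 0 := Module.finrank_pos.ne'
  have hkc : Nat.card k = 2 ^ d := by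
    rw [Module.natCard_eq_pow_finrank (K := ZMod 2), Nat.card_zmod]
  obtain ⟨x, hx⟩ : ∃ x : Sq, orderOf x = q := by
    haveI := isCyclic_of_prime_card (α := Sq) hSq
    obtain ⟨x, hx⟩ := IsCyclic.exists_ofOrder_eq_natCard (α := Sq)
    exact ⟨x, hx.trans hSq⟩
  have hx' : orderOf (x : S) = q := (Subgroup.orderOf_coe x).trans hx
  have hV1 : V ≠ ⊥ := by
    intro h
    have h1 : Nat.card V = 1 := by rw [h]; simp
    rcases hSpcard with h | h
    · exact hp.one_lt.ne' (h.symm.trans h1)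
    · exact (Nat.one_lt_pow two_ne_zero hp.one_lt).ne' (h.symm.trans h1)
  have hCE : ∀ e : E, (∀ v ∈ V, ρ v e = e) → e = 0 := by
    let N : Submodule (ZMod 2) E :=
      { carrier := {m | ∀ a ∈ V, ρ a m = m}
        add_mem' := fun hx hy a ha => by rw [map_add, hx a ha, hy a ha]
        zero_mem' := fun a _ => map_zero _
        smul_mem' := fun k x hx a ha => by rw [map_smul, hx a ha] }
    rcases hirr N (fun g m hm a ha => by
      have h1 := hm _ (hSpN.conj_mem a ha g⁻¹)
      conv_rhs => rw [← h1]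
      rw [act, act]
      congr 2; group) with h | h
    · intro m hm
      have : m ∈ N := hm
      rwa [h] at this
    · exfalso
      apply hV1
      rw [eq_bot_iff]
      intro a ha
      refine mem_bot.2 (hfaith a ha ?_)
      ext m
      have : m ∈ N := h ▸ Submodule.mem_top
      exact this a ha
  obtain ⟨e0, he0⟩ := exists_ne (0 : E)
  let Φ := TensorProduct.equivFinsuppOfBasisLeft (N := E) b
  haveI : Finite (TensorProduct (ZMod 2) k E) := Finite.of_equiv _ (Φ.toEquiv.trans Finsupp.equivFunOnFinite).symm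
  have hw0 : Φ.symm (Finsupp.single ⟨0, Nat.pos_of_ne_zero hd0⟩ e0) ≠ 0 := by
    rw [Ne, LinearEquiv.map_eq_zero_iff, Finsupp.single_eq_zero]; exact he0
  obtain ⟨h1, h2⟩ := core (bc k ρ) hc hV hk (S₂ : Subgroup S) S₂.isPGroup' hq hq2 (x : S) hx'
    (fun y hy hy1 l hl => by
      have hyq : zpowers y = (Sq : Subgroup S) := by
        have hle : zpowers y ≤ (Sq : Subgroup S) :=
          zpowers_le_of_mem (zpowers_le_of_mem x.2 hy)
        have h3 := card_dvd_of_le hle
        rw [show Nat.card (Sq : Subgroup S) = q from hSq] at h3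
        refine eq_of_le_of_card_ge hle ?_
        rcases (Nat.dvd_prime hq).1 h3 with h | h
        · exact absurd (zpowers_eq_bot.1 (card_eq_one.1 h)) hy1
        · exact (hSq.trans h.symm).le
      have hfix : ∀ g ∈ (Sq : Subgroup S), g • l = l := fun g hg => by
        rw [← hyq] at hg
        exact (zpowers_le_of_mem (H := MulAction.stabilizer S l) hl) hg
      let K : Subgroup S := (MonoidHom.ker (show V →* kˣ from l)).map V.subtype
      have hK : V ≤ K := by
        rw [← hcomm, commutator_le]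
        intro v hv g hg
        refine ⟨⟨v, hv⟩ * (MulAut.conjNormal g ⟨v, hv⟩)⁻¹, ?_, ?_⟩
        · have := DFunLike.congr_fun (hfix g⁻¹ (inv_mem hg)) ⟨v, hv⟩
          rw [Ch.smul_apply, inv_inv] at this
          change l _ = 1
          rw [map_mul, map_inv, this, mul_inv_cancel]
        · simp [commutatorElement_def, mul_assoc]
      refine Ch.ext fun v => ?_
      obtain ⟨u, hu, hu'⟩ := hK v.2
      rw [← show u = v from Subtype.ext hu']
      exact hu)
    (fun w hw => by
      apply Φ.injective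
      ext i
      rw [map_zero]
      exact hCE _ fun v hv => (bc_fix_iff b ρ v w).1 (hw ⟨v, hv⟩) i) _ hw0
  have h3 := card_fix_bc b ρ ((S₂ : Subgroup S) : Set S)
  simp only [SetLike.mem_coe, Fintype.card_fin] at h3
  rw [h3, hkc, ← pow_mul, mul_comm, pow_mul] at h1 h2
  let C : Submodule (ZMod 2) E :=
    { carrier := {m | ∀ a ∈ (S₂ : Subgroup S), ρ a m = m}
      add_mem' := fun hx hy a ha => by rw [map_add, hx a ha, hy a ha]
      zero_mem' := fun a _ => map_zero _
      smul_mem' := fun k x hx a ha => by rw [map_smul, hx a ha] }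
  have h4 : Nat.card {v : E // ∀ s ∈ (S₂ : Subgroup S), ρ s v = v} = 2 ^ Module.finrank (ZMod 2) C := by
    have := Module.natCard_eq_pow_finrank (K := ZMod 2) (V := C)
    rw [Nat.card_zmod] at this
    exact this
  have h5 := (Nat.pow_le_pow_iff_left hd0).1 h1
  rw [h4] at h5
  have h6 := (Nat.pow_le_pow_iff_right (by norm_num)).1 h5
  rcases h6.lt_or_eq with h7 | h7
  · left
    rw [h4]
    exact Nat.pow_le_pow_right (n := 2) (i := 3) (by norm_num) h7
  · right
    rw [h4, ← h7]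
    refine ⟨rfl, x, x.2, ?_⟩
    by_contra hcon
    push Not at hcon
    refine h2 (fun w hw t ht => ?_) (by rw [h4, ← h7])
    rw [bc_fix_iff b]
    intro i
    rw [coord_bc]
    exact hcon _ (fun s hs => (bc_fix_iff b ρ s w).1 (hw s hs) i) t ht

end Cfsg.Agent.S4414
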