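import Cfsg.Statements.S4415
import Cfsg.Agent.H69.J3D

set_option autoImplicit false
open Cfsg
open scoped commutatorElement

namespace Cfsg.Agent.S4415

/-- Let S be a finite solvable group acting faithfully on a finite-dimensional space E over the field with three elements, with O₃(S) = 1. Let B ≤ S have order 3 and suppose: E = E₀ ⊕ E₁ with B fixing E₁ pointwise, E₀ B-invariant of order 27 and indecomposable under B (a generator of B has a single Jordan block on E₀); B normalizes but does not centralize some subgroup Q of S that is elementary abelian of order 4; and B is the centre of a Sylow 3-subgroup of S. Put R = [O_{3'}(S), B]. Then R is elementary abelian of order 4 or extraspecial of order 32 containing an elementary abelian subgroup of order 8 (a central product of two quaternion groups), and E is the direct sum of a subspace fixed pointwise by R and an RB-invariant subspace on which the subgroup RB acts faithfully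 and irreducibly. -/
theorem result {S : Type*} [Group S] [Finite S]
    [Group.IsSolvable S] {E : Type*} [AddCommGroup E] [Module (ZMod 3) E] [Finite E] (ρ : Representation (ZMod 3) S E)
    (hfaith : Function.Injective ρ) (hO3 : Cfsg.pCore 3 S = ⊥)
    (B : Subgroup S) (hB : Nat.card ↥B = 3) (b : S) (hb : Subgroup.zpowers b = B)
    (E₀ E₁ : Submodule (ZMod 3) E) (hE01 : E₀ ⊓ E₁ = ⊥) (hE01' : E₀ ⊔ E₁ = ⊤)
    (hE1 : ∀ v ∈ E₁, ρ b v = v) (hE0inv : ∀ v ∈ E₀, ρ b v ∈ E₀) (hE0 : Nat.card ↥E₀ = 27)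
    (hind : ∃ v ∈ E₀, ρ b (ρ b v - v) - (ρ b v - v) ≠ 0)
    (Q : Subgroup S) (hQ : Cfsg.IsElementaryAbelian 2 Q) (hQ4 : Nat.card ↥Q = 4)
    (hBQ : B ≤ Subgroup.normalizer (Q : Set S)) (hBQ' : ¬ B ≤ Subgroup.centralizer (Q : Set S))
    (P : Sylow 3 S) (hBZ : (Subgroup.center ↥(P : Subgroup S)).map (P : Subgroup S).subtype = B) :
    ((Cfsg.IsElementaryAbelian 2 ⁅Cfsg.pPrimeCore 3 S, B⁆ ∧ Nat.card ↥⁅Cfsg.pPrimeCore 3 S, B⁆ = 4) ∨
      (Cfsg.IsExtraspecial 2 ↥⁅Cfsg.pPrimeCore 3 S, B⁆ ∧ Nat.card ↥⁅Cfsg.pPrimeCore 3 S, B⁆ = 32 ∧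
        ∃ A : Subgroup S, A ≤ ⁅Cfsg.pPrimeCore 3 S, B⁆ ∧ Cfsg.IsElementaryAbelian 2 A ∧ Nat.card ↥A = 8)) ∧
    ∃ F₀ F₁ : Submodule (ZMod 3) E, F₀ ⊓ F₁ = ⊥ ∧ F₀ ⊔ F₁ = ⊤ ∧
      (∀ r ∈ ⁅Cfsg.pPrimeCore 3 S, B⁆, ∀ v ∈ F₁, ρ r v = v) ∧ (∀ r ∈ ⁅Cfsg.pPrimeCore 3 S, B⁆ ⊔ B, ∀ v ∈ F₀, ρ r v ∈ F₀) ∧
      (∀ r ∈ ⁅Cfsg.pPrimeCore 3 S, B⁆ ⊔ B, (∀ v ∈ F₀, ρ r v = v) → r = 1) ∧
      (∀ N : Submodule (ZMod 3) E, N ≤ F₀ → (∀ r ∈ ⁅Cfsg.pPrimeCore 3 S, B⁆ ⊔ B, ∀ v ∈ N, ρ r v ∈ N) → N = ⊥ ∨ N = F₀) := by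
  subst hb
  have := Fact.mk Nat.prime_three
  have b3 : b ^ 3 = 1 := by rw [← hB, Nat.card_zpowers, pow_orderOf_eq_one]
  have Q2 : ∀ q ∈ Q, q * q = 1 := fun q hq => by rw [← pow_two, hQ.2 q hq]
  have nQ := hBQ (Subgroup.mem_zpowers b)
  have nc : ¬ ∀ a ∈ Q, a * b = b * a := fun k => hBQ' (Subgroup.zpowers_le.2 k)
  have dim : Module.finrank (ZMod 3) (H69.J3.Dm ρ b) ≤ 2 := by
    obtain ⟨v, hv, n⟩ := hind
    have i1 : ∀ v ∈ E₀, (ρ b - 1) v ∈ E₀ := fun v hv => E₀.sub_mem (hE0inv v hv) hv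
    have e := LinearMap.finrank_range_add_finrank_ker ((ρ b - 1).restrict i1)
    have e3 : Module.finrank (ZMod 3) E₀ = 3 := Nat.pow_right_injective (a := 3) (by decide) (by
      simpa [hE0] using (Module.natCard_eq_pow_finrank (K := ZMod 3) (V := E₀)).symm)
    have k : LinearMap.ker ((ρ b - 1).restrict i1) ≠ ⊥ := (Submodule.ne_bot_iff _).2
      ⟨⟨_, i1 _ (i1 v hv)⟩, Subtype.ext (by
        have : ρ b (ρ b (ρ b v)) = v := by
          rw [← H69.J3.mul_app, ← H69.J3.mul_app, ← pow_two, ← pow_succ, b3, H69.J3.one_app]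
        change ρ b (ρ b (ρ b v - v) - (ρ b v - v)) - (ρ b (ρ b v - v) - (ρ b v - v)) = 0
        simp only [map_sub, this]
        convert H69.J3.three (ρ b v - ρ b (ρ b v)) using 1
        abel), fun e => n (congrArg Subtype.val e)⟩
    have := Submodule.one_le_finrank_iff.2 k
    refine le_trans (Submodule.finrank_mono (?_ : _ ≤ (LinearMap.range
      ((ρ b - 1).restrict i1)).map E₀.subtype)) (by rw [Submodule.finrank_map_subtype_eq]; omega)
    rintro _ ⟨u, rfl⟩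
    obtain ⟨x, hx, y, hy, rfl⟩ := Submodule.mem_sup.1 (hE01'.ge (Submodule.mem_top (x := u)))
    exact ⟨_, ⟨⟨x, hx⟩, rfl⟩, by simp [hE1 y hy]⟩
  have Qc : ∀ q ∈ Q, ∃ x ∈ Q, q = ⁅x, b⁆ := by
    have c := H3.card_modEq_card_inf_centralizer (H69.J3.pgrp b3) hBQ
    have c1 : Q ⊓ Subgroup.centralizer (Subgroup.zpowers b : Set S) = ⊥ := by
      obtain ⟨j, hj, e⟩ := (Nat.dvd_prime_pow Nat.prime_two (m := 2)).1
        (hQ4 ▸ Subgroup.card_dvd_of_le (inf_le_left (a := Q)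
          (b := Subgroup.centralizer (Subgroup.zpowers b : Set S))) :)
      rw [hQ4, e] at c
      interval_cases j
      · exact Subgroup.eq_bot_of_card_eq _ e
      · exact absurd c (by decide)
      · exact absurd (fun a ha => (((Subgroup.eq_of_le_of_card_ge (inf_le_left (a := Q)
          (b := Subgroup.centralizer (Subgroup.zpowers b : Set S)))
          (by rw [e, hQ4]; decide)).ge ha).2 b (Subgroup.mem_zpowers b)).symm) nc
    let f : Q → Q := fun x => ⟨⁅x.1, b⁆, by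
      rw [commutatorElement_def, mul_assoc, mul_assoc, ← mul_assoc b]
      exact Q.mul_mem x.2 ((Subgroup.mem_normalizer_iff.1 nQ _).1 (Q.inv_mem x.2))⟩
    have fi : Function.Injective f := fun x y e => Subtype.ext (inv_mul_eq_one.1 (c1.le
      ⟨Q.mul_mem (Q.inv_mem x.2) y.2, Subgroup.zpowers_le.1 (Subgroup.le_centralizer_iff.1
        (Subgroup.zpowers_le.2 ?_))⟩))
    · intro q hq
      obtain ⟨x, e⟩ := fi.bijective_of_finite.2 ⟨q, hq⟩
      exact ⟨x, x.2, (congrArg Subtype.val e).symm⟩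
    · rintro _ ⟨k, rfl⟩
      refine Commute.zpow_left ?_ k
      have e' : x.1 * b * x.1⁻¹ = y.1 * b * y.1⁻¹ := mul_right_cancel (congrArg Subtype.val e)
      calc x.1⁻¹ * y.1 * b = x.1⁻¹ * (y.1 * b * y.1⁻¹) * y.1 := by group
        _ = _ := by rw [← e']; group
  have QN : Q ≤ pPrimeCore 3 S := fun q hq => by
    obtain ⟨x, hx, rfl⟩ := Qc q hq
    let π := QuotientGroup.mk' (pPrimeCore 3 S)
    have m : π b ∈ pCore 3 (S ⧸ pPrimeCore 3 S) :=
      H3.centralizer_pCore_le (H3.pPrimeCore_quotient_pPrimeCore 3 S) fun y hy => by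
        obtain ⟨y, yP, rfl⟩ := H3.pCore_le_sylow
          (P.mapSurjective (QuotientGroup.mk'_surjective _)) hy
        obtain ⟨c, hc, e⟩ := hBZ.ge (Subgroup.mem_zpowers b)
        rw [← map_mul, ← map_mul, ← e]
        exact congrArg (fun z : (P : Subgroup S) => π z) (Subgroup.mem_center_iff.1 hc ⟨y, yP⟩)
    have m' : π ⁅x, b⁆ ∈ pCore 3 (S ⧸ pPrimeCore 3 S) := by
      rw [map_commutatorElement, commutatorElement_def]
      exact mul_mem (Subgroup.Normal.conj_mem inferInstance _ m _) (inv_mem m)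
    obtain ⟨k, hk⟩ := H3.pCore_isPGroup 3 _ ⟨_, m'⟩
    exact (QuotientGroup.eq_one_iff _).1 (orderOf_eq_one_iff.1 (Nat.eq_one_of_dvd_coprimes
      (Nat.Coprime.pow_right k (by decide : Nat.Coprime 2 3))
      (orderOf_dvd_of_pow_eq_one (x := π ⁅x, b⁆) (by rw [← map_pow, pow_two, Q2 _ hq, map_one]))
      (orderOf_dvd_of_pow_eq_one (congrArg Subtype.val hk))))
  have nN : Subgroup.zpowers b ≤ Subgroup.normalizer (pPrimeCore 3 S : Set S) :=
    Subgroup.le_normalizer_of_normal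
  have nR := H4.le_normalizer_commutator nN (Subgroup.le_normalizer (H := Subgroup.zpowers b))
  obtain ⟨v, f⟩ := H69.J3.exists_fr hfaith Q2 b3 nQ nc dim
  have h : H69.J3.Ctx ρ ⁅pPrimeCore 3 S, Subgroup.zpowers b⁆ Q b v := by
    refine ⟨hfaith, inferInstance, H3.coprime_card_of_le (H4.commutator_le_left_of_le_normalizer nN)
      (H3.pPrimeCore_coprime 3 S), nR (Subgroup.mem_zpowers b), fun H k => ?_, fun q hq => ?_, Q2,
      hQ4, Qc, f⟩
    · rw [← H4.commutator_commutator_eq nN (hB ▸ (H3.pPrimeCore_coprime 3 S).symm)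
        (Or.inr inferInstance), Subgroup.commutator_le]
      rintro r hr _ ⟨j, rfl⟩
      rw [commutatorElement_def, ← conj_zpow]
      exact mul_mem (zpow_mem (k r hr) j) (inv_mem (zpow_mem (by simpa using k 1 (one_mem _)) j))
    · obtain ⟨x, hx, rfl⟩ := Qc q hq
      exact Subgroup.commutator_mem_commutator (QN hx) (Subgroup.mem_zpowers b)
  exact ⟨h.grp, h.mod⟩

end Cfsg.Agent.S4415
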