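import Cfsg.Statements.S4420
-- import your own Cfsg.Agent.* helpers here

set_option autoImplicit false
open Cfsg

namespace Cfsg.Agent.S4420

/-- Structure of groups in which every element outside some proper subgroup has square 1. Let H be a finite group with a proper subgroup A such that every element outside A has square 1. Then H has an abelian normal subgroup B of index 2 such that every element outside B is an involution inverting every element of B; and if H is not an elementary abelian 2-group, B is the only abelian normal subgroup of index 2 with this property. -/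
theorem result {H : Type*} [Group H] [Finite H] (A : Subgroup H) (hA : A ≠ ⊤) (hD : ∀ x : H, x ∉ A → x ^ 2 = 1) :
    ∃ B : Subgroup H, B.Normal ∧ IsMulCommutative ↥B ∧ B.index = 2 ∧
      (∀ x : H, x ∉ B → x ^ 2 = 1 ∧ ∀ b ∈ B, x * b * x⁻¹ = b⁻¹) ∧
      (¬ (IsMulCommutative H ∧ ∀ x : H, x ^ 2 = 1) →
        ∀ B' : Subgroup H, B'.Normal → IsMulCommutative ↥B' → B'.index = 2 →
          (∀ x : H, x ∉ B' → x ^ 2 = 1 ∧ ∀ b ∈ B', x * b * x⁻¹ = b⁻¹) → B' = B) := by
  obtain ⟨M, hM, hAM⟩ := (eq_top_or_exists_le_coatom A).resolve_left hA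
  have hD' : ∀ x : H, x ∉ M → x ^ 2 = 1 := fun x hx => hD x fun h => hx (hAM h)
  have hinv : ∀ x : H, x ∉ M → ∀ b ∈ M, x * b * x⁻¹ = b⁻¹ := by
    intro x hx b hb
    have h1 : x * b ∉ M := fun h => hx (by simpa using M.mul_mem h (M.inv_mem hb))
    have h2 := hD' _ h1
    have h3 := hD' _ hx
    rw [pow_two] at h2 h3
    have h4 : x⁻¹ = x := inv_eq_of_mul_eq_one_right h3
    rw [h4, eq_inv_iff_mul_eq_one, ← h2]
    simp only [mul_assoc]
  have hn : M.Normal := ⟨fun b hb g => by
    by_cases hg : g ∈ M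
    · exact M.mul_mem (M.mul_mem hg hb) (M.inv_mem hg)
    · rw [hinv g hg b hb]; exact M.inv_mem hb⟩
  obtain ⟨x, hx⟩ : ∃ x, x ∉ M := by
    by_contra h
    push Not at h
    exact hM.1 ((Subgroup.eq_top_iff' M).2 h)
  have hcomm : IsMulCommutative M := ⟨⟨fun a b => by
    apply Subtype.ext
    have h1 := hinv x hx _ (M.mul_mem a.2 b.2)
    have h2 : x * (a * b) * x⁻¹ = (x * a * x⁻¹) * (x * b * x⁻¹) := by group
    rw [h2, hinv x hx _ a.2, hinv x hx _ b.2, ← mul_inv_rev, inv_inj] at h1
    exact h1.symm⟩⟩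
  have hidx : M.index = 2 := by
    have hx2 : x * x = 1 := by rw [← pow_two]; exact hD' x hx
    let K : Subgroup H :=
      { carrier := {g | g ∈ M ∨ g * x ∈ M}
        one_mem' := Or.inl M.one_mem
        mul_mem' := by
          rintro a b (ha | ha) (hb | hb)
          · exact Or.inl (M.mul_mem ha hb)
          · right; rw [mul_assoc]; exact M.mul_mem ha hb
          · right
            have : a * b * x = (a * x) * (x⁻¹ * b * x⁻¹⁻¹) := by group
            rw [this]; exact M.mul_mem ha (hn.conj_mem b hb _)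
          · left
            have : a * b = (a * x) * (x⁻¹ * (b * x) * x⁻¹⁻¹) * (x * x)⁻¹ := by group
            rw [this, hx2, inv_one, mul_one]; exact M.mul_mem ha (hn.conj_mem _ hb _)
        inv_mem' := by
          rintro a (ha | ha)
          · exact Or.inl (M.inv_mem ha)
          · right
            have : a⁻¹ * x = (x * (a * x)⁻¹ * x⁻¹) * (x * x) := by group
            rw [this, hx2, mul_one]; exact hn.conj_mem _ (M.inv_mem ha) _ }
    have hK : K = ⊤ := by
      apply hM.2
      refine lt_of_le_of_ne (fun g hg => Or.inl hg) fun h => hx ?_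
      rw [h]
      exact Or.inr (by rw [hx2]; exact M.one_mem)
    rw [Subgroup.index_eq_two_iff]
    refine ⟨x, fun b => ?_⟩
    have hb : b ∈ K := by rw [hK]; trivial
    rcases hb with hb | hb
    · exact Or.inr ⟨hb, fun h => hx (by simpa using M.mul_mem (M.inv_mem hb) h)⟩
    · exact Or.inl ⟨hb, fun h => hx (by simpa using M.mul_mem (M.inv_mem h) hb)⟩
  refine ⟨M, hn, hcomm, hidx, fun y hy => ⟨hD' y hy, hinv y hy⟩, ?_⟩
  intro hne B' _ _ hB'i hB'
  by_contra hBM
  apply hne
  obtain ⟨y, hyM, hyB⟩ : ∃ y ∈ M, y ∉ B' := by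
    by_contra h
    push Not at h
    have hle : M ≤ B' := h
    rcases hle.eq_or_lt with h1 | h1
    · exact hBM h1.symm
    · rw [hM.2 _ h1, Subgroup.index_top] at hB'i
      omega
  have hsq : ∀ g : H, g ^ 2 = 1 := by
    intro g
    by_cases hg : g ∈ M
    · by_cases hg' : g ∈ B'
      · have h1 := (hB' y hyB).2 g hg'
        have h2 : y * g = g * y := congrArg Subtype.val (hcomm.is_comm.comm ⟨y, hyM⟩ ⟨g, hg⟩)
        rw [h2, mul_inv_cancel_right] at h1
        rw [pow_two]
        nth_rewrite 1 [h1]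
        simp
      · exact (hB' g hg').1
    · exact hD' g hg
  refine ⟨⟨⟨fun a b => ?_⟩⟩, hsq⟩
  have hi : ∀ g : H, g⁻¹ = g := fun g => inv_eq_of_mul_eq_one_right (by rw [← pow_two]; exact hsq g)
  rw [← hi (a * b), mul_inv_rev, hi, hi]

end Cfsg.Agent.S4420
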