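import Cfsg.Statements.S4467
import Cfsg.Agent.H12.LinHall
import Cfsg.Agent.H12.Blichfeldt
import Cfsg.Agent.H24.Deg
import Cfsg.Agent.H14.MGroup
import Cfsg.Agent.H14.GoingDown
import Cfsg.Agent.H13.Elementary
import Cfsg.Agent.H58.Simple
import Cfsg.Agent.S4214
import Cfsg.Agent.H3.Cores

set_option autoImplicit false
open Cfsg

namespace Cfsg.Agent.S4467

open Cfsg.Agent.H11
open scoped commutatorElement

theorem comm_of_normal {G : Type*} [Group G] [Finite G] {p : ℕ} [hp : Fact p.Prime] {χ : G → ℂ}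
    (hχ : IsIrrCharacter G χ) (hker : charKer χ = ⊥) (hd : ¬ p ∣ charDegree χ) (N : Subgroup G)
    [N.Normal] (hN : IsPGroup p N) (a b : N) : a * b = b * a := by
  have := Fintype.ofFinite N
  have h1 : ⁅a, b⁆ ∈ charKer fun n : N => χ n :=
    (mem_charKer_iff_forall_constituent (isCharacter_restrict (isCharacter_of_irr hχ) N)).2
      fun θ hθ h => by
        obtain ⟨k, hk⟩ := H24.exists_deg_eq_pow_of_isPGroup hN hθ
        refine (H24.deg_eq_one_iff_commutator_le hθ).1 ?_
          (Subgroup.commutator_mem_commutator trivial trivial)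
        rcases k with - | k
        · simpa using hk
        · exact absurd ((hk ▸ dvd_pow_self p k.succ_ne_zero).trans (H24.deg_dvd_of_over N hχ hθ h)) hd
  have h2 := (mem_charKer_iff (isCharacter_of_irr hχ) (g := (⁅a, b⁆ : N))).2
    (apply_eq_of_mem_charKer (χ := fun n : N => χ n) h1)
  rw [hker, Subgroup.mem_bot] at h2
  exact commutatorElement_eq_one_iff_mul_comm.1 (Subtype.ext h2)

universe u in
theorem aux {p : ℕ} [hp : Fact p.Prime] (m : ℕ) : ∀ (G : Type u) [Group G] [Finite G],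
    Nat.card G = m → Group.IsSolvable G → ∀ χ : G → ℂ, IsIrrCharacter G χ →
    (∀ q : ℕ, IsPrimePow q → q ∣ charDegree χ →
      ¬ ((q : ℤ) ≡ -1 [ZMOD p] ∨ (q : ℤ) ≡ 0 [ZMOD p] ∨ (q : ℤ) ≡ 1 [ZMOD p])) →
    ∀ P : Sylow p G, ((P : Subgroup G) ⊔ charKer χ).Normal := by
  induction m using Nat.strong_induction_on with
  | _ m ih =>
  intro G _ _ hm hsolv χ hχ hq P
  classical
  have := Fintype.ofFinite G
  have hχc := isCharacter_of_irr hχ
  by_cases hker : charKer χ = ⊥
  swap
  · have := charKer_normal (isClassFunction_of_irr hχ)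
    obtain ⟨ψ, hψ, h⟩ := exists_irr_lift hχ (charKer χ) le_rfl
    have h1 : charKer ψ = ⊥ := (eq_bot_iff (a := charKer ψ)).2 fun x hx => by
      obtain ⟨x, rfl⟩ := QuotientGroup.mk_surjective x
      have h2 := apply_eq_of_mem_charKer hx
      rw [h, ← QuotientGroup.mk_one, h] at h2
      exact (QuotientGroup.eq_one_iff x).2 ((mem_charKer_iff hχc).2 h2)
    have h2 := ih _ (by
      rw [← hm, ← (charKer χ).card_mul_index]
      exact lt_mul_of_one_lt_left Nat.card_pos ((Subgroup.one_lt_card_iff_ne_bot _).2 hker))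
      (G ⧸ charKer χ) rfl inferInstance ψ hψ (by rwa [H24.deg_congr (h 1)])
      (P.mapSurjective (QuotientGroup.mk'_surjective _))
    rw [h1, sup_bot_eq, Sylow.coe_mapSurjective] at h2
    have h3 := h2.comap (QuotientGroup.mk' (charKer χ))
    rwa [Subgroup.comap_map_eq, QuotientGroup.ker_mk'] at h3
  rw [hker, sup_bot_eq]
  by_contra hP
  have hd : ¬ p ∣ charDegree χ := fun h => hq p hp.out.isPrimePow h (Or.inr (Or.inl (by simp)))
  have hlt : ∀ H : Subgroup G, H ≠ ⊤ → Nat.card H < m := fun H hH => hm ▸ H13.card_lt_of_ne_top hH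
  have hkerH : ∀ H : Subgroup G, charKer (fun x : H => χ x) = ⊥ := fun H =>
    H12.charKer_eq_bot_of_faithful fun g hg => Subtype.ext (by
      have := (mem_charKer_iff hχc).2 hg
      rwa [hker] at this)
  have hclosed : ∀ M : Subgroup G, M.Normal → M ≠ ⊤ → ∀ S : Sylow p M, (S : Subgroup M).Normal :=
    fun M hM hM1 S => ⟨fun x hx g => by
      let N : Subgroup M := ⨅ θ : {θ : M → ℂ // IsIrrCharacter M θ ∧
        classInner (fun n : M => χ n) θ ≠ 0}, (S : Subgroup M) ⊔ charKer θ.1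
      have h1 : IsPGroup p N := fun z => by
        obtain ⟨k, hk⟩ := S.2.exists_card_eq
        refine ⟨k, Subtype.ext ((hkerH M).le ((mem_charKer_iff_forall_constituent
          (isCharacter_restrict hχc M)).2 fun θ hθ h => ?_))⟩
        have := charKer_normal (isClassFunction_of_irr hθ)
        obtain ⟨s, hs, c, hc, h2⟩ := Subgroup.mem_sup_of_normal_right.1
          (Subgroup.mem_iInf.1 z.2 ⟨θ, hθ, h⟩)
        rw [← QuotientGroup.eq_one_iff, Subgroup.coe_pow, QuotientGroup.mk_pow, ← h2,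
          QuotientGroup.mk_mul_of_mem s hc, ← QuotientGroup.mk_pow, ← hk,
          show s ^ Nat.card S = 1 from congrArg Subtype.val (pow_card_eq_one' (x := (⟨s, hs⟩ : S))),
          QuotientGroup.mk_one]
      rw [← S.is_maximal' h1 (le_iInf fun _ => le_sup_left)]
      exact Subgroup.mem_iInf.2 fun θ => (ih _ (hlt M hM1) M rfl inferInstance θ.1 θ.2.1
        (fun q h1 h2 => hq q h1 (h2.trans (H24.deg_dvd_of_over M hχ θ.2.1 θ.2.2))) S).conj_mem _
        (Subgroup.mem_sup_left hx) g⟩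
  have hmap : ∀ M : Subgroup G, M.Normal → M ≠ ⊤ → ∀ S : Sylow p M,
      ((S : Subgroup M).map M.subtype).Normal := fun M hM hM1 S => by
    have := S.characteristic_of_normal (hclosed M hM hM1 S)
    infer_instance
  have htop : ∀ M : Subgroup G, M.Normal → (P : Subgroup G) ≤ M → M = ⊤ := fun M hM h => by
    by_contra h1
    have := hmap M hM h1 (P.subtype h)
    rw [Sylow.coe_subtype, Subgroup.map_subgroupOf_eq_of_le h] at this
    exact hP this
  obtain ⟨M, hM, hGM, -, hMi⟩ := H24.exists_normal_index_prime_of_isSolvable (G := G) ⊥ fun h =>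
    hP (by rw [eq_bot_iff.2 (le_top.trans h.ge : (P : Subgroup G) ≤ ⊥)]; infer_instance)
  have hM1 : M ≠ ⊤ := fun h => by simp [h, Nat.not_prime_one] at hMi
  have hMp : M.index = p := by
    by_contra h
    exact hM1 (htop M hM (H58.le_of_not_dvd_index P.2 fun h1 =>
      h ((Nat.prime_dvd_prime_iff_eq hp.out hMi).1 h1).symm))
  obtain ⟨S⟩ : Nonempty (Sylow p M) := inferInstance
  have hSn := hmap M hM hM1 S
  have hSn' := hclosed M hM hM1 S
  set O := (S : Subgroup M).map M.subtype with hO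
  have hOp : IsPGroup p O := S.2.map _
  have hOP : O ≤ P := hOp.le_sylow_of_normal P
  obtain ⟨L, hL, hOL, hLM, hchief⟩ := H14.exists_chief_below (N := O) (K := M)
    (lt_of_le_of_ne (Subgroup.map_subtype_le _) fun h =>
      hP (Subgroup.Normal.of_commutator_le G (hGM.trans (h.ge.trans hOP))))
  obtain ⟨hab, q, hqp, -, k, hk⟩ := H14.chief_elementary_of_solvable O M L inferInstance hOL hLM hchief
  have hk0 : k ≠ 0 := by
    rintro rfl
    exact hLM.not_ge (Subgroup.relIndex_eq_one.1 hk)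
  have hpL : ¬ p ∣ L.relIndex M := fun h => S.not_dvd_index (h.trans (Subgroup.index_dvd_of_le
    fun x hx => hOL ⟨x, hx, rfl⟩))
  set π := QuotientGroup.mk' L with hπ
  have hLP : L ⊔ P ≠ ⊤ := fun h => by
    have h1 : IsPGroup p (G ⧸ L) := fun x => by
      obtain ⟨x, rfl⟩ := QuotientGroup.mk_surjective x
      obtain ⟨l, hl, y, hy, rfl⟩ := Subgroup.mem_sup_of_normal_left.1 (h.ge (Subgroup.mem_top x))
      obtain ⟨j, hj⟩ := P.2 ⟨y, hy⟩
      refine ⟨j, ?_⟩
      rw [QuotientGroup.mk_mul, (QuotientGroup.eq_one_iff l).2 hl, one_mul, ← QuotientGroup.mk_pow,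
        show y ^ p ^ j = 1 from congrArg Subtype.val hj, QuotientGroup.mk_one]
    rcases (h1.to_subgroup (M.map π)).card_eq_or_dvd with h2 | h2 <;> rw [H3.card_map_mk'] at h2
    · exact hLM.not_ge (Subgroup.relIndex_eq_one.1 h2)
    · exact hpL h2
  have hMP : ∀ g : G, ∃ a ∈ M, ∃ y ∈ (P : Subgroup G), a * y = g := fun g =>
    Subgroup.mem_sup_of_normal_left.1 ((htop (M ⊔ P) (Subgroup.Normal.of_commutator_le G
      (hGM.trans le_sup_left)) le_sup_right).ge (Subgroup.mem_top g))
  have hMc : ∀ a ∈ M, ∀ b ∈ M, π a * π b = π b * π a := fun a ha b hb => by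
    rw [← commutatorElement_eq_one_iff_mul_comm, ← map_commutatorElement]
    exact (QuotientGroup.eq_one_iff _).2 (hab (Subgroup.commutator_mem_commutator ha hb))
  have hmod : L.relIndex M ≡ 1 [MOD p] := by
    set C := Subgroup.centralizer ((P : Subgroup G).map π : Set (G ⧸ L)) with hC
    have hDn : (M ⊓ C.comap π).Normal := ⟨fun x hx g => ⟨hM.conj_mem _ hx.1 g, by
      obtain ⟨a, ha, y, hy, rfl⟩ := hMP g
      have h1 : π (a * y * x * (a * y)⁻¹) = π x := by
        rw [map_mul, map_mul, map_mul, map_inv, map_mul, mul_assoc (π a), hx.2 _ ⟨y, hy, rfl⟩,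
          ← mul_assoc, hMc a ha x hx.1, mul_assoc (π x), mul_inv_cancel_right]
      exact Subgroup.mem_comap.2 (h1 ▸ hx.2)⟩⟩
    rcases hchief _ hDn (le_inf hLM.le fun x hx => by
      rw [Subgroup.mem_comap, show π x = 1 from (QuotientGroup.eq_one_iff x).2 hx]
      exact one_mem _) inf_le_left with h | h
    · have h1 := S4214.relIndex_centralizer_modEq (P.2.map π) (A := M.map π)
        (by rwa [H3.card_map_mk']) (by
          have := hM.map π (QuotientGroup.mk'_surjective L)
          rw [Subgroup.normalizer_eq_top]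
          exact le_top)
      rwa [← Subgroup.inf_relIndex_right, (eq_bot_iff (a := C ⊓ M.map π)).2 (by
        rintro _ ⟨h1, x, hx, rfl⟩
        exact (QuotientGroup.eq_one_iff x).2 (h.le ⟨hx, h1⟩)), Subgroup.relIndex_bot_left,
        H3.card_map_mk'] at h1
    · have h1 : ((P : Subgroup G).map π).Normal := ⟨by
        rintro _ ⟨x, hx, rfl⟩ g
        obtain ⟨g, rfl⟩ := QuotientGroup.mk'_surjective L g
        obtain ⟨a, ha, y, hy, rfl⟩ := hMP g
        have h2 := (P : Subgroup G).mul_mem ((P : Subgroup G).mul_mem hy hx) (inv_mem hy)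
        refine ⟨_, h2, ?_⟩
        rw [eq_mul_inv_iff_mul_eq, map_mul π a, ← mul_assoc, (h.ge ha).2 _ ⟨_, h2, rfl⟩]
        simp [mul_assoc]⟩
      have h2 := h1.comap π
      rw [Subgroup.comap_map_eq, QuotientGroup.ker_mk'] at h2
      exact absurd ((sup_comm _ _).trans (htop _ h2 le_sup_left)) hLP
  have hχM := H24.res_isIrr_of_coprime M hχ
    (hMp ▸ ((Nat.Prime.coprime_iff_not_dvd hp.out).2 hd).symm)
  obtain ⟨φ, hφ, h1⟩ := exists_irr_constituent (isCharacter_restrict hχc L)
    fun h => irr_apply_one_ne_zero hχ (congrFun h 1)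
  rcases H14.going_down M L hLM.le hchief hab hχM (fun g n => isClassFunction_of_irr hχ _ _) hφ h1
    with h | ⟨e, h, he⟩ | ⟨h, h2⟩
  · have hχU : IsIrrCharacter ↥(L ⊔ P) fun x => χ x := isIrrCharacter_of_comp
      (isCharacter_restrict hχc _) (Subgroup.inclusion le_sup_left) (h ▸ hφ)
    have h2 := ih _ (hlt _ hLP) ↥(L ⊔ P) rfl inferInstance _ hχU hq (P.subtype le_sup_right)
    rw [hkerH, sup_bot_eq] at h2
    have h3 : ∀ a ∈ (P : Subgroup G), ∀ b ∈ (P : Subgroup G), a * b = b * a := fun a ha b hb =>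
      congrArg (fun x => x.1.1) (comm_of_normal hχU (hkerH _) hd _ (P.subtype le_sup_right).2
          ⟨⟨a, Subgroup.mem_sup_right ha⟩, ha⟩ ⟨⟨b, Subgroup.mem_sup_right hb⟩, hb⟩)
    have h4 : ∀ a ∈ O, ∀ g, a * g = g * a := fun a ha g =>
      (htop (Subgroup.centralizer O) inferInstance fun x hx y hy => h3 y (hOP hy) x hx).ge
        (Subgroup.mem_top g) a ha
    have h5 : ∀ x ∈ (P : Subgroup G), ∀ l ∈ L, l * x = x * l := fun x hx l hl => by
      have h5 : x * l * x⁻¹ * l⁻¹ ∈ (P : Subgroup G) := by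
        have := h2.conj_mem ⟨x⁻¹, Subgroup.mem_sup_right (inv_mem hx)⟩ (inv_mem hx)
          ⟨l, Subgroup.mem_sup_left hl⟩
        simpa [mul_assoc] using mul_mem hx this
      have h6 : x * l * x⁻¹ * l⁻¹ ∈ M := hLM.le (mul_mem (hL.conj_mem l hl x) (inv_mem hl))
      obtain ⟨j, hj⟩ := P.2 ⟨_, h5⟩
      have h7 : (x * l * x⁻¹ * l⁻¹) ^ p ^ j = 1 := congrArg Subtype.val hj
      have h8 : x * l * x⁻¹ * l⁻¹ ∈ O := by
        obtain ⟨T, hT⟩ := (IsPGroup.of_card (G := Subgroup.zpowers (⟨_, h6⟩ : M)) (p := p)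
          (((Nat.dvd_prime_pow hp.out).1 (orderOf_dvd_of_pow_eq_one (x := (⟨_, h6⟩ : M))
            (Subtype.ext h7))).choose_spec.2 ▸ Nat.card_zpowers _)).exists_le_sylow
        have := S.unique_of_normal hSn'
        exact ⟨_, Subsingleton.elim T S ▸ hT (Subgroup.mem_zpowers _), rfl⟩
      have h9 : l ^ (S : Subgroup M).index ∈ O := ⟨_, Subgroup.pow_index_mem _ ⟨l, hLM.le hl⟩, rfl⟩
      have h10 : (x * l * x⁻¹ * l⁻¹) ^ (S : Subgroup M).index = 1 := by
        have h11 := Commute.mul_pow (h4 _ h8 l) (S : Subgroup M).index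
        rw [inv_mul_cancel_right, conj_pow, ← h4 _ h9, mul_inv_cancel_right] at h11
        exact right_eq_mul.1 h11
      have h11 := orderOf_eq_one_iff.1 (Nat.eq_one_of_dvd_coprimes
        (((Nat.Prime.coprime_iff_not_dvd hp.out).2 S.not_dvd_index).pow_left j)
        (orderOf_dvd_of_pow_eq_one h7) (orderOf_dvd_of_pow_eq_one h10))
      rw [mul_inv_eq_one, mul_inv_eq_iff_eq_mul] at h11
      exact h11.symm
    refine hP ⟨fun x hx g => ?_⟩
    have h6 : (⟨x, Subgroup.mem_sup_right hx⟩ : ↥(L ⊔ P)) ∈ Subgroup.center ↥(L ⊔ P) :=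
      Subgroup.mem_center_iff.2 fun y => Subtype.ext (Subgroup.mem_centralizer_singleton_iff.1
        ((sup_le (fun l hl => Subgroup.mem_centralizer_singleton_iff.2 (h5 x hx l hl))
          fun l hl => Subgroup.mem_centralizer_singleton_iff.2 (h3 l hl x hx) :
            L ⊔ P ≤ Subgroup.centralizer {x}) y.2))
    have h7 := center_le_charCenter hχU h6
    rw [H12.charCenter_restrict hχc, charCenter_eq_center hχ hker] at h7
    rwa [show g * x = x * g from Subgroup.mem_center_iff.1 h7 g, mul_inv_cancel_right]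
  · obtain ⟨b, -, hb⟩ := (Nat.dvd_prime_pow hqp).1
      ((dvd_pow_self e two_ne_zero).trans (he.trans hk).dvd)
    refine hq e (hb ▸ hqp.isPrimePow.pow ?_) ⟨charDegree φ, H24.deg_eq ?_⟩ ?_
    · rintro rfl
      rw [hb, hk] at he
      exact hk0 ((Nat.pow_eq_one.1 he.symm).resolve_left hqp.ne_one)
    · rw [Nat.cast_mul, ← H24.irr_deg hφ]
      exact congrFun h 1
    · rw [← he] at hmod
      have h2 : (p : ℤ) ∣ (1 - e) * (-1 - e) := by
        have := hmod.symm.dvd
        push_cast at this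
        convert this using 1
        ring
      rcases (Nat.prime_iff_prime_int.1 hp.out).dvd_or_dvd h2 with h3 | h3
      · exact Or.inr (Or.inr (Int.modEq_iff_dvd.2 h3))
      · exact Or.inl (Int.modEq_iff_dvd.2 h3)
  · refine hq _ (hk ▸ hqp.isPrimePow.pow hk0 : IsPrimePow (L.relIndex M))
      ⟨charDegree φ, H24.deg_eq ?_⟩ (Or.inr (Or.inr (Int.natCast_modEq_iff.2 hmod)))
    have h3 := H14.clifford_degree_of_le L M hLM.le hχM hφ h1
    rw [h2, one_mul, ← Subgroup.inf_relIndex_right, h, H24.irr_deg hφ] at h3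
    exact_mod_cast h3

/-- Let the finite solvable group G have a faithful irreducible character of degree n, and suppose that for the prime p a Sylow p-subgroup of G is not normal. Then n is divisible by a prime power q > 1 with q congruent to −1, 0 or 1 modulo p. -/
theorem result {G : Type*} [Group G] [Finite G] (χ : Cfsg.IrrCharacter G) (hfaith : ∀ g : G, (χ : G → ℂ) g = (χ : G → ℂ) 1 → g = 1) (n : ℕ) (hn : Cfsg.charDegree (χ : G → ℂ) = n) (hsolv : Group.IsSolvable G) (p : ℕ) (hp : p.Prime) (P : Sylow p G) (hP : ¬ (P : Subgroup G).Normal) : ∃ q : ℕ, IsPrimePow q ∧ q ∣ n ∧ ((q : ℤ) ≡ -1 [ZMOD p] ∨ (q : ℤ) ≡ 0 [ZMOD p] ∨ (q : ℤ) ≡ 1 [ZMOD p]) := by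
  have := Fact.mk hp
  by_contra h
  have h1 := aux _ G rfl hsolv χ χ.2 (fun q h1 h2 h3 => h ⟨q, h1, hn ▸ h2, h3⟩) P
  rw [H12.charKer_eq_bot_of_faithful hfaith, sup_bot_eq] at h1
  exact hP h1

end Cfsg.Agent.S4467
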