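import Cfsg.Statements.S4518
import Cfsg.Agent.H19.OddIndex

set_option autoImplicit false
open Cfsg

namespace Cfsg.Agent.S4518


/-- Let N be a normal subgroup of the finite group G whose index is not divisible by the prime p, and let k be coprime to the order of G with k ^ (p ^ e) ≡ 1 modulo the order of G for some e (so g ↦ g ^ k induces a field automorphism of p-power order on character values). If an irreducible character χ of G satisfies χ (g ^ k) = χ g for all g, then every irreducible constituent θ of the restriction of χ to N satisfies θ (n ^ k) = θ n for all n. -/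
theorem result {G : Type*} [Group G] [Fintype G] (p : ℕ) [Fact p.Prime] (N : Subgroup G) [N.Normal] [Fintype N] (hidx : ¬ p ∣ N.index) (k e : ℕ) (hk : Nat.Coprime k (Nat.card G)) (hke : k ^ (p ^ e) ≡ 1 [MOD Nat.card G]) (χ : Cfsg.IrrCharacter G) (hχ : ∀ g : G, (χ : G → ℂ) (g ^ k) = (χ : G → ℂ) g) (θ : Cfsg.IrrCharacter N) (hθ : Cfsg.classInner (fun n : N => (χ : G → ℂ) n) (θ : N → ℂ) ≠ 0) : ∀ n : N, (θ : N → ℂ) (n ^ k) = (θ : N → ℂ) n := by
  have hp : p.Prime := Fact.out
  have hkN := H19.coprime_subgroup hk N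
  have h1 : Cfsg.classInner (fun n : N => χ.1 n) (fun n => θ.1 (n ^ k)) ≠ 0 := by
    rw [← H19.classInner_comp_pow hkN] at hθ
    simpa only [SubgroupClass.coe_pow, hχ] using hθ
  obtain ⟨g, hg⟩ := H14.clifford_conj N χ.2 θ.2 (H19.isIrr_comp_pow hkN θ.2) hθ h1
  have h2 : ∀ j : ℕ, (fun n : N => θ.1 (n ^ k ^ j)) = H14.conjChar N θ.1 (g ^ j) := by
    intro j
    induction j with
    | zero => simp [H14.conjChar_one]
    | succ j ih =>
      funext n
      rw [pow_succ', pow_mul, congrFun ih (n ^ k), H19.conjChar_pow, ← hg, H14.conjChar_conjChar,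
        pow_succ']
  have h3 : g ^ p ^ e ∈ H14.inertia N θ.1 := by
    rw [H14.mem_inertia, ← h2]
    funext n
    congr 1
    have : n ^ k ^ p ^ e = n ^ 1 := by
      rw [pow_eq_pow_iff_modEq]
      exact hke.of_dvd ((orderOf_dvd_natCard n).trans (Subgroup.card_subgroup_dvd_card N))
    rw [this, pow_one]
  have h4 : g ^ N.index ∈ H14.inertia N θ.1 :=
    H14.le_inertia N (H11.isClassFunction_of_irr θ.2) (N.pow_index_mem g)
  have h5 : g ∈ H14.inertia N θ.1 := by
    have hc : (p ^ e).Coprime N.index := ((Nat.Prime.coprime_iff_not_dvd hp).2 hidx).pow_left e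
    have := Nat.gcd_eq_gcd_ab (p ^ e) N.index
    rw [hc.gcd_eq_one] at this
    have h6 : g = (g ^ p ^ e) ^ Nat.gcdA (p ^ e) N.index * (g ^ N.index) ^ Nat.gcdB (p ^ e) N.index := by
      rw [← zpow_natCast, ← zpow_natCast, ← zpow_mul, ← zpow_mul, ← zpow_add, ← this]
      simp
    rw [h6]
    exact mul_mem (zpow_mem h3 _) (zpow_mem h4 _)
  intro n
  rw [← congrFun hg n, (H14.mem_inertia N).1 h5]

end Cfsg.Agent.S4518
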