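import Cfsg.Statements.S4520
import Cfsg.Agent.H19.PowFixed
import Cfsg.Agent.H22.Cover

set_option autoImplicit false
open Cfsg

namespace Cfsg.Agent.S4520


/-- Let N be a normal subgroup of odd index in the finite group G, M a maximal ideal of the algebraic integers containing 2, and k coprime to the order of G with k ^ (2 ^ e) ≡ 1 modulo the order of G for some e and g ^ k = g⁻¹ for every element g of odd order. Let θ be an irreducible character of N and χ an irreducible character of G over θ, both unchanged by composing with g ↦ g ^ k. Then χ lies in the principal 2-block of G if and only if θ lies in the principal 2-block of N. -/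
theorem result {G : Type*} [Group G] [Fintype G] (M : Ideal Cfsg.AlgInt) (hM : Cfsg.IsPModular 2 M) (N : Subgroup G) [N.Normal] [Fintype N] (hidx : Odd N.index) (k e : ℕ) (hk : Nat.Coprime k (Nat.card G)) (hke : k ^ (2 ^ e) ≡ 1 [MOD Nat.card G]) (hk₂ : ∀ g : G, Odd (orderOf g) → g ^ k = g⁻¹) (θ : Cfsg.IrrCharacter N) (hθ : ∀ n : N, (θ : N → ℂ) (n ^ k) = (θ : N → ℂ) n) (χ : Cfsg.IrrCharacter G) (hχ : ∀ g : G, (χ : G → ℂ) (g ^ k) = (χ : G → ℂ) g) (hover : Cfsg.classInner (fun n : N => (χ : G → ℂ) n) (θ : N → ℂ) ≠ 0) : χ ∈ Cfsg.principalBlock M G ↔ θ ∈ Cfsg.principalBlock M N := by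
  classical
  letI : Fintype (Cfsg.IrrCharacter G) := Fintype.ofFinite _
  haveI := H19.charP_kk hM
  haveI : Fact (Nat.Prime 2) := ⟨Nat.prime_two⟩
  refine ⟨fun h => H22.mem_principal_of_over hM.2.1 h ((H22.over_iff N _ _).2 hover), fun h => ?_⟩
  have hq := H19.pow_mul_mem_of_odd N hidx hk₂
  have hpow := H19.pow_pow_eq_of_modEq hke
  set c : N → ℂ := fun n : N => Cfsg.blockCoeff (Cfsg.principalBlock M G) (n : G) with hc
  have hcV : ∀ n, c n ∈ H19.Vr M := fun n =>
    H17.blockCoeff_mem_Vr hM.2.1 H19.isPBlock_principalBlock _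
  have hccf : Cfsg.IsClassFunction N c :=
    H11.isClassFunction_restrict (H21.blockCoeff_isClassFunction _) N
  have key : ∀ (θ : Cfsg.IrrCharacter N) (_ : ∀ n : N, θ.1 (n ^ k) = θ.1 n)
      (χ : Cfsg.IrrCharacter G) (_ : ∀ g : G, χ.1 (g ^ k) = χ.1 g)
      (_ : Cfsg.classInner (fun n : N => χ.1 n) θ.1 ≠ 0),
      H19.red M (N.index * H21.om θ.1 c) = if χ ∈ Cfsg.principalBlock M G then
        H19.red M (Cfsg.classInner (fun n : N => χ.1 n) θ.1 * χ.1 1 / θ.1 1) else 0 := by
    intro θ hθ χ hχ hover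
    rw [hc, ← H19.sum_inner_mul_div_eq, H19.red_sum fun ψ _ => H19.inner_mul_div_mem_Vr N θ ψ,
      Finset.sum_filter, H19.sum_irr_eq_sum_fixed Nat.prime_two hk hpow, Finset.sum_eq_single χ]
    · intro ψ hψ hne
      have hψ' : ∀ g : G, ψ.1 (g ^ k) = ψ.1 g := by simpa using hψ
      have : Cfsg.classInner (fun n : N => ψ.1 n) θ.1 = 0 := by
        by_contra h0
        exact hne ((H19.existsUnique_fixed_over N hidx hk hq θ.2 hθ).unique ⟨h0, hψ'⟩ ⟨hover, hχ⟩)
      simp [this, H19.red_zero]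
    · intro h0
      exact absurd (by simpa using hχ) h0
    · intro ψ
      simp only [H19.powIrr_mem_principalBlock_iff, H19.powIrr_apply, one_pow,
        H19.inner_res_pow N hk ψ.1 hθ]
    · intro ψ
      rw [nsmul_eq_mul, CharP.cast_eq_zero, zero_mul]
  have h1 := key (H19.oneIrr N) (fun _ => rfl) (H19.oneIrr G) (fun _ => rfl) (by
    simp only [H19.oneIrr_coe, H11.classInner_one_one]; exact one_ne_zero)
  rw [if_pos (H19.oneIrr_mem_principalBlock hM.2.1)] at h1
  simp only [H19.oneIrr_coe, H11.classInner_one_one, mul_one, div_one, H19.red_one] at h1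
  have h2 := key θ hθ χ hχ hover
  by_contra hχB
  rw [if_neg hχB] at h2
  have h3 : H19.red M (H21.om (H19.oneIrr N).1 c) = H19.red M (H21.om θ.1 c) :=
    (H19.red_eq_iff (H21.om_mem_Vr _ hccf hcV) (H21.om_mem_Vr _ hccf hcV)).2
      (H21.val_om_sub_lt_one hM.2.1 (χ := H19.oneIrr N) (ψ := θ) h hccf hcV)
  rw [H19.red_mul (H19.natCast_mem_Vr _) (H21.om_mem_Vr _ hccf hcV), ← h3,
    ← H19.red_mul (H19.natCast_mem_Vr _) (H21.om_mem_Vr _ hccf hcV), H19.oneIrr_coe, h1] at h2
  exact one_ne_zero h2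

end Cfsg.Agent.S4520
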