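import Cfsg.Statements.S4521
import Cfsg.Agent.H21.Principal

set_option autoImplicit false
open Cfsg

namespace Cfsg.Agent.S4521

open Cfsg.Agent.H21

/-- Let the finite group G be generated by subgroups U₁ and U₂ that commute elementwise and whose intersection is a p-group, and let M be a maximal ideal of the algebraic integers containing the prime p. If the irreducible character χ of G has the irreducible constituents ψ₁ on U₁ and ψ₂ on U₂, then χ lies in the principal block of G if and only if ψ₁ and ψ₂ lie in the principal blocks of U₁ and U₂. -/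
theorem result {G : Type*} [Group G] [Fintype G] (p : ℕ) [Fact p.Prime] (M : Ideal Cfsg.AlgInt) (hM : Cfsg.IsPModular p M) (U₁ U₂ : Subgroup G) [Fintype U₁] [Fintype U₂] (hcomm : ∀ u ∈ U₁, ∀ v ∈ U₂, u * v = v * u) (hgen : U₁ ⊔ U₂ = ⊤) (hZ : IsPGroup p ↥(U₁ ⊓ U₂)) (χ : Cfsg.IrrCharacter G) (ψ₁ : Cfsg.IrrCharacter U₁) (ψ₂ : Cfsg.IrrCharacter U₂) (h₁ : Cfsg.classInner (fun u : U₁ => (χ : G → ℂ) u) (ψ₁ : U₁ → ℂ) ≠ 0) (h₂ : Cfsg.classInner (fun u : U₂ => (χ : G → ℂ) u) (ψ₂ : U₂ → ℂ) ≠ 0) : χ ∈ Cfsg.principalBlock M G ↔ (ψ₁ ∈ Cfsg.principalBlock M U₁ ∧ ψ₂ ∈ Cfsg.principalBlock M U₂) := by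
  have hp : p.Prime := Fact.out
  obtain ⟨φ, ψ, hφ, hψ, h⟩ := H11.exists_irr_mul_of_commute U₁ U₂ hcomm hgen χ.2
  have hφ1 : φ 1 ≠ 0 := H11.irr_apply_one_ne_zero hφ
  have hψ1 : ψ 1 ≠ 0 := H11.irr_apply_one_ne_zero hψ
  have e1 : φ = ψ₁.1 := by
    by_contra hne
    apply h₁
    have : (fun u : U₁ => χ.1 u) = ψ 1 • φ := by
      funext u
      have := h u 1
      rw [OneMemClass.coe_one, mul_one] at this
      rw [this, Pi.smul_apply, smul_eq_mul, mul_comm]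
    rw [this, H11.classInner_smul_left, H11.classInner_irr_of_ne hφ ψ₁.2 hne, mul_zero]
  have e2 : ψ = ψ₂.1 := by
    by_contra hne
    apply h₂
    have : (fun u : U₂ => χ.1 u) = φ 1 • ψ := by
      funext u
      have := h 1 u
      rw [OneMemClass.coe_one, one_mul] at this
      rw [this, Pi.smul_apply, smul_eq_mul]
    rw [this, H11.classInner_smul_left, H11.classInner_irr_of_ne hψ ψ₂.2 hne, mul_zero]
  subst e1 e2
  let f : U₁ × U₂ →* G := MonoidHom.noncommCoprod U₁.subtype U₂.subtype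
    fun a b => hcomm a a.2 b b.2
  have hfa : ∀ x : U₁ × U₂, f x = x.1 * x.2 := fun _ => rfl
  have hf : Function.Surjective f := by
    rw [← MonoidHom.range_eq_top, eq_top_iff, ← hgen]
    exact sup_le (fun a ha => ⟨(⟨a, ha⟩, 1), mul_one a⟩) (fun b hb => ⟨(1, ⟨b, hb⟩), one_mul b⟩)
  have hker : ∀ x ∈ f.ker, (x.1 : G) ∈ U₁ ⊓ U₂ ∧ (x.2 : G) ∈ U₁ ⊓ U₂ := by
    intro x hx
    rw [MonoidHom.mem_ker, hfa] at hx
    refine ⟨⟨x.1.2, ?_⟩, ⟨?_, x.2.2⟩⟩
    · rw [eq_inv_of_mul_eq_one_left hx]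
      exact U₂.inv_mem x.2.2
    · rw [eq_inv_of_mul_eq_one_right hx]
      exact U₁.inv_mem x.1.2
  have hk : IsPGroup p f.ker := by
    rintro ⟨x, hx⟩
    obtain ⟨k, hk⟩ := hZ ⟨_, (hker x hx).1⟩
    obtain ⟨l, hl⟩ := hZ ⟨_, (hker x hx).2⟩
    have hk' : (x.1 : G) ^ p ^ k = 1 := congrArg Subtype.val hk
    have hl' : (x.2 : G) ^ p ^ l = 1 := congrArg Subtype.val hl
    refine ⟨k + l, Subtype.ext (Prod.ext (Subtype.ext ?_) (Subtype.ext ?_))⟩
    · change (x.1 : G) ^ p ^ (k + l) = 1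
      rw [pow_add, pow_mul, hk', one_pow]
    · change (x.2 : G) ^ p ^ (k + l) = 1
      rw [add_comm, pow_add, pow_mul, hl', one_pow]
  have hc : ∀ y : U₁ × U₂, ¬ p ∣ orderOf y → y ∈ H18.Cz f.ker := by
    intro y _
    rw [H18.Cz, Subgroup.mem_centralizer_iff]
    intro x hx
    refine Prod.ext (Subtype.ext ?_) (Subtype.ext ?_)
    · exact (hcomm _ y.1.2 _ (hker x hx).1.2).symm
    · exact hcomm _ (hker x hx).2.1 _ y.2.2
  rw [mem_principal_iff_regSum hM, mem_principal_iff_regSum hM, mem_principal_iff_regSum hM,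
    ← regSum_comp_surj hf hk hc, ← mul_ne_zero_iff, ← regSum_prod hp]
  simp only [hfa, h]

end Cfsg.Agent.S4521
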