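import Cfsg.Statements.S4531
import Cfsg.Agent.H17.TameQ

set_option autoImplicit false
open Cfsg

namespace Cfsg.Agent.S4531

/-- Let the finite group G have a 2-block B (relative to a maximal ideal M of the algebraic integers containing 2) of 2-regular rank three (three irreducible Brauer characters) whose defect group D is dihedral of order 2 ^ n with n ≥ 3 or semidihedral. Then the centre of G has odd order and G is not solvable. -/
theorem result {G : Type*} [Group G] [Finite G] (M : Ideal Cfsg.AlgInt) (hM : Cfsg.IsPModular 2 M) (B : Set (Cfsg.IrrCharacter G)) (hB : Cfsg.IsPBlock M B) (D : Subgroup G) (hD : Cfsg.IsDefectGroup 2 M B D) (hD' : (∃ n : ℕ, 3 ≤ n ∧ Nonempty (D ≃* DihedralGroup (2 ^ (n - 1)))) ∨ Cfsg.IsQuasiDihedral D) (hl : Cfsg.blockRank 2 B = 3) : Odd (Nat.card (Subgroup.center G)) ∧ ¬ Group.IsSolvable G := by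
  classical
  have := Fintype.ofFinite G
  have := Fintype.ofFinite (IrrCharacter G)
  obtain ⟨e, he⟩ := H21.exists_isMaxPair hM hB hD
  have s : H17.BS M 2 B D e := ⟨hM, hB, he⟩
  have h0 : ∀ {x v : G}, H17.fx D e x v = 0 → H17.Fx D e x v := fun h => by
    by_contra h1; simp [H17.fx, h1] at h
  rcases hD' with ⟨n, hn, ⟨f⟩⟩ | hsd
  · obtain ⟨x, y, h, h1⟩ := H17.exists_mc_of_dihedral (by omega) f
    obtain ⟨-, h2, -⟩ := h.dihedral s (by omega) h1
    refine h.not_solvable s (by omega) (h1 _ h.y_mem h.notMem) ?_ (h0 (by omega)) (h0 (by omega))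
    rw [show n - 1 - 1 = n - 3 + 1 by omega, pow_succ', pow_mul, sq, h1 _ h.xy_mem h.xy_notMem,
      one_pow]
  · obtain ⟨x, y, m, q, hm, h, h1, h2⟩ := H17.exists_mc_of_quasi hsd
    have h3 := h2.trans_ne h.z_ne
    obtain ⟨j, h4, h5, -⟩ := h.heights s hm fun _ => h3
    have h8 := (h.major s (by omega)).1
    have h9 := h.card_eq s (by omega)
    rw [if_pos h1, if_neg h3] at h8
    refine h.not_solvable s (by omega) h1 ?_ (h0 (by omega)) (h0 (by omega))
    rw [show m - 1 = 2 + (m - 3) by omega, pow_add, pow_mul,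
      show (x * y) ^ 2 ^ 2 = 1 from h.pow_four_out h.xy_mem h.xy_notMem, one_pow]

end Cfsg.Agent.S4531
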