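import Cfsg.Statements.S4534
import Cfsg.Agent.H19.SymBlock

set_option autoImplicit false
open Cfsg

namespace Cfsg.Agent.S4534


/-- Let B be a p-block of a finite symmetric group (relative to a maximal ideal M of the algebraic integers containing p) with a nontrivial defect group D all of whose sections have p-rank at most s. Then the p-regular rank of B is less than p ^ s. -/
theorem result (n : ℕ) (p : ℕ) [Fact p.Prime] (M : Ideal Cfsg.AlgInt) (hM : Cfsg.IsPModular p M) (B : Set (Cfsg.IrrCharacter (Equiv.Perm (Fin n)))) (hB : Cfsg.IsPBlock M B) (D : Subgroup (Equiv.Perm (Fin n))) (hD : Cfsg.IsDefectGroup p M B D) (hD1 : D ≠ ⊥) (s : ℕ) (hs : Cfsg.SectionalPRankLE p s D) : Cfsg.blockRank p B < p ^ s := by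
  classical
  have hp := hM.1
  obtain ⟨c, f, w, hc1, hc2, hn, hw, rfl, hd, U, hU, hQ⟩ :=
    H19.sym_block hM (N := Fintype.card (Fin n) + p * Fintype.card (Fin n)) le_rfl hB
  have hw0 : w ≠ 0 := by
    rintro rfl
    exact hD1 ((H17.dg_eq_bot_iff hM hB hD).2 (by simpa using hd))
  rw [H19.blockRank_Xs hM (Nat.le_add_right _ _) hc1 hc2 hn hw hB]
  obtain ⟨Q⟩ := (inferInstance : Nonempty (Sylow p (Equiv.Perm {x // x ∈ U})))
  obtain ⟨x, hx⟩ := H17.dg_exists_cs_eq hM hB (hQ Q) hD
  obtain ⟨E, hEQ, hE, hc, hEp⟩ := H19.exists_elemAb Q (w := w) (by simp [hU])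
  have h1 : ∀ a : E, ((MulAut.conj x).toMonoidHom.comp
      (Equiv.Perm.ofSubtype.comp E.subtype)) a ∈ D := fun a =>
    hx ▸ ⟨_, ⟨a, hEQ a.2, rfl⟩, rfl⟩
  have h2 := H19.card_le_of_sectional hs (MonoidHom.codRestrict _ D h1)
    (fun a b h => Subtype.ext (Equiv.Perm.ofSubtype_injective
      ((MulAut.conj x).injective (congrArg Subtype.val h))))
    (fun a b => Subtype.ext (hc a a.2 b b.2)) (fun a => Subtype.ext (hEp a a.2))
  have h3 := H19.bk_lt (p - 1) hw0
  rw [Nat.sub_add_cancel hp.one_le] at h3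
  rw [hE] at h2
  exact h3.trans_le h2

end Cfsg.Agent.S4534
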