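import Cfsg.Statements.S4535
import Cfsg.Agent.H19.SymAlt
import Cfsg.Agent.H21.KBCyc

set_option autoImplicit false
open Cfsg

namespace Cfsg.Agent.S4535


/-- Let B be a p-block of a finite alternating group (relative to a maximal ideal M of the algebraic integers containing p) with a nontrivial defect group D all of whose sections have p-rank at most s. Then the p-regular rank of B is less than p ^ s. -/
theorem result (n : ℕ) (p : ℕ) [Fact p.Prime] (M : Ideal Cfsg.AlgInt) (hM : Cfsg.IsPModular p M) (B : Set (Cfsg.IrrCharacter (alternatingGroup (Fin n)))) (hB : Cfsg.IsPBlock M B) (D : Subgroup (alternatingGroup (Fin n))) (hD : Cfsg.IsDefectGroup p M B D) (hD1 : D ≠ ⊥) (s : ℕ) (hs : Cfsg.SectionalPRankLE p s D) : Cfsg.blockRank p B < p ^ s := by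
  classical
  have hp := hM.1
  obtain ⟨N, L, hN, hL⟩ : ∃ N L, Fintype.card (Fin n) + p * Fintype.card (Fin n) ≤ N ∧
      2 * N = p * L := by
    refine ⟨p * (2 * Fintype.card (Fin n)), 4 * Fintype.card (Fin n), ?_, by ring⟩
    have := Nat.le_mul_of_pos_left (Fintype.card (Fin n)) hp.pos
    rw [mul_left_comm]
    omega
  have hN' : Fintype.card (Fin n) ≤ N := (Nat.le_add_right _ _).trans hN
  obtain ⟨c, f, w, hc1, hc2, hn, hw, hX, hcov, -, U, hU, Q, ⟨e⟩⟩ := H19.alt_block hM hN hB hD
  have hcU : Fintype.card {x // x ∈ U} = p * w := by simp [hU]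
  have hQ := H19.card_sylow_perm Q hcU
  have hDc : Nat.card D = Nat.card ((Q : Subgroup (Equiv.Perm {x // x ∈ U})) ⊓
      alternatingGroup {x // x ∈ U} : Subgroup _) := Nat.card_congr e.toEquiv
  have hD2 : Nat.card D ≠ 1 := fun h => hD1 (Subgroup.card_eq_one.1 h)
  have hw0 : w ≠ 0 := by
    rintro rfl
    have h1 := Subgroup.card_le_of_le (inf_le_left : (Q : Subgroup (Equiv.Perm {x // x ∈ U})) ⊓
      alternatingGroup {x // x ∈ U} ≤ Q)
    have h2 : 0 < Nat.card D := Nat.card_pos
    simp only [Nat.factorial_zero, Nat.factorization_one, Finsupp.coe_zero, Pi.zero_apply,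
      add_zero, pow_zero] at hQ
    omega
  have h2w : 2 ≤ p * w := hp.two_le.trans (Nat.le_mul_of_pos_right _ (Nat.pos_of_ne_zero hw0))
  have : Nontrivial (Fin n) := Fintype.one_lt_card_iff_nontrivial.1 (by omega)
  have : Nontrivial {x // x ∈ U} := Fintype.one_lt_card_iff_nontrivial.1 (by omega)
  have hsec : ∀ E : Subgroup (Equiv.Perm {x // x ∈ U}),
      E ≤ (Q : Subgroup (Equiv.Perm {x // x ∈ U})) ⊓ alternatingGroup {x // x ∈ U} →
      (∀ a ∈ E, ∀ b ∈ E, a * b = b * a) → (∀ a ∈ E, a ^ p = 1) → Nat.card E ≤ p ^ s :=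
    fun E hE hc hEp => H19.card_le_of_sectional hs
      (e.symm.toMonoidHom.comp (Subgroup.inclusion hE))
      (e.symm.injective.comp (Subgroup.inclusion_injective hE))
      (fun a b => Subtype.ext (hc a a.2 b b.2)) (fun a => Subtype.ext (hEp a a.2))
  have hsmall : ∀ d, d ≤ 2 → Nat.card D = p ^ d → p ^ d ≤ p ^ s → blockRank p B < p ^ s := by
    intro d hd h1 h2
    have h3 : blockDefect p B = d :=
      Nat.pow_right_injective hp.two_le ((H17.dg_card hM hB hD).symm.trans h1)
    have h4 := H21.blockRank_lt_card hM hB fun h => hD1 ((H17.dg_eq_bot_iff hM hB hD).2 h)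
    have h5 := H21.card_le_of_defect_le_two hM hB (h3 ▸ hd)
    rw [h3] at h5
    omega
  have hr := H19.blockRank_alt_le hM hN' hX hB hcov
  rw [H19.blockRank_Xs hM hN' hc1 hc2 hn hw hX, hn] at hr
  obtain ⟨E, hEQ, hE, hc, hEp⟩ := H19.exists_elemAb Q (w := w) hcU.ge
  by_cases hp2 : p = 2
  · subst hp2
    have h1 := H19.two_mul_card_inf_alt Q
    rw [hQ, ← hDc] at h1
    rcases (by omega : w = 1 ∨ w = 2 ∨ 3 ≤ w) with rfl | rfl | h3
    · simp only [Nat.factorial_one, Nat.factorization_one, Finsupp.coe_zero, Pi.zero_apply] at h1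
      omega
    · have h4 : Nat.card D = 2 ^ 2 := by
        have : (Nat.factorial 2).factorization 2 = 1 := Nat.prime_two.factorization_self
        rw [this] at h1
        omega
      refine hsmall 2 le_rfl h4 ?_
      have hsq : ∀ a ∈ (Q : Subgroup (Equiv.Perm {x // x ∈ U})) ⊓ alternatingGroup {x // x ∈ U},
          a ^ 2 = 1 := by
        intro a ha
        obtain ⟨k, hk⟩ := Q.isPGroup' ⟨a, ha.1⟩
        exact H19.sq_eq_one_of_card_four hcU ha.2 (congrArg Subtype.val hk)
      rw [← h4, hDc]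
      refine hsec _ le_rfl (fun a ha b hb => ?_) hsq
      have h5 := hsq _ (mul_mem ha hb)
      have h6 := hsq a ha
      have h7 := hsq b hb
      rw [sq] at h5 h6 h7
      rw [← inv_eq_of_mul_eq_one_right h5, mul_inv_rev, inv_eq_of_mul_eq_one_right h6,
        inv_eq_of_mul_eq_one_right h7]
    · have h4 := H19.card_selfConj_two hc1 hc2 hw (hn ▸ hN') rfl
      have h5 := H19.pn_add_lt_two h3
      have h6 := H19.card_le_two_mul_inf_alt E
      have h7 := hsec (E ⊓ alternatingGroup _) (inf_le_inf_right _ hEQ)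
        (fun a ha b hb => hc a ha.1 b hb.1) (fun a ha => hEp a ha.1)
      rw [H19.bk_one] at hr
      obtain ⟨w, rfl⟩ := Nat.exists_eq_succ_of_ne_zero hw0
      rw [hE, pow_succ] at h6
      simp only [Nat.succ_sub_one] at h5
      omega
  · have hQA := H19.le_alt_of_odd hp2 Q.isPGroup'
    have h7 := hsec E (le_inf hEQ (hEQ.trans hQA)) hc hEp
    rw [hE] at h7
    by_cases h3 : 3 ≤ w
    · obtain ⟨h, rfl⟩ := hp.odd_of_ne_two hp2
      have hh : 1 ≤ h := by have := hp.two_le; omega
      have h4 := H19.card_selfConj_odd hc1 hc2 hw hL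
      have h5 := H19.sum_bk_mul_pn_lt hh h3
      have h6 : ∑ j ∈ Finset.range w, H19.bk (h + 1) j ≤ ∑ j ∈ Finset.range w, H19.bk (2 * h) j :=
        Finset.sum_le_sum fun j _ => H19.bk_mono (by omega) j
      have h8 := H19.sum_bk_le (2 * h) w
      rw [Finset.sum_range_succ] at h8
      simp only [Nat.add_sub_cancel] at hr
      omega
    · have h4 : w.factorial.factorization p = 0 := by
        refine Nat.factorization_eq_zero_of_not_dvd fun h => ?_
        have := (hp.dvd_factorial).1 h
        have := hp.two_le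
        omega
      rw [h4, add_zero] at hQ
      refine hsmall w (by omega) ?_ h7
      rw [hDc, inf_eq_left.2 hQA, hQ]

end Cfsg.Agent.S4535
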