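import Cfsg.Statements.S4539
import Cfsg.Agent.H20.ContribBound
import Cfsg.Agent.H17.Numeric

set_option autoImplicit false
open Cfsg

namespace Cfsg.Agent.S4539

/-- Let B be a p-block of the finite group G (relative to a maximal ideal M of the algebraic integers containing p) of defect d with defect group D. Let z be an element of D commuting with every element of D, and let b be a block of the centralizer C of z with defect group D that induces B (a major subsection (z, b)). If b has p-regular rank at most two, then B contains at most p ^ d irreducible characters. -/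
theorem result {G : Type*} [Group G] [Finite G] (p : ℕ) [Fact p.Prime] (M : Ideal Cfsg.AlgInt) (hM : Cfsg.IsPModular p M) (B : Set (Cfsg.IrrCharacter G)) (hB : Cfsg.IsPBlock M B) (D : Subgroup G) (hD : Cfsg.IsDefectGroup p M B D) (z : G) (hzD : z ∈ D) (hzc : ∀ d ∈ D, d * z = z * d) (b : Set (Cfsg.IrrCharacter ↥(Subgroup.centralizer ({z} : Set G)))) (hb : Cfsg.IsInducedBlock M (Subgroup.centralizer ({z} : Set G)) b B) (hbD : Cfsg.IsDefectGroup p M b (D.subgroupOf (Subgroup.centralizer ({z} : Set G)))) (hl : Cfsg.blockRank p b ≤ 2) : Nat.card B ≤ p ^ Cfsg.blockDefect p B := by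
  have := Fintype.ofFinite G
  have := Fintype.ofFinite (IrrCharacter G)
  have := Fintype.ofFinite (H17.Cg z)
  have hd : blockDefect p b = blockDefect p B := by
    have h1 := H17.dg_card hM hB hD
    have h2 := H17.dg_card hM hb.1 hbD
    rw [Nat.card_congr (Subgroup.subgroupOfEquivOfLe fun d hd =>
      Subgroup.mem_centralizer_singleton_iff.2 (hzc d hd)).toEquiv, h1] at h2
    exact (Nat.pow_right_injective hM.1.two_le h2).symm
  have hzp : ∃ k : ℕ, orderOf (⟨z, H17.self_mem_Cg z⟩ : H17.Cg z) = p ^ k := by
    simpa only [← Subgroup.orderOf_coe] using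
      H20.isPElt_of_mem (IsPGroup.of_card (H17.dg_card hM hB hD)) hzD
  exact H20.card_le_of_rank_le_two hM hb hd rfl hzp hl

end Cfsg.Agent.S4539
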