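import Cfsg.Statements.S4541
import Cfsg.Agent.H20.ContribBound

set_option autoImplicit false
open Cfsg

namespace Cfsg.Agent.S4541

/-- Let B be a 2-block of the finite group G (relative to a maximal ideal M of the algebraic integers containing 2), u a 2-element, and b a block of the centralizer of u inducing B (a subsection (u, b)), of defect q and 2-regular rank l; write s for the integer square root of l and k₀(B) for the number of members of B of height zero. If s is odd then k₀(B) ≤ s·2 ^ q, and otherwise (s + 1)·k₀(B) ≤ l·2 ^ q; in particular k₀(B) ≤ 2 ^ q when l ≤ 3. -/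
theorem result {G : Type*} [Group G] [Finite G] (M : Ideal Cfsg.AlgInt) (hM : Cfsg.IsPModular 2 M) (B : Set (Cfsg.IrrCharacter G)) (hB : Cfsg.IsPBlock M B) (u : G) (hu : ∃ j : ℕ, orderOf u = 2 ^ j) (b : Set (Cfsg.IrrCharacter ↥(Subgroup.centralizer ({u} : Set G)))) (hb : Cfsg.IsInducedBlock M (Subgroup.centralizer ({u} : Set G)) b B) : (Odd (Nat.sqrt (Cfsg.blockRank 2 b)) → Nat.card {χ : Cfsg.IrrCharacter G // χ ∈ B ∧ Cfsg.blockHeight 2 B (χ : G → ℂ) = 0} ≤ Nat.sqrt (Cfsg.blockRank 2 b) * 2 ^ Cfsg.blockDefect 2 b) ∧ (¬ Odd (Nat.sqrt (Cfsg.blockRank 2 b)) → (Nat.sqrt (Cfsg.blockRank 2 b) + 1) * Nat.card {χ : Cfsg.IrrCharacter G // χ ∈ B ∧ Cfsg.blockHeight 2 B (χ : G → ℂ) = 0} ≤ Cfsg.blockRank 2 b * 2 ^ Cfsg.blockDefect 2 b) ∧ (Cfsg.blockRank 2 b ≤ 3 → Nat.card {χ : Cfsg.IrrCharacter G // χ ∈ B ∧ Cfsg.blockHeight 2 B (χ : G → ℂ) = 0} ≤ 2 ^ Cfsg.blockDefect 2 b) := by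
  classical
  have := Fintype.ofFinite G
  have := Fintype.ofFinite (IrrCharacter G)
  have := Fintype.ofFinite (H17.Cg u)
  obtain ⟨t, ⟨r, rfl⟩, h1, h2⟩ := H20.exists_odd_bound hM hb (z := ⟨u, H17.self_mem_Cg u⟩) rfl
    (by simpa only [← Subgroup.orderOf_coe] using hu)
  rw [Nat.card_eq_fintype_card, Fintype.card_subtype]
  have h3 := Nat.sqrt_le (blockRank 2 b)
  have h4 := Nat.lt_succ_sqrt (blockRank 2 b)
  generalize Nat.sqrt (blockRank 2 b) = s at *
  generalize blockRank 2 b = l at *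
  generalize 2 ^ blockDefect 2 b = Q at *
  generalize (Finset.univ.filter fun ψ => ψ ∈ B ∧ blockHeight 2 B ψ.1 = 0).card = k at *
  refine ⟨?_, fun hs => ?_, fun hl => ?_⟩
  · rintro ⟨a, rfl⟩
    rcases le_or_gt r a with h | h
    · nlinarith
    · have h5 : k * (2 * a + 3) ≤ (2 * a + 1) * Q * (2 * a + 3) := by
        calc k * (2 * a + 3) ≤ k * (2 * r + 1) := Nat.mul_le_mul_left _ (by omega)
          _ ≤ Q * l := h2
          _ ≤ Q * ((2 * a + 1) * (2 * a + 3)) := Nat.mul_le_mul_left _ (by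
            simp only [Nat.succ_eq_add_one] at h4; nlinarith)
          _ = _ := by ring
      exact Nat.le_of_mul_le_mul_right h5 (by omega)
  · obtain ⟨a, rfl⟩ := Nat.not_odd_iff_even.1 hs
    rcases le_or_gt a r with h | h
    · calc (a + a + 1) * k ≤ (2 * r + 1) * k := Nat.mul_le_mul_right _ (by omega)
        _ ≤ l * Q := by rw [mul_comm, mul_comm l]; exact h2
    · calc (a + a + 1) * k ≤ (a + a + 1) * (Q * (2 * r + 1)) := Nat.mul_le_mul_left _ h1
        _ = ((a + a + 1) * (2 * r + 1)) * Q := by ring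
        _ ≤ l * Q := Nat.mul_le_mul_right _ (by nlinarith)
  · rcases Nat.eq_zero_or_pos r with rfl | h
    · simpa using h1
    · have h5 : k * 3 ≤ Q * 3 :=
        (Nat.mul_le_mul_left _ (by omega)).trans (h2.trans (Nat.mul_le_mul_left _ hl))
      omega

end Cfsg.Agent.S4541
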