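import Cfsg.Statements.S4548
import Cfsg.Agent.H40.SgTrk
import Cfsg.Agent.H7.SgCyc
import Cfsg.Agent.H12.SgNc

set_option autoImplicit false
open Cfsg

namespace Cfsg.Agent.S4548

/-- Let G be a finite group of even order with Sylow 2-subgroup P and M a maximal ideal of the algebraic integers containing 2. Let k be a natural number with g ^ k = g ^ 3 for every 2-element g and g ^ k = g for every element g of odd order (such k exist); an irreducible character χ is unchanged by g ↦ g ^ k exactly when it is fixed by the field automorphism that cubes the 2-power roots of unity and fixes the roots of unity of odd order. Then P is cyclic if and only if exactly two members χ of the principal 2-block of odd degree satisfy χ (g ^ k) = χ g for all g. -/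
theorem result {G : Type*} [Group G] [Finite G] (M : Ideal Cfsg.AlgInt) (hM : Cfsg.IsPModular 2 M) (hev : Even (Nat.card G)) (P : Sylow 2 G) (k : ℕ) (hk₁ : ∀ g : G, (∃ j : ℕ, orderOf g = 2 ^ j) → g ^ k = g ^ 3) (hk₂ : ∀ g : G, Odd (orderOf g) → g ^ k = g) : IsCyclic P ↔ Nat.card {χ : Cfsg.IrrCharacter G // χ ∈ Cfsg.principalBlock M G ∧ Odd (Cfsg.charDegree (χ : G → ℂ)) ∧ ∀ g : G, (χ : G → ℂ) (g ^ k) = (χ : G → ℂ) g} = 2 := by
  exact Cfsg.Agent.H40.Sg.main Cfsg.Agent.H40.Sg.trk Cfsg.Agent.H7.SgCyc.cyc Cfsg.Agent.H12.SgNc.nc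
    M hM hev P k hk₁ hk₂

end Cfsg.Agent.S4548
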