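import Cfsg.Statements.S4549
import Cfsg.Agent.H19.DetGal
import Cfsg.Agent.H19.OddIndex
import Cfsg.Agent.H22.Knorr
import Cfsg.Agent.H21.Principal
import Cfsg.Agent.H24.Thompson

set_option autoImplicit false
open Cfsg

namespace Cfsg.Agent.S4549


theorem inertia_pow_iff {G : Type*} [Group G] [Finite G] (N : Subgroup G) [N.Normal] {k : ℕ}
    (hk : k.Coprime (Nat.card N)) (θ : Cfsg.IrrCharacter N) :
    H14.inertia N (H19.powIrr hk θ).1 = ⊤ ↔ H14.inertia N θ.1 = ⊤ := by
  rw [H14.inertia_eq_top_iff, H14.inertia_eq_top_iff]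
  constructor
  · intro h g n
    obtain ⟨m, rfl⟩ := (H19.pow_bijective hk).2 n
    have h1 := h g m
    rw [H19.powIrr_apply, H19.powIrr_apply] at h1
    rw [← h1]
    exact congrArg θ.1 (Subtype.ext (by simp))
  · intro h g n
    rw [H19.powIrr_apply, H19.powIrr_apply, ← h g (n ^ k)]
    exact congrArg θ.1 (Subtype.ext (by simp))

theorem two_smul_zmod : ∀ a : ZMod 2, 2 • a = 0 := by decide

theorem fixed_pow_iff {N : Type*} [Group N] [Finite N] {k l : ℕ}
    (hl : l.Coprime (Nat.card N)) (θ : Cfsg.IrrCharacter N) :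
    (∀ g, (H19.powIrr hl θ).1 (g ^ k) = (H19.powIrr hl θ).1 g) ↔ ∀ g, θ.1 (g ^ k) = θ.1 g := by
  constructor
  · intro h g
    obtain ⟨m, rfl⟩ := (H19.pow_bijective hl).2 g
    have h1 := h m
    rw [H19.powIrr_apply, H19.powIrr_apply, ← pow_mul, mul_comm, pow_mul] at h1
    exact h1
  · intro h g
    rw [H19.powIrr_apply, H19.powIrr_apply, ← pow_mul, mul_comm, pow_mul]
    exact h _

/-- Let G be a finite group and M a maximal ideal of the algebraic integers containing 2. Let k be a natural number with g ^ k = g ^ 3 for every 2-element g and g ^ k = g for every element g of odd order (such k exist); an irreducible character χ is unchanged by g ↦ g ^ k exactly when it is fixed by the field automorphism that cubes the 2-power roots of unity and fixes the roots of unity of odd order. Then G has a normal 2-complement if and only if every member χ of the principal 2-block of odd degree with χ (g ^ k) = χ g for all g has degree one. -/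
theorem result {G : Type*} [Group G] [Finite G] (M : Ideal Cfsg.AlgInt) (hM : Cfsg.IsPModular 2 M) (k : ℕ) (hk₁ : ∀ g : G, (∃ j : ℕ, orderOf g = 2 ^ j) → g ^ k = g ^ 3) (hk₂ : ∀ g : G, Odd (orderOf g) → g ^ k = g) : Cfsg.HasNormalPComplement 2 G ↔ ∀ χ ∈ Cfsg.principalBlock M G, Odd (Cfsg.charDegree (χ : G → ℂ)) → (∀ g : G, (χ : G → ℂ) (g ^ k) = (χ : G → ℂ) g) → Cfsg.charDegree (χ : G → ℂ) = 1 := by
  classical
  have : Fact (Nat.Prime 2) := ⟨Nat.prime_two⟩
  have := Fintype.ofFinite G
  set N := Cfsg.pResidual 2 G with hNdef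
  obtain ⟨c, hc⟩ : ∃ c, N.index = 2 ^ c := H8.exists_index_pResidual_eq 2
  constructor
  · intro h χ hχ hodd _
    have h1 : N ≤ H11.charKer χ.1 := by
      rw [hNdef, H8.pResidual_le_iff]
      intro g hg
      rw [H11.mem_charKer_irr_iff χ.2]
      exact (H21.npc_iff_forall_reg hM).1 h χ hχ g
        ((Nat.Prime.coprime_iff_not_dvd Nat.prime_two).1 hg.symm)
    obtain ⟨ψ, hψ, h2⟩ := H11.exists_irr_lift χ.2 N h1
    obtain ⟨j, hj⟩ := H24.exists_deg_eq_pow_of_isPGroup (H8.isPGroup_quotient_pResidual 2) hψ
    have h3 : Cfsg.charDegree χ.1 = 2 ^ j := by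
      rw [← hj]; exact H24.deg_congr (h2 1).symm
    rcases j with _ | j
    · simpa using h3
    · rw [h3] at hodd
      exact absurd hodd (Nat.not_odd_iff_even.2 (Nat.even_pow.2 ⟨even_two, j.succ_ne_zero⟩))
  · intro h
    rw [H8.hasNormalPComplement_iff_not_dvd]
    intro hev
    have := Fintype.ofFinite N
    have := Fintype.ofFinite (Cfsg.IrrCharacter N)
    have hNN : Cfsg.pResidual 2 N = ⊤ := H8.pResidual_pResidual
    have hk₂' : ∀ g : G, (orderOf g).Coprime 2 → g ^ k = g := fun g h =>
      hk₂ g (Nat.coprime_two_right.1 h)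
    have hk := H19.coprime_of_parts Nat.prime_two (by norm_num) hk₁ hk₂'
    have hpow := H19.pow_pow_eq_of_parts Nat.prime_two (by norm_num [Nat.ModEq]) hk₁ hk₂'
    have hkN : k.Coprime (Nat.card N) := H19.coprime_subgroup hk N
    have hpowN : ∀ n : N, n ^ k ^ 2 ^ (Nat.card G).factorization 2 = n := fun n =>
      Subtype.ext (by rw [Subgroup.coe_pow]; exact hpow n)
    set B := Cfsg.principalBlock M N with hB
    have hB0 : Cfsg.principalBlock M G = H22.above N B :=
      H22.Covers.eq_above_of_index hM hc H19.isPBlock_principalBlock H19.isPBlock_principalBlock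
        (H22.covers_principal hM.2.1)
    have h0 : 2 ∣ ∑ θ ∈ Finset.univ.filter (· ∈ B), Cfsg.charDegree θ.1 ^ 2 := by
      apply Nat.dvd_of_factorization_pos
      rw [H21.factorization_sum_deg_sq hM H19.isPBlock_principalBlock]
      have : 0 < (Nat.card N).factorization 2 :=
        Nat.prime_two.factorization_pos_of_dvd Nat.card_pos.ne' hev
      omega
    have h1 : 2 ∣ ∑ θ ∈ (Finset.univ.filter (· ∈ B)).filter
        (fun θ : Cfsg.IrrCharacter N => ¬ H14.inertia N θ.1 = ⊤), Cfsg.charDegree θ.1 ^ 2 := by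
      apply H24.dvd_sum_of_classes (H24.conjSetoid N)
      · rintro θ φ ⟨g, hg⟩
        rw [← hg, H24.deg_congr (H14.conjChar_apply_one N θ.1 g)]
      · rintro θ hθ φ ⟨g, hg⟩
        simp only [Finset.mem_filter, Finset.mem_univ, true_and] at hθ ⊢
        refine ⟨?_, by rw [← hg, H24.inertia_conjChar_eq_top_iff]; exact hθ.2⟩
        have h2 : φ = H22.cjIrr N g⁻¹ θ := by
          apply Subtype.ext
          funext n
          rw [← hg, H22.cjIrr_inv_apply]
          rfl
        rw [h2]
        exact H22.cjIrr_mem_of_mem_stab N (H22.mem_stab_principal g⁻¹) hθ.1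
      · intro θ hθ
        simp only [Finset.mem_filter, Finset.mem_univ, true_and] at hθ
        rw [H24.card_conjSetoid]
        have h2 := Subgroup.index_dvd_of_le (H14.le_inertia N (H11.isClassFunction_of_irr θ.2))
        rw [hc] at h2
        obtain ⟨j, -, hj⟩ := (Nat.dvd_prime_pow Nat.prime_two).1 h2
        rcases j with _ | j
        · exact absurd (Subgroup.index_eq_one.1 (by simpa using hj)) hθ.2
        · rw [hj]; exact dvd_pow_self 2 (Nat.succ_ne_zero j)
    rw [← Finset.sum_filter_add_sum_filter_not _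
      (fun θ : Cfsg.IrrCharacter N => H14.inertia N θ.1 = ⊤)] at h0
    have h2 := (Nat.dvd_add_left h1).1 h0
    rw [← ZMod.natCast_eq_zero_iff, Finset.filter_filter, Finset.sum_filter, Nat.cast_sum] at h2
    have htwo : ∀ a : ZMod 2, 2 • a = 0 := two_smul_zmod
    rw [H19.sum_irr_eq_sum_fixed Nat.prime_two hkN hpowN _ ?_ (fun _ => htwo _),
      Finset.sum_filter] at h2
    swap
    · intro θ
      simp only [hB, H19.powIrr_mem_principalBlock_iff, H19.charDegree_powIrr, inertia_pow_iff]
    have hpos : 0 < Nat.card N := Nat.card_pos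
    have hl : (Nat.card N - 1).Coprime (Nat.card N) := by
      have : Nat.card N = (Nat.card N - 1) + 1 := by omega
      conv_rhs => rw [this]
      simp
    have hinv : ∀ n : N, n ^ (Nat.card N - 1) = n⁻¹ := fun n => by
      rw [eq_inv_iff_mul_eq_one, ← pow_succ, Nat.sub_add_cancel hpos, pow_card_eq_one']
    have hl2 : ∀ n : N, n ^ (Nat.card N - 1) ^ 2 ^ 1 = n := fun n => by
      rw [pow_one, sq, pow_mul, hinv, hinv, inv_inv]
    rw [H19.sum_irr_eq_sum_fixed Nat.prime_two hl hl2 _ ?_ (fun _ => htwo _),
      Finset.sum_eq_single (H19.oneIrr N)] at h2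
    · have h3 : H14.inertia N (H19.oneIrr N).1 = ⊤ := by
        rw [H14.inertia_eq_top_iff]; intro _ _; rfl
      have h4 : Cfsg.charDegree (H19.oneIrr N).1 = 1 := H24.deg_one
      have h5 : ∀ g : N, (H19.oneIrr N).1 (g ^ k) = (H19.oneIrr N).1 g := fun _ => rfl
      rw [if_pos h5, if_pos ⟨H19.oneIrr_mem_principalBlock hM.2.1, h3⟩, h4] at h2
      simp at h2
    · intro θ hθ hne
      simp only [Finset.mem_filter, Finset.mem_univ, true_and, hinv] at hθ
      split_ifs with h3 h4
      · rw [ZMod.natCast_eq_zero_iff]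
        by_contra h5
        have h6 : ¬ 2 ∣ Cfsg.charDegree θ.1 := fun h => h5 (h.pow two_ne_zero)
        have ho := H19.not_dvd_detOrder_of_pResidual Nat.prime_two hNN (H11.irr_isCharacter θ)
        obtain ⟨η, hη, hηθ, -, hηk⟩ := H19.exists_fixed_ext_of_coprime N θ.2
          ((H14.inertia_eq_top_iff N).1 h4.2) (H19.charDegree_cast_irr θ).symm (by
            rw [hc]
            refine Nat.Coprime.pow_left c
              ((Nat.Prime.coprime_iff_not_dvd Nat.prime_two).2 fun h => ?_)
            rcases (Nat.Prime.dvd_mul Nat.prime_two).1 h with h | h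
            · exact ho h
            · exact h6 h)
        have h7 : Cfsg.charDegree η = Cfsg.charDegree θ.1 := H24.deg_congr (hηθ 1)
        have h8 : Cfsg.charDegree η = 1 := by
          refine h ⟨η, hη⟩ ?_ ?_ (hηk k hk h3)
          · rw [hB0]; exact ⟨θ, h4.1, H22.over_of_res_eq hηθ⟩
          · change Odd (Cfsg.charDegree η)
            rw [h7, ← Nat.not_even_iff_odd, even_iff_two_dvd]; exact h6
        rw [h7] at h8
        obtain ⟨lam, hlam⟩ := H11.exists_monoidHom_of_apply_one_eq_one (H11.irr_isCharacter θ)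
          ((H24.deg_eq_one_iff (H11.irr_isCharacter θ)).1 h8)
        apply hne
        apply Subtype.ext
        rw [hlam]
        funext n
        have h9 : lam n ^ 2 = 1 := by
          have h10 := hθ n
          rw [hlam] at h10
          have h11 : lam n⁻¹ = lam n := Units.val_injective h10
          rw [sq]
          nth_rewrite 1 [← h11]
          rw [← map_mul, inv_mul_cancel, map_one]
        have h12 := H19.monoidHom_pow_eq_one_of_pResidual hNN lam
          (fun g hg => H19.pow_ordCompl_eq_one hg) n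
        have h13 : lam n = 1 := orderOf_eq_one_iff.1 (Nat.eq_one_of_dvd_coprimes
          ((Nat.Prime.coprime_iff_not_dvd Nat.prime_two).2
            (Nat.not_dvd_ordCompl Nat.prime_two hpos.ne'))
          (orderOf_dvd_of_pow_eq_one h9) (orderOf_dvd_of_pow_eq_one h12))
        change (lam n : ℂ) = 1
        rw [h13, Units.val_one]
      · simp
      · rfl
    · intro h3
      simp only [Finset.mem_filter, Finset.mem_univ, true_and] at h3
      exact absurd (fun _ => rfl) h3
    · intro θ
      simp only [hB, H19.powIrr_mem_principalBlock_iff, H19.charDegree_powIrr, inertia_pow_iff,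
        fixed_pow_iff]

end Cfsg.Agent.S4549
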