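import Cfsg.Statements.S4552
import Cfsg.Agent.H20.AFB6

set_option autoImplicit false
open Cfsg

namespace Cfsg.Agent.S4552

/-- Let B be a 2-block of the finite group G (relative to a maximal ideal M of the algebraic integers containing 2) whose defect group D is the direct product of two cyclic groups of the same order 2 ^ m, m ≥ 2. Then either B has 2-regular rank one and exactly 4 ^ m irreducible characters, or B has 2-regular rank three and exactly (4 ^ m + 8) / 3 irreducible characters. -/
theorem result {G : Type*} [Group G] [Finite G] (M : Ideal Cfsg.AlgInt) (hM : Cfsg.IsPModular 2 M) (B : Set (Cfsg.IrrCharacter G)) (hB : Cfsg.IsPBlock M B) (D : Subgroup G) (hD : Cfsg.IsDefectGroup 2 M B D) (m : ℕ) (hm : 2 ≤ m) (hiso : Nonempty (D ≃* Multiplicative (ZMod (2 ^ m) × ZMod (2 ^ m)))) : (Cfsg.blockRank 2 B = 1 ∧ Nat.card B = 4 ^ m) ∨ (Cfsg.blockRank 2 B = 3 ∧ 3 * Nat.card B = 4 ^ m + 8) := by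
  have := Fintype.ofFinite G
  obtain ⟨φ⟩ := hiso
  have := H19.charP_kk hM
  obtain ⟨e, he⟩ := H18.exists_isMaxPair_of_isDefect
    (H18.isPrim_gid hM.2.1 hB) (H18.isDefect_of_isDefectGroup hM hB hD)
  have h := H20.counts_of_three_invols ⟨hM, hB, he⟩ (H20.le_Cz_of_comm (H20.comm_of_equiv_comm φ))
    (H20.card_invols_of_equiv m (by omega) φ)
  have h1 : Nat.card D = 4 ^ m := by
    rw [Nat.card_congr φ.toEquiv]
    simp [← mul_pow]
  rw [h1] at h
  exact h.imp (·.2) (·.2)

end Cfsg.Agent.S4552
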