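import Cfsg.Statements.S4560
import Cfsg.Agent.H19.SymVanish

set_option autoImplicit false
open Cfsg

namespace Cfsg.Agent.S4560


/-- For n ≥ 7 the alternating group on n letters has an irreducible character that vanishes at some 2-element and is the restriction of an irreducible character of the symmetric group, and an irreducible character that vanishes at some element of order 3 and is the restriction of an irreducible character of the symmetric group. -/
theorem result (n : ℕ) (hn : 7 ≤ n) : (∃ χ : Cfsg.IrrCharacter (alternatingGroup (Fin n)), (∃ x : alternatingGroup (Fin n), (∃ j : ℕ, orderOf x = 2 ^ j) ∧ (χ : alternatingGroup (Fin n) → ℂ) x = 0) ∧ ∃ ψ : Cfsg.IrrCharacter (Equiv.Perm (Fin n)), ∀ x : alternatingGroup (Fin n), (ψ : Equiv.Perm (Fin n) → ℂ) x = (χ : alternatingGroup (Fin n) → ℂ) x) ∧ (∃ χ : Cfsg.IrrCharacter (alternatingGroup (Fin n)), (∃ y : alternatingGroup (Fin n), orderOf y = 3 ∧ (χ : alternatingGroup (Fin n) → ℂ) y = 0) ∧ ∃ ψ : Cfsg.IrrCharacter (Equiv.Perm (Fin n)), ∀ x : alternatingGroup (Fin n), (ψ : Equiv.Perm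 (Fin n) → ℂ) x = (χ : alternatingGroup (Fin n) → ℂ) x) := by
  have hc : Fintype.card (Fin n) = n := Fintype.card_fin n
  constructor
  · have key : ∀ ν μ : Multiset ℕ, (∀ r ∈ ν, r = 2 ∨ r = 4) → (∀ r ∈ μ, r = 1) →
        μ.sum + ν.sum = n → μ.sum < 3 → Even ((ν + μ).sum + (ν + μ).card) →
        ∃ χ : Cfsg.IrrCharacter (alternatingGroup (Fin n)), (∃ x : alternatingGroup (Fin n), (∃ j : ℕ, orderOf x = 2 ^ j) ∧ (χ : alternatingGroup (Fin n) → ℂ) x = 0) ∧ ∃ ψ : Cfsg.IrrCharacter (Equiv.Perm (Fin n)), ∀ x : alternatingGroup (Fin n), (ψ : Equiv.Perm (Fin n) → ℂ) x = (χ : alternatingGroup (Fin n) → ℂ) x := by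
      intro ν μ hν hμ hs hm he
      have hν' : ∀ r ∈ ν, 0 < r ∧ 2 ∣ r := fun r hr => by have := hν r hr; omega
      have : ∃ χ : IrrCharacter (alternatingGroup (Fin n)),
          (∃ x : alternatingGroup (Fin n), H19.typ (x : Equiv.Perm (Fin n)) = ν + μ ∧ χ.1 x = 0) ∧
          ∃ ψ : IrrCharacter (Equiv.Perm (Fin n)), ∀ x : alternatingGroup (Fin n),
            ψ.1 x = χ.1 x := by
        rcases Nat.even_or_odd' n with ⟨m, hm' | hm'⟩
        · exact H19.exists_alt_vanish (p := 2) (a := 3) (b := 2) (c := 1) (j := m - 3) two_pos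
            (by omega) (by omega) (by omega) (by omega)
            (fun k x hx h => by rw [H19.mem_threeS] at hx ⊢; omega) hν' hμ (by omega) (by omega)
            (by omega) he
        · exact H19.exists_alt_vanish (p := 2) (a := 2) (b := 1) (c := 0) (j := m - 1) two_pos
            (by omega) (by omega) (by omega) (by omega)
            (fun k x hx h => by rw [H19.mem_threeS] at hx ⊢; omega) hν' hμ (by omega) (by omega)
            (by omega) he
      obtain ⟨χ, ⟨x, hx, h0⟩, h⟩ := this
      refine ⟨χ, ⟨x, ?_, h0⟩, h⟩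
      have h1 : orderOf (x : Equiv.Perm (Fin n)) ∣ 2 ^ 2 := H19.orderOf_dvd_of_typ fun r hr => by
        rw [hx, Multiset.mem_add] at hr
        rcases hr with hr | hr
        · rcases hν r hr with rfl | rfl <;> norm_num
        · rw [hμ r hr]; norm_num
      rw [Subgroup.orderOf_coe] at h1
      obtain ⟨j, -, hj⟩ := (Nat.dvd_prime_pow Nat.prime_two).1 h1
      exact ⟨j, hj⟩
    obtain ⟨m, r, hr, rfl⟩ : ∃ m r, r < 4 ∧ n = 4 * m + r := ⟨n / 4, n % 4, by omega, by omega⟩
    by_cases h3 : r = 3
    · subst h3
      refine key (4 ::ₘ Multiset.replicate (2 * m - 1) 2) {1} ?_ (by simp) ?_ (by simp) ?_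
      · intro r hr
        rcases Multiset.mem_cons.1 hr with h | h
        · exact Or.inr h
        · exact Or.inl (Multiset.eq_of_mem_replicate h)
      · simp; omega
      · simp only [Multiset.sum_add, Multiset.sum_cons, Multiset.sum_replicate, smul_eq_mul,
          Multiset.sum_singleton, Multiset.card_add, Multiset.card_cons, Multiset.card_replicate,
          Multiset.card_singleton, Nat.even_iff]
        omega
    · refine key (Multiset.replicate (2 * m) 2) (Multiset.replicate r 1)
        (fun r hr => Or.inl (Multiset.eq_of_mem_replicate hr))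
        (fun r hr => Multiset.eq_of_mem_replicate hr) ?_ ?_ ?_
      · simp; omega
      · simp; omega
      · simp only [Multiset.sum_add, Multiset.sum_replicate, smul_eq_mul, Multiset.card_add,
          Multiset.card_replicate, Nat.even_iff]
        omega
  · obtain ⟨m, r, hr, hmr⟩ : ∃ m r, r < 3 ∧ n = 3 * m + r := ⟨n / 3, n % 3, by omega, by omega⟩
    have hν : ∀ x ∈ Multiset.replicate m 3, 0 < x ∧ 3 ∣ x := fun x hx => by
      rw [Multiset.eq_of_mem_replicate hx]; omega
    have hμ : ∀ x ∈ Multiset.replicate r 1, x = 1 := fun x hx => Multiset.eq_of_mem_replicate hx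
    have hs : (Multiset.replicate r 1).sum + (Multiset.replicate m 3).sum =
        Fintype.card (Fin n) := by simp; omega
    have hs' : (Multiset.replicate r 1).sum = r := by simp
    have he : Even ((Multiset.replicate m 3 + Multiset.replicate r 1).sum +
        (Multiset.replicate m 3 + Multiset.replicate r 1).card) := by
      simp only [Multiset.sum_add, Multiset.sum_replicate, smul_eq_mul, Multiset.card_add,
        Multiset.card_replicate, Nat.even_iff]
      omega
    have : ∃ χ : IrrCharacter (alternatingGroup (Fin n)),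
        (∃ x : alternatingGroup (Fin n), H19.typ (x : Equiv.Perm (Fin n)) =
          Multiset.replicate m 3 + Multiset.replicate r 1 ∧ χ.1 x = 0) ∧
        ∃ ψ : IrrCharacter (Equiv.Perm (Fin n)), ∀ x : alternatingGroup (Fin n),
          ψ.1 x = χ.1 x := by
      rcases (by omega : r = 0 ∨ r = 1 ∨ r = 2) with h | h | h
      · exact H19.exists_alt_vanish (p := 3) (a := 4) (b := 2) (c := 0) (j := m - 2) three_pos
          (by omega) (by omega) (by omega) (by omega)
          (fun k x hx h => by rw [H19.mem_threeS] at hx ⊢; omega) hν hμ (by omega) hs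
          (by omega) he
      · exact H19.exists_alt_vanish (p := 3) (a := 3) (b := 1) (c := 0) (j := m - 1) three_pos
          (by omega) (by omega) (by omega) (by omega)
          (fun k x hx h => by rw [H19.mem_threeS] at hx ⊢; omega) hν hμ (by omega) hs
          (by omega) he
      · exact H19.exists_alt_vanish (p := 3) (a := 3) (b := 1) (c := 1) (j := m - 1) three_pos
          (by omega) (by omega) (by omega) (by omega)
          (fun k x hx h => by rw [H19.mem_threeS] at hx ⊢; omega) hν hμ (by omega) hs
          (by omega) he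
    obtain ⟨χ, ⟨x, hx, h0⟩, h⟩ := this
    refine ⟨χ, ⟨x, ?_, h0⟩, h⟩
    rw [← Subgroup.orderOf_coe]
    refine Nat.dvd_antisymm (H19.orderOf_dvd_of_typ fun a ha => ?_)
      ((H19.dvd_orderOf_iff_typ Nat.prime_three _).2 ⟨3, ?_, dvd_rfl⟩)
    · rw [hx, Multiset.mem_add] at ha
      rcases ha with ha | ha <;> rw [Multiset.eq_of_mem_replicate ha]
      exact one_dvd _
    · rw [hx, Multiset.mem_add, Multiset.mem_replicate]
      exact Or.inl ⟨by omega, rfl⟩

end Cfsg.Agent.S4560
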