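import Cfsg.Statements.S4561
import Cfsg.Agent.H23.CentralType

set_option autoImplicit false
universe u
open Cfsg

namespace Cfsg.Agent.S4561

open Subgroup H23
open scoped ComplexConjugate

/-- For every finite solvable group G there is a finite group H with a faithful irreducible character χ whose degree squared equals the index of the centre Z(H) (so χ is fully ramified over the centre), such that G is isomorphic to a subgroup of H/Z(H), the primes dividing the orders of H, of Z(H) and of G are the same, and the order of Z(H) is squarefree. -/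
theorem result {G : Type u} [Group G] [Finite G] (hsolv : Group.IsSolvable G) : ∃ (H : Type u) (_ : Group H) (_ : Finite H) (χ : Cfsg.IrrCharacter H), (∀ h : H, (χ : H → ℂ) h = (χ : H → ℂ) 1 → h = 1) ∧ (Cfsg.charDegree (χ : H → ℂ)) ^ 2 = (Subgroup.center H).index ∧ (∃ f : G →* H ⧸ Subgroup.center H, Function.Injective f) ∧ (∀ p : ℕ, p.Prime → ((p ∣ Nat.card H ↔ p ∣ Nat.card G) ∧ (p ∣ Nat.card (Subgroup.center H) ↔ p ∣ Nat.card G))) ∧ Squarefree (Nat.card (Subgroup.center H)) := by
  classical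
  have hn : Squarefree (∏ p ∈ (Nat.card G).primeFactors, p) :=
    Finset.squarefree_prod_of_pairwise_isCoprime (fun a ha b hb hab => Nat.coprime_iff_isRelPrime.1
      ((Nat.coprime_primes (Nat.prime_of_mem_primeFactors ha)
        (Nat.prime_of_mem_primeFactors hb)).2 hab))
      fun p hp => (Nat.prime_of_mem_primeFactors hp).prime.squarefree
  obtain ⟨K, _, _, Z, _, X, h1, h2, h3, h4, ⟨f, hf⟩, h5, h6⟩ :=
    ct_of_isSolvable (∏ p ∈ (Nat.card G).primeFactors, p) G hsolv fun r hr hd =>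
      Finset.dvd_prod_of_mem _ (Nat.mem_primeFactors.2 ⟨hr, hd, Nat.card_pos.ne'⟩)
  generalize ∏ p ∈ (Nat.card G).primeFactors, p = n at hn h3
  haveI := Fintype.ofFinite K
  have hX1 : X 1 ≠ 0 := fun h0 => by
    rw [h0] at h4
    exact Z.index_ne_zero_of_finite (by exact_mod_cast h4.symm.trans (zero_pow two_ne_zero))
  have hnorm : ∀ z ∈ Z, ‖X z‖ = ‖X 1‖ := fun z hz =>
    (pow_left_inj₀ (norm_nonneg _) (norm_nonneg _) hn.ne_zero).1 (by
      rw [← norm_pow, h3 z hz, norm_pow])
  obtain ⟨d, hd⟩ := H11.exists_nat_degree h1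
  have hirr : IsIrrCharacter K X := H14.isIrr_of_inner_self_eq_one h1 (by
    rw [H11.classInner_def, inv_mul_eq_one₀ (H11.card_ne_zero K),
      ← Finset.sum_subset (Finset.filter_subset (· ∈ Z) _) (fun x _ hx => by
        rw [h2 x (by simpa using hx), zero_mul]),
      Finset.sum_congr (g := fun _ => (Z.index : ℂ)) rfl fun z hz => by
        rw [Complex.mul_conj', hnorm z (by simpa using hz), ← h4, hd]; simp,
      Finset.sum_const, nsmul_eq_mul, ← Z.card_mul_index, Nat.cast_mul,
      Nat.card_eq_fintype_card, Fintype.card_subtype])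
  haveI := H11.charKer_normal (H11.isClassFunction_of_irr hirr)
  obtain ⟨ψ, hψ, e⟩ := H11.exists_irr_lift hirr _ le_rfl
  have e1 : ψ 1 = X 1 := e 1
  have hfa : ∀ h, ψ h = ψ 1 → h = 1 := fun h hh => by
    obtain ⟨x, rfl⟩ := QuotientGroup.mk_surjective h
    rw [QuotientGroup.eq_one_iff, H11.mem_charKer_iff h1, ← e, hh, e1]
  have hc : ∀ x : K, (x : K ⧸ H11.charKer X) ∈ center _ ↔ x ∈ Z := fun x => by
    rw [← H11.charCenter_eq_center hψ (eq_bot_iff.2 fun h hh =>
      hfa h ((H11.mem_charKer_irr_iff hψ).1 hh)),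
      H11.mem_charCenter_iff (H11.isCharacter_of_irr hψ), e, e1]
    refine ⟨fun h => by_contra fun h0 => hX1 ?_, hnorm x⟩
    rwa [h2 x h0, norm_zero, eq_comm, norm_eq_zero] at h
  have hc' : (center _).comap (QuotientGroup.mk' (H11.charKer X)) = Z := Subgroup.ext hc
  obtain ⟨lam, hl, hl'⟩ := H11.exists_monoidHom_of_le_center hψ _ le_rfl
  have hpow : ∀ (z : center (K ⧸ H11.charKer X)) (m : ℕ), ψ z ^ m = ψ 1 ^ m → z ^ m = 1 := by
    intro z m h
    rw [hl', mul_pow, mul_eq_right₀ (pow_ne_zero _ (e1 ▸ hX1))] at h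
    refine Subtype.ext (hfa _ ?_)
    rw [hl', map_pow, Units.val_pow_eq_pow_val, h, one_mul]
  have h7 : ∀ r : ℕ, r.Prime → r ∣ Nat.card G → r ∣ Nat.card (center (K ⧸ H11.charKer X)) := by
    intro r hr hd
    obtain ⟨z, hz, a1, a2⟩ := h6 r hr hd
    haveI := Fact.mk hr
    have := orderOf_dvd_natCard (⟨z, (hc z).2 hz⟩ : center (K ⧸ H11.charKer X))
    rwa [orderOf_eq_prime (hpow _ r (by rw [e, e1, a2])) fun h0 => a1 (by
      rw [← e, ← e1]; exact congrArg (fun t => ψ t.1) h0)] at this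
  have h8 : ∀ r : ℕ, r.Prime → r ∣ Nat.card (K ⧸ H11.charKer X) → r ∣ Nat.card G :=
    fun r hr hd => h5 r hr (hd.trans (card_quotient_dvd_card _))
  refine ⟨K ⧸ H11.charKer X, inferInstance, inferInstance, ⟨ψ, hψ⟩, hfa, ?_,
    ⟨(QuotientGroup.map Z _ (QuotientGroup.mk' _) hc'.ge).comp f, ?_⟩,
    fun r hr => ⟨⟨h8 r hr, fun h => (h7 r hr h).trans (card_subgroup_dvd_card _)⟩,
      fun h => h8 r hr (h.trans (card_subgroup_dvd_card _)), h7 r hr⟩, ?_⟩
  · rw [← index_comap_of_surjective _ (QuotientGroup.mk'_surjective _), hc']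
    have := H24.irr_deg hψ
    rw [e1] at this
    exact_mod_cast (congrArg (· ^ 2) this).symm.trans h4
  · rw [MonoidHom.coe_comp]
    refine Function.Injective.comp ((injective_iff_map_eq_one _).2 fun x hx => ?_) hf
    obtain ⟨x, rfl⟩ := QuotientGroup.mk_surjective x
    rw [QuotientGroup.map_mk, QuotientGroup.eq_one_iff] at hx
    exact (QuotientGroup.eq_one_iff _).2 ((hc x).1 hx)
  · haveI := H11.isCyclic_center_of_faithful hψ (eq_bot_iff.2 fun h hh =>
      hfa h ((H11.mem_charKer_irr_iff hψ).1 hh))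
    refine hn.squarefree_of_dvd ?_
    rw [← IsCyclic.exponent_eq_card, Monoid.exponent_dvd_iff_forall_pow_eq_one]
    rintro ⟨z, hz⟩
    obtain ⟨x, rfl⟩ := QuotientGroup.mk_surjective z
    exact hpow _ n (by rw [e, e1, h3 x ((hc x).1 hz)])

end Cfsg.Agent.S4561
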