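import Cfsg.Statements.S4563
import Cfsg.Agent.H23.FullRam
import Cfsg.Agent.S0006

set_option autoImplicit false
open Cfsg

namespace Cfsg.Agent.S4563

open Subgroup H23

/-- Let χ be an irreducible character of the finite group H that is fully ramified over the normal subgroup Z: the restriction of χ to Z is e times an irreducible character of Z with e ^ 2 equal to the index of Z. If K is a proper normal subgroup of H containing Z and χ is induced from a character of K, then H/K is solvable; in particular, if K is solvable then so is H. -/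
theorem result {H : Type*} [Group H] [Fintype H] (Z : Subgroup H) [Z.Normal] (χ : Cfsg.IrrCharacter H) (hfr : ∃ (θ : Cfsg.IrrCharacter ↥Z) (e : ℕ), e ^ 2 = Z.index ∧ ∀ z : ↥Z, (χ : H → ℂ) z = (e : ℂ) * (θ : ↥Z → ℂ) z) (K : Subgroup H) [K.Normal] [Fintype K] (hZK : Z ≤ K) (hK : K ≠ ⊤) (φ : ↥K → ℂ) (hφ : Cfsg.IsCharacter ↥K φ) (hind : Cfsg.indFun K φ = (χ : H → ℂ)) : Group.IsSolvable (H ⧸ K) ∧ (Group.IsSolvable ↥K → Group.IsSolvable H) := by
  obtain ⟨θ, e, he, h⟩ := hfr
  obtain ⟨hθ, hm⟩ := fullram_setup he h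
  have hφi : IsIrrCharacter K φ := H14.isIrr_of_indFun K hφ (hind ▸ χ.2)
  have he0 : e ≠ 0 := by
    rintro rfl
    exact index_ne_zero_of_finite (H := Z) (by simpa using he.symm)
  have hχφ : mult le_top (topIrr χ) ⟨φ, hφi⟩ ≠ 0 := by
    rw [mult_ne_zero_iff, H11.classInner_ne_zero_comm]
    have := H14.classInner_indFun_left K φ (H11.isClassFunction_of_irr χ.2)
    rw [hind, H11.classInner_irr_self χ.2] at this
    exact this.symm.trans_ne one_ne_zero
  have under : ∀ {B : Subgroup H} (hZB : Z ≤ B) (ξ : IrrCharacter B),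
      mult le_top (topIrr χ) ξ ≠ 0 → mult hZB ξ θ ≠ 0 := fun hZB ξ h0 => by
    obtain ⟨θ', h1⟩ := exists_under hZB ξ
    rwa [eq_of_under_of_inv le_top le_normalizer' (hm.trans_ne he0)
      (mult_trans_ne_zero hZB le_top h0 h1) hθ] at h1
  have hdφ := deg_eq_mult_mul hZK le_normalizer' (under hZK _ hχφ) (hθ.mono le_top)
  set f := mult hZK ⟨φ, hφi⟩ θ with hf
  have hef : e = K.index * f := by
    have h1 := H24.deg_indFun K hφ
    rw [hind, ← deg_topIrr, deg_eq_mult_mul le_top le_normalizer' (hm.trans_ne he0) hθ, hm] at h1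
    apply Nat.eq_of_mul_eq_mul_right (H24.deg_pos θ.2)
    rw [h1, mul_assoc, ← hdφ]
  have hKf : K.index * f ^ 2 = Z.relIndex K := by
    apply Nat.eq_of_mul_eq_mul_right (Nat.pos_of_ne_zero (index_ne_zero_of_finite (H := K)))
    rw [relIndex_mul_index hZK, ← he, hef]; ring
  have hsolv : Group.IsSolvable (H ⧸ K) := by
    refine S0006.result fun p hp => ?_
    haveI := Fact.mk hp
    obtain ⟨P⟩ : Nonempty (Sylow p (H ⧸ K)) := inferInstance
    suffices ∃ M : Subgroup (H ⧸ K), M.IsComplement' (P : Subgroup (H ⧸ K)) by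
      obtain ⟨M, hM⟩ := this
      exact ⟨M, by rw [hM.symm.index_eq_card, P.card_eq_multiplicity]⟩
    obtain ⟨S, hZS, hS, hcop, hmap⟩ := exists_sylow_lift hZK P
    obtain ⟨η, hη⟩ := exists_over hZS θ
    obtain ⟨a, ha⟩ := exists_relIndex_eq_pow hp hZS le_normalizer' hS
    have h1 := fullram_sylow hZS le_top le_normalizer' hθ (χ := topIrr χ)
      (by rw [hm, he, relIndex_top_right]) hp ha (by rwa [relIndex_top_right]) hη
    have hu : ∀ η', mult hZS η' θ ≠ 0 → η' = η := fun η' h' =>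
      unique_of_mult_sq_eq hZS le_normalizer' (hθ.mono le_top) h1 h'
    have hZQ : Z ≤ S ⊓ K := le_inf hZS hZK
    obtain ⟨μ, h2, h3⟩ := exists_between hZQ inf_le_left hη
    rw [← hmap]
    refine exists_complement_of_mult_eq_one rfl hZQ inf_le_left hp hS hcop hθ hu h3 ?_
    have hSQ := le_normalizer_inf_of_normal S K
    have hu' : ∀ μ' : IrrCharacter ↥(S ⊓ K), mult hZQ μ' θ ≠ 0 → ∀ η',
        mult inf_le_left η' μ' ≠ 0 → η' = η :=
      fun μ' h η' h' => hu η' (mult_trans_ne_zero hZQ inf_le_left h' h)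
    have h4 := mult_sq_mul_relIndex inf_le_left hSQ (hu' μ h3)
    have hdμ := deg_eq_mult_mul hZQ le_normalizer' h3 (hθ.mono le_top)
    have hdη := deg_eq_mult_mul hZS le_normalizer' hη (hθ.mono le_top)
    have hdη' := deg_eq_clifford inf_le_left hSQ h2
    -- `c ∣ f`
    have h5 : charDegree μ.1 ∣ charDegree φ := by
      haveI := Fintype.ofFinite (IrrCharacter ↥(S ⊓ K))
      rw [show charDegree φ = _ from deg_eq_sum_mult (inf_le_right : S ⊓ K ≤ K) ⟨φ, hφi⟩]
      refine Finset.dvd_sum fun μ' _ => ?_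
      by_cases h0 : mult (inf_le_right : S ⊓ K ≤ K) ⟨φ, hφi⟩ μ' = 0
      · rw [h0, zero_mul]; exact dvd_zero _
      have h6 := under hZQ μ' (mult_trans_ne_zero inf_le_right le_top hχφ h0)
      obtain ⟨η', h7⟩ := exists_over (inf_le_left : S ⊓ K ≤ S) μ'
      obtain rfl := hu' _ h6 η' h7
      rw [deg_eq_of_under inf_le_left hSQ h2 h7]
      exact dvd_mul_left _ _
    rw [hdμ, show charDegree φ = _ from hdφ] at h5
    obtain ⟨t, ht⟩ := Nat.dvd_of_mul_dvd_mul_right (H24.deg_pos θ.2) h5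
    set c := mult hZQ μ θ with hc
    set x := mult (inf_le_left : S ⊓ K ≤ S) η μ with hx
    set i := (invStab (S ⊓ K) μ.1).relIndex S with hi
    have h6 : mult hZS η θ = x * i * c := by
      apply Nat.eq_of_mul_eq_mul_right (H24.deg_pos θ.2)
      rw [← hdη, hdη', hdμ]; ring
    have hx0 : 0 < x := Nat.pos_of_ne_zero h2
    have hi0 : 0 < i := relIndex_pos' _ _
    have hc0 : 0 < c := Nat.pos_of_ne_zero h3
    have h7 : Z.relIndex (S ⊓ K) = i * c ^ 2 := by
      apply Nat.eq_of_mul_eq_mul_right (show 0 < x ^ 2 * i by positivity)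
      rw [h4, relIndex_mul_relIndex Z _ S hZQ inf_le_left, ← h1, h6, ← h4]; ring
    have h8 : K.index = x ^ 2 * i * (S ⊔ K).index := by
      rw [h4, inf_comm, inf_relIndex_right, ← relIndex_sup_right, relIndex_mul_index le_sup_right]
    have h9 : (S ⊓ K).relIndex K = x ^ 2 * ((S ⊔ K).index * t ^ 2) := by
      apply Nat.eq_of_mul_eq_mul_left (show 0 < i * c ^ 2 by positivity)
      rw [← h7, relIndex_mul_relIndex Z _ K hZQ inf_le_right, ← hKf, h8, ht, h7]; ring
    have h10 : ¬ p ∣ x := fun hd => hcop <| (hd.trans (dvd_pow_self x two_ne_zero)).trans <|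
      (Dvd.intro _ h9.symm).trans (by
        rw [inf_relIndex_right]; exact relIndex_dvd_index_of_normal S K)
    have h11 : x ∣ p ^ a := by
      rw [← ha, ← relIndex_mul_relIndex Z _ S hZQ inf_le_left, ← h4]
      exact Dvd.intro (Z.relIndex (S ⊓ K) * x * i) (by ring)
    obtain ⟨j, -, hj⟩ := (Nat.dvd_prime_pow hp).1 h11
    rcases j with _ | j
    · simpa using hj
    · exact absurd (hj ▸ dvd_pow_self p j.succ_ne_zero) h10
  exact ⟨hsolv, fun hK' => Group.isSolvable_of_ker_le_range K.subtype (QuotientGroup.mk' K) (by simp)⟩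

end Cfsg.Agent.S4563
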