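import Cfsg.Statements.S4564
import Cfsg.Agent.H23.FullRam

set_option autoImplicit false
open Cfsg

namespace Cfsg.Agent.S4564

open Subgroup H23

/-- Let χ be an irreducible character of the finite group H that is fully ramified over the normal subgroup Z: the restriction of χ to Z is e times an irreducible character of Z with e ^ 2 equal to the index of Z. Let K be a normal subgroup of H containing Z and P a cyclic Sylow p-subgroup of H/K. Then P has a complement in H/K: a subgroup meeting P trivially whose product with P is the whole group. -/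
theorem result {H : Type*} [Group H] [Finite H] (Z : Subgroup H) [Z.Normal] (χ : Cfsg.IrrCharacter H) (hfr : ∃ (θ : Cfsg.IrrCharacter ↥Z) (e : ℕ), e ^ 2 = Z.index ∧ ∀ z : ↥Z, (χ : H → ℂ) z = (e : ℂ) * (θ : ↥Z → ℂ) z) (K : Subgroup H) [K.Normal] (hZK : Z ≤ K) (p : ℕ) [Fact p.Prime] (P : Sylow p (H ⧸ K)) (hcyc : IsCyclic P) : ∃ M : Subgroup (H ⧸ K), M.IsComplement' (P : Subgroup (H ⧸ K)) := by
  obtain ⟨θ, e, he, h⟩ := hfr
  have hp : p.Prime := Fact.out
  obtain ⟨hθ, hm⟩ := fullram_setup he h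
  obtain ⟨S, hZS, hS, hcop, hmap⟩ := exists_sylow_lift hZK P
  obtain ⟨η, hη⟩ := exists_over hZS θ
  obtain ⟨a, ha⟩ := exists_relIndex_eq_pow hp hZS le_normalizer' hS
  have h1 := fullram_sylow hZS le_top le_normalizer' hθ (χ := topIrr χ)
    (by rw [hm, he, relIndex_top_right]) hp ha (by rwa [relIndex_top_right]) hη
  have hu : ∀ η', mult hZS η' θ ≠ 0 → η' = η := fun η' h' =>
    unique_of_mult_sq_eq hZS le_normalizer' (hθ.mono le_top) h1 h'
  have hZQ : Z ≤ S ⊓ K := le_inf hZS hZK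
  obtain ⟨μ, h2, h3⟩ := exists_between hZQ inf_le_left hη
  rw [← hmap]
  refine exists_complement_of_mult_eq_one rfl hZQ inf_le_left hp hS hcop hθ hu h3 ?_
  have hQI : S ⊓ K ≤ invStab (S ⊓ K) μ.1 ⊓ S :=
    le_inf (le_invStab (H11.isClassFunction_of_irr μ.2)) inf_le_left
  have hJ : (invStab (S ⊓ K) μ.1 ⊓ S).map (QuotientGroup.mk' K) ≤ P :=
    hmap ▸ map_mono inf_le_right
  obtain ⟨⟨_, s, hs, rfl⟩, hg⟩ := (isCyclic_of_le hJ).exists_generator
  have h4 : Extends μ.1 (invStab (S ⊓ K) μ.1 ⊓ S) := by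
    refine extends_of_generator hQI (inf_le_left.trans (invStab_le _ _)) hs (fun x hx => ?_) hs.1.2
    obtain ⟨n, hn⟩ := mem_zpowers_iff.1 (hg ⟨_, x, hx, rfl⟩)
    refine ⟨n, mem_inf.2 ⟨mul_mem (mem_inf.1 hx).2 (inv_mem (zpow_mem (mem_inf.1 hs).2 n)), ?_⟩⟩
    have h5 : ((s ^ n : H) : H ⧸ K) = x := congrArg Subtype.val hn
    rw [← QuotientGroup.eq_one_iff, QuotientGroup.mk_mul, QuotientGroup.mk_inv, h5, mul_inv_cancel]
  obtain ⟨ψ, hψ⟩ := (extends_iff hQI).1 h4
  have h5 := mult_eq_one_of_res_eq hQI hψ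
  obtain ⟨η', h6⟩ := exists_over (inf_le_right : invStab (S ⊓ K) μ.1 ⊓ S ≤ S) ψ
  have h7 := (clifford_aux hQI inf_le_right (le_normalizer_inf_of_normal S K) le_rfl
    (h5.trans_ne one_ne_zero) h6).2.1
  rw [h5] at h7
  obtain rfl := hu η' (mult_trans_ne_zero hZQ inf_le_left (h7.trans_ne one_ne_zero) h3)
  exact h7

end Cfsg.Agent.S4564
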