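import Cfsg.Statements.S4566
import Cfsg.Agent.S0943

set_option autoImplicit false
open Cfsg

namespace Cfsg.Agent.S4566

open scoped ComplexConjugate

/-- A central element multiplies an irreducible character by a scalar. -/
theorem exists_central_scalar {G : Type*} [Group G] (χ : IrrCharacter G) (z : G)
    (hz : ∀ g, g * z = z * g) : ∃ c : ℂ, ∀ g, (χ : G → ℂ) (g * z) = c * (χ : G → ℂ) g := by
  obtain ⟨χ, n, ρ, hρ, rfl⟩ := χ
  obtain ⟨c, hc⟩ := S0943.schur_scalar ρ hρ (ρ z) (fun g => by rw [← map_mul, ← map_mul, hz])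
  refine ⟨c, fun g => ?_⟩
  show ρ.character (g * z) = c * ρ.character g
  simp [Representation.character, hc]

theorem isClassFunction_irr {G : Type*} [Group G] (χ : IrrCharacter G) (g h : G) :
    (χ : G → ℂ) (h * g * h⁻¹) = (χ : G → ℂ) g := by
  obtain ⟨χ, n, ρ, hρ, rfl⟩ := χ
  exact ρ.char_conj g h

/-- Let N be a central subgroup of the finite group G, ψ a faithful irreducible (hence degree-one) character of N, and χ an irreducible character of G whose restriction to N contains ψ. If g ∈ G and some x ∈ G has commutator x⁻¹ g⁻¹ x g in N but different from 1, then χ g = 0. -/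
theorem result {G : Type*} [Group G] [Fintype G] (N : Subgroup G) [Fintype N] (hN : N ≤ Subgroup.center G) (ψ : Cfsg.IrrCharacter ↥N) (hfaith : ∀ n : ↥N, (ψ : ↥N → ℂ) n = (ψ : ↥N → ℂ) 1 → n = 1) (χ : Cfsg.IrrCharacter G) (hover : Cfsg.classInner (fun n : ↥N => (χ : G → ℂ) n) (ψ : ↥N → ℂ) ≠ 0) (g x : G) (hcomm : x⁻¹ * g⁻¹ * x * g ∈ N) (hne : x⁻¹ * g⁻¹ * x * g ≠ 1) : (χ : G → ℂ) g = 0 := by
  set z : G := x⁻¹ * g⁻¹ * x * g with hz
  have hzc : ∀ y : G, y * z = z * y := fun y => Subgroup.mem_center_iff.1 (hN hcomm) y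
  obtain ⟨c, hc⟩ := exists_central_scalar χ z hzc
  obtain ⟨d, hd⟩ := exists_central_scalar ψ ⟨z, hcomm⟩ (fun y => Subtype.ext (hzc y))
  by_contra h0
  have hg : (χ : G → ℂ) g = c * (χ : G → ℂ) g := by
    have h1 : g = x⁻¹ * g * x⁻¹⁻¹ * z := by
      calc g = x⁻¹ * (x * g) := by group
        _ = x⁻¹ * (g * x * z) := by rw [hz]; group
        _ = x⁻¹ * g * x⁻¹⁻¹ * z := by group
    conv_lhs => rw [h1, hc, isClassFunction_irr]
  have hc1 : c = 1 := by
    have : (c - 1) * (χ : G → ℂ) g = 0 := by rw [sub_mul, ← hg]; ring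
    exact sub_eq_zero.1 ((mul_eq_zero.1 this).resolve_right h0)
  have hd1 : d ≠ 1 := by
    intro h
    have := hd 1
    rw [h, one_mul, one_mul] at this
    exact hne (congrArg Subtype.val (hfaith _ this))
  apply hover
  unfold classInner
  have hs : ∑ m : N, (χ : G → ℂ) m * conj ((ψ : N → ℂ) m) =
      conj d * ∑ m : N, (χ : G → ℂ) m * conj ((ψ : N → ℂ) m) := by
    rw [Finset.mul_sum]
    symm
    refine Fintype.sum_equiv (Equiv.mulRight (⟨z, hcomm⟩ : N)) _ _ fun m => ?_
    simp only [Equiv.coe_mulRight, Subgroup.coe_mul, hc, hd, hc1, map_mul]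
    ring
  have hd1' : conj d ≠ 1 := by
    intro h
    apply hd1
    have := congrArg conj h
    simpa using this
  have : (1 - conj d) * ∑ m : N, (χ : G → ℂ) m * conj ((ψ : N → ℂ) m) = 0 := by
    rw [sub_mul, ← hs]; ring
  rw [(mul_eq_zero.1 this).resolve_left (sub_ne_zero.2 hd1'.symm), mul_zero]

end Cfsg.Agent.S4566
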