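import Cfsg.Statements.S4567
import Cfsg.Agent.H23.Good

set_option autoImplicit false
open Cfsg

namespace Cfsg.Agent.S4567

open Subgroup H23

/-- Let N be a central subgroup of the finite group G and ψ a faithful irreducible (hence degree-one) character of N. Call a coset g N special when every x ∈ G whose commutator x⁻¹ g⁻¹ x g lies in N actually commutes with g (this depends only on the coset). Then the number of irreducible characters of G whose restriction to N contains ψ equals the number of conjugacy classes of G/N consisting of special cosets. -/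
theorem result {G : Type*} [Group G] [Fintype G] (N : Subgroup G) [N.Normal] [Fintype N] (hN : N ≤ Subgroup.center G) (ψ : Cfsg.IrrCharacter ↥N) (hfaith : ∀ n : ↥N, (ψ : ↥N → ℂ) n = (ψ : ↥N → ℂ) 1 → n = 1) : Nat.card {χ : Cfsg.IrrCharacter G // Cfsg.classInner (fun n : ↥N => (χ : G → ℂ) n) (ψ : ↥N → ℂ) ≠ 0} = Nat.card {C : ConjClasses (G ⧸ N) // ∃ g : G, ConjClasses.mk (g : G ⧸ N) = C ∧ ∀ x : G, x⁻¹ * g⁻¹ * x * g ∈ N → x * g = g * x} := by
  have hc : ∀ n ∈ N, ∀ g : G, g * n = n * g := fun n hn g => mem_center_iff.1 (hN hn) g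
  have hθ : InvBy N ⊤ ψ.1 := fun s _ => invEl_of_centralizes _ fun g hg => by
    rw [hc g hg, mul_inv_cancel_right]
  have hψ1 : ψ.1 1 = 1 := H11.irr_apply_one_of_comm (fun a b => Subtype.ext (hc _ b.2 a)) ψ.2
  have h1 := card_over_eq_card_good le_top le_normalizer' hθ
    ((QuotientGroup.mk' N).comp (⊤ : Subgroup G).subtype)
    (fun q => by obtain ⟨g, rfl⟩ := QuotientGroup.mk_surjective q; exact ⟨⟨g, trivial⟩, rfl⟩)
    (fun g => QuotientGroup.eq_one_iff _)
  have key : ∀ g : G, Good N ⊤ ψ.1 g ↔ ∀ x : G, x⁻¹ * g⁻¹ * x * g ∈ N → x * g = g * x := by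
    intro g
    constructor
    · intro hg x hx
      have h2 : g * x * g⁻¹ * x⁻¹ ∈ N := by
        have := ‹N.Normal›.conj_mem _ (inv_mem hx) (x * g)
        convert this using 1; group
      obtain ⟨A, hNA, hgA, hxA, χ, hχ⟩ := hg x trivial h2
      obtain ⟨lam, hl⟩ := H11.exists_monoidHom_of_apply_one_eq_one (H11.irr_isCharacter χ)
        ((hχ 1 1 rfl).trans hψ1)
      have h3 := hfaith ⟨_, h2⟩ (by
        rw [← hχ (⟨g, hgA⟩ * ⟨x, hxA⟩ * ⟨g, hgA⟩⁻¹ * ⟨x, hxA⟩⁻¹) _ rfl, hψ1, hl]
        simp only [map_mul, map_inv, mul_inv_cancel_comm, mul_inv_cancel, Units.val_one])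
      have h4 : g * x * g⁻¹ * x⁻¹ = 1 := congrArg Subtype.val h3
      calc x * g = g * x * g⁻¹ * x⁻¹ * (x * g) := by rw [h4, one_mul]
        _ = g * x := by group
    · intro hg t _ ht
      have h2 : t * g = g * t := hg t (by
        have := ‹N.Normal›.conj_mem _ (inv_mem ht) (g * t)⁻¹
        convert this using 1; group)
      obtain ⟨φ, hφ⟩ := (extends_iff le_sup_left).1
        (extends_sup_zpowers (le_normalizer' (mem_top g)) (hθ g trivial))
      have h3 : ∀ a ∈ N ⊔ zpowers g, t * a * t⁻¹ = a := fun a ha => by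
        have : N ⊔ zpowers g ≤ centralizer {t} := sup_le
          (fun n hn => mem_centralizer_singleton_iff.2 (hc n hn t).symm)
          (zpowers_le_of_mem (mem_centralizer_singleton_iff.2 h2.symm))
        rw [← mem_centralizer_singleton_iff.1 (this ha), mul_inv_cancel_right]
      exact ⟨(N ⊔ zpowers g) ⊔ zpowers t, le_sup_left.trans le_sup_left,
        mem_sup_left (mem_sup_zpowers N g), mem_sup_zpowers _ t, Extends.trans le_sup_left hφ
        (extends_sup_zpowers (mem_normalizer_of_conj_mem fun a ha => (h3 a ha).symm ▸ ha)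
          (invEl_of_centralizes _ h3))⟩
  refine Eq.trans (Nat.card_congr (topIrr.subtypeEquiv fun χ => ?_)) (h1.trans
    (Nat.card_congr (Equiv.subtypeEquivRight fun c => ?_)))
  · rw [mult_topIrr, Nat.cast_ne_zero]
  · exact ⟨fun ⟨x, e, hx⟩ => ⟨x, e, (key _).1 hx⟩, fun ⟨x, e, hx⟩ => ⟨⟨x, trivial⟩, e, (key _).2 hx⟩⟩

end Cfsg.Agent.S4567
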