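import Cfsg.Statements.S4574
import Cfsg.Agent.H23.Zeros
import Cfsg.Agent.H19.GaloisBlock

set_option autoImplicit false
open Cfsg

namespace Cfsg.Agent.S4574

/-- Let χ be an irreducible character of the finite group G, of degree d, and let Z(χ) be the set of elements g with |χ g| = d (the centre of χ). Then χ vanishes on at least (d ^ 2 - 1) · |Z(χ)| elements of G, with equality when every value |χ g| is 0, 1 or d. -/
theorem result {G : Type*} [Group G] [Fintype G] [DecidableEq G] (χ : G → ℂ) (hχ : Cfsg.IsIrrCharacter G χ) : (Cfsg.charDegree χ ^ 2 - 1) * (Finset.univ.filter (fun g : G => ‖χ g‖ = (Cfsg.charDegree χ : ℝ))).card ≤ (Finset.univ.filter (fun g : G => χ g = 0)).card ∧ ((∀ g : G, ‖χ g‖ = 0 ∨ ‖χ g‖ = 1 ∨ ‖χ g‖ = (Cfsg.charDegree χ : ℝ)) → (Cfsg.charDegree χ ^ 2 - 1) * (Finset.univ.filter (fun g : G => ‖χ g‖ = (Cfsg.charDegree χ : ℝ))).card = (Finset.univ.filter (fun g : G => χ g = 0)).card) := by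
  classical
  obtain ⟨d, hd0, hd⟩ := H11.exists_pos_degree hχ
  have hdeg : charDegree χ = d := H19.charDegree_eq_of_eq hd
  rw [hdeg]
  have hc := H11.isCharacter_of_irr hχ
  have hZ : ∀ g, g ∈ H11.charCenter χ ↔ ‖χ g‖ = (d : ℝ) := fun g => by
    rw [H11.mem_charCenter_iff hc, hd, Complex.norm_natCast]
  have hd1 : 1 ≤ d ^ 2 := Nat.one_le_pow _ _ hd0
  have hdR : (0 : ℝ) < d := by exact_mod_cast hd0
  have hsumZ : ∑ g ∈ Finset.univ.filter (fun g => ‖χ g‖ = (d : ℝ)), ‖χ g‖ ^ 2 =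
      ((Finset.univ.filter (fun g => ‖χ g‖ = (d : ℝ))).card : ℝ) * (d : ℝ) ^ 2 := by
    rw [Finset.sum_congr rfl (g := fun _ => (d : ℝ) ^ 2)
      (fun g hg => by rw [(Finset.mem_filter.1 hg).2]), Finset.sum_const, nsmul_eq_mul]
  have hz : (Finset.univ.filter fun g => ¬ ‖χ g‖ = (d : ℝ) ∧ χ g = 0) =
      Finset.univ.filter fun g => χ g = 0 := by
    ext g
    simp only [Finset.mem_filter, Finset.mem_univ, true_and, and_iff_right_iff_imp]
    intro h0 h1
    rw [h0, norm_zero] at h1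
    exact hdR.ne h1
  constructor
  · have h1 := H23.sum_mem_norm_sq_le hχ (H11.charCenter χ)
    simp only [hZ] at h1
    rw [hsumZ, hz] at h1
    have : (((d ^ 2 - 1) * (Finset.univ.filter (fun g : G => ‖χ g‖ = (d : ℝ))).card : ℕ) : ℝ) ≤
        ((Finset.univ.filter (fun g : G => χ g = 0)).card : ℝ) := by
      push_cast [Nat.cast_sub hd1]
      linarith
    exact_mod_cast this
  · intro hval
    have h2 := H11.sum_norm_sq_eq_card hχ
    rw [← Finset.sum_filter_add_sum_filter_not Finset.univ (fun g => ‖χ g‖ = (d : ℝ)), hsumZ,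
      ← Finset.sum_filter_add_sum_filter_not (Finset.univ.filter fun g => ¬ ‖χ g‖ = (d : ℝ))
        (fun g => χ g = 0)] at h2
    simp only [Finset.filter_filter] at h2
    have h5 : ∑ g ∈ Finset.univ.filter (fun g => ¬ ‖χ g‖ = (d : ℝ) ∧ χ g = 0), ‖χ g‖ ^ 2 = 0 :=
      Finset.sum_eq_zero fun g hg => by simp [(Finset.mem_filter.1 hg).2.2]
    have h6 : ∑ g ∈ Finset.univ.filter (fun g => ¬ ‖χ g‖ = (d : ℝ) ∧ ¬ χ g = 0), ‖χ g‖ ^ 2 =
        ((Finset.univ.filter (fun g => ¬ ‖χ g‖ = (d : ℝ) ∧ ¬ χ g = 0)).card : ℝ) := by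
      rw [Finset.sum_congr rfl (g := fun _ => (1 : ℝ)) (fun g hg => by
        obtain ⟨h7, h8⟩ := (Finset.mem_filter.1 hg).2
        rcases hval g with h | h | h
        · exact absurd (norm_eq_zero.1 h) h8
        · rw [h, one_pow]
        · exact absurd h h7)]
      simp
    have h3 := Finset.card_filter_add_card_filter_not (s := (Finset.univ : Finset G))
      (fun g => ‖χ g‖ = (d : ℝ))
    have h4 := Finset.card_filter_add_card_filter_not
      (s := Finset.univ.filter fun g : G => ¬ ‖χ g‖ = (d : ℝ)) (fun g => χ g = 0)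
    simp only [Finset.filter_filter] at h4
    rw [hz] at h4
    rw [Finset.card_univ, ← Nat.card_eq_fintype_card, ← h4] at h3
    rw [h5, h6, ← h3] at h2
    have : (((d ^ 2 - 1) * (Finset.univ.filter (fun g : G => ‖χ g‖ = (d : ℝ))).card : ℕ) : ℝ) =
        ((Finset.univ.filter (fun g : G => χ g = 0)).card : ℝ) := by
      push_cast [Nat.cast_sub hd1] at h2 ⊢
      linarith
    exact_mod_cast this

end Cfsg.Agent.S4574
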