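import Cfsg.Statements.S4575
import Cfsg.Agent.H20.ContribBound
import Cfsg.Agent.H17.Numeric
import Cfsg.Agent.H21.Feit

set_option autoImplicit false
open Cfsg

namespace Cfsg.Agent.S4575

open Cfsg.Agent.H20 Cfsg.Agent.H17
open Cfsg.Agent.H19 hiding block_nonempty isPBlock_principalBlock block_eq_of_mem irr_mem_Vr
  centralChar_mem_Vr isPBlock_blockOf mem_blockOf_self

universe u

theorem main {G : Type u} [Group G] [Fintype G] {M : Ideal AlgInt}
    {H : Subgroup G} [Fintype H] {b : Set (IrrCharacter H)} {B : Set (IrrCharacter G)} {z : H}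
    (hM : IsPModular 2 M) (hB : IsPBlock M B) (hind : IsInducedBlock M H b B)
    (hd : blockDefect 2 b = blockDefect 2 B) (hH : H = Cg (z : G))
    (hzp : ∃ k : ℕ, orderOf z = 2 ^ k) (hl : Nat.card B ≤ blockRank 2 b + 3) :
    Nat.card B ≤ 2 ^ blockDefect 2 B := by
  classical
  have := Fintype.ofFinite (IrrCharacter G)
  by_cases hd0 : blockDefect 2 B = 0
  · rw [H21.card_eq_one_of_defect_zero hM hB hd0, hd0]; rfl
  have : NeZero (orderOf z) := ⟨(orderOf_pos z).ne'⟩
  have hz := central_of_eq_Cg hH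
  obtain ⟨e, he⟩ := id hzp
  set N := orderOf z with hN
  have hzN : z ^ N = 1 := pow_orderOf_eq_one z
  set d := blockDefect 2 B with hdd
  set S := Finset.univ.filter (· ∈ B) with hS
  let m : IrrCharacter G → IrrCharacter G → (ZMod N)ˣ → ℂ := fun ψ χ k =>
    ctr 2 b (z ^ (k : ZMod N).val) (z ^ (k : ZMod N).val) (resf H ψ.1) (resf H χ.1)
  have hφ := totient_pos' N
  have hmF : ∀ ψ χ, GalFam N (m ψ χ) := fun ψ χ =>
    galFam_ctr hM b hz hz (isGen_resf H ψ) (isGen_resf H χ) hzN hzN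
  have hmI : ∀ ψ χ k, IsIntegral ℤ (m ψ χ k) := fun ψ χ k =>
    isIntegral_ctr hM b (central_pow hz _) (central_pow hz _) (isGen_resf H ψ) (isGen_resf H χ)
  have hmv : ∀ ψ ∈ B, ∀ χ ∈ B, ∀ k, val M (m ψ χ k) = val M ((2 : ℕ) : ℂ) ^ blockHeight 2 B ψ.1 ↔
      blockHeight 2 B χ.1 = 0 := fun ψ hψ χ hχ k =>
    (major_val_eq_iff hM hind hd (central_pow hz _) (central_pow hz _) (isPElt_pow hzp _)
      (isPElt_pow hzp _) (isGen_resf H χ) hψ).trans (major_H0_resf_iff hM hind hd hχ)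
  have hmle : ∀ ψ ∈ B, ∀ χ k, val M (m ψ χ k) ≤ val M ((2 : ℕ) : ℂ) ^ blockHeight 2 B ψ.1 :=
    fun ψ hψ χ k => major_val_le hM hind.1 hd (central_pow hz _) (central_pow hz _)
      (isGen_resf H χ) hψ
  have hm0 : ∀ ψ ∈ B, ∀ χ ∈ B, blockHeight 2 B χ.1 = 0 → ∀ k, m ψ χ k ≠ 0 := by
    intro ψ hψ χ hχ h0 k h
    have := (hmv ψ hψ χ hχ k).2 h0
    rw [h, map_zero] at this
    exact (pow_pos (val_p_pos hM) _).ne this
  have hre : ∀ χ k, (((m χ χ k).re : ℝ) : ℂ) = m χ χ k := fun χ k => ctr_self_re _ _ _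
  have hA : ∀ χ ∈ B, ∀ k, ∑ ψ ∈ S.erase χ, Complex.normSq (m ψ χ k) +
      (2 ^ d - (m χ χ k).re) ^ 2 = 2 ^ d * (2 ^ d - (m χ χ k).re) := by
    intro χ hχ k
    have h1 : ∑ ψ ∈ S, Complex.normSq (m ψ χ k) = ((2 : ℕ) : ℝ) ^ blockDefect 2 b * (m χ χ k).re :=
      sum_normSq_ctr hM hind (eq_Cg_pow hH (ZMod.val_coe_unit_coprime k)) (isPElt_pow hzp _) _ _
    rw [← Finset.add_sum_erase _ _ (a := χ) (by simpa [hS] using hχ), hd, ← hre χ k,
      Complex.normSq_ofReal, Complex.ofReal_re] at h1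
    push_cast at h1
    linear_combination h1
  let T : IrrCharacter G → ℝ := fun χ => ∑ k : (ZMod N)ˣ, (2 ^ d - (m χ χ k).re)
  have hT : ∀ χ, T χ = Nat.totient N * 2 ^ d - trc 2 b N z (resf H χ.1) := fun χ => by
    simp only [T, trc, Finset.sum_sub_distrib, Finset.sum_const, Finset.card_univ,
      ZMod.card_units_eq_totient, nsmul_eq_mul, m]
  have hq : (0 : ℝ) < 2 ^ d := by positivity
  have hvq : ∀ j, j < d → val M ((2 : ℂ) ^ d) < val M ((2 : ℕ) : ℂ) ^ j := fun j hj => by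
    rw [map_pow]
    exact_mod_cast (val_p_pow_lt_iff hM).2 hj
  have hFq : ∀ χ, GalFam N fun k => (2 : ℂ) ^ d - m χ χ k := fun χ => by
    have := (GalFam.natCast (N := N) (2 ^ d)).add ((GalFam.intCast (-1)).mul (hmF χ χ))
    simpa [sub_eq_add_neg] using this
  have hIq : ∀ χ k, IsIntegral ℤ ((2 : ℂ) ^ d - m χ χ k) := fun χ k =>
    IsIntegral.sub (by exact_mod_cast isIntegral_algebraMap (R := ℤ) (A := ℂ) (x := 2 ^ d))
      (hmI χ χ k)
  rw [H21.natCard_eq_card_filter, ← hS] at hl ⊢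
  by_cases h : ∃ χ ∈ B, blockHeight 2 B χ.1 = 0 ∧ T χ = Nat.totient N
  · obtain ⟨χ, hχ, h0, h1⟩ := h
    have h2 : ∑ k : (ZMod N)ˣ, (∑ ψ ∈ S.erase χ, Complex.normSq (m ψ χ k) +
        (2 ^ d - (m χ χ k).re) ^ 2) = (2 : ℝ) ^ d * Nat.totient N := by
      rw [Finset.sum_congr rfl fun k _ => hA χ hχ k, ← Finset.mul_sum, ← h1]
    rw [Finset.sum_add_distrib, Finset.sum_comm] at h2
    have h3 : ∑ ψ ∈ S.erase χ, (Nat.totient N : ℝ) ≤
        ∑ ψ ∈ S.erase χ, ∑ k, Complex.normSq (m ψ χ k) :=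
      Finset.sum_le_sum fun ψ hψ => (hmF ψ χ).le_sum_normSq' (hmI ψ χ)
        (hm0 ψ (by simpa [hS] using (Finset.mem_erase.1 hψ).2) χ hχ h0 1)
    have h4 : (Nat.totient N : ℝ) ≤ ∑ k, (2 ^ d - (m χ χ k).re) ^ 2 := by
      have := (hFq χ).le_sum_normSq' (hIq χ) (fun h => by
        have h5 := (hmv χ hχ χ hχ 1).2 h0
        rw [← sub_eq_zero.1 h, h0] at h5
        exact (hvq 0 (Nat.pos_of_ne_zero hd0)).ne h5)
      refine this.trans (le_of_eq (Finset.sum_congr rfl fun k _ => ?_))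
      rw [← hre χ k, Complex.ofReal_re]
      norm_cast
      rw [Complex.normSq_ofReal, sq]
    rw [Finset.sum_const, Finset.card_erase_of_mem (by simpa [hS] using hχ), nsmul_eq_mul,
      Nat.cast_sub (Finset.card_pos.2 ⟨χ, by simpa [hS] using hχ⟩)] at h3
    have h5 : (S.card : ℝ) ≤ 2 ^ d := le_of_mul_le_mul_right (by push_cast at h3; linarith) hφ
    exact_mod_cast h5
  · obtain ⟨χ₀, hχ₀, h00⟩ := H21.exists_height_zero (p := 2) (H21.block_nonempty hM.2.1 hB)
    have hnn : ∀ χ ∈ B, ∀ k, 0 ≤ 2 ^ d - (m χ χ k).re := fun χ hχ k =>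
      nonneg_of_mul_nonneg_right ((hA χ hχ k) ▸ add_nonneg
        (Finset.sum_nonneg fun _ _ => Complex.normSq_nonneg _) (sq_nonneg _)) hq |> fun h => h
    have h1 : ∑ ψ ∈ S, (Nat.totient N : ℝ) * 3 ≤ ∑ ψ ∈ S, T ψ := by
      refine Finset.sum_le_sum fun ψ hψ => ?_
      have hψ : ψ ∈ B := by simpa [hS] using hψ
      by_cases h0 : blockHeight 2 B ψ.1 = 0
      · obtain ⟨t, ht, ht'⟩ := exists_odd_trc hM hind.1 hz he hzN
          (isGen_resf H ψ) (H0_resf hM hind hψ h0)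
        have h2 : 0 ≤ T ψ := Finset.sum_nonneg fun k _ => hnn ψ hψ k
        have h3 : T ψ ≠ Nat.totient N := fun h' => h ⟨ψ, hψ, h0, h'⟩
        rw [hT, ht', ← mul_sub] at h2 h3 ⊢
        have h4 : (t : ℝ) ≤ 2 ^ d := sub_nonneg.1 (nonneg_of_mul_nonneg_right h2 hφ |> fun h => h)
        have h5 : t ≤ 2 ^ d := by exact_mod_cast h4
        have h6 : t + 1 ≠ 2 ^ d := fun h' => h3 (by
          rw [show (2 : ℝ) ^ d = t + 1 by exact_mod_cast h'.symm]; ring)
        have h7 : t + 3 ≤ 2 ^ d := by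
          obtain ⟨s, rfl⟩ := ht
          obtain ⟨j, hj⟩ := Nat.exists_eq_succ_of_ne_zero hd0
          rw [hj, pow_succ] at h5 h6 ⊢
          omega
        have h8 : (t : ℝ) + 3 ≤ 2 ^ d := by exact_mod_cast h7
        exact mul_le_mul_of_nonneg_left (by linarith) hφ.le
      · have hd2 := H21.height_add_two_le_defect hM hB hψ h0
        have e1 : ∀ k, (((2 ^ d - (m ψ ψ k).re) / 2 : ℝ) : ℂ) =
            ((2 : ℂ) ^ d - m ψ ψ k) / ((2 : ℕ) : ℂ) ^ 1 := fun k => by
          push_cast; rw [hre, pow_one]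
        have hv : ∀ k, val M ((2 : ℂ) ^ d - m ψ ψ k) < val M ((2 : ℕ) : ℂ) ^ 1 := fun k =>
          Valuation.map_sub_lt _ (hvq 1 (by omega)) ((lt_of_le_of_ne (hmle ψ hψ ψ k)
            fun h' => h0 ((hmv ψ hψ ψ hψ k).1 h')).trans_le ((val_p_pow_le_iff hM).2 (by omega)))
        have h2 := GalFam.two_mul_le_sum (M := M) he (r := fun k => (2 ^ d - (m ψ ψ k).re) / 2)
          (by simp only [e1]; exact (hFq ψ).div_pow 2 1)
          (fun k => by rw [e1]; exact (hFq ψ).isIntegral_div_pow hM (hIq ψ) (fun k => (hv k).le) k)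
          (fun k => by
            refine div_pos ((mul_pos_iff_of_pos_left hq).1 ((hA ψ hψ k) ▸ add_pos_of_pos_of_nonneg
              (Finset.sum_pos' (fun _ _ => Complex.normSq_nonneg _) ⟨χ₀, ?_, ?_⟩)
              (sq_nonneg _))) two_pos
            · exact Finset.mem_erase.2 ⟨fun h' => h0 (h' ▸ h00), by simpa [hS] using hχ₀⟩
            · refine Complex.normSq_pos.2 fun h' => hm0 ψ hψ χ₀ hχ₀ h00 k ?_
              rw [show m ψ χ₀ k = (starRingEnd ℂ) (m χ₀ ψ k) from (conj_ctr _ _ _ _ _).symm, h',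
                map_zero])
          (by rw [e1, map_div₀, map_pow, div_lt_one₀ (pow_pos (val_p_pos hM) 1)]; exact hv 1)
        rw [← Finset.sum_div, le_div_iff₀ two_pos] at h2
        change _ ≤ T ψ at h2
        linarith
    simp only [hT] at h1
    rw [Finset.sum_sub_distrib, sum_trc hM hind hH hzp rfl, hd, Finset.sum_const, Finset.sum_const,
      nsmul_eq_mul, nsmul_eq_mul] at h1
    have h2 : (S.card : ℝ) ≤ blockRank 2 b + 3 := by exact_mod_cast hl
    have h3 : (S.card : ℝ) * 3 ≤ 2 ^ d * 3 := by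
      refine le_of_mul_le_mul_left ?_ hφ
      push_cast at h1
      nlinarith [mul_le_mul_of_nonneg_left h2 (mul_pos hφ hq).le]
    have h5 : (S.card : ℝ) ≤ 2 ^ d := by linarith
    exact_mod_cast h5

/-- Let B be a 2-block of the finite group G (relative to a maximal ideal M of the algebraic integers containing 2) of defect d with defect group D. Let z be an element of D commuting with every element of D, and let b be a block of the centralizer of z with defect group D that induces B (a major subsection (z, b)). If the number of irreducible characters in B exceeds the 2-regular rank of b by at most three, then B contains at most 2 ^ d irreducible characters. -/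
theorem result {G : Type*} [Group G] [Finite G] (M : Ideal Cfsg.AlgInt) (hM : Cfsg.IsPModular 2 M) (B : Set (Cfsg.IrrCharacter G)) (hB : Cfsg.IsPBlock M B) (D : Subgroup G) (hD : Cfsg.IsDefectGroup 2 M B D) (z : G) (hzD : z ∈ D) (hzc : ∀ d ∈ D, d * z = z * d) (b : Set (Cfsg.IrrCharacter ↥(Subgroup.centralizer ({z} : Set G)))) (hb : Cfsg.IsInducedBlock M (Subgroup.centralizer ({z} : Set G)) b B) (hbD : Cfsg.IsDefectGroup 2 M b (D.subgroupOf (Subgroup.centralizer ({z} : Set G)))) (h : Nat.card B ≤ Cfsg.blockRank 2 b + 3) : Nat.card B ≤ 2 ^ Cfsg.blockDefect 2 B := by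
  have := Fintype.ofFinite G
  have := Fintype.ofFinite (H17.Cg z)
  have hd : blockDefect 2 b = blockDefect 2 B := by
    have h1 := H17.dg_card hM hB hD
    have h2 := H17.dg_card hM hb.1 hbD
    rw [Nat.card_congr (Subgroup.subgroupOfEquivOfLe fun d hd =>
      Subgroup.mem_centralizer_singleton_iff.2 (hzc d hd)).toEquiv, h1] at h2
    exact (Nat.pow_right_injective hM.1.two_le h2).symm
  have hzp : ∃ k : ℕ, orderOf (⟨z, H17.self_mem_Cg z⟩ : H17.Cg z) = 2 ^ k := by
    simpa only [← Subgroup.orderOf_coe] using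
      H20.isPElt_of_mem (IsPGroup.of_card (H17.dg_card hM hB hD)) hzD
  exact main hM hB hb hd rfl hzp h

end Cfsg.Agent.S4575
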