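import Cfsg.Statements.S4580
import Cfsg.Agent.H19.RealBlock
import Cfsg.Agent.H14.Gallagher

set_option autoImplicit false
open Cfsg

namespace Cfsg.Agent.S4580


/-- Let N be a normal subgroup of the finite group G, M a maximal ideal of the algebraic integers containing 2, and θ a real-valued irreducible character of N of odd degree that extends to G (some irreducible character of G restricts to θ). Then θ has an extension to G lying in the principal 2-block of G. -/
theorem result {G : Type*} [Group G] [Finite G] (N : Subgroup G) [N.Normal] (M : Ideal Cfsg.AlgInt) (hM : Cfsg.IsPModular 2 M) (θ : Cfsg.IrrCharacter N) (hreal : ∀ n : N, ((θ : N → ℂ) n).im = 0) (hodd : Odd (Cfsg.charDegree (θ : N → ℂ))) (hext : ∃ η : Cfsg.IrrCharacter G, ∀ n : N, (η : G → ℂ) n = (θ : N → ℂ) n) :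
    ∃ η : Cfsg.IrrCharacter G, (∀ n : N, (η : G → ℂ) n = (θ : N → ℂ) n) ∧ η ∈ Cfsg.principalBlock M G := by
  letI := Fintype.ofFinite G
  obtain ⟨η, hη⟩ := hext
  have hθN : (fun n : N => η.1 n) = θ.1 := funext hη
  have hc : ∀ n : N, (H19.galIrr H19.conjEquiv η).1 n = η.1 n := fun n => by
    rw [H19.galIrr_conjEquiv_apply, ← Subgroup.coe_inv, hη, hη]
    exact (H19.real_iff_inv (H11.irr_isCharacter θ)).1 hreal n
  obtain ⟨μ, hμN, hμ⟩ := H14.exists_linear_of_ext_of_ext N η.2 (hθN ▸ θ.2)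
    (H19.galIrr H19.conjEquiv η).2 hc
  set m := Nat.card G / 2 ^ (Nat.card G).factorization 2 with hm
  have hmodd : Odd m := by
    rw [← Nat.not_even_iff_odd, even_iff_two_dvd]
    exact Nat.not_dvd_ordCompl Nat.prime_two Nat.card_pos.ne'
  obtain ⟨j, hj⟩ := hmodd
  set ν : G →* ℂˣ := μ ^ (j + 1) with hν
  have hirr : Cfsg.IsIrrCharacter G (η.1 * fun g => (ν g : ℂ)) :=
    H11.isIrrCharacter_mul_linear η.2 (H11.isCharacter_monoidHom ν) (by simp)
  have hres : ∀ n : N, (η.1 * fun g => (ν g : ℂ)) n = θ.1 n := fun n => by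
    have : μ n = 1 := hμN n.2
    simp [hν, this, hη]
  refine ⟨⟨_, hirr⟩, hres, H19.mem_principalBlock_two_of_inv hM _ ?_ fun x hx => ?_⟩
  · have h1 := hres 1
    rw [OneMemClass.coe_one] at h1
    have : Cfsg.charDegree (η.1 * fun g => (ν g : ℂ)) = Cfsg.charDegree θ.1 := by
      unfold Cfsg.charDegree; rw [h1]
    rw [this]
    exact hodd.not_two_dvd_nat
  · have h1 := congrFun hμ x
    rw [H19.galIrr_conjEquiv_apply] at h1
    have hxm : x ^ m = 1 := by
      rw [← orderOf_dvd_iff_pow_eq_one]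
      have h2 : orderOf x ∣ 2 ^ (Nat.card G).factorization 2 * m := by
        rw [hm, Nat.ordProj_mul_ordCompl_eq_self]; exact orderOf_dvd_natCard x
      exact (((Nat.Prime.coprime_iff_not_dvd Nat.prime_two).2 hx).pow_left _).symm.dvd_of_dvd_mul_left h2
    have h3 : μ x * ν x⁻¹ = ν x := by
      have h4 : μ x ^ (2 * j + 1) = 1 := by rw [← hj, ← map_pow, hxm, map_one]
      rw [map_inv, mul_inv_eq_iff_eq_mul, hν, MonoidHom.pow_apply, ← pow_add,
        show j + 1 + (j + 1) = 2 * j + 1 + 1 by ring, pow_succ, h4, one_mul]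
    simp only [Pi.mul_apply] at h1 ⊢
    rw [h1, ← h3]
    push_cast
    ring

end Cfsg.Agent.S4580
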