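import Cfsg.Statements.S4581
import Cfsg.Agent.H19.RealOdd
import Cfsg.Agent.H3.Frattini

set_option autoImplicit false
open Cfsg

namespace Cfsg.Agent.S4581


/-- Let G be a finite solvable group, P a Sylow 2-subgroup and N its normalizer. Then G and N have the same number of real-valued irreducible characters of odd degree; and every odd-degree irreducible character of G is real-valued exactly when the derived subgroup of P equals the Frattini subgroup of P and P is its own normalizer in G. -/
theorem result {G : Type*} [Group G] [Finite G] [Group.IsSolvable G] (P : Sylow 2 G) :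
    Nat.card {χ : Cfsg.IrrCharacter G // (∀ g : G, ((χ : G → ℂ) g).im = 0) ∧ Odd (Cfsg.charDegree (χ : G → ℂ))} =
      Nat.card {ψ : Cfsg.IrrCharacter (Subgroup.normalizer ((P : Subgroup G) : Set G)) // (∀ g, ((ψ : Subgroup.normalizer ((P : Subgroup G) : Set G) → ℂ) g).im = 0) ∧ Odd (Cfsg.charDegree (ψ : Subgroup.normalizer ((P : Subgroup G) : Set G) → ℂ))} ∧
    ((∀ χ : Cfsg.IrrCharacter G, Odd (Cfsg.charDegree (χ : G → ℂ)) → ∀ g : G, ((χ : G → ℂ) g).im = 0) ↔
      (commutator (P : Subgroup G) = frattini (P : Subgroup G) ∧ Subgroup.normalizer ((P : Subgroup G) : Set G) = (P : Subgroup G))) := by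
  haveI : Fact (Nat.Prime 2) := ⟨Nat.prime_two⟩
  have hP := H67.syl_top P
  refine ⟨?_, ?_⟩
  · rw [H19.card_goodF_top, H19.card_goodF_true, H19.card_goodF_eq True hP (fun h => (h trivial).elim),
      top_inf_eq]
  · have h1 := H19.all_real_iff hP
    rw [top_inf_eq] at h1
    have h2 : (∀ x ∈ (P : Subgroup G), x ^ 2 ∈ ⁅(P : Subgroup G), (P : Subgroup G)⁆) ↔
        commutator (P : Subgroup G) = frattini (P : Subgroup G) := by
      constructor
      · intro h
        refine le_antisymm (H3.commutator_le_frattini P.isPGroup')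
          ((H3.frattini_le_iff P.isPGroup').2 ⟨le_rfl, fun x => ?_⟩)
        rw [← H67.commutator_subgroupOf_self, Subgroup.mem_subgroupOf]
        exact h x x.2
      · intro h x hx
        have := H3.pow_mem_frattini P.isPGroup' ⟨x, hx⟩
        rw [← h, ← H67.commutator_subgroupOf_self, Subgroup.mem_subgroupOf] at this
        exact this
    rw [← h2, ← h1]
    constructor
    · intro h χ hχ ho
      exact (H19.real_iff_conjFun _).1 (h ⟨χ, H70.isIrr_top.1 hχ⟩ ((H19.oddDeg_iff _).2 ho))
    · intro h χ ho
      exact (H19.real_iff_conjFun _).2 (h χ.1 (H70.isIrr_top.2 χ.2) ((H19.oddDeg_iff _).1 ho))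

end Cfsg.Agent.S4581
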