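import Cfsg.Statements.S4582
import Cfsg.Agent.H24.TwoDeg

set_option autoImplicit false
open Cfsg

namespace Cfsg.Agent.S4582

open Cfsg.Agent.H24

theorem core {G A : Type*} [Group G] [Finite G] [CommGroup A] (N P : Subgroup G) [hN : N.Normal]
    (hsup : P ⊔ N = ⊤) (ϕ : P →* A) (hQ : ∀ q : P, (q : G) ∈ N → ϕ q ^ 2 = 1) (x : P) :
    MonoidHom.transfer ϕ (x : G) ^ 2 = (ϕ x ^ 2) ^ P.index := by
  classical
  have := Fintype.ofFinite (Quotient (MulAction.orbitRel (Subgroup.zpowers (x : G)) (G ⧸ P)))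
  rw [MonoidHom.transfer_eq_prod_quotient_orbitRel_zpowers_quot, ← Finset.prod_pow,
    Subgroup.index_eq_sum_minimalPeriod P (x : G), ← Finset.prod_pow_eq_pow_sum]
  refine Finset.prod_congr rfl fun q _ => ?_
  have key : ∀ (t : G) (k : ℕ) (h : t⁻¹ * (x : G) ^ k * t ∈ P),
      ϕ ⟨t⁻¹ * (x : G) ^ k * t, h⟩ ^ 2 = (ϕ x ^ 2) ^ k := by
    intro t k h
    have ht : t ∈ ((P ⊔ N : Subgroup G) : Set G) := by rw [hsup]; trivial
    rw [Subgroup.mul_normal] at ht
    obtain ⟨y, hy, n, hn, rfl⟩ := ht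
    have h1 := hQ ((⟨y, hy⟩⁻¹ * x ^ k * ⟨y, hy⟩)⁻¹ * ⟨_, h⟩) (by
      have h1 := N.mul_mem (hN.conj_mem _ (N.inv_mem hn) (y⁻¹ * (x : G) ^ k * y)⁻¹) hn
      convert h1 using 1
      simp only [Subgroup.coe_mul, InvMemClass.coe_inv, SubmonoidClass.coe_pow]
      group)
    rw [map_mul, map_inv, mul_pow, inv_pow, inv_mul_eq_one, map_mul, map_mul, map_inv,
      mul_comm (ϕ _)⁻¹, inv_mul_cancel_right, map_pow] at h1
    rw [← h1, ← pow_mul, ← pow_mul, mul_comm]
  exact key _ _ _

theorem eq_one {A : Type*} [Group A] (hA : IsPGroup 2 A) {a : A} {m : ℕ} (hm : Odd m)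
    (h : a ^ m = 1) : a = 1 := by
  obtain ⟨k, hk⟩ := hA a
  rw [← orderOf_eq_one_iff]
  exact Nat.eq_one_of_dvd_coprimes ((Nat.coprime_two_right.2 hm).pow_right k)
    (orderOf_dvd_of_pow_eq_one h) (orderOf_dvd_of_pow_eq_one hk)

/-- Let N be a normal subgroup of the finite group G, P a Sylow 2-subgroup of G and Q = P ∩ N. Suppose that P/QP' and Q/Q' are elementary abelian (every square of an element of P lies in the subgroup generated by Q and the derived subgroup of P, and every square of an element of Q lies in the derived subgroup of Q), and that the commutator factor group N/N' has odd order. Then P/P' is elementary abelian. -/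
theorem result {G : Type*} [Group G] [Finite G] (N : Subgroup G) [N.Normal] (P : Sylow 2 G)
    (hP : ∀ x ∈ (P : Subgroup G), x ^ 2 ∈ ((P : Subgroup G) ⊓ N) ⊔ ⁅(P : Subgroup G), (P : Subgroup G)⁆)
    (hQ : ∀ x ∈ (P : Subgroup G) ⊓ N, x ^ 2 ∈ ⁅(P : Subgroup G) ⊓ N, (P : Subgroup G) ⊓ N⁆)
    (hodd : Odd (Nat.card (Abelianization N))) :
    ∀ x ∈ (P : Subgroup G), x ^ 2 ∈ ⁅(P : Subgroup G), (P : Subgroup G)⁆ := by
  intro x hx
  set H := (P : Subgroup G) ⊔ N with hH
  have hPH : (P : Subgroup G) ≤ H := le_sup_left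
  have hNH : N ≤ H := le_sup_right
  let ϕ : (P : Subgroup G).subgroupOf H →* Abelianization (P : Subgroup G) :=
    Abelianization.of.comp (Subgroup.subgroupOfEquivOfLe hPH).toMonoidHom
  have hA : IsPGroup 2 (Abelianization (P : Subgroup G)) :=
    P.isPGroup'.of_surjective Abelianization.of (QuotientGroup.mk'_surjective _)
  have hker : ∀ y : (P : Subgroup G), Abelianization.of y = 1 ↔
      (y : G) ∈ ⁅(P : Subgroup G), (P : Subgroup G)⁆ := by
    intro y
    rw [← MonoidHom.mem_ker, Abelianization.ker_of, ← map_subtype_commutator,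
      ← Subgroup.mem_map_iff_mem (P : Subgroup G).subtype_injective]
    rfl
  have h1 := core (N.subgroupOf H) ((P : Subgroup G).subgroupOf H)
    (by rw [← Subgroup.subgroupOf_sup hPH hNH, Subgroup.subgroupOf_self]) ϕ
    (fun q hq => by
      rw [← map_pow]
      exact (hker _).2 (Subgroup.commutator_mono inf_le_left inf_le_left (hQ _ ⟨q.2, hq⟩)))
    ⟨⟨x, hPH hx⟩, hx⟩
  set V := MonoidHom.transfer ϕ with hV
  have h2 : N ≤ V.ker.map H.subtype := by
    intro n hn
    refine ⟨⟨n, hNH hn⟩, eq_one hA hodd ?_, rfl⟩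
    have h2 := congrArg (Abelianization.lift (V.comp (Subgroup.inclusion hNH)))
      (pow_card_eq_one' (x := Abelianization.of (⟨n, hn⟩ : N)))
    rwa [map_pow, map_one, Abelianization.lift_apply_of] at h2
  have h3 : ⁅(P : Subgroup G), (P : Subgroup G)⁆ ≤ V.ker.map H.subtype := by
    refine (Subgroup.commutator_mono hPH hPH).trans ?_
    rw [← map_subtype_commutator]
    exact Subgroup.map_mono (Abelianization.commutator_subset_ker V)
  obtain ⟨y, hy, hy'⟩ := sup_le (inf_le_right.trans h2) h3 (hP x hx)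
  have h4 : y = ⟨x, hPH hx⟩ ^ 2 := Subtype.ext hy'
  rw [h4, SetLike.mem_coe, MonoidHom.mem_ker, map_pow] at hy
  have h5 : Odd ((P : Subgroup G).subgroupOf H).index := by
    rw [← Nat.not_even_iff_odd, even_iff_two_dvd]
    exact (P.subtype hPH).not_dvd_index
  have h6 := eq_one hA h5 (h1.symm.trans hy)
  rw [← map_pow] at h6
  exact (hker _).1 h6

end Cfsg.Agent.S4582
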