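import Cfsg.Statements.S4583
import Cfsg.Agent.H21.Feit
import Cfsg.Agent.H21.Induced
import Cfsg.Agent.H14.Clifford

set_option autoImplicit false
open Cfsg

namespace Cfsg.Agent.S4583

open Cfsg Cfsg.Agent.H21 Cfsg.Agent.H19

/-- Let N be a normal subgroup of the finite group G, p a prime, M a maximal ideal of the algebraic integers containing p, and P a Sylow p-subgroup of G. Let θ be an irreducible character of N of degree prime to p lying in the principal p-block of N, and suppose θ extends to the subgroup NP (some irreducible character of NP restricts to θ). Then some irreducible character χ of G of degree prime to p in the principal p-block of G lies over θ (θ is a constituent of the restriction of χ to N). -/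
theorem result {G : Type*} [Group G] [Finite G] (N : Subgroup G) [N.Normal] (p : ℕ) [Fact p.Prime] (M : Ideal Cfsg.AlgInt) (hM : Cfsg.IsPModular p M) (P : Sylow p G)
    (θ : Cfsg.IrrCharacter N) (hθ : θ ∈ Cfsg.principalBlock M N) (hdeg : ¬ p ∣ Cfsg.charDegree (θ : N → ℂ))
    (hext : ∃ η : Cfsg.IrrCharacter ↥(N ⊔ (P : Subgroup G)), ∀ n : N, (η : ↥(N ⊔ (P : Subgroup G)) → ℂ) (Subgroup.inclusion le_sup_left n) = (θ : N → ℂ) n) :
    ∃ χ : Cfsg.IrrCharacter G, χ ∈ Cfsg.principalBlock M G ∧ ¬ p ∣ Cfsg.charDegree (χ : G → ℂ) ∧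
      haveI := Fintype.ofFinite N; Cfsg.classInner (fun n : N => (χ : G → ℂ) n) (θ : N → ℂ) ≠ 0 := by
  classical
  revert hext
  generalize_proofs hNH
  generalize hH : N ⊔ (P : Subgroup G) = H at hNH
  rintro ⟨η, hη⟩
  replace hH := hH.symm
  have hPH : (P : Subgroup G) ≤ H := hH ▸ le_sup_right
  have := Fintype.ofFinite G
  have := Fintype.ofFinite H
  have := Fintype.ofFinite (IrrCharacter G)
  letI := Fintype.ofFinite N
  have hp := hM.1
  have hreg : ∀ h : H, ¬ p ∣ orderOf h → (h : G) ∈ N := by
    rintro ⟨h, hh⟩ ho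
    have hh' := hh
    rw [hH, ← SetLike.mem_coe, Subgroup.normal_mul] at hh'
    obtain ⟨n, hn, x, hx, rfl⟩ := hh'
    obtain ⟨k, hk⟩ := P.isPGroup' ⟨x, hx⟩
    have hk' : x ^ p ^ k = 1 := congrArg Subtype.val hk
    have h1 : orderOf (QuotientGroup.mk' N (n * x)) ∣ p ^ k := by
      refine orderOf_dvd_of_pow_eq_one ?_
      rw [map_mul, QuotientGroup.mk'_apply, (QuotientGroup.eq_one_iff n).2 hn, one_mul, ← map_pow,
        hk', map_one]
    have h2 : orderOf (QuotientGroup.mk' N (n * x)) ∣ orderOf (n * x) := orderOf_map_dvd _ _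
    rw [← Subgroup.orderOf_coe] at ho
    have h3 : (orderOf (n * x)).Coprime (p ^ k) :=
      (((Nat.Prime.coprime_iff_not_dvd hp).2 ho).symm).pow_right _
    have h4 := Nat.eq_one_of_dvd_coprimes h3 h2 h1
    rw [orderOf_eq_one_iff] at h4
    exact (QuotientGroup.eq_one_iff _).1 h4
  have hη0 : η ∈ principalBlock M H := by
    rw [mem_principal_iff_regSum hM] at hθ ⊢
    rw [← regSum_comp_of_bij (fun n : N => Subgroup.inclusion hNH n)
      (fun x hx => by rwa [orderOf_injective _ (Subgroup.inclusion_injective _)])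
      (fun x y _ _ h => Subgroup.inclusion_injective _ h)
      (fun g hg => ⟨⟨g, hreg g hg⟩, by rwa [← Subgroup.orderOf_coe, Subgroup.orderOf_coe g], rfl⟩)]
    simpa only [hη] using hθ
  have hηd : ¬ p ∣ charDegree η.1 := by
    have : η.1 1 = θ.1 1 := by rw [← hη 1, map_one]
    rwa [charDegree, this]
  have h1 := (val_ti_one_eq_one_iff hM η).2 ⟨hη0, hηd⟩
  have h2 : ti p (indFun H η.1) (fun _ => 1) = ti p η.1 (fun _ => 1) := by
    have h3 : (Nat.card G).factorization p = (Nat.card H).factorization p := by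
      rw [factorization_card_eq H, Nat.factorization_eq_zero_of_not_dvd, zero_add]
      exact fun h => P.not_dvd_index (h.trans (Subgroup.index_dvd_of_le hPH))
    rw [ti_def, ti_def, h3, classInner_preg_comm, classInner_preg_comm,
      H14.classInner_indFun_left H _ (preg_isClassFunction (H11.isClassFunction_const 1)),
      preg_res]
  obtain ⟨m, hm, hsum⟩ := H11.exists_eq_sum_nat (H14.IsCharacter.indFun H (H11.irr_isCharacter η))
  rw [← h2, hsum, ti_sum] at h1
  by_contra hcon
  push Not at hcon
  refine (val_sum_lt_one fun χ _ => ?_).ne h1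
  by_cases h3 : m χ = 0
  · simp [h3]
  refine val_mul_lt_one_right (natCast_mem_Vr _) (lt_of_le_of_ne ?_ fun h4 => ?_)
  · have h4 := val_ti_irr_le_right hM χ (triv G)
    rwa [triv_coe, map_one] at h4
  · obtain ⟨h5, h6⟩ := (val_ti_one_eq_one_iff hM χ).1 h4
    have h7 : classInner (fun h : H => χ.1 h) η.1 ≠ 0 := by
      rw [H11.classInner_ne_zero_comm,
        ← H14.classInner_indFun_left H _ (H11.isClassFunction_of_irr χ.2), hm]
      exact_mod_cast h3
    have h8 := H11.isCharacter_sub_irr (H11.isCharacter_restrict (H11.irr_isCharacter χ) H) η.2 h7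
    have h9 := H11.isCharacter_comp h8 (Subgroup.inclusion hNH)
    have h10 := H11.classInner_add_ne_zero (H11.irr_isCharacter θ) h9 (H11.irr_isCharacter θ)
      (by rw [H11.classInner_irr_self θ.2]; exact one_ne_zero)
    refine h10 ?_
    rw [← hcon χ h5 h6]
    congr 1
    funext n
    simp [hη]

end Cfsg.Agent.S4583
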