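import Cfsg.Statements.S4585
import Cfsg.Agent.H24.SmallCenterIndex

set_option autoImplicit false
open Cfsg

namespace Cfsg.Agent.S4585

/-- Let p be a prime and P a group of order p^4. Then P' has index p^2 in P if and only if P has maximal nilpotency class, that is, nilpotency class exactly 3. -/
theorem result {P : Type*} [Group P] [Finite P] (p : ℕ) [Fact p.Prime] (hP : Nat.card P = p ^ 4) :
    (commutator P).index = p ^ 2 ↔ Group.nilpotencyClass P = 3 := by
  have hp : p.Prime := Fact.out
  have hPp : IsPGroup p P := IsPGroup.of_card hP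
  have hnil : Group.IsNilpotent P := hPp.isNilpotent
  have hmul := Subgroup.card_mul_index (commutator P)
  rw [hP] at hmul
  constructor
  · intro h
    rw [h] at hmul
    have hc : Nat.card (commutator P) = p ^ 2 := by
      apply Nat.eq_of_mul_eq_mul_right (pow_pos hp.pos 2)
      rw [hmul]; ring
    have hp2 : p < p ^ 2 := by
      calc p = p ^ 1 := (pow_one p).symm
        _ < p ^ 2 := Nat.pow_lt_pow_right hp.one_lt (by norm_num)
    apply le_antisymm
    · rw [← Subgroup.lowerCentralSeries_eq_bot_iff_nilpotencyClass_le]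
      by_contra h3
      have h2 : (⊤ : Subgroup P).lowerCentralSeries 2 ≠ ⊥ := fun h2 => h3 (le_bot_iff.mp
        (h2 ▸ Subgroup.lowerCentralSeries_antitone _ (by norm_num)))
      have h1 : (⊤ : Subgroup P).lowerCentralSeries 1 ≠ ⊥ := fun h1 => h3 (le_bot_iff.mp
        (h1 ▸ Subgroup.lowerCentralSeries_antitone _ (by norm_num)))
      have a1 := H24.mul_card_le_of_lt hp hPp (H24.lowerCentralSeries_succ_lt 1 h1)
      have a2 := H24.mul_card_le_of_lt hp hPp (H24.lowerCentralSeries_succ_lt 2 h2)
      have a3 := H24.mul_card_le_of_lt hp hPp (bot_lt_iff_ne_bot.mpr h3)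
      rw [Subgroup.top_lowerCentralSeries_one, hc] at a1
      rw [Subgroup.card_bot, mul_one] at a3
      have a4 : p * (p * p) ≤ p ^ 2 :=
        le_trans (Nat.mul_le_mul_left _ (le_trans (Nat.mul_le_mul_left _ a3) a2)) a1
      have a5 : p * (p * p) = p ^ 3 := by ring
      rw [a5, Nat.pow_le_pow_iff_right hp.one_lt] at a4
      omega
    · by_contra hlt
      have h2 : (⊤ : Subgroup P).lowerCentralSeries 2 = ⊥ :=
        Subgroup.lowerCentralSeries_eq_bot_iff_nilpotencyClass_le.mpr (by omega)
      have h3 : commutator P ≤ Subgroup.center P := by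
        rw [Subgroup.lowerCentralSeries_succ, Subgroup.top_lowerCentralSeries_one,
          Subgroup.commutator_eq_bot_iff_le_centralizer] at h2
        rwa [Subgroup.coe_top, Subgroup.centralizer_univ] at h2
      have h4 : (Subgroup.center P).index ∣ p ^ 2 := h ▸ Subgroup.index_dvd_of_le h3
      obtain ⟨k, hk, hk2⟩ := (Nat.dvd_prime_pow hp).mp h4
      rcases Nat.lt_or_ge k 2 with hk3 | hk3
      · have : IsMulCommutative P := by
          apply H24.comm_of_index_center_dvd_prime hp
          rw [hk2]
          calc p ^ k ∣ p ^ 1 := pow_dvd_pow p (by omega)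
            _ = p := pow_one p
        rw [H24.commutator_eq_bot_iff_comm.mpr this, Subgroup.card_bot] at hc
        have := hp.one_lt
        omega
      · have := H24.card_commutator_of_index_center hp (hk2.trans (by rw [show k = 2 by omega]))
        omega
  · intro h
    have h2 : (⊤ : Subgroup P).lowerCentralSeries 2 ≠ ⊥ := by
      rw [Ne, Subgroup.lowerCentralSeries_eq_bot_iff_nilpotencyClass_le]; omega
    have h1 : (⊤ : Subgroup P).lowerCentralSeries 1 ≠ ⊥ := by
      rw [Ne, Subgroup.lowerCentralSeries_eq_bot_iff_nilpotencyClass_le]; omega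
    have a1 := H24.mul_card_le_of_lt hp hPp (H24.lowerCentralSeries_succ_lt 1 h1)
    have a2 := H24.mul_card_le_of_lt hp hPp (bot_lt_iff_ne_bot.mpr h2)
    rw [Subgroup.top_lowerCentralSeries_one] at a1 h1
    rw [Subgroup.card_bot, mul_one] at a2
    have a3 : p * p ≤ Nat.card (commutator P) := le_trans (Nat.mul_le_mul_left _ a2) a1
    obtain ⟨k, hk⟩ := hPp.index (commutator P)
    rw [hk] at hmul ⊢
    have a4 : p ^ 2 * p ^ k ≤ p ^ 4 := by
      rw [← hmul, pow_two]; exact Nat.mul_le_mul_right _ a3
    rw [← pow_add, Nat.pow_le_pow_iff_right hp.one_lt] at a4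
    rcases Nat.lt_or_ge k 2 with hk3 | hk3
    · exfalso
      have hcyc : IsCyclic (P ⧸ commutator P) := by
        apply isCyclic_of_card_dvd_prime (p := p)
        rw [← Subgroup.index, hk]
        calc p ^ k ∣ p ^ 1 := pow_dvd_pow p (by omega)
          _ = p := pow_one p
      exact h1 (H24.commutator_eq_bot_iff_comm.mpr
        (H24.comm_of_nilpotent_of_isCyclic_abelianization hcyc))
    · rw [show k = 2 by omega]

end Cfsg.Agent.S4585
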