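import Cfsg.Statements.S4586
import Cfsg.Agent.H24.CyclicOverNormal

set_option autoImplicit false
open Cfsg

namespace Cfsg.Agent.S4586

/-- Let p be a prime, P a finite p-group and N a normal subgroup of P of index p. For x ∈ P write c(x) for the number of elements n of N whose commutator x n x⁻¹ n⁻¹ lies in the derived subgroup N' (so c(x)/#N' is the order of the centralizer of x acting on N/N'). Then [P : P'] = p² if and only if c(x) = p·#N' for every x ∈ P outside N, and also if and only if c(x) = p·#N' for some x ∈ P outside N. -/
theorem result {P : Type*} [Group P] [Finite P] (p : ℕ) [Fact p.Prime] (hP : IsPGroup p P) (N : Subgroup P) [N.Normal] (hN : N.index = p) :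
    ((commutator P).index = p ^ 2 ↔ ∀ x : P, x ∉ N →
        Nat.card {n : N // x * n * x⁻¹ * (n : P)⁻¹ ∈ (commutator N).map N.subtype} = p * Nat.card (commutator N)) ∧
    ((commutator P).index = p ^ 2 ↔ ∃ x : P, x ∉ N ∧
        Nat.card {n : N // x * n * x⁻¹ * (n : P)⁻¹ ∈ (commutator N).map N.subtype} = p * Nat.card (commutator N)) := by
  have hp : p.Prime := Fact.out
  have key : ∀ x : P, x ∉ N → ((commutator P).index = p ^ 2 ↔
      Nat.card {n : N // x * n * x⁻¹ * (n : P)⁻¹ ∈ (commutator N).map N.subtype} =
        p * Nat.card (commutator N)) := by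
    intro x hx
    have h1 := H24.card_commutator_mul_card N x (H24.sup_zpowers_eq_top_of_index_prime hp N hN x hx)
    have h2 := Subgroup.card_mul_index (commutator P)
    have h3 := Subgroup.card_mul_index N
    rw [hN] at h3
    set c := Nat.card {n : N // x * n * x⁻¹ * (n : P)⁻¹ ∈ (commutator N).map N.subtype}
    have hd : 0 < Nat.card (commutator P) := Nat.card_pos
    have hn : 0 < Nat.card (commutator N) := Nat.card_pos
    have hNpos : 0 < Nat.card N := Nat.card_pos
    have h4 : (commutator P).index * Nat.card (commutator N) = p * c := by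
      apply Nat.eq_of_mul_eq_mul_left hNpos
      calc Nat.card N * ((commutator P).index * Nat.card (commutator N))
          = (commutator P).index * (Nat.card N * Nat.card (commutator N)) := by ring
        _ = (Nat.card (commutator P) * (commutator P).index) * c := by rw [← h1]; ring
        _ = Nat.card N * (p * c) := by rw [h2, ← h3]; ring
    constructor
    · intro h
      rw [h] at h4
      apply Nat.eq_of_mul_eq_mul_left hp.pos
      rw [← h4]; ring
    · intro h
      rw [h] at h4
      apply Nat.eq_of_mul_eq_mul_right hn
      rw [h4]; ring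
  have hex : ∃ x : P, x ∉ N := by
    by_contra hcon
    push Not at hcon
    have : N = ⊤ := (Subgroup.eq_top_iff' N).mpr hcon
    rw [this, Subgroup.index_top] at hN
    exact hp.one_lt.ne hN
  obtain ⟨x0, hx0⟩ := hex
  refine ⟨⟨fun h x hx => (key x hx).mp h, fun h => (key x0 hx0).mpr (h x0 hx0)⟩,
    ⟨fun h => ⟨x0, hx0, (key x0 hx0).mp h⟩, fun ⟨x, hx, h⟩ => (key x hx).mpr h⟩⟩

end Cfsg.Agent.S4586
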