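import Cfsg.Statements.S4588
import Cfsg.Agent.H16.KZero

set_option autoImplicit false
open Cfsg

namespace Cfsg.Agent.S4588

/-- Let G be a finite group, p a prime and M a maximal ideal of the algebraic integers containing p. If some p-element x of G (possibly x = 1) has centralizer whose order has p-part at most p², then the principal p-block of G contains at most p² irreducible characters of degree prime to p. -/
theorem result {G : Type*} [Group G] [Finite G] (p : ℕ) [Fact p.Prime] (M : Ideal Cfsg.AlgInt) (hM : Cfsg.IsPModular p M)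
    (hx : ∃ x : G, (∃ k : ℕ, orderOf x = p ^ k) ∧ (Nat.card (Subgroup.centralizer ({x} : Set G))).factorization p ≤ 2) :
    Nat.card {χ : Cfsg.IrrCharacter G // χ ∈ Cfsg.principalBlock M G ∧ ¬ p ∣ Cfsg.charDegree (χ : G → ℂ)} ≤ p ^ 2 := by
  classical
  have hp : p.Prime := Fact.out
  obtain ⟨x, hx, h2⟩ := hx
  simp only [← H21.height_principal_eq_zero_iff hM]
  by_cases h1 : x = 1
  · have h3 : Subgroup.centralizer ({x} : Set G) = ⊤ := by
      rw [h1, eq_top_iff]
      exact fun g _ => Subgroup.mem_centralizer_singleton_iff.2 (by simp)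
    rw [h3, Subgroup.card_top, ← H21.defect_principal hM] at h2
    refine le_trans ?_ ((H21.card_le_of_defect_le_two hM H17.isPBlock_principalBlock h2).trans
      (Nat.pow_le_pow_right hp.pos h2))
    have := Fintype.ofFinite (IrrCharacter G)
    exact Nat.card_le_card_of_injective (fun χ => (⟨χ.1, χ.2.1⟩ : principalBlock M G))
      fun a b h => Subtype.ext (Subtype.ext_iff.1 h :)
  obtain ⟨D⟩ : Nonempty (Sylow p (H17.Cg x)) := inferInstance
  set z : H17.Cg x := ⟨x, H17.self_mem_Cg x⟩
  obtain ⟨k, hk⟩ := id hx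
  have hz : Nat.card (Subgroup.zpowers z) = p ^ k := by
    rw [Nat.card_zpowers, ← Subgroup.orderOf_coe, hk]
  have hcen : Subgroup.zpowers z ≤ Subgroup.center _ :=
    Subgroup.zpowers_le.2 (Subgroup.mem_center_iff.2 fun g => (H20.self_central_Cg x g).symm)
  have : (Subgroup.zpowers z).Normal := ⟨fun n hn g => by
    rwa [Subgroup.mem_center_iff.1 (hcen hn) g, mul_inv_cancel_right]⟩
  have hzD : Subgroup.zpowers z ≤ D := (IsPGroup.of_card hz).le_sylow_of_normal D
  obtain ⟨y, hy⟩ : ∃ y, (D : Subgroup (H17.Cg x)) ≤ Subgroup.zpowers z ⊔ Subgroup.zpowers y := by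
    by_cases h : (D : Subgroup (H17.Cg x)) ≤ Subgroup.zpowers z
    · exact ⟨1, h.trans le_sup_left⟩
    obtain ⟨y, hyD, hy⟩ := SetLike.not_le_iff_exists.1 h
    have h3 : Subgroup.zpowers z ⊔ Subgroup.zpowers y ≤ D := sup_le hzD (Subgroup.zpowers_le.2 hyD)
    obtain ⟨m, hm⟩ := IsPGroup.iff_card.1 (D.isPGroup'.to_le h3)
    have h4 : Nat.card (Subgroup.zpowers z) <
        Nat.card (Subgroup.zpowers z ⊔ Subgroup.zpowers y : Subgroup _) := by
      by_contra h5
      exact hy (Subgroup.eq_of_le_of_card_ge le_sup_left (not_lt.1 h5) ▸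
        Subgroup.mem_sup_right (Subgroup.mem_zpowers y))
    have h5 : k ≠ 0 := fun h => h1 (orderOf_eq_one_iff.1 (by rw [hk, h, pow_zero]))
    rw [hz, hm, Nat.pow_lt_pow_iff_right hp.one_lt] at h4
    refine ⟨y, (Subgroup.eq_of_le_of_card_ge h3 ?_).ge⟩
    rw [hm, D.card_eq_multiplicity]
    exact Nat.pow_le_pow_right hp.pos (h2.trans (by omega))
  refine (H16.card_height_zero_le_of_cyclic hM hx (H16.isInducedBlock_principal_Cg hM hx)
    (H17.dg_principal hM D) hy).trans (Nat.pow_le_pow_right hp.pos ?_)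
  rwa [H21.defect_principal hM]

end Cfsg.Agent.S4588
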