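import Cfsg.Statements.S4591
import Cfsg.Agent.H24.PKer
import Cfsg.Agent.H8.SylowIn

set_option autoImplicit false
open Cfsg

namespace Cfsg.Agent.S4591


open Cfsg.Agent.H11 Cfsg.Agent.H24 Subgroup
open scoped commutatorElement

theorem commutator_le {G : Type*} [Group G] (N P : Subgroup G) [N.Normal] :
    commutator (N ⊔ P : Subgroup G) ≤ (N ⊔ ⁅P, P⁆).subgroupOf (N ⊔ P) := by
  rw [commutator_def, Subgroup.commutator_le]
  rintro ⟨a, ha⟩ - ⟨b, hb⟩ -
  rw [mem_subgroupOf]
  obtain ⟨n, hn, x, hx, rfl⟩ := (Subgroup.mem_sup_of_normal_left).1 ha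
  obtain ⟨m, hm, y, hy, rfl⟩ := (Subgroup.mem_sup_of_normal_left).1 hb
  have h1 : ⁅x, y⁆ ∈ N ⊔ ⁅P, P⁆ := mem_sup_right (commutator_mem_commutator hx hy)
  have h2 : ⁅n * x, m * y⁆ * ⁅x, y⁆⁻¹ ∈ N := by
    rw [← QuotientGroup.eq_one_iff]
    have e1 : ((n : G) : G ⧸ N) = 1 := (QuotientGroup.eq_one_iff n).2 hn
    have e2 : ((m : G) : G ⧸ N) = 1 := (QuotientGroup.eq_one_iff m).2 hm
    simp [commutatorElement_def, e1, e2]
  have h3 := mul_mem (mem_sup_left h2 : _ ∈ N ⊔ ⁅P, P⁆) h1
  rw [inv_mul_cancel_right] at h3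
  exact h3

/-- Let G be a finite group, p a prime and P a Sylow p-subgroup, and let N be the largest normal subgroup of G in which P has trivial centralizer (N is normal with C_N(P) = 1 and contains every normal subgroup with that property). Then the intersection of the kernels of the irreducible characters of G of degree prime to p is the normal core in G of the subgroup N·P' (P' the derived subgroup of P). In particular, when G has no nontrivial normal subgroup of order prime to p, that intersection is the normal core of P'. -/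
theorem result {G : Type*} [Group G] [Finite G] (p : ℕ) [Fact p.Prime] (P : Sylow p G) (N : Subgroup G) [N.Normal]
    (hN : N ⊓ Subgroup.centralizer ((P : Subgroup G) : Set G) = ⊥)
    (hmax : ∀ L : Subgroup G, L.Normal → L ⊓ Subgroup.centralizer ((P : Subgroup G) : Set G) = ⊥ → L ≤ N) :
    {g : G | ∀ χ : Cfsg.IrrCharacter G, ¬ p ∣ Cfsg.charDegree (χ : G → ℂ) → (χ : G → ℂ) g = (χ : G → ℂ) 1} =
      ((N ⊔ ⁅(P : Subgroup G), (P : Subgroup G)⁆).normalCore : Set G) := by
  classical
  have hp : p.Prime := Fact.out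
  have := Fintype.ofFinite G
  have := Fintype.ofFinite (N ⊔ (P : Subgroup G) : Subgroup G)
  set L := N ⊔ ⁅(P : Subgroup G), (P : Subgroup G)⁆ with hL
  have hPP : ⁅(P : Subgroup G), (P : Subgroup G)⁆ ≤ P :=
    Subgroup.commutator_le.2 fun a ha b hb =>
      mul_mem (mul_mem (mul_mem ha hb) (inv_mem ha)) (inv_mem hb)
  have hLH : L ≤ N ⊔ (P : Subgroup G) := sup_le_sup_left hPP N
  apply Set.Subset.antisymm
  · let K : Subgroup G := ⨅ χ : {χ : Cfsg.IrrCharacter G // ¬ p ∣ Cfsg.charDegree χ.1},
      charKer χ.1.1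
    have hK : ∀ χ, Cfsg.IsIrrCharacter G χ → ¬ p ∣ Cfsg.charDegree χ → K ≤ charKer χ :=
      fun χ hχ hd => iInf_le_of_le ⟨⟨χ, hχ⟩, hd⟩ le_rfl
    have hKn : K.Normal := normal_iInf_normal fun χ => charKer_normal (isClassFunction_of_irr χ.1.2)
    suffices h : K ≤ L by
      intro g hg
      apply normal_le_normalCore.2 h
      rw [mem_iInf]
      intro χ
      exact (mem_charKer_irr_iff χ.1.2).2 (hg χ.1 χ.2)
    set M := (Cfsg.pResidual p K).map K.subtype with hM
    have hMn : M.Normal := inferInstance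
    have hMK : M ≤ K := map_subtype_le _
    have hMM : Cfsg.pResidual p M = ⊤ := by
      apply map_injective M.subtype_injective
      rw [← MonoidHom.range_eq_map, range_subtype]
      apply le_antisymm (map_subtype_le _)
      have h1 : (Cfsg.pResidual p K).map K.subtype ≤ (Cfsg.pResidual p M).map M.subtype := by
        rw [H8.map_subtype_pResidual_le_iff]
        intro g hg hc
        exact H8.mem_map_subtype_pResidual (H8.mem_map_subtype_pResidual hg hc) hc
      exact h1
    have hMN : M ≤ N := hmax M hMn (inf_centralizer_eq_bot_of_le_charKer P M hMM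
      fun χ hχ hd => hMK.trans (hK χ hχ hd))
    have hKH : K ≤ N ⊔ (P : Subgroup G) := by
      intro g hg
      have hS : H8.IsSylowIn p ((P : Subgroup G) ⊓ K) K := H8.isSylowIn_inf_normal P K
      obtain ⟨s, hs, m, hm, rfl⟩ := hS.exists_mul_of_forall_coprime_mem (K := M)
        (fun g hg hc => H8.mem_map_subtype_pResidual hg hc) hg
      exact mul_mem (mem_sup_right hs.1) (mem_sup_left (hMN hm))
    intro g hg
    by_contra hgL
    have hn : (L.subgroupOf (N ⊔ (P : Subgroup G))).Normal :=
      Subgroup.Normal.of_commutator_le _ (commutator_le N P)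
    obtain ⟨lam, -, h2⟩ := exists_monoidHom_ne_one (L.subgroupOf (N ⊔ (P : Subgroup G)))
      (commutator_le N P) (g := ⟨g, hKH hg⟩) hgL
    obtain ⟨χ, hχ, h3, h4⟩ := exists_over_not_dvd hp _ (not_dvd_index_sup_sylow P N)
      (isIrrCharacter_monoidHom lam) (by rw [deg_monoidHom]; exact hp.not_dvd_one)
    apply h2
    have h5 := charKer_le_of_constituent (isCharacter_restrict (isCharacter_of_irr hχ) _)
      (isIrrCharacter_monoidHom lam) h4
    rw [charKer_monoidHom] at h5
    exact h5 fun x => hK χ hχ h3 hg x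
  · intro g hg χ hd
    have := Fintype.ofFinite L.normalCore
    have hNχ := le_charKer_of_inf_centralizer_eq_bot P.isPGroup' hN χ.2 hd
    obtain ⟨μ, hμ, h1, h2⟩ := exists_under_not_dvd (N ⊔ (P : Subgroup G))
      (isCharacter_of_irr χ.2) hd
    have h3 : N.subgroupOf (N ⊔ (P : Subgroup G)) ≤ charKer μ := by
      refine le_trans ?_ (charKer_le_of_constituent
        (isCharacter_restrict (isCharacter_of_irr χ.2) _) hμ h2)
      intro n hn x
      exact hNχ hn x
    have h4 : Cfsg.charDegree μ = 1 := by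
      obtain ⟨ψ, hψ, h4⟩ := exists_irr_lift hμ _ h3
      obtain ⟨k, hk⟩ := exists_relIndex_sup_eq_pow P.isPGroup' N
      have h5 := deg_dvd_card hψ
      rw [← index_eq_card, show (N.subgroupOf (N ⊔ (P : Subgroup G))).index = p ^ k from hk,
        deg_congr (ψ := μ) (h4 1)] at h5
      exact Nat.eq_one_of_dvd_coprimes
        (Nat.Coprime.pow_right k ((Nat.Prime.coprime_iff_not_dvd hp).2 h1).symm) dvd_rfl h5
    have h5 := (deg_eq_one_iff_commutator_le hμ).1 h4
    have h6 : L.subgroupOf (N ⊔ (P : Subgroup G)) ≤ charKer μ := by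
      rw [← map_le_map_iff_of_injective (N ⊔ (P : Subgroup G)).subtype_injective,
        subgroupOf_map_subtype]
      refine inf_le_left.trans (sup_le ?_ ?_)
      · intro n hn
        exact ⟨⟨n, mem_sup_left hn⟩, h3 hn, rfl⟩
      · rw [Subgroup.commutator_le]
        intro a ha b hb
        exact ⟨⁅(⟨a, mem_sup_right ha⟩ : ↥(N ⊔ (P : Subgroup G))), ⟨b, mem_sup_right hb⟩⁆,
          h5 (commutator_mem_commutator (mem_top _) (mem_top _)), rfl⟩
    have h7 : L.normalCore ≤ N ⊔ (P : Subgroup G) := (normalCore_le L).trans hLH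
    have h8 : Cfsg.classInner (fun n : L.normalCore => χ.1 n) (fun _ => 1) ≠ 0 := by
      refine over_trans h7 (isCharacter_of_irr χ.2) hμ (isCharacter_of_irr isIrrCharacter_one) h2 ?_
      have h9 : (fun n : L.normalCore => μ ⟨n, h7 n.2⟩) = fun _ => 1 := by
        funext n
        rw [apply_eq_of_mem_charKer (h6 (normalCore_le L n.2)),
          (deg_eq_one_iff (isCharacter_of_irr hμ)).1 h4]
      rw [h9, classInner_irr_self isIrrCharacter_one]
      exact one_ne_zero
    exact apply_eq_of_mem_charKer (le_charKer_of_classInner_ne_zero χ.2 _ h8 hg)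

end Cfsg.Agent.S4591
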