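import Cfsg.Statements.S4604
import Cfsg.Agent.H19.GaloisBlock
import Cfsg.Agent.S0876

set_option autoImplicit false
open Cfsg

namespace Cfsg.Agent.S4604

theorem multiset_pow {R : Type*} [CommRing R] {p : ℕ} (hp : p.Prime) (n : ℕ) (s : Multiset R) :
    ∃ r : R, s.sum ^ p ^ n = (s.map fun z => z ^ p ^ n).sum + p * r := by
  induction s using Multiset.induction_on with
  | empty => exact ⟨0, by simp [hp.ne_zero]⟩
  | cons a s ih =>
    obtain ⟨r, hr⟩ := ih
    obtain ⟨t, ht⟩ := exists_add_pow_prime_pow_eq hp a s.sum n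
    refine ⟨r + a * s.sum * t, ?_⟩
    rw [Multiset.sum_cons, Multiset.map_cons, Multiset.sum_cons, ht, hr]
    ring

theorem char_pow {G : Type*} [Group G] [Finite G] {p : ℕ} (hp : p.Prime) (n : ℕ) {χ : G → ℂ}
    (hχ : Cfsg.IsCharacter G χ) (g : G) :
    ∃ γ : Cfsg.AlgInt, χ g ^ p ^ n = χ (g ^ p ^ n) + p * (γ : ℂ) := by
  obtain ⟨s, hs, -, hk⟩ := H11.exists_multiset_eigenvalues hχ g
  have hint : ∀ ε ∈ s, ε ∈ Cfsg.AlgInt := fun ε hε =>
    H19.isIntegral_of_pow_eq_one (orderOf_pos g).ne' (hs ε hε)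
  obtain ⟨t, rfl⟩ : ∃ t : Multiset Cfsg.AlgInt, t.map Subtype.val = s :=
    ⟨s.pmap Subtype.mk hint, by
      rw [Multiset.map_pmap, Multiset.pmap_eq_map _ (fun a => a), Multiset.map_id']⟩
  obtain ⟨r, hr⟩ := multiset_pow hp n t
  refine ⟨r, ?_⟩
  have h1 := hk 1
  have h2 := hk ((p ^ n : ℕ) : ℤ)
  rw [zpow_one] at h1
  rw [zpow_natCast] at h2
  have h3 := congrArg (Cfsg.AlgInt.val) hr
  rw [map_pow, map_add, map_mul, map_multiset_sum, map_multiset_sum, map_natCast] at h3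
  rw [h1, h2]
  simp only [zpow_one, zpow_natCast, Multiset.map_map, Multiset.map_id'] at h3 ⊢
  simpa using h3

theorem pow_eq {G : Type*} [Group G] [Finite G] {p : ℕ} (hp : p.Prime) {x x' : G}
    (h1 : ∃ k : ℕ, orderOf (x * x'⁻¹) = p ^ k) (h2 : Commute (x * x'⁻¹) x') :
    x ^ p ^ (Nat.card G).factorization p = x' ^ p ^ (Nat.card G).factorization p := by
  obtain ⟨k, hk⟩ := h1
  have hd : p ^ k ∣ Nat.card G := hk ▸ orderOf_dvd_natCard _
  have hle : k ≤ (Nat.card G).factorization p :=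
    (hp.pow_dvd_iff_le_factorization Nat.card_pos.ne').1 hd
  have h3 : (x * x'⁻¹) ^ p ^ (Nat.card G).factorization p = 1 :=
    orderOf_dvd_iff_pow_eq_one.1 (hk ▸ pow_dvd_pow p hle)
  have : x = x * x'⁻¹ * x' := by simp
  conv_lhs => rw [this, h2.mul_pow, h3, one_mul]


/-- Let G be a finite group, p a prime and p^a the p-part of the order of G. Let x, y ∈ G and let x′, y′ be their p-regular parts: x′ has order prime to p, commutes with x·x′⁻¹, and x·x′⁻¹ has p-power order (likewise for y). Then x′ and y′ are conjugate in G if and only if for every irreducible character χ of G the algebraic integer χ(x)^(p^a) − χ(y)^(p^a) is p times an algebraic integer. -/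
theorem result {G : Type*} [Group G] [Finite G] (p : ℕ) [Fact p.Prime] (x y x' y' : G)
    (hx : (∃ k : ℕ, orderOf (x * x'⁻¹) = p ^ k) ∧ Commute (x * x'⁻¹) x' ∧ ¬ p ∣ orderOf x')
    (hy : (∃ k : ℕ, orderOf (y * y'⁻¹) = p ^ k) ∧ Commute (y * y'⁻¹) y' ∧ ¬ p ∣ orderOf y') :
    IsConj x' y' ↔ ∀ χ : Cfsg.IrrCharacter G, ∃ γ : Cfsg.AlgInt,
      (χ : G → ℂ) x ^ (p ^ (Nat.card G).factorization p) - (χ : G → ℂ) y ^ (p ^ (Nat.card G).factorization p) = (p : ℂ) * (γ : ℂ) := by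
  have hp : p.Prime := Fact.out
  constructor
  · intro hc χ
    obtain ⟨γ₁, h₁⟩ := char_pow hp ((Nat.card G).factorization p) (H11.irr_isCharacter χ) x
    obtain ⟨γ₂, h₂⟩ := char_pow hp ((Nat.card G).factorization p) (H11.irr_isCharacter χ) y
    refine ⟨γ₁ - γ₂, ?_⟩
    rw [h₁, h₂, pow_eq hp hx.1 hx.2.1, pow_eq hp hy.1 hy.2.1,
      H11.classFun_of_isConj (H11.isClassFunction_of_irr χ.2) (hc.pow _)]
    push_cast
    ring
  · intro h
    obtain ⟨M, hM⟩ := H19.exists_isPModular hp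
    haveI := H19.charP_kk hM
    have key := (Cfsg.Agent.S0876.result p M hM x y (x * x'⁻¹) (y * y'⁻¹)
      ⟨x', by simp, hx.2.1, hx.1, hx.2.2⟩ ⟨y', by simp, hy.2.1, hy.1, hy.2.2⟩).2 fun χ => ?_
    · simpa using key
    obtain ⟨γ, hγ⟩ := h χ
    rw [H19.mli_sub_iff_red_eq hM.2.1 (H19.mlr_of_isIntegral hM.2.1 (H19.irr_isIntegral χ x))
      (H19.mlr_of_isIntegral hM.2.1 (H19.irr_isIntegral χ y))]
    have h2 := congrArg (H19.red M) hγ
    rw [H19.red_sub (pow_mem (H19.irr_mem_Vr χ x) _) (pow_mem (H19.irr_mem_Vr χ y) _),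
      H19.red_pow (H19.irr_mem_Vr χ x), H19.red_pow (H19.irr_mem_Vr χ y),
      H19.red_mul (H19.natCast_mem_Vr p) (H19.coe_mem_Vr γ), H19.red_p hM, zero_mul,
      ← sub_pow_char_pow] at h2
    exact sub_eq_zero.1 (pow_eq_zero_iff (pow_ne_zero _ hp.ne_zero) |>.1 h2)

end Cfsg.Agent.S4604
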