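import Cfsg.Statements.S4649
import Cfsg.Agent.H18.NilBlock
import Cfsg.Agent.H18.CyclicAct
import Cfsg.Agent.S4695

set_option autoImplicit false
open Cfsg

namespace Cfsg.Agent.S4649

open Cfsg.Agent.H18 Cfsg.Agent.H19 MonoidAlgebra

/-- A block with cyclic defect group, of a finite group relative to a maximal ideal M of the algebraic integers containing the prime p, is nilpotent if and only if its p-regular rank is 1 (it has a unique irreducible Brauer character). -/
theorem result {G : Type*} [Group G] [Finite G] (p : ℕ) [Fact p.Prime] (M : Ideal Cfsg.AlgInt) (hM : Cfsg.IsPModular p M) (B : Set (Cfsg.IrrCharacter G)) (hB : Cfsg.IsPBlock M B) (P : Subgroup G) (hPD : Cfsg.IsDefectGroup p M B P) (hcyc : IsCyclic P) : Cfsg.IsNilpotentBlock p M B ↔ Cfsg.blockRank p B = 1 := by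
  have := charP_kk hM
  have := Fintype.ofFinite G
  refine ⟨fun h => ((isNilpotentBlock_iff hM).1 h).2.blockRank_eq_one hM hB, fun h => ?_⟩
  have hb := isPrim_gid hM.2.1 hB
  have hab := le_Cz_of_isCyclic hcyc
  obtain ⟨e, hm⟩ := exists_isMaxPair_of_isDefect hb ((isDefectGroup_iff_gid hM hB).1 hPD)
  rw [isNilpotentBlock_iff hM, and_iff_right hB, hm.isNil_iff_of_abelian hb hab]
  obtain ⟨c, hc, rfl⟩ := hm.pairOf.pair.exists_block hM
  obtain ⟨a, ha⟩ := IsPGroup.iff_card.1 hm.pairOf.pair.isP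
  rcases Nat.eq_zero_or_pos a with rfl | h0
  · obtain rfl := Subgroup.card_eq_one.1 ha
    exact le_top.trans Cz_bot.ge
  · refine Subgroup.relIndex_eq_one.1 (h.symm.trans (S4695.result p M hM P hcyc a h0 ha B hB hPD c
      ((isInducedBlock_iff_br hM hm.pairOf.pair.isP hab le_rfl (Cz_le_Nz P) hc hB).2 hm.pairOf.occ)
      _ (fun g => ?_) _ rfl)).symm
    rw [NP_top]
    refine and_congr_right fun hg => (stabilizesBlock_Cz_iff hM.2.1 hc hg).symm.trans ?_
    have h1 := mem_Nz_iff_cs.1 (Nz_le_Nz_Cz P hg)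
    refine ⟨fun h2 θ hθ θ' h3 => ?_, fun h2 => ⟨Nz_le_Nz_Cz P hg, fun θ hθ => ?_⟩⟩
    · obtain ⟨χ, hχ, h4⟩ := h2.2 θ hθ
      rwa [← (irrMap_conjEquiv_eq_iff g h1 θ θ').2 h3, (irrMap_conjEquiv_eq_iff g h1 θ χ).2 h4]
    · have h3 := (irrMap_conjEquiv_eq_iff g h1 θ _).1 rfl
      exact ⟨_, h2 θ hθ _ h3, h3⟩

end Cfsg.Agent.S4649
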