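import Cfsg.Statements.S4608
import Cfsg.Agent.H17.RankFive
import Cfsg.Agent.S4649

set_option autoImplicit false
open Cfsg

namespace Cfsg.Agent.S4608

/-- Let G be a finite group, p a prime, M a maximal ideal of the algebraic integers containing p, and B a p-block of G with defect group D. If B has p-regular rank one and exactly five irreducible characters, then D is cyclic of order 5, or D has order 8 and is non-abelian (dihedral or quaternion). -/
theorem result {G : Type*} [Group G] [Finite G] (p : ℕ) [Fact p.Prime] (M : Ideal Cfsg.AlgInt) (hM : Cfsg.IsPModular p M) (B : Set (Cfsg.IrrCharacter G)) (hB : Cfsg.IsPBlock M B) (D : Subgroup G) (hD : Cfsg.IsDefectGroup p M B D)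
    (hl : Cfsg.blockRank p B = 1) (hk : Nat.card B = 5) :
    (Nat.card D = 5) ∨ (Nat.card D = 8 ∧ ¬ IsMulCommutative D) := by
  classical
  have := Fintype.ofFinite G
  have := H19.charP_kk hM
  have hp : p.Prime := Fact.out
  have hA := H17.lamClosed_of_isPBlock hM.2.1 hB
  obtain ⟨i, h⟩ := H16.exists_ibrOf_eq_singleton hM hA hl
  have h1 := H17.cartan_le_twelve hA h hk.le
  have h2 := H17.dg_card hM hB hD
  rw [H16.cartan_eq_pow_defect hM hB h, ← h2] at h1
  have hb := H18.isPrim_gid hM.2.1 hB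
  obtain ⟨e, hm⟩ := H18.exists_isMaxPair_of_isDefect hb ((H18.isDefectGroup_iff_gid hM hB).1 hD)
  have h3 : Nat.card D = 5 ∨ Nat.card D = 8 ∨ Nat.card D = 11 := by
    have := H17.irr_finite G
    have := Fintype.ofFinite (IrrCharacter G)
    have h4 : Nat.card D = ∑ χ ∈ Finset.univ.filter (· ∈ B), H16.dnum χ.1 i ^ 2 := by
      rw [h2, ← H16.cartan_eq_pow_defect hM hB h, H16.cartan_eq_sum, Finset.sum_filter]
      refine Finset.sum_congr rfl fun χ _ => ?_
      split_ifs with h'
      · ring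
      · rw [H16.dnum_eq_zero_of_notMem hA (by rw [h]; rfl) h', mul_zero]
    have h5 : (Finset.univ.filter (· ∈ B)).card = 5 := by
      rw [← hk, Nat.subtype_card (Finset.univ.filter (· ∈ B)) (fun χ => by simp)]
    have h6 : ∀ χ ∈ Finset.univ.filter (· ∈ B), 1 ≤ H16.dnum χ.1 i := fun χ hχ =>
      Nat.pos_of_ne_zero (H18.dnum_ne_zero_of_singleton hM h (Finset.mem_filter.1 hχ).2)
    have h7 : ∀ χ ∈ Finset.univ.filter (· ∈ B),
        H16.dnum χ.1 i ^ 2 = 1 + 3 * (if H16.dnum χ.1 i = 2 then 1 else 0) := fun χ hχ => by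
      have h8 := Finset.add_sum_erase _ (fun χ : IrrCharacter G => H16.dnum χ.1 i ^ 2) hχ
      have h9 := Finset.card_nsmul_le_sum ((Finset.univ.filter (· ∈ B)).erase χ)
        (fun χ : IrrCharacter G => H16.dnum χ.1 i ^ 2) 1 fun ψ hψ =>
          Nat.one_le_pow _ _ (h6 ψ (Finset.mem_of_mem_erase hψ))
      rw [Finset.card_erase_of_mem hχ, h5, smul_eq_mul] at h9
      have h10 := h6 χ hχ
      have h11 : H16.dnum χ.1 i < 3 := by nlinarith
      interval_cases H16.dnum χ.1 i <;> simp
    rw [Finset.sum_congr rfl h7, Finset.sum_add_distrib, ← Finset.mul_sum, Finset.sum_const, h5,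
      smul_eq_mul] at h4
    omega
  rcases h3 with h3 | h3 | h3
  · exact Or.inl h3
  · refine Or.inr ⟨h3, fun hc => ?_⟩
    obtain rfl : p = 2 := by
      have : p ∣ 2 ^ 3 := by
        rw [show 2 ^ 3 = Nat.card D from h3.symm, h2]
        exact dvd_pow_self p fun h0 => by rw [h0, h3, pow_zero] at h2; omega
      exact (Nat.prime_dvd_prime_iff_eq hp Nat.prime_two).1 (hp.dvd_of_dvd_pow this)
    exact H17.not_abelian_eight hM hB hm (fun a ha => H18.mem_Cz.2 fun b hb =>
      congrArg Subtype.val (hc.is_comm.comm (⟨b, hb⟩ : D) ⟨a, ha⟩)) h3 hl hk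
  · have : Fact (Nat.Prime 11) := ⟨by norm_num⟩
    have hcyc : IsCyclic D := isCyclic_of_prime_card h3
    have hab := H18.le_Cz_of_isCyclic hcyc
    have h4 := H17.card_le_of_NP_le hM hB hm hab ((hm.isNil_iff_of_abelian hb hab).1
      ((H18.isNilpotentBlock_iff hM).1 ((S4649.result p M hM B hB D hD hcyc).2 hl)).2)
    omega

end Cfsg.Agent.S4608
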