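import Cfsg.Statements.S4711
import Cfsg.Agent.H22.Osima
import Cfsg.Agent.H22.Dade
import Cfsg.Agent.H24.Broline
import Cfsg.Agent.H4.PLength
import Cfsg.Agent.H63.QuoCore

set_option autoImplicit false
open Cfsg

namespace Cfsg.Agent.S4711


open Cfsg Cfsg.Agent.H8 Cfsg.Agent.H22
open Cfsg.Agent.H19 hiding block_nonempty block_eq_of_mem mem_blockOf_self isPBlock_blockOf isPBlock_principalBlock
open Cfsg.Agent.H17 hiding trunc cj_ZG cj_incl incl_trunc
open Cfsg.Agent.H18 hiding stab mem_stab stabilizesBlock_iff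
open scoped ComplexConjugate Pointwise MonoidAlgebra commutatorElement

variable {G : Type*} [Group G] [Finite G] {p : ℕ} [Fact p.Prime] {M : Ideal AlgInt}

theorem le_charKer (hM : IsPModular p M) {χ : IrrCharacter G} (hχ : χ ∈ principalBlock M G) :
    pPrimeCore p G ≤ H11.charKer χ.1 := by
  have h1 : Over (pPrimeCore p G) (trivIrr G).1 (triv _).1 := over_one_of_ker _ fun _ _ => rfl
  have h2 := over_of_lam_eq_of_not_dvd hM (H3.not_dvd_card_pPrimeCore p G)
    (block_lam_eq hM.2.1 isPBlock_principalBlock (trivIrr_mem_principalBlock hM.2.1) hχ) h1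
  exact (H11.le_charKer_iff (H11.isCharacter_of_irr χ.2)).2 ((over_one_iff _).1 h2)

theorem forward (hM : IsPModular p M) (P : Sylow p G) (h : PLengthLE p 1 G) {χ : IrrCharacter G}
    (hχ : χ ∈ principalBlock M G) :
    IsIrrCharacter (Nz (P : Subgroup G)) (fun n : Nz (P : Subgroup G) => χ.1 n) := by
  refine H24.res_isIrr_of_sup_charKer _ χ.2 ?_
  haveI := H3.pPrimePCore_normal p G
  have h1 := (H63.pLengthLE_one_iff (Fact.out : p.Prime)).1 h
  have hP : (P : Subgroup G) ≤ pPrimePCore p G := sylow_le_of_not_dvd_index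
    ((Nat.Prime.coprime_iff_not_dvd Fact.out).1 h1.symm) P.isPGroup'
  obtain ⟨k, hk⟩ := exists_relIndex_pPrimePCore (p := p) (G := G)
  have h2 : ¬ p ∣ (P : Subgroup G).relIndex (pPrimePCore p G) := fun hd =>
    P.not_dvd_index (hd.trans (Subgroup.relIndex_dvd_index_of_le hP))
  have h3 : pPrimePCore p G ≤ (P : Subgroup G) ⊔ pPrimeCore p G :=
    le_sup_of_isSylowIn hk ⟨hP, P.isPGroup', h2⟩
  have h4 : Nz (P : Subgroup G) ⊔ pPrimePCore p G = ⊤ := P.normalizer_sup_eq_top' hP
  rw [eq_top_iff, ← h4]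
  refine sup_le le_sup_right (h3.trans (sup_le ?_ ?_))
  · exact le_sup_of_le_right Subgroup.le_normalizer
  · exact le_sup_of_le_left (le_charKer hM hχ)

theorem res_injective (hM : IsPModular p M) (P : Sylow p G)
    (r : IrrCharacter G → IrrCharacter (Nz (P : Subgroup G)))
    (hr : ∀ χ ∈ principalBlock M G, (r χ).1 = fun n : Nz (P : Subgroup G) => χ.1 n) :
    Set.InjOn r (principalBlock M G) := by
  classical
  have hmax := hM.2.1
  haveI := Fintype.ofFinite (IrrCharacter G)
  haveI := Fintype.ofFinite (IrrCharacter (Nz (P : Subgroup G)))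
  let B := Finset.univ.filter (· ∈ principalBlock M G)
  let m : IrrCharacter (Nz (P : Subgroup G)) → ℂ := fun ψ => ((B.filter (r · = ψ)).card : ℂ)
  have hm : m ∈ sepAlg p (Nz (P : Subgroup G)) := by
    intro x y hx hy
    have h1 := H20.weak_block_orth hM (lamClosed_of_isPBlock hmax isPBlock_principalBlock)
      (x := (x : G)) (y := (y : G)) (by rwa [Subgroup.orderOf_coe]) (by rwa [Subgroup.orderOf_coe])
    rw [finsum_mem_irr] at h1
    rw [← h1, kern, ← Finset.sum_fiberwise (g := r)]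
    refine Finset.sum_congr rfl fun ψ _ => ?_
    rw [Finset.sum_congr rfl (g := fun _ => ψ.1 x * ψ.1 y⁻¹) fun χ hχ => ?_, Finset.sum_const,
      nsmul_eq_mul, mul_assoc]
    obtain ⟨h2, rfl⟩ := Finset.mem_filter.1 hχ
    rw [hr χ (Finset.mem_filter.1 h2).2]
    rfl
  have h1 : m (trivIrr _) = 1 := by
    refine Nat.cast_eq_one.2 (Finset.card_eq_one.2 ⟨trivIrr G, ?_⟩)
    ext χ
    simp only [B, Finset.mem_filter, Finset.mem_univ, true_and, Finset.mem_singleton]
    constructor
    · rintro ⟨hχ, h2⟩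
      have h3 : ∀ n : Nz (P : Subgroup G), χ.1 n = 1 := fun n =>
        (congrFun (hr χ hχ) n).symm.trans (congrFun (congrArg Subtype.val h2) n)
      have h4 : Nz (P : Subgroup G) ≤ H11.charKer χ.1 :=
        (H11.le_charKer_iff (H11.isCharacter_of_irr χ.2)).2 fun g hg =>
          (h3 ⟨g, hg⟩).trans (h3 1).symm
      haveI := H11.charKer_normal (irr_isClassFunction χ)
      have h5 : Nz (P : Subgroup G) ⊔ H11.charKer χ.1 = ⊤ :=
        P.normalizer_sup_eq_top' (Subgroup.le_normalizer.trans h4)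
      rw [sup_eq_right.2 h4] at h5
      exact Subtype.ext (funext fun g =>
        (H11.apply_eq_of_mem_charKer (h5 ▸ Subgroup.mem_top g)).trans (h3 1))
    · rintro rfl
      exact ⟨trivIrr_mem_principalBlock hmax,
        Subtype.ext (hr _ (trivIrr_mem_principalBlock hmax))⟩
  have hmem : ∀ χ ∈ principalBlock M G, χ ∈ B.filter (r · = r χ) := fun χ hχ =>
    Finset.mem_filter.2 ⟨Finset.mem_filter.2 ⟨Finset.mem_univ _, hχ⟩, rfl⟩
  have h2 : ∀ χ ∈ principalBlock M G, m (r χ) = 1 := by
    intro χ hχ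
    haveI := normal_subgroupOf_of_le_Nz (P := (P : Subgroup G)) le_rfl
    have hf := QuotientGroup.mk'_surjective ((P : Subgroup G).subgroupOf (Nz (P : Subgroup G)))
    obtain ⟨β, hβ⟩ := preimage_infl_nonempty hf hM
      (by rw [QuotientGroup.ker_mk']; exact isPGroup_subgroupOf P.isPGroup' _)
      (isPBlock_blockOf (r χ))
    have hl := (mem_blockOf_iff hmax _ _).1 hβ
    have h3 := eq_of_mem_sepAlg hM hm hl
    have h4 : (B.filter (r · = infl hf β)).Nonempty := by
      rw [← Finset.card_ne_zero, ← Nat.cast_ne_zero (R := ℂ)]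
      change m _ ≠ 0
      rw [← h3]
      exact Nat.cast_ne_zero.2 (Finset.card_ne_zero.2 ⟨χ, hmem χ hχ⟩)
    obtain ⟨ξ, hξ⟩ := h4
    obtain ⟨hξ1, hξ2⟩ := Finset.mem_filter.1 hξ
    have hξ0 := (Finset.mem_filter.1 hξ1).2
    have hdeg : ¬ p ∣ charDegree ξ.1 := by
      have e1 : charDegree ξ.1 = charDegree β.1 := by
        rw [← charDegree_infl hf, ← hξ2, hr ξ hξ0]; rfl
      rw [e1]
      intro hd
      have e2 : charDegree β.1 ∣ ((P : Subgroup G).subgroupOf (Nz (P : Subgroup G))).index :=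
        H17.deg_dvd_card β
      exact P.not_dvd_index ((hd.trans e2).trans
        (Subgroup.relIndex_dvd_index_of_le Subgroup.le_normalizer))
    have hdef := inducedBlockDefined_of_local hM P.isPGroup' Subgroup.le_normalizer
      (Cz_le_Nz _) le_rfl (isPBlock_principalBlock (M := M))
    have h5 := (H21.okuyama_of_not_dvd hM ξ (r ξ) (hr ξ hξ0) hdeg hdef).1 (by
      rw [← H17.block_eq_blockOf hmax isPBlock_principalBlock hξ0]
      exact (H21.third_main hM hdef).2 rfl)
    rw [h3, ← hξ2, ← h1]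
    exact eq_of_mem_sepAlg hM hm
      ((mem_blockOf_iff hmax _ _).1 (h5 ▸ trivIrr_mem_principalBlock hmax))
  intro χ hχ ψ hψ h
  obtain ⟨a, ha⟩ := Finset.card_eq_one.1 (Nat.cast_eq_one.1 (h2 χ hχ))
  have h3 := hmem χ hχ
  have h4 := hmem ψ hψ
  rw [← h, ha] at h4
  rw [ha] at h3
  exact (Finset.mem_singleton.1 h3).trans (Finset.mem_singleton.1 h4).symm

theorem backward (hM : IsPModular p M) (P : Sylow p G)
    (h : ∀ χ ∈ principalBlock M G,
      IsIrrCharacter (Nz (P : Subgroup G)) (fun n : Nz (P : Subgroup G) => χ.1 n)) :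
    PLengthLE p 1 G := by
  classical
  have hmax := hM.2.1
  haveI := Fintype.ofFinite (IrrCharacter G)
  haveI := Fintype.ofFinite (Nz (P : Subgroup G))
  let r : IrrCharacter G → IrrCharacter (Nz (P : Subgroup G)) := fun χ =>
    if hχ : χ ∈ principalBlock M G then ⟨_, h χ hχ⟩ else trivIrr _
  have hr : ∀ χ ∈ principalBlock M G, (r χ).1 = fun n : Nz (P : Subgroup G) => χ.1 n :=
    fun χ hχ => by simp only [r, dif_pos hχ]
  have hinj := res_injective hM P r hr
  haveI := normal_subgroupOf_of_le_Nz (P := (P : Subgroup G)) le_rfl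
  let Q := (P : Subgroup G).subgroupOf (Nz (P : Subgroup G))
  haveI := Fintype.ofFinite Q
  have hf := QuotientGroup.mk'_surjective Q
  let L : Subgroup G := ⨅ ξ : {ξ : IrrCharacter G // ξ ∈ principalBlock M G ∧
    (P : Subgroup G) ≤ H11.charKer ξ.1}, H11.charKer ξ.1.1
  haveI : L.Normal := Subgroup.normal_iInf_normal fun ξ =>
    H11.charKer_normal (irr_isClassFunction _)
  have hPL : (P : Subgroup G) ≤ L := le_iInf fun ξ => ξ.2.2
  have key : ∀ x ∈ L, ¬ p ∣ orderOf x → ∀ χ ∈ principalBlock M G, χ.1 x = χ.1 1 := by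
    intro x hx hxp χ hχ
    obtain ⟨θ', hθ', hθ⟩ := exists_eq_comp_on_regular hM hf
      (by rw [QuotientGroup.ker_mk']; exact isPGroup_subgroupOf P.isPGroup' _)
      (irr_isClassFunction (r χ))
    have e1 : ∀ z : G, ¬ p ∣ orderOf z →
        χ.1 z = ∑ ξ ∈ Finset.univ.filter (· ∈ principalBlock M G),
          ξ.1 z * classInner (fun y => θ' (QuotientGroup.mk' Q y)) (r ξ).1 := by
      intro z hz
      have e2 : ∀ φ : Nz (P : Subgroup G) → ℂ,
          ∑ ξ ∈ Finset.univ.filter (· ∈ principalBlock M G), ξ.1 z * classInner φ (r ξ).1 =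
          (Nat.card (Nz (P : Subgroup G)) : ℂ)⁻¹ * ∑ y, φ y *
            ∑ ξ ∈ Finset.univ.filter (· ∈ principalBlock M G), ξ.1 z * ξ.1 (y : G)⁻¹ := by
        intro φ
        simp only [Finset.mul_sum]
        rw [Finset.sum_comm]
        refine Finset.sum_congr rfl fun ξ hξ => ?_
        rw [H11.classInner_eq_sum_inv (H11.isCharacter_of_irr (r ξ).2),
          hr ξ (Finset.mem_filter.1 hξ).2, Finset.mul_sum, Finset.mul_sum]
        refine Finset.sum_congr rfl fun y _ => ?_
        simp only [InvMemClass.coe_inv]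
        ring
      rw [e2, ← Finset.sum_congr rfl (f := fun y => (r χ).1 y *
        ∑ ξ ∈ Finset.univ.filter (· ∈ principalBlock M G), ξ.1 z * ξ.1 (y : G)⁻¹) fun y _ => ?_,
        ← e2, Finset.sum_eq_single χ (fun ξ hξ hne => ?_)
          (fun hn => (hn (Finset.mem_filter.2 ⟨Finset.mem_univ _, hχ⟩)).elim),
        H11.classInner_irr_self (r χ).2, mul_one]
      · rw [H11.classInner_irr_of_ne (r χ).2 (r ξ).2 fun he =>
          hne (hinj hχ (Finset.mem_filter.1 hξ).2 (Subtype.ext he)).symm, mul_zero]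
      · by_cases hy : p ∣ orderOf y
        · have h1 := H20.weak_block_orth hM (lamClosed_of_isPBlock hmax isPBlock_principalBlock)
            hz (y := (y : G)) (by rwa [Subgroup.orderOf_coe])
          rw [finsum_mem_irr] at h1
          rw [h1, mul_zero, mul_zero]
        · rw [hθ y hy]
    rw [e1 x hxp, e1 1 (H16.not_dvd_orderOf_one hM)]
    refine Finset.sum_congr rfl fun ξ hξ => ?_
    have hξ0 := (Finset.mem_filter.1 hξ).2
    by_cases hP : (P : Subgroup G) ≤ H11.charKer ξ.1
    · rw [H11.apply_eq_of_mem_charKer (Subgroup.mem_iInf.1 hx ⟨ξ, hξ0, hP⟩)]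
    · have h1 : ¬ Q ≤ H11.charKer (r ξ).1 := fun hQ => hP fun u hu => by
        have h2 := H11.apply_eq_of_mem_charKer
          (hQ (show (⟨u, Subgroup.le_normalizer hu⟩ : Nz (P : Subgroup G)) ∈ Q from hu))
        rw [hr ξ hξ0] at h2
        exact (H11.mem_charKer_irr_iff ξ.2).2 h2
      have h2 : Q ≤ H11.charKer (fun y => θ' (QuotientGroup.mk' Q y)) := fun u hu y => by
        beta_reduce
        rw [map_mul, show QuotientGroup.mk' Q u = 1 from (QuotientGroup.eq_one_iff _).2 hu, one_mul]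
      rw [← H14.cosetAvg_of_le_charKer Q h2, H14.inner_cosetAvg,
        H14.cosetAvg_of_not_le_charKer Q (r ξ).2 h1, H11.classInner_zero_right, mul_zero, mul_zero]
  let K : Subgroup G := ⨅ ξ : principalBlock M G, H11.charKer ξ.1.1
  haveI : K.Normal := Subgroup.normal_iInf_normal fun ξ =>
    H11.charKer_normal (irr_isClassFunction _)
  have hK : K ≤ pPrimeCore p G := by
    refine H3.le_pPrimeCore ((Nat.Prime.coprime_iff_not_dvd Fact.out).2 fun hd => ?_).symm
    obtain ⟨x, hx⟩ := exists_prime_orderOf_dvd_card' p hd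
    refine not_dvd_orderOf_of_blockKer hM (lamClosed_of_isPBlock hmax isPBlock_principalBlock)
      ⟨_, trivIrr_mem_principalBlock hmax⟩ (x := (x : G)) (fun χ hχ =>
        H11.apply_eq_of_mem_charKer (Subgroup.mem_iInf.1 x.2 ⟨χ, hχ⟩)) ?_
    rw [Subgroup.orderOf_coe, hx]
  refine H4.pLengthLE_one_of_sylow_le P (hPL.trans (Subgroup.map_le_iff_le_comap.1 ?_))
  haveI := Subgroup.Normal.map (inferInstance : L.Normal) _
    (QuotientGroup.mk'_surjective (pPrimeCore p G))
  refine H3.le_pCore ?_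
  rintro ⟨_, l, hl, rfl⟩
  refine ⟨(orderOf l).factorization p, Subtype.ext ?_⟩
  change QuotientGroup.mk' _ l ^ _ = 1
  rw [← map_pow]
  refine (QuotientGroup.eq_one_iff _).2 (hK (Subgroup.mem_iInf.2 fun χ =>
    (H11.mem_charKer_irr_iff χ.1.2).2 (key _ (L.pow_mem hl _) ?_ χ.1 χ.2)))
  rw [orderOf_pow_of_dvd (pow_ne_zero _ (Fact.out : p.Prime).ne_zero) (Nat.ordProj_dvd _ _)]
  exact Nat.not_dvd_ordCompl Fact.out (orderOf_pos l).ne'

/-- Let p be a prime, M a maximal ideal of the algebraic integers containing p, G a finite group, P a Sylow p-subgroup and N = N_G(P). Then G has p-length 1 (G = O_{p',p,p'}(G)) if and only if every irreducible character in the principal p-block of G restricts to an irreducible character of N. -/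
theorem result {G : Type*} [Group G] [Finite G] (p : ℕ) [Fact p.Prime] (M : Ideal Cfsg.AlgInt) (hM : Cfsg.IsPModular p M) (P : Sylow p G) : Cfsg.PLengthLE p 1 G ↔ ∀ χ ∈ Cfsg.principalBlock M G, Cfsg.IsIrrCharacter ↥(Subgroup.normalizer ((P : Subgroup G) : Set G)) (fun n : ↥(Subgroup.normalizer ((P : Subgroup G) : Set G)) => (χ : G → ℂ) n) := by
  exact ⟨fun h χ hχ => forward hM P h hχ, backward hM P⟩

end Cfsg.Agent.S4711
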