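import Cfsg.Statements.S4610
import Cfsg.Agent.H23.SecT
import Cfsg.Agent.H21.Feit
import Cfsg.Agent.H92.Direct
import Cfsg.Agent.S4711

set_option autoImplicit false
open Cfsg

namespace Cfsg.Agent.S4610

open Cfsg.Agent.H21 Cfsg.Agent.H23.SecT
open Cfsg.Agent.H17 (Cg mem_Cg)
open Cfsg.Agent.H18 (ppart isPPart_ppart ppart_eq_iff)
open scoped Classical

universe u

variable {G : Type u} [Group G] [Fintype G] {p q : ℕ} [Fact p.Prime] [hq : Fact q.Prime]
  {Mp Mq : Ideal AlgInt}

/-- The number of `p`-regular elements of the centralizer of a `p`-element is divisible by the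
`q`-part of the group order when the two principal blocks meet trivially. -/
theorem pow_dvd (hMp : IsPModular p Mp) (hMq : IsPModular q Mq)
    (h : ∀ χ : IrrCharacter G, χ ∈ principalBlock Mp G → χ ∈ principalBlock Mq G →
      (χ : G → ℂ) = fun _ => 1) {x : G} (hx : ∃ k : ℕ, orderOf x = p ^ k) :
    q ^ (Nat.card G).factorization q ∣
      (Finset.univ.filter fun y : Cg x => ¬ p ∣ orderOf y).card := by
  have := Fintype.ofFinite (IrrCharacter G)
  have tp := triv_mem_principal (G := G) hMp.2.1
  have tq := triv_mem_principal (G := G) hMq.2.1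
  set s := Finset.univ.filter fun y : Cg x => ¬ p ∣ orderOf y with hs
  have h1 : ∀ ξ : IrrCharacter G, ∑ y ∈ s, ξ.1 (x * y : G)⁻¹ =
      (Nat.card (Cg x) : ℂ) * TT p (ind x) (triv G) ξ := fun ξ => by
    rw [card_Cg_mul_TT_ind hx]
    simp only [triv_apply, one_mul]
    convert rfl
  have h2 : ((s.filter fun y : Cg x => IsConj 1 (ppart q (x * y : G)⁻¹)).card : ℂ) =
      TT q (ind 1) (triv G) (triv G) * s.card := by
    calc _ = ∑ y ∈ s, ind 1 (ppart q (x * y : G)⁻¹) * (triv G).1 (x * y : G)⁻¹ := by
          simp only [ind, triv_apply, mul_one]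
          rw [Finset.card_filter]
          push_cast
          exact Finset.sum_congr rfl fun y _ => by split_ifs <;> rfl
      _ = ∑ ξ ∈ fB (principalBlock Mq G), TT q (ind 1) (triv G) ξ * ∑ y ∈ s, ξ.1 (x * y : G)⁻¹ := by
          simp only [tw_eq_sum hMq isPBlock_principal (ind_class 1) tq, Finset.mul_sum]
          exact Finset.sum_comm
      _ = _ := by
          rw [Finset.sum_eq_single_of_mem (triv G) (mem_fB.2 tq)]
          · simp [triv_apply]
          · intro ξ hξ hne
            rw [h1, TT.eq_1 p, ← blockPart_tw hMp isPBlock_principal (ind_class x) tp,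
              classInner_blockPart_of_notMem _ fun k => hne (Subtype.ext (h ξ k (mem_fB.1 hξ))),
              mul_zero, mul_zero]
  have h0 : blockHeight q (principalBlock Mq G) (triv G).1 = 0 :=
    (height_principal_eq_zero_iff hMq _).2 (by
      rw [show charDegree (triv G).1 = 1 from charDegree_one]
      exact hq.out.not_dvd_one)
  have h3 := not_pow_succ_dvd_cZ_of_height_zero hMq isPBlock_principal tq h0 tq
  rw [h0, zero_add, pow_one] at h3
  have h4 : (q : ℤ) ^ (Nat.card G).factorization q *
      (s.filter fun y : Cg x => IsConj 1 (ppart q (x * y : G)⁻¹)).card =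
      cZ q (principalBlock Mq G) (triv G) (triv G) * s.card := by
    have := cZ_eq hMq tq (triv G)
    rw [defect_principal hMq] at this
    apply Int.cast_injective (α := ℂ)
    push_cast
    rw [h2, this, mul_assoc]
  exact_mod_cast (Nat.prime_iff_prime_int.1 hq.out).pow_dvd_of_dvd_mul_left _ h3 (Dvd.intro _ h4)

omit hq in
theorem direct (P : Sylow p G) (h : ∀ x : G, (∃ k : ℕ, orderOf x = p ^ k) → (P : Subgroup G).index ∣
    (Finset.univ.filter fun y : Cg x => ¬ p ∣ orderOf y).card) :
    (P : Subgroup G) ⊔ Subgroup.centralizer (P : Set G) = ⊤ := by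
  have hp : p.Prime := Fact.out
  let r : G → ℕ := fun x => (Finset.univ.filter fun g => ppart p g = x).card
  have hr : ∀ x : G, (∃ k : ℕ, orderOf x = p ^ k) →
      r x = (Finset.univ.filter fun y : Cg x => ¬ p ∣ orderOf y).card := fun x hx => by
    have := H20.sum_pPart_eq hp hx fun _ => 1
    simp only [Finset.sum_const, nsmul_eq_mul, mul_one, Nat.cast_inj] at this
    simp only [r, ppart_eq_iff]
    convert this
  have hpos : ∀ x : G, (∃ k : ℕ, orderOf x = p ^ k) → 0 < r x := fun x hx =>
    Finset.card_pos.2 ⟨x, Finset.mem_filter.2 ⟨Finset.mem_univ _, ppart_eq_iff.2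
      ⟨1, mul_one x, Commute.one_right x, hx, by simpa using hp.ne_one⟩⟩⟩
  have hP : ∀ x ∈ (P : Subgroup G), ∃ k : ℕ, orderOf x = p ^ k := fun x hx => by
    obtain ⟨k, hk⟩ := IsPGroup.iff_orderOf.1 P.isPGroup' ⟨x, hx⟩
    exact ⟨k, by rw [← hk, Subgroup.orderOf_mk]⟩
  have h1 : ∀ x ∈ Finset.univ, (if x ∈ (P : Subgroup G) then (P : Subgroup G).index else 0) = r x := by
    refine (Finset.sum_eq_sum_iff_of_le fun x _ => ?_).1 ?_
    · split_ifs with hx
      · exact Nat.le_of_dvd (hpos x (hP x hx)) (hr x (hP x hx) ▸ h x (hP x hx))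
      · exact Nat.zero_le _
    · have e : ∑ i, r i = (Finset.univ : Finset G).card :=
        (Finset.card_eq_sum_card_fiberwise (f := ppart p) (s := Finset.univ)
          fun _ _ => Finset.mem_coe.2 (Finset.mem_univ _)).symm
      rw [e, ← Finset.sum_filter, Finset.sum_const, smul_eq_mul, Finset.card_univ, ← Nat.card_eq_fintype_card,
        ← Subgroup.card_mul_index (P : Subgroup G), Nat.card_eq_fintype_card, Fintype.card_subtype]
  have h2 : ∀ g : G, ¬ p ∣ orderOf g → g ∈ Subgroup.centralizer (P : Set G) := fun g hg x hx => by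
    have k1 := h1 x (Finset.mem_univ _)
    have k2 := h1 1 (Finset.mem_univ _)
    rw [if_pos (show x ∈ (P : Subgroup G) from hx), hr x (hP x hx)] at k1
    rw [if_pos (one_mem _), k1] at k2
    have k3 := Finset.surjOn_of_injOn_of_card_le (fun y : Cg x => (y : G))
      (s := Finset.univ.filter fun y : Cg x => ¬ p ∣ orderOf y)
      (t := Finset.univ.filter fun g => ppart p g = 1) (fun y hy => by
        simp only [Finset.coe_filter, Finset.mem_univ, true_and, Set.mem_ofPred_eq] at hy ⊢
        exact ppart_eq_iff.2 ⟨y, one_mul _, Commute.one_left _, ⟨0, by simp⟩, by simpa using hy⟩)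
      Subtype.val_injective.injOn k2.ge
    obtain ⟨y, -, rfl⟩ := k3 (show g ∈ _ from Finset.mem_coe.2 (Finset.mem_filter.2
      ⟨Finset.mem_univ _, ppart_eq_iff.2 ⟨g, one_mul _, Commute.one_left _, ⟨0, by simp⟩, hg⟩⟩))
    exact (mem_Cg.1 y.2).symm
  refine (Subgroup.eq_top_iff' _).2 fun g => ?_
  obtain ⟨y, h3, -, h4, h5⟩ := isPPart_ppart (p := p) g
  refine h3 ▸ Subgroup.mul_mem_sup ?_ (h2 y h5)
  by_contra k
  have k1 := h1 _ (Finset.mem_univ (ppart p g))
  rw [if_neg k] at k1
  exact (hpos _ h4).ne k1

/-- Let G be a finite group and p a prime dividing its order; fix for every prime r a maximal ideal M r of the algebraic integers containing r. Then, for every prime q ≠ p dividing the order of G, the principal p-block and the principal q-block of G have only the principal character in common, if and only if a Sylow p-subgroup P of G is normal and G is generated by P and its largest normal subgroup of order prime to p (that is, G is the direct product of P and that subgroup). -/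
theorem result {G : Type*} [Group G] [Finite G] (p : ℕ) [Fact p.Prime] (hp : p ∣ Nat.card G) (M : ℕ → Ideal Cfsg.AlgInt) (hM : ∀ r : ℕ, r.Prime → Cfsg.IsPModular r (M r)) (P : Sylow p G) :
    (∀ q : ℕ, q.Prime → q ≠ p → q ∣ Nat.card G →
        ∀ χ : Cfsg.IrrCharacter G, χ ∈ Cfsg.principalBlock (M p) G → χ ∈ Cfsg.principalBlock (M q) G → (χ : G → ℂ) = fun _ => 1) ↔
      ((P : Subgroup G).Normal ∧ (P : Subgroup G) ⊔ Cfsg.pPrimeCore p G = ⊤) := by
  have hp' : p.Prime := Fact.out
  have := Fintype.ofFinite G
  constructor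
  · intro h
    obtain ⟨h1, H, h2, h3, -, h4, -⟩ := H92.sylow_direct_of_sup_centralizer P (direct P fun x hx =>
      (Nat.dvd_iff_prime_pow_dvd_dvd _ _).2 fun q k hq hk => by
        rcases k.eq_zero_or_pos with rfl | hk0
        · simp
        have hq' : q ∣ (P : Subgroup G).index := (dvd_pow_self q hk0.ne').trans hk
        have : Fact q.Prime := ⟨hq⟩
        refine (pow_dvd_pow q ((hq.pow_dvd_iff_le_factorization Nat.card_pos.ne').1
          (hk.trans (Subgroup.index_dvd_card _)))).trans (pow_dvd (hM p hp') (hM q hq)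
            (h q hq ?_ (hq'.trans (Subgroup.index_dvd_card _))) hx)
        rintro rfl
        exact P.not_dvd_index hq')
    refine ⟨h1, top_le_iff.1 (h3.symm.sup_eq_top.ge.trans (sup_le_sup_left ?_ _))⟩
    exact H3.le_pPrimeCore ((hp'.coprime_iff_not_dvd.2 h4).symm)
  · rintro ⟨h1, h2⟩ q hq hne - χ k1 k2
    have : Fact q.Prime := ⟨hq⟩
    refine H11.irr_eq_one_of_charKer_eq_top χ.2 (top_le_iff.1 (h2.ge.trans (sup_le
      (le_trans (H3.le_pPrimeCore ?_) (S4711.le_charKer (hM q hq) k2))
      (S4711.le_charKer (hM p hp') k1))))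
    rw [P.card_eq_multiplicity]
    exact ((Nat.coprime_primes hp' hq).2 hne.symm).pow_left _

end Cfsg.Agent.S4610
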