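import Cfsg.Statements.S4611
import Cfsg.Agent.H22.PSolvHeight

set_option autoImplicit false
open Cfsg

namespace Cfsg.Agent.S4611


/-- Let G be a finite solvable group and π a nonempty set of primes, each dividing the order of G; fix for each p in π a maximal ideal M p of the algebraic integers containing p. Then the only irreducible character lying in the principal p-block for every p in π is the principal character if and only if G is generated by the subgroups O_{p'}(G), p in π (the largest normal subgroups of order prime to p). -/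
theorem result {G : Type*} [Group G] [Finite G] [Group.IsSolvable G] (π : Set ℕ) (hπ : ∀ p ∈ π, p.Prime ∧ p ∣ Nat.card G) (hne : π.Nonempty) (M : ℕ → Ideal Cfsg.AlgInt) (hM : ∀ p ∈ π, Cfsg.IsPModular p (M p)) :
    (∀ χ : Cfsg.IrrCharacter G, (∀ p ∈ π, χ ∈ Cfsg.principalBlock (M p) G) → (χ : G → ℂ) = fun _ => 1) ↔
      ⨆ p ∈ π, Cfsg.pPrimeCore p G = ⊤ := by
  have key : ∀ χ : IrrCharacter G, (∀ p ∈ π, χ ∈ principalBlock (M p) G) ↔
      ⨆ p ∈ π, pPrimeCore p G ≤ H11.charKer χ.1 := by
    intro χ
    rw [iSup₂_le_iff]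
    refine forall₂_congr fun p hp => ?_
    haveI : Fact p.Prime := ⟨(hπ p hp).1⟩
    rw [H22.mem_principal_iff_of_isPSolvable (hM p hp)
      (H24.isPSolvable_of_isSolvable (hπ p hp).1 G inferInstance),
      H11.le_charKer_iff (H11.irr_isCharacter χ)]
  haveI : (⨆ p ∈ π, pPrimeCore p G).Normal :=
    Subgroup.biSup_normal π _ fun _ _ => inferInstance
  constructor
  · intro h
    by_contra hne
    obtain ⟨g, hg⟩ : ∃ g, g ∉ ⨆ p ∈ π, pPrimeCore p G := by
      by_contra hc
      push Not at hc
      exact hne (Subgroup.eq_top_iff' _ |>.2 hc)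
    obtain ⟨χ, hχ, h1, h2⟩ := H11.exists_irr_le_charKer_not_mem _ hg
    have := h ⟨χ, hχ⟩ ((key _).2 h1)
    simp only at this
    rw [this, H11.charKer_one] at h2
    exact h2 (Subgroup.mem_top g)
  · intro h χ hχ
    have := (key χ).1 hχ
    rw [h, top_le_iff] at this
    exact H11.irr_eq_one_of_charKer_eq_top χ.2 this

end Cfsg.Agent.S4611
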