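import Cfsg.Statements.S4620
import Cfsg.Agent.H8.SylowIn
import Cfsg.Agent.H3.Fitting
import Cfsg.Agent.H4.CoprimeAction

set_option autoImplicit false
open scoped Pointwise
open Cfsg

namespace Cfsg.Agent.S4620

open scoped Pointwise

theorem ti {H : Type*} [Group H] [Finite H] {p : ℕ} [Fact p.Prime] (P : Sylow p H)
    (hTI : ∀ g : H, g ∉ Subgroup.normalizer ((P : Subgroup H) : Set H) →
      (P : Subgroup H) ⊓ (MulAut.conj g • (P : Subgroup H)) = ⊥) (R : Sylow p H) {g x : H}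
    (hx : x ∈ (R : Subgroup H)) (hx' : g⁻¹ * x * g ∈ (R : Subgroup H)) (h1 : x ≠ 1) :
    g ∈ Subgroup.normalizer ((R : Subgroup H) : Set H) := by
  obtain ⟨c, rfl⟩ := MulAction.exists_smul_eq H P R
  rw [Sylow.coe_subgroup_smul] at hx hx' ⊢
  rw [H8.normalizer_conj_smul]
  rw [H8.mem_conj_smul] at hx hx' ⊢
  by_contra h
  have h2 : c⁻¹ * x * c ∈ (P : Subgroup H) ⊓ (MulAut.conj (c⁻¹ * g * c) • (P : Subgroup H)) := by
    refine ⟨hx, H8.mem_conj_smul.2 ?_⟩
    convert hx' using 1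
    group
  rw [hTI _ h, Subgroup.mem_bot] at h2
  apply h1
  calc x = c * (c⁻¹ * x * c) * c⁻¹ := by group
    _ = 1 := by rw [h2]; group

theorem dvd_card {H : Type*} [Group H] [Finite H] {p : ℕ} [hp : Fact p.Prime]
    (hOp' : Cfsg.pPrimeCore p H = ⊥) {A : Subgroup H} (hA : A.IsSubnormal) (h : A ≠ ⊥) :
    p ∣ Nat.card A := by
  by_contra h1
  exact h (le_bot_iff.1 (hOp' ▸ H3.le_pPrimeCore_of_isSubnormal hA
    ((hp.out.coprime_iff_not_dvd.2 h1).symm)))

theorem key {H : Type*} [Group H] [Finite H] {p : ℕ} [hp : Fact p.Prime]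
    (hOp : Cfsg.pCore p H = ⊥) (hOp' : Cfsg.pPrimeCore p H = ⊥) (P : Sylow p H)
    (hTI : ∀ g : H, g ∉ Subgroup.normalizer ((P : Subgroup H) : Set H) →
      (P : Subgroup H) ⊓ (MulAut.conj g • (P : Subgroup H)) = ⊥) {A B : Subgroup H}
    (hA : A.IsSubnormal) (hB : B.IsSubnormal) (hA1 : A ≠ ⊥) (hB1 : B ≠ ⊥)
    (h : ∀ a ∈ A, ∀ b ∈ B, a * b = b * a) : False := by
  have pg : ∀ x : H, orderOf x = p → IsPGroup p (Subgroup.zpowers x) := fun x hx =>
    IsPGroup.of_card (n := 1) (by rw [Nat.card_zpowers, hx, pow_one])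
  have ne : ∀ x : H, orderOf x = p → x ≠ 1 := fun x hx h => by
    rw [h, orderOf_one] at hx
    exact hp.out.one_lt.ne hx
  obtain ⟨a, ha⟩ := exists_prime_orderOf_dvd_card' p (dvd_card hOp' hA hA1)
  obtain ⟨b, hb⟩ := exists_prime_orderOf_dvd_card' p (dvd_card hOp' hB hB1)
  rw [← Subgroup.orderOf_coe] at ha hb
  obtain ⟨R, hR⟩ := (pg _ ha).exists_le_sylow
  have haR := hR (Subgroup.mem_zpowers _)
  have h1 : B ≤ Subgroup.normalizer ((R : Subgroup H) : Set H) := fun x hx =>
    ti P hTI R haR (by rwa [mul_assoc, h a a.2 x hx, inv_mul_cancel_left]) (ne _ ha)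
  have h2 : Subgroup.zpowers (b : H) ≤ R :=
    (H8.isSylowIn_top R).le_of_le_normalizer' (pg _ hb) le_top ((Subgroup.zpowers_le.2 b.2).trans h1)
  have h3 : ((R : Subgroup H) ⊓ B).IsSubnormal :=
    .step _ B inf_le_right hB ((Subgroup.normal_subgroupOf_iff_le_normalizer inf_le_right).2
      (H4.le_normalizer_inf h1 Subgroup.le_normalizer))
  have h4 := H3.le_pCore_of_isSubnormal h3 (R.isPGroup'.to_le inf_le_left)
  rw [hOp] at h4
  exact ne _ hb (h4 ⟨h2 (Subgroup.mem_zpowers _), b.2⟩)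

/-- Let H be a finite group with no nontrivial normal p-subgroup and no nontrivial normal subgroup of order prime to p, whose Sylow p-subgroup P is nontrivial and a trivial-intersection set (P meets its conjugates by elements outside N_H(P) trivially). Then H has a unique minimal normal subgroup N; N is non-abelian simple with trivial centralizer in H (so H embeds in Aut(N)), and a Sylow p-subgroup of N is again a nontrivial trivial-intersection set in N. -/
theorem result {H : Type*} [Group H] [Finite H] (p : ℕ) [Fact p.Prime] (hOp : Cfsg.pCore p H = ⊥) (hOp' : Cfsg.pPrimeCore p H = ⊥) (P : Sylow p H) (hP1 : (P : Subgroup H) ≠ ⊥)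
    (hTI : ∀ g : H, g ∉ Subgroup.normalizer ((P : Subgroup H) : Set H) → (P : Subgroup H) ⊓ (MulAut.conj g • (P : Subgroup H)) = ⊥) :
    ∃ N : Subgroup H, N.Normal ∧ N ≠ ⊥ ∧ (∀ K : Subgroup H, K.Normal → K ≠ ⊥ → N ≤ K) ∧
      IsSimpleGroup N ∧ ¬ IsMulCommutative N ∧ Subgroup.centralizer (N : Set H) = ⊥ ∧
      ∀ Q : Sylow p N, (Q : Subgroup N) ≠ ⊥ ∧
        ∀ n : N, n ∉ Subgroup.normalizer ((Q : Subgroup N) : Set N) → (Q : Subgroup N) ⊓ (MulAut.conj n • (Q : Subgroup N)) = ⊥ := by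
  have : Nontrivial H := by
    by_contra h
    rw [not_nontrivial_iff_subsingleton] at h
    exact hP1 (Subsingleton.elim _ _)
  obtain ⟨N, hN, hN1, hmin⟩ := H3.exists_minimal_normal H
  refine ⟨N, hN, hN1, fun K hK hK1 => ?_, ?_, fun h => ?_, ?_, fun Q => ⟨fun h => ?_, ?_⟩⟩
  · rcases hmin (N ⊓ K) inferInstance inf_le_left with h | h
    · exact (key hOp hOp' P hTI hN.isSubnormal hK.isSubnormal hN1 hK1 fun a ha b hb =>
        Subgroup.commute_of_normal_of_disjoint N K hN hK (disjoint_iff.2 h) a b ha hb).elim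
    · exact inf_eq_left.1 h
  · have := (Subgroup.nontrivial_iff_ne_bot N).2 hN1
    refine ⟨fun K hK => ?_⟩
    rw [or_iff_not_imp_left]
    intro hK1
    obtain ⟨S, hS, hS1, hSK, hSmin⟩ := H3.exists_minimal_normal_le K hK1
    have hne : ∀ T : Subgroup N, T ≠ ⊥ → T.map N.subtype ≠ ⊥ := fun T hT h =>
      hT ((Subgroup.map_eq_bot_iff_of_injective T N.subtype_injective).1 h)
    have h1 : ∀ h : H, S ≤ S.map (MulAut.conjNormal h : MulAut N).toMonoidHom := by
      intro h
      have hT : (S.map (MulAut.conjNormal h : MulAut N).toMonoidHom).Normal :=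
        hS.map _ (MulEquiv.surjective _)
      rcases hSmin (S ⊓ S.map (MulAut.conjNormal h : MulAut N).toMonoidHom) inferInstance
        inf_le_left with h1 | h1
      · refine (key hOp hOp' P hTI (hS.isSubnormal.trans' hN.isSubnormal)
          (hT.isSubnormal.trans' hN.isSubnormal) (hne _ hS1) (hne _ fun h2 => hS1
            ((Subgroup.map_eq_bot_iff_of_injective S (MulEquiv.injective _)).1 h2)) ?_).elim
        rintro _ ⟨a, ha, rfl⟩ _ ⟨b, hb, rfl⟩
        exact congrArg Subtype.val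
          (Subgroup.commute_of_normal_of_disjoint _ _ hS hT (disjoint_iff.2 h1) a b ha hb).eq
      · exact inf_eq_left.1 h1
    have h2 : (S.map N.subtype).Normal := by
      refine ⟨?_⟩
      rintro _ ⟨x, hx, rfl⟩ g
      obtain ⟨y, hy, rfl⟩ := h1 g⁻¹ hx
      refine ⟨y, hy, ?_⟩
      simp [mul_assoc]
    rcases hmin _ h2 (Subgroup.map_subtype_le S) with h3 | h3
    · exact absurd h3 (hne _ hS1)
    · rw [eq_top_iff]
      intro x _
      obtain ⟨y, hy, hy'⟩ : (x : H) ∈ S.map N.subtype := by rw [h3]; exact x.2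
      exact hSK (Subtype.ext hy' ▸ hy)
  · exact key hOp hOp' P hTI hN.isSubnormal hN.isSubnormal hN1 hN1 fun a ha b hb =>
      congrArg Subtype.val (h.is_comm.comm (⟨a, ha⟩ : N) ⟨b, hb⟩)
  · by_contra h
    exact key hOp hOp' P hTI hN.isSubnormal (Subgroup.normal_centralizer (H := N)).isSubnormal
      hN1 h fun a ha b hb => hb a ha
  · have h1 := Q.not_dvd_index
    rw [h, Subgroup.index_bot] at h1
    exact h1 (dvd_card hOp' hN.isSubnormal hN1)
  · intro n hn
    obtain ⟨R, hR⟩ := (Q.isPGroup'.map N.subtype).exists_le_sylow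
    have h1 : (R : Subgroup H).subgroupOf N = Q :=
      Q.is_maximal' R.isPGroup'.comap_subtype (Subgroup.map_le_iff_le_comap.1 hR)
    rw [eq_bot_iff]
    intro x hx
    obtain ⟨hx, hx'⟩ := Subgroup.mem_inf.1 hx
    by_contra h2
    apply hn
    rw [H8.mem_conj_smul, ← h1] at hx'
    rw [← h1] at hx
    have h3 := ti P hTI R hx hx' fun h => h2 (Subtype.ext h)
    rw [← h1, Subgroup.mem_normalizer_iff]
    exact fun y => Subgroup.mem_normalizer_iff.1 h3 y

end Cfsg.Agent.S4620
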