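import Cfsg.Statements.S4624
import Cfsg.Agent.H24.ElemAb
import Cfsg.Agent.S0244
import Cfsg.Agent.S0261
import Cfsg.Agent.H28.PSL2Small

set_option autoImplicit false
open Cfsg

namespace Cfsg.Agent.S4624


open Cfsg.Agent.H24 Cfsg.Agent.H79 Subgroup

theorem aux {F : Type*} [Field F] [Fintype F] (hF : Odd (Fintype.card F)) (n : ℕ)
    (P : Sylow 2 (Matrix.symplecticGroup (Fin (n * 1)) F)) :
    EA 2 (P : Subgroup (Matrix.symplecticGroup (Fin (n * 1)) F)) := by
  classical
  obtain ⟨D⟩ : Nonempty (Sylow 2 (Matrix.SpecialLinearGroup (Fin 2) F)) := inferInstance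
  let e : Fin 2 ≃ Fin 1 ⊕ Fin 1 := (finSumFinEquiv (m := 1) (n := 1)).symm
  let f : Matrix.SpecialLinearGroup (Fin 2) F →* Matrix (Fin 1 ⊕ Fin 1) (Fin 1 ⊕ Fin 1) F :=
    (Matrix.reindexAlgEquiv F F e).toMulEquiv.toMonoidHom.comp
      Matrix.SpecialLinearGroup.coeMonoidHom
  have hf : ∀ g, f g ∈ Matrix.symplecticGroup (Fin 1) F := fun g =>
    (S0244.result _).2 ((Matrix.det_reindex_self e g.1).trans g.2)
  have hfi : Function.Injective (f.codRestrict _ hf) := fun a b h =>
    Subtype.ext ((Matrix.reindexAlgEquiv F F e).injective (congrArg Subtype.val h))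
  obtain ⟨ψ, hψ⟩ := exists_wr_sp n le_rfl ((f.codRestrict _ hf).comp (D : Subgroup _).subtype)
    (hfi.comp Subtype.val_injective)
  obtain ⟨k, hk, ⟨eD⟩⟩ := S0261.result hF D
  have hD : EA 2 (D : Subgroup (Matrix.SpecialLinearGroup (Fin 2) F)) :=
    (ea_quaternion hk).of_equiv eD.symm
  obtain ⟨T⟩ : Nonempty (Sylow 2 (Equiv.Perm (Fin n))) := inferInstance
  have hinj : Function.Injective (ψ.comp (MonoidHom.fst _ PUnit.{1})) := fun a b h =>
    Prod.ext (hψ h) (Subsingleton.elim _ _)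
  refine ea_sylow_congr topEquiv (ea_sylow_of_wr _ hinj D.isPGroup' (fun _ => ⟨0, rfl⟩) T ?_ ⊤ ⊥
    bot_le (inf_le_left.trans bot_le) (fun i d => ?_)
    (fun e => by rw [show e = 1 from rfl, map_one]; exact one_mem _) (fun _ _ => mem_top _)) P
  · have h1 : 1 < Fintype.card F := Fintype.one_lt_card
    rw [val_card_sp hF, val_card_sylow, H28.card_SL2 rfl, Nat.card_eq_fintype_card,
      Fintype.card_fin, mul_one, padicValNat.mul (by omega)
        (Nat.sub_ne_zero_of_lt (Nat.one_lt_pow two_ne_zero h1)),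
      padicValNat.eq_zero_of_not_dvd hF.not_two_dvd_nat, zero_add]
    omega
  · exact mem_sup_left (mem_powSub_of_ea hD _ (fun x => mem_inf.2 ⟨wb_mem _ _ _ _, mem_top _⟩) d)

/-- Let F be a finite field of odd order and n ≥ 1. A Sylow 2-subgroup P of the symplectic group Sp_{2n}(F) has P/P' elementary abelian: the square of every element of P lies in the derived subgroup of P. -/
theorem result {F : Type*} [Field F] [Fintype F] (hF : Odd (Fintype.card F)) (n : ℕ) (hn : 1 ≤ n) (P : Sylow 2 (Matrix.symplecticGroup (Fin n) F)) :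
    ∀ x : (P : Subgroup (Matrix.symplecticGroup (Fin n) F)), x ^ 2 ∈ commutator (P : Subgroup (Matrix.symplecticGroup (Fin n) F)) := by
  revert P
  rw [← mul_one n]
  exact aux hF n

end Cfsg.Agent.S4624
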