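import Cfsg.Statements.S4705
import Cfsg.Agent.H58.LinP2
import Cfsg.Agent.H57.SpecSL2

set_option autoImplicit false
open Cfsg

namespace Cfsg.Agent.S4705

/-- Let G be a finite group with centre Z and p > 5 a prime such that a Sylow p-subgroup of G has order p and is not normal. If G has a faithful irreducible character of degree p − 2, then p = 2^a + 1 for some a and G is isomorphic to the direct product of SL(2, 2^a) with Z. -/
theorem result {G : Type*} [Group G] [Finite G] (p : ℕ) [Fact p.Prime] (hp : 5 < p) (P : Sylow p G) (hP : Nat.card P = p) (hnn : ¬ (P : Subgroup G).Normal) (ζ : G → ℂ) (hζ : Cfsg.IsIrrCharacter G ζ) (hfaith : ∀ g : G, ζ g = ζ 1 → g = 1) (hdeg : Cfsg.charDegree ζ = p - 2) : ∃ (a : ℕ) (F : Type) (_ : Field F) (_ : Fintype F), p = 2 ^ a + 1 ∧ Fintype.card F = 2 ^ a ∧ Nonempty (G ≃* Matrix.SpecialLinearGroup (Fin 2) F × Subgroup.center G) := by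
  classical
  have := Fintype.ofFinite G
  obtain ⟨u, x, α, e, S⟩ := H58.exists_sett P hP
  have hK : commutator G ⊔ Subgroup.center G = ⊤ := by
    rcases S.small_cases hnn (ζ := ⟨ζ, hζ⟩) hfaith (by simp only [hdeg]; omega) with
      ⟨a, -, f, -, h1, h2⟩ | ⟨hC, h1, ω, ψ, a, ha, F, h2⟩
    · have h3 := S.one_lt_of_mu hnn (ζ := ⟨ζ, hζ⟩) hfaith h2
      have h4 : e ∣ p - 1 - (p - 2) := Nat.dvd_sub S.e_dvd ⟨f, hdeg ▸ h1⟩
      rw [show p - 1 - (p - 2) = 1 by omega, Nat.dvd_one] at h4
      omega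
    · simp only [hdeg] at h1
      exact F.commutator_sup_center S hC (by omega) (by omega)
  have hdec : ∀ g : G, ∃ k ∈ commutator G, ∃ z ∈ Subgroup.center G, k * z = g := fun g =>
    Subgroup.mem_sup_of_normal_right.1 (hK ▸ Subgroup.mem_top g)
  have hperf : commutator (commutator G) = ⊤ := by
    apply Subgroup.map_injective (commutator G).subtype_injective
    rw [← MonoidHom.range_eq_map, Subgroup.range_subtype, commutator_def (commutator G),
      Subgroup.map_commutator, ← MonoidHom.range_eq_map, Subgroup.range_subtype]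
    refine le_antisymm (Subgroup.commutator_le_left _ _) ?_
    conv_lhs => rw [commutator_def]
    refine Subgroup.commutator_le.2 fun a _ b _ => ?_
    obtain ⟨k, hk, z, hz, rfl⟩ := hdec a
    obtain ⟨l, hl, w, hw, rfl⟩ := hdec b
    have h1 := Subgroup.mem_center_iff.1 hz
    have h2 := Subgroup.mem_center_iff.1 hw
    have : k * z * (l * w) * (k * z)⁻¹ * (l * w)⁻¹ = k * l * k⁻¹ * l⁻¹ := by
      simp only [mul_inv_rev]
      calc k * z * (l * w) * (z⁻¹ * k⁻¹) * (w⁻¹ * l⁻¹)
          = k * (z * (l * w)) * (z⁻¹ * k⁻¹) * (w⁻¹ * l⁻¹) := by group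
        _ = k * l * (w * k⁻¹) * (w⁻¹ * l⁻¹) := by rw [← h1]; group
        _ = _ := by rw [← h2]; group
    rw [commutatorElement_def, this]
    exact Subgroup.commutator_mem_commutator hk hl
  have hu : u ∈ commutator G := by
    obtain ⟨k, hk, z, hz, h⟩ := hdec u
    have hc : Commute k z := Subgroup.mem_center_iff.1 hz k
    have h1 : u ^ orderOf z ∈ commutator G := by
      rw [← h, hc.mul_pow, pow_orderOf_eq_one, mul_one]; exact pow_mem hk _
    have h2 : (orderOf z).Coprime (orderOf u) := by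
      rw [S.ou]
      exact ((Nat.Prime.coprime_iff_not_dvd Fact.out).2 (S.not_dvd_of_mem_center hnn hz)).symm
    obtain ⟨m, hm⟩ := exists_pow_eq_self_of_coprime h2
    rw [← hm]; exact pow_mem h1 _
  have hPK : (P : Subgroup G) ≤ commutator G := by rw [S.hP, Subgroup.zpowers_le]; exact hu
  have h1 : Nat.card (P.subtype hPK) = p :=
    (Nat.card_congr (Subgroup.subgroupOfEquivOfLe hPK).toEquiv).trans hP
  have h2 : ¬ (P.subtype hPK : Subgroup (commutator G)).Normal := fun h => hnn ⟨fun n hn g => by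
    obtain ⟨k, hk, z, hz, rfl⟩ := hdec g
    have h3 := h.conj_mem ⟨n, hPK hn⟩ hn ⟨k, hk⟩
    have h4 : k * z * n * (k * z)⁻¹ = k * n * k⁻¹ := by
      rw [mul_assoc k, ← Subgroup.mem_center_iff.1 hz n]; group
    rw [h4]; exact h3⟩
  obtain ⟨F, _, _, hF, h3, ⟨φ⟩⟩ := H58.iso_SL2_of_perfect hperf hp _ h1 h2
    (H58.isIrr_restrict_of_sup_center hζ hK) (fun g hg => Subtype.ext (hfaith g hg)) hdeg
  obtain ⟨n, -, hn⟩ := FiniteField.card F 2
  refine ⟨n, F, inferInstance, inferInstance, by rw [h3, hn], hn, ?_⟩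
  have hc : ∀ (a : commutator G) (b : Subgroup.center G),
      Commute ((commutator G).subtype a) ((Subgroup.center G).subtype b) := fun a b =>
    Subgroup.mem_center_iff.1 b.2 a
  let f := MonoidHom.noncommCoprod _ _ hc
  have h4 : Function.Injective f := by
    rw [MonoidHom.noncommCoprod_injective]
    refine ⟨Subgroup.subtype_injective _, Subgroup.subtype_injective _, ?_⟩
    rw [Subgroup.range_subtype, Subgroup.range_subtype, Subgroup.disjoint_def]
    intro z hz hz'
    have h5 : φ ⟨z, hz⟩ ∈ Subgroup.center _ := Subgroup.mem_center_iff.2 fun y => by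
      obtain ⟨y, rfl⟩ := φ.surjective y
      rw [← map_mul, ← map_mul]
      exact congrArg φ (Subtype.ext (Subgroup.mem_center_iff.1 hz' y))
    rw [H57.center_sl2_eq_bot, Subgroup.mem_bot, map_eq_one_iff _ φ.injective] at h5
    exact congrArg Subtype.val h5
  have h5 : f.range = ⊤ := by
    rw [MonoidHom.noncommCoprod_range, Subgroup.range_subtype, Subgroup.range_subtype, hK]
  exact ⟨(MulEquiv.ofBijective f ⟨h4, MonoidHom.range_eq_top.1 h5⟩).symm.trans
    (φ.prodCongr (MulEquiv.refl _))⟩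

end Cfsg.Agent.S4705
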