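import Cfsg.Statements.S4736
import Cfsg.Agent.H22.PSolvHeight

set_option autoImplicit false
open Cfsg

namespace Cfsg.Agent.S4736


/-- Let p be a prime, M a maximal ideal of the algebraic integers containing p, and G a finite p-solvable group with Sylow p-subgroup P. Then P is abelian if and only if every irreducible character in the principal p-block of G has height zero. -/
theorem result {G : Type*} [Group G] [Finite G] (p : ℕ) [Fact p.Prime] (M : Ideal Cfsg.AlgInt) (hM : Cfsg.IsPModular p M) (hsolv : Cfsg.IsPSolvable p G) (P : Sylow p G) : IsMulCommutative P ↔ ∀ χ ∈ Cfsg.principalBlock M G, Cfsg.blockHeight p (Cfsg.principalBlock M G) (χ : G → ℂ) = 0 := by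
  constructor
  · intro h χ hχ
    have := H22.height_le_index_center hM hsolv H17.isPBlock_principalBlock
      (H22.isDefectGroup_principal_sylow hM P) hχ
    rw [Subgroup.center_eq_top, Subgroup.index_top] at this
    simpa using this
  · intro h
    have hf := QuotientGroup.mk'_surjective (pPrimeCore p G)
    have h1 := (H24.ito_sylow_normal (H53.isPSolvable_quotient hsolv (pPrimeCore p G)) (fun d hd => by
      obtain ⟨ψ, hψ, rfl⟩ := H24.mem_cd.1 hd
      have hm : H22.infl hf ⟨ψ, hψ⟩ ∈ principalBlock M G :=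
        (H22.mem_principal_iff_of_isPSolvable hM hsolv).2 fun n hn =>
          H22.infl_apply_of_mem_ker hf _ (by rwa [QuotientGroup.ker_mk'])
      have h2 := (H21.height_eq_zero_iff hm).1 (h _ hm)
      rw [H21.minNu_principal hM, H22.nu_infl] at h2
      intro hd
      exact ((Fact.out : p.Prime).factorization_pos_of_dvd (H24.deg_ne_zero hψ) hd).ne' h2)
      (P.mapSurjective hf)).2
    have hbot : (P : Subgroup G) ⊓ pPrimeCore p G = ⊥ :=
      H3.inf_eq_bot_of_isPGroup_of_coprime P.isPGroup' (H3.pPrimeCore_coprime p G)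
    refine ⟨⟨fun x y => Subtype.ext ?_⟩⟩
    change (x : G) * y = y * x
    rw [← commutatorElement_eq_one_iff_mul_comm, ← Subgroup.mem_bot, ← hbot]
    refine ⟨?_, (H22.commutatorElement_mem_iff _ _).2 (h1 _ ⟨x, x.2, rfl⟩ _ ⟨y, y.2, rfl⟩)⟩
    exact (x * y * x⁻¹ * y⁻¹).2

end Cfsg.Agent.S4736
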