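import Cfsg.Statements.S4741
import Cfsg.Agent.H17.Robinson

set_option autoImplicit false
open Cfsg

namespace Cfsg.Agent.S4741

/-- Let p be a prime, M a maximal ideal of the algebraic integers containing p, and D a subgroup of the finite group G. Let x₁, …, x_r be pairwise non-conjugate elements of G such that D is a Sylow p-subgroup of the centralizer of each xᵢ, and such that for any conjugates g of some xᵢ and h of some xⱼ the element g h⁻¹ is never a non-identity p-element. Then there are r distinct p-blocks B₁, …, B_r of G, each having D as a defect group, such that for every choice of characters χᵢ ∈ Bᵢ of height zero the determinant of the r × r matrix (χᵢ(xⱼ)) does not lie in the local ideal at M. -/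
theorem result {G : Type*} [Group G] [Finite G] (p : ℕ) [Fact p.Prime] (M : Ideal Cfsg.AlgInt) (hM : Cfsg.IsPModular p M) (D : Subgroup G) {r : ℕ} (x : Fin r → G) (hx : ∀ i j : Fin r, IsConj (x i) (x j) → i = j) (hD : ∀ i : Fin r, ∃ S : Sylow p ↥(Subgroup.centralizer ({x i} : Set G)), (S : Subgroup ↥(Subgroup.centralizer ({x i} : Set G))).map (Subgroup.centralizer ({x i} : Set G)).subtype = D) (hsep : ∀ i j : Fin r, ∀ g h : G, IsConj (x i) g → IsConj (x j) h → ∀ k : ℕ, 0 < k → orderOf (g * h⁻¹) ≠ p ^ k) : ∃ B : Fin r → Set (Cfsg.IrrCharacter G), Function.Injective B ∧ (∀ i : Fin r, Cfsg.IsPBlock M (B i) ∧ Cfsg.IsDefectGroup p M (B i) D) ∧ ∀ χ : Fin r → Cfsg.IrrCharacter G, (∀ i : Fin r, χ i ∈ B i ∧ Cfsg.blockHeight p (B i) (χ i : G → ℂ) = 0) → ¬ Cfsg.MemLocalIdeal M (Matrix.det (Matrix.of fun i j : Fin r => (χ i : G → ℂ) (x j))) := by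
  obtain ⟨S⟩ : Nonempty (Sylow p G) := inferInstance
  have hD' : ∀ i, H8.IsSylowIn p D (H17.Cg (x i)) := fun i =>
    H8.isSylowIn_iff_exists_sylow.2 (hD i)
  obtain ⟨B, hB, h1, h2⟩ := H17.exists_blocks_of_separated hM S x hx hD' (by
    intro i j g h hg hh hS
    obtain ⟨k, hk⟩ := H20.isPElt_of_mem S.isPGroup' hS
    rcases Nat.eq_zero_or_pos k with rfl | hk0
    · rw [pow_zero, orderOf_eq_one_iff, mul_inv_eq_one] at hk
      exact hk.symm
    · exact absurd hk (hsep j i h g hh hg k hk0))
  refine ⟨fun i => (B i).1, Subtype.val_injective.comp hB, fun i => ⟨(B i).2, h1 i⟩,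
    fun χ hχ hc => h2 ?_⟩
  have := Fintype.ofFinite G
  simp only at hχ
  have hu : ∀ i j, H19.val M ((H17.Cg (x j)).index / (χ i).1 1) = 1 := by
    intro i j
    have e1 := H21.factorization_card_eq (p := p) (H17.Cg (x j))
    have e2 := H21.minNu_add_defect hM ⟨χ i, (hχ i).1⟩
    have e3 := (H21.height_eq_zero_iff (hχ i).1).1 (hχ i).2
    have e4 := H17.dg_factorization hM (B i).2 (h1 i)
    have e5 := (hD' j).card_eq
    rw [e5, Nat.factorization_pow_self hM.1] at e4
    rw [map_div₀, H19.val_natCast hM Subgroup.index_ne_zero_of_finite, H21.val_deg hM,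
      show (H17.Cg (x j)).index.factorization p = H21.nu p (χ i) by omega,
      div_self (pow_ne_zero _ (H19.val_p_ne_zero hM))]
  let A : Matrix (Fin r) (Fin r) (H19.Vr M) :=
    Matrix.of fun i j => ⟨(χ i).1 (x j), H17.irr_mem_Vr (χ i) (x j)⟩
  have hA : H17.resR M A.det = 0 := by
    have h3 := H19.mli_val_lt_one hM.2.1 hc
    have h4 : ((A.det : H19.Vr M) : ℂ) = (Matrix.of fun i j : Fin r => (χ i).1 (x j)).det :=
      (H19.Vr M).subtype.map_det A
    rw [← h4] at h3
    exact (H19.red_coe _).symm.trans (H19.red_eq_zero_of_val_lt_one h3)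
  rw [RingHom.map_det] at hA
  rcases isEmpty_or_nonempty (Fin r) with hr | ⟨⟨i₀⟩⟩
  · rw [Matrix.det_isEmpty] at hA
    exact absurd hA one_ne_zero
  have key : (Matrix.of fun i j => H17.lamB (B i) (H17.classSum (H19.kk M) (x j))) =
      Matrix.diagonal (fun i => H19.red M ((χ i₀).1 1 / (χ i).1 1)) *
        (H17.resR M).mapMatrix A *
        Matrix.diagonal (fun j => H19.red M ((H17.Cg (x j)).index / (χ i₀).1 1)) := by
    ext i j
    have h5 : H19.val M ((χ i₀).1 1 / (χ i).1 1) = 1 := by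
      have e1 := hu i j
      have e2 := hu i₀ j
      rw [map_div₀, div_eq_one_iff_eq (H21.val_deg_ne_zero _)] at e1 e2 ⊢
      rw [← e1, ← e2]
    have h6 : (χ i₀).1 1 / (χ i).1 1 ∈ H19.Vr M := H19.mem_Vr_iff.2 h5.le
    rw [Matrix.mul_diagonal, Matrix.diagonal_mul, Matrix.of_apply,
      H17.lamB_eq hM.2.1 _ (hχ i).1, H17.lam_classSum]
    change _ = _ * H17.resR M (A i j) * _
    rw [show H17.resR M (A i j) = H19.red M ((χ i).1 (x j)) from (H19.red_coe _).symm,
      ← H19.red_mul h6 (H17.irr_mem_Vr _ _), ← H19.red_mul (mul_mem h6 (H17.irr_mem_Vr _ _))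
        (H19.mem_Vr_iff.2 (hu i₀ j).le), centralChar]
    congr 1
    have := H17.irr_one_ne_zero (χ i₀)
    have := H17.irr_one_ne_zero (χ i)
    field_simp
  rw [key, Matrix.det_mul, Matrix.det_mul, hA, mul_zero, zero_mul]

end Cfsg.Agent.S4741
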