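import Cfsg.Statements.S4744
import Cfsg.Agent.H17.DefZero

set_option autoImplicit false
open Cfsg

namespace Cfsg.Agent.S4744

/-- Let p be an odd prime and G a finite group of even order divisible by p in which the centralizer of every non-identity p-element has odd order. Then either G has an irreducible character of p-defect zero, or the normalizer of every Sylow p-subgroup P of G has even order and P is abelian. -/
theorem result {G : Type*} [Group G] [Finite G] (p : ℕ) [Fact p.Prime] (hp2 : p ≠ 2) (hpG : p ∣ Nat.card G) (h2G : 2 ∣ Nat.card G) (hC : ∀ g : G, g ≠ 1 → (∃ k : ℕ, orderOf g = p ^ k) → Odd (Nat.card ↥(Subgroup.centralizer ({g} : Set G)))) : (∃ χ : Cfsg.IrrCharacter G, (Cfsg.charDegree (χ : G → ℂ)).factorization p = (Nat.card G).factorization p) ∨ ∀ P : Sylow p G, Even (Nat.card ↥(Subgroup.normalizer ((P : Subgroup G) : Set G))) ∧ IsMulCommutative ↥(P : Subgroup G) := by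
  by_cases h : H17.HasDZ p G
  · exact Or.inl h
  refine Or.inr fun P => ?_
  obtain ⟨t, ht⟩ := exists_prime_orderOf_dvd_card' 2 h2G
  obtain ⟨s, hs, -, hP⟩ := H17.exists_sylow_inverted_of_not_hasDZ (fun g h1 h2 => by
    rw [← even_iff_two_dvd, Nat.not_even_iff_odd]; exact hC g h1 h2) h ht P
  refine ⟨even_iff_two_dvd.2 ?_,
    ⟨⟨fun a b => Subtype.ext (H17.comm_of_inverts hP a.2 b.2)⟩⟩⟩
  have h2 : orderOf s = 2 := by
    obtain ⟨c, rfl⟩ := isConj_iff.1 hs
    rw [← ht, ← MulAut.conj_apply, MulEquiv.orderOf_eq]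
  rw [← h2]
  exact Subgroup.orderOf_dvd_natCard _ (Subgroup.mem_normalizer_fintype fun x hx => by
    rw [hP x hx]; exact inv_mem hx)

end Cfsg.Agent.S4744
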