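import Cfsg.Statements.S4745
import Cfsg.Agent.H17.DefZero2
import Cfsg.Agent.S0205

set_option autoImplicit false
open Cfsg

namespace Cfsg.Agent.S4745

/-- Let p be an odd prime and G a finite group of even order divisible by p in which the centralizer of every non-identity p-element has odd order, and suppose G acts faithfully and transitively on a set with p ^ r elements, r ≥ 1. Then either G has an irreducible character of p-defect zero, or G is p-solvable and has an irreducible character of 2-defect zero. -/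
theorem result {G Ω : Type*} [Group G] [Finite G] [MulAction G Ω] [FaithfulSMul G Ω] [Fintype Ω] (htr : MulAction.IsPretransitive G Ω) (p : ℕ) [Fact p.Prime] (hp2 : p ≠ 2) (hpG : p ∣ Nat.card G) (h2G : 2 ∣ Nat.card G) (hC : ∀ g : G, g ≠ 1 → (∃ k : ℕ, orderOf g = p ^ k) → Odd (Nat.card ↥(Subgroup.centralizer ({g} : Set G)))) (r : ℕ) (hr : 1 ≤ r) (hΩ : Fintype.card Ω = p ^ r) : (∃ χ : Cfsg.IrrCharacter G, (Cfsg.charDegree (χ : G → ℂ)).factorization p = (Nat.card G).factorization p) ∨ (Cfsg.IsPSolvable p G ∧ ∃ χ : Cfsg.IrrCharacter G, (Cfsg.charDegree (χ : G → ℂ)).factorization 2 = (Nat.card G).factorization 2) := by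
  by_cases h : H17.HasDZ p G
  · exact Or.inl h
  have hp : p.Prime := Fact.out
  have hC' : ∀ g : G, g ≠ 1 → (∃ k : ℕ, orderOf g = p ^ k) → ¬ 2 ∣ Nat.card (H17.Cg g) :=
    fun g h1 h2 => by rw [← even_iff_two_dvd, Nat.not_even_iff_odd]; exact hC g h1 h2
  obtain ⟨P⟩ : Nonempty (Sylow p G) := inferInstance
  have hN := H17.sylow_normal_of_not_hasDZ (Ω := Ω) (fun X hX => S0205.result hX) hp2
    (Nat.card_eq_fintype_card.trans hΩ) h2G hC' h P
  refine Or.inr ⟨⟨2, ![⊥, P, ⊤], rfl, rfl, ?_, ?_, ?_⟩, H17.hasDZ_of_normal (p := 2) (q := p)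
    (H17.cent_symm hC') P ?_ ?_⟩
  · refine Fin.monotone_iff_le_succ.2 fun i => ?_
    fin_cases i
    exacts [bot_le, le_top]
  · intro i
    fin_cases i
    exacts [Subgroup.normal_bot, hN, Subgroup.normal_top]
  · intro i
    fin_cases i
    · exact Or.inl ⟨_, (Subgroup.relIndex_bot_left _).trans P.card_eq_multiplicity⟩
    · refine Or.inr ?_
      change ((P : Subgroup G).relIndex ⊤).Coprime p
      rw [Subgroup.relIndex_top_right]
      exact ((hp.coprime_iff_not_dvd).2 P.not_dvd_index).symm
  · rw [P.card_eq_multiplicity]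
    exact dvd_pow_self _ (hp.factorization_pos_of_dvd Nat.card_pos.ne' hpG).ne'
  · rw [P.card_eq_multiplicity]
    exact fun h => hp2 ((Nat.prime_dvd_prime_iff_eq Nat.prime_two hp).1
      (Nat.prime_two.dvd_of_dvd_pow h)).symm

end Cfsg.Agent.S4745
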