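import Cfsg.Statements.S4746
import Cfsg.Agent.H17.DefZero

set_option autoImplicit false
open Cfsg

namespace Cfsg.Agent.S4746

/-- Let p be an odd prime and G a finite group of even order divisible by p in which the centralizer of every non-identity p-element has odd order. Then G has an irreducible character of p-defect zero or an irreducible character of even degree. -/
theorem result {G : Type*} [Group G] [Finite G] (p : ℕ) [Fact p.Prime] (hp2 : p ≠ 2) (hpG : p ∣ Nat.card G) (h2G : 2 ∣ Nat.card G) (hC : ∀ g : G, g ≠ 1 → (∃ k : ℕ, orderOf g = p ^ k) → Odd (Nat.card ↥(Subgroup.centralizer ({g} : Set G)))) : (∃ χ : Cfsg.IrrCharacter G, (Cfsg.charDegree (χ : G → ℂ)).factorization p = (Nat.card G).factorization p) ∨ ∃ χ : Cfsg.IrrCharacter G, Even (Cfsg.charDegree (χ : G → ℂ)) := by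
  by_cases h : H17.HasDZ p G
  · exact Or.inl h
  have hC' : ∀ g : G, g ≠ 1 → (∃ k : ℕ, orderOf g = p ^ k) → ¬ 2 ∣ Nat.card (H17.Cg g) :=
    fun g h1 h2 => by rw [← even_iff_two_dvd, Nat.not_even_iff_odd]; exact hC g h1 h2
  obtain ⟨t, ht⟩ := exists_prime_orderOf_dvd_card' 2 h2G
  obtain ⟨P⟩ : Nonempty (Sylow p G) := inferInstance
  obtain ⟨s, -, hP, h1⟩ := H17.exists_sylow_inverted_of_not_hasDZ hC' h ht P
  obtain ⟨⟨u, hu⟩, hu1⟩ := Subgroup.ne_bot_iff_exists_ne_one.1 hP
  have hu1' : u ≠ 1 := fun e => hu1 (Subtype.ext e)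
  exact Or.inr (H17.exists_even_degree hu1' (hC' u hu1' (H20.isPElt_of_mem P.isPGroup' hu))
    (isConj_iff.2 ⟨s, h1 u hu⟩))

end Cfsg.Agent.S4746
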