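import Cfsg.Statements.S4754
import Cfsg.Agent.H12.Burnside

set_option autoImplicit false
open Cfsg

namespace Cfsg.Agent.S4754

/-- For elements x, y of a finite group G, the conjugacy class of x y equals the set of all products of a conjugate of x with a conjugate of y if and only if χ(1) χ(a x a⁻¹ b y b⁻¹) = χ(x) χ(y) for all a, b ∈ G and every irreducible character χ. -/
theorem result {G : Type*} [Group G] [Finite G] (x y : G) : (∀ z : G, IsConj (x * y) z ↔ ∃ a b : G, z = a * x * a⁻¹ * (b * y * b⁻¹)) ↔ ∀ (a b : G) (χ : Cfsg.IrrCharacter G), (χ : G → ℂ) 1 * (χ : G → ℂ) (a * x * a⁻¹ * (b * y * b⁻¹)) = (χ : G → ℂ) x * (χ : G → ℂ) y := by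
  classical
  haveI := Fintype.ofFinite G
  constructor
  · intro h a b χ
    have hc := H11.isClassFunction_of_irr χ.2
    have h1 : ∀ a b : G, (χ : G → ℂ) (a * x * a⁻¹ * (b * y * b⁻¹)) = (χ : G → ℂ) (x * y) :=
      fun a b => (H11.classFun_of_isConj hc ((h _).2 ⟨a, b, rfl⟩)).symm
    have h2 := H11.sum_irr_conj_mul χ.2 x y
    have h3 : ∀ u : G, (χ : G → ℂ) (u * x * u⁻¹ * y) = (χ : G → ℂ) (x * y) := fun u => by
      simpa using h1 u 1
    simp only [h3, Finset.sum_const, Finset.card_univ, nsmul_eq_mul,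
      ← Nat.card_eq_fintype_card] at h2
    have h0 := H11.irr_apply_one_ne_zero χ.2
    have hG := H11.card_ne_zero G
    rw [h1]
    field_simp at h2
    linear_combination h2
  · intro h z
    constructor
    · rintro ⟨c, hc⟩
      refine ⟨c, c, ?_⟩
      have : z = c * (x * y) * (c : G)⁻¹ := by
        rw [eq_mul_inv_iff_mul_eq]; exact hc.symm
      rw [this]; group
    · rintro ⟨a, b, rfl⟩
      rw [H11.isConj_iff_forall_irr]
      intro χ hχ
      have h0 := H11.irr_apply_one_ne_zero hχ
      have h1 := h a b ⟨χ, hχ⟩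
      have h2 := h 1 1 ⟨χ, hχ⟩
      simp only [one_mul, inv_one, mul_one] at h2
      exact mul_left_cancel₀ h0 (h2.trans h1.symm)

end Cfsg.Agent.S4754
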