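import Cfsg.Statements.S4755
import Cfsg.Agent.H23.Zeros

set_option autoImplicit false
open Cfsg

namespace Cfsg.Agent.S4755

/-- Let x, y be non-identity elements of the finite group G such that χ(x' y') = χ(x') χ(y') for all conjugates x' of x, y' of y and every irreducible character χ. Then the conjugacy class of x y is the set of all products of a conjugate of x with a conjugate of y; every irreducible character of degree greater than 1 vanishes at x y; and the conjugacy class of x y is the coset of the commutator subgroup containing x y. -/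
theorem result {G : Type*} [Group G] [Finite G] (x y : G) (hx : x ≠ 1) (hy : y ≠ 1) (h : ∀ (a b : G) (χ : Cfsg.IrrCharacter G), (χ : G → ℂ) (a * x * a⁻¹ * (b * y * b⁻¹)) = (χ : G → ℂ) (a * x * a⁻¹) * (χ : G → ℂ) (b * y * b⁻¹)) : (∀ z : G, IsConj (x * y) z ↔ ∃ a b : G, z = a * x * a⁻¹ * (b * y * b⁻¹)) ∧ (∀ χ : Cfsg.IrrCharacter G, (χ : G → ℂ) 1 ≠ 1 → (χ : G → ℂ) (x * y) = 0) ∧ (∀ z : G, IsConj (x * y) z ↔ (x * y)⁻¹ * z ∈ commutator G) := by
  classical
  haveI := Fintype.ofFinite G
  have h1 : ∀ (a b : G) (χ : G → ℂ), IsIrrCharacter G χ →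
      χ (a * x * a⁻¹ * (b * y * b⁻¹)) = χ x * χ y := fun a b χ hχ => by
    have hc := H11.isClassFunction_of_irr hχ
    have := h a b ⟨χ, hχ⟩
    simp only at this
    rw [this, hc x a, hc y b]
  have h2 : ∀ (χ : G → ℂ), IsIrrCharacter G χ → χ (x * y) = χ x * χ y := fun χ hχ => by
    simpa using h1 1 1 χ hχ
  have h3 : ∀ (χ : G → ℂ), IsIrrCharacter G χ → χ 1 ≠ 1 → χ (x * y) = 0 := fun χ hχ hne => by
    have h4 := H11.sum_irr_conj_mul hχ x y
    have h5 : ∀ u : G, χ (u * x * u⁻¹ * y) = χ x * χ y := fun u => by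
      simpa using h1 u 1 χ hχ
    simp only [h5, Finset.sum_const, Finset.card_univ, nsmul_eq_mul,
      ← Nat.card_eq_fintype_card] at h4
    have h0 := H11.irr_apply_one_ne_zero hχ
    have hG := H11.card_ne_zero G
    rw [h2 χ hχ]
    field_simp at h4
    have h6 : χ x * χ y * (χ 1 - 1) = 0 := by linear_combination h4
    exact (mul_eq_zero.1 h6).resolve_right (sub_ne_zero.2 hne)
  refine ⟨fun z => ⟨?_, ?_⟩, fun χ hχ => h3 χ χ.2 hχ, fun z => ⟨?_, ?_⟩⟩
  · rintro ⟨c, hc⟩
    refine ⟨c, c, ?_⟩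
    have : z = c * (x * y) * (c : G)⁻¹ := by
      rw [eq_mul_inv_iff_mul_eq]; exact hc.symm
    rw [this]; group
  · rintro ⟨a, b, rfl⟩
    rw [H11.isConj_iff_forall_irr]
    intro χ hχ
    rw [h1 a b χ hχ, h2 χ hχ]
  · intro hz
    obtain ⟨c, rfl⟩ := isConj_iff.1 hz
    have : (x * y)⁻¹ * (c * (x * y) * c⁻¹) = (x * y)⁻¹ * c * (x * y)⁻¹⁻¹ * c⁻¹ := by group
    rw [this]
    exact Subgroup.commutator_mem_commutator (Subgroup.mem_top _) (Subgroup.mem_top _)
  · intro hz
    have hn : z * (x * y)⁻¹ ∈ commutator G := by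
      have := (inferInstance : (commutator G).Normal).conj_mem _ hz (x * y)
      simpa [mul_assoc] using this
    have := H23.isConj_mul_of_vanish (N := commutator G) (g := x * y)
      (fun χ hχ hk => h3 χ hχ fun h1 => hk ((H11.irr_apply_one_eq_one_iff hχ).1 h1)) hn
    rwa [inv_mul_cancel_right] at this

end Cfsg.Agent.S4755
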