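import Cfsg.Statements.S4757
import Mathlib
import Cfsg.Agent.H11.Kernel
import Cfsg.Agent.H3.Cores

set_option autoImplicit false
open Cfsg

namespace Cfsg.Agent.S4757


open Cfsg.Agent.H11

variable {G : Type*} [Group G] [Finite G]

theorem exists_hom (h : commutator G ≠ ⊤) : ∃ lam : G →* ℂˣ, lam ≠ 1 := by
  obtain ⟨g, hg⟩ : ∃ g, g ∉ commutator G := by
    by_contra hc
    push Not at hc
    exact h (eq_top_iff.2 fun g _ => hc g)
  obtain ⟨lam, -, h2⟩ := exists_monoidHom_ne_one (commutator G) le_rfl hg
  exact ⟨lam, fun h => h2 (by simp [h])⟩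

omit [Finite G] in
theorem ne_top_of_hom {lam : G →* ℂˣ} (h : lam ≠ 1) : commutator G ≠ ⊤ := by
  intro ht
  apply h
  have h1 : commutator G ≤ lam.ker := Abelianization.commutator_subset_ker lam
  ext g
  have : g ∈ lam.ker := h1 (ht ▸ Subgroup.mem_top g)
  simp [MonoidHom.mem_ker.1 this]

omit [Finite G] in
theorem coe_ne_one {lam : G →* ℂˣ} (h : lam ≠ 1) : (fun g => (lam g : ℂ)) ≠ fun _ => 1 := by
  intro h'
  apply h
  ext g
  simpa using congrFun h' g

/-- Let u ≠ 1 be an element of the finite group G and c a complex number such that every non-principal irreducible character χ satisfies χ(1) − χ(u) = c or χ(u) = 0. Then the following are equivalent: (a) u has order 2, G is generated by u together with O(G), the largest normal subgroup of G of odd order, and the centralizer of u is {1, u}; (b) G is not perfect; (c) c = 2. -/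
theorem result {G : Type*} [Group G] [Finite G] (u : G) (hu : u ≠ 1) (c : ℂ) (hyp : ∀ χ : Cfsg.IrrCharacter G, (χ : G → ℂ) ≠ (fun _ => (1 : ℂ)) → ((χ : G → ℂ) 1 - (χ : G → ℂ) u = c ∨ (χ : G → ℂ) u = 0)) : ((orderOf u = 2 ∧ Subgroup.zpowers u ⊔ Cfsg.oddCore G = ⊤ ∧ Subgroup.centralizer ({u} : Set G) = Subgroup.zpowers u) ↔ commutator G ≠ ⊤) ∧ (commutator G ≠ ⊤ ↔ c = 2) := by
  classical
  letI := Fintype.ofFinite G
  letI := Fintype.ofFinite (IrrCharacter G)
  set t : IrrCharacter G → ℝ := fun χ => ((χ : G → ℂ) 1 * (χ : G → ℂ) u).re with ht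
  have hsum : ∑ χ, t χ = 0 := by
    have := congrArg Complex.re (sum_degree_mul_apply_of_ne_one (G := G) hu)
    simpa [ht, Complex.re_sum] using this
  set one : IrrCharacter G := ⟨fun _ => 1, isIrrCharacter_one⟩ with hone
  have ht1 : t one = 1 := by simp [ht, hone]
  have hne : ∀ χ : IrrCharacter G, χ ≠ one → (χ : G → ℂ) ≠ fun _ => 1 := fun χ h h' =>
    h (Subtype.ext h')
  have hc0 : c ≠ 0 := by
    intro hc
    have hnn : ∀ χ ∈ (Finset.univ : Finset (IrrCharacter G)), 0 ≤ t χ := by
      intro χ _
      by_cases h : χ = one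
      · rw [h, ht1]; norm_num
      obtain ⟨n, -, hn⟩ := exists_pos_degree χ.2
      rcases hyp χ (hne χ h) with h1 | h1
      · have : (χ : G → ℂ) u = n := by rw [hc, hn] at h1; linear_combination -h1
        simp only [ht, hn, this]
        rw [← Nat.cast_mul, Complex.natCast_re]; positivity
      · simp [ht, h1]
    have := (Finset.sum_eq_zero_iff_of_nonneg hnn).1 hsum one (Finset.mem_univ _)
    rw [ht1] at this; norm_num at this
  have hlin : ∀ lam : G →* ℂˣ, lam ≠ 1 → (lam u : ℂ) = 1 - c := by
    intro lam h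
    rcases hyp ⟨_, isIrrCharacter_monoidHom lam⟩ (coe_ne_one h) with h1 | h1
    · simp only [map_one, Units.val_one] at h1
      linear_combination -h1
    · exact absurd h1 (Units.ne_zero _)
  have hbc : commutator G ≠ ⊤ → c = 2 := by
    intro h
    obtain ⟨lam, hl⟩ := exists_hom h
    have h1 := hlin lam hl
    have h2 := hlin lam⁻¹ (fun h' => hl (by
      ext g; simpa using DFunLike.congr_fun h' g))
    have h3 : (lam u : ℂ) * ((lam⁻¹ u : ℂˣ) : ℂ) = 1 := by simp
    rw [h1, h2] at h3
    have h4 : c * (c - 2) = 0 := by linear_combination h3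
    rcases mul_eq_zero.1 h4 with h5 | h5
    · exact absurd h5 hc0
    · linear_combination h5
  -- for c = 2, non-linear terms are nonnegative
  have hnl : c = 2 → ∀ χ : IrrCharacter G, (χ : G → ℂ) 1 ≠ 1 →
      0 ≤ t χ ∧ (t χ = 0 → (χ : G → ℂ) u = 0) := by
    intro hc χ h
    obtain ⟨n, hn0, hn⟩ := exists_pos_degree χ.2
    have hn2 : 2 ≤ n := by
      rcases Nat.lt_or_ge n 2 with h2 | h2
      · have : n = 1 := by omega
        rw [this] at hn; exact absurd (by simpa using hn) h
      · exact h2
    have hχ : (χ : G → ℂ) ≠ fun _ => 1 := fun h' => h (by rw [h'])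
    rcases hyp χ hχ with h1 | h1
    · have h2 : (χ : G → ℂ) u = ((n - 2 : ℕ) : ℂ) := by
        rw [hc, hn] at h1; rw [Nat.cast_sub hn2]; push_cast; linear_combination -h1
      have h3 : t χ = ((n * (n - 2) : ℕ) : ℝ) := by
        simp only [ht, hn, h2]
        rw [← Nat.cast_mul, Complex.natCast_re]
      refine ⟨by rw [h3]; positivity, fun h4 => ?_⟩
      rw [h3] at h4
      have h5 : n * (n - 2) = 0 := by exact_mod_cast h4
      have h6 : n - 2 = 0 := by
        rcases Nat.mul_eq_zero.1 h5 with h7 | h7
        · omega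
        · exact h7
      rw [h2, h6]; simp
    · exact ⟨by simp [ht, h1], fun _ => h1⟩
  have hcb : c = 2 → commutator G ≠ ⊤ := by
    intro hc htop
    have hnn : ∀ χ ∈ (Finset.univ : Finset (IrrCharacter G)), 0 ≤ t χ := by
      intro χ _
      by_cases h : (χ : G → ℂ) 1 = 1
      · obtain ⟨lam, hl⟩ := exists_monoidHom_of_apply_one_eq_one (irr_isCharacter χ) h
        by_cases h1 : lam = 1
        · have : χ = one := Subtype.ext (by rw [show χ.1 = _ from hl, h1]; ext; simp [hone])
          rw [this, ht1]; norm_num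
        · exact absurd htop (ne_top_of_hom h1)
      · exact (hnl hc χ h).1
    have := (Finset.sum_eq_zero_iff_of_nonneg hnn).1 hsum one (Finset.mem_univ _)
    rw [ht1] at this; norm_num at this
  refine ⟨⟨?_, fun h => ?_⟩, hbc, hcb⟩
  · rintro ⟨ho, hgen, -⟩ htop
    haveI : (oddCore G).Normal := Subgroup.sSup_normal _ (fun _ h => h.1)
    have hle : commutator G ≤ oddCore G := by
      rw [← QuotientGroup.ker_mk' (oddCore G)]
      have hcyc : ∀ x : G ⧸ oddCore G, x ∈ Subgroup.zpowers (QuotientGroup.mk' (oddCore G) u) := by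
        intro x
        obtain ⟨g, rfl⟩ := QuotientGroup.mk'_surjective _ x
        have hg : g ∈ Subgroup.zpowers u ⊔ oddCore G := hgen ▸ Subgroup.mem_top g
        have hm : (Subgroup.zpowers u ⊔ oddCore G).map (QuotientGroup.mk' (oddCore G)) ≤
            Subgroup.zpowers (QuotientGroup.mk' (oddCore G) u) := by
          rw [Subgroup.map_sup, MonoidHom.map_zpowers]
          refine sup_le le_rfl ?_
          rw [(Subgroup.map_eq_bot_iff _).2 (by rw [QuotientGroup.ker_mk'])]
          exact bot_le
        exact hm (Subgroup.mem_map_of_mem _ hg)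
      haveI : IsCyclic (G ⧸ oddCore G) := ⟨⟨_, hcyc⟩⟩
      letI : CommGroup (G ⧸ oddCore G) := IsCyclic.commGroup
      exact Abelianization.commutator_subset_ker _
    have hu' : u ∈ oddCore G := hle (htop ▸ Subgroup.mem_top u)
    have h2 : 2 ∣ Nat.card (oddCore G) := by
      rw [← ho, ← Subgroup.orderOf_mk u hu']
      exact orderOf_dvd_natCard _
    exact Cfsg.Agent.H3.not_dvd_card_pPrimeCore 2 G h2
  · have hc := hbc h
    obtain ⟨lam, hl⟩ := exists_hom h
    have hlu : ∀ mu : G →* ℂˣ, mu ≠ 1 → (mu u : ℂ) = -1 := by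
      intro mu hm; rw [hlin mu hm, hc]; norm_num
    have hmul : ∀ mu : G →* ℂˣ, mu ≠ 1 → lam * mu = 1 := by
      intro mu hm
      by_contra hne'
      have h1 := hlu _ hne'
      simp only [MonoidHom.mul_apply, Units.val_mul, hlu lam hl, hlu mu hm] at h1
      norm_num at h1
    have huniq : ∀ mu : G →* ℂˣ, mu ≠ 1 → mu = lam := by
      intro mu hm
      exact mul_left_cancel ((hmul mu hm).trans (hmul lam hl).symm)
    set L : IrrCharacter G := ⟨_, isIrrCharacter_monoidHom lam⟩ with hL
    have hL1 : L ≠ one := fun h' => coe_ne_one hl (congrArg Subtype.val h')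
    have htL : t L = -1 := by simp [ht, hL, hlu lam hl]
    have hrest : ∀ χ : IrrCharacter G, χ ≠ one → χ ≠ L → (χ : G → ℂ) 1 ≠ 1 := by
      intro χ h1 h2 h3
      obtain ⟨mu, hm⟩ := exists_monoidHom_of_apply_one_eq_one (irr_isCharacter χ) h3
      by_cases h4 : mu = 1
      · exact h1 (Subtype.ext (by rw [show χ.1 = _ from hm, h4]; ext; simp [hone]))
      · exact h2 (Subtype.ext (by rw [show χ.1 = _ from hm, huniq mu h4]))
    have hsplit : ∀ f : IrrCharacter G → ℝ, ∑ χ, f χ =
        f one + f L + ∑ χ ∈ (Finset.univ.erase one).erase L, f χ := by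
      intro f
      rw [add_assoc, Finset.add_sum_erase _ _ (Finset.mem_erase.2 ⟨hL1, Finset.mem_univ _⟩),
        Finset.add_sum_erase _ _ (Finset.mem_univ _)]
    have hz : ∀ χ ∈ (Finset.univ.erase one).erase L, (χ : G → ℂ) u = 0 := by
      have h0 : ∑ χ ∈ (Finset.univ.erase one).erase L, t χ = 0 := by
        have := hsplit t
        rw [hsum, ht1, htL] at this; linarith
      have hm : ∀ χ ∈ (Finset.univ.erase one).erase L, (χ : G → ℂ) 1 ≠ 1 := fun χ hχ =>
        hrest χ (Finset.mem_erase.1 (Finset.mem_erase.1 hχ).2).1 (Finset.mem_erase.1 hχ).1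
      intro χ hχ
      exact (hnl hc χ (hm χ hχ)).2
        ((Finset.sum_eq_zero_iff_of_nonneg fun ψ hψ => (hnl hc ψ (hm ψ hψ)).1).1 h0 χ hχ)
    have hC : Nat.card (Subgroup.centralizer ({u} : Set G)) = 2 := by
      have h1 := sum_norm_sq_apply (G := G) u
      rw [hsplit, Finset.sum_eq_zero (fun χ hχ => by rw [hz χ hχ]; simp)] at h1
      simp only [hone, hL, hlu lam hl] at h1
      norm_num at h1
      rw [Nat.card_eq_fintype_card]
      exact_mod_cast h1.symm
    have hzle : Subgroup.zpowers u ≤ Subgroup.centralizer ({u} : Set G) := by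
      rw [Subgroup.zpowers_le]; simp [Subgroup.mem_centralizer_iff]
    have ho : orderOf u = 2 := by
      have h1 : orderOf u ∣ 2 := by
        rw [← hC, ← Nat.card_zpowers]; exact Subgroup.card_dvd_of_le hzle
      rcases (Nat.dvd_prime Nat.prime_two).1 h1 with h2 | h2
      · exact absurd (orderOf_eq_one_iff.1 h2) hu
      · exact h2
    have hCz : Subgroup.centralizer ({u} : Set G) = Subgroup.zpowers u :=
      (Subgroup.eq_of_le_of_card_ge hzle (by rw [hC, Nat.card_zpowers, ho])).symm
    have huu : u * u = 1 := by rw [← pow_two, ← ho, pow_orderOf_eq_one]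
    have hsq : ∀ g, lam g * lam g = 1 := fun g => by
      have := DFunLike.congr_fun (hmul lam hl) g
      simpa using this
    have hlu' : lam u = -1 := Units.ext (by simpa using hlu lam hl)
    have hK : lam.ker ≤ oddCore G := by
      apply Cfsg.Agent.H3.le_pPrimeCore
      have hfp : MonoidHom.FixedPointFree (MulAut.conjNormal (H := lam.ker) u) := by
        intro k hk
        have h1 : u * k * u⁻¹ = k := congrArg Subtype.val hk
        have h2 : (k : G) ∈ Subgroup.zpowers u := by
          rw [← hCz, Subgroup.mem_centralizer_iff]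
          intro x hx
          rw [Set.mem_singleton_iff.1 hx]
          calc u * k = u * k * u⁻¹ * u := by group
            _ = k * u := by rw [h1]
        obtain ⟨m, hm⟩ := Subgroup.mem_zpowers_iff.1 h2
        have h3 : lam k = 1 := k.2
        rw [← hm, map_zpow, hlu'] at h3
        have h4 : Even m := by
          by_contra hodd
          rw [(Int.not_even_iff_odd.1 hodd).neg_one_zpow] at h3
          have := congrArg Units.val h3
          norm_num at this
        obtain ⟨j, rfl⟩ := h4
        apply Subtype.ext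
        rw [← hm, ← two_mul, zpow_mul]
        have : u ^ (2 : ℤ) = 1 := by rw [zpow_two, huu]
        simp [this]
      have hinv : Function.Involutive (MulAut.conjNormal (H := lam.ker) u) := by
        intro k
        rw [← MulAut.mul_apply, ← map_mul, huu, map_one, MulAut.one_apply]
      exact Nat.coprime_two_right.2 (hfp.odd_card_of_involutive hinv)
    refine ⟨ho, eq_top_iff.2 fun g _ => ?_, hCz⟩
    have hor : lam g = 1 ∨ lam g = -1 := by
      have h0 : (lam g : ℂ) * lam g = 1 := by rw [← Units.val_mul, hsq g, Units.val_one]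
      rcases mul_self_eq_one_iff.1 h0 with h | h
      · exact Or.inl (Units.ext h)
      · exact Or.inr (Units.ext (by simpa using h))
    rcases hor with h1 | h1
    · exact Subgroup.mem_sup_right (hK h1)
    · have h2 : u * g ∈ lam.ker := by rw [MonoidHom.mem_ker, map_mul, hlu', h1]; simp
      have h3 : g = u * (u * g) := by rw [← mul_assoc, huu, one_mul]
      rw [h3]
      exact Subgroup.mul_mem_sup (Subgroup.mem_zpowers u) (hK h2)

end Cfsg.Agent.S4757
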