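import Cfsg.Statements.S4759
import Cfsg.Agent.H23.DadeExt
import Cfsg.Agent.H24.PKer
import Cfsg.Agent.S0888

set_option autoImplicit false
open Cfsg

namespace Cfsg.Agent.S4759

open Subgroup H23
open scoped commutatorElement

/-- Let G be a finite group that is the semidirect product of a normal extraspecial 2-subgroup E and a complement H acting faithfully on E (no non-identity element of H centralizes E), and suppose H has a normal subgroup K of odd order with [E, K] = E. Then every faithful irreducible character θ of E (there is exactly one) extends to G: some irreducible character of G restricts to θ on E. -/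
theorem result {G : Type*} [Group G] [Finite G] (E H : Subgroup G) [E.Normal] (hE : Cfsg.IsExtraspecial 2 ↥E) (hEH : E ⊓ H = ⊥) (hEHtop : E ⊔ H = ⊤) (hfaith : ∀ h ∈ H, (∀ e ∈ E, h * e = e * h) → h = 1) (K : Subgroup G) (hKH : K ≤ H) (hKn : ∀ h ∈ H, ∀ k ∈ K, h * k * h⁻¹ ∈ K) (hKodd : Odd (Nat.card ↥K)) (hEK : ⁅E, K⁆ = E) (θ : Cfsg.IrrCharacter ↥E) (hθ : ∀ e : ↥E, (θ : ↥E → ℂ) e = (θ : ↥E → ℂ) 1 → e = 1) : ∃ χ : Cfsg.IrrCharacter G, ∀ e : ↥E, (χ : G → ℂ) e = (θ : ↥E → ℂ) e := by
  obtain ⟨⟨h2, -, hd⟩, hc⟩ := hE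
  obtain ⟨z, z1, hz⟩ := (Nat.card_eq_two_iff' (1 : center E)).1 hc
  have hz' : ∀ y ∈ center E, y = 1 ∨ y = z := fun y hy =>
    (eq_or_ne y 1).imp_right fun h =>
      congrArg Subtype.val (hz ⟨y, hy⟩ fun e => h (congrArg Subtype.val e))
  have z1' : (z : E) ≠ 1 := fun e => z1 (Subtype.ext e)
  have z2 : (z : E) * z = 1 := (hz' _ (mul_mem z.2 z.2)).resolve_right (by simpa using z1')
  have hZ : center E ≤ zpowers (z : E) := fun y hy => (mem_zpowers_invol z2).2 (hz' y hy)
  have nd : ND (z : E) := ⟨z1', z2, z.2, fun a b =>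
    hZ (hd ▸ commutator_mem_commutator (mem_top a) (mem_top b)), hZ⟩
  have hcen : ∀ L : Subgroup G, L ≤ centralizer {((z : E) : G)} := fun _ g _ => by
    have h1 : MulAut.conjNormal g (z : E) ∈ center E := by
      rw [mem_center_iff]
      intro y
      obtain ⟨y, rfl⟩ := (MulAut.conjNormal (H := E) g).surjective y
      rw [← map_mul, ← map_mul, mem_center_iff.1 z.2]
    have h2 := congrArg Subtype.val ((hz' _ h1).resolve_left (by simpa using z1'))
    rw [MulAut.conjNormal_apply, mul_inv_eq_iff_eq_mul] at h2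
    exact mem_centralizer_singleton_iff.2 h2
  have hθz : θ.1 z = -θ.1 1 := (irr_sign θ.2 z.2 z2).resolve_left fun e => z1' (hθ _ e)
  have hinv : InvBy E ⊤ θ.1 := fun y hy =>
    (cj_eq_self_iff ⟨y, le_normalizer' hy⟩ θ).1 (Subtype.ext (nd.eq_of_irr (cj E _ θ).2
      (by rw [cj_apply_one, ← hθz]
          exact cj_apply_of_eq _ θ (by
            change _ = y * _ * y⁻¹
            rw [mem_centralizer_singleton_iff.1 (hcen ⊤ hy), mul_inv_cancel_right])) θ.2 hθz))
  have ab : ∀ a ∈ E, ∀ b ∈ E, ⁅a, b⁆ ∈ zpowers ((z : E) : G) := fun a ha b hb => by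
    obtain ⟨n, hn⟩ := nd.ab ⟨a, ha⟩ ⟨b, hb⟩
    exact ⟨n, by simpa [commutatorElement_def] using congrArg Subtype.val hn⟩
  have nd' : E ⊓ centralizer (E : Set G) ≤ zpowers ((z : E) : G) := fun a ha => by
    obtain ⟨n, hn⟩ := hZ (show (⟨a, ha.1⟩ : E) ∈ center E from
      mem_center_iff.2 fun b => Subtype.ext (ha.2 b b.2))
    exact ⟨n, by simpa using congrArg Subtype.val hn⟩
  obtain ⟨χ, hχ, e⟩ := S0888.result E θ.1 θ.2 (fun g n => hinv g (mem_top g) _ _ rfl) fun p hp => by
    haveI := Fact.mk hp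
    obtain ⟨S⟩ : Nonempty (Sylow p H) := inferInstance
    let P := (S : Subgroup H).map H.subtype
    have hP : P ≤ H := map_subtype_le _
    have pP : IsPGroup p P := S.isPGroup'.map _
    have EP : E ⊓ P = ⊥ := le_bot_iff.1 ((inf_le_inf_left _ hP).trans hEH.le)
    have h1 : E.relIndex (E ⊔ P) = Nat.card P := by
      rw [relIndex_sup_left, ← inf_relIndex_right, EP, relIndex_bot_left]
    obtain ⟨k, hk⟩ := pP.exists_card_eq
    have h3 : Extends θ.1 (E ⊔ P) := by
      by_cases hp2 : p = 2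
      · subst hp2
        obtain ⟨η, hη⟩ := DH.exists_se _ (⟨fun e => z1' (Subtype.ext e), congrArg Subtype.val z2,
          (z : E).2, hcen _, hcen _, hcen _, ab, nd', h2, pP, hKodd, le_normalizer', le_normalizer',
          fun x hx => mem_normalizer_fintype (hKn x (hP hx)), EP,
          le_trans (le_inf inf_le_left (le_centralizer_iff.1
            (hEK.ge.trans (DH.comm_le' ab (hcen K))))) nd'⟩ : DH _ E K P) rfl
        refine (extends_iff le_sup_left).2 ⟨⟨η, hη.irr le_sup_left (z : E).2 nd⟩, fun n => ?_⟩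
        exact congrFun (nd.eq_of_irr (hη.res_irr le_sup_left (z : E).2 nd) (hη.sg _ rfl) θ.2 hθz) n
      · haveI := Fact.mk Nat.prime_two
        obtain ⟨j, hj⟩ := h2.exists_card_eq
        have h4 : (p ^ k).Coprime (Nat.card E) :=
          hj ▸ Nat.Coprime.pow _ _ ((Nat.coprime_primes hp Nat.prime_two).2 hp2)
        refine H24.extends_of_coprime le_sup_left le_normalizer' (hinv.mono le_top) ?_
        rw [h1, hk]
        exact (h4.coprime_dvd_right (H72.detOrder_dvd_card (H11.irr_isCharacter θ))).mul_right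
          (h4.coprime_dvd_right (H24.deg_dvd_card θ.2))
    obtain ⟨η, hη⟩ := (extends_iff le_sup_left).1 h3
    refine ⟨E ⊔ P, le_sup_left, η.1, ?_, ⟨k, h1.trans hk⟩, η.2, hη⟩
    have h4 : (E ⊔ P).relIndex H = (E ⊔ P).index := by
      rw [← relIndex_top_right]
      refine H4.relIndex_eq_of_mul le_top fun g _ => ?_
      obtain ⟨a, ha, b, hb, e⟩ := (H4.mem_sup_iff_of_le_normalizer'
        (le_normalizer' (N := E) (G := H))).1 (hEHtop.ge (mem_top g))
      exact ⟨a, ha, b, mem_sup_left hb, e⟩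
    refine ((Nat.Prime.coprime_iff_not_dvd hp).2 fun h0 => S.not_dvd_index ?_).symm
    rw [← h4] at h0
    refine h0.trans ((Subgroup.relIndex_dvd_of_le_left H le_sup_right).trans (dvd_of_eq ?_))
    rw [relIndex, subgroupOf, comap_map_eq_self_of_injective H.subtype_injective]
  exact ⟨⟨χ, hχ⟩, e⟩

end Cfsg.Agent.S4759
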