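import Cfsg.Statements.S4763
import Cfsg.Agent.H24.TwoDeg
import Cfsg.Agent.H24.Ito
import Cfsg.Agent.H23.Count
import Cfsg.Agent.H92.ClassSize
import Cfsg.Agent.H8.SylowIn
import Cfsg.Agent.H4.CoprimeAction

set_option autoImplicit false
open Cfsg

namespace Cfsg.Agent.S4763

open Cfsg Cfsg.Agent.H11 Cfsg.Agent.H24
open scoped commutatorElement Pointwise

theorem card_add_card_compl {α : Type*} [Finite α] (q : α → Prop) :
    Nat.card {x // q x} + Nat.card {x // ¬ q x} = Nat.card α := by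
  classical
  rw [← Nat.card_sum]
  exact Nat.card_congr (Equiv.sumCompl q)

theorem card_classes {G : Type*} [Group G] [Finite G] {p : ℕ} [Fact p.Prime] (P : Sylow p G)
    (h : Subgroup.normalizer ((P : Subgroup G) : Set G) ≤
      Subgroup.centralizer ((P : Subgroup G) : Set G)) :
    Nat.card {C : ConjClasses G // ¬ p ∣ Nat.card C.carrier} =
      Nat.card (ConjClasses (Subgroup.centralizer ((P : Subgroup G) : Set G))) := by
  symm
  refine Nat.card_congr (Equiv.ofBijective
    (fun C => ⟨ConjClasses.map (Subgroup.subtype _) C, ?_⟩) ⟨fun C D hCD => ?_, ?_⟩)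
  · obtain ⟨c, rfl⟩ := ConjClasses.mk_surjective C
    change ¬ p ∣ Nat.card (ConjClasses.mk (c : G)).carrier
    rw [H92.card_carrier, H92.not_dvd_cs_iff_conj P]
    exact ⟨1, by simp⟩
  · obtain ⟨c, rfl⟩ := ConjClasses.mk_surjective C
    obtain ⟨d, rfl⟩ := ConjClasses.mk_surjective D
    have h1 : ConjClasses.mk (c : G) = ConjClasses.mk (d : G) := congrArg Subtype.val hCD
    rw [ConjClasses.mk_eq_mk_iff_isConj, isConj_iff] at h1 ⊢
    obtain ⟨g, hg⟩ := h1
    have h2 := (H8.isSylowIn_of_le P (H92.le_C_iff.2 c.2)).conj_smul g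
    rw [← H92.C_conj, hg] at h2
    obtain ⟨x, hx, hx'⟩ := h2.exists_conj_eq (H8.isSylowIn_of_le P (H92.le_C_iff.2 d.2))
    rw [H8.conj_smul_conj_smul, ← H8.mem_normalizer_iff_conj_smul_eq] at hx'
    refine ⟨⟨x * g, h hx'⟩, Subtype.ext ?_⟩
    change x * g * c * (x * g)⁻¹ = d
    calc x * g * c * (x * g)⁻¹ = x * (g * c * g⁻¹) * x⁻¹ := by group
      _ = d := by rw [hg, (H92.mem_C.1 hx).eq, mul_inv_cancel_right]
  · rintro ⟨C, hC⟩
    obtain ⟨c, rfl⟩ := ConjClasses.mk_surjective C
    rw [H92.card_carrier, H92.not_dvd_cs_iff_conj P] at hC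
    obtain ⟨g, hg⟩ := hC
    refine ⟨ConjClasses.mk ⟨_, hg⟩, Subtype.ext ?_⟩
    change ConjClasses.mk (g * c * g⁻¹) = ConjClasses.mk c
    rw [ConjClasses.mk_eq_mk_iff_isConj]
    exact (isConj_iff.2 ⟨g, rfl⟩).symm

theorem card_hom {G : Type*} [Group G] [Finite G] (N : Subgroup G) [N.Normal]
    (h : commutator G ≤ N) : Nat.card (G ⧸ N →* ℂˣ) = N.index := by
  rw [card_monoidHom_eq_index_commutator, ← map_mk'_commutator,
    (Subgroup.map_eq_bot_iff _).2 (by rwa [QuotientGroup.ker_mk']), Subgroup.index_bot]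
  rfl

/-- Let p be a prime and G a finite group that is not nilpotent and has a normal p-complement (a normal subgroup of order prime to p and index a power of p). If G has exactly one irreducible complex character of degree divisible by p, then G has exactly one conjugacy class whose size is divisible by p. -/
theorem result {G : Type*} [Group G] [Finite G] (p : ℕ) [Fact p.Prime] (hnil : ¬ Group.IsNilpotent G) (N : Subgroup G) [N.Normal] (hN : (Nat.card N).Coprime p) (hidx : ∃ k : ℕ, N.index = p ^ k) (hone : Nat.card {χ : Cfsg.IrrCharacter G // p ∣ Cfsg.charDegree (χ : G → ℂ)} = 1) : Nat.card {C : ConjClasses G // p ∣ Nat.card C.carrier} = 1 := by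
  have hp : p.Prime := Fact.out
  obtain ⟨k, hk⟩ := hidx
  obtain ⟨⟨χ, hχ⟩, h1⟩ := Nat.card_eq_one_iff_exists.1 hone
  have h2 : ∀ ψ, IsIrrCharacter G ψ → p ∣ charDegree ψ → ψ = χ := fun ψ hψ h2 =>
    congrArg (fun x => x.1.1) (h1 ⟨⟨ψ, hψ⟩, h2⟩)
  have hk0 : k ≠ 0 := by
    rintro rfl
    have h3 := hχ.trans (deg_dvd_card χ.2)
    rw [← N.index_mul_card, hk, pow_zero, one_mul] at h3
    exact hp.one_lt.ne' (Nat.eq_one_of_dvd_coprimes hN h3 dvd_rfl)
  have hcop : ∀ d : ℕ, d.Coprime N.index ↔ ¬ p ∣ d := fun d => by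
    rw [hk, Nat.coprime_pow_right_iff (Nat.pos_of_ne_zero hk0), Nat.coprime_comm,
      hp.coprime_iff_not_dvd]
  have h3 : commutator G ≤ N := by
    by_contra h3
    obtain ⟨ψ, hψ, hψN, hψ1⟩ := exists_irr_le_charKer_deg_ne_one N h3
    have h4 : p ∣ charDegree ψ := by
      by_contra h4
      exact hψ1 (Nat.eq_one_of_dvd_coprimes ((hcop _).2 h4) dvd_rfl
        (dvd_card_of_mem_cd (deg_mem_cd_quotient hψ N hψN)))
    obtain rfl := h2 ψ hψ h4
    have h5 : N ≠ ⊥ := by
      rintro rfl
      rw [Subgroup.index_bot] at hk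
      exact hnil (IsPGroup.of_card hk).isNilpotent
    obtain ⟨ξ, hξ, hξN⟩ : ∃ ξ, IsIrrCharacter G ξ ∧ ¬ N ≤ charKer ξ := by
      by_contra h1
      push Not at h1
      exact h5 (eq_bot_iff.2 fun x hx => eq_one_of_forall_mem_charKer fun χ hχ => h1 χ hχ hx)
    have h6 : ¬ p ∣ charDegree ξ := fun h => hξN (h2 ξ hξ h ▸ hψN)
    have := isSolvable_quotient_of_index_eq_pow N hp hk
    have h7 := gallagher_isIrr N (isCharacter_of_irr hξ)
      (res_isIrr_of_coprime N hξ ((hcop _).2 h6)) hψ hψN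
    have h8 := h2 _ h7 (by
      rw [deg_mul (isCharacter_of_irr hξ) (isCharacter_of_irr hψ)]; exact h4.mul_left _)
    apply hξN
    intro n hn
    rw [mem_charKer_irr_iff hξ]
    apply mul_right_cancel₀ (irr_apply_one_ne_zero hψ)
    have h9 := congrFun h8 n
    have h10 := congrFun h8 1
    rw [Pi.mul_apply] at h9 h10
    rw [apply_eq_of_mem_charKer (hψN hn)] at h9
    rw [h9, h10]
  obtain ⟨P⟩ : Nonempty (Sylow p G) := inferInstance
  have hPN : (P : Subgroup G) ⊓ N = ⊥ := H3.inf_eq_bot_of_isPGroup_of_coprime P.isPGroup' hN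
  have hNP : N ⊔ P = ⊤ := by
    apply H92.eq_top_of_forall_not_dvd_index
    intro q hq h
    have h4 : q ∣ p ^ k := hk ▸ h.trans (Subgroup.index_dvd_of_le le_sup_left)
    obtain rfl := (Nat.prime_dvd_prime_iff_eq hq hp).1 (hq.dvd_of_dvd_pow h4)
    exact P.not_dvd_index (h.trans (Subgroup.index_dvd_of_le le_sup_right))
  set C := Subgroup.centralizer ((P : Subgroup G) : Set G) with hC
  have h4 : Subgroup.normalizer ((P : Subgroup G) : Set G) ≤ C := by
    rw [hC, Subgroup.le_centralizer_iff, ← Subgroup.commutator_eq_bot_iff_le_centralizer,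
      eq_bot_iff, ← hPN]
    exact le_inf (H4.commutator_le_left_of_le_normalizer le_rfl)
      ((Subgroup.commutator_mono le_top le_top).trans h3)
  have hPC : (P : Subgroup G) ≤ C := Subgroup.le_normalizer.trans h4
  have h5 := H23.card_coprime_degree N ((hcop _).2 (hp.coprime_iff_not_dvd.1 hN.symm))
  rw [card_hom N h3, Nat.card_congr (Equiv.subtypeEquivRight fun θ : IrrCharacter N =>
    H23.invBy_top_iff_of_sup hNP (isClassFunction_of_irr θ.2)),
    H23.card_inv_eq_card_irr Subgroup.le_normalizer_of_normal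
      (H4.coprime_card_of_isPGroup hN P.isPGroup') (H4.isSolvable_of_isPGroup P.isPGroup'),
    Nat.card_congr (Equiv.subtypeEquivRight fun θ : IrrCharacter G => hcop _)] at h5
  have h6 : (N.subgroupOf C).index = N.index := by
    have h6 : N ⊔ C = ⊤ := eq_top_iff.2 (hNP ▸ sup_le_sup_left hPC N)
    rw [← Subgroup.relIndex, ← Subgroup.relIndex_sup_left, h6, Subgroup.relIndex_top_right]
  have h7 : (Nat.card (N.subgroupOf C)).Coprime p := by
    rw [H3.card_subgroupOf]
    exact H3.coprime_card_of_le inf_le_left hN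
  have h8 := H23.card_coprime_degree (N.subgroupOf C)
    (h6 ▸ (hcop _).2 (hp.coprime_iff_not_dvd.1 h7.symm))
  have h9 : commutator C ≤ N.subgroupOf C := commutator_le_subgroupOf_iff.2
    ((Subgroup.commutator_mono le_top le_top).trans h3)
  have hc : ∀ x ∈ (P : Subgroup G).subgroupOf C, ∀ y : C, x * y = y * x := fun x hx y =>
    Subtype.ext (y.2 x hx)
  have : ((P : Subgroup G).subgroupOf C).Normal :=
    ⟨fun x hx y => by rwa [← hc x hx, mul_inv_cancel_right]⟩
  have h10 : ∀ θ : IrrCharacter C, (charDegree θ.1).Coprime N.index := fun θ =>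
    (hcop _).2 (not_dvd_cd_of_normal_abelian ((P : Subgroup G).subgroupOf C)
      (fun x hx y _ => hc x hx y) (P.subtype hPC).not_dvd_index _ (deg_mem_cd θ.2))
  have h11 : ∀ θ : IrrCharacter (N.subgroupOf C), H23.InvBy (N.subgroupOf C) ⊤ θ.1 := by
    intro θ
    rw [H23.invBy_top_iff_of_sup (H := (P : Subgroup G).subgroupOf C) _
      (isClassFunction_of_irr θ.2)]
    · exact H23.invBy_of_le_centralizer (fun y _ x hx => hc x hx y) _
    · rw [eq_top_iff]
      intro c _
      have h11 : (c : G) ∈ ((N ⊔ P : Subgroup G) : Set G) := by rw [hNP]; trivial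
      rw [Subgroup.normal_mul] at h11
      obtain ⟨n, hn, y, hy, h11⟩ := h11
      have h12 : c = c * ⟨y, hPC hy⟩⁻¹ * ⟨y, hPC hy⟩ := by simp
      rw [h12]
      refine Subgroup.mul_mem_sup ?_ hy
      change (c : G) * y⁻¹ ∈ N
      rwa [← h11, mul_inv_cancel_right]
  rw [card_hom _ h9, h6, Nat.card_congr (Equiv.subtypeUnivEquiv h10),
    Nat.card_congr (Equiv.subtypeUnivEquiv h11), card_irr_eq_card_conjClasses,
    ← card_classes P h4, ← Subgroup.inf_subgroupOf_right, Nat.card_congr (irrEquivOfMulEquiv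
      (Subgroup.subgroupOfEquivOfLe (inf_le_right : N ⊓ C ≤ C))).symm] at h8
  have h12 := card_add_card_compl fun C : ConjClasses G => p ∣ Nat.card C.carrier
  have h13 := card_add_card_compl fun χ : IrrCharacter G => p ∣ charDegree χ.1
  rw [card_irr_eq_card_conjClasses] at h13
  have h14 := h5.trans h8.symm
  linarith

end Cfsg.Agent.S4763
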