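import Cfsg.Statements.S4765
import Cfsg.Agent.H77.PSL2Chars

set_option autoImplicit false
open Cfsg

namespace Cfsg.Agent.S4765

open Cfsg.Agent.H77

/-- Let F be a finite field of characteristic p with at least 4 elements. Then PSL(2,F) has exactly one irreducible complex character of degree divisible by p, and its degree is the order of F. -/
theorem result (p : ℕ) [Fact p.Prime] (F : Type*) [Field F] [Fintype F] [CharP F p] (hF : 4 ≤ Fintype.card F) : Nat.card {χ : Cfsg.IrrCharacter (Matrix.ProjectiveSpecialLinearGroup (Fin 2) F) // p ∣ Cfsg.charDegree (χ : Matrix.ProjectiveSpecialLinearGroup (Fin 2) F → ℂ)} = 1 ∧ ∀ χ : Cfsg.IrrCharacter (Matrix.ProjectiveSpecialLinearGroup (Fin 2) F), p ∣ Cfsg.charDegree (χ : Matrix.ProjectiveSpecialLinearGroup (Fin 2) F → ℂ) → Cfsg.charDegree (χ : Matrix.ProjectiveSpecialLinearGroup (Fin 2) F → ℂ) = Fintype.card F := by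
  classical
  obtain ⟨ψ, hψ, e⟩ := exists_psl_irr (F := F) isIrr_sSt (fun z hz => by rw [sSt_scal hz, sSt_one])
  have hd : Cfsg.charDegree ψ = Fintype.card F :=
    Cfsg.Agent.H24.deg_eq (by rw [← map_one (pm F), e, sSt_one])
  have key : ∀ χ : Cfsg.IrrCharacter (PSL2 F), p ∣ Cfsg.charDegree (χ : PSL2 F → ℂ) →
      (χ : PSL2 F → ℂ) = ψ := by
    intro χ h
    have h1 := eq_sSt_of_char_dvd p (isIrr_comp_pm χ.2)
      (by rwa [Cfsg.Agent.H24.deg_congr (ψ := (χ : PSL2 F → ℂ)) (by rw [map_one])])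
    funext g
    obtain ⟨g, rfl⟩ := pm_surj g
    rw [e, ← h1]
  refine ⟨?_, fun χ h => by rw [key χ h, hd]⟩
  obtain ⟨n, -, hn⟩ := FiniteField.card F p
  rw [Nat.card_eq_one_iff_exists]
  refine ⟨⟨⟨ψ, hψ⟩, ?_⟩, fun χ => Subtype.ext (Subtype.ext (key χ.1 χ.2))⟩
  show p ∣ Cfsg.charDegree ψ
  rw [hd, hn]; exact dvd_pow_self p n.ne_zero

end Cfsg.Agent.S4765
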