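import Cfsg.Statements.S4768
import Cfsg.Agent.H24.ThreeDeg
import Cfsg.Agent.H24.Ito
import Cfsg.Agent.H72.DetExt
import Cfsg.Agent.H4.CoprimeAction
import Cfsg.Agent.H1.Nilp
import Cfsg.Agent.H3.Cores

set_option autoImplicit false
open Cfsg

namespace Cfsg.Agent.S4768

open Cfsg Cfsg.Agent.H11 Cfsg.Agent.H24
open scoped commutatorElement

theorem commutator_le {G : Type*} [Group G] [Finite G] {p : ℕ} [hp : Fact p.Prime]
    (hG : IsPSolvable p G) (P : Sylow p G) (M : Subgroup G) [M.Normal] (hM : IsPGroup p M)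
    (hM1 : M ≠ ⊥) (h : ∀ χ, IsIrrCharacter G χ → ¬ M ≤ charKer χ → ¬ p ∣ charDegree χ) :
    ⁅(P : Subgroup G), (P : Subgroup G)⁆ ≤ M := by
  classical
  have := Fintype.ofFinite G
  have hMP : M ≤ P := hM.le_sylow_of_normal P
  obtain ⟨χ, hχ, hχM⟩ : ∃ χ, IsIrrCharacter G χ ∧ ¬ M ≤ charKer χ := by
    by_contra h1
    push Not at h1
    exact hM1 (eq_bot_iff.2 fun x hx => eq_one_of_forall_mem_charKer fun χ hχ => h1 χ hχ hx)
  have hχc := isCharacter_of_irr hχ
  obtain ⟨μ, hμ, h1, h2⟩ : ∃ μ, IsIrrCharacter P μ ∧ classInner (fun x : P => χ x) μ ≠ 0 ∧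
      ¬ p ∣ charDegree μ := by
    by_contra h1
    push Not at h1
    exact h χ hχ hχM (dvd_deg_of_forall_constituent (isCharacter_restrict hχc P) h1)
  obtain ⟨k, hk⟩ := exists_deg_eq_pow_of_isPGroup P.isPGroup' hμ
  have h3 : charDegree μ = 1 := by
    rcases k with _ | k
    · simpa using hk
    · exact absurd (hk ▸ dvd_pow_self p k.succ_ne_zero) h2
  obtain ⟨μ, rfl⟩ := exists_eq_lin (isCharacter_of_irr hμ) h3
  set lam : Lin M := Lin.mk (μ.hom.comp (Subgroup.inclusion hMP)) with hlam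
  have hl := isIrr_lin lam
  have h4 : classInner (fun n : M => χ n) (lin lam) ≠ 0 :=
    over_trans hMP hχc hμ (isCharacter_of_irr hl) h1 (by
      change classInner (lin lam) (lin lam) ≠ 0
      rw [classInner_irr_self hl]; exact one_ne_zero)
  have key : ∀ ξ, IsIrrCharacter G ξ → classInner (fun n : M => ξ n) (lin lam) ≠ 0 →
      ¬ M ≤ charKer ξ := by
    intro ξ hξ h5 h6
    have h7 : (fun n : M => ξ n) = ξ 1 • fun _ => 1 := by
      funext n
      simp [apply_eq_of_mem_charKer (h6 n.2)]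
    rw [h7, classInner_smul_left] at h5
    have h8 := irr_eq_of_classInner_ne_zero isIrrCharacter_one' hl (right_ne_zero_of_mul h5)
    rw [← h8] at h4
    exact hχM (le_charKer_of_classInner_ne_zero hχ M h4)
  set T := H14.inertia M (lin lam) with hT
  have hMT : M ≤ T := H14.le_inertia M (isClassFunction_of_irr hl)
  have hPT : (P : Subgroup G) ≤ T := by
    intro x hx
    rw [hT, H14.mem_inertia']
    intro n
    change ((μ.hom (⟨x, hx⟩ * Subgroup.inclusion hMP n * ⟨x, hx⟩⁻¹) : ℂˣ) : ℂ) = μ.hom _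
    rw [map_mul, map_mul, map_inv, mul_inv_cancel_comm]
  obtain ⟨ψ, hψ, h5, h6⟩ := H14.clifford_corr_exists M T hMT hl le_rfl hχ h4
  have hψc := isCharacter_of_irr hψ
  have h7 : ¬ p ∣ charDegree ψ := fun h7 => h χ hχ hχM (by
    rw [← h5, deg_indFun T hψc]; exact h7.mul_left _)
  have h8 := H14.clifford_invariant_of_le M T hMT hψ hl (h6 ▸ h4) le_rfl
  have h9 : (fun n : M => ψ (Subgroup.inclusion hMT n)) =
      fun n : M => (lam.hom n : ℂ) * ψ ((1 : M →* T) n) := by
    have h9 := congrFun h8 1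
    funext n
    have h10 := congrFun h8 n
    simp only [Pi.smul_apply, lin_apply_one, smul_eq_mul, mul_one] at h9 h10
    change ψ 1 = _ at h9
    change ψ ⟨n, _⟩ = _ * ψ 1
    rw [h10, h9, mul_comm, lin_apply]
  obtain ⟨δ, hδ⟩ := H72.exists_monoidHom_detChar hψc
  have h10 : ∀ n : M, δ (Subgroup.inclusion hMT n) = lam.hom n ^ charDegree ψ := by
    intro n
    have h10 := congrFun (H72.detChar_comp hψc (Subgroup.inclusion hMT)) n
    rw [h9, H72.detChar_linear_mul (isCharacter_comp hψc (1 : M →* T)) (d := charDegree ψ)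
      (irr_deg hψ), H72.detChar_comp hψc, hδ] at h10
    apply Units.ext
    simpa using h10.symm
  obtain ⟨a, ha⟩ := IsPGroup.iff_card.1 hM
  have h11 : (charDegree ψ).Coprime (Nat.card M) :=
    ha ▸ ((hp.out.coprime_iff_not_dvd.2 h7).symm).pow_right a
  obtain ⟨c, hc⟩ : ∃ c, charDegree ψ * c ≡ 1 [MOD Nat.card M] := by
    rcases Nat.exists_mul_mod_eq_one_of_coprime h11
      ((Subgroup.one_lt_card_iff_ne_bot M).2 hM1) with ⟨c, -, hc⟩
    exact ⟨c, by rw [Nat.ModEq, hc, Nat.mod_eq_of_lt ((Subgroup.one_lt_card_iff_ne_bot M).2 hM1)]⟩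
  have h12 : ∀ n : M, (Lin.mk δ ^ c).hom (Subgroup.inclusion hMT n) = lam.hom n := by
    intro n
    rw [Lin.pow_apply, Lin.hom_mk, h10, ← pow_mul, ← map_pow,
      pow_eq_pow_of_modEq hc (pow_card_eq_one' (x := n)), pow_one]
  have h13 : ∀ d ∈ charDegrees (T ⧸ M.subgroupOf T), ¬ p ∣ d := by
    intro d hd hpd
    obtain ⟨β, hβ, hβM, rfl⟩ := (mem_cd_quotient_iff _).1 hd
    have h13 := isIrr_lin_mul (Lin.mk δ ^ c) hβ
    have h14 : (fun n : M => (lin (Lin.mk δ ^ c) * β) ⟨n, hMT n.2⟩) = β 1 • lin lam := by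
      funext n
      have h14 : (⟨n, hMT n.2⟩ : T) ∈ charKer β := hβM n.2
      rw [Pi.mul_apply, apply_eq_of_mem_charKer h14, Pi.smul_apply, smul_eq_mul, mul_comm,
        lin_apply, lin_apply, ← h12]
      rfl
    have h15 : classInner (fun n : M => (lin (Lin.mk δ ^ c) * β) ⟨n, hMT n.2⟩) (lin lam) ≠ 0 := by
      rw [h14, classInner_smul_left, classInner_irr_self hl, mul_one]
      exact irr_apply_one_ne_zero hβ
    have h16 := H14.clifford_corr_isIrr M T hMT hl le_rfl h13 h15
    refine h _ h16 (key _ h16 ?_) ?_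
    · rwa [H14.clifford_corr_inner M T hMT hl le_rfl h13 h15]
    · rw [deg_indFun T (isCharacter_of_irr h13), deg_lin_mul]
      exact hpd.mul_left _
  have hf := QuotientGroup.mk'_surjective (M.subgroupOf T)
  have h14 := (ito_sylow_normal (isPSolvable_quotient hp.out (isPSolvable_subgroup hp.out hG T) _)
    h13 ((P.subtype hPT).mapSurjective hf)).2
  rw [Subgroup.commutator_le]
  intro x hx y hy
  have h15 := h14 _ (Subgroup.mem_map_of_mem _ (show (⟨x, hPT hx⟩ : T) ∈ P.subtype hPT from hx))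
    _ (Subgroup.mem_map_of_mem _ (show (⟨y, hPT hy⟩ : T) ∈ P.subtype hPT from hy))
  rw [← commutatorElement_eq_one_iff_mul_comm, ← map_commutatorElement, ← MonoidHom.mem_ker,
    QuotientGroup.ker_mk'] at h15
  exact h15

theorem aux.{u} (p : ℕ) [hp : Fact p.Prime] (G : Type u) [Group G] [Finite G] :
    IsPSolvable p G → ∀ P : Sylow p G, derivedSeries ↥(P : Subgroup G)
      (Nat.card {χ : IrrCharacter G // p ∣ charDegree (χ : G → ℂ)} + 1) = ⊥ := by
  refine H1.card_induction (P := fun G _ _ => IsPSolvable p G → ∀ P : Sylow p G,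
    derivedSeries ↥(P : Subgroup G)
      (Nat.card {χ : IrrCharacter G // p ∣ charDegree (χ : G → ℂ)} + 1) = ⊥) ?_ G
  intro G _ _ ih hG P
  rcases subsingleton_or_nontrivial G with h | h
  · exact Subsingleton.elim _ _
  have hq : ∀ M : Subgroup G, ∀ [M.Normal], M ≠ ⊥ → ∃ m,
      derivedSeries ↥(P : Subgroup G) (m + 1) ≤ M.subgroupOf P ∧
      m ≤ Nat.card {χ : IrrCharacter G // p ∣ charDegree (χ : G → ℂ)} ∧
      ∀ χ, IsIrrCharacter G χ → ¬ M ≤ charKer χ → p ∣ charDegree χ →
        m < Nat.card {χ : IrrCharacter G // p ∣ charDegree (χ : G → ℂ)} := by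
    intro M _ hM
    have hf := QuotientGroup.mk'_surjective M
    have h1 := ih _ (H1.card_quotient_lt hM) (isPSolvable_quotient hp.out hG M)
      (P.mapSurjective hf)
    let ι : {χ : IrrCharacter (G ⧸ M) // p ∣ charDegree (χ : G ⧸ M → ℂ)} →
        {χ : IrrCharacter G // p ∣ charDegree (χ : G → ℂ)} :=
      fun χ => ⟨(irrQuotientEquiv M χ.1).1, χ.2⟩
    have hι : Function.Injective ι := fun a b hab =>
      Subtype.ext ((irrQuotientEquiv M).injective (Subtype.ext (congrArg (fun x => x.1) hab :)))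
    refine ⟨_, ?_, Nat.card_le_card_of_injective ι hι, fun χ hχ h2 h3 => ?_⟩
    · intro x hx
      have h2 := map_derivedSeries_le_derivedSeries
        ((QuotientGroup.mk' M).subgroupMap (P : Subgroup G)) _ (Subgroup.mem_map_of_mem _ hx)
      erw [h1] at h2
      have h3 : QuotientGroup.mk' M x = 1 := congrArg Subtype.val (Subgroup.mem_bot.1 h2)
      rwa [← MonoidHom.mem_ker, QuotientGroup.ker_mk'] at h3
    · have := Fintype.ofFinite {χ : IrrCharacter G // p ∣ charDegree (χ : G → ℂ)}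
      have := Fintype.ofFinite {χ : IrrCharacter (G ⧸ M) // p ∣ charDegree (χ : G ⧸ M → ℂ)}
      rw [Nat.card_eq_fintype_card, Nat.card_eq_fintype_card]
      refine Fintype.card_lt_of_injective_of_notMem ι hι (b := ⟨⟨χ, hχ⟩, h3⟩) ?_
      rintro ⟨ψ, hψ⟩
      have h4 : ((irrQuotientEquiv M ψ.1).1 : G → ℂ) = χ := congrArg (fun x => x.1.1) hψ
      exact h2 (h4 ▸ (irrQuotientEquiv M ψ.1).2)
  obtain ⟨K, hKn, hK, ⟨a, ha⟩ | hK'⟩ := exists_normal_ne_bot_of_isPSolvable hG
  · have hKp : IsPGroup p K := IsPGroup.of_card ha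
    have := H4.isSolvable_of_isPGroup hKp
    obtain ⟨M, hM, hM1, hMK, hMn⟩ := H1.exists_abelian_of_isSolvable hK
    have : M.Normal := H1.normal_of_top_le_normalizer (Subgroup.le_normalizer_of_normal.trans hMn)
    have step : ∀ m, derivedSeries ↥(P : Subgroup G) m ≤ M.subgroupOf P →
        derivedSeries ↥(P : Subgroup G) (m + 1) = ⊥ := by
      intro m hm
      rw [derivedSeries_succ, eq_bot_iff, Subgroup.commutator_le]
      intro x hx y hy
      rw [Subgroup.mem_bot, commutatorElement_eq_one_iff_mul_comm]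
      exact Subtype.ext (congrArg Subtype.val
        (hM.is_comm.comm (⟨(x : G), hm hx⟩ : M) ⟨(y : G), hm hy⟩) :)
    by_cases h1 : ∀ χ, IsIrrCharacter G χ → ¬ M ≤ charKer χ → ¬ p ∣ charDegree χ
    · by_cases h2 : ∀ d ∈ charDegrees G, ¬ p ∣ d
      · refine derivedSeries_eq_bot_of_le (a := 1) ?_ (by omega)
        rw [derivedSeries_one, eq_bot_iff, commutator_def, Subgroup.commutator_le]
        intro x _ y _
        rw [Subgroup.mem_bot, commutatorElement_eq_one_iff_mul_comm]
        exact Subtype.ext ((ito_sylow_normal hG h2 P).2 _ x.2 _ y.2)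
      · push Not at h2
        obtain ⟨d, hd, hpd⟩ := h2
        obtain ⟨χ, hχ, rfl⟩ := mem_cd.1 hd
        have : Nonempty {χ : IrrCharacter G // p ∣ charDegree (χ : G → ℂ)} := ⟨⟨⟨χ, hχ⟩, hpd⟩⟩
        have h2 : 0 < Nat.card {χ : IrrCharacter G // p ∣ charDegree (χ : G → ℂ)} := Nat.card_pos
        refine derivedSeries_eq_bot_of_le (step 1 ?_) (by omega)
        rw [derivedSeries_one, commutator_le_subgroupOf_iff]
        exact commutator_le hG P M (hKp.to_le hMK) hM1 h1
    · push Not at h1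
      obtain ⟨χ, hχ, h1, h2⟩ := h1
      obtain ⟨m, h3, -, h4⟩ := hq M hM1
      exact derivedSeries_eq_bot_of_le (step _ h3) (by have := h4 χ hχ h1 h2; omega)
  · obtain ⟨m, h3, h4, -⟩ := hq K hK
    refine derivedSeries_eq_bot_of_le (a := m + 1) (eq_bot_iff.2 (h3.trans ?_)) (by omega)
    rw [le_bot_iff, Subgroup.subgroupOf_eq_bot, disjoint_comm, disjoint_iff]
    exact H3.inf_eq_bot_of_isPGroup_of_coprime P.isPGroup' hK'

/-- Let p be a prime, G a finite p-solvable group and P a Sylow p-subgroup of G. If n is the number of irreducible complex characters of G whose degree is divisible by p, then the (n+1)-st term of the derived series of P is trivial. (The p-solvable case has a direct inductive proof.) -/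
theorem result {G : Type*} [Group G] [Finite G] (p : ℕ) [Fact p.Prime] (hG : Cfsg.IsPSolvable p G) (P : Sylow p G) : derivedSeries ↥(P : Subgroup G) (Nat.card {χ : Cfsg.IrrCharacter G // p ∣ Cfsg.charDegree (χ : G → ℂ)} + 1) = ⊥ := by
  exact aux p G hG P

end Cfsg.Agent.S4768
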