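import Cfsg.Statements.S4782
import Mathlib
import Cfsg.Agent.H12.Burnside
import Cfsg.Agent.H24.Deg

set_option autoImplicit false
open Cfsg

namespace Cfsg.Agent.S4782

/-- A finite simple group all of whose degree primes lie in `{p, q}` is solvable. -/
theorem simple_case {S : Type*} [Group S] [Finite S] [IsSimpleGroup S] {p q : ℕ} (hp : p.Prime)
    (hq : q.Prime) (h : ∀ r ∈ Cfsg.degreePrimes S, r = p ∨ r = q) : Group.IsSolvable S := by
  obtain ⟨y, hy, hi⟩ : ∃ g : S, g ≠ 1 ∧ ¬ p ∣ (Subgroup.centralizer ({g} : Set S)).index := by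
    by_cases hpS : p ∣ Nat.card S
    · exact H12.exists_ne_one_not_dvd_index_centralizer hp hpS
    · obtain ⟨g, hg⟩ := exists_ne (1 : S)
      exact ⟨g, hg, fun hd => hpS (hd.trans (Subgroup.index_dvd_card _))⟩
  obtain ⟨χ, d, hχ, h1, hd, hqd, h0⟩ := H12.exists_irr_not_dvd_degree_ne_zero hq hy
  have hc : y ∈ H11.charCenter χ := by
    rw [H11.mem_charCenter_iff (H12.isCharacter_of_irr hχ), hd, Complex.norm_natCast]
    refine (H12.irr_eq_zero_or_norm_eq hχ hd y ?_).resolve_left h0
    refine Nat.Coprime.symm (Nat.coprime_of_dvd fun r hr h2 h3 => ?_)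
    have hmem : r ∈ Cfsg.degreePrimes S :=
      ⟨hr, d, H24.mem_cd.2 ⟨χ, hχ, H24.deg_eq hd⟩, h3⟩
    rcases h r hmem with rfl | rfl
    · exact hi h2
    · exact hqd h3
  rw [H11.charCenter_eq_center hχ (H11.charKer_eq_bot_of_isSimpleGroup hχ h1)] at hc
  have := Fact.mk (H12.prime_card_of_center_ne_bot (G := S)
    fun h => hy (by rwa [h, Subgroup.mem_bot] at hc))
  have := isCyclic_of_prime_card (α := S) rfl
  exact Group.isSolvable_of_comm fun x y => IsCyclic.commutative.is_comm.comm x y

universe u in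
theorem solvable_of_two {p q : ℕ} (hp : p.Prime) (hq : q.Prime) (G : Type u) [Group G] [Finite G]
    (hG : ∀ r ∈ Cfsg.degreePrimes G, r = p ∨ r = q) : Group.IsSolvable G := by
  induction hn : Nat.card G using Nat.strong_induction_on generalizing G with
  | _ n ih =>
    subst hn
    by_cases h : ∃ N : Subgroup G, N.Normal ∧ N ≠ ⊥ ∧ N ≠ ⊤
    · obtain ⟨N, hN, h1, h2⟩ := h
      rw [Group.isSolvable_iff_subgroup_quotient N]
      refine ⟨ih _ ?_ N (fun r hr => hG r ?_) rfl, ih _ ?_ (G ⧸ N) (fun r hr => hG r ?_) rfl⟩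
      · rw [← N.index_mul_card]
        have := Nat.card_pos (α := N)
        have h3 : 1 < N.index := Subgroup.one_lt_index_of_ne_top h2
        nlinarith
      · obtain ⟨hr, d, hd, hrd⟩ := hr
        obtain ⟨e, he, hde⟩ := H24.exists_cd_dvd_of_normal N hd
        exact ⟨hr, e, he, hrd.trans hde⟩
      · rw [← N.index_mul_card, ← Subgroup.index_eq_card]
        have h3 : 0 < N.index := Nat.pos_of_ne_zero Subgroup.index_ne_zero_of_finite
        have : 1 < Nat.card N := (Subgroup.one_lt_card_iff_ne_bot N).mpr h1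
        nlinarith
      · obtain ⟨hr, d, hd, hrd⟩ := hr
        exact ⟨hr, d, H24.cd_quotient_subset N hd, hrd⟩
    · rcases subsingleton_or_nontrivial G with hG' | hG'
      · infer_instance
      · push Not at h
        have : IsSimpleGroup G := ⟨fun N hN => by
          by_cases h1 : N = ⊥
          · exact Or.inl h1
          · exact Or.inr (h N hN h1)⟩
        exact simple_case hp hq hG


/-- If the finite group G is not solvable, then at least three distinct primes each divide some irreducible complex character degree of G. -/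
theorem result {G : Type*} [Group G] [Finite G] (hG : ¬ Group.IsSolvable G) : ∃ p q r : ℕ, p ≠ q ∧ q ≠ r ∧ p ≠ r ∧ p ∈ Cfsg.degreePrimes G ∧ q ∈ Cfsg.degreePrimes G ∧ r ∈ Cfsg.degreePrimes G := by
  by_contra hcon
  push Not at hcon
  apply hG
  by_cases h0 : ∃ p, p ∈ Cfsg.degreePrimes G
  · obtain ⟨p, hp⟩ := h0
    by_cases h1 : ∃ q, q ∈ Cfsg.degreePrimes G ∧ p ≠ q
    · obtain ⟨q, hq, hpq⟩ := h1
      refine solvable_of_two hp.1 hq.1 G fun r hr => ?_
      by_contra h2
      push Not at h2
      exact hcon p q r hpq (Ne.symm h2.2) (Ne.symm h2.1) hp hq hr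
    · push Not at h1
      exact solvable_of_two hp.1 hp.1 G fun r hr => Or.inl (h1 r hr).symm
  · push Not at h0
    exact solvable_of_two Nat.prime_two Nat.prime_two G fun r hr => absurd hr (h0 r)

end Cfsg.Agent.S4782
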