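import Cfsg.Statements.S4784
import Cfsg.Agent.H19.FS
import Cfsg.Agent.H14.Constituent

set_option autoImplicit false
open Cfsg

namespace Cfsg.Agent.S4784


/-- Let H be a subgroup of the finite group G and consider the permutation character of G on the cosets of H (the function induced from the principal character of H). Then exactly one irreducible constituent of it is real-valued with Frobenius–Schur indicator +1 (namely the principal character) if and only if the normal core of H has odd index in G. -/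
theorem result {G : Type*} [Group G] [Fintype G] (H : Subgroup G) : Nat.card {χ : Cfsg.IrrCharacter G // Cfsg.classInner (Cfsg.indFun H (fun _ : H => (1 : ℂ))) (χ : G → ℂ) ≠ 0 ∧ (∀ g : G, (starRingEnd ℂ) ((χ : G → ℂ) g) = (χ : G → ℂ) g) ∧ (Nat.card G : ℂ)⁻¹ * ∑ g : G, (χ : G → ℂ) (g * g) = 1} = 1 ↔ Odd H.normalCore.index := by
  classical
  letI := Fintype.ofFinite (Cfsg.IrrCharacter G)
  have hone : Cfsg.classInner (Cfsg.indFun H (fun _ : H => (1 : ℂ))) (H19.oneIrr G).1 = 1 := by
    rw [H14.classInner_indFun_left H _ (H11.isClassFunction_of_irr (H19.oneIrr G).2)]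
    exact H11.classInner_one_one
  have hP : Cfsg.classInner (Cfsg.indFun H (fun _ : H => (1 : ℂ))) (H19.oneIrr G).1 ≠ 0 ∧
      (∀ g : G, (starRingEnd ℂ) ((H19.oneIrr G).1 g) = (H19.oneIrr G).1 g) ∧
      (Nat.card G : ℂ)⁻¹ * ∑ g : G, (H19.oneIrr G).1 (g * g) = 1 :=
    ⟨by rw [hone]; exact one_ne_zero, fun g => by simp [H19.oneIrr_coe], H19.fs_one⟩
  rw [Nat.card_eq_one_iff_exists]
  constructor
  · rintro ⟨a, ha⟩
    by_contra hodd
    rw [Nat.not_odd_iff_even, even_iff_two_dvd] at hodd
    haveI : Fact (Nat.Prime 2) := ⟨Nat.prime_two⟩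
    obtain ⟨u, hu⟩ := exists_prime_orderOf_dvd_card' (G := G ⧸ H.normalCore) 2 hodd
    obtain ⟨u, rfl⟩ := QuotientGroup.mk_surjective u
    have hu1 : u ∉ H.normalCore := by
      intro h
      rw [(QuotientGroup.eq_one_iff u).mpr h] at hu
      simp at hu
    have hu2 : u * u ∈ H.normalCore := by
      rw [← QuotientGroup.eq_one_iff, QuotientGroup.mk_mul, ← pow_two, ← hu, pow_orderOf_eq_one]
    set π := Cfsg.indFun H (fun _ : H => (1 : ℂ)) with hπ
    have hπc : Cfsg.IsCharacter G π := H14.IsCharacter.indFun H H11.isCharacter_one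
    have hlt : ∑ g : G, Nat.card (MulAction.fixedBy (G ⧸ H) g) <
        ∑ g : G, Nat.card (MulAction.fixedBy (G ⧸ H) (g * g)) := by
      have hsub : ∀ g : G, MulAction.fixedBy (G ⧸ H) g ⊆ MulAction.fixedBy (G ⧸ H) (g * g) := by
        intro g x hx
        rw [MulAction.mem_fixedBy] at hx ⊢
        rw [mul_smul, hx, hx]
      refine Finset.sum_lt_sum (fun g _ => ?_) ⟨u, Finset.mem_univ _, ?_⟩
      · exact Set.ncard_le_ncard (hsub g)
      · refine Set.ncard_lt_ncard ⟨hsub u, fun h => hu1 ?_⟩
        rw [Subgroup.normalCore_eq_ker] at hu2 ⊢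
        rw [MonoidHom.mem_ker] at hu2 ⊢
        ext x
        have : x ∈ MulAction.fixedBy (G ⧸ H) (u * u) := congrFun (congrArg DFunLike.coe hu2) x
        exact h this
    have h1 : ∑ g : G, (Nat.card (MulAction.fixedBy (G ⧸ H) g) : ℂ) = Nat.card G := by
      have h2 := H11.card_mul_classInner π (H19.oneIrr G).1
      rw [hone, mul_one] at h2
      rw [h2]
      simp [hπ, H19.oneIrr_coe, H14.indFun_one_eq_card_fixedBy]
    have h2 : (Nat.card G : ℂ) * H19.fs π =
        ∑ g : G, (Nat.card (MulAction.fixedBy (G ⧸ H) (g * g)) : ℂ) := by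
      rw [H19.fs, ← mul_assoc, mul_inv_cancel₀ (H11.card_ne_zero G), one_mul]
      simp [hπ, H14.indFun_one_eq_card_fixedBy]
    have h3 : (H19.fs π).re ≤ 1 := by
      obtain ⟨m, hm, hm'⟩ := H11.exists_eq_sum_nat hπc
      rw [hm', H19.fs_sum, Complex.re_sum,
        ← Finset.add_sum_erase _ _ (Finset.mem_univ (H19.oneIrr G)), H19.fs_smul, ← hm, hone,
        H19.oneIrr_coe, H19.fs_one]
      have : ∑ χ ∈ Finset.univ.erase (H19.oneIrr G), (H19.fs ((m χ : ℂ) • χ.1)).re ≤ 0 := by
        refine Finset.sum_nonpos fun χ hχ => ?_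
        rw [H19.fs_smul]
        rcases H19.fs_cases χ.2 with h | h | h
        · simp [h]
        · by_cases hm0 : m χ = 0
          · simp [hm0]
          · exfalso
            apply (Finset.mem_erase.mp hχ).1
            have e1 := ha ⟨χ, by rw [hm]; exact_mod_cast hm0, fun g => Complex.conj_eq_iff_im.mpr
              (H19.real_of_fs_ne_zero χ.2 (by rw [h]; exact one_ne_zero) g), h⟩
            have e2 := ha ⟨_, hP⟩
            exact congrArg Subtype.val (e1.trans e2.symm)
        · simp [h]
      simp only [mul_one, Complex.one_re]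
      linarith
    have h4 := congrArg Complex.re h2
    rw [← Nat.cast_sum, Complex.natCast_re, Complex.mul_re, Complex.natCast_re,
      Complex.natCast_im, zero_mul, sub_zero] at h4
    rw [← Nat.cast_sum] at h1
    have h5 : ∑ g : G, Nat.card (MulAction.fixedBy (G ⧸ H) g) = Nat.card G := by exact_mod_cast h1
    rw [h5] at hlt
    have h6 : (Nat.card G : ℝ) < (∑ g : G, Nat.card (MulAction.fixedBy (G ⧸ H) (g * g)) : ℕ) := by
      exact_mod_cast hlt
    have h7 : (0 : ℝ) < Nat.card G := by exact_mod_cast Nat.card_pos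
    nlinarith
  · intro hodd
    refine ⟨⟨_, hP⟩, fun χ => Subtype.ext ?_⟩
    obtain ⟨χ, h1, h2, -⟩ := χ
    obtain ⟨χ₀, -, huniq⟩ := H19.existsUnique_real_over H.normalCore hodd H11.isIrrCharacter_one
      (fun _ => by simp)
    have key : ∀ ψ : Cfsg.IrrCharacter G,
        Cfsg.classInner (Cfsg.indFun H (fun _ : H => (1 : ℂ))) ψ.1 ≠ 0 →
        Cfsg.classInner (fun n : H.normalCore => ψ.1 n) (fun _ => 1) ≠ 0 := by
      intro ψ h
      rw [H14.classInner_indFun_left H _ (H11.isClassFunction_of_irr ψ.2)] at h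
      exact (H11.classInner_ne_zero_comm _ _).mp (H14.inner_comp_ne_zero H11.isCharacter_one
        (H11.isCharacter_restrict (H11.irr_isCharacter ψ) H) h
        (Subgroup.inclusion H.normalCore_le))
    exact (huniq χ ⟨key χ h1, fun g => Complex.conj_eq_iff_im.mp (h2 g)⟩).trans
      (huniq _ ⟨key _ hP.1, fun g => Complex.conj_eq_iff_im.mp (hP.2.1 g)⟩).symm

end Cfsg.Agent.S4784
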