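import Cfsg.Statements.S4793
import Cfsg.Agent.H53.UwAsm
import Cfsg.Agent.H69.UwWd

set_option autoImplicit false
open Cfsg

namespace Cfsg.Agent.S4793

/-- Let F be a finite field with q² elements, n ≥ 3 with n coprime to 2(q + 1), and G a finite group isomorphic to the projective special unitary group PSU(n, q). Then G has exactly one irreducible complex character of degree (qⁿ − q)/(q + 1), and an irreducible character χ of G has nonzero inner product with the conjugation character g ↦ #C_G(g) (is a constituent of the permutation character of G on itself by conjugation) if and only if its degree is not (qⁿ − q)/(q + 1). -/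
theorem result {G : Type*} [Group G] [Fintype G] (n q : ℕ) (F : Type*) [Field F] [Fintype F] (hF : Fintype.card F = q ^ 2) (hn : 3 ≤ n) (hcop : Nat.Coprime n (2 * (q + 1))) (hG : Nonempty (G ≃* Cfsg.PSU n F q)) : Nat.card {χ : Cfsg.IrrCharacter G // Cfsg.charDegree (χ : G → ℂ) = (q ^ n - q) / (q + 1)} = 1 ∧ ∀ χ : Cfsg.IrrCharacter G, Cfsg.classInner (χ : G → ℂ) (fun g : G => (Nat.card ↥(Subgroup.centralizer ({g} : Set G)) : ℂ)) ≠ 0 ↔ Cfsg.charDegree (χ : G → ℂ) ≠ (q ^ n - q) / (q + 1) := by
  exact H53.Uw.final (H53.Uw.hy_of fun weil => H53.Uw.H69.wd weil H53.Uw.norm H53.Uw.kit H53.Uw.r4)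
    H61.UwBr.br H53.Uw.pi n q F hF hn hcop hG

end Cfsg.Agent.S4793
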