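import Cfsg.Statements.S4796
import Cfsg.Agent.H23.Codegree
import Cfsg.Agent.H92.Basic

set_option autoImplicit false
open Cfsg

namespace Cfsg.Agent.S4796

/-- Let G be a finite group with a faithful irreducible complex character χ whose codegree #G / χ(1) is a prime p (for a faithful character the kernel is trivial, so the codegree is #G / χ(1)). Then either G is cyclic of order p, or G is a Frobenius group whose Frobenius kernel has order p: some proper non-trivial subgroup H satisfies H ∩ gHg⁻¹ = 1 for every element g outside H, and the set of elements lying in no conjugate of H, together with the identity, has exactly p elements. -/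
theorem result {G : Type*} [Group G] [Finite G] (χ : Cfsg.IrrCharacter G) (hfaith : ∀ g : G, (χ : G → ℂ) g = (χ : G → ℂ) 1 → g = 1) (p : ℕ) (hp : p.Prime) (hcod : Nat.card G = p * Cfsg.charDegree (χ : G → ℂ)) : (IsCyclic G ∧ Nat.card G = p) ∨ ∃ H : Subgroup G, Cfsg.IsFrobeniusComplement H ∧ Nat.card ↥(Cfsg.frobeniusKernel H) = p := by
  obtain ⟨hlt, P, hPn, hP, hidx, hC⟩ := H23.exists_normal_of_card_eq_prime_mul_deg χ.2 hp hcod
  haveI := Fact.mk hp
  by_cases h1 : charDegree (χ : G → ℂ) = 1
  · rw [h1, mul_one] at hcod
    exact Or.inl ⟨isCyclic_of_prime_card hcod, hcod⟩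
  · right
    have hd0 := H24.deg_pos χ.2
    have hcop : Nat.Coprime (Nat.card P) P.index := by
      rw [hP, hidx, hp.coprime_iff_not_dvd]
      exact fun hd => absurd (Nat.le_of_dvd hd0 hd) (not_le.2 hlt)
    obtain ⟨H, hH⟩ := Subgroup.exists_right_complement'_of_coprime hcop
    have hHc : Nat.card H = P.index := hH.symm.index_eq_card.symm
    have := H92.frobenius_of_fpf P H
      (fun h => by rw [h, Subgroup.card_bot] at hP; exact hp.one_lt.ne hP)
      (fun h => by rw [h, Subgroup.card_bot, hidx] at hHc; exact h1 hHc.symm)
      hH.sup_eq_top hH.disjoint (fun h hh hne n hn hc => by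
        by_contra hn1
        exact hne ((Subgroup.disjoint_def.1 hH.disjoint) (hC n hn hn1 h hc) hh))
    refine ⟨H, this.1, ?_⟩
    rw [this.2]
    exact hP

end Cfsg.Agent.S4796
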