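import Cfsg.Statements.S4797
import Cfsg.Agent.H23.Codegree

set_option autoImplicit false
open Cfsg

namespace Cfsg.Agent.S4797

/-- The codegree of an irreducible complex character χ of a finite group G is [G : ker χ] / χ(1), where ker χ is the set of elements at which χ takes the value χ(1). A non-trivial finite group is perfect if and only if no irreducible complex character of it has prime codegree. -/
theorem result {G : Type*} [Group G] [Finite G] [Nontrivial G] : commutator G = ⊤ ↔ ∀ χ : Cfsg.IrrCharacter G, ¬ ((Nat.card G / (Nat.card {g : G // (χ : G → ℂ) g = (χ : G → ℂ) 1} * Cfsg.charDegree (χ : G → ℂ)))).Prime := by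
  constructor
  · intro hperf χ hprime
    haveI := H11.charKer_normal (H11.isClassFunction_of_irr χ.2)
    obtain ⟨ψ, hψ, -, hψχ⟩ := H23.exists_faithful_lift χ.2
    have hdeg : charDegree ψ = charDegree (χ : G → ℂ) := H24.deg_congr (hψχ 1)
    have h1 := H23.codeg_mul_deg χ.2
    set p := Nat.card G / (Nat.card {g : G // (χ : G → ℂ) g = (χ : G → ℂ) 1} *
      Cfsg.charDegree (χ : G → ℂ)) with hp
    haveI := Fact.mk hprime
    obtain ⟨-, P, hPn, hP, -, hC⟩ := H23.exists_normal_of_card_eq_prime_mul_deg hψ hprime
      (by rw [hdeg, h1]; rfl)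
    have hQ : commutator (G ⧸ H11.charKer (χ : G → ℂ)) = ⊤ := by
      have := map_commutator_eq G (QuotientGroup.mk' (H11.charKer (χ : G → ℂ)))
      rw [hperf, Subgroup.map_top_of_surjective _ (QuotientGroup.mk'_surjective _),
        MonoidHom.range_eq_top.2 (QuotientGroup.mk'_surjective _)] at this
      exact this.symm
    haveI : IsCyclic P := isCyclic_of_prime_card hP
    have hcomm : ∀ a b : MulAut P, a * b = b * a := fun a b => by
      apply (IsCyclic.mulAutMulEquiv P).injective
      rw [map_mul, map_mul, mul_comm]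
    have hker : commutator _ ≤ (MulAut.conjNormal (H := P)).ker := by
      rw [commutator_def, Subgroup.commutator_le]
      intro a _ b _
      rw [MonoidHom.mem_ker, map_commutatorElement, commutatorElement_eq_one_iff_mul_comm]
      exact hcomm _ _
    obtain ⟨n, hn, hn1⟩ : ∃ n ∈ P, n ≠ 1 := by
      by_contra hcon
      push Not at hcon
      rw [(Subgroup.eq_bot_iff_forall _).2 hcon, Subgroup.card_bot] at hP
      exact hprime.one_lt.ne hP
    have hall : ∀ g, g ∈ P := fun g => hC n hn hn1 g (by
      have h2 : MulAut.conjNormal g = (1 : MulAut P) := hker (hQ ▸ Subgroup.mem_top g)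
      have h3 := congrArg Subtype.val (DFunLike.congr_fun h2 ⟨n, hn⟩)
      simp only [MulAut.conjNormal_apply, MulAut.one_apply] at h3
      exact mul_inv_eq_iff_eq_mul.1 h3)
    have hab : ∀ a b : G ⧸ H11.charKer (χ : G → ℂ), a * b = b * a := fun a b =>
      congrArg Subtype.val
        ((IsCyclic.isMulCommutative (α := P)).is_comm.comm (⟨a, hall a⟩ : P) ⟨b, hall b⟩)
    have hbot : commutator (G ⧸ H11.charKer (χ : G → ℂ)) ≤ ⊥ := by
      rw [commutator_def, Subgroup.commutator_le]
      intro a _ b _
      rw [Subgroup.mem_bot, commutatorElement_eq_one_iff_mul_comm]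
      exact hab _ _
    exact hn1 (hbot (hQ ▸ Subgroup.mem_top n))
  · intro h
    by_contra hne
    obtain ⟨M, hMn, hM, -, hMp⟩ := H24.exists_normal_index_prime (N := (⊥ : Subgroup G))
      (by simpa using hne)
    obtain ⟨g, hg⟩ : ∃ g, g ∉ M := by
      by_contra hcon
      push Not at hcon
      rw [(Subgroup.eq_top_iff' M).2 hcon, Subgroup.index_top] at hMp
      exact Nat.not_prime_one hMp
    obtain ⟨lam, hlam, hg1⟩ := H11.exists_monoidHom_ne_one M hM hg
    apply h ⟨_, H11.isIrrCharacter_monoidHom lam⟩
    rw [H23.codeg_eq (H11.isIrrCharacter_monoidHom lam), H11.charKer_monoidHom, H24.deg_monoidHom,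
      Nat.div_one]
    rcases H24.eq_or_eq_top_of_index_prime M hMp hlam with h1 | h1
    · rwa [h1]
    · exact absurd (show g ∈ lam.ker from h1 ▸ Subgroup.mem_top g) hg1

end Cfsg.Agent.S4797
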