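import Cfsg.Statements.S4798
import Cfsg.Agent.H23.Codegree
import Cfsg.Agent.H14.Constituent

set_option autoImplicit false
open Cfsg

namespace Cfsg.Agent.S4798

/-- Let p be a prime and χ a faithful irreducible complex character of the finite group G (χ(g) = χ(1) only for g = 1), so that its codegree is #G / χ(1). Then #G / χ(1) is a power of p if and only if χ is induced from a character of a Sylow p-subgroup of G. -/
theorem result {G : Type*} [Group G] [Fintype G] (p : ℕ) [Fact p.Prime] (χ : Cfsg.IrrCharacter G) (hfaith : ∀ g : G, (χ : G → ℂ) g = (χ : G → ℂ) 1 → g = 1) : (∃ k : ℕ, Nat.card G = p ^ k * Cfsg.charDegree (χ : G → ℂ)) ↔ ∃ (P : Sylow p G) (θ : ↥(P : Subgroup G) → ℂ), Cfsg.IsCharacter ↥(P : Subgroup G) θ ∧ (χ : G → ℂ) = Cfsg.indFun (P : Subgroup G) θ := by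
  classical
  have hp : p.Prime := Fact.out
  have hd0 := H24.deg_pos χ.2
  constructor
  · rintro ⟨k, hk⟩
    obtain ⟨P⟩ : Nonempty (Sylow p G) := inferInstance
    set d := charDegree (χ : G → ℂ) with hd
    obtain ⟨θ, hθ, hin, hnd⟩ : ∃ θ : ↥(P : Subgroup G) → ℂ, IsIrrCharacter _ θ ∧
        classInner (fun h : ↥(P : Subgroup G) => (χ : G → ℂ) h) θ ≠ 0 ∧
        ¬ p ^ (d.factorization p + 1) ∣ charDegree θ := by
      by_contra hcon
      push Not at hcon
      have := H24.dvd_deg_of_forall_constituent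
        (H11.isCharacter_restrict (H11.irr_isCharacter χ) (P : Subgroup G)) hcon
      rw [H24.deg_res] at this
      exact Nat.pow_succ_factorization_not_dvd hd0.ne' hp this
    obtain ⟨b, hb⟩ := H24.exists_deg_eq_pow_of_isPGroup P.isPGroup' hθ
    have hba : b ≤ d.factorization p := by
      by_contra hlt
      exact hnd (hb ▸ pow_dvd_pow p (by omega))
    have hcop : Nat.Coprime (P : Subgroup G).index p :=
      ((Nat.Prime.coprime_iff_not_dvd hp).2 P.not_dvd_index).symm
    have h1 : (P : Subgroup G).index ∣ d := by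
      refine (hcop.pow_right k).dvd_of_dvd_mul_left ?_
      rw [← hk]
      exact Subgroup.index_dvd_card _
    have h2 : (P : Subgroup G).index * p ^ b ∣ d :=
      (hcop.pow_right b).mul_dvd_of_dvd_of_dvd h1
        ((pow_dvd_pow p hba).trans (Nat.ordProj_dvd d p))
    have h3 := H24.deg_le_index_mul_of_over (P : Subgroup G) χ.2 (H11.isCharacter_of_irr hθ) hin
    have h4 : d = (P : Subgroup G).index * charDegree θ :=
      le_antisymm h3 (hb ▸ Nat.le_of_dvd hd0 h2)
    refine ⟨P, θ, H11.isCharacter_of_irr hθ,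
      (H14.indFun_eq_of_degree _ (H11.isCharacter_of_irr hθ) χ.2 hin ?_).symm⟩
    rw [H24.irr_deg χ.2, H24.irr_deg hθ, ← hd, h4]
    push_cast
    rfl
  · rintro ⟨P, θ, hθ, h⟩
    have hirr : IsIrrCharacter _ θ := H14.isIrr_of_indFun _ hθ (h ▸ χ.2)
    obtain ⟨c, hc⟩ := H24.deg_dvd_card hirr
    obtain ⟨n, hn⟩ := P.isPGroup'.exists_card_eq
    obtain ⟨k, -, hk⟩ := (Nat.dvd_prime_pow hp).1 (show c ∣ p ^ n from ⟨charDegree θ, by
      rw [← hn, hc, mul_comm]⟩)
    refine ⟨k, ?_⟩
    rw [h, H24.deg_indFun _ hθ, ← (P : Subgroup G).card_mul_index, hc, hk]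
    ring

end Cfsg.Agent.S4798
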