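import Cfsg.Statements.S4801
import Cfsg.Agent.H23.Codegree

set_option autoImplicit false
open Cfsg

namespace Cfsg.Agent.S4801

/-- The codegree of an irreducible complex character χ of a finite group G is [G : ker χ] / χ(1), where ker χ is the set of elements at which χ takes the value χ(1). Let S be a finite simple group and G a finite group such that every codegree of an irreducible character of S is a codegree of an irreducible character of G. Then the order of S divides the order of G. -/
theorem result {S : Type*} [Group S] [Finite S] (hS : IsSimpleGroup S) {G : Type*} [Group G] [Finite G] (hsub : ∀ χ : Cfsg.IrrCharacter S, ∃ ψ : Cfsg.IrrCharacter G, (Nat.card S / (Nat.card {g : S // (χ : S → ℂ) g = (χ : S → ℂ) 1} * Cfsg.charDegree (χ : S → ℂ))) = (Nat.card G / (Nat.card {g : G // (ψ : G → ℂ) g = (ψ : G → ℂ) 1} * Cfsg.charDegree (ψ : G → ℂ)))) : Nat.card S ∣ Nat.card G := by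
  refine (Nat.factorization_prime_le_iff_dvd Nat.card_pos.ne' Nat.card_pos.ne').1 fun p hp => ?_
  obtain ⟨g, hg⟩ := exists_ne (1 : S)
  obtain ⟨χ, d, hχ, hne, hd, hpd, -⟩ := H12.exists_irr_not_dvd_degree_ne_zero hp hg
  obtain ⟨ψ, hψ⟩ := hsub ⟨χ, hχ⟩
  have h1 := H23.codeg_mul_deg hχ
  rw [H11.charKer_eq_bot_of_isSimpleGroup hχ hne, Subgroup.index_bot] at h1
  simp only at hψ
  rw [hψ, H24.deg_eq hd] at h1
  have h2 := (Dvd.intro _ (H23.codeg_mul_deg ψ.2)).trans (Subgroup.index_dvd_card _)
  rw [← hp.pow_dvd_iff_le_factorization Nat.card_pos.ne']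
  refine Dvd.dvd.trans ?_ h2
  refine (Nat.Coprime.pow_left _ ((Nat.Prime.coprime_iff_not_dvd hp).2 hpd)).dvd_of_dvd_mul_right ?_
  rw [h1]
  exact Nat.ordProj_dvd _ _

end Cfsg.Agent.S4801
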