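import Cfsg.Statements.S4807
import Cfsg.Agent.H23.McKay

set_option autoImplicit false
open Cfsg

namespace Cfsg.Agent.S4807

open Subgroup H23

/-- Let p be a prime and G a finite p-solvable group, L a normal subgroup of G, S a Sylow p-subgroup of G and P the subgroup generated by L and S (so P/L is a Sylow p-subgroup of G/L), and let ν be an irreducible complex character of L that is invariant under conjugation by every element of P. Let N be the normalizer of P in G (it contains L). Then the number of irreducible characters of G of degree prime to p lying over ν (restriction to L not orthogonal to ν) equals the number of irreducible characters of N of degree prime to p lying over ν. -/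
theorem result {G : Type*} [Group G] [Finite G] (p : ℕ) [Fact p.Prime] (hG : Cfsg.IsPSolvable p G) (L : Subgroup G) [L.Normal] (S : Sylow p G) (P : Subgroup G) (hP : P = L ⊔ (S : Subgroup G)) (hLN : L ≤ (Subgroup.normalizer ((P : Subgroup G) : Set G))) (ν : Cfsg.IrrCharacter ↥L) (hν : ∀ x ∈ P, Cfsg.IsConjCharOf L x (ν : ↥L → ℂ) (ν : ↥L → ℂ)) : Nat.card {χ : Cfsg.IrrCharacter G // ¬ p ∣ Cfsg.charDegree (χ : G → ℂ) ∧ (∑ᶠ l : ↥L, (χ : G → ℂ) (l : G) * (starRingEnd ℂ) ((ν : ↥L → ℂ) l)) ≠ 0} = Nat.card {ψ : Cfsg.IrrCharacter ↥(Subgroup.normalizer ((P : Subgroup G) : Set G)) // ¬ p ∣ Cfsg.charDegree (ψ : ↥(Subgroup.normalizer ((P : Subgroup G) : Set G)) → ℂ) ∧ (∑ᶠ l : ↥L, (ψ : ↥(Subgroup.normalizer ((P : Subgroup G) : Set G)) → ℂ) (Subgroup.inclusion hLN l) * (starRingEnd ℂ) ((ν : ↥L → ℂ) l)) ≠ 0} := by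
  have hp : p.Prime := Fact.out
  haveI := Fintype.ofFinite L
  have h := mckay_rel hp _ (L := L) (P := P) (G := ⊤) (N := normalizer (P : Set G)) rfl
    (H24.isPSolvable_subgroup hp hG ⊤) (hP ▸ le_sup_left) le_top le_normalizer'
    (hP ▸ pmod_sup le_normalizer' fun x hx => by
      obtain ⟨k, hk⟩ := S.2 ⟨x, hx⟩
      exact ⟨k, by rw [show x ^ p ^ k = 1 from congrArg Subtype.val hk]; exact one_mem _⟩)
    (by
      rw [relIndex_top_right]
      exact fun h => S.not_dvd_index (h.trans (index_dvd_of_le (hP ▸ le_sup_right))))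
    (top_inf_eq _).symm le_top hLN (ν := ν) hν
  refine Eq.trans (Nat.card_congr (topIrr.subtypeEquiv fun χ => ?_)) (h.trans
    (Nat.card_congr (Equiv.subtypeEquivRight fun ψ => ?_)))
  · rw [deg_topIrr, mult_ne_zero_iff, finsum_eq_sum_of_fintype, ← H11.card_mul_classInner,
      mul_ne_zero_iff_left (H11.card_ne_zero L)]
    rfl
  · rw [mult_ne_zero_iff, finsum_eq_sum_of_fintype, ← H11.card_mul_classInner,
      mul_ne_zero_iff_left (H11.card_ne_zero L)]
    rfl

end Cfsg.Agent.S4807
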