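import Cfsg.Statements.S4808
import Cfsg.Agent.H23.Codegree

set_option autoImplicit false
open Cfsg

namespace Cfsg.Agent.S4808

/-- The codegree of an irreducible complex character χ of a finite group G is [G : ker χ] / χ(1), where ker χ is the set of elements at which χ takes the value χ(1). A prime divides the order of G if and only if it divides the codegree of some irreducible complex character of G. -/
theorem result {G : Type*} [Group G] [Finite G] (p : ℕ) (hp : p.Prime) : p ∣ Nat.card G ↔ ∃ χ : Cfsg.IrrCharacter G, p ∣ (Nat.card G / (Nat.card {g : G // (χ : G → ℂ) g = (χ : G → ℂ) 1} * Cfsg.charDegree (χ : G → ℂ))) := by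
  classical
  haveI := Fintype.ofFinite (IrrCharacter G)
  constructor
  · intro hpG
    by_contra hcon
    push Not at hcon
    obtain ⟨K, ⟨hKn, hKp⟩, hKmax⟩ := exists_maximal_of_wellFoundedGT
      (fun K : Subgroup G => K.Normal ∧ p ∣ K.index) ⟨⊥, inferInstance, by simpa using hpG⟩
    have hKtop : K ≠ ⊤ := fun h => by
      rw [h, Subgroup.index_top] at hKp
      exact hp.one_lt.ne' (Nat.dvd_one.1 hKp)
    obtain ⟨N, ⟨hNn, hKN⟩, hNmin⟩ := exists_minimal_of_wellFoundedLT
      (fun N : Subgroup G => N.Normal ∧ K < N) ⟨⊤, inferInstance, hKtop.lt_top⟩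
    have hbig : ∀ L : Subgroup G, L.Normal → K < L → ¬ p ∣ L.index := fun L hL hKL hd =>
      absurd (hKmax ⟨hL, hd⟩ hKL.le) (not_le_of_gt hKL)
    have h1 := H24.sum_deg_sq_le_charKer (G := G) K
    have h2 := H24.sum_deg_sq_le_charKer (G := G) N
    rw [← Finset.sum_filter_add_sum_filter_not _ (fun χ => N ≤ H11.charKer χ.1),
      Finset.filter_filter, Finset.filter_filter] at h1
    have h3 : (Finset.univ.filter fun χ : IrrCharacter G =>
        K ≤ H11.charKer χ.1 ∧ N ≤ H11.charKer χ.1) =
        Finset.univ.filter fun χ : IrrCharacter G => N ≤ H11.charKer χ.1 := by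
      ext χ
      simp only [Finset.mem_filter, Finset.mem_univ, true_and, and_iff_right_iff_imp]
      exact fun h => hKN.le.trans h
    rw [h3, h2] at h1
    have h4 : p ∣ ∑ χ ∈ Finset.univ.filter (fun χ : IrrCharacter G =>
        K ≤ H11.charKer χ.1 ∧ ¬ N ≤ H11.charKer χ.1), charDegree χ.1 ^ 2 := by
      refine Finset.dvd_sum fun χ hχ => Dvd.dvd.pow ?_ two_ne_zero
      obtain ⟨h5, h6⟩ := (Finset.mem_filter.1 hχ).2
      haveI hLn := H11.charKer_normal (H11.isClassFunction_of_irr χ.2)
      have h7 : H11.charKer χ.1 ⊓ N = K := by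
        by_contra hne
        have h8 : K < H11.charKer χ.1 ⊓ N := lt_of_le_of_ne (le_inf h5 hKN.le) (Ne.symm hne)
        exact h6 ((hNmin ⟨inferInstance, h8⟩ inf_le_right).trans inf_le_left)
      have h8 : p ∣ (H11.charKer χ.1).index := by
        have h9 : K.index ∣ (H11.charKer χ.1).index * N.index := by
          rw [← h7, ← Subgroup.relIndex_mul_index (inf_le_right : _ ⊓ N ≤ N),
            Subgroup.inf_relIndex_right]
          exact Nat.mul_dvd_mul_right (Subgroup.relIndex_dvd_index_of_normal _ _) _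
        exact ((Nat.Prime.dvd_mul hp).1 (hKp.trans h9)).resolve_right (hbig N hNn hKN)
      rw [← H23.codeg_mul_deg χ.2] at h8
      exact ((Nat.Prime.dvd_mul hp).1 h8).resolve_left (hcon χ)
    exact hbig N hNn hKN ((Nat.dvd_add_left h4).1 (h1 ▸ hKp))
  · rintro ⟨χ, hχ⟩
    refine hχ.trans ((Dvd.intro _ (H23.codeg_mul_deg χ.2)).trans (Subgroup.index_dvd_card _))

end Cfsg.Agent.S4808
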