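import Cfsg.Statements.S4814
import Cfsg.Agent.H23.Codegree

set_option autoImplicit false
open Cfsg

namespace Cfsg.Agent.S4814

theorem sum_comm_mul {G : Type*} [Group G] [Fintype G] {χ : G → ℂ} (hχ : IsIrrCharacter G χ)
    (y : G) : ∑ a : G, ∑ b : G, χ (a * b * a⁻¹ * b⁻¹ * y) =
      ((Nat.card G : ℂ) / χ 1) ^ 2 * χ y := by
  rw [Finset.sum_comm]
  have h1 : ∀ b : G, ∑ a : G, χ (a * b * a⁻¹ * b⁻¹ * y) =
      (Nat.card G : ℂ) / χ 1 * (χ b⁻¹⁻¹ * χ (b⁻¹ * y)) := fun b => by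
    simp only [mul_assoc _ b⁻¹ y]
    rw [H11.sum_irr_conj_mul hχ b (b⁻¹ * y), inv_inv]
    ring
  simp only [h1]
  have h2 : ∑ b : G, χ b⁻¹⁻¹ * χ (b⁻¹ * y) = ∑ b : G, χ b⁻¹ * χ (b * y) :=
    Equiv.sum_comp (Equiv.inv G) (fun b => χ b⁻¹ * χ (b * y))
  rw [← Finset.mul_sum, h2, H11.sum_irr_mul_irr_mul hχ hχ, H11.classInner_irr_self hχ]
  ring

/-- Let G be a finite group such that the sum, over the irreducible complex characters χ of G, of 1/χ(1)² is less than 2. Then every element of G is a product of two commutators. -/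
theorem result {G : Type*} [Group G] [Finite G]
    (h : ∑ᶠ χ : Cfsg.IrrCharacter G, 1 / ‖(χ : G → ℂ) 1‖ ^ 2 < (2 : ℝ)) (g : G) :
    ∃ a b c d : G, (a * b * a⁻¹ * b⁻¹) * (c * d * c⁻¹ * d⁻¹) = g := by
  classical
  haveI := Fintype.ofFinite G
  haveI := Fintype.ofFinite (IrrCharacter G)
  rw [finsum_eq_sum_of_fintype] at h
  by_contra hcon
  push Not at hcon
  have h1 : ∀ a b c d : G, ∑ χ : IrrCharacter G, (χ : G → ℂ) 1 *
      (χ : G → ℂ) (a * b * a⁻¹ * b⁻¹ * (c * d * c⁻¹ * d⁻¹ * g⁻¹)) = 0 := fun a b c d =>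
    H11.sum_degree_mul_apply_of_ne_one fun h0 => hcon a b c d (by
      rw [← mul_assoc, mul_inv_eq_one] at h0; exact h0)
  have h2 : ∑ χ : IrrCharacter G, (χ : G → ℂ) 1 * (((Nat.card G : ℂ) / (χ : G → ℂ) 1) ^ 2 *
      (((Nat.card G : ℂ) / (χ : G → ℂ) 1) ^ 2 * (χ : G → ℂ) g⁻¹)) = 0 := by
    have h3 : ∀ χ : IrrCharacter G, (χ : G → ℂ) 1 * (((Nat.card G : ℂ) / (χ : G → ℂ) 1) ^ 2 *
        (((Nat.card G : ℂ) / (χ : G → ℂ) 1) ^ 2 * (χ : G → ℂ) g⁻¹)) =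
        ∑ c : G, ∑ d : G, ∑ a : G, ∑ b : G, (χ : G → ℂ) 1 *
          (χ : G → ℂ) (a * b * a⁻¹ * b⁻¹ * (c * d * c⁻¹ * d⁻¹ * g⁻¹)) := fun χ => by
      simp only [← Finset.mul_sum, sum_comm_mul χ.2]
    simp only [h3]
    rw [Finset.sum_comm]
    refine Finset.sum_eq_zero fun c _ => ?_
    rw [Finset.sum_comm]
    refine Finset.sum_eq_zero fun d _ => ?_
    rw [Finset.sum_comm]
    refine Finset.sum_eq_zero fun a _ => ?_
    rw [Finset.sum_comm]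
    exact Finset.sum_eq_zero fun b _ => h1 a b c d
  have hG := H11.card_ne_zero G
  have h3 : ∑ χ : IrrCharacter G, (χ : G → ℂ) g⁻¹ / (χ : G → ℂ) 1 ^ 3 = 0 := by
    apply mul_left_cancel₀ (pow_ne_zero 4 hG)
    rw [mul_zero, ← h2, Finset.mul_sum]
    refine Finset.sum_congr rfl fun χ _ => ?_
    have := H11.irr_apply_one_ne_zero χ.2
    field_simp
  let one : IrrCharacter G := ⟨_, H11.isIrrCharacter_one⟩
  rw [← Finset.add_sum_erase _ _ (Finset.mem_univ one)] at h h3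
  have h4 : ‖∑ χ ∈ Finset.univ.erase one, (χ : G → ℂ) g⁻¹ / (χ : G → ℂ) 1 ^ 3‖ ≤
      ∑ χ ∈ Finset.univ.erase one, 1 / ‖(χ : G → ℂ) 1‖ ^ 2 := by
    refine (norm_sum_le _ _).trans (Finset.sum_le_sum fun χ _ => ?_)
    have h5 := H12.IsCharacter_norm_le (H11.irr_isCharacter χ) g⁻¹
    have h6 : 0 < ‖(χ : G → ℂ) 1‖ := norm_pos_iff.2 (H11.irr_apply_one_ne_zero χ.2)
    rw [norm_div, norm_pow, div_le_div_iff₀ (by positivity) (by positivity)]
    nlinarith [pow_pos h6 2]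
  have h5 : ∑ χ ∈ Finset.univ.erase one, (χ : G → ℂ) g⁻¹ / (χ : G → ℂ) 1 ^ 3 = -1 := by
    simp only [one, one_pow, div_one] at h3
    linear_combination h3
  rw [h5] at h4
  simp only [one, norm_one, one_pow, div_one, norm_neg] at h h4
  linarith

end Cfsg.Agent.S4814
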