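import Cfsg.Statements.S4825
import Cfsg.Agent.H21.Feit
import Cfsg.Agent.H20.BlockOrth
import Cfsg.Agent.H14.Clifford
import Cfsg.Agent.H19.GaloisBlock

set_option autoImplicit false
open Cfsg

namespace Cfsg.Agent.S4825

open Cfsg Cfsg.Agent.H21

theorem sq_mod {p e : ℕ} (hp : p.Prime) (h3 : p ≤ 3) (he : ¬ p ∣ e) : (e : ZMod p) ^ 2 = 1 := by
  have h2 := hp.two_le
  have : Fact p.Prime := ⟨hp⟩
  have h0 : (e : ZMod p) ≠ 0 := by rwa [Ne, ZMod.natCast_eq_zero_iff]
  interval_cases p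
  · revert h0; generalize (e : ZMod 2) = x; decide +revert
  · revert h0; generalize (e : ZMod 3) = x; decide +revert

/-- Let p be a prime, G a finite group with Sylow p-subgroup P, M a maximal ideal of the algebraic integers containing p, and B a p-block of G with defect group P. Let N be a normal subgroup of G not containing P and θ an irreducible character of N. Then the number of irreducible characters in B of degree prime to p lying over θ (having θ as a constituent on restriction to N) is either 0 or at least 2, and when p ≤ 3 it is divisible by p. -/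
theorem result {G : Type*} [Group G] [Fintype G] (p : ℕ) [Fact p.Prime] (P : Sylow p G) (M : Ideal Cfsg.AlgInt) (hM : Cfsg.IsPModular p M) (B : Set (Cfsg.IrrCharacter G)) (hB : Cfsg.IsPBlock M B) (hBP : Cfsg.IsDefectGroup p M B P) (N : Subgroup G) [N.Normal] [Fintype N] (hPN : ¬ (P : Subgroup G) ≤ N) (θ : Cfsg.IrrCharacter N) :
    (Nat.card {χ : Cfsg.IrrCharacter G // χ ∈ B ∧ ¬ p ∣ Cfsg.charDegree (χ : G → ℂ) ∧ Cfsg.classInner (fun n : N => (χ : G → ℂ) n) (θ : N → ℂ) ≠ 0} = 0 ∨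
      2 ≤ Nat.card {χ : Cfsg.IrrCharacter G // χ ∈ B ∧ ¬ p ∣ Cfsg.charDegree (χ : G → ℂ) ∧ Cfsg.classInner (fun n : N => (χ : G → ℂ) n) (θ : N → ℂ) ≠ 0}) ∧
    (p ≤ 3 → p ∣ Nat.card {χ : Cfsg.IrrCharacter G // χ ∈ B ∧ ¬ p ∣ Cfsg.charDegree (χ : G → ℂ) ∧ Cfsg.classInner (fun n : N => (χ : G → ℂ) n) (θ : N → ℂ) ≠ 0}) := by
  classical
  have := Fintype.ofFinite (IrrCharacter G)
  have hp := hM.1
  set S := Finset.univ.filter (fun χ : IrrCharacter G => χ ∈ B ∧ ¬ p ∣ charDegree χ.1 ∧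
    classInner (fun n : N => χ.1 n) θ.1 ≠ 0) with hS
  have hcard : Nat.card {χ : IrrCharacter G // χ ∈ B ∧ ¬ p ∣ charDegree χ.1 ∧
      classInner (fun n : N => χ.1 n) θ.1 ≠ 0} = S.card := by
    rw [Nat.card_eq_fintype_card, Fintype.card_subtype]
  rw [hcard]
  rcases S.eq_empty_or_nonempty with h0 | ⟨χ₀, hχ₀⟩
  · simp [h0]
  choose e he using fun χ : IrrCharacter G =>
    H11.exists_nat_classInner (H11.isCharacter_restrict (H11.irr_isCharacter χ) N)
      (H11.irr_isCharacter θ)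
  set t := (H14.inertia N θ.1).index * charDegree θ.1 with ht
  have hdeg : ∀ χ : IrrCharacter G, e χ ≠ 0 → charDegree χ.1 = e χ * t := by
    intro χ h
    have h1 := H14.clifford_degree N χ.2 θ.2 (by rw [he]; exact_mod_cast h)
    rw [he, ← cast_deg, ← cast_deg, mul_assoc] at h1
    exact_mod_cast h1
  have hmem : ∀ χ, χ ∈ S ↔ χ ∈ B ∧ ¬ p ∣ charDegree χ.1 ∧ e χ ≠ 0 := by
    intro χ
    simp [hS, he]
  have hpt : ¬ p ∣ t := by
    obtain ⟨-, h1, h2⟩ := (hmem χ₀).1 hχ₀
    rw [hdeg χ₀ h2] at h1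
    exact fun h => h1 (h.mul_left _)
  obtain ⟨u, huP, huN⟩ := SetLike.not_le_iff_exists.1 hPN
  have hu := H20.isPElt_of_mem P.isPGroup' huP
  have hΨ : blockPart B (indFun N θ.1) u = 0 := by
    refine H20.blockPart_eq_zero_of_section hM (H17.lamClosed_of_isPBlock hM.2.1 hB)
      (H20.pPart_self hp hu) fun g y hy hc => H14.indFun_normal_of_not_mem N _ fun hg => huN ?_
    obtain ⟨c, rfl⟩ := isConj_iff.1 hc
    simpa [mul_assoc] using (inferInstance : N.Normal).conj_mem _ (H20.pPart_mem hp hy hg) c⁻¹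
  have hΨ1 : H19.val M (blockPart B (indFun N θ.1) 1) < 1 := by
    have h1 := blockPart_isCharacter B (H14.IsCharacter.indFun N (H11.irr_isCharacter θ))
    obtain ⟨k, hk⟩ := hu
    have h2 := H19.red_char_mul hM h1 (x := u) (y := 1) (k := k) (by rw [← hk, pow_orderOf_eq_one])
      (Commute.one_right u)
    rw [mul_one, hΨ, H19.red_zero] at h2
    exact (H19.red_eq_zero_iff (char_mem_Vr h1 1)).1 h2.symm
  have hsum : blockPart B (indFun N θ.1) 1 =
      ((∑ χ ∈ Finset.univ.filter (· ∈ B), e χ ^ 2) * t : ℕ) := by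
    rw [blockPart_apply]
    push_cast
    rw [Finset.sum_mul]
    refine Finset.sum_congr rfl fun χ _ => ?_
    rw [H14.classInner_indFun_left N _ (H11.isClassFunction_of_irr χ.2), ← H11.conj_classInner,
      he, ← cast_deg]
    by_cases h : e χ = 0
    · simp [h]
    · rw [hdeg χ h]; simp; ring
  rw [hsum, H19.val_natCast_lt_one_iff hM] at hΨ1
  have h1 := (hp.dvd_mul.1 hΨ1).resolve_right hpt
  have h2 : ((∑ χ ∈ S, e χ ^ 2 : ℕ) : ZMod p) = 0 := by
    rw [← ZMod.natCast_eq_zero_iff] at h1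
    rw [← h1]
    push_cast
    refine Finset.sum_subset (fun χ hχ => by simpa using ((hmem χ).1 hχ).1) fun χ hχ hχS => ?_
    rw [hmem] at hχS
    by_cases h : e χ = 0
    · simp [h]
    · have h3 : p ∣ charDegree χ.1 := by
        by_contra h4
        exact hχS ⟨by simpa using hχ, h4, h⟩
      rw [hdeg χ h] at h3
      rw [(ZMod.natCast_eq_zero_iff _ _).2 ((hp.dvd_mul.1 h3).resolve_right hpt)]
      simp
  have h3 : ∀ χ ∈ S, ¬ p ∣ e χ := by
    intro χ hχ h
    obtain ⟨-, h1, h2⟩ := (hmem χ).1 hχ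
    rw [hdeg χ h2] at h1
    exact h1 (h.mul_right _)
  refine ⟨Or.inr ?_, fun h => ?_⟩
  · by_contra h
    have h4 : S = {χ₀} := Finset.eq_singleton_iff_unique_mem.2 ⟨hχ₀, fun x hx =>
      Finset.card_le_one.1 (by omega) x hx χ₀ hχ₀⟩
    rw [h4, Finset.sum_singleton, ZMod.natCast_eq_zero_iff] at h2
    exact h3 χ₀ hχ₀ (hp.dvd_of_dvd_pow h2)
  · rw [← ZMod.natCast_eq_zero_iff, ← h2]
    push_cast
    rw [Finset.sum_congr rfl fun χ hχ => sq_mod hp h (h3 χ hχ)]
    simp

end Cfsg.Agent.S4825
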