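import Cfsg.Statements.S4828
import Cfsg.Agent.H18.Regular
import Cfsg.Agent.S0968
import Cfsg.Agent.S0969

set_option autoImplicit false
open Cfsg

namespace Cfsg.Agent.S4828

open Cfsg.Agent.H18 Cfsg.Agent.H19 MonoidAlgebra

theorem fact_index {G : Type*} [Group G] [Finite G] (p : ℕ) {D C : Subgroup G} (h : D ≤ C) :
    (D.subgroupOf C).index.factorization p + (Nat.card D).factorization p =
      (Nat.card C).factorization p := by
  rw [← (D.subgroupOf C).index_mul_card, Nat.card_congr (Subgroup.subgroupOfEquivOfLe h).toEquiv,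
    Nat.factorization_mul Subgroup.index_ne_zero_of_finite Nat.card_pos.ne']
  rfl


/-- Let p be a prime, M a maximal ideal of the algebraic integers containing p, and (Q, e) a Brauer pair of the finite group G (Q a p-subgroup, e a block of C_G(Q)). Then (Q, e) is a maximal Brauer pair of some block of G if and only if e contains an irreducible character θ such that θ takes the value θ(1) at every element of Z(Q) = Q ∩ C_G(Q), the p-part of θ(1) times the p-part of the order of Z(Q) equals the p-part of the order of C_G(Q) (θ has defect zero as a character of C_G(Q)/Z(Q)), and every element of N_G(Q) of p-power order that stabilizes e lies in Q·C_G(Q) (the stabilizer of e in N_G(Q) has index prime to p over Q·C_G(Q)). -/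
theorem result {G : Type*} [Group G] [Finite G] (p : ℕ) [Fact p.Prime] (M : Ideal Cfsg.AlgInt) (hM : Cfsg.IsPModular p M) (Q : Subgroup G) (e : Set (Cfsg.IrrCharacter (Subgroup.centralizer (Q : Set G)))) (he : Cfsg.IsBrauerPair p M Q e) :
    (∃ B : Set (Cfsg.IrrCharacter G), Cfsg.IsMaximalBrauerPair p M B Q e) ↔
      ∃ θ ∈ e, (∀ z : Subgroup.centralizer (Q : Set G), (z : G) ∈ Q → (θ : Subgroup.centralizer (Q : Set G) → ℂ) z = (θ : Subgroup.centralizer (Q : Set G) → ℂ) 1) ∧
        (Cfsg.charDegree (θ : Subgroup.centralizer (Q : Set G) → ℂ)).factorization p + (Nat.card ↥(Q ⊓ Subgroup.centralizer (Q : Set G))).factorization p = (Nat.card (Subgroup.centralizer (Q : Set G))).factorization p ∧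
        (∀ g : G, g ∈ Subgroup.normalizer (Q : Set G) → Cfsg.StabilizesBlock (Subgroup.centralizer (Q : Set G)) e g → (∃ k : ℕ, orderOf g = p ^ k) → g ∈ Q ⊔ Subgroup.centralizer (Q : Set G)) := by
  have := charP_kk hM
  have hP := isPair_bid hM he.1 he.2
  have hZ : (Q ⊓ Cz Q).subgroupOf (Cz Q) ≤ Subgroup.center (Cz Q) := fun z hz =>
    Subgroup.mem_center_iff.2 fun g => Subtype.ext (mem_Cz.1 g.2 z hz.1).symm
  have hZp : IsPGroup p ((Q ⊓ Cz Q).subgroupOf (Cz Q)) :=
    (he.1.to_le inf_le_left).comap_subtype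
  have hf := fact_index p (inf_le_right : Q ⊓ Cz Q ≤ Cz Q)
  constructor
  · rintro ⟨B, hB⟩
    have hm := maxPair_of_isMaximalBrauerPair hM hB
    have hb := isPrim_gid hM.2.1 hB.1.2.1
    have h1 := hm.isDefect_inf hb (L := Cz Q) (le_trans (le_inf le_top le_rfl) hP.C_le_NP)
    obtain ⟨⟨θ, ⟨hθ, h2⟩, -⟩, h3, -⟩ := S0968.result p M hM _ hZp (by
      rw [eq_top_iff]
      exact le_sup_of_le_right fun g _ z hz => (Subgroup.mem_center_iff.1 (hZ hz) g).symm) e he.2
      ((isDefectGroup_subgroupOf_iff hM he.2 inf_le_right).2 h1)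
    refine ⟨θ, hθ, fun z hz => h2 z ⟨hz, z.2⟩, by rw [h3 θ hθ h2]; exact hf, ?_⟩
    rintro g hg hge ⟨k, hk⟩
    have := hm.mem_sup_of_pow_mem hb (x := g) (n := k)
      ⟨⟨trivial, hg⟩, (stabilizesBlock_Cz_iff hM.2.1 he.2 hg).1 hge⟩
      (by rw [← hk, pow_orderOf_eq_one]; exact one_mem _)
    rwa [top_inf_eq] at this
  · rintro ⟨θ, hθ, -, h2, h3⟩
    have h4 := (S0969.result p M hM _ hZp hZ θ (by
      have : _ + _ = ((Nat.card (Cz Q)).factorization p) := h2
      have : (Nat.card ↥(Q ⊓ Subgroup.centralizer (Q : Set G))).factorization p =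
        (Nat.card ↥(Q ⊓ Cz Q)).factorization p := rfl
      omega)).1
    rw [← H17.block_eq_blockOf hM.2.1 he.2 hθ,
      isDefectGroup_subgroupOf_iff hM he.2 inf_le_right] at h4
    obtain ⟨b, ⟨hb, hbe⟩, -⟩ := hP.existsUnique_block
    obtain ⟨B, hB, rfl⟩ := exists_gid_eq hM.2.1 hb
    refine ⟨B, (isMaximalBrauerPair_iff hM).2 ⟨he.2, hB, IsPairOf.isMaxPair_of_NP ⟨hP, hbe⟩ ?_⟩⟩
    intro S hS hSp hne hQS
    have h5 : S ⊓ Cz Q = Q ⊓ Cz Q := h4.max inf_le_right (hSp.to_le inf_le_left)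
      (br_ne_zero_of_le inf_le_left hne) (inf_le_inf_right _ hQS)
    refine le_antisymm (fun s hs => ?_) hQS
    obtain ⟨q, hq, h6⟩ := (mem_sup_iff_inv_mul (Subgroup.le_normalizer.trans (Nz_le_Nz_Cz Q))).1
      (h3 s (hS hs).1.2 ((stabilizesBlock_Cz_iff hM.2.1 he.2 (hS hs).1.2).2 (hS hs).2)
        (by
          obtain ⟨k, hk⟩ := IsPGroup.iff_orderOf.1 hSp ⟨s, hs⟩
          exact ⟨k, by rw [← hk, Subgroup.orderOf_mk]⟩))
    have h7 : q⁻¹ * s ∈ Q ⊓ Cz Q := h5 ▸ ⟨S.mul_mem (S.inv_mem (hQS hq)) hs, h6⟩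
    simpa using Q.mul_mem hq h7.1

end Cfsg.Agent.S4828
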