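import Cfsg.Statements.S4835
import Cfsg.Agent.H23.Gagola

set_option autoImplicit false
open Cfsg

namespace Cfsg.Agent.S4835

/-- Let G be a finite group of order greater than 2 with an irreducible character χ that is nonzero on exactly two conjugacy classes. Then G has a unique minimal normal subgroup N; N is an elementary abelian p-group for some prime p; χ is nonzero exactly at the elements of N; and any two nonidentity elements of N are conjugate in G. -/
theorem result {G : Type*} [Group G] [Finite G] (hG : 2 < Nat.card G) (χ : Cfsg.IrrCharacter G) (hχ : Nat.card {C : ConjClasses G // ∃ g ∈ C.carrier, (χ : G → ℂ) g ≠ 0} = 2) :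
    ∃ N : Subgroup G, N.Normal ∧ N ≠ ⊥ ∧ (∀ K : Subgroup G, K.Normal → K ≠ ⊥ → N ≤ K) ∧
      (∃ p : ℕ, p.Prime ∧ Cfsg.IsElementaryAbelian p N) ∧
      (∀ g : G, (χ : G → ℂ) g ≠ 0 ↔ g ∈ N) ∧
      (∀ x ∈ N, ∀ y ∈ N, x ≠ 1 → y ≠ 1 → ∃ g : G, g * x * g⁻¹ = y) := by
  obtain ⟨N, h⟩ := H23.exists_gag hG χ.2 hχ
  obtain ⟨p, hp, h1⟩ := h.exists_prime
  refine ⟨N, h.normal, h.ne_bot, fun K hK hK1 => h.le_of_normal K hK1,
    ⟨p, hp, ⟨⟨fun a b => Subtype.ext (h.comm a a.2 b b.2)⟩⟩, h1⟩, h.ne_zero_iff,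
    fun x hx y hy hx1 hy1 => isConj_iff.1 (h.isConj x hx y hy hx1 hy1)⟩

end Cfsg.Agent.S4835
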