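import Cfsg.Statements.S4838
import Cfsg.Agent.H23.Gagola

set_option autoImplicit false
open Cfsg

namespace Cfsg.Agent.S4838

/-- Let G be a finite group of order greater than 2 with an irreducible character χ nonzero on exactly two conjugacy classes, N the normal p-subgroup of elements where χ is nonzero, and P a Sylow p-subgroup of G. Then (a) for every x outside N the centralizer of x in G has the same order as the centralizer of xN in G/N; (b) the centre of P lies in N, and equals N exactly when P is normal in G; (c) N, viewed inside P, is a term of the upper central series of P. -/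
theorem result {G : Type*} [Group G] [Finite G] (hG : 2 < Nat.card G) (χ : Cfsg.IrrCharacter G) (hχ : Nat.card {C : ConjClasses G // ∃ g ∈ C.carrier, (χ : G → ℂ) g ≠ 0} = 2) (p : ℕ) [Fact p.Prime] (N : Subgroup G) [N.Normal] (hN : ∀ g : G, g ∈ N ↔ (χ : G → ℂ) g ≠ 0) (hNp : IsPGroup p N) (hN1 : N ≠ ⊥) (P : Sylow p G) :
    (∀ x : G, x ∉ N → Nat.card (Subgroup.centralizer ({x} : Set G)) = Nat.card (Subgroup.centralizer ({(x : G ⧸ N)} : Set (G ⧸ N)))) ∧
      ((Subgroup.center ↥(P : Subgroup G)).map (P : Subgroup G).subtype ≤ N ∧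
        ((Subgroup.center ↥(P : Subgroup G)).map (P : Subgroup G).subtype = N ↔ (P : Subgroup G).Normal)) ∧
      (∃ i : ℕ, Subgroup.upperCentralSeries ↥(P : Subgroup G) i = N.subgroupOf (P : Subgroup G)) := by
  classical
  have h := H23.gag_of hG χ.2 hχ hN
  have hp : p.Prime := Fact.out
  have hNP : N ≤ P := hNp.le_sylow_of_normal P
  haveI : Nontrivial N := (Subgroup.nontrivial_iff_ne_bot N).2 hN1
  have key : ∀ z : ↥(P : Subgroup G), (z : G) ∉ N →
      Nat.card (Subgroup.centralizer ({z} : Set ↥(P : Subgroup G))) * Nat.card N ≤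
        Nat.card ↥(P : Subgroup G) := fun z hz => by
    have h1 := h.card_centralizer_mul_dvd hz
    have h2 : Nat.card (Subgroup.centralizer ({z} : Set ↥(P : Subgroup G))) ∣
        Nat.card (Subgroup.centralizer ({(z : G)} : Set G)) := by
      rw [← Subgroup.card_map_of_injective (P : Subgroup G).subtype_injective]
      refine Subgroup.card_dvd_of_le ?_
      rintro _ ⟨y, hy, rfl⟩
      rw [Subgroup.mem_centralizer_singleton_iff]
      exact congrArg Subtype.val (Subgroup.mem_centralizer_singleton_iff.1 hy)
    obtain ⟨a, ha⟩ := (P.isPGroup'.to_subgroup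
      (Subgroup.centralizer ({z} : Set ↥(P : Subgroup G)))).exists_card_eq
    obtain ⟨b, hb⟩ := hNp.exists_card_eq
    have h3 := (Nat.mul_dvd_mul_right h2 (Nat.card N)).trans h1
    rw [ha, hb, ← pow_add] at h3 ⊢
    rw [P.card_eq_multiplicity]
    exact Nat.pow_le_pow_right hp.pos ((hp.pow_dvd_iff_le_factorization Nat.card_pos.ne').1 h3)
  have hZ : (Subgroup.center ↥(P : Subgroup G)).map (P : Subgroup G).subtype ≤ N := by
    rintro _ ⟨z, hz, rfl⟩
    by_contra hzN
    have h1 := key z hzN
    have h2 : Subgroup.centralizer ({z} : Set ↥(P : Subgroup G)) = ⊤ := by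
      rw [Subgroup.eq_top_iff']
      intro y
      rw [Subgroup.mem_centralizer_singleton_iff]
      exact Subgroup.mem_center_iff.1 hz y
    rw [h2, Subgroup.card_top] at h1
    have h3 : 1 < Nat.card N := Finite.one_lt_card
    have h4 : 0 < Nat.card ↥(P : Subgroup G) := Nat.card_pos
    nlinarith
  refine ⟨fun x hx => h.card_centralizer hx, ⟨hZ, fun he => ?_, fun hPn => ?_⟩, ?_⟩
  · obtain ⟨x, hx, hx1⟩ := h.exists_ne_one
    have h1 : (P : Subgroup G) ≤ Subgroup.centralizer (N : Set G) := fun y hy => by
      rw [Subgroup.mem_centralizer_iff]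
      intro n hn
      rw [← he] at hn
      obtain ⟨z, hz, rfl⟩ := hn
      exact (congrArg Subtype.val (Subgroup.mem_center_iff.1 hz ⟨y, hy⟩)).symm
    have h2 : IsPGroup p (Subgroup.centralizer (N : Set G)) :=
      (h.isPGroup_centralizer hNp hx hx1).to_le
        (Subgroup.centralizer_le (Set.singleton_subset_iff.2 hx))
    rw [← P.is_maximal' h2 h1]
    infer_instance
  · refine le_antisymm hZ (h.le_of_normal _ ?_)
    rw [Ne, Subgroup.map_eq_bot_iff_of_injective _ (P : Subgroup G).subtype_injective]
    haveI : Nontrivial ↥(P : Subgroup G) := (Subgroup.nontrivial_iff_ne_bot _).2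
      fun h0 => hN1 (le_bot_iff.1 (h0 ▸ hNP))
    exact (Subgroup.nontrivial_iff_ne_bot _).1 P.isPGroup'.center_nontrivial
  · by_cases hall : ∀ i, Subgroup.upperCentralSeries ↥(P : Subgroup G) i ≤
        N.subgroupOf (P : Subgroup G)
    · haveI := P.isPGroup'.isNilpotent
      obtain ⟨n, hn⟩ := Group.IsNilpotent.nilpotent ↥(P : Subgroup G)
      exact ⟨n, le_antisymm (hall n) (hn ▸ le_top)⟩
    · push Not at hall
      obtain ⟨i, hi1, hi2⟩ : ∃ i, Subgroup.upperCentralSeries ↥(P : Subgroup G) i ≤
          N.subgroupOf (P : Subgroup G) ∧ ¬ Subgroup.upperCentralSeries ↥(P : Subgroup G) (i + 1) ≤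
          N.subgroupOf (P : Subgroup G) := by
        by_contra hcon
        push Not at hcon
        obtain ⟨j, hj⟩ := hall
        apply hj
        induction j with
        | zero => simp
        | succ j ih => exact hcon j (by
            by_contra hc
            exact hc (ih hc))
      refine ⟨i, Subgroup.eq_of_le_of_card_ge hi1 ?_⟩
      obtain ⟨z, hz, hzN⟩ := SetLike.not_le_iff_exists.1 hi2
      have h1 := key z hzN
      have h2 : (Subgroup.centralizer ({z} : Set ↥(P : Subgroup G))).index ≤
          Nat.card (Subgroup.upperCentralSeries ↥(P : Subgroup G) i) := by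
        rw [← H13.card_isConj_eq_index]
        refine Nat.card_le_card_of_injective
          (fun y => (⟨z * y.1⁻¹, by
            obtain ⟨c, hc⟩ := isConj_iff.1 y.2
            have := Subgroup.mem_upperCentralSeries_succ_iff.1 hz c
            rw [← hc]
            simpa [commutatorElement_def, mul_assoc] using this⟩ :
              Subgroup.upperCentralSeries ↥(P : Subgroup G) i)) ?_
        intro y y' hyy
        have := congrArg Subtype.val hyy
        exact Subtype.ext (by simpa using this)
      have h3 := (Subgroup.centralizer ({z} : Set ↥(P : Subgroup G))).card_mul_index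
      rw [Nat.card_congr (Subgroup.subgroupOfEquivOfLe hNP).toEquiv]
      have h4 : 0 < Nat.card (Subgroup.centralizer ({z} : Set ↥(P : Subgroup G))) := Nat.card_pos
      rw [← h3] at h1
      exact (Nat.le_of_mul_le_mul_left h1 h4).trans h2

end Cfsg.Agent.S4838
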