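import Cfsg.Statements.S4839
import Cfsg.Agent.H19.RealBlock
import Cfsg.Agent.H11.Kernel
import Cfsg.Agent.H3.Cores
import Cfsg.Agent.H5.Frobenius
import Cfsg.Agent.H9.BaerSuzuki
import Cfsg.Agent.H92.Basic

set_option autoImplicit false
open Cfsg

namespace Cfsg.Agent.S4839

open scoped ComplexConjugate

section Camina

variable {G : Type*} [Group G] [Finite G] {p : ℕ} [hp : Fact p.Prime] {N : Subgroup G}
  [hN : N.Normal]

theorem fpf_of_coprime (hNp : IsPGroup p N) (hcam : ∀ x, x ∉ N → ∀ n ∈ N, IsConj x (n * x))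
    {d : G} (hd : d ≠ 1) (hdp : (orderOf d).Coprime p) : ∀ n ∈ N, Commute d n → n = 1 := by
  intro n hn hc
  obtain ⟨k, hk⟩ := IsPGroup.iff_orderOf.mp hNp ⟨n, hn⟩
  rw [← Subgroup.orderOf_coe] at hk
  have hdN : d ∉ N := by
    intro h
    obtain ⟨j, hj⟩ := IsPGroup.iff_orderOf.mp hNp ⟨d, h⟩
    rw [← Subgroup.orderOf_coe] at hj
    have : (orderOf d).Coprime (orderOf d) := by
      conv_rhs => rw [show orderOf d = p ^ j from hj]
      exact hdp.pow_right j
    exact hd (orderOf_eq_one_iff.mp (by simpa using this))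
  have h1 := H19.orderOf_eq_of_isConj (hcam d hdN n hn)
  rw [hc.symm.orderOf_mul_eq_mul_orderOf_of_coprime (by
    rw [show orderOf n = p ^ k from hk]; exact (hdp.pow_right k).symm)] at h1
  have h2 : 0 < orderOf d := orderOf_pos d
  rw [← orderOf_eq_one_iff]
  exact Nat.eq_of_mul_eq_mul_right h2 (by rw [← h1, one_mul])

theorem isPGroup_centralizer (hNp : IsPGroup p N)
    (hcam : ∀ x, x ∉ N → ∀ n ∈ N, IsConj x (n * x)) {n : G} (hn : n ∈ N) (hn1 : n ≠ 1) :
    IsPGroup p (Subgroup.centralizer ({n} : Set G)) := by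
  rw [IsPGroup.iff_card]
  by_contra hcon
  obtain ⟨q, hq, hqd, hqp⟩ : ∃ q, q.Prime ∧ q ∣ Nat.card (Subgroup.centralizer ({n} : Set G)) ∧
      q ≠ p := by
    by_contra h
    push Not at h
    exact hcon ⟨_, Nat.eq_prime_pow_of_unique_prime_dvd Nat.card_pos.ne' fun hq hd => h _ hq hd⟩
  haveI := Fact.mk hq
  obtain ⟨d, hd⟩ := exists_prime_orderOf_dvd_card' q hqd
  rw [← Subgroup.orderOf_coe] at hd
  refine hn1 (fpf_of_coprime hNp hcam (d := d) ?_ ?_ n hn
    (Subgroup.mem_centralizer_singleton_iff.mp d.2))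
  · intro h
    rw [h, orderOf_one] at hd
    exact hq.one_lt.ne hd
  · rw [hd]; exact (Nat.coprime_primes hq hp.out).mpr hqp

omit hp in
theorem inverts_of_fpf (hab : ∀ a ∈ N, ∀ b ∈ N, a * b = b * a) {t : G} (ht : t * t = 1)
    (hf : ∀ n ∈ N, Commute t n → n = 1) {n : G} (hn : n ∈ N) : t * n * t⁻¹ = n⁻¹ := by
  have h1 : t * n * t⁻¹ ∈ N := hN.conj_mem n hn t
  have ht' : t⁻¹ = t := inv_eq_of_mul_eq_one_right ht
  have h2 := hf (n * (t * n * t⁻¹)) (N.mul_mem hn h1) (by
    change t * (n * (t * n * t⁻¹)) = n * (t * n * t⁻¹) * t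
    rw [hab n hn _ h1, ht']
    calc t * (t * n * t * n) = (t * t) * n * t * n := by group
      _ = n * t * n := by rw [ht, one_mul]
      _ = (t * t) * n * t * n * (t * t) := by rw [ht, one_mul, mul_one]
      _ = t * (t * n * t * n * t) * t := by group
      _ = t * (t * (n * (t * n * t))) * t := by group
      _ = _ := by rw [← mul_assoc t t, ht, one_mul, ← ht', hab n hn _ (by rw [ht']; rwa [ht'] at h1)])
  exact eq_inv_of_mul_eq_one_right h2

theorem not_dvd_index (hNp : IsPGroup p N) (hN1 : N ≠ ⊥)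
    (hab : ∀ a ∈ N, ∀ b ∈ N, a * b = b * a) (hexp : ∀ n ∈ N, n ^ p = 1)
    (hcam : ∀ x, x ∉ N → ∀ n ∈ N, IsConj x (n * x)) (hcore : N = pCore p G)
    (heven : p ≠ 2 → 2 ∣ Nat.card G) : ¬ p ∣ N.index := by
  intro hdvd
  obtain ⟨n₀, hn₀, hn₀1⟩ : ∃ n ∈ N, n ≠ 1 := by
    by_contra h
    push Not at h
    exact hN1 ((Subgroup.eq_bot_iff_forall N).mpr h)
  have hC : ∀ g : G, (∀ n ∈ N, g * n * g⁻¹ = n) → g ∈ N := by
    intro g hg
    have h1 : IsPGroup p (Subgroup.centralizer (N : Set G)) :=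
      (isPGroup_centralizer hNp hcam hn₀ hn₀1).to_le
        (Subgroup.centralizer_le (Set.singleton_subset_iff.mpr hn₀))
    rw [hcore]
    refine H3.le_pCore h1 (Subgroup.mem_centralizer_iff.mpr fun n hn => ?_)
    rw [← hg n hn, inv_mul_cancel_right, hg n hn]
  obtain ⟨x, hx⟩ := exists_prime_orderOf_dvd_card' (G := G ⧸ N) p hdvd
  obtain ⟨x, rfl⟩ := QuotientGroup.mk_surjective x
  have hxN : x ∉ N := by
    intro h
    rw [(QuotientGroup.eq_one_iff x).mpr h, orderOf_one] at hx
    exact hp.out.one_lt.ne hx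
  have hxp : x ^ p ∈ N := by
    rw [← QuotientGroup.eq_one_iff, QuotientGroup.mk_pow, ← hx, pow_orderOf_eq_one]
  -- replace `x` by an element of the coset normalising a fixed-point-free element
  have key : ∀ (d e : G), (∀ n ∈ N, Commute e n → n = 1) → ∀ y : G, y * d * y⁻¹ * e⁻¹ ∈ N →
      ∃ m ∈ N, (m * y) * d * (m * y)⁻¹ = e := by
    intro d e he y hy
    obtain ⟨m, hm, h⟩ := H92.exists_conj_eq_of_fpf N he hy
    refine ⟨m⁻¹, N.inv_mem hm, ?_⟩
    rw [inv_mul_cancel_right] at h
    calc m⁻¹ * y * d * (m⁻¹ * y)⁻¹ = m⁻¹ * (y * d * y⁻¹) * m := by group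
      _ = e := by rw [← h]; group
  have hpow : ∀ m ∈ N, (m * x) ^ p ∈ N := by
    intro m hm
    rw [← QuotientGroup.eq_one_iff, QuotientGroup.mk_pow, QuotientGroup.mk_mul,
      (QuotientGroup.eq_one_iff m).mpr hm, one_mul, ← hx, pow_orderOf_eq_one]
  by_cases hp2 : p = 2
  · subst hp2
    have h1 : (x : G ⧸ N) ∉ pCore 2 (G ⧸ N) := by
      have : pCore 2 (G ⧸ N) = ⊥ := by
        have := H3.pCore_quotient_pCore 2 G
        subst hcore
        exact this
      rw [this, Subgroup.mem_bot, QuotientGroup.eq_one_iff]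
      exact hxN
    obtain ⟨a, ha1, ha2, ha3⟩ := H9.exists_odd_inverted_of_not_mem_pCore (t := (x : G ⧸ N))
      (by rw [← pow_two, ← hx, pow_orderOf_eq_one]) h1
    obtain ⟨a, rfl⟩ := QuotientGroup.mk_surjective a
    set d := a ^ 2 ^ (orderOf a).factorization 2 with hd
    have hdo : (orderOf d).Coprime 2 := by
      rw [hd, orderOf_pow_of_dvd (by positivity) (Nat.ordProj_dvd _ _)]
      exact (Nat.coprime_ordCompl Nat.prime_two (orderOf_pos a).ne').symm
    have hd1 : d ≠ 1 := by
      intro h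
      have h2 : (a : G ⧸ N) ^ 2 ^ (orderOf a).factorization 2 = 1 := by
        rw [← QuotientGroup.mk_pow, ← hd, h, QuotientGroup.mk_one]
      rw [← orderOf_dvd_iff_pow_eq_one] at h2
      exact ha1 (orderOf_eq_one_iff.mp (Nat.Coprime.eq_one_of_dvd
        ((Nat.coprime_two_right.mpr ha2).pow_right _) h2))
    have hf := fpf_of_coprime hNp hcam hd1 hdo
    obtain ⟨m, hm, h⟩ := key d d⁻¹ (fun n hn hc => hf n hn (by simpa using hc.inv_left)) x (by
      rw [← QuotientGroup.eq_one_iff, hd]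
      simp only [QuotientGroup.mk_mul, QuotientGroup.mk_inv, QuotientGroup.mk_pow, inv_inv]
      rw [← conj_pow, ha3, inv_pow, inv_mul_cancel])
    set y := m * x with hy
    have hyN : y ∉ N := fun h => hxN ((N.mul_mem_cancel_left hm).mp h)
    have hy2 : y ^ 2 = 1 := hf _ (hpow m hm) (by
      change d * y ^ 2 = y ^ 2 * d
      have h' : y * d⁻¹ * y⁻¹ = d := by rw [← conj_inv, h, inv_inv]
      calc d * y ^ 2 = y * (y * d * y⁻¹) * y⁻¹ * y ^ 2 := by rw [h, h']
        _ = _ := by rw [pow_two]; group)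
    apply hyN
    apply hC
    intro n hn
    have h1 := H19.orderOf_eq_of_isConj (hcam y hyN n hn)
    have h2 : (n * y) ^ 2 = 1 := by
      rw [← orderOf_dvd_iff_pow_eq_one, ← h1, orderOf_dvd_iff_pow_eq_one, hy2]
    have h3 := hexp n hn
    rw [pow_two] at h2 h3 hy2
    calc y * n * y⁻¹ = (n * n) * y * n * (y * y) * y⁻¹ := by rw [h3, hy2]; group
      _ = n * (n * y * (n * y)) * (y * y⁻¹) := by group
      _ = n := by rw [h2]; group
  · haveI : Fact (Nat.Prime 2) := ⟨Nat.prime_two⟩
    obtain ⟨t, ht⟩ := exists_prime_orderOf_dvd_card' 2 (heven hp2)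
    have ht1 : t ≠ 1 := by rintro rfl; simp at ht
    have ht2 : t * t = 1 := by rw [← pow_two, ← ht, pow_orderOf_eq_one]
    have hf := fpf_of_coprime hNp hcam ht1 (by
      rw [ht]; exact (Nat.coprime_primes Nat.prime_two hp.out).mpr (Ne.symm hp2))
    have hcent : ∀ g : G, ∃ m ∈ N, (m * g) * t * (m * g)⁻¹ = t := by
      intro g
      refine key t t hf g (hC _ fun n hn => ?_)
      have h1 : t⁻¹ * n * t = n⁻¹ := by
        have := inverts_of_fpf hab ht2 hf hn
        rwa [inv_eq_of_mul_eq_one_right ht2] at this ⊢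
      have h2 := inverts_of_fpf hab ht2 hf (hN.conj_mem _ (N.inv_mem hn) g⁻¹)
      calc g * t * g⁻¹ * t⁻¹ * n * (g * t * g⁻¹ * t⁻¹)⁻¹
          = g * (t * (g⁻¹ * (t⁻¹ * n * t) * g⁻¹⁻¹) * t⁻¹) * g⁻¹ := by group
        _ = n := by rw [h1, h2]; group
    obtain ⟨m, hm, h⟩ := hcent x
    set y := m * x with hy
    have hyN : y ∉ N := fun h => hxN ((N.mul_mem_cancel_left hm).mp h)
    have hyt : Commute t y := by
      change t * y = y * t
      conv_lhs => rw [← h]
      group
    have hyp : y ^ p = 1 := hf _ (hpow m hm) (hyt.pow_right p)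
    -- every element of the coset is an `N`-conjugate of `y`
    have hsurj : ∀ n ∈ N, ∃ k ∈ N, k * y * k⁻¹ = n * y := by
      intro n hn
      obtain ⟨g, hg⟩ := isConj_iff.mp (hcam y hyN n hn)
      obtain ⟨k, hk, hkg⟩ := hcent g
      have h1 : Commute t (k * g) := by
        change t * (k * g) = (k * g) * t
        conv_lhs => rw [← hkg]
        group
      have h2 : (k * g) * y * (k * g)⁻¹ * y⁻¹ = 1 := by
        refine hf _ ?_ (((h1.mul_right hyt).mul_right h1.inv_right).mul_right hyt.inv_right)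
        have : k * g * y * (k * g)⁻¹ * y⁻¹ = k * n * (y * k⁻¹ * y⁻¹) := by
          calc k * g * y * (k * g)⁻¹ * y⁻¹ = k * (g * y * g⁻¹) * k⁻¹ * y⁻¹ := by group
            _ = _ := by rw [hg]; group
        rw [this]
        exact N.mul_mem (N.mul_mem hk hn) (hN.conj_mem _ (N.inv_mem hk) y)
      refine ⟨k⁻¹, N.inv_mem hk, ?_⟩
      rw [← hg]
      calc k⁻¹ * y * k⁻¹⁻¹ = k⁻¹ * ((k * g * y * (k * g)⁻¹ * y⁻¹) * y) * k := by rw [h2]; group
        _ = _ := by group
    let f : N → N := fun k => ⟨k * y * (k : G)⁻¹ * y⁻¹, by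
      rw [mul_assoc, mul_assoc, ← mul_assoc y]
      exact N.mul_mem k.2 (hN.conj_mem _ (N.inv_mem k.2) y)⟩
    have hfs : Function.Surjective f := by
      intro n
      obtain ⟨k, hk, h⟩ := hsurj n n.2
      exact ⟨⟨k, hk⟩, Subtype.ext (by simp only [f]; rw [h, mul_inv_cancel_right])⟩
    have hfi := Finite.injective_iff_surjective.mpr hfs
    -- but `y` has a nontrivial fixed point on `N`
    have hyP : IsPGroup p (Subgroup.zpowers y) := by
      rw [IsPGroup.iff_card, Nat.card_zpowers]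
      exact ⟨1, by rw [pow_one]; exact orderOf_eq_prime hyp (fun h => hyN (h ▸ N.one_mem))⟩
    letI : MulAction (Subgroup.zpowers y) N := MulAction.compHom N
      ((MulAut.conjNormal (H := N)).comp (Subgroup.zpowers y).subtype)
    obtain ⟨k, hk, hk1⟩ := hyP.exists_fixed_point_of_prime_dvd_card_of_fixed_point N (by
      obtain ⟨j, hj⟩ := IsPGroup.iff_card.mp hNp
      rw [hj]
      refine dvd_pow_self p fun h => hN1 ?_
      rw [h, pow_zero] at hj
      exact Subgroup.card_eq_one.mp hj) (a := 1) (fun g => map_one (MulAut.conjNormal (g : G)))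
    apply hk1
    apply hfi
    apply Subtype.ext
    have h1 : y * k * y⁻¹ = k := congrArg Subtype.val (hk ⟨y, Subgroup.mem_zpowers y⟩)
    simp only [f, OneMemClass.coe_one]
    calc 1 * y * 1⁻¹ * y⁻¹ = k * (y * k * y⁻¹)⁻¹ := by rw [h1]; group
      _ = _ := by group

end Camina


/-- Let G be a finite group of order greater than 2 with an irreducible character χ nonzero on exactly two conjugacy classes, and let N be the normal p-subgroup of elements where χ is nonzero. Then N is the whole p-core O_p(G) if and only if G is a doubly transitive Frobenius group with kernel N: G has a Frobenius complement H whose Frobenius kernel is N and whose order is one less than that of N. -/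
theorem result {G : Type*} [Group G] [Finite G] (hG : 2 < Nat.card G) (χ : Cfsg.IrrCharacter G) (hχ : Nat.card {C : ConjClasses G // ∃ g ∈ C.carrier, (χ : G → ℂ) g ≠ 0} = 2) (p : ℕ) [Fact p.Prime] (N : Subgroup G) [N.Normal] (hN : ∀ g : G, g ∈ N ↔ (χ : G → ℂ) g ≠ 0) (hNp : IsPGroup p N) (hN1 : N ≠ ⊥) :
    N = Cfsg.pCore p G ↔ ∃ H : Subgroup G, Cfsg.IsFrobeniusComplement H ∧ Cfsg.frobeniusKernel H = (N : Set G) ∧ Nat.card H + 1 = Nat.card N := by
  classical
  letI := Fintype.ofFinite G
  have hp : p.Prime := Fact.out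
  obtain ⟨c, hc, hc1⟩ : ∃ n ∈ N, n ≠ 1 := by
    by_contra h
    push Not at h
    exact hN1 ((Subgroup.eq_bot_iff_forall N).mpr h)
  have hconj : ∀ x ∈ N, x ≠ 1 → IsConj c x := by
    intro x hx hx1
    obtain ⟨u, hu, hu'⟩ := (Nat.card_eq_two_iff' (⟨ConjClasses.mk 1, 1,
      ConjClasses.mem_carrier_mk, H11.irr_apply_one_ne_zero χ.2⟩ :
        {C : ConjClasses G // ∃ g ∈ C.carrier, (χ : G → ℂ) g ≠ 0})).mp hχ
    have h1 : ∀ y ∈ N, y ≠ 1 → ConjClasses.mk y = u.1 := by
      intro y hy hy1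
      have := hu' ⟨ConjClasses.mk y, y, ConjClasses.mem_carrier_mk, (hN y).mp hy⟩ (by
        intro h
        have h2 := ConjClasses.mk_eq_mk_iff_isConj.mp (congrArg Subtype.val h)
        exact hy1 (isConj_one_right.mp h2.symm))
      exact congrArg Subtype.val this
    rw [← ConjClasses.mk_eq_mk_iff_isConj, h1 c hc hc1, h1 x hx hx1]
  have hab : ∀ a ∈ N, ∀ b ∈ N, a * b = b * a := by
    haveI : Nontrivial N := (Subgroup.nontrivial_iff_ne_bot N).mpr hN1
    haveI := hNp.center_nontrivial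
    obtain ⟨z, hz1⟩ := exists_ne (1 : Subgroup.center N)
    have hz : ((z : N) : G) ≠ 1 := fun h => hz1 (Subtype.ext (Subtype.ext h))
    intro a ha b hb
    by_cases ha1 : a = 1
    · simp [ha1]
    obtain ⟨g, rfl⟩ := isConj_iff.mp ((hconj _ (z : N).2 hz).symm.trans (hconj a ha ha1))
    have h1 := congrArg Subtype.val (Subgroup.mem_center_iff.mp z.2
      ⟨g⁻¹ * b * g⁻¹⁻¹, ‹N.Normal›.conj_mem b hb g⁻¹⟩)
    simp only [Subgroup.coe_mul] at h1
    calc g * z * g⁻¹ * b = g * (z * (g⁻¹ * b * g⁻¹⁻¹)) * g⁻¹ := by group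
      _ = _ := by rw [← h1]; group
  obtain ⟨k, hk⟩ := IsPGroup.iff_card.mp hNp
  have hk0 : k ≠ 0 := by
    rintro rfl
    exact hN1 (Subgroup.card_eq_one.mp hk)
  have hexp : ∀ n ∈ N, n ^ p = 1 := by
    obtain ⟨u, hu⟩ := exists_prime_orderOf_dvd_card' (G := N) p (hk ▸ dvd_pow_self p hk0)
    rw [← Subgroup.orderOf_coe] at hu
    intro n hn
    by_cases hn1 : n = 1
    · simp [hn1]
    have := H19.orderOf_eq_of_isConj ((hconj _ u.2 (fun h => by
      rw [h, orderOf_one] at hu; exact hp.one_lt.ne hu)).symm.trans (hconj n hn hn1))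
    rw [← hu, this, pow_orderOf_eq_one]
  have hidx : (Subgroup.centralizer ({c} : Set G)).index + 1 = Nat.card N := by
    have h1 : (ConjClasses.mk c).carrier = (N : Set G) \ {1} := by
      ext x
      rw [ConjClasses.mem_carrier_iff_mk_eq, ConjClasses.mk_eq_mk_iff_isConj]
      constructor
      · intro h
        obtain ⟨g, rfl⟩ := isConj_iff.mp h.symm
        exact ⟨‹N.Normal›.conj_mem c hc g, by simpa using hc1⟩
      · exact fun h => (hconj x h.1 h.2).symm
    have h2 : (Subgroup.centralizer ({c} : Set G)).index = (ConjClasses.mk c).carrier.ncard := by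
      rw [← ConjAct.orbit_eq_carrier_conjClasses, ← MulAction.index_stabilizer,
        Subgroup.centralizer_eq_comap_stabilizer]
      exact Subgroup.index_comap_of_surjective _ ConjAct.toConjAct.surjective
    rw [h2, h1, Set.ncard_diff_singleton_add_one N.one_mem]
    rfl
  have hsum : ∀ f : G → ℂ, Cfsg.IsClassFunction G f → ∑ g, f g * (starRingEnd ℂ) (χ.1 g) =
      f 1 * (starRingEnd ℂ) (χ.1 1) + ((Nat.card N : ℂ) - 1) * (f c * (starRingEnd ℂ) (χ.1 c)) := by
    intro f hf
    rw [← Finset.add_sum_erase _ _ (Finset.mem_univ (1 : G))]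
    congr 1
    rw [← Finset.sum_subset (s₁ := (Finset.univ.filter (· ∈ N)).erase 1)
      (Finset.erase_subset_erase _ (Finset.filter_subset _ _))]
    · rw [Finset.sum_congr rfl (g := fun _ => f c * (starRingEnd ℂ) (χ.1 c)) (fun x hx => by
        obtain ⟨h1, h2⟩ := Finset.mem_erase.mp hx
        have h3 := hconj x (Finset.mem_filter.mp h2).2 h1
        rw [H11.classFun_of_isConj hf h3,
          H11.classFun_of_isConj (H11.isClassFunction_of_irr χ.2) h3]),
        Finset.sum_const, nsmul_eq_mul, Finset.card_erase_of_mem (by simp [N.one_mem]),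
        ← Fintype.card_subtype, ← Nat.card_eq_fintype_card, Nat.cast_sub Nat.card_pos,
        Nat.cast_one]
    · intro x hx hx'
      have : x ∉ N := fun h => hx' (Finset.mem_erase.mpr ⟨(Finset.mem_erase.mp hx).1, by simpa⟩)
      rw [hN, not_not] at this
      simp [this]
  have hχ1 : (fun _ => (1 : ℂ)) ≠ χ.1 := by
    intro h
    have h1 : N = ⊤ := by
      ext g; simp [hN, ← h]
    have h2 : Subgroup.centralizer ({c} : Set G) = ⊤ := by
      ext g
      simp only [Subgroup.mem_centralizer_singleton_iff, Subgroup.mem_top, iff_true]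
      exact hab _ (by simp [h1]) _ hc
    rw [h2, Subgroup.index_top, h1, Subgroup.card_top] at hidx
    omega
  have hcam : ∀ x, x ∉ N → ∀ n ∈ N, IsConj x (n * x) := by
    intro x hx n hn
    rw [H11.isConj_iff_forall_irr]
    intro ψ hψ
    by_cases h : ψ = χ.1
    · have h1 : n * x ∉ N := fun h => hx ((N.mul_mem_cancel_left hn).mp h)
      rw [hN, not_not] at hx h1
      rw [h, hx, h1]
    · have h1 := H11.card_mul_classInner ψ χ.1
      have h2 := H11.card_mul_classInner (fun _ => 1) χ.1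
      rw [H11.classInner_irr_of_ne hψ χ.2 h, hsum _ (H11.isClassFunction_of_irr hψ)] at h1
      rw [H11.classInner_irr_of_ne H11.isIrrCharacter_one χ.2 hχ1,
        hsum _ (H11.isClassFunction_const 1)] at h2
      have h3 : (starRingEnd ℂ) (χ.1 1) ≠ 0 := by
        simpa using H11.irr_apply_one_ne_zero χ.2
      have h4 : ψ c = ψ 1 := by
        apply mul_right_cancel₀ h3
        linear_combination h1 - ψ c * h2
      have h5 : n ∈ H11.charKer ψ := by
        by_cases hn1 : n = 1
        · rw [hn1]; exact Subgroup.one_mem _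
        rw [H11.mem_charKer_irr_iff hψ,
          ← H11.classFun_of_isConj (H11.isClassFunction_of_irr hψ) (hconj n hn hn1), h4]
      exact (H11.apply_mul_of_mem_charKer h5 x).symm
  constructor
  · intro hcore
    have hnd := not_dvd_index hNp hN1 hab hexp hcam hcore (fun hp2 => by
      refine Dvd.dvd.trans ?_ (Subgroup.centralizer ({c} : Set G)).index_dvd_card
      have : Odd (Nat.card N) := hk ▸ (hp.odd_of_ne_two hp2).pow
      rw [← hidx] at this
      exact even_iff_two_dvd.mp (Nat.odd_add_one.mp this |> Nat.not_odd_iff_even.mp))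
    have hC : ∀ n ∈ N, n ≠ 1 → Subgroup.centralizer ({n} : Set G) = N := by
      intro n hn hn1
      have hle : N ≤ Subgroup.centralizer ({n} : Set G) := fun m hm =>
        Subgroup.mem_centralizer_singleton_iff.mpr (hab m hm n hn)
      exact ((hNp.toSylow hnd).3 (isPGroup_centralizer hNp hcam hn hn1) hle)
    obtain ⟨H, hH⟩ := Subgroup.exists_right_complement'_of_coprime (N := N) (by
      rw [hk]; exact ((Nat.Prime.coprime_iff_not_dvd hp).mpr hnd).pow_left k)
    rw [hC c hc hc1, ← hH.symm.index_eq_card.symm] at hidx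
    have hH1 : H ≠ ⊥ := by
      intro h
      have h1 := hH.card_mul
      rw [h, Subgroup.card_bot] at h1 hidx
      omega
    have hF : Cfsg.IsFrobeniusComplement H := by
      rw [H5.frob_iff_fpf N H hH hN1 hH1]
      intro h hh h1
      rw [eq_bot_iff]
      rintro n ⟨hn, hn'⟩
      by_contra hn1
      have h2 : h ∈ N := by
        rw [← hC n hn hn1]
        exact Subgroup.mem_centralizer_singleton_iff.mpr
          (Subgroup.mem_centralizer_singleton_iff.mp hn').symm
      exact h1 (Subgroup.disjoint_def.mp hH.disjoint h2 hh)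
    exact ⟨H, hF, (H5.coe_eq_frobeniusKernel_of_isComplement' hH hF).symm, hidx⟩
  · rintro ⟨H, hF, hK, hcard⟩
    have h1 := H5.ncard_frobeniusKernel hF
    rw [hK] at h1
    have h2 : H.index = Nat.card N := h1.symm
    have h3 : N.index = Nat.card H := by
      apply Nat.eq_of_mul_eq_mul_left (Nat.card_pos (α := N))
      rw [N.card_mul_index, ← h2, mul_comm, H.card_mul_index]
    have hnd : ¬ p ∣ N.index := by
      intro h
      rw [h3] at h
      have h4 : p ∣ Nat.card H + 1 := by rw [hcard, hk]; exact dvd_pow_self p hk0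
      exact hp.one_lt.ne' (Nat.dvd_one.mp ((Nat.dvd_add_right h).mp h4))
    exact le_antisymm (H3.le_pCore hNp) (H3.pCore_le_sylow (hNp.toSylow hnd))

end Cfsg.Agent.S4839
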