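import Cfsg.Statements.S4840
import Cfsg.Agent.H36.ConjMod
import Cfsg.Agent.H61.Huppert2
import Cfsg.Agent.H23.Gagola
import Cfsg.Agent.H8.Tate
import Cfsg.Agent.H3.Cores
import Cfsg.Agent.H5.Supersolvable

set_option autoImplicit false
open Cfsg

namespace Cfsg.Agent.S4840

open Subgroup H61

theorem npc_of_commutator_le {H : Type*} [Group H] [Finite H] {p : ℕ} [Fact p.Prime]
    (K : Subgroup H) [K.Normal] (hK : ¬ p ∣ Nat.card K) (hc : commutator H ≤ K) :
    HasNormalPComplement p H ∧ ∀ Q : Sylow p H, IsMulCommutative (Q : Subgroup H) := by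
  have hq : IsMulCommutative (H ⧸ K) :=
    (Subgroup.Normal.quotient_commutative_iff_commutator_le).2 hc
  constructor
  · let _ : CommGroup (H ⧸ K) := { (inferInstance : Group (H ⧸ K)) with mul_comm := mul_comm' }
    exact H8.hasNormalPComplement_of_quotient hK (H8.hasNormalPComplement_of_isNilpotent p)
  · intro Q
    refine ⟨⟨fun a b => Subtype.ext ?_⟩⟩
    have h1 : (a : H) * b * (a : H)⁻¹ * (b : H)⁻¹ ∈ K :=
      hc (commutator_mem_commutator (mem_top _) (mem_top _))
    have h2 : (a : H) * b * (a : H)⁻¹ * (b : H)⁻¹ ∈ (Q : Subgroup H) :=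
      mul_mem (mul_mem (mul_mem a.2 b.2) (inv_mem a.2)) (inv_mem b.2)
    have h3 := H8.eq_one_of_mem_of_coprime Q.isPGroup' h2 (Nat.Coprime.coprime_dvd_left
      (K.orderOf_dvd_natCard h1) ((Nat.Prime.coprime_iff_not_dvd Fact.out).2 hK).symm)
    rw [mul_inv_eq_one, mul_inv_eq_iff_eq_mul] at h3
    exact h3

theorem exists_K {H V : Type*} [Group H] [AddCommGroup V] [DistribMulAction H V] [Finite V]
    [Nontrivial V] (h : IsTL H V) (hsol : Group.IsSolvable H) {p n : ℕ} [hp : Fact p.Prime]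
    (hV : Nat.card V = p ^ n) (hO : pCore p H = ⊥)
    (hst : ∀ v : V, v ≠ 0 → IsPGroup p (MulAction.stabilizer H v)) :
    ∃ K : Subgroup H, K.Normal ∧ ¬ p ∣ Nat.card K ∧ commutator H ≤ K := by
  have := h.finite
  have hO' : ∀ R : Subgroup H, R.Normal → IsPGroup p R → R = ⊥ := fun R h1 h2 =>
    le_bot_iff.1 (hO ▸ le_sSup ⟨h1, h2⟩)
  obtain ⟨A, hAn, hA, hmax⟩ := exists_max_abelian_normal H
  by_cases hcomm : ∀ a ∈ centralizer (A : Set H), ∀ b ∈ centralizer (A : Set H), a * b = b * a
  · have := h.isCyclic_of_comm A hA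
    refine ⟨centralizer (A : Set H), inferInstance, fun hd => ?_,
      H5.commutator_le_centralizer_of_isCyclic A⟩
    have hc := h.isCyclic_of_comm _ hcomm
    obtain ⟨P⟩ : Nonempty (Sylow p (centralizer (A : Set H))) := inferInstance
    have hPn : (P : Subgroup (centralizer (A : Set H))).Normal :=
      ⟨fun x hx g => by
        rw [show g * x = x * g from Subtype.ext (hcomm g g.2 x x.2), mul_inv_cancel_right]
        exact hx⟩
    have := P.characteristic_of_normal hPn
    have h1 := hO' _ (ConjAct.normal_of_characteristic_of_normal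
      (K := (P : Subgroup (centralizer (A : Set H))))) (P.isPGroup'.map _)
    rw [map_eq_bot_iff_of_injective _ (subtype_injective _)] at h1
    exact P.ne_bot_of_dvd_card hd h1
  obtain ⟨R, hRn, hRC, hnc, hmin⟩ := exists_min_nonabelian_normal _ hcomm
  obtain ⟨r, hr, hR, hpow, -⟩ := class_two_of_min A R hA hmax hRC hnc hmin
    (Group.IsSolvable.commutator_lt_of_ne_bot (by rintro rfl; exact hnc (by simp))).ne
  have := Fact.mk hr
  have hrp : r ≠ p := by
    rintro rfl
    rw [hO' R hRn hR] at hnc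
    exact hnc (by simp)
  let _ := multAction R V
  have hs : H5.Semireg R (Multiplicative V) := semireg_multAction fun g hg v hv => by
    by_contra hv0
    obtain ⟨k, hk⟩ := hR g
    exact hg (Subtype.ext (H8.eq_one_of_mem_of_coprime (hst v hv0) hv (by
      rw [orderOf_coe]
      exact Nat.Coprime.coprime_dvd_left (orderOf_dvd_of_pow_eq_one hk)
        (Nat.Coprime.pow_left _ ((Nat.coprime_primes hr hp.out).2 hrp)))))
  have hnc' : ¬ ∀ a b : R, a * b = b * a := fun hc => hnc fun a ha b hb =>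
    congrArg Subtype.val (hc ⟨a, ha⟩ ⟨b, hb⟩)
  rcases hs.isCyclic_or_quaternion hR with hc | ⟨rfl, m, ⟨e⟩⟩
  · exact absurd (fun a b => (IsCyclic.commGroup (α := R)).mul_comm a b) hnc'
  obtain ⟨e'⟩ := quaternion_of_sq_central e hnc' fun a b =>
    Subtype.ext (hpow a.1 a.2 b.1 b.2).symm
  obtain ⟨q, hq, hVq, hC, -, -, φ, hφ⟩ := h.quaternion_case R e'
  have hqp : q.Prime := by rcases hq with rfl | rfl | rfl | rfl | rfl <;> norm_num
  obtain rfl : p = q := by
    have hn : n ≠ 0 := by
      rintro rfl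
      exact (Finite.one_lt_card (α := V)).ne' (by simpa using hV)
    exact (Nat.prime_dvd_prime_iff_eq hp.out hqp).1
      (hp.out.dvd_of_dvd_pow (hVq ▸ hV ▸ dvd_pow_self p hn))
  have hH : Nat.card H ∣ (p - 1) * 24 := by
    rw [← φ.ker.card_mul_index, index_ker, hφ]
    refine Nat.mul_dvd_mul hC ((card_subgroup_dvd_card _).trans ?_)
    simp [Fintype.card_perm, Nat.factorial]
  by_cases h3 : p = 3
  · subst h3
    have hR8 : Nat.card R = 8 := by
      rw [Nat.card_congr e'.toEquiv, Nat.card_eq_fintype_card, QuaternionGroup.card]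
    obtain ⟨v, hv⟩ := exists_ne (0 : V)
    obtain ⟨a, ha⟩ := (hst v hv).exists_card_eq
    have hi : (MulAction.stabilizer H v).index = 8 := by
      rw [MulAction.index_stabilizer]
      have : MulAction.orbit H v = {0}ᶜ := by
        ext w
        exact ⟨by rintro ⟨g, rfl⟩; exact smul_ne_zero_of_ne g hv, fun hw => h.trans v w hv hw⟩
      rw [this, Set.ncard_compl, hVq, Set.ncard_singleton]
      rfl
    have h1 := (MulAction.stabilizer H v).card_mul_index
    have h2 := R.card_mul_index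
    rw [ha, hi] at h1
    rw [hR8, ← h1] at h2
    have h4 : R.index = 3 ^ a := by omega
    have h5 : R.index ∣ 3 := by
      rw [← h1] at hH
      rw [h4]
      have h6 : 3 ^ a ∣ 2 * 3 := Nat.dvd_of_mul_dvd_mul_right (k := 8) (by norm_num) hH
      exact Nat.Coprime.dvd_of_dvd_mul_left (Nat.Coprime.pow_left _ (by norm_num)) h6
    refine ⟨R, hRn, by rw [hR8]; norm_num, ?_⟩
    have : IsCyclic (H ⧸ R) := isCyclic_of_card_dvd_prime (p := 3) h5
    exact (Subgroup.Normal.quotient_commutative_iff_commutator_le).1 inferInstance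
  · refine ⟨⊤, inferInstance, fun hd => ?_, le_top⟩
    rw [card_top] at hd
    have := hd.trans hH
    rcases hq with rfl | rfl | rfl | rfl | rfl <;> omega

/-- Let G be a finite solvable group of order greater than 2 with an irreducible character nonzero on exactly two conjugacy classes. Then there is exactly one prime p with O_p(G) ≠ 1, and the quotient G/O_p(G) has a normal p-complement and commutative Sylow p-subgroups. -/
theorem result {G : Type*} [Group G] [Finite G] [hs : Group.IsSolvable G] (hG : 2 < Nat.card G) (χ : Cfsg.IrrCharacter G) (hχ : Nat.card {C : ConjClasses G // ∃ g ∈ C.carrier, (χ : G → ℂ) g ≠ 0} = 2) :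
    ∃ p : ℕ, p.Prime ∧ (∀ q : ℕ, q.Prime → (Cfsg.pCore q G ≠ ⊥ ↔ q = p)) ∧
      Cfsg.HasNormalPComplement p (G ⧸ Cfsg.pCore p G) ∧ ∀ Q : Sylow p (G ⧸ Cfsg.pCore p G), IsMulCommutative (Q : Subgroup (G ⧸ Cfsg.pCore p G)) := by
  obtain ⟨N, h⟩ := H23.exists_gag hG χ.2 hχ
  obtain ⟨p, hp, hpow⟩ := h.exists_prime
  have := Fact.mk hp
  have := h.normal
  have hNp : IsPGroup p N := fun a => ⟨1, Subtype.ext (by simpa using hpow a a.2)⟩
  have hNO : N ≤ pCore p G := le_sSup ⟨h.normal, hNp⟩
  have hOn : (pCore p G).Normal := inferInstance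
  have hOp := H3.pCore_isPGroup p G
  obtain ⟨x, hx, hx1⟩ := h.exists_ne_one
  have hcent : ∀ y ∈ N, y ≠ 1 → pCore p G ≤ centralizer {y} := fun y hy hy1 => by
    obtain ⟨P, hP⟩ := h.exists_sylow_centralizer hNp hy hy1
    rw [hP]
    exact hOp.le_sylow_of_normal P
  have hC : pCore p G ≤ centralizer (N : Set G) := fun g hg y hy => by
    by_cases hy1 : y = 1
    · simp [hy1]
    · exact hcent y hy hy1 hg y rfl
  refine ⟨p, hp, fun q hq => ⟨fun hne => ?_, ?_⟩, ?_⟩
  · have := Fact.mk hq
    by_contra hqp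
    exact h.ne_bot (disjoint_self.1 ((IsPGroup.disjoint_of_ne q p hqp _ _ (H3.pCore_isPGroup q G)
      hNp).mono_left (h.le_of_normal _ hne)))
  · rintro rfl hb
    exact h.ne_bot (le_bot_iff.1 (hb ▸ hNO))
  obtain ⟨M, _, _, θ, hθ, hmem, hcard, -, h0, hsm⟩ :=
    H36.CM.exists_module N (pCore p G) h.comm hC
  have hne : ∀ v : M, v ≠ 0 ↔ θ v ≠ 1 := fun v => by rw [← h0, hθ.ne_iff]
  have hin : ∀ v, θ v ∈ N := fun v => (hmem _).2 ⟨v, rfl⟩
  have : Finite M := Finite.of_injective θ hθ
  have : Nontrivial M := by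
    obtain ⟨v, rfl⟩ := (hmem x).1 hx
    exact ⟨v, 0, (hne v).2 hx1⟩
  have hTL : IsTL (G ⧸ pCore p G) M := by
    constructor
    · intro g hg
      obtain ⟨g, rfl⟩ := QuotientGroup.mk_surjective g
      have h1 : g ∈ centralizer (N : Set G) := fun y hy => by
        obtain ⟨v, rfl⟩ := (hmem y).1 hy
        have := hsm g v
        rw [hg, eq_mul_inv_iff_mul_eq] at this
        exact this
      have h2 : IsPGroup p (centralizer (N : Set G)) :=
        (h.isPGroup_centralizer hNp hx hx1).to_le (centralizer_le (by simpa using hx))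
      exact (QuotientGroup.eq_one_iff _).2 (H3.le_pCore h2 h1)
    · intro v w hv hw
      obtain ⟨g, hg⟩ := isConj_iff.1 (h.isConj _ (hin v) _ (hin w) ((hne v).1 hv) ((hne w).1 hw))
      exact ⟨g, hθ (by rw [hsm, hg])⟩
  obtain ⟨n, hn⟩ := hNp.exists_card_eq
  obtain ⟨K, hKn, hK, hc⟩ := exists_K hTL inferInstance (p := p) (n := n) (hcard.trans hn)
    (H3.pCore_quotient_pCore p G) (fun v hv => by
      refine ((h.isPGroup_centralizer hNp (hin v) ((hne v).1 hv)).map
        (QuotientGroup.mk' (pCore p G))).to_le fun g hg => ?_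
      obtain ⟨g, rfl⟩ := QuotientGroup.mk_surjective g
      refine ⟨g, mem_centralizer_singleton_iff.2 ?_, rfl⟩
      have := hsm g v
      rw [MulAction.mem_stabilizer_iff.1 hg, eq_mul_inv_iff_mul_eq] at this
      exact this.symm)
  exact npc_of_commutator_le K hK hc

end Cfsg.Agent.S4840
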