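import Cfsg.Statements.S4845
import Cfsg.Agent.H24.TwoDeg
import Cfsg.Agent.H89.PBasic
import Cfsg.Agent.H92.ClassSize
import Cfsg.Agent.H14.ExtraChar
import Cfsg.Agent.H24.SmallCenterIndex
import Cfsg.Agent.H1.Nilp

set_option autoImplicit false
open Cfsg

namespace Cfsg.Agent.S4845

open Cfsg Cfsg.Agent.H11 Cfsg.Agent.H24
open scoped commutatorElement Pointwise

theorem relIndex_dvd {G : Type*} [Group G] [Finite G] {p : ℕ} {χ : G → ℂ}
    (hχ : IsIrrCharacter G χ) (h1 : charKer χ ≤ Subgroup.center G)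
    (h2 : ∀ k ∈ charKer χ, k ^ p = 1) : (Subgroup.center G).relIndex (charCenter χ) ∣ p := by
  obtain ⟨lam, hlam⟩ := exists_monoidHom_charCenter (irr_apply_one_ne_zero hχ)
  have : Finite lam.range := Finite.of_surjective _ lam.rangeRestrict_surjective
  obtain ⟨⟨_, z, rfl⟩, hz⟩ := IsCyclic.exists_generator (α := lam.range)
  have h3 : ∀ q : charCenter χ ⧸ (Subgroup.center G).subgroupOf (charCenter χ),
      q ∈ Subgroup.zpowers (QuotientGroup.mk' _ z) := by
    intro q
    obtain ⟨w, rfl⟩ := QuotientGroup.mk'_surjective _ q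
    obtain ⟨n, hn⟩ := hz ⟨_, w, rfl⟩
    have h3 : lam z ^ n = lam w := congrArg Subtype.val hn
    refine ⟨n, ?_⟩
    change (QuotientGroup.mk' _ z) ^ n = _
    rw [← map_zpow, QuotientGroup.mk'_apply, QuotientGroup.mk'_apply, QuotientGroup.eq]
    refine h1 fun x => ?_
    rw [Subgroup.subtype_apply, hlam, map_mul, map_inv, map_zpow, h3, inv_mul_cancel,
      Units.val_one, one_mul]
  rw [Subgroup.relIndex, Subgroup.index, ← orderOf_eq_card_of_forall_mem_zpowers h3]
  apply orderOf_dvd_of_pow_eq_one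
  rw [← map_pow, QuotientGroup.mk'_apply, QuotientGroup.eq_one_iff, Subgroup.mem_subgroupOf,
    Subgroup.mem_center_iff]
  intro g
  have h4 := (mem_charCenter_irr_iff hχ).1 z.2 g
  rw [eq_comm, ← commutatorElement_eq_one_iff_mul_comm, Subgroup.coe_pow,
    commutatorElement_pow_left_of_central (h1 h4), h2 _ h4]

/-- nonlinear characters of the same degree have the same kernel -/
def SameKer (G : Type*) [Group G] : Prop :=
  ∀ χ ψ, IsIrrCharacter G χ → IsIrrCharacter G ψ → charDegree χ ≠ 1 →
    charDegree χ = charDegree ψ → charKer χ ≤ charKer ψ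

theorem SameKer.le {G : Type*} [Group G] [Finite G] (h : SameKer G) {χ : G → ℂ}
    (hχ : IsIrrCharacter G χ) (h1 : charDegree χ ≠ 1) : charKer χ ≤ commutator G := by
  intro g hg
  by_contra h2
  obtain ⟨lam, -, h3⟩ := exists_monoidHom_ne_one (commutator G) le_rfl h2
  have h4 := apply_eq_of_mem_charKer
    (h _ _ hχ (isIrr_lin_mul (Lin.mk lam) hχ) h1 (deg_lin_mul _ _).symm hg)
  rw [Pi.mul_apply, Pi.mul_apply, apply_eq_of_mem_charKer hg, lin_apply_one] at h4
  exact h3 (Units.ext (mul_right_cancel₀ (irr_apply_one_ne_zero hχ) h4))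

theorem SameKer.quot {G : Type*} [Group G] [Finite G] (h : SameKer G) (K : Subgroup G)
    [K.Normal] : SameKer (G ⧸ K) := by
  intro χ ψ hχ hψ h1 h2 x hx
  obtain ⟨g, rfl⟩ := QuotientGroup.mk_surjective x
  have h3 := h _ _ (isIrrCharacter_inflate hχ) (isIrrCharacter_inflate hψ) h1 h2
  rw [mem_charKer_irr_iff hχ] at hx
  rw [mem_charKer_irr_iff hψ]
  exact (apply_eq_of_mem_charKer
    (h3 ((mem_charKer_irr_iff (isIrrCharacter_inflate hχ)).2 hx)) :)

theorem deg_sq {G : Type*} [Group G] [Finite G] {χ : G → ℂ} (hχ : IsIrrCharacter G χ)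
    (h : commutator G ≤ charCenter χ) : charDegree χ ^ 2 = (charCenter χ).index := by
  refine H14.degree_sq_eq_index_of_vanish hχ _ le_rfl (fun x hx => ?_) (irr_deg hχ)
  rw [mem_charCenter_irr_iff hχ] at hx
  push Not at hx
  obtain ⟨y, hy⟩ := hx
  refine H14.apply_eq_zero_of_commutator_center hχ (y := y)
    (h (commutatorElement_mem_commutator' _ _)) fun h1 => hy ?_
  rw [← commutatorElement_inv]
  exact Subgroup.inv_mem _ h1

theorem card_commutator.{u} (p : ℕ) [hp : Fact p.Prime] (G : Type u) [Group G] [Finite G] :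
    IsPGroup p G → SameKer G → commutator G ≠ ⊥ → Nat.card (commutator G) = p := by
  refine H1.card_induction (P := fun G _ _ =>
    IsPGroup p G → SameKer G → commutator G ≠ ⊥ → Nat.card (commutator G) = p) ?_ G
  intro G _ _ ih hG hs hne
  obtain ⟨z, hz, hzZ, hzp⟩ := H89.exists_center_orderOf_of_normal hG hne
  set K := Subgroup.zpowers z with hK
  have hKZ : K ≤ Subgroup.center G := Subgroup.zpowers_le.2 hzZ
  have hKG : K ≤ commutator G := Subgroup.zpowers_le.2 hz
  have hKp : Nat.card K = p := by rw [hK, Nat.card_zpowers, hzp]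
  have hKn : K.Normal := ⟨fun x hx g => by
    rwa [Subgroup.mem_center_iff.1 (hKZ hx) g, mul_inv_cancel_right]⟩
  by_contra hcon
  have h1 : ¬ commutator G ≤ K := fun h => hcon (le_antisymm h hKG ▸ hKp)
  have hK1 : K ≠ ⊥ := fun h => by
    rw [h, Subgroup.card_bot] at hKp
    exact hp.out.one_lt.ne hKp
  have h2 := ih _ (H1.card_quotient_lt hK1) (hG.to_quotient K) (hs.quot K) (by
    rwa [← map_mk'_commutator, Ne, Subgroup.map_eq_bot_iff, QuotientGroup.ker_mk'])
  have h3 := H89.le_center_of_normal_of_card_prime (hG.to_quotient K) h2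
  rw [← map_mk'_commutator] at h2 h3
  rw [H3.card_map_mk'] at h2
  have h4 : ∀ x ∈ commutator G, ∀ g, ⁅x, g⁆ ∈ K := by
    intro x hx g
    have h4 := Subgroup.mem_center_iff.1 (h3 (Subgroup.mem_map_of_mem _ hx))
      (QuotientGroup.mk' K g)
    rwa [eq_comm, ← commutatorElement_eq_one_iff_mul_comm, ← map_commutatorElement,
      ← MonoidHom.mem_ker, QuotientGroup.ker_mk'] at h4
  obtain ⟨ψ, hψ, hψK, hψ1⟩ := exists_irr_le_charKer_deg_ne_one K h1
  have h5 : charKer ψ = K := (H89.eq_or_eq_of_relIndex_prime hp.out h2 hψK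
    (hs.le hψ hψ1)).resolve_right fun h => hψ1 ((deg_eq_one_iff_commutator_le hψ).2 h.ge)
  obtain ⟨χ, hχ, hχK⟩ : ∃ χ, IsIrrCharacter G χ ∧ ¬ K ≤ charKer χ := by
    by_contra h1
    push Not at h1
    exact hK1 (eq_bot_iff.2 fun x hx => eq_one_of_forall_mem_charKer fun χ hχ => h1 χ hχ hx)
  have hχ1 : charDegree χ ≠ 1 := fun h =>
    hχK (hKG.trans ((deg_eq_one_iff_commutator_le hχ).1 h))
  refine hχK (hψK.trans (hs ψ χ hψ hχ hψ1 ?_))
  obtain ⟨i, hi⟩ := exists_deg_eq_pow_of_isPGroup hG hψ
  obtain ⟨j, hj⟩ := exists_deg_eq_pow_of_isPGroup hG hχ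
  have hlt := hp.out.one_lt
  have h6 : j ≤ i := by
    have h6 := deg_sq hψ fun x hx => (mem_charCenter_irr_iff hψ).2 fun g => hψK (h4 x hx g)
    have h7 := Nat.le_of_dvd hp.out.pos (relIndex_dvd (p := p) hψ (h5 ▸ hKZ) fun k hk => by
      rw [h5] at hk
      exact hKp ▸ congrArg Subtype.val (pow_card_eq_one' (x := (⟨k, hk⟩ : K))))
    have h8 := deg_sq_le_index_center hχ
    rw [← Subgroup.relIndex_mul_index (center_le_charCenter hψ), ← h6, hi, hj] at h8
    have h9 : p ^ (j * 2) ≤ p ^ (i * 2 + 1) := by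
      rw [pow_succ', pow_mul, pow_mul]
      exact h8.trans (Nat.mul_le_mul_right _ h7)
    rw [Nat.pow_le_pow_iff_right hlt] at h9
    omega
  suffices h : i ≤ j by rw [hi, hj, le_antisymm h h6]
  by_cases h7 : commutator G ≤ Subgroup.center G
  · have h8 := deg_sq hχ (h7.trans (center_le_charCenter hχ))
    have h9 : Nat.card (charKer χ) ∣ p := by
      have h9 := Subgroup.card_dvd_of_le (hs.le hχ hχ1)
      have h10 : Nat.card (commutator G) = p ^ 2 := by
        rw [← H89.card_mul_relIndex hKG, hKp, h2, sq]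
      rw [h10, Nat.dvd_prime_pow hp.out] at h9
      obtain ⟨a, ha, ha'⟩ := h9
      have : a ≠ 2 := by
        rintro rfl
        exact hχ1 ((deg_eq_one_iff_commutator_le hχ).2
          (Subgroup.eq_of_le_of_card_ge (hs.le hχ hχ1) (by rw [ha', h10])).ge)
      rw [ha']
      exact (pow_dvd_pow p (by omega : a ≤ 1)).trans (by rw [pow_one])
    have h10 := Nat.le_of_dvd hp.out.pos (relIndex_dvd (p := p) hχ ((hs.le hχ hχ1).trans h7)
      fun k hk => congrArg Subtype.val (orderOf_dvd_iff_pow_eq_one.1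
        ((orderOf_dvd_natCard (⟨k, hk⟩ : charKer χ)).trans h9)))
    have h11 := deg_sq_le_index_center hψ
    rw [← Subgroup.relIndex_mul_index (center_le_charCenter hχ), ← h8, hi, hj] at h11
    have h12 : p ^ (i * 2) ≤ p ^ (j * 2 + 1) := by
      rw [pow_succ', pow_mul, pow_mul]
      exact h11.trans (Nat.mul_le_mul_right _ h10)
    rw [Nat.pow_le_pow_iff_right hlt] at h12
    omega
  · obtain ⟨a, ha, ha'⟩ := SetLike.not_le_iff_exists.1 h7
    set C := Subgroup.centralizer ({a} : Set G) with hC
    have h8 : commutator G ⊓ Subgroup.center G = K :=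
      (H89.eq_or_eq_of_relIndex_prime hp.out h2 (le_inf hKG hKZ) inf_le_left).resolve_right
        fun h => h7 (inf_eq_left.1 h)
    have h9 : ∀ c ∈ C, ∀ x ∈ commutator G, x * c = c * x := by
      intro c hc x hx
      have h9 : commutator G ⊓ Subgroup.centralizer {c} = commutator G :=
        (H89.eq_or_eq_of_relIndex_prime hp.out h2 (le_inf hKG (hKZ.trans (H92.center_le_C c)))
          inf_le_left).resolve_left fun h => ha' (hKZ (h ▸ ⟨ha, H92.mem_C_comm.1 hc⟩))
      exact (H92.mem_C.1 (inf_eq_left.1 h9 hx)).eq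
    have h10 : ⁅C, C⁆ ≤ K := by
      rw [Subgroup.commutator_le, ← h8]
      intro x hx y hy
      refine ⟨commutatorElement_mem_commutator' _ _, Subgroup.mem_center_iff.2 fun g => ?_⟩
      have e1 := h9 x hx _ (commutatorElement_mem_commutator' g x)
      have e2 := h9 x hx _ (commutatorElement_mem_commutator' g y)
      have e3 := h9 y hy _ (commutatorElement_mem_commutator' g x)
      have e4 := h9 y hy _ (commutatorElement_mem_commutator' g y)
      have e5 : ⁅g, x⁆ * ⁅g, y⁆ = ⁅g, y⁆ * ⁅g, x⁆ := by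
        have e5 : commutator G ≤ C := fun w hw => H92.mem_C.2 (h9 a (H92.self_mem_C a) w hw)
        exact h9 _ (e5 (commutatorElement_mem_commutator' g y)) _
          (commutatorElement_mem_commutator' g x)
      have e6 : g * ⁅x, y⁆ * g⁻¹ = ⁅⁅g, x⁆ * x, ⁅g, y⁆ * y⁆ := by
        simp only [commutatorElement_def]; group
      rw [← mul_inv_eq_iff_eq_mul, e6]
      generalize ⁅g, x⁆ = u at *
      generalize ⁅g, y⁆ = v at *
      have c1 : Commute u x := e1
      have c2 : Commute v x := e2
      have c3 : Commute u y := e3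
      have c4 : Commute v y := e4
      have c5 : Commute u v := e5
      have e7 : u * x * (v * y) = u * v * (x * y) := by
        rw [mul_assoc u, ← mul_assoc x, ← c2.eq]; group
      have e8 : v * y * (u * x) = u * v * (y * x) := by
        rw [mul_assoc v, ← mul_assoc y, ← c3.eq, c5.eq]; group
      calc ⁅u * x, v * y⁆ = u * x * (v * y) * (v * y * (u * x))⁻¹ := by
            rw [commutatorElement_def]; group
        _ = u * v * ⁅x, y⁆ * (u * v)⁻¹ := by rw [e7, e8, commutatorElement_def]; group
        _ = ⁅x, y⁆ := by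
            have : Commute (u * v) ⁅x, y⁆ := by
              rw [commutatorElement_def]
              exact (((c1.mul_left c2).mul_right (c3.mul_left c4)).mul_right
                (c1.mul_left c2).inv_right).mul_right (c3.mul_left c4).inv_right
            rw [this.eq, mul_inv_cancel_right]
    have h11 : C.index ≤ p := by
      rw [← hKp, hC, ← H92.card_isConj]
      refine Nat.card_le_card_of_injective (fun y => (⟨a * y.1⁻¹, ?_⟩ : K)) fun y y' h => ?_
      · obtain ⟨g, hg⟩ := isConj_iff.1 y.2
        convert h4 a ha g using 1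
        rw [← hg, commutatorElement_def]; group
      · exact Subtype.ext (by simpa using congrArg Subtype.val h)
    have h12 := (deg_le_index_of_commutator_le hψ C (h10.trans hψK)).trans h11
    rw [hi] at h12
    have h13 : i ≤ 1 := (Nat.pow_le_pow_iff_right hlt).1 (by rwa [pow_one])
    have h14 : j ≠ 0 := fun h => hχ1 (by rw [hj, h, pow_zero])
    omega

/-- Let p be a prime and P a finite non-commutative p-group. Then every two irreducible characters of P of the same degree greater than 1 are Galois conjugate (one is obtained from the other by composing with g ↦ g^k for some k prime to the order of P) if and only if the centre of P is cyclic and the derived subgroup of P has order p. -/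
theorem result {P : Type*} [Group P] [Finite P] (p : ℕ) [Fact p.Prime] (hP : IsPGroup p P) (hna : ¬ IsMulCommutative P) :
    (∀ χ ψ : Cfsg.IrrCharacter P, Cfsg.charDegree (χ : P → ℂ) ≠ 1 → Cfsg.charDegree (χ : P → ℂ) = Cfsg.charDegree (ψ : P → ℂ) → ∃ k : ℕ, Nat.Coprime k (Nat.card P) ∧ ∀ g : P, (ψ : P → ℂ) g = (χ : P → ℂ) (g ^ k)) ↔
      (IsCyclic (Subgroup.center P) ∧ Nat.card (commutator P) = p) := by
  have hp : p.Prime := Fact.out
  have hne : commutator P ≠ ⊥ := fun h => hna (commutator_eq_bot_iff_comm.1 h)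
  constructor
  · intro h
    have hs : SameKer P := by
      intro χ ψ hχ hψ h1 h2 g hg
      obtain ⟨k, -, hk⟩ := h ⟨χ, hχ⟩ ⟨ψ, hψ⟩ h1 h2
      rw [mem_charKer_irr_iff hψ]
      have h3 := hk g
      have h4 := hk 1
      simp only [one_pow] at h3 h4
      rw [h3, h4, apply_eq_of_mem_charKer (Subgroup.pow_mem _ hg k)]
    have h1 := card_commutator p P hP hs hne
    refine ⟨?_, h1⟩
    obtain ⟨χ, hχ, -, h2⟩ := exists_irr_le_charKer_deg_ne_one ⊥ fun h => hne (le_bot_iff.1 h)
    exact isCyclic_center_of_faithful hχ ((H89.eq_bot_or_eq_of_card_prime hp h1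
      (hs.le hχ h2)).resolve_right fun h => h2 ((deg_eq_one_iff_commutator_le hχ).2 h.ge))
  · rintro ⟨hc, h1⟩ χ ψ hχ1 hχψ
    have h2 := H89.le_center_of_normal_of_card_prime hP h1
    have key : ∀ χ, IsIrrCharacter P χ → charDegree χ ≠ 1 →
        (∀ x, x ∉ Subgroup.center P → χ x = 0) ∧ ∃ lam : Subgroup.center P →* ℂˣ,
          Function.Injective lam ∧ ∀ z : Subgroup.center P, χ z = lam z * χ 1 := by
      intro χ hχ h3
      have h4 : charKer χ ⊓ commutator P = ⊥ :=
        (H89.eq_bot_or_eq_of_card_prime hp h1 inf_le_right).resolve_right fun h =>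
          h3 ((deg_eq_one_iff_commutator_le hχ).2 (inf_eq_right.1 h))
      refine ⟨fun x hx => H14.vanish_off_center_of_class_two h2 hχ h4 hx, ?_⟩
      obtain ⟨lam, -, hlam⟩ := exists_monoidHom_of_le_center hχ _ le_rfl
      refine ⟨lam, ?_, hlam⟩
      rw [← MonoidHom.ker_eq_bot_iff]
      by_contra h5
      obtain ⟨w, hw⟩ := exists_prime_orderOf_dvd_card' p (G := lam.ker) (by
        obtain ⟨a, ha⟩ := IsPGroup.iff_card.1 ((hP.to_subgroup _).to_subgroup lam.ker)
        rcases a with _ | a
        · exact absurd (Subgroup.card_eq_one.1 ha) h5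
        · rw [ha]; exact dvd_pow_self p a.succ_ne_zero)
      have h6 : Nat.card ((commutator P).subgroupOf (Subgroup.center P)) = p := by
        rw [H3.card_subgroupOf, inf_eq_left.2 h2, h1]
      have h7 : ((w : Subgroup.center P) : P) ∈ commutator P := by
        classical
        have := Fintype.ofFinite (Subgroup.center P)
        have h7 := IsCyclic.card_pow_eq_one_le (α := Subgroup.center P) hp.pos
        have h8 : Finset.univ.filter (· ∈ (commutator P).subgroupOf (Subgroup.center P)) =
            Finset.univ.filter fun a : Subgroup.center P => a ^ p = 1 := by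
          apply Finset.eq_of_subset_of_card_le
          · intro x hx
            simp only [Finset.mem_filter, Finset.mem_univ, true_and] at hx ⊢
            exact h6 ▸ congrArg Subtype.val (pow_card_eq_one' (x := (⟨x, hx⟩ :
              (commutator P).subgroupOf (Subgroup.center P))))
          · refine h7.trans ?_
            rw [← Fintype.card_subtype, ← Nat.card_eq_fintype_card, h6]
        have h9 : (w : Subgroup.center P) ∈
            Finset.univ.filter fun a : Subgroup.center P => a ^ p = 1 := by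
          simp only [Finset.mem_filter, Finset.mem_univ, true_and]
          exact hw ▸ congrArg Subtype.val (pow_orderOf_eq_one w)
        rw [← h8] at h9
        simpa [Subgroup.mem_subgroupOf] using h9
      have h8 : ((w : Subgroup.center P) : P) ∈ charKer χ := by
        rw [mem_charKer_irr_iff hχ, hlam, w.2, Units.val_one, one_mul]
      have h9 : ((w : Subgroup.center P) : P) = 1 := Subgroup.mem_bot.1 (h4 ▸ ⟨h8, h7⟩)
      rw [show w = 1 from Subtype.ext (Subtype.ext h9), orderOf_one] at hw
      exact hp.one_lt.ne hw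
    obtain ⟨h3, lam, h4, h5⟩ := key _ χ.2 hχ1
    obtain ⟨h6, mu, h7, h8⟩ := key _ ψ.2 (hχψ ▸ hχ1)
    have h9 : (ψ : P → ℂ) 1 = (χ : P → ℂ) 1 := by rw [irr_deg χ.2, irr_deg ψ.2, hχψ]
    obtain ⟨z, hz⟩ := IsCyclic.exists_monoid_generator (α := Subgroup.center P)
    have hpos : 0 < orderOf z := orderOf_pos z
    have h10 : IsPrimitiveRoot (lam z) (orderOf z) :=
      orderOf_injective lam h4 z ▸ IsPrimitiveRoot.orderOf _
    have h11 : IsPrimitiveRoot (mu z) (orderOf z) :=
      orderOf_injective mu h7 z ▸ IsPrimitiveRoot.orderOf _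
    have : NeZero (orderOf z) := ⟨hpos.ne'⟩
    obtain ⟨k, -, hk, hk'⟩ := (h10.isPrimitiveRoot_iff').1 h11
    have h12 : p ∣ orderOf z := by
      rw [orderOf_eq_card_of_forall_mem_powers hz, ← h1]
      exact Subgroup.card_dvd_of_le h2
    have h13 : k.Coprime (Nat.card P) := by
      obtain ⟨a, ha⟩ := IsPGroup.iff_card.1 hP
      rw [ha]
      exact (hk.coprime_dvd_right h12).pow_right a
    refine ⟨k, h13, fun g => ?_⟩
    by_cases hg : g ∈ Subgroup.center P
    · obtain ⟨n, hn⟩ := hz ⟨g, hg⟩
      have h14 := h5 (⟨g, hg⟩ ^ k)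
      have h15 := h8 ⟨g, hg⟩
      have h16 : lam (⟨g, hg⟩ ^ k) = mu ⟨g, hg⟩ := by
        rw [← hn, map_pow, map_pow, ← pow_mul, mul_comm n, pow_mul, hk', map_pow]
      rw [h9, ← h16] at h15
      exact h15.trans h14.symm
    · rw [h6 g hg, h3]
      intro h14
      exact hg ((Subgroup.zpowers_le.2 h14) (mem_zpowers_pow_iff.2
        (h13.coprime_dvd_right (orderOf_dvd_natCard g))))

end Cfsg.Agent.S4845
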