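import Cfsg.Statements.S4862
import Cfsg.Agent.H23.Real

set_option autoImplicit false
open Cfsg

namespace Cfsg.Agent.S4862

open Subgroup H23
open scoped commutatorElement

/-- Let p be an odd prime and G a finite group such that the subgroup generated by the p-elements of G is solvable and every real-valued irreducible complex character of G has degree prime to p. Let K be the subgroup generated by the 2-elements of G and P a Sylow p-subgroup of G. Then every normal subgroup M of G contained in K and in the derived subgroup of P is centralized by K. -/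
theorem result {G : Type*} [Group G] [Finite G] (p : ℕ) [Fact p.Prime] (hp : p ≠ 2) (hsolv : Group.IsSolvable ↥(Subgroup.closure {g : G | ∃ k : ℕ, orderOf g = p ^ k})) (hreal : ∀ χ : Cfsg.IrrCharacter G, (∀ g : G, ((χ : G → ℂ) g).im = 0) → ¬ p ∣ Cfsg.charDegree (χ : G → ℂ)) (P : Sylow p G) (M : Subgroup G) (hM : M.Normal) (hMK : M ≤ (Subgroup.closure {g : G | ∃ k : ℕ, orderOf g = 2 ^ k})) (hMP : M ≤ ⁅(P : Subgroup G), (P : Subgroup G)⁆) : (Subgroup.closure {g : G | ∃ k : ℕ, orderOf g = 2 ^ k}) ≤ Subgroup.centralizer (M : Set G) := by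
  classical
  refine (closure_le _).2 fun t ⟨k, hk⟩ => ?_
  by_contra hc
  have hp' : p.Prime := Fact.out
  have hMP' : M ≤ P := hMP.trans (commutator_le.2 fun x hx y hy =>
    mul_mem (mul_mem (mul_mem hx hy) (inv_mem hx)) (inv_mem hy))
  have hMp : IsPGroup p M := P.2.to_le hMP'
  obtain ⟨j, m, hm, hm1, e⟩ := exists_inverted (le_normalizer' (mem_top t))
    (hk ▸ pow_orderOf_eq_one t) hc
  obtain ⟨θ, hθ, hcj⟩ := exists_cj_eq_bar (le_normalizer' (mem_top _)) hm hm1 e
  obtain ⟨S⟩ : Nonempty (Sylow 2 G) := inferInstance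
  obtain ⟨a, ha⟩ := hMp.exists_card_eq
  have hodd : Odd (Nat.card M) := ha ▸ (hp'.odd_of_ne_two hp).pow
  have hS : Odd (S : Subgroup G).index :=
    Nat.not_even_iff_odd.1 fun h => S.not_dvd_index h.two_dvd
  have hθo : Odd (charDegree θ.1) := hodd.of_dvd_nat (H24.deg_dvd_card θ.2)
  have hMS : Disjoint M (S : Subgroup G) := IsPGroup.disjoint_of_ne p 2 hp _ _ hMp S.isPGroup'
  obtain ⟨χ, hχ, h0⟩ := exists_real_over (s := t ^ j) (θ := θ) (disjoint_iff.1 hMS) hcj
    fun n hn => (hS.mul hθo).of_dvd_nat (Dvd.intro _ hn)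
  haveI := Fintype.ofFinite (IrrCharacter (P : Subgroup G))
  obtain ⟨μ, hμ⟩ : ∃ μ : IrrCharacter (P : Subgroup G),
      ¬ p ∣ mult le_top (topIrr χ) μ * charDegree μ.1 := by
    by_contra h
    push Not at h
    refine hreal χ hχ ?_
    rw [← deg_topIrr, deg_eq_sum_mult (C := (P : Subgroup G)) le_top]
    exact Finset.dvd_sum fun μ _ => h μ
  obtain ⟨b, hb⟩ := P.2.exists_card_eq
  obtain ⟨i, -, hi⟩ := (Nat.dvd_prime_pow hp').1 (hb ▸ H24.deg_dvd_card μ.2)
  have hi0 : i = 0 := by
    by_contra h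
    exact hμ (Dvd.dvd.mul_left (hi ▸ dvd_pow_self p h) _)
  obtain ⟨lam, hl⟩ := H11.exists_monoidHom_of_apply_one_eq_one (H11.irr_isCharacter μ)
    (by rw [H24.irr_deg μ.2, hi, hi0, pow_zero, Nat.cast_one])
  have h1 : ⁅(P : Subgroup G), (P : Subgroup G)⁆ ≤ lam.ker.map (P : Subgroup G).subtype :=
    commutator_le.2 fun x hx y hy => ⟨⁅(⟨x, hx⟩ : (P : Subgroup G)), ⟨y, hy⟩⁆, by
      change lam _ = 1
      rw [map_commutatorElement, commutatorElement_eq_one_iff_mul_comm, mul_comm], rfl⟩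
  have h2 : mult hMP' μ (oneIrr M) = 1 := mult_eq_one_of_res_eq _ fun y => by
    obtain ⟨z, hz, e⟩ := h1 (hMP y.2)
    rw [hl, ← show z = ⟨y, _⟩ from Subtype.ext e]
    exact congrArg Units.val hz
  obtain ⟨g, rfl⟩ := exists_cj_eq_of_mult_ne_zero le_top le_normalizer'
    (mult_trans_ne_zero hMP' le_top (fun h => hμ (by rw [h, zero_mul]; exact dvd_zero _))
      (h2.trans_ne one_ne_zero)) h0
  exact hθ (cj_oneIrr _)

end Cfsg.Agent.S4862
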