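import Cfsg.Statements.S4864
import Cfsg.Agent.H23.RealBij

set_option autoImplicit false
open Cfsg

namespace Cfsg.Agent.S4864

open Subgroup H23

/-- Let p be a prime and G a finite group such that the subgroup generated by the p-elements of G is solvable and every real-valued irreducible complex character of G has degree prime to p. Then the normalizer of a Sylow p-subgroup of G contains an element of every real conjugacy class of G: every element conjugate to its inverse is conjugate to an element of that normalizer. -/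
theorem result {G : Type*} [Group G] [Finite G] (p : ℕ) [Fact p.Prime] (hsolv : Group.IsSolvable ↥(Subgroup.closure {g : G | ∃ k : ℕ, orderOf g = p ^ k})) (hreal : ∀ χ : Cfsg.IrrCharacter G, (∀ g : G, ((χ : G → ℂ) g).im = 0) → ¬ p ∣ Cfsg.charDegree (χ : G → ℂ)) (P : Sylow p G) (x : G) (hx : IsConj x x⁻¹) : ∃ y ∈ Subgroup.normalizer ((P : Subgroup G) : Set G), IsConj x y := by
  obtain ⟨Q, hQ, h1, h2, h3⟩ := exists_normal_sylow_pGen hsolv hreal P
  have hs := QuotientGroup.mk'_surjective Q
  haveI := (pGen_normal (G := G) 2).map _ hs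
  obtain ⟨y, hy, h4⟩ := real_meets_normalizer (P.mapSurjective hs)
    (K := (pGen 2 G).map (QuotientGroup.mk' Q)) (odd_index_pGen.of_dvd_nat (index_map_dvd _ hs))
    (by rwa [← relIndex_ker, QuotientGroup.ker_mk']) (real_deg_of_surjective _ hs hreal)
    (x := QuotientGroup.mk' Q x) (by simpa using (QuotientGroup.mk' Q).map_isConj hx)
  obtain ⟨z, rfl⟩ := isConj_iff.1 h4
  obtain ⟨z, rfl⟩ := hs z
  refine ⟨z * x * z⁻¹, ?_, isConj_iff.2 ⟨z, rfl⟩⟩
  have h5 : z * x * z⁻¹ ∈ (normalizer (((P : Subgroup G).map (QuotientGroup.mk' Q) :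
      Subgroup (G ⧸ Q)) : Set (G ⧸ Q))).comap (QuotientGroup.mk' Q) := by
    simpa using hy
  have h6 := le_normalizer_comap _ h5
  rwa [comap_map_eq, QuotientGroup.ker_mk', sup_eq_left.2 h2] at h6

end Cfsg.Agent.S4864
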