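import Cfsg.Statements.S4866
import Cfsg.Agent.H19.FS

set_option autoImplicit false
open Cfsg

namespace Cfsg.Agent.S4866

open scoped ComplexConjugate

theorem card_quot_mul {G X : Type*} [Group G] [Fintype G] [MulAction G X] [Finite X]
    (r : X → X → Prop) (hr : ∀ x y, r x y ↔ ∃ g : G, g • x = y) :
    Nat.card (Quot r) * Nat.card G = ∑ g : G, Nat.card (MulAction.fixedBy X g) := by
  classical
  letI := Fintype.ofFinite X
  have h1 : r = (MulAction.orbitRel G X).r := by
    funext x y
    rw [hr, MulAction.orbitRel_apply, MulAction.mem_orbit_symm, MulAction.mem_orbit_iff]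
  subst h1
  letI := Fintype.ofFinite (Quotient (MulAction.orbitRel G X))
  have := MulAction.sum_card_fixedBy_eq_card_orbits_mul_card_group G X
  simp only [← Nat.card_eq_fintype_card] at this
  exact this.symm

theorem fixed_of_odd {α : Type*} (s t : α → α) (hst : ∀ x, s (t x) = t (s x))
    (ht : ∀ x, t (t x) = x) {j : ℕ} (hs : ∀ x, s^[2 * j + 1] x = x) (x : α) :
    s (t x) = x ↔ s x = x ∧ t x = x := by
  constructor
  · intro h
    have h2 : s (s x) = x := by
      conv_lhs => rw [← ht x, hst, h]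
      rw [h]
    have h3 : s^[2 * j] x = x := by
      rw [Function.iterate_mul]
      exact Function.iterate_fixed h2 j
    have h4 : s x = x := by
      have := hs x
      rwa [Function.iterate_succ_apply', h3] at this
    exact ⟨h4, by rw [← h, hst, h4, ht]; rw [hst, h4] at h; exact h.symm⟩
  · rintro ⟨h1, h2⟩
    rw [h2, h1]

open Classical in
theorem sum_conj {K : Type*} [Group K] [Fintype K] (x y : K) :
    ∑ k : K, (if k * x * k⁻¹ = y then (1 : ℂ) else 0) =
      if IsConj x y then (Nat.card (Subgroup.centralizer ({x} : Set K)) : ℂ) else 0 := by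
  split_ifs with h
  · obtain ⟨u, rfl⟩ := isConj_iff.mp h
    rw [← Finset.sum_filter, Finset.sum_const, nsmul_eq_mul, mul_one,
      ← Fintype.card_subtype, ← Nat.card_eq_fintype_card]
    congr 1
    symm
    refine Nat.card_congr (Equiv.subtypeEquiv
      (p := fun k => k ∈ Subgroup.centralizer ({x} : Set K))
      (q := fun k => k * x * k⁻¹ = u * x * u⁻¹) (Equiv.mulLeft u) fun k => ?_)
    rw [Subgroup.mem_centralizer_singleton_iff, Equiv.coe_mulLeft]
    constructor
    · intro h3
      calc u * k * x * (u * k)⁻¹ = u * (k * x) * k⁻¹ * u⁻¹ := by group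
        _ = _ := by rw [h3]; group
    · intro h3
      calc k * x = u⁻¹ * (u * k * x * (u * k)⁻¹) * u * k := by group
        _ = _ := by rw [h3]; group
  · exact Finset.sum_eq_zero fun k _ => if_neg fun hk => h (isConj_iff.mpr ⟨k, hk⟩)


/-- Let K be a normal subgroup of odd index in the finite group G. Then G has as many orbits on the real-valued irreducible complex characters of K (acting by conjugation) as it has orbits on the conjugacy classes of K that are real in K; equivalently, the number of G-orbits of real-valued irreducible characters of K equals the number of G-conjugacy classes of elements of K that are conjugate in K to their inverses. -/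
theorem result {G : Type*} [Group G] [Finite G] (K : Subgroup G) [K.Normal] (hodd : Odd K.index) : Nat.card (Quot (fun θ η : {θ : Cfsg.IrrCharacter ↥K // (∀ k : ↥K, ((θ : ↥K → ℂ) k).im = 0)} => ∃ g : G, ∀ k k' : ↥K, (k' : G) = g * (k : G) * g⁻¹ → (η.1 : ↥K → ℂ) k' = (θ.1 : ↥K → ℂ) k)) = Nat.card (Quot (fun x y : {x : ↥K // IsConj x x⁻¹} => ∃ g : G, (y.1 : G) = g * x.1 * g⁻¹)) := by
  classical
  letI := Fintype.ofFinite G
  letI := Fintype.ofFinite K
  letI := Fintype.ofFinite (Cfsg.IrrCharacter K)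
  set c : G →* MulAut K := MulAut.conjNormal with hc
  have hcc : ∀ (g : G) (k : K), ((c g k : K) : G) = g * k * g⁻¹ := fun g k => rfl
  obtain ⟨j, hj⟩ := hodd
  have hpow : ∀ g : G, ∃ k : K, c g ^ (2 * j + 1) = MulAut.conj k := by
    intro g
    refine ⟨⟨g ^ (2 * j + 1), hj ▸ Subgroup.pow_index_mem K g⟩, ?_⟩
    rw [← map_pow]
    ext k
    rfl
  letI A1 : MulAction G {θ : Cfsg.IrrCharacter ↥K // (∀ k : ↥K, ((θ : ↥K → ℂ) k).im = 0)} :=
    { smul := fun g θ => ⟨⟨fun k => θ.1.1 (c g⁻¹ k),
        H11.isIrrCharacter_comp_mulEquiv θ.1.2 (c g⁻¹)⟩, fun k => θ.2 _⟩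
      one_smul := fun θ => Subtype.ext (Subtype.ext (funext fun k => by
        change θ.1.1 (c 1⁻¹ k) = _
        simp))
      mul_smul := fun g h θ => Subtype.ext (Subtype.ext (funext fun k => by
        change θ.1.1 (c (g * h)⁻¹ k) = θ.1.1 (c h⁻¹ (c g⁻¹ k))
        rw [mul_inv_rev, map_mul]; rfl)) }
  have hA1 : ∀ (g : G) (θ : {θ : Cfsg.IrrCharacter ↥K // (∀ k : ↥K, ((θ : ↥K → ℂ) k).im = 0)})
      (k : K), (g • θ).1.1 k = θ.1.1 (c g⁻¹ k) := fun _ _ _ => rfl
  letI A2 : MulAction G {x : ↥K // IsConj x x⁻¹} :=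
    { smul := fun g x => ⟨c g x.1, by
        have := (c g).toMonoidHom.map_isConj x.2
        simpa using this⟩
      one_smul := fun x => Subtype.ext (by change c 1 x.1 = _; simp)
      mul_smul := fun g h x => Subtype.ext (by
        change c (g * h) x.1 = c g (c h x.1)
        rw [map_mul]; rfl) }
  have hA2 : ∀ (g : G) (x : {x : ↥K // IsConj x x⁻¹}), (g • x).1 = c g x.1 := fun _ _ => rfl
  apply Nat.eq_of_mul_eq_mul_right (Nat.card_pos (α := G))
  rw [card_quot_mul (G := G), card_quot_mul (G := G)]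
  rotate_left
  · intro x y
    refine exists_congr fun g => ?_
    rw [Subtype.ext_iff, Subtype.ext_iff, hA2, hcc, eq_comm]
  · intro θ η
    refine exists_congr fun g => ⟨fun h => ?_, fun h k k' hk => ?_⟩
    · refine Subtype.ext (Subtype.ext (funext fun k => ?_))
      rw [hA1]
      exact (h _ _ (by rw [hcc]; group)).symm
    · rw [← h, hA1]
      refine congrArg θ.1.1 (Subtype.ext ?_)
      rw [hcc, hk]; group
  apply Nat.eq_of_mul_eq_mul_left (Nat.card_pos (α := K))
  apply Nat.cast_injective (R := ℂ)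
  push_cast
  set C : K → ℂ := fun x => (Nat.card (Subgroup.centralizer ({x} : Set K)) : ℂ) with hC
  -- conjugacy
  have hconj : ∀ (g : G) (x : K), IsConj x (c g x⁻¹) ↔ IsConj x (c g x) ∧ IsConj x x⁻¹ := by
    intro g x
    let s : ConjClasses K → ConjClasses K := ConjClasses.map (c g).toMonoidHom
    let t : ConjClasses K → ConjClasses K := Quotient.map' (fun y => y⁻¹) (fun a b h => by
      obtain ⟨u, hu⟩ := isConj_iff.mp h
      exact isConj_iff.mpr ⟨u, by rw [← hu]; group⟩)
    have hs : ∀ y, s (ConjClasses.mk y) = ConjClasses.mk (c g y) := fun y => rfl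
    have ht : ∀ y, t (ConjClasses.mk y) = ConjClasses.mk y⁻¹ := fun y => rfl
    have hsi : ∀ (n : ℕ) y, s^[n] (ConjClasses.mk y) = ConjClasses.mk ((c g ^ n) y) := by
      intro n y
      induction n with
      | zero => simp
      | succ n ih => rw [Function.iterate_succ_apply', ih, hs, pow_succ']; rfl
    have := fixed_of_odd s t (j := j) (fun y => by
        obtain ⟨y, rfl⟩ := ConjClasses.mk_surjective y
        rw [ht, hs, hs, ht, map_inv]) (fun y => by
        obtain ⟨y, rfl⟩ := ConjClasses.mk_surjective y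
        rw [ht, ht, inv_inv]) (fun y => by
        obtain ⟨y, rfl⟩ := ConjClasses.mk_surjective y
        obtain ⟨k, hk⟩ := hpow g
        rw [hsi, hk, ConjClasses.mk_eq_mk_iff_isConj]
        exact (isConj_iff.mpr ⟨k, rfl⟩).symm) (ConjClasses.mk x)
    rw [ht, hs, hs] at this
    simpa only [ConjClasses.mk_eq_mk_iff_isConj, isConj_comm] using this
  have hL : ∀ g : G, (Nat.card K : ℂ) * (Nat.card (MulAction.fixedBy
      {θ : Cfsg.IrrCharacter ↥K // (∀ k : ↥K, ((θ : ↥K → ℂ) k).im = 0)} g) : ℂ) =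
      ∑ x : K, if IsConj x (c g⁻¹ x) ∧ IsConj x x⁻¹ then C x else 0 := by
    intro g
    have h1 : ∀ θ : Cfsg.IrrCharacter K, ∑ x : K, θ.1 x * conj (θ.1 (c g⁻¹ x⁻¹)) =
        if (∀ k, (θ.1 k).im = 0) ∧ ∀ k, θ.1 (c g⁻¹ k) = θ.1 k then (Nat.card K : ℂ) else 0 := by
      intro θ
      have hi : Cfsg.IsIrrCharacter K (fun x => θ.1 (c g⁻¹ x⁻¹)) :=
        H11.isIrrCharacter_comp_inv (H11.isIrrCharacter_comp_mulEquiv θ.2 (c g⁻¹))
      rw [← H11.card_mul_classInner θ.1 (fun x => θ.1 (c g⁻¹ x⁻¹)), H11.classInner_irr θ.2 hi]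
      have h2 : θ.1 = (fun x => θ.1 (c g⁻¹ x⁻¹)) ↔
          (∀ k, (θ.1 k).im = 0) ∧ ∀ k, θ.1 (c g⁻¹ k) = θ.1 k := by
        let s : Cfsg.IrrCharacter K → Cfsg.IrrCharacter K := fun η =>
          ⟨fun k => η.1 (c g⁻¹ k), H11.isIrrCharacter_comp_mulEquiv η.2 (c g⁻¹)⟩
        let t : Cfsg.IrrCharacter K → Cfsg.IrrCharacter K := fun η =>
          ⟨fun k => η.1 k⁻¹, H11.isIrrCharacter_comp_inv η.2⟩
        have hsi : ∀ (n : ℕ) (η : Cfsg.IrrCharacter K) k, (s^[n] η).1 k = η.1 ((c g⁻¹ ^ n) k) := by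
          intro n η
          induction n with
          | zero => simp
          | succ n ih =>
            intro k
            rw [Function.iterate_succ_apply', pow_succ]
            exact ih _
        have := fixed_of_odd s t (j := j) (fun η => Subtype.ext (funext fun k => by
            change η.1 (c g⁻¹ k)⁻¹ = η.1 (c g⁻¹ k⁻¹)
            rw [map_inv (c g⁻¹)])) (fun η => Subtype.ext (funext fun k => by
            change η.1 k⁻¹⁻¹ = _
            rw [inv_inv])) (fun η => Subtype.ext (funext fun k => by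
            obtain ⟨u, hu⟩ := hpow g⁻¹
            rw [hsi, hu]
            exact H11.isClassFunction_of_irr η.2 k u)) θ
        rw [Subtype.ext_iff, Subtype.ext_iff, Subtype.ext_iff] at this
        rw [H19.real_iff_inv (H11.irr_isCharacter θ), and_comm, ← funext_iff, ← funext_iff, ← this,
          eq_comm]
        simp only [s, t, map_inv]
      by_cases h3 : θ.1 = (fun x => θ.1 (c g⁻¹ x⁻¹))
      · rw [if_pos h3, if_pos (h2.mp h3), mul_one]
      · rw [if_neg h3, if_neg (fun h => h3 (h2.mpr h)), mul_zero]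
    have h2 : ∑ θ : Cfsg.IrrCharacter K, ∑ x : K, θ.1 x * conj (θ.1 (c g⁻¹ x⁻¹)) =
        ∑ x : K, if IsConj x (c g⁻¹ x) ∧ IsConj x x⁻¹ then C x else 0 := by
      rw [Finset.sum_comm]
      refine Finset.sum_congr rfl fun x _ => ?_
      rw [H11.column_orthogonality]
      simp only [hconj, hC]
    rw [← h2, Finset.sum_congr rfl fun θ _ => h1 θ, ← Finset.sum_filter, Finset.sum_const,
      nsmul_eq_mul, mul_comm]
    congr 2
    rw [← Fintype.card_subtype, ← Nat.card_eq_fintype_card]
    refine Nat.card_congr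
      { toFun := fun θ => ⟨θ.1.1, θ.1.2, fun k => by
          rw [← hA1, MulAction.mem_fixedBy.mp θ.2]⟩
        invFun := fun θ => ⟨⟨θ.1, θ.2.1⟩, Subtype.ext (Subtype.ext (funext θ.2.2))⟩
        left_inv := fun _ => rfl
        right_inv := fun _ => rfl }
  have hR : ∀ g : G, (Nat.card (MulAction.fixedBy {x : ↥K // IsConj x x⁻¹} g) : ℂ) =
      ∑ x : K, if c g x = x ∧ IsConj x x⁻¹ then 1 else 0 := by
    intro g
    rw [← Finset.sum_filter, Finset.sum_const, nsmul_eq_mul, mul_one, ← Fintype.card_subtype,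
      ← Nat.card_eq_fintype_card]
    congr 1
    refine Nat.card_congr
      { toFun := fun x => ⟨x.1.1, congrArg Subtype.val (MulAction.mem_fixedBy.mp x.2), x.1.2⟩
        invFun := fun x => ⟨⟨x.1, x.2.2⟩, Subtype.ext x.2.1⟩
        left_inv := fun _ => rfl
        right_inv := fun _ => rfl }
  rw [Finset.mul_sum, Finset.sum_congr rfl fun g _ => hL g, Finset.sum_congr rfl fun g _ => hR g,
    Finset.sum_comm, Finset.sum_comm (s := Finset.univ (α := G)), Finset.mul_sum]
  refine Finset.sum_congr rfl fun x _ => ?_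
  by_cases hx : IsConj x x⁻¹
  swap
  · simp only [hx, and_false, if_false, Finset.sum_const_zero, mul_zero]
  simp only [hx, and_true]
  have h1 : ∀ g : G, (if IsConj x (c g⁻¹ x) then C x else 0) =
      ∑ k : K, if c (g * k) x = x then (1 : ℂ) else 0 := by
    intro g
    have h2 : ∀ k : K, c (g * k) x = x ↔ k * x * k⁻¹ = c g⁻¹ x := by
      intro k
      rw [map_mul, map_inv, MulAut.mul_apply, ← MulEquiv.eq_symm_apply]
      rfl
    simp only [h2]
    convert (sum_conj x (c g⁻¹ x)).symm
  rw [Finset.sum_congr rfl fun g _ => h1 g, Finset.sum_comm]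
  have h3 : ∀ k : K, ∑ g : G, (if c (g * k) x = x then (1 : ℂ) else 0) =
      ∑ g : G, if c g x = x then (1 : ℂ) else 0 := fun k =>
    Fintype.sum_equiv (Equiv.mulRight (k : G)) _ _ fun g => rfl
  simp only [h3]
  rw [Finset.sum_const, Finset.card_univ, nsmul_eq_mul, Nat.card_eq_fintype_card]

end Cfsg.Agent.S4866
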