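import Cfsg.Statements.S4870
import Cfsg.Agent.H19.GaloisBlock
import Cfsg.Agent.H14.Gallagher

set_option autoImplicit false
open Cfsg

namespace Cfsg.Agent.S4870


/-- Let G be a finite group with a non-abelian minimal normal subgroup N, and let φ be an irreducible complex character of N with stabilizer I in G (the elements g with φ(g n g⁻¹) = φ(n) for all n ∈ N) such that φ extends to an irreducible character of I. Put d = φ(1)·[G : I]. Then the number of linear characters of G is at most [G : I] times the number of irreducible characters of G of degree d. -/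
theorem result {G : Type*} [Group G] [Finite G] (N : Subgroup G) (hN : N.Normal) (hN1 : N ≠ ⊥) (hmin : ∀ M : Subgroup G, M.Normal → M ≤ N → M = ⊥ ∨ M = N) (hna : ¬ IsMulCommutative ↥N) (φ : Cfsg.IrrCharacter ↥N) (I : Subgroup G) (hI : ∀ g : G, g ∈ I ↔ ∀ n n' : ↥N, (n' : G) = g * (n : G) * g⁻¹ → (φ : ↥N → ℂ) n' = (φ : ↥N → ℂ) n) (hNI : N ≤ I) (hext : ∃ ψ : Cfsg.IrrCharacter ↥I, ∀ n : ↥N, (ψ : ↥I → ℂ) (Subgroup.inclusion hNI n) = (φ : ↥N → ℂ) n) : Nat.card {χ : Cfsg.IrrCharacter G // Cfsg.charDegree (χ : G → ℂ) = 1} ≤ I.index * Nat.card {χ : Cfsg.IrrCharacter G // Cfsg.charDegree (χ : G → ℂ) = Cfsg.charDegree (φ : ↥N → ℂ) * I.index} := by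
  classical
  letI := Fintype.ofFinite G
  letI := Fintype.ofFinite N
  letI := Fintype.ofFinite I
  obtain ⟨ψ, hψN⟩ := hext
  have hIn : H14.inertia N φ.1 ≤ I := by
    intro g hg
    rw [hI]
    intro n n' h
    rw [← (H14.mem_inertia' N).mp hg n]
    exact congrArg φ.1 (Subtype.ext h)
  -- linear characters are trivial on `N`
  have hcomm : N ≤ commutator G := by
    rcases hmin ⁅N, N⁆ inferInstance (Subgroup.commutator_le_left _ _) with h | h
    · exfalso
      apply hna
      rw [Subgroup.commutator_eq_bot_iff_le_centralizer] at h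
      exact Subgroup.le_centralizer_iff_isMulCommutative.mp h
    · rw [← h, commutator_def]
      exact Subgroup.commutator_mono le_top le_top
  set A := {χ : Cfsg.IrrCharacter G // Cfsg.charDegree (χ : G → ℂ) = 1}
    with hA
  have hlin : ∀ χ : A, ∃ lam : G →* ℂˣ, χ.1.1 = fun g => (lam g : ℂ) := fun χ =>
    H11.exists_monoidHom_of_apply_one_eq_one (H11.irr_isCharacter χ.1) (by
      rw [← H19.charDegree_cast_irr, χ.2]; simp)
  choose lam hlam using hlin
  have hlamN : ∀ (χ : A) (n : G), n ∈ N → lam χ n = 1 := fun χ n hn =>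
    Abelianization.commutator_subset_ker (lam χ) (hcomm hn)
  have hirrI : ∀ χ : A, Cfsg.IsIrrCharacter I (ψ.1 * fun t : I => χ.1.1 t) := fun χ =>
    H11.isIrrCharacter_mul_linear ψ.2 (H11.isCharacter_restrict (H11.irr_isCharacter χ.1) I) (by
      simp [hlam])
  have hres : ∀ χ : A, (fun n : N => (ψ.1 * fun t : I => χ.1.1 t) ⟨n, hNI n.2⟩) = φ.1 := by
    intro χ
    funext n
    simp only [Pi.mul_apply, hlam, hlamN χ n n.2, Units.val_one, mul_one]
    exact hψN n
  have hover : ∀ χ : A,
      Cfsg.classInner (fun n : N => (ψ.1 * fun t : I => χ.1.1 t) ⟨n, hNI n.2⟩) φ.1 ≠ 0 := by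
    intro χ
    rw [hres, H11.classInner_irr_self φ.2]
    exact one_ne_zero
  have hirr : ∀ χ : A, Cfsg.IsIrrCharacter G (Cfsg.indFun I (ψ.1 * fun t : I => χ.1.1 t)) :=
    fun χ => H14.clifford_corr_isIrr N I hNI φ.2 hIn (hirrI χ) (hover χ)
  let F : A → {χ : Cfsg.IrrCharacter G // Cfsg.charDegree (χ : G → ℂ) =
      Cfsg.charDegree (φ : ↥N → ℂ) * I.index} := fun χ =>
    ⟨⟨_, hirr χ⟩, by
      apply H19.charDegree_eq_of_eq
      have := congrFun (hres χ) 1
      simp only [H14.indFun_one]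
      rw [show (1 : I) = ⟨((1 : N) : G), hNI (1 : N).2⟩ from rfl, this, Nat.cast_mul,
        H19.charDegree_cast_irr, mul_comm]⟩
  have hF : ∀ χ χ' : A, F χ = F χ' → ∀ t ∈ I, lam χ t = lam χ' t := by
    intro χ χ' h t ht
    have h1 : Cfsg.indFun I (ψ.1 * fun t : I => χ.1.1 t) =
        Cfsg.indFun I (ψ.1 * fun t : I => χ'.1.1 t) := congrArg (fun x => x.1.1) h
    have h2 := H14.clifford_corr_injective N I hNI φ.2 hIn (hirrI χ) (hirrI χ') (hover χ)
      (hover χ') h1
    have hψN' : Cfsg.IsIrrCharacter (N.subgroupOf I) (fun n => ψ.1 n) := by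
      have := H11.isIrrCharacter_comp_mulEquiv φ.2 (Subgroup.subgroupOfEquivOfLe hNI)
      convert this using 2 with n
      rw [← hψN]; rfl
    have hk : ∀ χ : A, N.subgroupOf I ≤ H11.charKer (fun t : I => χ.1.1 t) := by
      intro χ n hn
      rw [H11.mem_charKer_iff (H11.isCharacter_restrict (H11.irr_isCharacter χ.1) I)]
      simp [hlam, hlamN χ n hn]
    have hi : ∀ χ : A, Cfsg.IsIrrCharacter I (fun t : I => χ.1.1 t) := fun χ =>
      H11.isIrrCharacter_of_apply_one_eq_one
        (H11.isCharacter_restrict (H11.irr_isCharacter χ.1) I) (by simp [hlam])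
    have h3 := H14.gallagher_inj (N.subgroupOf I) ψ.2 hψN' (hi χ) (hi χ') (hk χ) (hk χ')
      (by rw [mul_comm, h2, mul_comm])
    have h4 := congrFun h3 ⟨t, ht⟩
    simp only [hlam] at h4
    exact Units.ext h4
  -- each fibre has at most `I.index` elements
  set J := I ⊔ commutator G with hJ
  haveI : J.Normal := Subgroup.Normal.of_commutator_le G le_sup_right
  haveI : IsMulCommutative (G ⧸ J) := Subgroup.Normal.quotient_commutative_iff_commutator_le.mpr
    le_sup_right
  have hJI : J.index ≤ I.index := Nat.le_of_dvd (Nat.pos_of_ne_zero Subgroup.index_ne_zero_of_finite)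
    (Subgroup.index_dvd_of_le le_sup_left)
  have hcard : Nat.card (G ⧸ J →* ℂˣ) = J.index := by
    letI : CommGroup (G ⧸ J) := { mul_comm := fun a b => mul_comm' a b }
    exact CommGroup.card_monoidHom_of_hasEnoughRootsOfUnity (G ⧸ J) ℂ
  letI := Fintype.ofFinite A
  letI := Fintype.ofFinite {χ : Cfsg.IrrCharacter G // Cfsg.charDegree (χ : G → ℂ) =
      Cfsg.charDegree (φ : ↥N → ℂ) * I.index}
  rw [Nat.card_eq_fintype_card, Nat.card_eq_fintype_card]
  refine Finset.card_le_mul_card_image_of_maps_to (f := F) (s := Finset.univ) (t := Finset.univ)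
    (fun _ _ => Finset.mem_univ _) _ fun b _ => ?_
  rcases (Finset.univ.filter fun a => F a = b).eq_empty_or_nonempty with h | ⟨χ₀, hχ₀⟩
  · simp [h]
  refine le_trans ?_ (hcard.le.trans hJI)
  have hker : ∀ χ : (Finset.univ.filter fun a => F a = b), J ≤ (lam χ.1 * (lam χ₀)⁻¹).ker := by
    intro χ
    refine sup_le (fun t ht => ?_) (Abelianization.commutator_subset_ker _)
    rw [MonoidHom.mem_ker, MonoidHom.mul_apply, MonoidHom.inv_apply,
      hF χ.1 χ₀ ((Finset.mem_filter.mp χ.2).2.trans (Finset.mem_filter.mp hχ₀).2.symm) t ht,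
      mul_inv_cancel]
  haveI : Finite (G ⧸ J →* ℂˣ) := Nat.finite_of_card_ne_zero (by
    rw [hcard]; exact Subgroup.index_ne_zero_of_finite)
  rw [← Fintype.card_coe, ← Nat.card_eq_fintype_card]
  refine Nat.card_le_card_of_injective (fun χ => QuotientGroup.lift J _ (hker χ)) ?_
  intro χ χ' h
  apply Subtype.ext
  apply Subtype.ext
  apply Subtype.ext
  rw [hlam, hlam]
  funext g
  have := DFunLike.congr_fun h (g : G ⧸ J)
  simp only [QuotientGroup.lift_mk, MonoidHom.mul_apply, mul_left_inj] at this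
  rw [this]

end Cfsg.Agent.S4870
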