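import Cfsg.Statements.S4871
import Mathlib
import Cfsg.Agent.H24.Deg
import Cfsg.Agent.H3.Fitting

set_option autoImplicit false
open Cfsg

namespace Cfsg.Agent.S4871


open Cfsg.Agent.H11 Cfsg.Agent.H14
open scoped ComplexConjugate

variable {G : Type*} [Group G]

/-- number of linear characters trivial on a subgroup -/
theorem card_hom_le [Finite G] (U : Subgroup G) :
    Nat.card {mu : G →* ℂˣ // U ≤ mu.ker} ≤ U.index := by
  set W := U ⊔ commutator G with hW
  haveI : W.Normal := H3.normal_of_commutator_le (N := commutator G) le_sup_right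
    (Subgroup.commutator_mono le_rfl le_top)
  haveI := finite_monoidHom_units (G := G ⧸ W)
  have h1 : Nat.card {mu : G →* ℂˣ // U ≤ mu.ker} ≤ Nat.card (G ⧸ W →* ℂˣ) := by
    refine Nat.card_le_card_of_injective (fun mu => QuotientGroup.lift W mu.1
      (sup_le mu.2 (Abelianization.commutator_subset_ker mu.1))) ?_
    intro a b h
    apply Subtype.ext
    ext g
    have := DFunLike.congr_fun h (g : G ⧸ W)
    simpa using congrArg Units.val this
  refine h1.trans ?_
  rw [card_monoidHom_eq_index_commutator]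
  refine (Nat.le_of_dvd Nat.card_pos (Subgroup.index_dvd_card _)).trans ?_
  exact Nat.le_of_dvd (Nat.pos_of_ne_zero Subgroup.index_ne_zero_of_finite)
    (Subgroup.index_dvd_of_le le_sup_left)

theorem exists_crossed (N P : Subgroup G) [hN : N.Normal] (hab : ∀ a ∈ N, ∀ b ∈ N, a * b = b * a)
    (hdisj : N ⊓ P = ⊥) (hprod : N ⊔ P = ⊤) :
    ∃ π : G → G, (∀ g, π g ∈ N) ∧ (∀ n ∈ N, π n = n) ∧
      ∀ g h, π (g * h) = π g * (g * π h * g⁻¹) := by
  have hex : ∀ g : G, ∃ n ∈ N, n⁻¹ * g ∈ P := by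
    intro g
    have : g ∈ ((N ⊔ P : Subgroup G) : Set G) := hprod ▸ Subgroup.mem_top g
    rw [Subgroup.normal_mul] at this
    obtain ⟨n, hn, x, hx, rfl⟩ := this
    exact ⟨n, hn, by simpa using hx⟩
  choose π hπ hπ' using hex
  have huniq : ∀ g n, n ∈ N → n⁻¹ * g ∈ P → π g = n := by
    intro g n hn hp
    have h1 : n⁻¹ * π g ∈ N ⊓ P := by
      refine ⟨N.mul_mem (N.inv_mem hn) (hπ g), ?_⟩
      have := P.mul_mem hp (P.inv_mem (hπ' g))
      simpa [mul_assoc] using this
    rw [hdisj, Subgroup.mem_bot, inv_mul_eq_one] at h1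
    exact h1.symm
  refine ⟨π, hπ, fun n hn => huniq n n hn (by simp), fun g h => huniq _ _
    (N.mul_mem (hπ g) (hN.conj_mem _ (hπ h) g)) ?_⟩
  have h1 := P.mul_mem (hπ' g) (hπ' h)
  have h2 := hab _ (N.inv_mem (hπ g)) _ (N.inv_mem (hN.conj_mem _ (hπ h) g))
  have h3 : (π g * (g * π h * g⁻¹))⁻¹ * (g * h) = (π g)⁻¹ * g * ((π h)⁻¹ * h) := by
    rw [mul_inv_rev, ← h2]; group
  rw [h3]; exact h1

theorem sum_hom_eq_zero {N : Type*} [Group N] [Fintype N] (l : N →* ℂˣ) (h : l ≠ 1) :
    ∑ n, (l n : ℂ) = 0 := by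
  have := sum_hom_units_eq_zero ((Units.coeHom ℂ).comp l) (by
    intro h'; apply h; ext n; simpa using DFunLike.congr_fun h' n)
  simpa using this

/-- Let G be a finite group that is the semidirect product of a normal elementary abelian subgroup N of odd order by a non-trivial 2-subgroup P, with N the unique minimal normal subgroup of G. Consider the strongly real irreducible complex characters of G (Frobenius–Schur indicator +1) whose degree is 1 or even. Then their average degree is at least 4/3: four times their number is at most three times the sum of their degrees. -/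
theorem result {G : Type*} [Group G] [Finite G] (N P : Subgroup G) (hN : N.Normal) (q : ℕ) [Fact q.Prime] (hq : q ≠ 2) (hNel : Cfsg.IsElementaryAbelian q N) (hP : IsPGroup 2 ↥P) (hP1 : P ≠ ⊥) (hdisj : N ⊓ P = ⊥) (hprod : N ⊔ P = ⊤) (hmin : N ≠ ⊥ ∧ ∀ M : Subgroup G, M.Normal → M ≠ ⊥ → N ≤ M) : 4 * Nat.card {χ : Cfsg.IrrCharacter G // (Cfsg.charDegree (χ : G → ℂ) = 1 ∨ 2 ∣ Cfsg.charDegree (χ : G → ℂ)) ∧ (Nat.card G : ℂ)⁻¹ * ∑ᶠ g : G, (χ : G → ℂ) (g * g) = 1} ≤ 3 * (∑ᶠ χ : {χ : Cfsg.IrrCharacter G // (Cfsg.charDegree (χ : G → ℂ) = 1 ∨ 2 ∣ Cfsg.charDegree (χ : G → ℂ)) ∧ (Nat.card G : ℂ)⁻¹ * ∑ᶠ g : G, (χ : G → ℂ) (g * g) = 1}, Cfsg.charDegree (χ.1 : G → ℂ)) := by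
  classical
  letI := Fintype.ofFinite G
  letI := Fintype.ofFinite (IrrCharacter G)
  have hab : ∀ a ∈ N, ∀ b ∈ N, a * b = b * a := fun a ha b hb =>
    congrArg Subtype.val (hNel.1.is_comm.comm (⟨a, ha⟩ : N) ⟨b, hb⟩)
  have hqodd : Odd q := (Fact.out : q.Prime).odd_of_ne_two hq
  -- a central involution of P inverts N
  obtain ⟨z, hzP, hz1, hzz, hzc⟩ : ∃ z ∈ P, z ≠ 1 ∧ z * z = 1 ∧ ∀ x ∈ P, x * z = z * x := by
    haveI : Nontrivial P := (Subgroup.nontrivial_iff_ne_bot P).2 hP1
    haveI := hP.center_nontrivial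
    have h2 : 2 ∣ Nat.card (Subgroup.center P) := by
      obtain ⟨k, hk, hc⟩ := (hP.to_subgroup (Subgroup.center P)).nontrivial_iff_card.1 inferInstance
      rw [hc]; exact dvd_pow_self 2 hk.ne'
    obtain ⟨y, hy⟩ := exists_prime_orderOf_dvd_card' 2 h2
    refine ⟨y.1.1, y.1.2, fun h => ?_, ?_, fun x hx => ?_⟩
    · have : y = 1 := Subtype.ext (Subtype.ext h)
      rw [this, orderOf_one] at hy; norm_num at hy
    · have := pow_orderOf_eq_one y
      rw [hy, pow_two] at this
      exact congrArg (fun t : Subgroup.center P => (t.1.1 : G)) this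
    · exact congrArg Subtype.val (Subgroup.mem_center_iff.1 y.2 ⟨x, hx⟩)
  have hdec : ∀ g : G, ∃ n ∈ N, ∃ x ∈ P, g = n * x := by
    intro g
    have : g ∈ ((N ⊔ P : Subgroup G) : Set G) := hprod ▸ Subgroup.mem_top g
    rw [Subgroup.normal_mul] at this
    obtain ⟨n, hn, x, hx, rfl⟩ := this
    exact ⟨n, hn, x, hx, rfl⟩
  have hzinv : z⁻¹ = z := inv_eq_of_mul_eq_one_right hzz
  have hcm : ∀ m : G, m ∈ Subgroup.centralizer ({z} : Set G) ↔ z * m = m * z := fun m => by
    simp [Subgroup.mem_centralizer_iff]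
  have hCz : N ⊓ Subgroup.centralizer {z} = ⊥ := by
    by_contra hne
    have hnorm : (N ⊓ Subgroup.centralizer {z}).Normal := by
      refine ⟨fun m hm g => ⟨hN.conj_mem m hm.1 g, ?_⟩⟩
      obtain ⟨n, hn, x, hx, rfl⟩ := hdec g
      have h1 : n * x * m * (n * x)⁻¹ = x * m * x⁻¹ := by
        have := hab n hn _ (hN.conj_mem m hm.1 x)
        calc n * x * m * (n * x)⁻¹ = n * (x * m * x⁻¹) * n⁻¹ := by group
          _ = _ := by rw [this]; group
      have h2 : z * m = m * z := (hcm m).1 hm.2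
      rw [h1]
      refine (hcm _).2 ?_
      have h3 := hzc x hx
      have h4 := hzc x⁻¹ (P.inv_mem hx)
      calc z * (x * m * x⁻¹) = (z * x) * m * x⁻¹ := by group
        _ = x * (z * m) * x⁻¹ := by rw [← h3]; group
        _ = x * m * (z * x⁻¹) := by rw [h2]; group
        _ = x * m * x⁻¹ * z := by rw [← h4, mul_assoc (x * m)]
    have hle := hmin.2 _ hnorm hne
    have hzcen : z ∈ Subgroup.center G := by
      rw [Subgroup.mem_center_iff]
      intro g
      obtain ⟨n, hn, x, hx, rfl⟩ := hdec g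
      have h2 : z * n = n * z := (hcm n).1 (hle hn).2
      rw [mul_assoc, hzc x hx, ← mul_assoc, ← h2, mul_assoc]
    have h5 := hmin.2 (Subgroup.zpowers z)
      (H3.normal_of_le_center (Subgroup.zpowers_le.2 hzcen)) (by simpa using hz1)
    exact hmin.1 (by rw [← hdisj]; exact (inf_eq_left.2 (h5.trans (Subgroup.zpowers_le.2 hzP))).symm)
  have hinv : ∀ n ∈ N, z * n * z⁻¹ = n⁻¹ := by
    intro n hn
    have h1 : n * (z * n * z⁻¹) ∈ N ⊓ Subgroup.centralizer {z} := by
      refine ⟨N.mul_mem hn (hN.conj_mem n hn z), (hcm _).2 ?_⟩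
      have h2 := hab n hn _ (hN.conj_mem n hn z)
      calc z * (n * (z * n * z⁻¹)) = (z * n * z⁻¹) * (z * z) * n * z⁻¹ := by group
        _ = (z * n * z⁻¹) * n * z := by rw [hzz, hzinv]; group
        _ = n * (z * n * z⁻¹) * z := by rw [h2]
    rw [hCz, Subgroup.mem_bot] at h1
    exact eq_inv_of_mul_eq_one_right h1
  -- a nontrivial linear character of N
  obtain ⟨lam, hlam⟩ : ∃ lam : N →* ℂˣ, lam ≠ 1 := by
    haveI : Nontrivial N := (Subgroup.nontrivial_iff_ne_bot N).2 hmin.1
    obtain ⟨n, hn⟩ := exists_ne (1 : N)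
    have hc : commutator N ≤ ⊥ := by
      rw [commutator_def, Subgroup.commutator_le]
      intro a _ b _
      rw [Subgroup.mem_bot, commutatorElement_eq_one_iff_mul_comm]
      exact Subtype.ext (hab _ a.2 _ b.2)
    obtain ⟨l, -, hl⟩ := exists_monoidHom_ne_one (⊥ : Subgroup N) hc (g := n) (by simpa using hn)
    exact ⟨l, fun h => hl (by simp [h])⟩
  obtain ⟨π, hπN, hπid, hπ⟩ := exists_crossed N P hab hdisj hprod
  set lc : N → ℂ := fun n => (lam n : ℂ) with hlc
  have hlcI : IsIrrCharacter N lc := isIrrCharacter_monoidHom lam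
  set U := inertia N lc with hU
  have hNU : N ≤ U := le_inertia N (isClassFunction_of_irr hlcI)
  have hUm : ∀ {g}, g ∈ U ↔ ∀ n : N, lam ⟨g * n * g⁻¹, hN.conj_mem _ n.2 g⟩ = lam n := by
    intro g
    rw [hU, mem_inertia']
    exact forall_congr' fun n => Units.val_inj
  let θ : U →* ℂˣ := MonoidHom.mk' (fun u => lam ⟨π u, hπN u⟩) (by
    intro a b
    rw [← hUm.1 a.2 ⟨π b, hπN b⟩, ← map_mul]
    congr 1
    exact Subtype.ext (hπ a b))
  have hθ : ∀ u : U, θ u = lam ⟨π u, hπN u⟩ := fun _ => rfl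
  have hθN : ∀ n : N, θ ⟨n, hNU n.2⟩ = lam n := fun n => by
    rw [hθ]; congr 1; exact Subtype.ext (hπid n n.2)
  set tc : U → ℂ := fun u => (θ u : ℂ) with htc
  have hzU : z ∉ U := by
    intro h
    apply hlam
    ext n
    have h1 := hUm.1 h n
    have h2 : (⟨z * n * z⁻¹, hN.conj_mem _ n.2 z⟩ : N) = n⁻¹ := Subtype.ext (hinv n n.2)
    rw [h2, map_inv, inv_eq_iff_mul_eq_one, ← pow_two] at h1
    have h3 : lam n ^ q = 1 := by
      rw [← map_pow, show n ^ q = 1 from Subtype.ext (hNel.2 n n.2), map_one]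
    obtain ⟨k, hk⟩ := hqodd
    rw [hk, pow_succ, pow_mul, h1, one_pow, one_mul] at h3
    simp [h3]
  have heven : 2 ∣ U.index := by
    have h1 : U.index ∣ N.index := Subgroup.index_dvd_of_le hNU
    obtain ⟨k, hk⟩ := hP.exists_card_eq
    have h2 : N.index = Nat.card P := by
      have hc : N.IsComplement' P := Subgroup.isComplement'_of_disjoint_and_mul_eq_univ
        (disjoint_iff.2 hdisj) (by rw [← Subgroup.normal_mul, hprod]; rfl)
      exact hc.symm.index_eq_card
    rw [h2, hk] at h1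
    obtain ⟨j, -, hj⟩ := (Nat.dvd_prime_pow Nat.prime_two).1 h1
    rw [hj]
    refine dvd_pow_self 2 fun h0 => hzU ?_
    rw [h0, pow_zero, Subgroup.index_eq_one] at hj
    rw [hj]; trivial
  -- twisted characters
  have hover : ∀ mu : G →* ℂˣ, mu * mu = 1 → ∀ n : N, mu n = 1 := by
    intro mu hmu n
    have h1 : mu n ^ 2 = 1 := by rw [pow_two]; exact DFunLike.congr_fun hmu (n : G)
    have h3 : mu n ^ q = 1 := by rw [← map_pow, hNel.2 n n.2, map_one]
    obtain ⟨k, hk⟩ := hqodd
    rwa [hk, pow_succ, pow_mul, h1, one_pow, one_mul] at h3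
  let θm : (G →* ℂˣ) → U → ℂ := fun mu u => ((θ * mu.comp U.subtype) u : ℂ)
  have hθmI : ∀ mu, IsIrrCharacter U (θm mu) := fun mu => isIrrCharacter_monoidHom _
  have hθmN : ∀ mu : G →* ℂˣ, mu * mu = 1 →
      classInner (fun n : N => θm mu ⟨n, hNU n.2⟩) lc ≠ 0 := by
    intro mu hmu
    have : (fun n : N => θm mu ⟨n, hNU n.2⟩) = lc := by
      ext n
      simp [θm, hθN, hover mu hmu n, hlc]
    rw [this, (isIrrCharacter_iff.1 hlcI).2]; exact one_ne_zero
  have hirr : ∀ mu : G →* ℂˣ, mu * mu = 1 → IsIrrCharacter G (indFun U (θm mu)) :=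
    fun mu hmu => clifford_corr_isIrr N U hNU hlcI le_rfl (hθmI mu) (hθmN mu hmu)
  have hdeg : ∀ mu : G →* ℂˣ, charDegree (indFun U (θm mu)) = U.index := fun mu =>
    H24.deg_eq (by rw [indFun_one]; simp [θm])
  have hmulr : ∀ mu : G →* ℂˣ, indFun U (θm mu) = indFun U tc * fun g => (mu g : ℂ) := by
    intro mu
    rw [← indFun_mul_res U tc (isClassFunction_of_irr (isIrrCharacter_monoidHom mu))]
    congr 1
  -- Frobenius–Schur indicator
  have hsumsq : ∑ g : G, extendByZero U tc (g * g) = Nat.card U := by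
    set I : G → Prop := fun g => ∀ n : N, lam n * lam ⟨g * n * g⁻¹, hN.conj_mem _ n.2 g⟩ = 1 with hI
    have h1 : ∀ g, ∑ n : N, extendByZero U tc (n * g * (n * g)) =
        if I g then (Nat.card N : ℂ) else 0 := by
      intro g
      have hsq : ∀ n : N, (n : G) * g * (n * g) = (n * (g * n * g⁻¹)) * (g * g) := fun n => by group
      have hmem : ∀ n : N, (n : G) * (g * n * g⁻¹) ∈ N := fun n =>
        N.mul_mem n.2 (hN.conj_mem _ n.2 g)
      by_cases hg : g * g ∈ U
      · have h2 : ∀ n : N, extendByZero U tc (n * g * (n * g)) =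
            ((lam * lam.comp (MulAut.conjNormal g).toMonoidHom) n : ℂ) * tc ⟨g * g, hg⟩ := by
          intro n
          rw [hsq, extendByZero_of_mem U tc (U.mul_mem (hNU (hmem n)) hg)]
          have : (⟨_, U.mul_mem (hNU (hmem n)) hg⟩ : U) =
            ⟨(⟨_, hmem n⟩ : N), hNU (hmem n)⟩ * ⟨g * g, hg⟩ := rfl
          rw [this]
          simp only [htc, map_mul, Units.val_mul]
          congr 2
          rw [hθN ⟨_, hmem n⟩, MonoidHom.mul_apply, MonoidHom.comp_apply, ← map_mul]
          rfl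
        simp only [h2, ← Finset.sum_mul]
        split_ifs with hIg
        · have h3 : tc ⟨g * g, hg⟩ = 1 := by
            have h4 := hIg ⟨π g, hπN g⟩
            rw [← map_mul] at h4
            simp only [htc, hθ]
            rw [← Units.val_one, ← h4]
            congr 2
            exact Subtype.ext (hπ g g)
          rw [h3, mul_one, Finset.sum_congr rfl (g := fun _ => (1 : ℂ))]
          · simp
          · intro n _
            rw [← Units.val_one, ← hIg n]; rfl
        · rw [sum_hom_eq_zero, zero_mul]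
          intro h; apply hIg; intro n
          exact DFunLike.congr_fun h n
      · rw [if_neg, Finset.sum_eq_zero]
        · intro n _
          rw [extendByZero_of_not_mem]
          rw [hsq]
          exact fun h => hg ((U.mul_mem_cancel_left (hNU (hmem n))).1 h)
        · intro hIg
          apply hg
          rw [hUm]
          intro n
          have h2 := hIg n
          have h3 := hIg ⟨g * n * g⁻¹, hN.conj_mem _ n.2 g⟩
          have h4 : (⟨g * g * n * (g * g)⁻¹, hN.conj_mem _ n.2 _⟩ : N) =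
            ⟨g * (g * n * g⁻¹) * g⁻¹, hN.conj_mem _ (hN.conj_mem _ n.2 g) g⟩ :=
              Subtype.ext (by simp only; group)
          rw [h4]
          exact mul_left_cancel (h3.trans ((mul_comm _ _).trans h2).symm)
    have h2 : ∀ g, I g ↔ z * g ∈ U := by
      intro g
      rw [hUm]
      refine forall_congr' fun n => ?_
      have h4 : (⟨z * g * n * (z * g)⁻¹, hN.conj_mem _ n.2 _⟩ : N) =
          (⟨g * n * g⁻¹, hN.conj_mem _ n.2 g⟩ : N)⁻¹ := by
        apply Subtype.ext
        have := hinv _ (hN.conj_mem _ n.2 g)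
        simp only [Subgroup.coe_inv]
        rw [← this]; group
      rw [h4, map_inv, inv_eq_iff_mul_eq_one, mul_comm]
    have h3 : (Nat.card N : ℂ) * ∑ g : G, extendByZero U tc (g * g) =
        ∑ g : G, ∑ n : N, extendByZero U tc (n * g * (n * g)) := by
      have h4 : ∀ n : N, ∑ g : G, extendByZero U tc (n * g * (n * g)) =
          ∑ g : G, extendByZero U tc (g * g) := fun n =>
        Fintype.sum_equiv (Equiv.mulLeft (n : G)) _ _ (fun _ => rfl)
      rw [Finset.sum_comm]
      simp [h4]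
    simp only [h1, h2] at h3
    have h5 : ∑ g : G, (if z * g ∈ U then (Nat.card N : ℂ) else 0) =
        ∑ g : G, (if g ∈ U then (Nat.card N : ℂ) else 0) :=
      Fintype.sum_equiv (Equiv.mulLeft z) _ _ (fun _ => rfl)
    rw [h5, ← Finset.sum_filter, Finset.sum_const, nsmul_eq_mul, mul_comm] at h3
    rw [mul_right_cancel₀ (card_ne_zero N) h3, Nat.card_eq_fintype_card, Fintype.card_subtype]
  have hFS : ∀ mu : G →* ℂˣ, mu * mu = 1 →
      (Nat.card G : ℂ)⁻¹ * ∑ᶠ g : G, indFun U (θm mu) (g * g) = 1 := by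
    intro mu hmu
    rw [finsum_eq_sum_of_fintype, hmulr]
    have h1 : ∀ g, ((mu (g * g) : ℂˣ) : ℂ) = 1 := fun g => by
      rw [map_mul, show mu g * mu g = 1 from DFunLike.congr_fun hmu g, Units.val_one]
    simp only [Pi.mul_apply, h1, mul_one, indFun_apply, ← Finset.mul_sum]
    rw [Finset.sum_comm]
    have h2 : ∀ x : G, ∑ g : G, extendByZero U tc (x⁻¹ * (g * g) * x) = Nat.card U := by
      intro x
      rw [← hsumsq]
      refine Fintype.sum_equiv (MulAut.conj x⁻¹).toEquiv _ _ fun g => ?_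
      congr 1
      simp only [MulEquiv.toEquiv_eq_coe, EquivLike.coe_coe, MulAut.conj_apply, inv_inv]
      group
    simp only [h2, Finset.sum_const, Finset.card_univ, nsmul_eq_mul, ← Nat.card_eq_fintype_card]
    have := card_ne_zero G
    have := card_ne_zero U
    field_simp
  -- counting
  set S := {χ : Cfsg.IrrCharacter G // (Cfsg.charDegree (χ : G → ℂ) = 1 ∨ 2 ∣ Cfsg.charDegree (χ : G → ℂ)) ∧ (Nat.card G : ℂ)⁻¹ * ∑ᶠ g : G, (χ : G → ℂ) (g * g) = 1} with hS
  letI : Fintype S := Fintype.ofFinite S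
  haveI := finite_monoidHom_units (G := G)
  let A := {mu : G →* ℂˣ // mu * mu = 1}
  letI : Fintype A := Fintype.ofFinite A
  let Φ : A → S := fun mu => ⟨⟨_, hirr mu.1 mu.2⟩, Or.inr (by rw [hdeg]; exact heven), hFS mu.1 mu.2⟩
  have hfib : Fintype.card A ≤ U.index * (Finset.univ.image Φ).card := by
    refine Finset.card_le_mul_card_image _ _ fun b hb => ?_
    obtain ⟨mu0, -, rfl⟩ := Finset.mem_image.1 hb
    refine le_trans ?_ (card_hom_le U)
    rw [← Fintype.card_coe, ← Nat.card_eq_fintype_card]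
    refine Nat.card_le_card_of_injective (fun mu => ⟨mu.1.1 * mu0.1, ?_⟩) ?_
    · have h1 : indFun U (θm mu.1.1) = indFun U (θm mu0.1) :=
        congrArg (fun t : S => (t.1.1 : G → ℂ)) (Finset.mem_filter.1 mu.2).2
      have h2 := clifford_corr_injective N U hNU hlcI le_rfl (hθmI _) (hθmI _)
        (hθmN _ mu.1.2) (hθmN _ mu0.2) h1
      intro u hu
      have h3 := Units.val_inj.1 (congrFun h2 ⟨u, hu⟩)
      simp only [MonoidHom.mul_apply, MonoidHom.comp_apply, Subgroup.coe_subtype,
        mul_right_inj] at h3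
      rw [MonoidHom.mem_ker, MonoidHom.mul_apply, h3]
      exact DFunLike.congr_fun mu0.2 u
    · intro a b h
      apply Subtype.ext; apply Subtype.ext
      ext g
      have := DFunLike.congr_fun (congrArg Subtype.val h) g
      simp only [MonoidHom.mul_apply, mul_left_inj] at this
      rw [this]
  set S1 : Finset S := Finset.univ.filter fun χ => charDegree (χ.1 : G → ℂ) = 1 with hS1
  have hS1c : S1.card ≤ Fintype.card A := by
    have hex : ∀ χ : S1, ∃ mu : A, (χ.1.1 : G → ℂ) = fun g => (mu.1 g : ℂ) := by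
      intro χ
      have h1 := (H24.deg_eq_one_iff (irr_isCharacter χ.1.1)).1 (Finset.mem_filter.1 χ.2).2
      obtain ⟨mu, hmu⟩ := exists_monoidHom_of_apply_one_eq_one (irr_isCharacter χ.1.1) h1
      refine ⟨⟨mu, ?_⟩, hmu⟩
      by_contra hne
      have h2 := χ.1.2.2
      have h3 := sum_hom_eq_zero _ hne
      rw [finsum_eq_sum_of_fintype, hmu] at h2
      simp only [map_mul] at h2
      simp only [MonoidHom.mul_apply] at h3
      rw [h3] at h2
      simp at h2
    choose f hf using hex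
    rw [← Fintype.card_coe]
    refine Fintype.card_le_of_injective f fun a b h => ?_
    apply Subtype.ext; apply Subtype.ext; apply Subtype.ext
    rw [hf, hf, h]
  suffices hfin : 4 * Fintype.card S ≤ 3 * ∑ χ : S, charDegree (χ.1 : G → ℂ) by
    rw [← finsum_eq_sum_of_fintype, ← Nat.card_eq_fintype_card] at hfin
    exact hfin
  set J := Finset.univ.image Φ with hJ
  have hidx : 2 ≤ U.index := Nat.le_of_dvd (Nat.pos_of_ne_zero Subgroup.index_ne_zero_of_finite) heven
  have hpt : ∀ χ : S, 4 + (if χ ∈ J then U.index else 0) ≤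
      3 * charDegree (χ.1 : G → ℂ) + (if χ ∈ S1 then 1 else 0) := by
    intro χ
    by_cases h1 : χ ∈ J
    · obtain ⟨mu, -, rfl⟩ := Finset.mem_image.1 h1
      rw [if_pos h1]
      have : charDegree ((Φ mu).1 : G → ℂ) = U.index := hdeg _
      rw [this]; omega
    · rw [if_neg h1]
      by_cases h2 : χ ∈ S1
      · rw [if_pos h2, (Finset.mem_filter.1 h2).2]
      · rw [if_neg h2]
        rcases χ.2.1 with h3 | h3
        · exact absurd (by rw [hS1]; exact Finset.mem_filter.2 ⟨Finset.mem_univ _, h3⟩) h2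
        · have := Nat.le_of_dvd (H24.deg_pos χ.1.2) h3
          omega
  have hsum := Finset.sum_le_sum (s := Finset.univ) fun χ _ => hpt χ
  simp only [Finset.sum_add_distrib, Finset.sum_const, Finset.card_univ, smul_eq_mul,
    Finset.sum_ite_mem, Finset.univ_inter, ← Finset.mul_sum, mul_one] at hsum
  rw [mul_comm J.card] at hsum
  omega

end Cfsg.Agent.S4871
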