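import Cfsg.Statements.S4872
import Cfsg.Agent.H23.FSEven

set_option autoImplicit false
open Cfsg

namespace Cfsg.Agent.S4872

open Subgroup H23

/-- Let N be a normal subgroup of the finite group G with G/N a 2-group, and let φ be an irreducible complex character of N of 2-defect zero (the 2-part of #N divides φ(1)) whose complex conjugate is G-conjugate to φ. Then some irreducible character of G with Frobenius–Schur indicator +1 contains φ with multiplicity exactly one on restriction to N. -/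
theorem result {G : Type*} [Group G] [Finite G] (N : Subgroup G) [N.Normal] (h2 : IsPGroup 2 (G ⧸ N)) (φ : Cfsg.IrrCharacter ↥N) (hdef : 2 ^ (Nat.card ↥N).factorization 2 ∣ Cfsg.charDegree (φ : ↥N → ℂ)) (hconj : ∃ g : G, ∀ n n' : ↥N, (n' : G) = g * (n : G) * g⁻¹ → (φ : ↥N → ℂ) n' = (starRingEnd ℂ) ((φ : ↥N → ℂ) n)) : ∃ χ : Cfsg.IrrCharacter G, (Nat.card G : ℂ)⁻¹ * ∑ᶠ g : G, (χ : G → ℂ) (g * g) = 1 ∧ (Nat.card ↥N : ℂ)⁻¹ * ∑ᶠ n : ↥N, (χ : G → ℂ) n * (starRingEnd ℂ) ((φ : ↥N → ℂ) n) = 1 := by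
  classical
  haveI := Fintype.ofFinite G
  haveI := Fintype.ofFinite N
  haveI : Fact (Nat.Prime 2) := ⟨Nat.prime_two⟩
  obtain ⟨S⟩ : Nonempty (Sylow 2 G) := inferInstance
  obtain ⟨g, hg⟩ := hconj
  have hsup : N ⊔ (S : Subgroup G) = ⊤ := by
    obtain ⟨k, hk⟩ := h2.exists_card_eq
    have h1 : (N ⊔ (S : Subgroup G)).index ∣ 2 ^ k := hk ▸ index_dvd_of_le le_sup_left
    have h2 : (N ⊔ (S : Subgroup G)).index ∣ S.index := index_dvd_of_le le_sup_right
    rw [← index_eq_one]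
    exact Nat.eq_one_of_dvd_coprimes
      (Nat.Coprime.pow_left k ((Nat.Prime.coprime_iff_not_dvd Nat.prime_two).2 S.not_dvd_index))
      h1 h2
  have hs : cj N ⟨g⁻¹, le_normalizer' (mem_top g⁻¹)⟩ φ = bar φ := by
    rw [cj_eq_iff]
    intro a b e
    rw [bar_apply, hg b a (by simp [e, mul_assoc])]
  haveI := Fintype.ofFinite (N ⊓ S : Subgroup G)
  have h3 := H11.card_mul_classInner (fun c : (N ⊓ S : Subgroup G) => φ.1 ⟨c, c.2.1⟩) (oneIrr _).1
  rw [mult_spec inf_le_left, Finset.sum_eq_single 1 (fun c _ hc => by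
    rw [vanish_of_defect_zero' Nat.prime_two hdef, zero_mul]
    obtain ⟨k, hk⟩ := IsPGroup.iff_orderOf.1 S.isPGroup' ⟨c, c.2.2⟩
    have e1 : orderOf (⟨c, c.2.1⟩ : N) = 2 ^ k := by
      rw [← hk, ← orderOf_coe, ← orderOf_coe (⟨c, c.2.2⟩ : S)]
    rw [e1]
    refine dvd_pow_self _ fun h0 => hc ?_
    rw [h0, pow_zero, orderOf_eq_one_iff] at e1
    exact Subtype.ext (congrArg (fun x : N => (x : G)) e1)) (by simp)] at h3
  have h4 : Nat.card (N ⊓ S : Subgroup G) * mult (inf_le_left : N ⊓ S ≤ N) φ (oneIrr _) =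
      charDegree φ.1 := by
    have : φ.1 ⟨(1 : (N ⊓ S : Subgroup G)), (1 : (N ⊓ S : Subgroup G)).2.1⟩ = charDegree φ.1 :=
      H24.irr_deg φ.2
    rw [this] at h3
    simp only [oneIrr, map_one, mul_one] at h3
    exact_mod_cast h3
  have hodd : Odd (mult (inf_le_left : N ⊓ S ≤ N) φ (oneIrr _)) := by
    have h5 : charDegree φ.1 ∣ Nat.card N := H24.deg_dvd_card φ.2
    rw [← h4, ← H3.card_mul_relIndex (inf_le_left : N ⊓ S ≤ N)] at h5
    refine Odd.of_dvd_nat ?_ (Nat.dvd_of_mul_dvd_mul_left Nat.card_pos h5)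
    rw [inf_relIndex_left, ← Nat.not_even_iff_odd, even_iff_two_dvd]
    exact fun h => S.not_dvd_index (h.trans (H23.relIndex_dvd_index_of_normal _ N))
  obtain ⟨χ, hr, h6, h7⟩ := exists_real_odd hsup hs hodd
  refine ⟨χ, ?_, ?_⟩
  · rw [← H19.fs_eq_finsum]
    exact (H19.fs_of_real χ.2 hr).resolve_right fun h =>
      Nat.not_even_iff_odd.2 h7 (even_mult_of_fs_neg h _)
  · rw [finsum_eq_sum_of_fintype]
    change classInner (fun n : N => χ.1 n) φ.1 = 1
    rw [mult_topIrr]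
    have h8 : mult le_top (topIrr χ) φ ≠ 0 := fun h => by simp [h] at h6
    obtain ⟨e, he, h9⟩ := exists_deg_eq_mul_dvd le_top le_normalizer' h8
    rw [deg_eq_clifford le_top le_normalizer' h8] at h9
    have h10 := Nat.eq_of_mul_eq_mul_right (H24.deg_pos φ.2) h9
    obtain ⟨k, hk⟩ := h2.exists_card_eq
    rw [relIndex_top_right, index, hk, ← h10] at he
    rw [Nat.eq_one_of_dvd_coprimes (Nat.Coprime.pow_left k (Nat.coprime_two_left.2 h6))
      ((dvd_mul_right _ _).trans he) dvd_rfl, Nat.cast_one]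

end Cfsg.Agent.S4872
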