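import Cfsg.Statements.S4873
import Cfsg.Agent.H19.FS

set_option autoImplicit false
open Cfsg

namespace Cfsg.Agent.S4873


/-- Let N be a normal subgroup of odd index in the finite group G. Then every irreducible complex character of N with Frobenius–Schur indicator +1 lies under exactly one irreducible character of G with Frobenius–Schur indicator +1. -/
theorem result {G : Type*} [Group G] [Finite G] (N : Subgroup G) [N.Normal] (hodd : Odd N.index) (φ : Cfsg.IrrCharacter ↥N) (hφ : (Nat.card ↥N : ℂ)⁻¹ * ∑ᶠ g : ↥N, (φ : ↥N → ℂ) (g * g) = 1) : ∃! χ : Cfsg.IrrCharacter G, (Nat.card G : ℂ)⁻¹ * ∑ᶠ g : G, (χ : G → ℂ) (g * g) = 1 ∧ (∑ᶠ n : ↥N, (χ : G → ℂ) n * (starRingEnd ℂ) ((φ : ↥N → ℂ) n)) ≠ 0 := by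
  letI := Fintype.ofFinite G
  letI := Fintype.ofFinite N
  rw [← H19.fs_eq_finsum] at hφ
  have hreal := H19.real_of_fs_ne_zero φ.2 (by rw [hφ]; exact one_ne_zero)
  have hin : ∀ χ : Cfsg.IrrCharacter G,
      (∑ᶠ n : ↥N, (χ : G → ℂ) n * (starRingEnd ℂ) ((φ : ↥N → ℂ) n)) ≠ 0 ↔
        Cfsg.classInner (fun n : N => χ.1 n) φ.1 ≠ 0 := by
    intro χ
    rw [finsum_eq_sum_of_fintype, ← H11.card_mul_classInner (fun n : N => χ.1 n) φ.1]
    simp [H11.card_ne_zero N]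
  obtain ⟨χ, ⟨h1, h2⟩, huniq⟩ := H19.existsUnique_real_over N hodd φ.2 hreal
  refine ⟨χ, ⟨?_, (hin χ).mpr h1⟩, fun ψ hψ => huniq ψ ⟨(hin ψ).mp hψ.2, ?_⟩⟩
  · rw [← H19.fs_eq_finsum, (H19.fs_eq_of_real_over N hodd φ.2 hreal χ.2 h1 h2).1, hφ]
  · exact H19.real_of_fs_ne_zero ψ.2 (by rw [H19.fs_eq_finsum, hψ.1]; exact one_ne_zero)

end Cfsg.Agent.S4873
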