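import Cfsg.Statements.S4885
import Cfsg.Agent.H22.NavarroWolf

set_option autoImplicit false
open Cfsg

namespace Cfsg.Agent.S4885


/-- Let p and q be primes dividing the order of the finite group G, and suppose G is p-solvable and q-solvable. Fix maximal ideals of the algebraic integers containing p and q, defining the principal p-block and the principal q-block. If the irreducible characters of degree prime to p in the principal p-block are exactly the irreducible characters of degree prime to q in the principal q-block, then p = q. -/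
theorem result {G : Type*} [Group G] [Finite G] (p q : ℕ) [Fact p.Prime] [Fact q.Prime] (hp : p ∣ Nat.card G) (hq : q ∣ Nat.card G) (hps : Cfsg.IsPSolvable p G) (hqs : Cfsg.IsPSolvable q G) (Mp Mq : Ideal Cfsg.AlgInt) (hMp : Cfsg.IsPModular p Mp) (hMq : Cfsg.IsPModular q Mq) (h : ∀ χ : Cfsg.IrrCharacter G, (χ ∈ Cfsg.principalBlock Mp G ∧ ¬ p ∣ Cfsg.charDegree (χ : G → ℂ)) ↔ (χ ∈ Cfsg.principalBlock Mq G ∧ ¬ q ∣ Cfsg.charDegree (χ : G → ℂ))) : p = q := by
  by_contra hpq
  have h1 := H22.not_dvd_index_of_principal (Ne.symm hpq) hqs hps hMq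
    fun χ hχ hd => ((h χ).2 ⟨hχ, hd⟩).2
  obtain ⟨P⟩ : Nonempty (Sylow p G) := inferInstance
  have hPi : ¬ p ∣ (P : Subgroup G).index := P.not_dvd_index
  have hPL : (P : Subgroup G) ≤ pPrimeCore q G := by
    obtain ⟨S, hS⟩ := H8.exists_isSylowIn p (pPrimeCore q G)
    have hS' := hS.trans_of_not_dvd le_top (by rwa [Subgroup.relIndex_top_right])
    obtain ⟨g, -, hg⟩ := hS'.exists_conj_eq (H8.isSylowIn_top P)
    rw [← hg]
    intro x hx
    have := Subgroup.Normal.conj_mem inferInstance _ (hS.le (H8.mem_conj_smul.1 hx)) g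
    rwa [show g * (g⁻¹ * x * g) * g⁻¹ = x by group] at this
  have hP : (⊥ : Subgroup (P : Subgroup G)) ≠ ⊤ := by
    intro hb
    have h2 : Nat.card (P : Subgroup G) = 1 := by
      rw [← Subgroup.card_top, ← hb, Subgroup.card_bot]
    rw [← (P : Subgroup G).card_mul_index, h2, one_mul] at hp
    exact hPi hp
  obtain ⟨μ, -, hμ⟩ := H22.exists_linear_of_ne_top P.isPGroup' hP
  haveI := Fintype.ofFinite G
  haveI := Fintype.ofFinite (P : Subgroup G)
  -- pass to the quotient by `O_{p'}(G)`
  let K := pPrimeCore p G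
  have hf := QuotientGroup.mk'_surjective K
  have hinj : Function.Injective (((QuotientGroup.mk' K).comp (P : Subgroup G).subtype)) := by
    rw [injective_iff_map_eq_one]
    intro x hx
    have h2 : (x : G) ∈ (P : Subgroup G) ⊓ K := ⟨x.2, (QuotientGroup.eq_one_iff _).1 hx⟩
    rw [H3.inf_eq_bot_of_isPGroup_of_coprime P.isPGroup' (H3.pPrimeCore_coprime p G)] at h2
    exact Subtype.ext h2
  let e := MonoidHom.ofInjective hinj
  let R := ((QuotientGroup.mk' K).comp (P : Subgroup G).subtype).range
  haveI := Fintype.ofFinite R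
  have hR : ¬ p ∣ R.index := by
    have : R = (P : Subgroup G).map (QuotientGroup.mk' K) := by
      simp only [R, MonoidHom.range_comp, Subgroup.range_subtype]
    rw [this]
    exact fun hd => hPi (hd.trans (Subgroup.index_map_dvd _ hf))
  obtain ⟨χ, hχ, hd, ho⟩ := H24.exists_over_not_dvd (Fact.out : p.Prime) R hR
    (H11.isIrrCharacter_monoidHom (μ.comp e.symm.toMonoidHom))
    (by rw [H24.deg_monoidHom]; exact (Fact.out : p.Prime).not_dvd_one)
  have h2 := (h (H22.infl hf ⟨χ, hχ⟩)).1 ⟨(H22.mem_principal_iff_of_isPSolvable hMp hps).2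
    fun n hn => H22.infl_apply_of_mem_ker hf _ (by rwa [QuotientGroup.ker_mk']),
    by rwa [H22.charDegree_infl]⟩
  have h3 := (H22.mem_principal_iff_of_isPSolvable hMq hqs).1 h2.1
  have h4 : (fun x : R => χ x) = χ 1 • fun _ => (1 : ℂ) := by
    funext ⟨_, x, rfl⟩
    simpa [H22.infl_apply] using h3 x (hPL x.2)
  rw [h4, H11.classInner_smul_left] at ho
  have h5 := H11.irr_eq_of_classInner_ne_zero H11.isIrrCharacter_one
    (H11.isIrrCharacter_monoidHom (μ.comp e.symm.toMonoidHom)) (right_ne_zero_of_mul ho)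
  refine hμ (MonoidHom.ext fun x => Units.ext ?_)
  simpa using (congrFun h5 (e x)).symm

end Cfsg.Agent.S4885
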