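import Cfsg.Statements.S4886
import Cfsg.Agent.H22.NavarroWolf
import Cfsg.Agent.H22.Dade

set_option autoImplicit false
open Cfsg

namespace Cfsg.Agent.S4886


theorem aux {G : Type*} [Group G] [Finite G] {p q : ℕ} [Fact p.Prime] [Fact q.Prime] (hpq : p ≠ q)
    {M : Ideal AlgInt} (hM : IsPModular p M) (hps : IsPSolvable p G) (P : Sylow p G) (Q : Sylow q G)
    (h : ∀ x ∈ (P : Subgroup G), ∀ y ∈ (Q : Subgroup G), x * y = y * x) (χ : IrrCharacter G)
    (hχ : χ ∈ principalBlock M G) : ¬ q ∣ charDegree χ.1 := by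
  have h1 := H24.not_dvd_index_pPrimeCore_of_le_normalizer hpq hps P Q fun x hx =>
    H18.Cz_le_Nz _ (Subgroup.mem_centralizer_iff.2 fun y hy => (h x hx y hy).symm)
  obtain ⟨ψ, rfl⟩ := H22.exists_infl_eq (QuotientGroup.mk'_surjective (pPrimeCore p G)) (χ := χ)
    (fun n hn => (H22.mem_principal_iff_of_isPSolvable hM hps).1 hχ n
      (by rwa [QuotientGroup.ker_mk'] at hn))
  rw [H22.charDegree_infl]
  exact fun hd => h1 (hd.trans (H24.deg_dvd_card ψ.2))

/-- Let p ≠ q be primes and G a finite group that is p-solvable and q-solvable. Fix maximal ideals of the algebraic integers containing p and q, defining the principal p-block and the principal q-block. Then every irreducible character of degree prime to p in the principal p-block has degree prime to q and every irreducible character of degree prime to q in the principal q-block has degree prime to p, if and only if some Sylow p-subgroup of G commutes elementwise with some Sylow q-subgroup. -/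
theorem result {G : Type*} [Group G] [Finite G] (p q : ℕ) [Fact p.Prime] [Fact q.Prime] (hpq : p ≠ q) (Mp Mq : Ideal Cfsg.AlgInt) (hMp : Cfsg.IsPModular p Mp) (hMq : Cfsg.IsPModular q Mq) (hps : Cfsg.IsPSolvable p G) (hqs : Cfsg.IsPSolvable q G) : ((∀ χ : Cfsg.IrrCharacter G, χ ∈ Cfsg.principalBlock Mp G → ¬ p ∣ Cfsg.charDegree (χ : G → ℂ) → ¬ q ∣ Cfsg.charDegree (χ : G → ℂ)) ∧ (∀ χ : Cfsg.IrrCharacter G, χ ∈ Cfsg.principalBlock Mq G → ¬ q ∣ Cfsg.charDegree (χ : G → ℂ) → ¬ p ∣ Cfsg.charDegree (χ : G → ℂ))) ↔ ∃ (P : Sylow p G) (Q : Sylow q G), ∀ x ∈ (P : Subgroup G), ∀ y ∈ (Q : Subgroup G), x * y = y * x := by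
  refine ⟨fun ⟨h1, h2⟩ => ?_, fun ⟨P, Q, h⟩ => ⟨fun χ hχ _ => aux hpq hMp hps P Q h χ hχ,
    fun χ hχ _ => aux hpq.symm hMq hqs Q P (fun x hx y hy => (h y hy x hx).symm) χ hχ⟩⟩
  have h3 := H22.not_dvd_index_of_principal hpq hps hqs hMp h1
  have h4 := H22.not_dvd_index_of_principal hpq.symm hqs hps hMq h2
  obtain ⟨P, Q, hPQ⟩ := H24.exists_sylow_le_normalizer_of_not_dvd_index (pPrimeCore p G)
    (H3.pPrimeCore_coprime p G) h3
  have hP := H22.sylow_le_of_not_dvd_index h4 P.isPGroup'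
  refine ⟨P, Q, fun x hx y hy => ?_⟩
  have h5 : x * y * x⁻¹ * y⁻¹ ∈ (Q : Subgroup G) ⊓ pPrimeCore q G := by
    refine ⟨Subgroup.mul_mem _ (H4.conj_mem_of_mem_normalizer (hPQ hx) hy) (Subgroup.inv_mem _ hy),
      ?_⟩
    have := Subgroup.mul_mem _ (hP hx)
      (Subgroup.Normal.conj_mem inferInstance _ (Subgroup.inv_mem _ (hP hx)) y)
    rwa [← mul_assoc, ← mul_assoc] at this
  rw [H3.inf_eq_bot_of_isPGroup_of_coprime Q.isPGroup' (H3.pPrimeCore_coprime q G),
    Subgroup.mem_bot, mul_inv_eq_one, mul_inv_eq_iff_eq_mul] at h5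
  exact h5

end Cfsg.Agent.S4886
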