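import Cfsg.Statements.S4889
import Cfsg.Agent.H18.RankOneAlg
import Cfsg.Agent.H18.NilBlock

set_option autoImplicit false
open Cfsg

namespace Cfsg.Agent.S4889

open Cfsg.Agent.H18 Cfsg.Agent.H19 MonoidAlgebra

/-- Let G be a finite group, p a prime, M a maximal ideal of the algebraic integers containing p, and B a p-block of G that has an abelian defect group and in which every irreducible character has height zero. Then all irreducible characters of B have the same degree if and only if B is a nilpotent block. -/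
theorem result {G : Type*} [Group G] [Finite G] (p : ℕ) [Fact p.Prime] (M : Ideal Cfsg.AlgInt) (hM : Cfsg.IsPModular p M) (B : Set (Cfsg.IrrCharacter G)) (hB : Cfsg.IsPBlock M B) (D : Subgroup G) (hD : Cfsg.IsDefectGroup p M B D) (hDab : IsMulCommutative ↥D) (h0 : ∀ χ : Cfsg.IrrCharacter G, χ ∈ B → Cfsg.blockHeight p B (χ : G → ℂ) = 0) : (∃ d : ℕ, ∀ χ : Cfsg.IrrCharacter G, χ ∈ B → Cfsg.charDegree (χ : G → ℂ) = d) ↔ Cfsg.IsNilpotentBlock p M B := by
  have := charP_kk hM
  have hab : ∀ a b : D, a * b = b * a := fun a b => mul_comm' a b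
  have hab' : D ≤ Cz D := fun a ha => mem_Cz.2 fun b hb =>
    congrArg Subtype.val (hab ⟨b, hb⟩ ⟨a, ha⟩)
  rw [isNilpotentBlock_iff hM, and_iff_right hB]
  refine ⟨fun ⟨n, hn⟩ => isNil_of_deg_eq hM hB hn hD hab', fun hnil => ?_⟩
  have := Fintype.ofFinite G
  have hb := isPrim_gid hM.2.1 hB
  obtain ⟨e, hm⟩ := exists_isMaxPair_of_isDefect hb ((isDefectGroup_iff_gid hM hB).1 hD)
  obtain ⟨χ, hχ⟩ := H17.block_nonempty hM.2.1 hB
  obtain ⟨Φ, hΦ⟩ := hnil.exists_equiv hM hB hm hχ (h0 χ hχ)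
  refine ⟨charDegree χ.1, fun ψ hψ => H21.charDegree_eq ?_⟩
  obtain ⟨η, hη⟩ := Φ.surjective ⟨ψ, hψ⟩
  have h1 := hΦ η
  rw [hη] at h1
  rw [H21.cast_deg, show ψ.1 = _ from h1, bstar_apply_one hM hB hm
    (hnil.isStable hb hm (H17.irr_isClassFunction η)) hχ, H11.irr_apply_one_of_comm hab η.2, one_mul]

end Cfsg.Agent.S4889
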