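import Cfsg.Statements.S4890
import Cfsg.Agent.H18.NormalDef

set_option autoImplicit false
open Cfsg

namespace Cfsg.Agent.S4890

open Cfsg.Agent.H18 Cfsg.Agent.H19 MonoidAlgebra

/-- Let G be a finite group, p a prime, M a maximal ideal of the algebraic integers containing p, and B a p-block of G with a defect group that is normal in G. Then all height-zero irreducible characters of B have the same degree if and only if B is a nilpotent block. -/
theorem result {G : Type*} [Group G] [Finite G] (p : ℕ) [Fact p.Prime] (M : Ideal Cfsg.AlgInt) (hM : Cfsg.IsPModular p M) (B : Set (Cfsg.IrrCharacter G)) (hB : Cfsg.IsPBlock M B) (D : Subgroup G) (hD : Cfsg.IsDefectGroup p M B D) (hDn : D.Normal) : (∃ d : ℕ, ∀ χ : Cfsg.IrrCharacter G, χ ∈ B → Cfsg.blockHeight p B (χ : G → ℂ) = 0 → Cfsg.charDegree (χ : G → ℂ) = d) ↔ Cfsg.IsNilpotentBlock p M B := by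
  have := charP_kk hM
  rw [isNilpotentBlock_iff hM, and_iff_right hB]
  have := Fintype.ofFinite G
  have hb := isPrim_gid hM.2.1 hB
  obtain ⟨e, hm⟩ := exists_isMaxPair_of_isDefect hb ((isDefectGroup_iff_gid hM hB).1 hD)
  have hP := hm.pairOf.pair
  have hN' : ∀ x : G, x ∈ Nz D := fun x => by rw [Nz, Subgroup.normalizer_eq_top]; trivial
  refine ⟨fun ⟨n, hn⟩ => ?_, fun hnil => ?_⟩
  · have hn' : (⁅D, D⁆ : Subgroup G).Normal := inferInstance
    have hf : Function.Surjective (QuotientGroup.mk' ⁅D, D⁆) := QuotientGroup.mk'_surjective _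
    have hk : (QuotientGroup.mk' ⁅D, D⁆).ker = ⁅D, D⁆ := QuotientGroup.ker_mk' _
    obtain ⟨b, c, hb', hsub, hm', hNP⟩ := exists_dominated_maxPair hM hB hm hf hk
    have hbp := isPrim_gid hM.2.1 hb'
    have hD' := (isDefectGroup_iff_gid hM hb').2 (hm'.isDefect hbp)
    have hn2 : (D.map (QuotientGroup.mk' ⁅D, D⁆)).Normal := Subgroup.Normal.map hDn _ hf
    have hab : ∀ a ∈ D.map (QuotientGroup.mk' ⁅D, D⁆), ∀ c ∈ D.map (QuotientGroup.mk' ⁅D, D⁆),
        a * c = c * a := by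
      rintro _ ⟨a, ha, rfl⟩ _ ⟨c, hc, rfl⟩
      rw [← commutatorElement_eq_one_iff_mul_comm, ← map_commutatorElement, ← MonoidHom.mem_ker, hk]
      exact Subgroup.commutator_mem_commutator ha hc
    have hab' : D.map (QuotientGroup.mk' ⁅D, D⁆) ≤ Cz (D.map (QuotientGroup.mk' ⁅D, D⁆)) :=
      fun a ha => mem_Cz.2 fun c hc => hab c hc a ha
    have h0 := (H22.reynolds hM hb' hD').1 hab
    have hnil := isNil_of_deg_eq hM hb' (n := n) (fun ψ hψ => by
      rw [← H22.charDegree_infl hf]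
      refine hn _ (hsub hψ) ((H21.height_eq_zero_iff (B := B) (χ := H22.infl hf ψ) (hsub hψ)).2 ?_)
      rw [H22.nu_infl, (H21.height_eq_zero_iff hψ).1 (h0 ψ hψ), H22.minNu_eq_of_dg hM hb' hD',
        H22.minNu_eq_of_dg hM hB hD, Subgroup.index_map_eq _ hf
          (hk.le.trans (Subgroup.commutator_le_left D D))]) hD' hab'
    have h1 := (hm'.isNil_iff_of_abelian hbp hab').1 hnil
    exact hm.isNil_of_normal hb (fun x _ => hN' x) fun t ht hp =>
      mem_Cz_of_map_mem_Cz _ hP.isP hk.le (hN' t) hp (h1 (hNP t ht))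
  · obtain ⟨χ, hχ, h0⟩ := H21.exists_height_zero (p := p) (H17.block_nonempty hM.2.1 hB)
    obtain ⟨Φ, hΦ⟩ := hnil.exists_equiv hM hB hm hχ h0
    refine ⟨charDegree χ.1, fun ψ hψ hψ0 => H21.charDegree_eq ?_⟩
    obtain ⟨η, hη⟩ := Φ.surjective ⟨ψ, hψ⟩
    have h1 := hΦ η
    rw [hη] at h1
    have h2 : ψ.1 1 = (charDegree η.1 : ℕ) * χ.1 1 := by
      rw [H21.cast_deg, show ψ.1 = _ from h1, bstar_apply_one hM hB hm
        (hnil.isStable hb hm (H17.irr_isClassFunction η)) hχ]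
    have h3 := blockHeight_of_apply_one (p := p) hχ (H21.deg_ne_zero η) h2
    obtain ⟨d, hd⟩ := IsPGroup.iff_card.1 hP.isP
    obtain ⟨k, -, hk⟩ := (Nat.dvd_prime_pow (Fact.out : p.Prime)).1 (hd ▸ H21.deg_dvd_card η)
    rw [hψ0, h0, hk, Nat.Prime.factorization_pow Fact.out, Finsupp.single_eq_same] at h3
    rw [h2, hk, show k = 0 by omega, H21.cast_deg]
    simp

end Cfsg.Agent.S4890
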