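import Cfsg.Statements.S4892
import Cfsg.Agent.H19.PrincExt
import Cfsg.Agent.H19.DetGal
import Cfsg.Agent.H18.Local
import Cfsg.Agent.H20.PPart
import Cfsg.Agent.H8.Tate
import Cfsg.Agent.S0164

set_option autoImplicit false
open Cfsg

namespace Cfsg.Agent.S4892

open Cfsg.Agent.H19
open Cfsg.Agent.H17 (Cg)
open Cfsg.Agent.H18 (Nz Cz cs)

section Aux

variable {G : Type*} [Group G] [Finite G] {p : ℕ} {M : Ideal AlgInt}

theorem exists_parts (hp : p.Prime) (c : G) : ∃ u v : G, u * v = c ∧ u ∈ Subgroup.zpowers c ∧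
    v ∈ Subgroup.zpowers c ∧ (∃ k, u ^ p ^ k = 1) ∧ ¬ p ∣ orderOf v := by
  obtain ⟨u, hu⟩ := H20.exists_pPart hp c
  have h1 := H20.pPart_mem_zpowers hp hu
  obtain ⟨v, rfl, -, ⟨k, hk⟩, hv⟩ := hu
  refine ⟨u, v, rfl, h1, ?_, ⟨k, by rw [← hk, pow_orderOf_eq_one]⟩, hv⟩
  have := Subgroup.mul_mem _ (Subgroup.inv_mem _ h1) (Subgroup.mem_zpowers (u * v))
  rwa [inv_mul_cancel_left] at this

theorem Cg_le_of_mem_zpowers {c v : G} (h : v ∈ Subgroup.zpowers c) : Cg c ≤ Cg v := by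
  obtain ⟨k, rfl⟩ := h
  intro x hx
  rw [H17.mem_Cg] at hx ⊢
  exact (Commute.zpow_right hx k).eq

theorem relIndex_Cg_conj (N : Subgroup G) [N.Normal] (x y : G) :
    (Cg (x * y * x⁻¹)).relIndex N = (Cg y).relIndex N := by
  rw [← H17.cs_Cg]
  conv_lhs => rw [← H17.cs_eq_of_normal x N]
  exact Subgroup.relIndex_map_map_of_injective _ _ (MulAut.conj x).injective

theorem eq_one_of_pow_coprime {z : ℂ} {a b : ℕ} (ha : z ^ a = 1) (hb : z ^ b = 1)
    (h : a.Coprime b) : z = 1 := by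
  have := pow_gcd_eq_one.2 ⟨ha, hb⟩
  rwa [h, pow_one] at this

theorem detChar_pow_eq_one {χ : G → ℂ} (hχ : IsCharacter G χ) {x : G} {n : ℕ} (hx : x ^ n = 1) :
    detChar χ x ^ n = 1 := by
  obtain ⟨μ, hμ⟩ := H72.exists_monoidHom_detChar hχ
  rw [hμ, ← Units.val_pow_eq_pow_val, ← map_pow, hx, map_one, Units.val_one]

theorem not_dvd_detOrder (hp : p.Prime) {χ : G → ℂ} (hχ : IsCharacter G χ)
    (h : ∀ (x : G) (k : ℕ), x ^ p ^ k = 1 → detChar χ x = 1) : ¬ p ∣ detOrder χ := by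
  obtain ⟨μ, hμ⟩ := H72.exists_monoidHom_detChar hχ
  have h1 : detChar χ ^ (Nat.card G / p ^ (Nat.card G).factorization p) = 1 := by
    funext x
    have := h (x ^ (Nat.card G / p ^ (Nat.card G).factorization p)) ((Nat.card G).factorization p)
      (by rw [← pow_mul, Nat.div_mul_cancel (Nat.ordProj_dvd _ _), pow_card_eq_one'])
    rw [hμ] at this
    simp only [map_pow, Units.val_pow_eq_pow_val] at this
    rw [hμ]
    exact this
  exact fun hd => Nat.not_dvd_ordCompl hp Nat.card_pos.ne' (hd.trans (orderOf_dvd_of_pow_eq_one h1))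

end Aux

section Good

variable {G : Type*} [Group G] [Finite G] {p : ℕ} [Fact p.Prime] {M : Ideal AlgInt}
  {N : Subgroup G} [hN : N.Normal] {θ : IrrCharacter N}

/-- The canonical extensions. -/
structure Good (p : ℕ) (M : Ideal AlgInt) (N : Subgroup G) (θ : IrrCharacter N) (H : Subgroup G)
    (ψ : H → ℂ) : Prop where
  char : IsCharacter H ψ
  res : ∀ (n : N) (x : H), (x : G) = n → ψ x = θ.1 n
  det : ∀ (x : H) (k : ℕ), x ^ p ^ k = 1 → detChar ψ x = 1
  cong : ∀ y : H, ¬ p ∣ orderOf (y : G) → ¬ p ∣ (Cg (y : G)).relIndex N →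
    red M (ψ y) = red M (θ.1 1)

theorem Good.one {H : Subgroup G} {ψ : H → ℂ} (h : Good p M N θ H ψ) : ψ 1 = θ.1 1 :=
  h.res 1 1 rfl

theorem Good.irr_res {H : Subgroup G} {ψ : H → ℂ} (h : Good p M N θ H ψ) (hH : N ≤ H) :
    IsIrrCharacter N (fun n => ψ (Subgroup.inclusion hH n)) := by
  have : (fun n => ψ (Subgroup.inclusion hH n)) = θ.1 := funext fun n => h.res n _ rfl
  rw [this]; exact θ.2

theorem Good.irr {H : Subgroup G} {ψ : H → ℂ} (h : Good p M N θ H ψ) (hH : N ≤ H) :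
    IsIrrCharacter H ψ :=
  H11.isIrrCharacter_of_comp h.char _ (h.irr_res hH)

theorem Good.transport
    (hinv : ∀ g : G, ∀ n n' : N, (n' : G) = g * (n : G) * g⁻¹ → θ.1 n' = θ.1 n)
    {H H' : Subgroup G} {ψ : H → ℂ} (h : Good p M N θ H ψ) (x : G)
    (hle : ∀ y ∈ H', x * y * x⁻¹ ∈ H) :
    Good p M N θ H' (fun y => ψ ⟨x * y * x⁻¹, hle y y.2⟩) := by
  let f : H' →* H := ((MulAut.conj x).toMonoidHom.comp H'.subtype).codRestrict H
    fun y => hle y y.2
  refine ⟨H11.isCharacter_comp h.char f, fun n y hy => ?_, fun y k hy => ?_, fun y h1 h2 => ?_⟩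
  · rw [h.res ⟨x * n * x⁻¹, hN.conj_mem _ n.2 x⟩ _ (by simp only [hy])]
    exact hinv x n _ rfl
  · have := congrFun (H72.detChar_comp h.char f) y
    exact this.trans (h.det (f y) k (by rw [← map_pow, hy, map_one]))
  · exact h.cong ⟨x * y * x⁻¹, hle y y.2⟩ (by rwa [orderOf_conj_eq]) (by rwa [relIndex_Cg_conj])

theorem Good.restrict {H H' : Subgroup G} {ψ : H → ℂ} (h : Good p M N θ H ψ) (hle : H' ≤ H) :
    Good p M N θ H' (fun y => ψ (Subgroup.inclusion hle y)) := by
  refine ⟨H11.isCharacter_comp h.char _, fun n y hy => h.res n _ hy, fun y k hy => ?_,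
    fun y h1 h2 => h.cong _ h1 h2⟩
  have := congrFun (H72.detChar_comp h.char (Subgroup.inclusion hle)) y
  exact this.trans (h.det _ k (by rw [← map_pow, hy, map_one]))

theorem Good.gal {H : Subgroup G} {ψ : H → ℂ} (h : Good p M N θ H ψ) (σ : ℂ →+* ℂ)
    (hθ : ∀ n, σ (θ.1 n) = θ.1 n)
    (hσ : ∀ z : ℂ, z ^ (Nat.card G / p ^ (Nat.card G).factorization p) = 1 → σ z = z) :
    Good p M N θ H (fun y => σ (ψ y)) := by
  refine ⟨H12.isCharacter_gal h.char σ, fun n y hy => by rw [h.res n y hy, hθ],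
    fun y k hy => by rw [detChar_gal h.char, h.det y k hy, map_one], fun y h1 h2 => ?_⟩
  rw [H12.IsCharacter_map_eq_pow h.char σ _ 1 (fun z hz => by rw [hσ z hz, pow_one]) y
    (Subtype.ext (pow_ordCompl_eq_one (((Nat.Prime.coprime_iff_not_dvd Fact.out).2 h1).symm))),
    pow_one]
  exact h.cong y h1 h2

theorem Good.unique (hM : IsPModular p M) (hdeg : ¬ p ∣ charDegree θ.1)
    (hcov : ∀ y : G, ¬ p ∣ orderOf y → ∃ n ∈ N, ¬ p ∣ (Cg (n * y)).relIndex N)
    {H : Subgroup G} (hH : N ≤ H) {ψ ψ' : H → ℂ} (h : Good p M N θ H ψ)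
    (h' : Good p M N θ H ψ') : ψ' = ψ := by
  have hp : p.Prime := Fact.out
  have hirr : IsIrrCharacter (N.subgroupOf H) fun n : N.subgroupOf H => ψ n := by
    have : (fun n : N.subgroupOf H => ψ n) = fun n => θ.1 (Subgroup.subgroupOfEquivOfLe hH n) :=
      funext fun n => h.res _ _ rfl
    rw [this]
    exact H11.isIrrCharacter_comp_mulEquiv θ.2 _
  obtain ⟨lam, hl1, hl⟩ := H72.exists_linear_of_res_eq (N.subgroupOf H) h.char h'.char hirr
    fun n => (h'.res ⟨_, n.2⟩ _ rfl).trans (h.res ⟨_, n.2⟩ _ rfl).symm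
  have hP : ∀ (x : H) (k : ℕ), x ^ p ^ k = 1 → lam x = 1 := by
    intro x k hx
    have h1 := H72.detChar_linear_mul h.char (h.one.trans (charDegree_cast_irr θ).symm) lam x
    rw [← hl, h'.det x k hx, h.det x k hx, mul_one] at h1
    refine Units.ext (eq_one_of_pow_coprime h1.symm (b := p ^ k) ?_
      (((Nat.Prime.coprime_iff_not_dvd hp).2 hdeg).symm.pow_right k))
    rw [← Units.val_pow_eq_pow_val, ← map_pow, hx, map_one, Units.val_one]
  have hS : ∀ y : H, ¬ p ∣ orderOf (y : G) → ¬ p ∣ (Cg (y : G)).relIndex N → lam y = 1 := by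
    intro y h1 h2
    have h3 := h'.cong y h1 h2
    have h4 := red_char_one_ne_zero hM (H11.irr_isCharacter θ) hdeg
    rw [hl] at h3
    simp only at h3
    rw [red_mul (monoidHom_mem_Vr lam y) (char_mem_Vr h.char y), h.cong y h1 h2,
      mul_eq_right₀ h4] at h3
    refine Units.ext (eq_one_of_red_eq_one hM h1 ?_ h3)
    rw [← Units.val_pow_eq_pow_val, ← map_pow, Subgroup.orderOf_coe, pow_orderOf_eq_one, map_one,
      Units.val_one]
  have hT : ∀ c : H, ¬ p ∣ (Cg (c : G)).relIndex N → lam c = 1 := by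
    intro c hc
    obtain ⟨u, v, huv, hu, hv, ⟨k, hk⟩, hv'⟩ := exists_parts hp (c : G)
    have hle : Subgroup.zpowers (c : G) ≤ H := (Subgroup.zpowers_le).2 c.2
    have : c = ⟨u, hle hu⟩ * ⟨v, hle hv⟩ := Subtype.ext huv.symm
    rw [this, map_mul, hP ⟨u, hle hu⟩ k (Subtype.ext hk), hS ⟨v, hle hv⟩ hv'
      fun h => hc (h.trans (Subgroup.relIndex_dvd_of_le_left N (Cg_le_of_mem_zpowers hv))), mul_one]
  have hall : ∀ c : H, lam c = 1 := by
    intro c
    obtain ⟨u, v, huv, hu, hv, ⟨k, hk⟩, hv'⟩ := exists_parts hp (c : G)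
    have hle : Subgroup.zpowers (c : G) ≤ H := (Subgroup.zpowers_le).2 c.2
    have : c = ⟨u, hle hu⟩ * ⟨v, hle hv⟩ := Subtype.ext huv.symm
    obtain ⟨n, hn, hnv⟩ := hcov v hv'
    have h2 : lam ((⟨n, hH hn⟩ : H) * (⟨v, hle hv⟩ : H)) = 1 := by
      apply hT
      rw [Subgroup.coe_mul]
      exact hnv
    rw [map_mul, hl1 ⟨n, hH hn⟩ hn, one_mul] at h2
    rw [this, map_mul, hP ⟨u, hle hu⟩ k (Subtype.ext hk), h2, mul_one]
  rw [hl]
  funext x
  rw [hall, Units.val_one, one_mul]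

theorem range_inclusion_normal {A : Subgroup G} (h : N ≤ A) :
    (Subgroup.inclusion h).range.Normal := by
  rw [Subgroup.inclusion_range]; infer_instance

theorem exists_good_of_solvable (hM : IsPModular p M) (hdeg : ¬ p ∣ charDegree θ.1)
    (hB : θ ∈ principalBlock M N)
    (hdet : ∀ (x : N) (k : ℕ), x ^ p ^ k = 1 → detChar θ.1 x = 1)
    (hcov : ∀ y : G, ¬ p ∣ orderOf y → ∃ n ∈ N, ¬ p ∣ (Cg (n * y)).relIndex N)
    {S : Subgroup G} (hS : Group.IsSolvable S) (hSp : ¬ p ∣ Nat.card S) :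
    ∃ ψ, Good p M N θ (S ⊔ N) ψ := by
  have hp : p.Prime := Fact.out
  have hle : N ≤ S ⊔ N := le_sup_right
  haveI := range_inclusion_normal hle
  have hidx : ¬ p ∣ N.relIndex (S ⊔ N) := by
    rw [Subgroup.relIndex_sup_right]
    exact fun h => hSp (h.trans (Subgroup.relIndex_dvd_card _ _))
  have hdec : ∀ x : (S ⊔ N : Subgroup G), ∃ n ∈ N, ∃ s ∈ S, n * s = x := by
    intro x
    have : (x : G) ∈ N ⊔ S := sup_comm S N ▸ x.2
    rw [← SetLike.mem_coe, Subgroup.normal_mul] at this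
    exact this
  have hcl : ∀ y : (S ⊔ N : Subgroup G), ¬ p ∣ (Cg (y : G)).relIndex N → ¬ p ∣ (Cg y).index := by
    intro y hy h
    rw [index_Cg_coe] at h
    have h1 := h.trans (Subgroup.relIndex_dvd_of_le_left (S ⊔ N) (inf_le_left : Cg (y : G) ⊓ N ≤ _))
    rw [← Subgroup.relIndex_mul_relIndex _ N _ inf_le_right hle, Subgroup.inf_relIndex_right,
      hp.dvd_mul] at h1
    exact h1.elim hy hidx
  obtain ⟨χ, hχ, hres⟩ := exists_principal_ext hM (Subgroup.inclusion_injective hle)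
    (Group.isSolvable_of_surjective (f := (QuotientGroup.mk' _).comp
      (Subgroup.inclusion (le_sup_left : S ≤ S ⊔ N))) (by
        intro q
        obtain ⟨x, rfl⟩ := QuotientGroup.mk_surjective q
        obtain ⟨n, hn, s, hs, hx⟩ := hdec x
        refine ⟨⟨s, hs⟩, ?_⟩
        change (QuotientGroup.mk _ : _ ⧸ _) = _
        rw [QuotientGroup.eq]
        refine ⟨⟨s⁻¹ * n * s, hN.conj_mem' n hn s⟩, Subtype.ext ?_⟩
        simp [← hx, mul_assoc]))
    (fun x => by
      obtain ⟨n, hn, s, hs, hx⟩ := hdec x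
      obtain ⟨m, hm, hms⟩ := hcov s fun h => hSp (h.trans (S.orderOf_dvd_natCard hs))
      refine ⟨⟨m * n⁻¹, N.mul_mem hm (N.inv_mem hn)⟩, hcl _ ?_⟩
      simpa [← hx, mul_assoc] using hms) hB
  have h1 : χ.1 1 = θ.1 1 := by rw [← hres 1, map_one]
  refine ⟨χ.1, H11.irr_isCharacter χ, fun n x hx => ?_, fun x k hx => ?_, fun y _ h2 => ?_⟩
  · rw [← hres n, show x = Subgroup.inclusion hle n from Subtype.ext hx]
  · have hxN : (x : G) ∈ N := H18.mem_of_pow_mem_of_not_dvd_relIndex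
      (by rw [Nz, Subgroup.normalizer_eq_top]; exact le_top) hidx x.2 (n := k)
      (by rw [← SubgroupClass.coe_pow, hx]; exact one_mem _)
    have h3 := congrFun (H72.detChar_comp (H11.irr_isCharacter χ) (Subgroup.inclusion hle)) ⟨x, hxN⟩
    rw [funext hres] at h3
    exact h3.symm.trans (hdet _ k (Subtype.ext (by simpa using congrArg Subtype.val hx)))
  · rw [← h1]
    exact red_apply_of_principal hM hχ (by rwa [charDegree, h1]) (hcl y h2)

theorem exists_good_of_nilpotent (hM : IsPModular p M) (hdeg : ¬ p ∣ charDegree θ.1)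
    (hB : θ ∈ principalBlock M N)
    (hinv : ∀ g : G, ∀ n n' : N, (n' : G) = g * (n : G) * g⁻¹ → θ.1 n' = θ.1 n)
    (hdet : ∀ (x : N) (k : ℕ), x ^ p ^ k = 1 → detChar θ.1 x = 1)
    (hcov : ∀ y : G, ¬ p ∣ orderOf y → ∃ n ∈ N, ¬ p ∣ (Cg (n * y)).relIndex N)
    (E : Subgroup G) [Group.IsNilpotent E] : ∃ ψ, Good p M N θ (E ⊔ N) ψ := by
  have hp : p.Prime := Fact.out
  obtain ⟨P, K, hK, hKP⟩ := H8.hasNormalPComplement_of_isNilpotent (G := E) p
  set S := K.map E.subtype with hSdef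
  have hSE : S ≤ E := Subgroup.map_subtype_le _
  have hSp : ¬ p ∣ Nat.card S := by
    rw [hSdef, H3.card_map_subtype, ← hKP.index_eq_card]
    exact P.not_dvd_index
  have hS : Group.IsSolvable S :=
    Group.isSolvable_of_isSolvable_injective (Subgroup.inclusion_injective hSE)
  obtain ⟨ψ, hψ⟩ := exists_good_of_solvable hM hdeg hB hdet hcov hS hSp
  have hAH : S ⊔ N ≤ E ⊔ N := sup_le_sup_right hSE N
  have hES : E ≤ Nz S := by
    intro e he
    rw [H18.mem_Nz_iff_cs, show e = ((⟨e, he⟩ : E) : G) from rfl, hSdef, ← H18.cs_map_subtype,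
      H17.cs_eq_of_normal]
  have hNz : E ⊔ N ≤ Nz (S ⊔ N) := by
    refine sup_le (fun e he => ?_) (le_sup_right.trans Subgroup.le_normalizer)
    rw [H18.mem_Nz_iff_cs, H18.cs_sup, H18.mem_Nz_iff_cs.1 (hES he), H17.cs_eq_of_normal]
  have hPM : H18.PMod p (S ⊔ N) (E ⊔ N) := by
    refine (H18.pMod_sup (P.isPGroup'.map E.subtype)
      (((Subgroup.map_subtype_le _).trans le_sup_left).trans hNz)).mono le_rfl (sup_le ?_ ?_)
    · intro e he
      obtain ⟨⟨k, x⟩, hx, -⟩ := hKP.existsUnique ⟨e, he⟩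
      have : e = (k : E) * (x : E) := (congrArg Subtype.val hx).symm
      rw [this]
      exact Subgroup.mul_mem _ (Subgroup.mem_sup_right (Subgroup.mem_sup_left ⟨_, k.2, rfl⟩))
        (Subgroup.mem_sup_left ⟨_, x.2, rfl⟩)
    · exact le_sup_right.trans le_sup_right
  obtain ⟨k, hk⟩ := hPM.exists_relIndex hNz
  haveI := H18.normal_subgroupOf_of_le_Nz hNz
  let e := Subgroup.subgroupOfEquivOfLe hAH
  have hψi := hψ.irr le_sup_right
  have hθ' : IsIrrCharacter _ (fun a => ψ (e a)) := H11.isIrrCharacter_comp_mulEquiv hψi e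
  have hdo : ¬ p ∣ detOrder (fun a => ψ (e a)) := by
    refine not_dvd_detOrder hp (H11.isCharacter_of_irr hθ') fun x k hx => ?_
    have := congrFun (H72.detChar_comp hψ.char e.toMonoidHom) x
    exact this.trans (hψ.det _ k (by rw [← map_pow, hx, map_one]))
  obtain ⟨χ, hχ, hres, hd⟩ := H72.exists_irr_extension_of_coprime ((S ⊔ N).subgroupOf (E ⊔ N)) hθ'
    (fun g n => by
      have := (hψ.transport hinv g fun y hy => H18.conj_mem_of_mem_Nz' (hNz g.2) hy).unique hM hdeg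
        hcov le_sup_right hψ
      exact (congrFun this (e n)).symm)
    (d := charDegree θ.1) (by simp only [map_one]; exact hψ.one.trans (charDegree_cast_irr θ).symm)
    (by
      change Nat.Coprime ((S ⊔ N).relIndex (E ⊔ N)) _
      rw [hk]
      refine Nat.Coprime.pow_left _ ((Nat.Prime.coprime_iff_not_dvd hp).2 fun h => ?_)
      exact (hp.dvd_mul.1 h).elim hdo hdeg)
  have hχc := H11.isCharacter_of_irr hχ
  refine ⟨χ, hχc, fun n x hx => ?_, fun x j hx => ?_, fun y h1 h2 => ?_⟩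
  · have hxA : (x : G) ∈ S ⊔ N := hx ▸ Subgroup.mem_sup_right n.2
    exact (hres ⟨x, hxA⟩).trans (hψ.res n _ hx)
  · exact eq_one_of_pow_coprime (congrFun hd x) (detChar_pow_eq_one hχc hx)
      (((Nat.Prime.coprime_iff_not_dvd hp).2 hdo).symm.pow_right j)
  · have hyA : (y : G) ∈ S ⊔ N := hPM.mem_of_not_dvd y.2 h1
    exact (congrArg (red M) (hres ⟨y, hyA⟩)).trans (hψ.cong ⟨y, hyA⟩ h1 h2)

end Good


/-- Let p be an odd prime, M a maximal ideal of the algebraic integers containing p, N a normal subgroup of the finite group G, and θ an irreducible character of N that is G-invariant, of degree prime to p, p-rational (values in the field generated over ℚ by a root of unity of order prime to p) and lies in the principal p-block of N. Let Q be a Sylow p-subgroup of N and suppose the index of N·C_G(Q) in G is a power of p. Then θ extends to a p-rational irreducible character of G lying in the principal p-block of G. -/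
theorem result {G : Type*} [Group G] [Finite G] (p : ℕ) [Fact p.Prime] (hp : p ≠ 2) (M : Ideal Cfsg.AlgInt) (hM : Cfsg.IsPModular p M) (N : Subgroup G) [N.Normal] (θ : Cfsg.IrrCharacter ↥N) (hinv : ∀ g : G, ∀ n n' : ↥N, (n' : G) = g * (n : G) * g⁻¹ → (θ : ↥N → ℂ) n' = (θ : ↥N → ℂ) n) (hdeg : ¬ p ∣ Cfsg.charDegree (θ : ↥N → ℂ)) (hrat : ∃ m : ℕ, ¬ p ∣ m ∧ ∀ n : ↥N, (θ : ↥N → ℂ) n ∈ IntermediateField.adjoin ℚ ({Complex.exp (2 * Real.pi * Complex.I / m)} : Set ℂ)) (hB : θ ∈ Cfsg.principalBlock M ↥N) (Q : Sylow p ↥N) (hidx : ∃ a : ℕ, (N ⊔ Subgroup.centralizer (((Q : Subgroup ↥N).map N.subtype : Subgroup G) : Set G)).index = p ^ a) : ∃ χ : Cfsg.IrrCharacter G, χ ∈ (Cfsg.principalBlock M G) ∧ (∃ n : ℕ, ¬ p ∣ n ∧ ∀ g : G, (χ : G → ℂ) g ∈ IntermediateField.adjoin ℚ ({Complex.exp (2 * Real.pi * Complex.I / n)} : Set ℂ)) ∧ ∀ n : ↥N, (χ : G → ℂ) n = (θ : ↥N → ℂ) n := by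
  classical
  have hp' : p.Prime := Fact.out
  haveI := Fintype.ofFinite G
  haveI := Fintype.ofFinite N
  obtain ⟨m, hm, hrat⟩ := hrat
  have hm0 : m ≠ 0 := fun h => hm (h ▸ dvd_zero p)
  have hζ := Complex.isPrimitiveRoot_exp m hm0
  have hfix : ∀ σ : ℂ →+* ℂ, (∀ z : ℂ, z ^ m = 1 → σ z = z) → ∀ n, σ (θ.1 n) = θ.1 n := by
    intro σ hσ n
    have : IntermediateField.adjoin ℚ ({Complex.exp (2 * Real.pi * Complex.I / m)} : Set ℂ) ≤
        (σ.toRatAlgHom.equalizer (AlgHom.id ℚ ℂ)).toIntermediateField (fun x hx => by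
          have hx' : σ x = x := hx
          change σ x⁻¹ = x⁻¹
          rw [map_inv₀, hx']) := by
      rw [IntermediateField.adjoin_le_iff, Set.singleton_subset_iff]
      exact hσ _ hζ.pow_eq_one
    exact this (hrat n)
  have hdet : ∀ (x : N) (k : ℕ), x ^ p ^ k = 1 → detChar θ.1 x = 1 := by
    intro x k hx
    have hcop : m.Coprime (p ^ k) := ((Nat.Prime.coprime_iff_not_dvd hp').2 hm).symm.pow_right k
    obtain ⟨j, hj1, hj2⟩ := Nat.chineseRemainder hcop 1 2
    have hjc : j.Coprime (m * p ^ k) := by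
      refine Nat.Coprime.mul_right ?_ ?_
      · rw [Nat.Coprime, hj1.gcd_eq]; exact Nat.gcd_one_left _
      · rw [Nat.Coprime, hj2.gcd_eq]
        exact ((Nat.coprime_primes Nat.prime_two hp').2 hp.symm).pow_right k
    obtain ⟨σ, hσ⟩ := H12.exists_ringEquiv_pow
      (Nat.mul_pos (Nat.pos_of_ne_zero hm0) (pow_pos hp'.pos k)) hjc
    have h1 := hfix σ.toRingHom fun z hz => by
      have := hσ z (by rw [pow_mul, hz, one_pow])
      rw [pow_eq_pow_of_modEq hj1 hz, pow_one] at this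
      exact this
    have h2 := detChar_gal (H11.irr_isCharacter θ) σ.toRingHom x
    rw [funext h1] at h2
    have h3 := detChar_pow_eq_one (H11.irr_isCharacter θ) hx
    have h4 := hσ (detChar θ.1 x) (by rw [mul_comm, pow_mul, h3, one_pow])
    rw [pow_eq_pow_of_modEq hj2 h3] at h4
    have h5 : detChar θ.1 x ≠ 0 := fun h => by
      rw [h, zero_pow (pow_pos hp'.pos k).ne'] at h3; exact zero_ne_one h3
    have h6 : detChar θ.1 x * detChar θ.1 x = detChar θ.1 x * 1 := by
      rw [mul_one, ← pow_two, ← h4]; exact h2.symm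
    exact mul_left_cancel₀ h5 h6
  set Q' : Subgroup G := (Q : Subgroup N).map N.subtype with hQ'
  have hcov : ∀ y : G, ¬ p ∣ orderOf y → ∃ n ∈ N, ¬ p ∣ (Cg (n * y)).relIndex N := by
    intro y hy
    obtain ⟨a, ha⟩ := hidx
    haveI : (N ⊔ Cz Q').Normal := by
      rw [← Subgroup.normalizer_eq_top_iff, eq_top_iff, ← Sylow.normalizer_sup_eq_top Q]
      refine sup_le (fun x hx => ?_) (le_sup_left.trans Subgroup.le_normalizer)
      change x ∈ Nz (N ⊔ Cz Q')
      rw [H18.mem_Nz_iff_cs, H18.cs_sup, H17.cs_eq_of_normal,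
        H18.mem_Nz_iff_cs.1 (H18.Nz_le_Nz_Cz Q' hx)]
    have h1 := H22.mem_of_not_dvd_of_index hp' ha hy
    rw [← SetLike.mem_coe, Subgroup.normal_mul] at h1
    obtain ⟨n, hn, c, hc, rfl⟩ := h1
    refine ⟨n⁻¹, N.inv_mem hn, fun h => ?_⟩
    simp only [inv_mul_cancel_left] at h
    have h2 := h.trans (Subgroup.relIndex_dvd_of_le_left N (H17.le_Cg_of_mem_Cz hc))
    rw [hQ', Subgroup.relIndex, Subgroup.subgroupOf,
      Subgroup.comap_map_eq_self_of_injective N.subtype_injective] at h2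
    exact Q.not_dvd_index h2
  choose ψ hψ using fun g : G =>
    haveI := H13.isNilpotent_of_isElementary hp'
      (H13.isElementary_of_isCyclic (E := Subgroup.zpowers g) hp')
    exists_good_of_nilpotent hM hdeg hB hinv hdet hcov (Subgroup.zpowers g)
  let χ : G → ℂ := fun g => ψ g ⟨g, Subgroup.mem_sup_left (Subgroup.mem_zpowers g)⟩
  have key : ∀ (H : Subgroup G) (φ : H → ℂ), N ≤ H → Good p M N θ H φ → ∀ h : H, χ h = φ h := by
    intro H φ hH hφ h
    have hle : Subgroup.zpowers (h : G) ⊔ N ≤ H := sup_le (Subgroup.zpowers_le.2 h.2) hH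
    exact congrFun ((hφ.restrict hle).unique hM hdeg hcov le_sup_right (hψ h)) _
  have hcl : IsClassFunction G χ := by
    intro g x
    have hle : ∀ y ∈ Subgroup.zpowers g ⊔ N, x * y * x⁻¹ ∈ Subgroup.zpowers (x * g * x⁻¹) ⊔ N := by
      intro y hy
      have : Subgroup.zpowers (x * g * x⁻¹) ⊔ N = cs x (Subgroup.zpowers g ⊔ N) := by
        rw [H18.cs_sup, H17.cs_eq_of_normal x N]
        congr 1
        exact (MonoidHom.map_zpowers (MulAut.conj x).toMonoidHom g).symm
      rw [this]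
      exact H18.conj_mem_cs.2 hy
    exact (key _ _ le_sup_right ((hψ _).transport hinv x hle)
      ⟨g, Subgroup.mem_sup_left (Subgroup.mem_zpowers g)⟩).symm
  have hgen : IsGeneralizedCharacter G χ := by
    refine S0164.result χ hcl fun E q hq hE => ?_
    haveI := H13.isNilpotent_of_isElementary hq hE
    obtain ⟨φ, hφ⟩ := exists_good_of_nilpotent hM hdeg hB hinv hdet hcov E
    have : (fun e : E => χ e) = fun e => φ (Subgroup.inclusion le_sup_left e) :=
      funext fun e => key _ φ le_sup_right hφ (Subgroup.inclusion le_sup_left e)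
    rw [this]
    exact H11.isGen_of_isCharacter (H11.isCharacter_comp hφ.char _)
  have hres : ∀ n : N, χ n = θ.1 n := fun n => (hψ n).res n _ rfl
  have h1 : χ 1 = θ.1 1 := hres 1
  have hnorm : classInner χ χ = 1 := by
    have h2 : H23.eta N.subtype χ χ = fun _ => 1 := by
      funext g
      letI := Fintype.ofFinite (Subgroup.zpowers g ⊔ N : Subgroup G)
      have h3 := congrFun (H23.eta_self (Subgroup.inclusion_injective le_sup_right)
        (range_inclusion_normal le_sup_right) (hψ g).char ((hψ g).irr_res le_sup_right))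
        ⟨g, Subgroup.mem_sup_left (Subgroup.mem_zpowers g)⟩
      rw [← h3, H23.eta, H23.eta]
      congr 1 <;> funext n <;> exact key _ _ le_sup_right (hψ g)
        (Subgroup.inclusion le_sup_right n * ⟨g, Subgroup.mem_sup_left (Subgroup.mem_zpowers g)⟩)
    have h4 := H23.classInner_eta_of_const N.subtype χ χ (lam := fun _ => 1) fun _ _ => rfl
    have h5 : (χ * fun _ => 1) = χ := by ext; simp
    rw [h2, H11.classInner_one_one, h5] at h4
    exact h4.symm
  have hirr : IsIrrCharacter G χ := H11.isIrrCharacter_of_isGen hgen hnorm (by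
    rw [h1, ← charDegree_cast_irr]; simp)
  refine ⟨⟨χ, hirr⟩, ?_, ?_, hres⟩
  · refine mem_principal_of_red hM (by change ¬ p ∣ charDegree χ; rwa [charDegree, h1]) fun x hx1 hx2 => ?_
    have h2 : ¬ p ∣ (Cg x).relIndex N :=
      fun h => hx2 (h.trans (relIndex_dvd_index_of_normal_right _ N))
    have h3 := (hψ x).cong ⟨x, Subgroup.mem_sup_left (Subgroup.mem_zpowers x)⟩ hx1 h2
    change red M (χ x) = red M (χ 1)
    rw [h1]
    exact h3
  · set m' := Nat.card G / p ^ (Nat.card G).factorization p with hm'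
    have hm'p : ¬ p ∣ m' := Nat.not_dvd_ordCompl hp' Nat.card_pos.ne'
    have hL : ¬ p ∣ m * m' := fun h => (hp'.dvd_mul.1 h).elim hm hm'p
    have hL0 : m * m' ≠ 0 := fun h => hL (h ▸ dvd_zero p)
    refine ⟨m * m', hL, fun g => ?_⟩
    have hη := Complex.isPrimitiveRoot_exp _ hL0
    set η := Complex.exp (2 * Real.pi * Complex.I / ((m * m' : ℕ) : ℂ)) with hηdef
    obtain ⟨q, hq⟩ := H12.exists_algebraMap_of_forall_algEquiv
      (F := IntermediateField.adjoin ℚ ({η} : Set ℂ)) (x := χ g)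
      ((irr_isAlgebraic ⟨χ, hirr⟩ g).tower_top _) (fun σ => by
        have hσ : ∀ z : ℂ, z ^ (m * m') = 1 → σ z = z := fun z hz =>
          σ.commutes ⟨z, mem_adjoin_of_pow_eq_one hL0 hη hz⟩
        have := ((hψ g).gal σ.toRingEquiv.toRingHom
          (hfix _ fun z hz => hσ z (by rw [pow_mul, hz, one_pow]))
          fun z hz => hσ z (by rw [mul_comm, pow_mul, hz, one_pow]))
        exact (key _ _ le_sup_right this ⟨g, Subgroup.mem_sup_left (Subgroup.mem_zpowers g)⟩).symm)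
    change χ g ∈ _
    rw [hq]
    exact q.2

end Cfsg.Agent.S4892
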