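import Cfsg.Statements.S4911
import Cfsg.Agent.H23.RealBij

set_option autoImplicit false
open Cfsg

namespace Cfsg.Agent.S4911

open Subgroup H23

/-- Let P and K be subgroups of a finite group with P a p-group normalizing K and K of order prime to p. Then the number of P-invariant real-valued irreducible complex characters of K equals the number of conjugacy classes of K that are real (closed under inversion) and P-invariant. Moreover, if every real-valued irreducible character of K is P-invariant, then every real element of K (one conjugate in K to its inverse) is conjugate in K to an element centralized by P. -/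
theorem result {G : Type*} [Group G] [Finite G] (p : ℕ) [Fact p.Prime] (P K : Subgroup G) (hP : IsPGroup p ↥P) (hK : ¬ p ∣ Nat.card ↥K) (hPK : P ≤ Subgroup.normalizer (K : Set G)) : Nat.card {θ : Cfsg.IrrCharacter ↥K // (∀ k : ↥K, ((θ : ↥K → ℂ) k).im = 0) ∧ (∀ x ∈ P, ∀ k k' : ↥K, (k' : G) = x * (k : G) * x⁻¹ → (θ : ↥K → ℂ) k' = (θ : ↥K → ℂ) k)} = Nat.card {c : ConjClasses ↥K // (∀ k : ↥K, ConjClasses.mk k = c → IsConj k k⁻¹) ∧ ∀ k : ↥K, ConjClasses.mk k = c → ∀ x ∈ P, ∀ k' : ↥K, (k' : G) = x * (k : G) * x⁻¹ → ConjClasses.mk k' = c} ∧ ((∀ θ : Cfsg.IrrCharacter ↥K, (∀ k : ↥K, ((θ : ↥K → ℂ) k).im = 0) → (∀ x ∈ P, ∀ k k' : ↥K, (k' : G) = x * (k : G) * x⁻¹ → (θ : ↥K → ℂ) k' = (θ : ↥K → ℂ) k)) → ∀ k : ↥K, IsConj k k⁻¹ → ∃ k' : ↥K, IsConj k k' ∧ ∀ x ∈ P, x * (k' : G) * x⁻¹ = (k' : G)) := by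
  have hp : p.Prime := Fact.out
  let C := K ⊓ centralizer (P : Set G)
  have hC : ∀ c ∈ C, ∀ x ∈ P, x * c * x⁻¹ = c := fun c hc x hx =>
    mul_inv_eq_iff_eq_mul.2 (hc.2 x hx)
  have hcop : (Nat.card P).Coprime (Nat.card K) := by
    obtain ⟨n, hn⟩ := hP.exists_card_eq
    exact hn ▸ Nat.Coprime.pow_left _ ((Nat.Prime.coprime_iff_not_dvd hp).2 hK)
  have hs : Group.IsSolvable P ∨ Group.IsSolvable K := Or.inl (H4.isSolvable_of_isPGroup hP)
  have H : IsCorr p P (inf_le_left : C ≤ K) := isCorr_of_isPGroup hp (N := ⊥) hP le_normalizer' hPK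
    bot_le le_normalizer' (by rwa [relIndex_bot_left]) (fun g => and_congr_right fun _ =>
      forall₂_congr fun x _ => by rw [mem_bot, mul_inv_eq_one, mul_inv_eq_iff_eq_mul]) _
  have hinv : ∀ ξ : IrrCharacter C, InvBy C P ξ.1 := fun ξ x hx =>
    invEl_of_centralizes _ fun c hc => hC c hc x hx
  obtain ⟨f, -⟩ := H.exists_equiv (X := fun θ => IsReal θ.1 ∧ InvBy K P θ.1)
    (Y := fun ξ => IsReal ξ.1) (fun _ h => h.2) (fun ξ _ => hinv ξ)
    fun θ ξ a b c => (and_iff_left a).trans (H.real_iff a b c)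
  have hfix : ∀ c : ConjClasses K, (∀ k : K, ConjClasses.mk k = c → ∀ x ∈ P, ∀ k' : K,
      (k' : G) = x * (k : G) * x⁻¹ → ConjClasses.mk k' = c) → ∀ k : K, ConjClasses.mk k = c →
      ∃ k' : K, IsConj k k' ∧ ∀ x ∈ P, x * (k' : G) * x⁻¹ = (k' : G) := fun c hc k hk => by
    obtain ⟨y, hy, h⟩ := exists_conj_fixed hPK hcop hs (x := (k : G)) fun a ha => by
      obtain ⟨z, hz⟩ := isConj_iff.1 (ConjClasses.mk_eq_mk_iff_isConj.1 (hk.trans (hc k hk a ha
        ⟨_, H4.conj_mem_of_mem_normalizer (hPK ha) k.2⟩ rfl).symm))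
      exact ⟨z, z.2, (congrArg Subtype.val hz).symm⟩
    exact ⟨⟨y, hy⟩ * k * ⟨y, hy⟩⁻¹, isConj_iff.2 ⟨_, rfl⟩, h⟩
  have hconj : ∀ a b : C, IsConj (inclusion (inf_le_left : C ≤ K) a) (inclusion inf_le_left b) →
      IsConj a b := fun a b h => by
    obtain ⟨z, hz⟩ := isConj_iff.1 h
    have hz' : (z : G) * a * (z : G)⁻¹ = b := congrArg Subtype.val hz
    obtain ⟨c, hc, e⟩ := exists_centralizer_conj_eq' hPK hcop hs z.2 (hC a a.2)
      (by rw [hz']; exact hC b b.2)
    exact isConj_iff.2 ⟨⟨c, hc⟩, Subtype.ext (e.trans hz')⟩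
  let g : {c : ConjClasses C // ∀ k, ConjClasses.mk k = c → IsConj k k⁻¹} →
      {c : ConjClasses K // (∀ k : K, ConjClasses.mk k = c → IsConj k k⁻¹) ∧
        ∀ k : K, ConjClasses.mk k = c → ∀ x ∈ P, ∀ k' : K, (k' : G) = x * (k : G) * x⁻¹ →
          ConjClasses.mk k' = c} := fun c =>
    ⟨ConjClasses.map (inclusion inf_le_left) c.1, by
      obtain ⟨n, hn⟩ := ConjClasses.mk_surjective c.1
      rw [← hn]
      refine ⟨fun y hy => ?_, fun y hy x hx y' e => ?_⟩
      · have h4 : IsConj y (inclusion inf_le_left n) := ConjClasses.mk_eq_mk_iff_isConj.1 hy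
        exact (h4.trans ((inclusion inf_le_left).map_isConj (c.2 n hn))).trans
          ((H11.isConj_inv_inv_iff _ _).2 h4.symm)
      · have h4 : IsConj y (inclusion inf_le_left n) := ConjClasses.mk_eq_mk_iff_isConj.1 hy
        obtain ⟨z, hz⟩ := isConj_iff.1 h4
        have hz' : (z : G) * y * (z : G)⁻¹ = n := congrArg Subtype.val hz
        refine ConjClasses.mk_eq_mk_iff_isConj.2 (isConj_iff.2
          ⟨⟨_, H4.conj_mem_of_mem_normalizer (hPK hx) z.2⟩, Subtype.ext ?_⟩)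
        change x * z * x⁻¹ * y' * (x * z * x⁻¹)⁻¹ = (n : G)
        rw [e, ← hC n n.2 x hx, ← hz']; group⟩
  have hg : Function.Bijective g := by
    refine ⟨fun c d e => ?_, fun c => ?_⟩
    · obtain ⟨n, hn⟩ := ConjClasses.mk_surjective c.1
      obtain ⟨m, hm⟩ := ConjClasses.mk_surjective d.1
      have h4 : ConjClasses.map (inclusion inf_le_left) c.1 =
        ConjClasses.map (inclusion (inf_le_left : C ≤ K)) d.1 := congrArg Subtype.val e
      rw [← hn, ← hm] at h4
      refine Subtype.ext ?_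
      rw [← hn, ← hm]
      exact ConjClasses.mk_eq_mk_iff_isConj.2 (hconj _ _ (ConjClasses.mk_eq_mk_iff_isConj.1 h4))
    · obtain ⟨k, hk⟩ := ConjClasses.mk_surjective c.1
      obtain ⟨k', h1, h2⟩ := hfix _ c.2.2 k hk
      let n : C := ⟨k', k'.2, fun x hx => mul_inv_eq_iff_eq_mul.1 (h2 x hx)⟩
      have h3 : ConjClasses.mk k' = c.1 := (ConjClasses.mk_eq_mk_iff_isConj.2 h1.symm).trans hk
      refine ⟨⟨ConjClasses.mk n, fun y hy => ?_⟩, Subtype.ext h3⟩
      have h4 := ConjClasses.mk_eq_mk_iff_isConj.1 hy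
      exact (h4.trans (hconj n n⁻¹ (c.2.1 k' h3))).trans ((H11.isConj_inv_inv_iff _ _).2 h4.symm)
  have h1 := (Nat.card_congr f).trans (H11.card_real_irr.trans (Nat.card_eq_of_bijective g hg))
  refine ⟨h1, fun h k hk => ?_⟩
  have h2 := (H11.card_real_irr.symm.trans (Nat.card_congr (Equiv.subtypeEquivRight
    fun θ => (and_iff_left_of_imp (h θ)).symm))).trans h1
  haveI : Finite (ConjClasses K) := Quotient.finite _
  obtain ⟨c, hc⟩ := ((Nat.bijective_iff_injective_and_card (Subtype.impEmbedding _ _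
    fun _ h => And.left h)).2 ⟨Function.Embedding.injective _, h2.symm⟩).2
    ⟨ConjClasses.mk k, fun y hy => by
      have h4 := ConjClasses.mk_eq_mk_iff_isConj.1 hy
      exact (h4.trans hk).trans ((H11.isConj_inv_inv_iff _ _).2 h4.symm)⟩
  exact hfix _ c.2.2 k (congrArg Subtype.val hc).symm

end Cfsg.Agent.S4911
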