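import Cfsg.Statements.S4914
import Cfsg.Agent.H23.Glauberman
import Cfsg.Agent.H19.GaloisBlock
import Cfsg.Agent.H4.CoprimeAction

set_option autoImplicit false
open Cfsg

namespace Cfsg.Agent.S4914

/-- Let P and K be subgroups of a finite group G with P a p-group normalizing K, and suppose K has a normal Sylow p-subgroup Q. Let C be the subgroup of those k ∈ K whose commutator with every element of P lies in Q (so that C/Q is the fixed-point subgroup of P on K/Q). Then there is a bijection f from the P-invariant irreducible complex characters of K onto the P-invariant irreducible complex characters of C such that, for every P-invariant irreducible character χ of K, the multiplicity of f(χ) in the restriction of χ to C is a natural number congruent to 1 or to −1 modulo p, every other P-invariant irreducible character of C occurs in that restriction with multiplicity divisible by p, and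 the degrees of χ and f(χ) are congruent modulo p up to sign. -/
theorem result {G : Type*} [Group G] [Finite G] (p : ℕ) [Fact p.Prime] (P K Q C : Subgroup G) (hP : IsPGroup p ↥P) (hPK : P ≤ Subgroup.normalizer (K : Set G)) (hQK : Q ≤ K) (hQn : ∀ k ∈ K, ∀ q ∈ Q, k * q * k⁻¹ ∈ Q) (hQp : ∃ a : ℕ, Nat.card ↥Q = p ^ a) (hQsyl : ¬ p ∣ Q.relIndex K) (hCK : C ≤ K) (hC : ∀ k : G, k ∈ C ↔ (k ∈ K ∧ ∀ x ∈ P, x * k * x⁻¹ * k⁻¹ ∈ Q)) : ∃ f : {χ : Cfsg.IrrCharacter ↥K // (∀ x ∈ P, ∀ k k' : ↥K, (k' : G) = x * (k : G) * x⁻¹ → (χ : ↥K → ℂ) k' = (χ : ↥K → ℂ) k)} → {ξ : Cfsg.IrrCharacter ↥C // (∀ x ∈ P, ∀ k k' : ↥C, (k' : G) = x * (k : G) * x⁻¹ → (ξ : ↥C → ℂ) k' = (ξ : ↥C → ℂ) k)}, Function.Bijective f ∧ ∀ χ, (∀ ξ : {ξ : Cfsg.IrrCharacter ↥C // (∀ x ∈ P, ∀ k k' : ↥C, (k' : G) = x * (k : G) * x⁻¹ → (ξ : ↥C → ℂ) k' = (ξ : ↥C → ℂ) k)}, ∃ m : ℕ, (Nat.card ↥C : ℂ)⁻¹ * ∑ᶠ c : ↥C, (χ.1 : ↥K → ℂ) (Subgroup.inclusion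 hCK c) * (starRingEnd ℂ) ((ξ.1 : ↥C → ℂ) c) = (m : ℂ) ∧ (ξ = f χ → ((m : ZMod p) = 1 ∨ (m : ZMod p) = -1)) ∧ (ξ ≠ f χ → p ∣ m)) ∧ ((Cfsg.charDegree ((f χ).1 : ↥C → ℂ) : ZMod p) = (Cfsg.charDegree (χ.1 : ↥K → ℂ) : ZMod p) ∨ (Cfsg.charDegree ((f χ).1 : ↥C → ℂ) : ZMod p) = -(Cfsg.charDegree (χ.1 : ↥K → ℂ) : ZMod p)) := by
  classical
  have hp : p.Prime := Fact.out
  have hKQ : K ≤ Subgroup.normalizer (Q : Set G) := H23.le_normalizer_of_conj_mem hQn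
  obtain ⟨a, ha⟩ := hQp
  have hQP : IsPGroup p Q := IsPGroup.of_card ha
  -- `Q` consists of all `p`-elements of `K`
  have hPQ : P ≤ Subgroup.normalizer (Q : Set G) := by
    refine H23.le_normalizer_of_conj_mem fun x hx q hq => ?_
    have hk : x * q * x⁻¹ ∈ K := H4.conj_mem_of_mem_normalizer (hPK hx) (hQK hq)
    have h1 : (x * q * x⁻¹) ^ Q.relIndex K ∈ Q := H23.pow_relIndex_mem' hKQ hk
    have h2 : (x * q * x⁻¹) ^ p ^ a = 1 := by
      rw [conj_pow, ← ha, H4.pow_card_eq_one_of_mem hq]; simp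
    have hcop : (Q.relIndex K).Coprime (orderOf (x * q * x⁻¹)) :=
      (Nat.Coprime.pow_right a ((Nat.Prime.coprime_iff_not_dvd hp).2 hQsyl).symm).coprime_dvd_right
        (orderOf_dvd_of_pow_eq_one h2)
    obtain ⟨m, hm⟩ := exists_pow_eq_self_of_coprime hcop
    rw [← hm]
    exact pow_mem h1 m
  have H : H23.IsCorr p P hCK := H23.isCorr_of_isPGroup hp hP hPQ hPK hQK hKQ hQsyl hC hCK
  have hQC : Q ≤ C := fun n hn => (hC n).2 ⟨hQK hn, fun x hx =>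
    mul_mem (H4.conj_mem_of_mem_normalizer (hPQ hx) hn) (inv_mem hn)⟩
  have hPC : P ≤ Subgroup.normalizer (C : Set G) := fun y hy =>
    H23.mem_normalizer_of_commutator_mem hQC fun c hc => ((hC c).1 hc).2 y hy
  choose f hf1 hf2 using H.exR
  refine ⟨fun χ => ⟨f χ.1 χ.2, hf1 χ.1 χ.2⟩, ⟨fun χ χ' e => ?_, fun ξ => ?_⟩, fun χ => ⟨fun ξ => ?_, ?_⟩⟩
  · have e' : f χ.1 χ.2 = f χ'.1 χ'.2 := congrArg Subtype.val e
    exact Subtype.ext (H.uniqL _ _ _ χ.2 χ'.2 (hf1 χ.1 χ.2) (hf2 χ.1 χ.2) (e' ▸ hf2 χ'.1 χ'.2))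
  · obtain ⟨χ, hχ, hd⟩ := H.exL ξ.1 ξ.2
    exact ⟨⟨χ, hχ⟩, Subtype.ext (H.uniqR χ _ _ hχ (hf1 χ hχ) ξ.2 (hf2 χ hχ) hd)⟩
  · let _ := Fintype.ofFinite C
    refine ⟨H23.mult hCK χ.1 ξ.1, ?_, ?_, fun hne => ?_⟩
    · rw [finsum_eq_sum_of_fintype]
      exact H23.mult_spec hCK χ.1 ξ.1
    · rintro rfl
      exact H.modEq _ _ χ.2 (hf1 χ.1 χ.2) (hf2 χ.1 χ.2)
    · by_contra hd
      exact hne (Subtype.ext (H.uniqR χ.1 _ _ χ.2 ξ.2 (hf1 χ.1 χ.2) hd (hf2 χ.1 χ.2)))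
  · let _ := Fintype.ofFinite (IrrCharacter C)
    have h1 : charDegree χ.1.1 = ∑ ξ : IrrCharacter C, H23.mult hCK χ.1 ξ * charDegree ξ.1 := by
      have := H23.res_apply_eq_sum hCK χ.1 1
      apply H19.charDegree_eq_of_eq
      push_cast
      simp only [H19.charDegree_cast_irr]
      exact this
    have h2 : (charDegree χ.1.1 : ZMod p) =
        H23.mult hCK χ.1 (f χ.1 χ.2) * charDegree (f χ.1 χ.2).1 := by
      rw [h1, Nat.cast_sum, H23.sum_zmod_eq_single hPC hP _ (fun x ξ => ?_) (hf1 χ.1 χ.2)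
        (fun ξ hξ hne => ?_)]
      · push_cast; rfl
      · rw [H23.mult_cj_right hCK (hPK x.2) (hPC x.2) (χ.2 x x.2),
          H19.charDegree_congr (H23.cj_apply_one C _ ξ)]
      · have : p ∣ H23.mult hCK χ.1 ξ := by
          by_contra hd
          exact hne (H.uniqR χ.1 _ _ χ.2 hξ (hf1 χ.1 χ.2) hd (hf2 χ.1 χ.2))
        rw [ZMod.natCast_eq_zero_iff]
        exact this.mul_right _
    rcases H.modEq _ _ χ.2 (hf1 χ.1 χ.2) (hf2 χ.1 χ.2) with e | e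
    · left; rw [h2, e, one_mul]
    · right; rw [h2, e]; simp

end Cfsg.Agent.S4914
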