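import Cfsg.Statements.S4916
import Cfsg.Agent.H21.Feit

set_option autoImplicit false
open Cfsg

namespace Cfsg.Agent.S4916

open Cfsg Cfsg.Agent.H21

/-- Let G be a finite group, p a prime and M a maximal ideal of the algebraic integers containing p. Then the principal character is the only irreducible character of degree prime to p in the principal p-block of G if and only if p does not divide the order of G. -/
theorem result {G : Type*} [Group G] [Finite G] (p : ℕ) [Fact p.Prime] (M : Ideal Cfsg.AlgInt) (hM : Cfsg.IsPModular p M) : (∀ χ : Cfsg.IrrCharacter G, χ ∈ Cfsg.principalBlock M G → ¬ p ∣ Cfsg.charDegree (χ : G → ℂ) → (χ : G → ℂ) = fun _ => (1 : ℂ)) ↔ ¬ p ∣ Nat.card G := by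
  constructor
  · intro h hp
    obtain ⟨x, hx⟩ := exists_prime_orderOf_dvd_card' p hp
    obtain ⟨χ, h1, h2, h3, -⟩ := exists_ne_not_dvd_deg hM (x := x) (by rw [hx]) hM.1
    exact h2 (Subtype.ext (h χ h1 h3))
  · intro h χ hχ _
    have hd : blockDefect p (principalBlock M G) = 0 := by
      rw [defect_principal hM, Nat.factorization_eq_zero_of_not_dvd h]
    have := eq_singleton_of_defect_zero hM isPBlock_principal hd (triv_mem_principal hM.2.1)
    rw [this] at hχ
    rw [Set.mem_singleton_iff.1 hχ]
    rfl

end Cfsg.Agent.S4916
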