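import Cfsg.Statements.S4923
import Mathlib
import Cfsg.Agent.H11.Kernel
import Cfsg.Agent.H12.Galois
import Cfsg.Agent.H9.Taussky

set_option autoImplicit false
open Cfsg

namespace Cfsg.Agent.S4923


open Cfsg.Agent.H11

theorem fix_of_mem_adjoin {S : Set ℂ} {x : ℂ} (hx : x ∈ IntermediateField.adjoin ℚ S)
    (σ : ℂ ≃+* ℂ) (h : ∀ s ∈ S, σ s = s) : σ x = x := by
  induction hx using IntermediateField.adjoin_induction with
  | mem x hx => exact h x hx
  | algebraMap q => simp
  | add x y _ _ h1 h2 => rw [map_add, h1, h2]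
  | inv x _ h1 => rw [map_inv₀, h1]
  | mul x y _ _ h1 h2 => rw [map_mul, h1, h2]

theorem mem_adjoin_of_fix {S : Set ℂ} {x : ℂ} (hx : IsAlgebraic ℚ x)
    (h : ∀ σ : ℂ ≃+* ℂ, (∀ s ∈ S, σ s = s) → σ x = x) : x ∈ IntermediateField.adjoin ℚ S := by
  obtain ⟨q, hq⟩ := H12.exists_algebraMap_of_forall_algEquiv (F := IntermediateField.adjoin ℚ S)
    (hx.tower_top _) fun σ => h σ.toRingEquiv fun s hs =>
      σ.commutes (⟨s, IntermediateField.subset_adjoin ℚ S hs⟩ : IntermediateField.adjoin ℚ S)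
  rw [hq]; exact q.2

variable {G : Type*} [Group G] [Finite G]

theorem gal_apply {χ : G → ℂ} (hχ : IsCharacter G χ) (g : G) (σ : ℂ ≃+* ℂ) (m : ℕ)
    (h : ∀ z : ℂ, z ^ orderOf g = 1 → σ z = z ^ m) : σ (χ g) = χ (g ^ m) := by
  obtain ⟨s, hs, -, h2⟩ := exists_multiset_eigenvalues hχ g
  have h3 := h2 1
  have h4 := h2 m
  simp only [zpow_one, zpow_natCast] at h3 h4
  rw [h3, h4, map_multiset_sum, Multiset.map_map]
  congr 1
  exact Multiset.map_congr rfl fun ε hε => h ε (hs ε hε)

theorem isAlgebraic_of_pow {z : ℂ} {n : ℕ} (hn : 0 < n) (h : z ^ n = 1) : IsAlgebraic ℚ z :=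
  IsAlgebraic.of_pow hn (by rw [h]; exact isAlgebraic_one)

theorem isAlgebraic_apply {χ : G → ℂ} (hχ : IsCharacter G χ) (g : G) : IsAlgebraic ℚ (χ g) := by
  obtain ⟨s, hs, -, h2⟩ := exists_multiset_eigenvalues hχ g
  have h3 := h2 1
  simp only [zpow_one] at h3
  rw [h3, isAlgebraic_iff_isIntegral]
  refine IsIntegral.multiset_sum fun x hx => ?_
  obtain ⟨ε, hε, rfl⟩ := Multiset.mem_map.1 hx
  exact (isAlgebraic_of_pow (orderOf_pos g) (hs ε hε)).isIntegral

/-- the fixer of the field of values of `g` -/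
theorem fix_iff (g : G) (σ : ℂ ≃+* ℂ) (m : ℕ) (h : ∀ z : ℂ, z ^ orderOf g = 1 → σ z = z ^ m) :
    (∀ s ∈ {z : ℂ | ∃ χ : Cfsg.IrrCharacter G, (χ : G → ℂ) g = z}, σ s = s) ↔ IsConj (g ^ m) g := by
  rw [isConj_iff_forall_irr]
  constructor
  · intro H χ hχ
    rw [← gal_apply (isCharacter_of_irr hχ) g σ m h]
    exact H _ ⟨⟨χ, hχ⟩, rfl⟩
  · rintro H _ ⟨χ, rfl⟩
    rw [gal_apply (irr_isCharacter χ) g σ m h]
    exact H χ χ.2

theorem field_eq (g : G) {N : ℕ} (hg : orderOf g = N) {ζ : ℂ} (hζ : IsPrimitiveRoot ζ N)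
    (s : ℕ) (ε : ℂ) (hε : ε = 1 ∨ ε = -1) (hs : ζ ^ s = ε * ζ⁻¹) (hε' : ε ^ N = 1)
    (hconj : ∀ m : ℕ, IsConj (g ^ m) g ↔ (g ^ m = g ∨ g ^ m = g ^ s)) :
    IntermediateField.adjoin ℚ {z : ℂ | ∃ χ : Cfsg.IrrCharacter G, (χ : G → ℂ) g = z} =
      IntermediateField.adjoin ℚ ({ζ + ε * ζ⁻¹} : Set ℂ) := by
  have hN : 0 < N := hg ▸ orderOf_pos g
  have hζ0 : ζ ≠ 0 := hζ.ne_zero hN.ne'
  have hfin : IsOfFinOrder ζ := hζ.isOfFinOrder hN.ne'
  have hpow : ∀ i j : ℕ, g ^ i = g ^ j ↔ ζ ^ i = ζ ^ j := fun i j => by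
    rw [pow_eq_pow_iff_modEq, hfin.pow_eq_pow_iff_modEq, hg, ← hζ.eq_orderOf]
  have hεε : ε * ε = 1 := by rcases hε with rfl | rfl <;> norm_num
  have key : ∀ σ : ℂ ≃+* ℂ,
      (∀ s ∈ {z : ℂ | ∃ χ : Cfsg.IrrCharacter G, (χ : G → ℂ) g = z}, σ s = s) ↔
        σ (ζ + ε * ζ⁻¹) = ζ + ε * ζ⁻¹ := by
    intro σ
    obtain ⟨m, -, hm⟩ := H12.exists_pow_of_ringHom (σ : ℂ →+* ℂ) hN
    have hm' : ∀ z : ℂ, z ^ N = 1 → σ z = z ^ m := hm
    rw [fix_iff g σ m (hg ▸ hm'), hconj]
    have h1 : σ ε = ε := by rcases hε with rfl | rfl <;> simp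
    rw [map_add, map_mul, map_inv₀, h1, hm' ζ hζ.pow_eq_one]
    conv_lhs => rw [← pow_one g, ← pow_mul, ← pow_mul, one_mul, one_mul, hpow, hpow, pow_one, hs]
    have hw : ζ ^ m ≠ 0 := pow_ne_zero _ hζ0
    generalize ζ ^ m = w at hw
    constructor
    · rintro (rfl | rfl)
      · rfl
      · have hε0 : ε ≠ 0 := by rintro rfl; simp at hεε
        field_simp
        linear_combination (-1 : ℂ) * 0 * hεε
    · intro h
      have h2 : (w - ζ) * (w - ε * ζ⁻¹) = 0 := by
        field_simp at h ⊢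
        linear_combination h
      rcases mul_eq_zero.1 h2 with h3 | h3
      · exact Or.inl (sub_eq_zero.1 h3)
      · exact Or.inr (sub_eq_zero.1 h3)
  apply le_antisymm
  · rw [IntermediateField.adjoin_le_iff]
    rintro _ ⟨χ, rfl⟩
    refine mem_adjoin_of_fix (isAlgebraic_apply (irr_isCharacter χ) g) fun σ hσ => ?_
    exact (key σ).2 (hσ _ rfl) _ ⟨χ, rfl⟩
  · rw [IntermediateField.adjoin_le_iff]
    rintro _ rfl
    refine mem_adjoin_of_fix ?_ fun σ hσ => (key σ).1 hσ
    have h1 := isAlgebraic_of_pow hN hζ.pow_eq_one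
    exact h1.add ((isAlgebraic_of_pow hN hε').mul h1.inv)

/-- Let G be a finite group with Sylow 2-subgroup P of order 2^n ≥ 8, and let ζ be a primitive 2^(n−1)-th root of unity in ℂ. Then the commutator subgroup of P has index 4 in P if and only if there is an element g of P whose conjugacy class in G has even size and such that the field generated over ℚ by the values at g of all irreducible complex characters of G equals ℚ(ζ + ζ⁻¹) or ℚ(ζ − ζ⁻¹). -/
theorem result {G : Type*} [Group G] [Finite G] (P : Sylow 2 G) (n : ℕ) (hn : 3 ≤ n) (hP : Nat.card P = 2 ^ n) (ζ : ℂ) (hζ : IsPrimitiveRoot ζ (2 ^ (n - 1))) :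
    (commutator ↥P).index = 4 ↔
      ∃ g : G, g ∈ (P : Subgroup G) ∧ 2 ∣ (Subgroup.centralizer ({g} : Set G)).index ∧
        (IntermediateField.adjoin ℚ {z : ℂ | ∃ χ : Cfsg.IrrCharacter G, (χ : G → ℂ) g = z} = IntermediateField.adjoin ℚ ({ζ + ζ⁻¹} : Set ℂ) ∨
          IntermediateField.adjoin ℚ {z : ℂ | ∃ χ : Cfsg.IrrCharacter G, (χ : G → ℂ) g = z} = IntermediateField.adjoin ℚ ({ζ - ζ⁻¹} : Set ℂ)) := by
  classical
  change (commutator ↥(P : Subgroup G)).index = 4 ↔ _
  replace hP : Nat.card ↥(P : Subgroup G) = 2 ^ n := hP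
  obtain ⟨k, rfl⟩ : ∃ k, n = k + 2 := ⟨n - 2, by omega⟩
  have hk1 : 1 ≤ k := by omega
  rw [show k + 2 - 1 = k + 1 from rfl] at hζ
  have hζ0 : ζ ≠ 0 := hζ.ne_zero (by positivity)
  have hζk : ζ ^ 2 ^ k = -1 := by
    have h1 : ζ ^ 2 ^ k * ζ ^ 2 ^ k = 1 := by
      rw [← pow_add, ← two_mul, ← pow_succ', hζ.pow_eq_one]
    rcases mul_self_eq_one_iff.1 h1 with h | h
    · have := Nat.le_of_dvd (by positivity) (hζ.dvd_of_pow_eq_one _ h)
      rw [pow_succ] at this
      have : 0 < 2 ^ k := by positivity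
      omega
    · exact h
  constructor
  · intro h4
    rcases H9.taussky P.isPGroup' h4 with h | ⟨a, b, j, hM⟩
    · rw [hP] at h
      have : 2 ^ 3 ≤ 2 ^ (k + 2) := Nat.pow_le_pow_right (by norm_num) hn
      omega
    have hj : j = k := by
      have := hM.card_top
      rw [hP] at this
      have := Nat.pow_right_injective le_rfl this
      omega
    subst hj
    set g : G := a.1 with hg
    have hog : orderOf g = 2 ^ (j + 1) := by rw [hg, Subgroup.orderOf_coe, hM.ord]
    set N := Subgroup.normalizer ((Subgroup.zpowers g : Subgroup G) : Set G) with hN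
    set C := Subgroup.centralizer ((Subgroup.zpowers g : Subgroup G) : Set G) with hC
    have hCm : ∀ x, x ∈ C ↔ x * g * x⁻¹ = g := by
      intro x
      rw [hC, Subgroup.mem_centralizer_iff, mul_inv_eq_iff_eq_mul]
      refine ⟨fun h => (h g (Subgroup.mem_zpowers g)).symm, fun h y hy => ?_⟩
      obtain ⟨i, rfl⟩ := Subgroup.mem_zpowers_iff.1 hy
      exact ((show Commute x g from h).zpow_right i).symm
    have hCC : C = Subgroup.centralizer ({g} : Set G) := by
      ext x
      rw [hCm, Subgroup.mem_centralizer_iff, mul_inv_eq_iff_eq_mul]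
      simp [eq_comm]
    have hNm : ∀ x, x * g * x⁻¹ ∈ Subgroup.zpowers g → x ∈ N := by
      intro x hx
      refine Subgroup.mem_normalizer_fintype fun y hy => ?_
      obtain ⟨i, rfl⟩ := Subgroup.mem_zpowers_iff.1 hy
      rw [← conj_zpow]
      exact zpow_mem hx i
    have hCN : C ≤ N := Subgroup.centralizer_le_normalizer _
    obtain ⟨s, ε, hε, hs, hbs⟩ : ∃ (s : ℕ) (ε : ℂ), (ε = 1 ∨ ε = -1) ∧ ζ ^ s = ε * ζ⁻¹ ∧
        (b : G) * g * (b : G)⁻¹ = g ^ s := by
      have hpos : 1 ≤ 2 ^ (j + 1) := Nat.one_le_two_pow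
      rcases hM.conj with h | ⟨-, h⟩
      · refine ⟨2 ^ (j + 1) - 1, 1, Or.inl rfl, ?_, ?_⟩
        · rw [pow_sub₀ _ hζ0 hpos, hζ.pow_eq_one, pow_one]
        · rw [pow_sub _ hpos, ← hog, pow_orderOf_eq_one, pow_one, one_mul]
          exact congrArg Subtype.val h
      · refine ⟨2 ^ j - 1, -1, Or.inr rfl, ?_, ?_⟩
        · rw [pow_sub₀ _ hζ0 Nat.one_le_two_pow, hζk, pow_one]
        · rw [← H9.inv_mul_pow_eq g Nat.one_le_two_pow]
          exact congrArg Subtype.val h
    have hbN : (b : G) ∈ N := hNm _ (by rw [hbs]; exact Subgroup.npow_mem_zpowers g s)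
    have hbC : (b : G) ∉ C := by
      rw [hCm, mul_inv_eq_iff_eq_mul]
      exact fun h => hM.not_commute (Subtype.ext h)
    have hrel : C.relIndex N = 2 := by
      have h1 : C.relIndex N ∣ 2 ^ j := by
        have h2 := Subgroup.index_ker (Subgroup.zpowers g).normalizerMonoidHom
        rw [Subgroup.normalizerMonoidHom_ker] at h2
        have h3 : Nat.card (MulAut (Subgroup.zpowers g)) = 2 ^ j := by
          rw [IsCyclic.card_mulAut, Nat.card_zpowers, hog, Nat.totient_prime_pow_succ Nat.prime_two]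
          simp
        rw [← h3, Subgroup.relIndex, h2]
        exact Subgroup.card_subgroup_dvd_card _
      obtain ⟨i, -, hi⟩ := (Nat.dvd_prime_pow Nat.prime_two).1 h1
      have h4 : 2 ^ (j + 1) ∣ Nat.card C := by
        rw [← hog, ← Nat.card_zpowers]
        refine Subgroup.card_dvd_of_le (Subgroup.zpowers_le.2 ((hCm g).2 (by group)))
      have h5 : 2 ^ (j + 1 + i) ∣ Nat.card G := by
        rw [pow_add, ← hi]
        refine (Nat.mul_dvd_mul_right h4 _).trans ?_
        have : Nat.card C * C.relIndex N = Nat.card N := by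
          rw [Subgroup.relIndex, ← Subgroup.card_mul_index (C.subgroupOf N),
            Nat.card_congr (Subgroup.subgroupOfEquivOfLe hCN).toEquiv]
        rw [this]; exact Subgroup.card_subgroup_dvd_card N
      have h6 := P.pow_dvd_card_of_pow_dvd_card h5
      rw [hP, Nat.pow_dvd_pow_iff_le_right (by norm_num)] at h6
      have h7 : i ≠ 0 := by
        rintro rfl
        rw [pow_zero, Subgroup.relIndex_eq_one] at hi
        exact hbC (hi hbN)
      rw [hi, show i = 1 by omega, pow_one]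
    have hconj : ∀ m : ℕ, IsConj (g ^ m) g ↔ (g ^ m = g ∨ g ^ m = g ^ s) := by
      intro m
      constructor
      · intro h
        obtain ⟨x, hx⟩ := isConj_iff.1 h.symm
        have hxN : x ∈ N := hNm x (by rw [hx]; exact Subgroup.npow_mem_zpowers g m)
        by_cases hxC : x ∈ C
        · exact Or.inl (by rw [← hx, (hCm x).1 hxC])
        · right
          have h1 : (⟨b, hbN⟩ : N)⁻¹ * ⟨x, hxN⟩ ∈ C.subgroupOf N := by
            rw [Subgroup.mul_mem_iff_of_index_two hrel, inv_mem_iff]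
            simp [Subgroup.mem_subgroupOf, hbC, hxC]
          have h2 := (hCm _).1 (Subgroup.mem_subgroupOf.1 h1)
          rw [← hx, ← hbs]
          conv_rhs => rw [← h2]
          simp only [Subgroup.coe_mul, Subgroup.coe_inv]
          group
      · rintro (h | h)
        · rw [h]
        · rw [h, ← hbs]; exact (isConj_iff.2 ⟨(b : G), rfl⟩).symm
    refine ⟨g, a.2, ?_, ?_⟩
    · rw [← hCC, ← hrel]; exact Subgroup.relIndex_dvd_index_of_le hCN
    · have hε' : ε ^ 2 ^ (j + 1) = 1 := by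
        rcases hε with rfl | rfl
        · simp
        · rw [pow_succ', pow_mul]; simp
      have := field_eq g hog hζ s ε hε hs hε' hconj
      rcases hε with rfl | rfl
      · left; simpa using this
      · right; simpa [sub_eq_add_neg] using this
  · rintro ⟨g, hgP, h2, hfield⟩
    have hna : ∃ x y : (P : Subgroup G), x * y ≠ y * x := by
      by_contra hc
      push Not at hc
      have : (P : Subgroup G) ≤ Subgroup.centralizer {g} := by
        intro x hx
        rw [Subgroup.mem_centralizer_iff]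
        rintro _ rfl
        exact congrArg Subtype.val (hc ⟨_, hgP⟩ ⟨x, hx⟩)
      exact P.not_dvd_index (h2.trans (Subgroup.index_dvd_of_le this))
    have hncyc : ¬ IsCyclic (P : Subgroup G) := by
      intro h
      obtain ⟨x, y, hxy⟩ := hna
      letI := h.commGroup
      exact hxy (mul_comm x y)
    by_cases hk : k = 1
    · subst hk
      have h1 := H9.sq_le_index_commutator P.isPGroup' (by rw [hP]; norm_num)
      have h3 : (commutator (P : Subgroup G)).index ∣ 2 ^ 3 := hP ▸ Subgroup.index_dvd_card _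
      obtain ⟨i, hi, hi'⟩ := (Nat.dvd_prime_pow Nat.prime_two).1 h3
      have h4 : i ≠ 3 := by
        rintro rfl
        have h5 := (commutator (P : Subgroup G)).card_mul_index
        rw [hi', hP] at h5
        have h6 : commutator (P : Subgroup G) = ⊥ := Subgroup.eq_bot_of_card_eq _ (by omega)
        obtain ⟨x, y, hxy⟩ := hna
        apply hxy
        rw [← commutatorElement_eq_one_iff_mul_comm, ← Subgroup.mem_bot, ← h6]
        exact Subgroup.commutator_mem_commutator (Subgroup.mem_top _) (Subgroup.mem_top _)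
      rw [hi'] at h1 ⊢
      interval_cases i <;> simp_all
    have hk2 : 2 ≤ k := by omega
    set a : (P : Subgroup G) := ⟨g, hgP⟩ with ha
    have hoa : orderOf a = orderOf g := (Subgroup.orderOf_coe a).symm
    obtain ⟨i, hi, hi'⟩ := (Nat.dvd_prime_pow Nat.prime_two).1 (hP ▸ orderOf_dvd_natCard a)
    have hi2 : i ≠ k + 2 := by
      rintro rfl
      exact hncyc (isCyclic_of_orderOf_eq_card a (by rw [hi', hP]))
    obtain ⟨σ, hσ⟩ := H12.exists_ringEquiv_pow (n := 2 ^ (k + 1)) (m := 1 + 2 ^ k) (by positivity)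
      (by
        refine Nat.Coprime.pow_right _ ((Nat.coprime_two_right).2 ?_)
        exact Odd.add_even odd_one (Nat.even_pow.2 ⟨even_two, by omega⟩))
    have hσg : ∀ z : ℂ, z ^ orderOf g = 1 → σ z = z ^ (1 + 2 ^ k) := by
      intro z hz
      apply hσ
      obtain ⟨c, hc⟩ : orderOf g ∣ 2 ^ (k + 1) := by
        rw [← hoa, hi']; exact Nat.pow_dvd_pow 2 (by omega)
      rw [hc, pow_mul, hz, one_pow]
    have hσζ : σ ζ = -ζ := by rw [hσ ζ hζ.pow_eq_one, pow_add, hζk]; ring
    have hnc : ¬ IsConj (g ^ (1 + 2 ^ k)) g := by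
      intro h
      have h1 := (fix_iff g σ _ hσg).2 h
      have h4 : ¬ ζ ^ 4 = 1 := by
        intro h5
        have h6 := Nat.le_of_dvd (by norm_num) (hζ.dvd_of_pow_eq_one _ h5)
        have : 2 ^ 3 ≤ 2 ^ (k + 1) := Nat.pow_le_pow_right (by norm_num) (by omega)
        omega
      rcases hfield with hf | hf
      · have h3 := fix_of_mem_adjoin (x := ζ + ζ⁻¹)
          (by rw [hf]; exact IntermediateField.subset_adjoin ℚ _ rfl) σ h1
        rw [map_add, map_inv₀, hσζ] at h3
        apply h4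
        field_simp at h3
        have : ζ ^ 2 = -1 := by linear_combination (-1 / 2 : ℂ) * h3
        rw [show 4 = 2 * 2 from rfl, pow_mul, this]; norm_num
      · have h3 := fix_of_mem_adjoin (x := ζ - ζ⁻¹)
          (by rw [hf]; exact IntermediateField.subset_adjoin ℚ _ rfl) σ h1
        rw [map_sub, map_inv₀, hσζ] at h3
        apply h4
        field_simp at h3
        have : ζ ^ 2 = 1 := by linear_combination (-1 / 2 : ℂ) * h3
        rw [show 4 = 2 * 2 from rfl, pow_mul, this]; norm_num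
    have hik : i = k + 1 := by
      by_contra hne
      apply hnc
      have : g ^ 2 ^ k = 1 := by
        rw [← orderOf_dvd_iff_pow_eq_one, ← hoa, hi']; exact Nat.pow_dvd_pow 2 (by omega)
      rw [pow_add, this, pow_one, mul_one]
    subst hik
    have hidx : (Subgroup.zpowers a).index = 2 :=
      H9.index_zpowers_eq_two hi' (by positivity) (by rw [hP]; ring)
    obtain ⟨c, b, j, hc, hM | ⟨-, hoc, -, -, hb⟩⟩ :=
      H9.MC_or_modular P.isPGroup' inferInstance hidx hna
    · exact hM.index_commutator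
    · exfalso
      apply hnc
      have hj : j = k := by
        rw [← Nat.card_zpowers, hc, Nat.card_zpowers, hi'] at hoc
        have := Nat.pow_right_injective le_rfl hoc
        omega
      subst hj
      obtain ⟨t, ht⟩ := Subgroup.mem_zpowers_iff.1 (hc ▸ Subgroup.mem_zpowers a : a ∈ Subgroup.zpowers c)
      have h1 : b * a * b⁻¹ = a ^ (1 + 2 ^ j) := by
        rw [← ht, ← conj_zpow, hb, ← zpow_natCast, ← zpow_mul, mul_comm, zpow_mul, zpow_natCast]
      exact (isConj_iff.2 ⟨(b : G), congrArg Subtype.val h1⟩).symm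

end Cfsg.Agent.S4923
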