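import Cfsg.Statements.S4931
import Cfsg.Agent.H24.Ito
import Cfsg.Agent.H8.Tate
import Cfsg.Agent.H3.Frattini

set_option autoImplicit false
open Cfsg

namespace Cfsg.Agent.S4931


open Cfsg.Agent.H11 Cfsg.Agent.H24 Subgroup
open scoped commutatorElement Pointwise

theorem npc {L : Type*} [Group L] [Finite L] {p : ℕ} [Fact p.Prime] (P : Sylow p L)
    (hN : normalizer ((P : Subgroup L) : Set L) ≤ P) (R : Subgroup L) [R.Normal]
    (h1 : ⁅(P : Subgroup L), (P : Subgroup L)⁆ ≤ R)
    (h2 : R ⊓ P ≤ ⁅(P : Subgroup L), (P : Subgroup L)⁆) : Cfsg.HasNormalPComplement p L := by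
  set f := QuotientGroup.mk' R with hf
  have hs : Function.Surjective f := QuotientGroup.mk'_surjective R
  set Q := P.mapSurjective hs with hQ
  have hQ' : (Q : Subgroup (L ⧸ R)) = (P : Subgroup L).map f := rfl
  have h3 : Cfsg.HasNormalPComplement p (L ⧸ R) := by
    apply H8.hasNormalPComplement_of_normalizer_le_centralizer Q
    intro y hy
    obtain ⟨g, rfl⟩ := hs y
    have h4 : g ∈ normalizer ((((P : Subgroup L).map f).comap f : Subgroup L) : Set L) :=
      le_normalizer_comap f hy
    obtain ⟨t, ht, m, hm, rfl⟩ := (H8.isSylowIn_of_le P (le_comap_map f _)).frattini h4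
    have h5 : f (t * m) ∈ (P : Subgroup L).map f := by
      rw [map_mul]; exact mul_mem ht (mem_map_of_mem f (hN hm))
    obtain ⟨a, ha, hae⟩ := h5
    rw [← hae, mem_centralizer_iff]
    rintro _ ⟨b, hb, rfl⟩
    rw [← map_mul, ← map_mul, hf, QuotientGroup.mk'_apply, QuotientGroup.mk'_apply,
      QuotientGroup.eq]
    apply h1
    have := commutator_mem_commutator (inv_mem ha) (inv_mem hb)
    convert this using 1
    simp only [commutatorElement_def, inv_inv, mul_inv_rev, mul_assoc]
  apply H8.hasNormalPComplement_of_inf_pResidual_le_frattini P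
  intro x hx
  have h4 := (H8.hasNormalPComplement_iff_inf_eq_bot Q).1 h3
  have h5 : f x ∈ (Q : Subgroup (L ⧸ R)) ⊓ Cfsg.pResidual p (L ⧸ R) :=
    ⟨mem_map_of_mem f x.2, H8.map_pResidual_le p f (mem_map_of_mem f hx)⟩
  rw [h4, mem_bot, hf, QuotientGroup.mk'_apply, QuotientGroup.eq_one_iff] at h5
  obtain ⟨y, hy, hxy⟩ := H3.commutator_le_map_frattini P.isPGroup' (h2 ⟨h5, x.2⟩)
  rwa [show x = y from Subtype.ext hxy.symm]

/-- Let G be a finite group, p a prime and P a Sylow p-subgroup of G with normalizer N. Then every irreducible complex character of N of degree not divisible by p is the restriction of an irreducible character of G if and only if there is a normal subgroup K of G with KN = G and K ∩ N = 1. -/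
theorem result {G : Type*} [Group G] [Finite G] (p : ℕ) [Fact p.Prime] (P : Sylow p G) :
    (∀ θ : Cfsg.IrrCharacter ↥(Subgroup.normalizer ((P : Subgroup G) : Set G)), ¬ p ∣ Cfsg.charDegree (θ : ↥(Subgroup.normalizer ((P : Subgroup G) : Set G)) → ℂ) →
        ∃ χ : Cfsg.IrrCharacter G, ∀ x : ↥(Subgroup.normalizer ((P : Subgroup G) : Set G)), (χ : G → ℂ) x = (θ : ↥(Subgroup.normalizer ((P : Subgroup G) : Set G)) → ℂ) x) ↔
      ∃ K : Subgroup G, K.Normal ∧ K ⊔ Subgroup.normalizer ((P : Subgroup G) : Set G) = ⊤ ∧ K ⊓ Subgroup.normalizer ((P : Subgroup G) : Set G) = ⊥ := by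
  have hp : p.Prime := Fact.out
  set N := Subgroup.normalizer ((P : Subgroup G) : Set G) with hN
  have hPN : (P : Subgroup G) ≤ N := le_normalizer
  constructor
  · intro h
    have key : ∀ D : Subgroup G, ⁅(P : Subgroup G), (P : Subgroup G)⁆ ≤ D →
        N ≤ normalizer (D : Set G) → D ≤ N → normalClosure (D : Set G) ⊓ N ≤ D := by
      intro D hD1 hD2 hD3 x hx
      by_contra hxD
      have hn : (D.subgroupOf N).Normal := (normal_subgroupOf_iff_le_normalizer hD3).2 hD2
      obtain ⟨θ, hθ, h1, h2⟩ := exists_irr_le_charKer_not_mem (D.subgroupOf N)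
        (g := ⟨x, hx.2⟩) hxD
      have h3 : ¬ p ∣ Cfsg.charDegree θ := by
        obtain ⟨ψ, hψ, h3⟩ := exists_irr_lift hθ _ h1
        rw [← deg_congr (χ := ψ) (h3 1)]
        have hPn : ((P : Subgroup G).subgroupOf N).Normal := normal_in_normalizer
        have hAn : (((P : Subgroup G).subgroupOf N).map
            (QuotientGroup.mk' (D.subgroupOf N))).Normal :=
          hPn.map _ (QuotientGroup.mk'_surjective _)
        refine not_dvd_cd_of_normal_abelian (((P : Subgroup G).subgroupOf N).map
          (QuotientGroup.mk' (D.subgroupOf N))) ?_ ?_ _ (deg_mem_cd hψ)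
        · rintro _ ⟨a, ha, rfl⟩ _ ⟨b, hb, rfl⟩
          rw [← map_mul, ← map_mul, QuotientGroup.mk'_apply, QuotientGroup.mk'_apply,
            QuotientGroup.eq, mem_subgroupOf]
          apply hD1
          have := commutator_mem_commutator (inv_mem (mem_subgroupOf.1 hb))
            (inv_mem (mem_subgroupOf.1 ha))
          convert this using 1
          simp only [commutatorElement_def, inv_inv, mul_inv_rev, mul_assoc, coe_mul, coe_inv]
        · intro h4
          exact (H8.isSylowIn_of_le P hPN).not_dvd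
            (h4.trans (index_map_dvd _ (QuotientGroup.mk'_surjective _)))
      obtain ⟨χ, hχ⟩ := h ⟨θ, hθ⟩ h3
      have h4 := charKer_normal (isClassFunction_of_irr χ.2)
      have h5 : normalClosure (D : Set G) ≤ charKer χ.1 := by
        apply normalClosure_le_normal
        intro d hd
        have h6 := apply_eq_of_mem_charKer (h1 (show (⟨d, hD3 hd⟩ : N) ∈ D.subgroupOf N from hd))
        exact (mem_charKer_irr_iff χ.2).2 ((hχ ⟨d, hD3 hd⟩).trans (h6.trans (hχ 1).symm))
      apply h2
      rw [mem_charKer_irr_iff hθ]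
      exact (hχ ⟨x, hx.2⟩).symm.trans ((apply_eq_of_mem_charKer (h5 hx.1)).trans (hχ 1))
    have h1 := key P (commutator_le_self _) le_rfl hPN
    have h2 := key ⁅(P : Subgroup G), (P : Subgroup G)⁆ le_rfl (by
      intro g hg
      rw [H8.mem_normalizer_iff_conj_smul_eq] at hg ⊢
      rw [H8.commutator_conj_smul, hg]) ((commutator_le_self _).trans hPN)
    set L := normalClosure ((P : Subgroup G) : Set G) with hL
    set R := normalClosure ((⁅(P : Subgroup G), (P : Subgroup G)⁆ : Subgroup G) : Set G) with hR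
    have hPL : (P : Subgroup G) ≤ L := le_normalClosure
    have hS := H8.isSylowIn_of_le P hPL
    have hc : (⁅(P : Subgroup G).subgroupOf L, (P : Subgroup G).subgroupOf L⁆).map L.subtype =
        ⁅(P : Subgroup G), (P : Subgroup G)⁆ := by
      rw [map_commutator, subgroupOf_map_subtype, inf_eq_left.2 hPL]
    have h3 : Cfsg.HasNormalPComplement p L := by
      refine npc hS.toSylow ?_ (R.subgroupOf L) ?_ ?_
      · rw [hS.coe_toSylow, ← subgroupOf_normalizer_eq hPL]
        intro x hx
        exact h1 ⟨x.2, hx⟩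
      · rw [hS.coe_toSylow]
        exact map_le_iff_le_comap.1 (hc.le.trans le_normalClosure)
      · rw [hS.coe_toSylow]
        intro x hx
        have h4 := h2 ⟨hx.1, hPN hx.2⟩
        rw [← hc] at h4
        obtain ⟨y, hy, hxy⟩ := h4
        rwa [show x = y from Subtype.ext hxy.symm]
    refine ⟨(Cfsg.pResidual p L).map L.subtype, inferInstance, ?_, ?_⟩
    · rw [eq_top_iff, ← H3.frattini_argument hPL P.isPGroup' hS.not_dvd]
      refine sup_le le_sup_right fun g hg => ?_
      obtain ⟨s, hs, k, hk, rfl⟩ := hS.exists_mul_of_forall_coprime_mem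
        (K := (Cfsg.pResidual p L).map L.subtype)
        (fun g hg hc => H8.mem_map_subtype_pResidual hg hc) hg
      exact mul_mem (mem_sup_right (hPN hs)) (mem_sup_left hk)
    · rw [eq_bot_iff]
      intro x hx
      exact H8.eq_one_of_mem_of_coprime P.isPGroup' (h1 ⟨map_subtype_le _ hx.1, hx.2⟩)
        (H8.hasNormalPComplement_subgroup_iff.1 h3 x hx.1)
  · rintro ⟨K, hK, h1, h2⟩ θ -
    have hc := H3.isComplement'_of_inf_eq_bot_of_sup_eq_top h2 h1
    refine ⟨⟨fun g => θ.1 ((hc.symm.QuotientMulEquiv.toMonoidHom.comp (QuotientGroup.mk' K)) g),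
      isIrrCharacter_comp_of_surjective θ.2 _
        (hc.symm.QuotientMulEquiv.surjective.comp (QuotientGroup.mk'_surjective K))⟩, fun x => ?_⟩
    exact congrArg θ.1 (hc.symm.QuotientMulEquiv.apply_symm_apply x)

end Cfsg.Agent.S4931
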