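import Cfsg.Statements.S4930
import Cfsg.Agent.S4931
import Cfsg.Agent.H24.PKer

set_option autoImplicit false
open Cfsg

namespace Cfsg.Agent.S4930

open Cfsg.Agent.H11 Cfsg.Agent.H24 Subgroup
open scoped commutatorElement

/-- with a normal Sylow subgroup the `p'`-degree characters are those of `N / P'` -/
theorem nd_iff {N : Type*} [Group N] [Finite N] {p : ℕ} [hp : Fact p.Prime] (P : Subgroup N)
    [P.Normal] (h1 : IsPGroup p P) (h2 : ¬ p ∣ P.index) {θ : N → ℂ} (hθ : IsIrrCharacter N θ) :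
    ¬ p ∣ charDegree θ ↔ ⁅P, P⁆ ≤ charKer θ := by
  have := Fintype.ofFinite P
  constructor
  · intro h
    rw [← map_subtype_commutator, map_le_iff_le_comap, ← charKer_comp (isCharacter_of_irr hθ)]
    intro x hx
    refine (mem_charKer_iff_forall_constituent (isCharacter_restrict (isCharacter_of_irr hθ) P)).2
      fun ψ hψ a => (deg_eq_one_iff_commutator_le hψ).1 ?_ hx
    obtain ⟨k, hk⟩ := exists_deg_eq_pow_of_isPGroup h1 hψ
    rcases k with _ | k
    · exact hk
    · exact absurd ((Dvd.intro_left _ (pow_succ p k).symm).trans (hk ▸ deg_dvd_of_over P hθ hψ a)) h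
  · intro h
    obtain ⟨ψ, hψ, h3⟩ := exists_irr_lift hθ _ h
    rw [← deg_congr (χ := ψ) (h3 1)]
    have hs := QuotientGroup.mk'_surjective ⁅P, P⁆
    have hA : (P.map (QuotientGroup.mk' ⁅P, P⁆)).Normal := Normal.map inferInstance _ hs
    refine not_dvd_cd_of_normal_abelian (P.map (QuotientGroup.mk' ⁅P, P⁆)) ?_
      (fun h4 => h2 (h4.trans (index_map_dvd _ hs))) _ (deg_mem_cd hψ)
    rintro _ ⟨a, ha, rfl⟩ _ ⟨b, hb, rfl⟩
    rw [← commutatorElement_eq_one_iff_mul_comm, ← map_commutatorElement, QuotientGroup.mk'_apply,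
      QuotientGroup.eq_one_iff]
    exact commutator_mem_commutator ha hb

open Classical in
/-- the comparison with a subgroup of `p'`-index -/
theorem cmp {G : Type*} [Group G] [Finite G] [Fintype (IrrCharacter G)] {p : ℕ} (hp : p.Prime)
    (N : Subgroup G) [Fintype (IrrCharacter N)] (h : ¬ p ∣ N.index) :
    ∑ θ : IrrCharacter N with ¬ p ∣ charDegree θ.1, charDegree θ.1 ^ 2 ≤
      ∑ χ : IrrCharacter G with ¬ p ∣ charDegree χ.1, charDegree χ.1 ^ 2 ∧
    (∑ θ : IrrCharacter N with ¬ p ∣ charDegree θ.1, charDegree θ.1 ^ 2 =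
      ∑ χ : IrrCharacter G with ¬ p ∣ charDegree χ.1, charDegree χ.1 ^ 2 →
      ∀ θ : IrrCharacter N, ¬ p ∣ charDegree θ.1 → ∃ χ : IrrCharacter G, ∀ x : N, χ.1 x = θ.1 x) := by
  have := Fintype.ofFinite G
  have := Fintype.ofFinite N
  have ex : ∀ θ : IrrCharacter N, ∃ χ : IrrCharacter G, ¬ p ∣ charDegree θ.1 →
      ¬ p ∣ charDegree χ.1 ∧ classInner (fun n : N => χ.1 n) θ.1 ≠ 0 := fun θ => by
    by_contra hc
    push Not at hc
    obtain ⟨h1, -⟩ := hc ⟨_, isIrrCharacter_one⟩
    have hθ := isCharacter_of_irr θ.2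
    have := dvd_deg_of_forall_constituent (H14.IsCharacter.indFun N hθ) (d := p) fun ψ hψ a => by
      by_contra h2
      rw [H14.classInner_indFun_left N _ (isClassFunction_of_irr hψ), classInner_ne_zero_comm] at a
      exact a ((hc ⟨ψ, hψ⟩).2 h2)
    rw [deg_indFun N hθ] at this
    exact (hp.dvd_mul.1 this).elim h h1
  choose f hf using ex
  set S := Finset.univ.filter fun θ : IrrCharacter N => ¬ p ∣ charDegree θ.1 with hS
  have mS : ∀ {θ}, θ ∈ S → ¬ p ∣ charDegree θ.1 := fun a => (Finset.mem_filter.1 a).2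
  have l1 : ∀ θ ∈ S, charDegree θ.1 ^ 2 ≤ charDegree θ.1 * charDegree (f θ).1 := fun θ a => by
    rw [sq]
    exact Nat.mul_le_mul_left _ (deg_le_of_over N (isCharacter_of_irr (f θ).2) θ.2 (hf θ (mS a)).2)
  have l2 : ∑ θ ∈ S, charDegree θ.1 * charDegree (f θ).1 ≤
      ∑ χ : IrrCharacter G with ¬ p ∣ charDegree χ.1, charDegree χ.1 ^ 2 := by
    rw [← Finset.sum_fiberwise_of_maps_to (g := f) (t := Finset.univ.filter fun χ : IrrCharacter G =>
      ¬ p ∣ charDegree χ.1) fun θ a => Finset.mem_filter.2 ⟨Finset.mem_univ _, (hf θ (mS a)).1⟩]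
    refine Finset.sum_le_sum fun χ _ => ?_
    rw [Finset.sum_congr rfl fun θ a => by rw [(Finset.mem_filter.1 a).2], ← Finset.sum_mul, sq]
    refine Nat.mul_le_mul_right _ ?_
    have hr := isCharacter_restrict (isCharacter_of_irr χ.2) N
    obtain ⟨m, hm, -⟩ := exists_eq_sum_nat hr
    rw [← deg_res N χ.1, deg_eq_sum hr hm]
    refine (Finset.sum_le_sum fun θ a => ?_).trans (Finset.sum_le_sum_of_subset (Finset.subset_univ _))
    obtain ⟨a1, a2⟩ := Finset.mem_filter.1 a
    have := (hf θ (mS a1)).2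
    rw [a2, hm] at this
    exact Nat.le_mul_of_pos_left _ (Nat.pos_of_ne_zero (by exact_mod_cast this))
  refine ⟨(Finset.sum_le_sum l1).trans l2, fun e θ a => ⟨f θ, congrFun ?_⟩⟩
  have := (Finset.sum_eq_sum_iff_of_le l1).1 (le_antisymm (Finset.sum_le_sum l1) (l2.trans e.ge)) θ
    (Finset.mem_filter.2 ⟨Finset.mem_univ _, a⟩)
  rw [sq] at this
  exact res_eq_of_over_of_deg_le N (isCharacter_of_irr (f θ).2) θ.2 (hf θ a).2
    (Nat.eq_of_mul_eq_mul_left (deg_pos θ.2) this).ge

/-- Let G be a finite group, P a Sylow 2-subgroup of G with normalizer N, and P′ the commutator subgroup of P. Then the sum of the squares of the degrees of the irreducible complex characters of G of odd degree is at least the index of P′ in N (the order of N divided by the order of P′), and equality holds if and only if N has a normal complement in G: a normal subgroup K of G with K ∩ N = 1 and KN = G. -/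
theorem result {G : Type*} [Group G] [Finite G] (P : Sylow 2 G) :
    Nat.card (Subgroup.normalizer ((P : Subgroup G) : Set G)) ≤ Nat.card (commutator ↥P) * (∑ᶠ χ : {χ : Cfsg.IrrCharacter G // ¬ 2 ∣ Cfsg.charDegree (χ : G → ℂ)}, Cfsg.charDegree (χ.1 : G → ℂ) ^ 2) ∧
    (Nat.card (Subgroup.normalizer ((P : Subgroup G) : Set G)) = Nat.card (commutator ↥P) * (∑ᶠ χ : {χ : Cfsg.IrrCharacter G // ¬ 2 ∣ Cfsg.charDegree (χ : G → ℂ)}, Cfsg.charDegree (χ.1 : G → ℂ) ^ 2) ↔
      ∃ K : Subgroup G, K.Normal ∧ K ⊓ Subgroup.normalizer ((P : Subgroup G) : Set G) = ⊥ ∧ K ⊔ Subgroup.normalizer ((P : Subgroup G) : Set G) = ⊤) := by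
  classical
  have := Fintype.ofFinite (IrrCharacter G)
  have h31 := S4931.result 2 P
  set N := Subgroup.normalizer ((P : Subgroup G) : Set G) with hN
  have := Fintype.ofFinite (IrrCharacter N)
  have hPN : (P : Subgroup G) ≤ N := le_normalizer
  have hPn : ((P : Subgroup G).subgroupOf N).Normal := normal_in_normalizer
  have e1 : Nat.card N = Nat.card (commutator ↥P) *
      ∑ θ : IrrCharacter N with ¬ 2 ∣ charDegree θ.1, charDegree θ.1 ^ 2 := by
    rw [Finset.filter_congr fun θ _ => nd_iff ((P : Subgroup G).subgroupOf N)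
      (P.isPGroup'.comap_subtype) (H8.isSylowIn_of_le P hPN).not_dvd θ.2, sum_deg_sq_le_charKer,
      ← card_mul_index ⁅(P : Subgroup G).subgroupOf N, (P : Subgroup G).subgroupOf N⁆,
      ← card_map_of_injective N.subtype_injective, map_commutator, subgroupOf_map_subtype,
      inf_eq_left.2 hPN, ← map_subtype_commutator, card_map_of_injective (subtype_injective _)]
    rfl
  obtain ⟨c1, c2⟩ := cmp Nat.prime_two N fun h => P.not_dvd_index (h.trans (index_dvd_of_le hPN))
  rw [finsum_eq_sum_of_fintype, ← Finset.sum_subtype (Finset.univ.filter fun χ : IrrCharacter G =>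
    ¬ 2 ∣ charDegree χ.1) (by simp) fun χ : IrrCharacter G => charDegree χ.1 ^ 2, e1]
  refine ⟨Nat.mul_le_mul_left _ c1, fun e => ?_, ?_⟩
  · obtain ⟨K, a, b, c⟩ := h31.1 (c2 (Nat.eq_of_mul_eq_mul_left Nat.card_pos e))
    exact ⟨K, a, c, b⟩
  · rintro ⟨K, hK, h2, h1⟩
    have hc := H3.isComplement'_of_inf_eq_bot_of_sup_eq_top h2 h1
    have := Fintype.ofFinite (IrrCharacter (G ⧸ K))
    have k : ∀ χ : IrrCharacter G, ¬ 2 ∣ charDegree χ.1 → K ≤ charKer χ.1 := fun χ =>
      le_charKer_of_inf_centralizer_eq_bot P.isPGroup' (eq_bot_iff.2 (h2 ▸ inf_le_inf_left _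
        (centralizer_le_normalizer _))) χ.2
    congr 1
    rw [Finset.sum_filter, ← Finset.filter_true_of_mem (s := Finset.univ.filter _) fun χ a =>
      k χ (Finset.mem_filter.1 a).2, Finset.filter_comm, Finset.sum_filter,
      sum_irr_le_charKer K fun χ => if ¬ 2 ∣ charDegree χ then charDegree χ ^ 2 else 0]
    exact Fintype.sum_equiv (irrEquivOfMulEquiv hc.symm.QuotientMulEquiv) _ _ fun θ => by
      rw [deg_congr (χ := fun g : G => (irrEquivOfMulEquiv hc.symm.QuotientMulEquiv θ).1 g)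
        (ψ := θ.1) (congrArg θ.1 (map_one _))]

end Cfsg.Agent.S4930
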