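import Cfsg.Statements.S4937
import Cfsg.Agent.H21.Principal
import Cfsg.Agent.H22.Dade
import Cfsg.Agent.H24.Deg
import Cfsg.Agent.H72.DetExt
import Cfsg.Agent.H16.BrauerBlock

set_option autoImplicit false
open Cfsg

namespace Cfsg.Agent.S4937

open Cfsg.Agent.H21
open scoped ComplexConjugate

variable {p : ℕ} {M : Ideal AlgInt}

open Classical in
/-- The sum of `ψ` over the `p`-regular elements of a fibre of `f`. -/
noncomputable def fib (p : ℕ) {J S : Type*} [Group J] [Fintype J] [Group S] (f : J →* S)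
    (ψ : J → ℂ) (x : S) : ℂ := ∑ g, if f g = x then pRegularPart p ψ g else 0

section

variable {J S : Type*} [Group J] [Fintype J] [Group S] (f : J →* S)

theorem fib_mul (ψ : J → ℂ) (β : S → ℂ) (x : S) :
    fib p f (fun g => β (f g) * ψ g) x = β x * fib p f ψ x := by
  rw [fib, fib, Finset.mul_sum]
  refine Finset.sum_congr rfl fun g _ => ?_
  simp only [preg_apply]
  split_ifs with h h' <;> simp [h]

theorem sum_fib [Fintype S] (ψ : J → ℂ) : ∑ x, fib p f ψ x = regSum p ψ := by
  simp only [fib]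
  rw [Finset.sum_comm, regSum_def]
  refine Finset.sum_congr rfl fun g _ => ?_
  rw [Finset.sum_eq_single (f g) (fun x _ h => if_neg h.symm) (by simp), if_pos rfl]

theorem fib_eq_zero (ψ : J → ℂ) {x : S} (hx : p ∣ orderOf x) : fib p f ψ x = 0 :=
  Finset.sum_eq_zero fun g _ => by
    split_ifs with h
    · exact preg_of_sing _ ((h ▸ hx).trans (orderOf_map_dvd f g))
    · rfl

theorem fib_comp {K : Type*} [Group K] [Fintype K] {ι : K →* J} (hι : Function.Injective ι)
    (ψ : J → ℂ) {T : Type*} [Group T] (f' : K →* T) {x : S} {y : T}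
    (h : ∀ k, f' k = y ↔ f (ι k) = x) (h' : ∀ g, f g = x → g ∈ ι.range) :
    fib p f' (fun k => ψ (ι k)) y = fib p f ψ x := by
  refine Fintype.sum_of_injective ι hι _ _ (fun g hg => if_neg fun h1 => hg (h' g h1)) fun k => ?_
  simp only [preg_apply, orderOf_injective ι hι]
  rw [propext (h k)]

theorem fib_isClassFunction (hf : Function.Surjective f) {ψ : J → ℂ} (hψ : IsClassFunction J ψ) :
    IsClassFunction S (fib p f ψ) := by
  intro x y
  obtain ⟨y, rfl⟩ := hf y
  refine (Fintype.sum_equiv (MulAut.conj y).toEquiv _ _ fun g => ?_).symm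
  have : f g = x ↔ f (y * g * y⁻¹) = f y * x * (f y)⁻¹ := by
    rw [map_mul, map_mul, map_inv, mul_left_inj, mul_right_inj]
  rw [propext this, ← preg_isClassFunction hψ g y]
  rfl

theorem fib_one (ψ : J → ℂ) [Fintype f.ker] :
    fib p f ψ 1 = regSum p fun n : f.ker => ψ n := by
  rw [← sum_fib (S := Unit) (1 : f.ker →* Unit), Fintype.sum_unique]
  exact (fib_comp f f.ker.subtype_injective ψ _ (fun k => iff_of_true rfl k.2)
    fun g hg => ⟨⟨g, hg⟩, rfl⟩).symm

theorem key [Fact p.Prime] [Finite S] (hM : IsPModular p M) (hf : Function.Surjective f)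
    (hS : ¬ p ∣ Nat.card S) (P : Sylow p J) (hsup : f.ker ⊔ H18.Cz (P : Subgroup J) = ⊤)
    {ψ : J → ℂ} (hψ : IsCharacter J ψ) (hirr : IsIrrCharacter f.ker fun n : f.ker => ψ n)
    (h0 : fib p f ψ 1 ≠ 0) : ∃ lam : S →* ℂˣ, ∀ x, fib p f ψ x = lam x * fib p f ψ 1 := by
  classical
  have := Fintype.ofFinite S
  have := Fintype.ofFinite f.ker
  have := Fintype.ofFinite (IrrCharacter S)
  obtain ⟨h1, h2⟩ := H22.alperin_dade hM (N := f.ker) (by
    rwa [Subgroup.index_ker, MonoidHom.range_eq_top.2 hf, Subgroup.card_top]) P hsup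
  obtain ⟨ξ, ⟨hξ, hξ'⟩, hu⟩ := h2 ⟨_, hirr⟩ ((mem_principal_iff_regSum hM _).2 (fib_one f ψ ▸ h0))
  have hirr' : IsIrrCharacter f.ker fun n : f.ker => ξ.1 n := by
    simpa only [hξ'] using hirr
  obtain ⟨lam, h3, h4⟩ := H72.exists_linear_of_res_eq f.ker (H11.isCharacter_of_irr ξ.2) hψ hirr'
    fun n => (hξ' n).symm
  let μ : S →* ℂˣ := f.liftOfSurjective hf ⟨lam, h3⟩
  have hμ : ∀ g, μ (f g) = lam g := fun g => f.liftOfRightInverse_comp_apply _ _ _ g
  have h5 : ∀ β : IrrCharacter S, β ≠ triv S → classInner (fib p f ξ.1) β.1 = 0 := by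
    intro β hβ
    have hβ' := H11.isIrrCharacter_comp_of_surjective (H11.isIrrCharacter_conj β.2) f hf
    have hk : f.ker ≤ H11.charKer fun g => conj (β.1 (f g)) := fun n hn x => by
      simp only [map_mul, MonoidHom.mem_ker.1 hn, one_mul]
    have h6 := H24.gallagher_isIrr f.ker (H11.isCharacter_of_irr ξ.2) hirr' hβ' hk
    have h7 : (⟨_, h6⟩ : IrrCharacter J) ∉ principalBlock M J := by
      intro h
      obtain ⟨θ, -, hθ⟩ := h1 _ h
      have h8 : θ.1 = conj (β.1 1) • fun n : f.ker => ξ.1 n := funext fun n => by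
        rw [← hθ]
        simp [MonoidHom.mem_ker.1 n.2, mul_comm]
      have h9 := H11.classInner_irr θ.2 hirr'
      rw [h8, H11.classInner_smul_left, H11.classInner_irr_self hirr', mul_one] at h9
      have h10 : conj (β.1 1) = 1 := by
        split_ifs at h9
        · exact h9
        · exact absurd (by simpa using h9) (H11.irr_apply_one_ne_zero β.2)
      have h11 := hu _ ⟨h, fun n => by
        simp [MonoidHom.mem_ker.1 n.2, h10, hξ']⟩
      have h12 := H24.gallagher_inj f.ker (H11.isCharacter_of_irr ξ.2) hirr' hβ'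
        H11.isIrrCharacter_one hk (fun _ _ _ => rfl)
        ((congrArg Subtype.val h11).trans (mul_one _).symm)
      refine hβ (Subtype.ext (funext fun x => ?_))
      obtain ⟨g, rfl⟩ := hf x
      simpa [triv_apply] using congrArg conj (congrFun h12 g)
    have h8 := regSum_eq_zero_of_notMem hM h7
    rw [← sum_fib f] at h8
    rw [H11.classInner_def, ← mul_zero (Nat.card S : ℂ)⁻¹, ← h8]
    congr 1
    refine Finset.sum_congr rfl fun x _ => ?_
    rw [mul_comm, ← fib_mul f ξ.1 fun x => conj (β.1 x)]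
    congr 1
    exact mul_comm _ _
  have h6 : ∀ x, fib p f ξ.1 x = classInner (fib p f ξ.1) (triv S).1 := fun x => by
    conv_lhs => rw [H11.classFun_eq_sum (fib_isClassFunction f hf (H17.irr_isClassFunction ξ)),
      Finset.sum_eq_single (triv S) (fun β _ hβ => by rw [h5 β hβ, zero_smul]) (by simp)]
    simp [triv_apply]
  refine ⟨μ, fun x => ?_⟩
  have h7 : ψ = fun g => (μ (f g) : ℂ) * ξ.1 g := by simp only [hμ, h4]
  rw [h7, fib_mul f ξ.1 fun x => μ x, fib_mul f ξ.1 fun x => μ x, h6, h6 1]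
  simp

end

/-- Let G be a finite group, p a prime, M a maximal ideal of the algebraic integers containing p, N a normal subgroup of G and P a Sylow p-subgroup of N such that G = N·C_G(P). Let θ be an irreducible character in the principal p-block of N that is the restriction of some irreducible character of G. Then θ is the restriction of an irreducible character χ of G lying in the principal p-block of G such that, for every subgroup J of G containing N, the restriction of χ to J is an irreducible character of J lying in the principal p-block of J. -/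
theorem result {G : Type*} [Group G] [Finite G] (p : ℕ) [Fact p.Prime] (M : Ideal Cfsg.AlgInt) (hM : Cfsg.IsPModular p M) (N : Subgroup G) [N.Normal] (P : Sylow p ↥N)
    (hcov : N ⊔ Subgroup.centralizer (((P : Subgroup ↥N).map N.subtype : Subgroup G) : Set G) = ⊤)
    (θ : Cfsg.IrrCharacter ↥N) (hθ : θ ∈ Cfsg.principalBlock M ↥N)
    (hext : ∃ ψ : Cfsg.IrrCharacter G, ∀ x : ↥N, (ψ : G → ℂ) x = (θ : ↥N → ℂ) x) :
    ∃ χ : Cfsg.IrrCharacter G, χ ∈ Cfsg.principalBlock M G ∧ (∀ x : ↥N, (χ : G → ℂ) x = (θ : ↥N → ℂ) x) ∧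
      ∀ J : Subgroup G, N ≤ J → ∃ ξ : Cfsg.IrrCharacter ↥J, ξ ∈ Cfsg.principalBlock M ↥J ∧ ∀ y : ↥J, (ξ : ↥J → ℂ) y = (χ : G → ℂ) y := by
  classical
  have hp : p.Prime := Fact.out
  have := Fintype.ofFinite G
  have := Fintype.ofFinite N
  have := Fintype.ofFinite (G ⧸ N)
  obtain ⟨ψ, hψ⟩ := hext
  let π := QuotientGroup.mk' N
  have hπ : Function.Surjective π := QuotientGroup.mk'_surjective N
  have hπ1 : ∀ g, π g = 1 ↔ g ∈ N := fun g => QuotientGroup.eq_one_iff g
  have hs : fib p π ψ.1 1 ≠ 0 := by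
    rw [← fib_comp π N.subtype_injective ψ.1 (1 : N →* Unit) (y := 1)
      (fun k => by simpa using (hπ1 k).2 k.2) fun g hg => ⟨⟨g, (hπ1 g).1 hg⟩, rfl⟩,
      ← Fintype.sum_unique (fib p (1 : N →* Unit) _), sum_fib]
    simpa only [Subgroup.subtype_apply, hψ] using (mem_principal_iff_regSum hM θ).1 hθ
  have hirrN : ∀ {J : Type _} [Group J] (ι : J →* G), (∀ x, ι x ∈ N) → Function.Injective ι →
      (∀ n ∈ N, n ∈ ι.range) → IsIrrCharacter J fun x => ψ.1 (ι x) := by
    intro J _ ι h1 _ h3
    have := H11.isIrrCharacter_comp_of_surjective θ.2 (ι.codRestrict N h1) fun n => by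
      obtain ⟨x, hx⟩ := h3 n n.2
      exact ⟨x, Subtype.ext hx⟩
    simp only [← hψ] at this
    exact this
  have hK : ∀ K : Subgroup (G ⧸ N), ¬ p ∣ Nat.card K →
      ∃ lam : K →* ℂˣ, ∀ x : K, fib p π ψ.1 x = lam x * fib p π ψ.1 1 := by
    intro K hK
    have := Fintype.ofFinite (K.comap π)
    have hNJ : N ≤ K.comap π := fun n hn => by
      rw [Subgroup.mem_comap, (hπ1 n).2 hn]; exact one_mem _
    let f := π.subgroupComap K
    have hf : Function.Surjective f := π.subgroupComap_surjective_of_surjective K hπ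
    have hker : ∀ x, x ∈ f.ker ↔ (x : G) ∈ N := fun x =>
      Subtype.ext_iff.trans (hπ1 x)
    have hfib : ∀ x : K, fib p f (fun k => ψ.1 ((K.comap π).subtype k)) x = fib p π ψ.1 x :=
      fun x => fib_comp π (K.comap π).subtype_injective ψ.1 f (fun k => Subtype.ext_iff)
        fun g hg => ⟨⟨g, by rw [Subgroup.mem_comap, hg]; exact x.2⟩, rfl⟩
    have hPJ : (P : Subgroup N).map N.subtype ≤ K.comap π :=
      (Subgroup.map_subtype_le _).trans hNJ
    have hPp : IsPGroup p (((P : Subgroup N).map N.subtype).subgroupOf (K.comap π)) :=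
      (P.isPGroup'.map _).comap_subtype
    have hidx : ¬ p ∣ (((P : Subgroup N).map N.subtype).subgroupOf (K.comap π)).index := by
      change ¬ p ∣ Subgroup.relIndex _ _
      rw [← Subgroup.relIndex_mul_relIndex _ N _ (Subgroup.map_subtype_le _) hNJ, hp.dvd_mul]
      rintro (h | h)
      · rw [Subgroup.relIndex, Subgroup.subgroupOf, Subgroup.comap_map_eq_self_of_injective
          N.subtype_injective] at h
        exact P.not_dvd_index h
      · rw [Subgroup.relIndex, show N.subgroupOf (K.comap π) = f.ker from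
          Subgroup.ext fun x => (hker x).symm, Subgroup.index_ker, MonoidHom.range_eq_top.2 hf,
          Subgroup.card_top] at h
        exact hK h
    obtain ⟨lam, hlam⟩ := key f hM hf hK (hPp.toSylow hidx) (by
      rw [eq_top_iff]
      intro x _
      have hx : (x : G) ∈ N ⊔ _ := hcov ▸ Subgroup.mem_top _
      rw [← SetLike.mem_coe, Subgroup.normal_mul] at hx
      obtain ⟨n, hn, c, hc, h⟩ := hx
      have hc' : c ∈ K.comap π := by
        have := mul_mem (inv_mem (hNJ hn)) x.2
        rwa [← h, inv_mul_cancel_left] at this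
      have : x = ⟨n, hNJ hn⟩ * ⟨c, hc'⟩ := Subtype.ext h.symm
      rw [this]
      exact Subgroup.mul_mem_sup ((hker _).2 hn) fun y hy => Subtype.ext (hc y hy))
      (H11.isCharacter_comp (H11.isCharacter_of_irr ψ.2) (K.comap π).subtype)
      (hirrN ((K.comap π).subtype.comp f.ker.subtype) (fun x => (hker _).1 x.2)
        (Subtype.val_injective.comp Subtype.val_injective)
        fun n hn => ⟨⟨⟨n, hNJ hn⟩, (hker _).2 hn⟩, rfl⟩) (by rw [hfib]; exact hs)
    exact ⟨lam, fun x => by rw [← hfib, hlam, hfib]; rfl⟩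
  obtain ⟨m, h1, h2, h3⟩ := H16.exists_regExp (G ⧸ N) p hp
  let μ : G ⧸ N → ℂ := fun q => fib p π ψ.1 (q ^ m) / fib p π ψ.1 1
  have hμg : IsGeneralizedCharacter (G ⧸ N) μ := by
    refine H13.isGen_of_restrict_elementary (fun g x => ?_) fun E q hq hE => ?_
    · simp only [μ, conj_pow, fib_isClassFunction π hπ (H17.irr_isClassFunction ψ) _ x]
    · let f : E →* E := MonoidHom.mk' (fun e => e ^ m)
        (H16.pow_mul_of_isElementary hp hq h1 h2 E hE)
      let f' : E →* G ⧸ N := E.subtype.comp f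
      obtain ⟨lam, hlam⟩ := hK f'.range fun hd => by
        obtain ⟨y, hy⟩ := exists_prime_orderOf_dvd_card' p hd
        obtain ⟨e, he⟩ := y.2
        have h4 := h3 (e : G ⧸ N)
        rw [show (e : G ⧸ N) ^ m = y from he, Subgroup.orderOf_coe, hy] at h4
        exact h4 dvd_rfl
      convert H11.isGen_of_isCharacter (H11.isCharacter_monoidHom (lam.comp f'.rangeRestrict))
        using 2 with e
      exact (div_eq_iff hs).2 (hlam (f'.rangeRestrict e))
  have hμn : ∀ q, μ q * conj (μ q) = 1 := fun q => by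
    obtain ⟨lam, hlam⟩ := hK (Subgroup.zpowers (q ^ m)) (by rw [Nat.card_zpowers]; exact h3 q)
    have h4 : μ q = lam ⟨_, Subgroup.mem_zpowers _⟩ :=
      (div_eq_iff hs).2 (hlam ⟨_, Subgroup.mem_zpowers _⟩)
    rw [h4, Complex.mul_conj, Complex.normSq_eq_norm_sq, Complex.norm_eq_one_of_pow_eq_one
      (n := orderOf (⟨_, Subgroup.mem_zpowers _⟩ : Subgroup.zpowers (q ^ m)))
      (by rw [← Units.val_pow_eq_pow_val, ← map_pow, pow_orderOf_eq_one, map_one, Units.val_one])
      (orderOf_pos _).ne']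
    simp
  have hμ1 : μ 1 = 1 := by simp only [μ, one_pow, div_self hs]
  obtain ⟨lam, hlam⟩ := H11.exists_monoidHom_of_apply_one_eq_one (H11.isCharacter_of_irr
    (H11.isIrrCharacter_of_isGen hμg (by
      rw [H11.classInner_def, Finset.sum_congr rfl fun q _ => hμn q]
      simp) (by simp [hμ1]))) hμ1
  let χ : G → ℂ := fun g => (lam⁻¹ (π g) : ℂ) * ψ.1 g
  have hχc : IsCharacter G χ := H11.isCharacter_mul (H11.isCharacter_monoidHom (lam⁻¹.comp π))
    (H11.isCharacter_of_irr ψ.2)
  have hχN : ∀ n ∈ N, χ n = ψ.1 n := fun n hn => by simp [χ, (hπ1 n).2 hn]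
  have hmain : ∀ J : Subgroup G, N ≤ J → ∃ ξ : IrrCharacter J, ξ ∈ principalBlock M J ∧
      ∀ y : J, ξ.1 y = χ y := by
    intro J hJ
    have := Fintype.ofFinite J
    have h4 : IsIrrCharacter J fun y => χ y :=
      H11.isIrrCharacter_of_comp (H11.isCharacter_comp hχc J.subtype) (Subgroup.inclusion hJ) (by
        simpa only [Subgroup.subtype_apply, Subgroup.coe_inclusion, hχN _ (Subtype.prop _), hψ]
          using θ.2)
    refine ⟨⟨_, h4⟩, (mem_principal_iff_regSum hM _).2 ?_, fun _ => rfl⟩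
    have h5 : ∀ q, fib p (π.comp J.subtype) (fun y : J => χ y) q =
        (if q ∈ J.map π ∧ ¬ p ∣ orderOf q then 1 else 0 : ℕ) * fib p π ψ.1 1 := fun q => by
      by_cases hq : p ∣ orderOf q
      · simp [fib_eq_zero _ _ hq, hq]
      by_cases hq' : q ∈ J.map π
      · rw [if_pos ⟨hq', hq⟩, Nat.cast_one, one_mul]
        refine (fib_comp π J.subtype_injective χ _ (fun _ => Iff.rfl) fun g hg => ?_).trans ?_
        · obtain ⟨y, hy, rfl⟩ := hq'
          rw [Subgroup.range_subtype, ← J.mul_mem_cancel_left (inv_mem hy)]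
          exact hJ ((hπ1 _).1 (by rw [map_mul, map_inv, hg, inv_mul_cancel]))
        · have h6 := congrFun hlam q
          simp only [μ, h1 q hq, div_eq_iff hs] at h6
          rw [fib_mul π ψ.1 fun x => (lam⁻¹ x : ℂ), h6]
          simp
      · rw [if_neg fun h => hq' h.1, Nat.cast_zero, zero_mul]
        exact Finset.sum_eq_zero fun g _ => if_neg fun h => hq' ⟨g, g.2, h⟩
    rw [← sum_fib (π.comp J.subtype), Finset.sum_congr rfl fun q _ => h5 q, ← Finset.sum_mul,
      ← Nat.cast_sum]
    refine mul_ne_zero (Nat.cast_ne_zero.2 (Finset.sum_pos' (fun _ _ => Nat.zero_le _)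
      ⟨1, Finset.mem_univ _, ?_⟩).ne') hs
    rw [if_pos ⟨one_mem _, by simpa using hp.ne_one⟩]
    exact one_pos
  obtain ⟨ξ, hξ, hξ'⟩ := hmain ⊤ le_top
  have h4 : IsIrrCharacter G χ := H11.isIrrCharacter_of_comp hχc N.subtype (by
    simpa only [Subgroup.subtype_apply, hχN _ (Subtype.prop _), hψ] using θ.2)
  refine ⟨⟨χ, h4⟩, ?_, fun x => (hχN x x.2).trans (hψ x), hmain⟩
  have := Fintype.ofFinite (⊤ : Subgroup G)
  rw [mem_principal_iff_regSum hM] at hξ ⊢
  rw [← regSum_res ⊤ fun _ _ => trivial]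
  rwa [show ξ.1 = fun y : (⊤ : Subgroup G) => χ y from funext hξ'] at hξ

end Cfsg.Agent.S4937
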