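import Cfsg.Statements.S4949
import Cfsg.Agent.H19.SymDegP

set_option autoImplicit false
open Cfsg

namespace Cfsg.Agent.S4949


/-- Let n be a natural number, p a prime, M a maximal ideal of the algebraic integers containing p, B a p-block of the alternating group of degree n and D a defect group of B. Then either B contains an irreducible character of height 1 and D has an irreducible complex character of degree p, or every irreducible character of B has height zero and D is commutative (so the least positive height in B and the least positive exponent of a character degree of D are both 1 or both absent). -/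
theorem result (n : ℕ) (p : ℕ) [Fact p.Prime] (M : Ideal Cfsg.AlgInt) (hM : Cfsg.IsPModular p M) (B : Set (Cfsg.IrrCharacter ↥(alternatingGroup (Fin n)))) (hB : Cfsg.IsPBlock M B) (D : Subgroup ↥(alternatingGroup (Fin n))) (hD : Cfsg.IsDefectGroup p M B D) :
    ((∃ χ : Cfsg.IrrCharacter ↥(alternatingGroup (Fin n)), χ ∈ B ∧ Cfsg.blockHeight p B (χ : ↥(alternatingGroup (Fin n)) → ℂ) = 1) ∧ (∃ φ : Cfsg.IrrCharacter ↥D, Cfsg.charDegree (φ : ↥D → ℂ) = p)) ∨
    ((∀ χ : Cfsg.IrrCharacter ↥(alternatingGroup (Fin n)), χ ∈ B → Cfsg.blockHeight p B (χ : ↥(alternatingGroup (Fin n)) → ℂ) = 0) ∧ IsMulCommutative D) := by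
  classical
  have hp := hM.1
  obtain ⟨N, hN⟩ : ∃ N, Fintype.card (Fin n) + p * Fintype.card (Fin n) ≤ N := ⟨_, le_rfl⟩
  have hN' : Fintype.card (Fin n) ≤ N := (Nat.le_add_right _ _).trans hN
  obtain ⟨c, f, w, hc1, hc2, hn, hw, hX, hcov, -, U, hU, Q, ⟨e⟩⟩ := H19.alt_block hM hN hB hD
  have hcU : Fintype.card {x // x ∈ U} = p * w := by simp [hU]
  have hQ := H19.card_sylow_perm Q hcU
  have hDc : Nat.card D = Nat.card ((Q : Subgroup (Equiv.Perm {x // x ∈ U})) ⊓
      alternatingGroup {x // x ∈ U} : Subgroup _) := Nat.card_congr e.toEquiv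
  have hsmall : ∀ d, d ≤ 2 → d ≠ 1 → Nat.card D = p ^ d →
      (∀ χ ∈ B, blockHeight p B χ.1 = 0) ∧ IsMulCommutative D := by
    intro d hd hd1 h1
    have h3 : blockDefect p B = d :=
      Nat.pow_right_injective hp.two_le ((H17.dg_card hM hB hD).symm.trans h1)
    refine ⟨fun χ hχ => H21.height_eq_zero_of_defect_le_two hM hB (h3 ▸ hd) hχ, ?_⟩
    rcases (by omega : d = 0 ∨ d = 2) with rfl | rfl
    · have : Subsingleton D := (Nat.card_eq_one_iff_unique.1 (by simpa using h1)).1
      exact ⟨⟨fun a b => Subsingleton.elim _ _⟩⟩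
    · exact IsPGroup.isMulCommutative_of_card_eq_prime_sq h1
  by_cases hw0 : w = 0
  · subst hw0
    refine Or.inr (hsmall 0 (by omega) (by omega) ?_)
    have h1 := Subgroup.card_le_of_le (inf_le_left : (Q : Subgroup (Equiv.Perm {x // x ∈ U})) ⊓
      alternatingGroup {x // x ∈ U} ≤ Q)
    have h2 : 0 < Nat.card D := Nat.card_pos
    simp only [Nat.factorial_zero, Nat.factorization_one, Finsupp.coe_zero, Pi.zero_apply,
      add_zero, pow_zero] at hQ
    rw [pow_zero]
    omega
  have h2w : 2 ≤ p * w := hp.two_le.trans (Nat.le_mul_of_pos_right _ (Nat.pos_of_ne_zero hw0))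
  have : Nontrivial (Fin n) := Fintype.one_lt_card_iff_nontrivial.1 (by omega)
  have : Nontrivial {x // x ∈ U} := Fintype.one_lt_card_iff_nontrivial.1 (by omega)
  have hA : 2 * Nat.card (alternatingGroup (Fin n)) = (f + p * w).factorial := by
    rw [← hn, ← alternatingGroup.index_eq_two (α := Fin n), Subgroup.index_mul_card, Nat.card_perm,
      Nat.card_eq_fintype_card]
  have hA' : (f + p * w).factorial.factorization p =
      Nat.factorization 2 p + (Nat.card (alternatingGroup (Fin n))).factorization p := by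
    rw [← hA, Nat.factorization_mul two_ne_zero Nat.card_pos.ne', Finsupp.add_apply]
  have hmin := H21.minNu_add_defect hM (H17.block_nonempty hM.2.1 hB)
  have hdeg : ∀ (h : p ^ 2 ≤ p * w) (h2 : p = 2 → 6 ≤ p * w),
      ∃ φ : IrrCharacter D, charDegree φ.1 = p := by
    intro h h2
    obtain ⟨φ, hφ⟩ := H19.exists_deg_prime_alt Q (hcU ▸ h) (hcU ▸ h2)
    refine ⟨H22.irrMap e.symm φ, Eq.trans ?_ hφ⟩
    rw [charDegree, charDegree, H22.irrMap_apply_one]
  by_cases hp2 : p = 2
  · subst hp2
    have h1 := H19.two_mul_card_inf_alt Q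
    rw [hQ, ← hDc] at h1
    rcases (by omega : w = 1 ∨ w = 2 ∨ 3 ≤ w) with rfl | rfl | h3
    · simp only [Nat.factorial_one, Nat.factorization_one, Finsupp.coe_zero, Pi.zero_apply] at h1
      exact Or.inr (hsmall 0 (by omega) (by omega) (by omega))
    · have : (Nat.factorial 2).factorization 2 = 1 := Nat.prime_two.factorization_self
      rw [this] at h1
      exact Or.inr (hsmall 2 (by omega) (by omega) (by omega))
    · refine Or.inl ⟨?_, hdeg (by omega) (by omega)⟩
      obtain ⟨S, hS, hSc, hS1⟩ := H19.exists_height_one_two hc1 hc2 hw (hn ▸ hN') h3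
      rw [← hn] at hS
      have hSL := (H19.mem_XS.1 hS).1
      obtain ⟨θ, hθ, ho⟩ := hcov.exists_under hM.2.1 hX hB
        (χ := ⟨_, H19.isIrr_symChi hN' hSL⟩) ⟨S, hS, rfl⟩
      have h4 := H19.deg_of_over hN' hSL ho
      rw [if_neg hSc, one_mul, hn] at h4
      rw [H17.dg_card hM hB hD, ← pow_succ'] at h1
      have h5 := Nat.pow_right_injective le_rfl h1
      rw [Nat.prime_two.factorization_self] at hA'
      refine ⟨θ, hθ, ?_⟩
      rw [H21.blockHeight_eq, ← h4]
      omega
  · have hQA := H19.le_alt_of_odd hp2 Q.isPGroup'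
    rw [inf_eq_left.2 hQA, hQ] at hDc
    have h5 := Nat.pow_right_injective hp.two_le ((H17.dg_card hM hB hD).symm.trans hDc)
    have h2p : Nat.factorization 2 p = 0 := Nat.factorization_eq_zero_of_not_dvd fun h =>
      hp2 ((Nat.prime_dvd_prime_iff_eq hp Nat.prime_two).1 h)
    have hnu : ∀ S ∈ H19.Lam N (Fintype.card (Fin n)), ∀ θ : IrrCharacter (alternatingGroup (Fin n)),
        H22.Over _ (H19.symChi (Fin n) N S) θ.1 →
        (charDegree θ.1).factorization p = (H19.degS N S (f + p * w)).factorization p := by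
      intro S hS θ ho
      rw [← hn, H19.deg_of_over hN' hS ho]
      split_ifs
      · rw [Nat.factorization_mul two_ne_zero (H21.deg_ne_zero θ), Finsupp.add_apply, h2p, zero_add]
      · rw [one_mul]
    by_cases h3 : p ≤ w
    · refine Or.inl ⟨?_, hdeg (by rw [sq]; exact Nat.mul_le_mul_left _ h3) fun h => absurd h hp2⟩
      obtain ⟨S, hS, hS1⟩ := H19.exists_height_one_odd hp2 hc1 hc2 hw h3
      rw [← hn] at hS
      have hSL := (H19.mem_XS.1 hS).1
      obtain ⟨θ, hθ, ho⟩ := hcov.exists_under hM.2.1 hX hB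
        (χ := ⟨_, H19.isIrr_symChi hN' hSL⟩) ⟨S, hS, rfl⟩
      refine ⟨θ, hθ, ?_⟩
      rw [H21.blockHeight_eq, hnu S hSL θ ho]
      omega
    · have h6 := H19.fact_of_lt (p := p) (r := w) (by omega)
      refine Or.inr ⟨fun θ hθ => ?_, ?_⟩
      · obtain ⟨χ, ⟨S, hS, hχ⟩, ho⟩ := hcov.exists_over hM.2.1 hX hB hθ
        rw [hχ] at ho
        rw [H21.blockHeight_eq, hnu S (H19.mem_XS.1 hS).1 θ ho]
        have := H19.nu_degS_of_lt hc1 hc2 hw (by omega) (hn ▸ hS)
        omega
      · obtain ⟨E, hEQ, hE, hc, -⟩ := H19.exists_elemAb Q (w := w) hcU.ge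
        have h7 : E = Q := H18.eq_of_le_of_card_le hEQ (by rw [hE, hQ, h6, add_zero])
        refine ⟨⟨fun a b => e.injective (Subtype.ext ?_)⟩⟩
        rw [map_mul, map_mul]
        exact hc _ (h7 ▸ (e a).2.1) _ (h7 ▸ (e b).2.1)

end Cfsg.Agent.S4949
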