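import Cfsg.Statements.S4956
import Mathlib
import Cfsg.Agent.H4.Coprime

set_option autoImplicit false
open Cfsg

namespace Cfsg.Agent.S4956

/-- Let X be a finite group, V an abelian normal subgroup of X (any two elements of V commute) and G a complement to V in X whose order is coprime to that of V. Let S be a set of representatives of the orbits of G on V under conjugation: S lies in V and every element of V is conjugate under G to exactly one member of S. Then the number of conjugacy classes of X equals the sum, over s in S, of the number of conjugacy classes of the centralizer of s in G. -/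
theorem result {X : Type*} [Group X] [Finite X] (V : Subgroup X) [V.Normal] (hab : ∀ a ∈ V, ∀ b ∈ V, a * b = b * a) (G : Subgroup X) (hGV : Subgroup.IsComplement' V G) (hcop : (Nat.card V).Coprime (Nat.card G)) (S : Finset X) (hSV : ∀ s ∈ S, s ∈ V) (hrep : ∀ v ∈ V, ∃! s, s ∈ S ∧ ∃ g ∈ G, g * v * g⁻¹ = s) : Nat.card (ConjClasses X) = ∑ s ∈ S, Nat.card (ConjClasses ↥(G ⊓ Subgroup.centralizer ({s} : Set X))) := by
  classical
  let Φ : (Σ s : S, ConjClasses ↥(G ⊓ Subgroup.centralizer ({(s : X)} : Set X))) → ConjClasses X :=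
    fun t => Quotient.lift (fun g : ↥(G ⊓ Subgroup.centralizer ({(t.1 : X)} : Set X)) =>
      ConjClasses.mk ((t.1 : X) * g)) (fun a b h => by
        obtain ⟨c, hc⟩ := isConj_iff.1 h
        have h1 := Subgroup.mem_centralizer_singleton_iff.1 c.2.2
        refine ConjClasses.mk_eq_mk_iff_isConj.2 (isConj_iff.2 ⟨c, ?_⟩)
        rw [← hc]
        simp only [Subgroup.coe_mul, Subgroup.coe_inv]
        rw [← mul_assoc, h1]
        group) t.2
  have hVn : V.Normal := inferInstance
  have hinj : Function.Injective Φ := by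
    rintro ⟨s, ⟨g⟩⟩ ⟨s', ⟨g'⟩⟩ h0
    obtain ⟨x, hx⟩ := isConj_iff.1 (ConjClasses.mk_eq_mk_iff_isConj.1 h0)
    clear h0
    obtain ⟨⟨u, h⟩, rfl⟩ := hGV.existsUnique x |>.exists
    obtain ⟨m, hm1, hm2⟩ := Nat.chineseRemainder hcop 1 0
    have hpow : ∀ a ∈ V, ∀ b ∈ G, b * a = a * b → (a * b) ^ m = a := fun a ha b hb hc => by
      have h1 : a ^ Nat.card V = 1 :=
        congrArg Subtype.val (pow_card_eq_one' (x := (⟨a, ha⟩ : V)))
      have h2 : b ^ Nat.card G = 1 :=
        congrArg Subtype.val (pow_card_eq_one' (x := (⟨b, hb⟩ : G)))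
      rw [(show Commute a b from hc.symm).mul_pow,
        pow_eq_pow_iff_modEq.2 (hm1.of_dvd (orderOf_dvd_of_pow_eq_one h1)),
        pow_eq_pow_iff_modEq.2 (hm2.of_dvd (orderOf_dvd_of_pow_eq_one h2))]
      simp
    have h1 := congrArg (· ^ m) hx
    simp only [conj_pow] at h1
    rw [hpow _ (hSV _ s.2) _ g.2.1 (Subgroup.mem_centralizer_singleton_iff.1 g.2.2),
      hpow _ (hSV _ s'.2) _ g'.2.1 (Subgroup.mem_centralizer_singleton_iff.1 g'.2.2)] at h1
    have h2 : (h : X) * s * (h : X)⁻¹ = s' := by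
      rw [← h1]
      have := hab u u.2 _ (hVn.conj_mem _ (hSV _ s.2) h)
      calc (h : X) * s * (h : X)⁻¹ = u * ((h : X) * s * (h : X)⁻¹) * (u : X)⁻¹ := by
            rw [this]; group
        _ = _ := by group
    obtain rfl : s = s' := Subtype.ext ((hrep s (hSV _ s.2)).unique ⟨s.2, 1, G.one_mem, by simp⟩
      ⟨s'.2, h, h.2, h2⟩)
    have h3 : (u : X) * h * g * ((u : X) * h)⁻¹ = g' := by
      apply mul_left_cancel (a := (s : X))
      rw [← hx]
      calc (s : X) * ((u : X) * h * g * ((u : X) * h)⁻¹) =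
          ((u : X) * h * s * ((u : X) * h)⁻¹) * ((u : X) * h * g * ((u : X) * h)⁻¹) := by rw [h1]
        _ = _ := by group
    have h4 : (h : X) * g * (h : X)⁻¹ = g' := by
      have h5 : (g' : X) * ((h : X) * g * (h : X)⁻¹)⁻¹ ∈ V := by
        rw [← h3]
        have := V.mul_mem u.2 (hVn.conj_mem _ (V.inv_mem u.2) ((h : X) * g * (h : X)⁻¹))
        convert this using 1
        group
      have h6 := Subgroup.disjoint_def.1 hGV.disjoint h5
        (G.mul_mem g'.2.1 (G.inv_mem (G.mul_mem (G.mul_mem h.2 g.2.1) (G.inv_mem h.2))))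
      exact (mul_inv_eq_one.1 h6).symm
    congr 1
    refine ConjClasses.mk_eq_mk_iff_isConj.2 (isConj_iff.2 ⟨⟨h, h.2, ?_⟩, Subtype.ext h4⟩)
    exact Subgroup.mem_centralizer_singleton_iff.2 (mul_inv_eq_iff_eq_mul.1 h2)
  have hsurj : Function.Surjective Φ := by
    rintro ⟨x⟩
    obtain ⟨⟨u, g⟩, rfl⟩ := hGV.existsUnique x |>.exists
    letI : MulAction X X := MulAction.compHom X (MulAut.conj (G := X))
    haveI : IsMulCommutative V := ⟨⟨fun a b => Subtype.ext (hab a a.2 b b.2)⟩⟩
    obtain ⟨k, hk, hfix⟩ := H4.exists_fixed_in_orbit (X := X) (A := Subgroup.zpowers (g : X))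
      (K := V) (by rw [Subgroup.normalizer_eq_top]; exact le_top)
      (Nat.Coprime.coprime_dvd_left (Subgroup.card_dvd_of_le (Subgroup.zpowers_le_of_mem g.2))
        hcop.symm) (Or.inl inferInstance) (x := (u : X) * g) (fun a ha => by
        obtain ⟨n, rfl⟩ := Subgroup.mem_zpowers_iff.1 ha
        refine ⟨(g : X) ^ n * (((u : X) * g) ^ n)⁻¹, ?_, ?_⟩
        · rw [← QuotientGroup.eq_one_iff]
          simp [(QuotientGroup.eq_one_iff (u : X)).2 u.2]
        · change (g : X) ^ n * ((u : X) * g) * ((g : X) ^ n)⁻¹ =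
            (g : X) ^ n * (((u : X) * g) ^ n)⁻¹ * ((u : X) * g) *
              ((g : X) ^ n * (((u : X) * g) ^ n)⁻¹)⁻¹
          generalize (u : X) * g = y
          group)
    have h1 : (g : X) * (k * ((u : X) * g) * k⁻¹) * (g : X)⁻¹ = k * ((u : X) * g) * k⁻¹ :=
      hfix g (Subgroup.mem_zpowers _)
    set c := k * ((u : X) * g) * k⁻¹ * (g : X)⁻¹ with hc
    have hcV : c ∈ V := by
      have := V.mul_mem (V.mul_mem hk u.2) (hVn.conj_mem _ (V.inv_mem hk) g)
      convert this using 1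
      rw [hc]; group
    have h2 : (g : X) * c = c * g := by
      rw [hc, ← mul_assoc, h1]; group
    obtain ⟨s, ⟨hs, h, hh, rfl⟩, -⟩ := hrep c hcV
    refine ⟨⟨⟨_, hs⟩, ConjClasses.mk ⟨h * g * h⁻¹, G.mul_mem (G.mul_mem hh g.2) (G.inv_mem hh),
      Subgroup.mem_centralizer_singleton_iff.2 ?_⟩⟩, ?_⟩
    · calc h * g * h⁻¹ * (h * c * h⁻¹) = h * (g * c) * h⁻¹ := by group
        _ = _ := by rw [h2]; group
    · refine (ConjClasses.mk_eq_mk_iff_isConj.2 (isConj_iff.2 ⟨h * k, ?_⟩)).symm
      simp only [hc]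
      group
  rw [← Nat.card_congr (Equiv.ofBijective Φ ⟨hinj, hsurj⟩), Nat.card_sigma,
    Finset.sum_coe_sort S fun s => Nat.card (ConjClasses ↥(G ⊓ Subgroup.centralizer ({s} : Set X)))]

end Cfsg.Agent.S4956
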