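import Cfsg.Statements.S4973
import Cfsg.Agent.H71.FSAll

set_option autoImplicit false
open Cfsg

namespace Cfsg.Agent.S4973

/-- Let F be a finite field of characteristic 2 and m ≥ 2. For the plus-type quadratic form Σᵢ xᵢyᵢ on F^{4m}, and for the minus-type form Σᵢ xᵢyᵢ + z₁² + a z₁z₂ + b z₂² on F^{4m} with anisotropic binary part, every irreducible complex character of the commutator subgroup of the full isometry group (a subgroup of index 2 in it) has Frobenius–Schur indicator +1: the average of χ(s²) over the group equals 1. -/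
theorem result {F : Type*} [Field F] [Fintype F] [CharP F 2] (m : ℕ) (hm : 2 ≤ m) : (∀ χ : Cfsg.IrrCharacter ↥(Cfsg.Omega F (Cfsg.quadFormPlus (2 * m) F)), (Nat.card ↥(Cfsg.Omega F (Cfsg.quadFormPlus (2 * m) F)) : ℂ)⁻¹ * ∑ᶠ s : ↥(Cfsg.Omega F (Cfsg.quadFormPlus (2 * m) F)), (χ : ↥(Cfsg.Omega F (Cfsg.quadFormPlus (2 * m) F)) → ℂ) (s * s) = 1) ∧ (∀ a b : F, (∀ z₁ z₂ : F, z₁ ^ 2 + a * z₁ * z₂ + b * z₂ ^ 2 = 0 → z₁ = 0 ∧ z₂ = 0) → ∀ χ : Cfsg.IrrCharacter ↥(Cfsg.Omega F (Cfsg.quadFormMinus (2 * m - 1) F a b)), (Nat.card ↥(Cfsg.Omega F (Cfsg.quadFormMinus (2 * m - 1) F a b)) : ℂ)⁻¹ * ∑ᶠ s : ↥(Cfsg.Omega F (Cfsg.quadFormMinus (2 * m - 1) F a b)), (χ : ↥(Cfsg.Omega F (Cfsg.quadFormMinus (2 * m - 1) F a b)) → ℂ) (s * s) = 1) := by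
  exact H98.FS.s4973 H23.FT.c1 H23.FT.c2 H71.FS2.main_all H71.FS2.re_all m hm

end Cfsg.Agent.S4973
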