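import Cfsg.Statements.S4984
import Cfsg.Agent.H53.DgFin
import Cfsg.Agent.H4.DgS1
import Cfsg.Agent.H92.DgSp62

set_option autoImplicit false
open Cfsg

namespace Cfsg.Agent.S4984

/-- Let G be a finite simple symplectic group PSp_{2m}(q) (m ≥ 2, excluding PSp₄(2)) or a finite simple orthogonal group PΩ_{2m+1}(q) (m ≥ 3, q odd), PΩ⁺_{2m}(q) or PΩ⁻_{2m}(q) (m ≥ 4). Then the character degree graph of G is complete: for any two distinct primes each dividing some irreducible complex character degree of G, their product divides some irreducible character degree of G. -/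
theorem result {G : Type*} [Group G] [Finite G] (h : Cfsg.IsPSp G ∨ Cfsg.IsPOmegaOdd G ∨ Cfsg.IsPOmegaPlus G ∨ Cfsg.IsPOmegaMinus G) (r s : ℕ) (hr : r ∈ Cfsg.degreePrimes G) (hs : s ∈ Cfsg.degreePrimes G) (hrs : r ≠ s) : (Cfsg.degreeGraph G).Adj r s := by
  have witt := H32.DgSing.witt
  have sing := H32.DgSing.sing
  have levi := H31.DgL.levi
  have van := H60.DgVan.van
  have norm := H37.Dg.norm H87.DgNg.ng van H44.DgOpp.opp
  have count := H33.DgCount.count sing witt levi
  have sd := H14.DgA.sd H70.DgHc.hc1 (H70.DgHc.hc2 norm) witt count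
  have desc := H16.DgZ.desc H22.DgClif.clif H16.DgZ.zen
  exact H53.Dg.main (H53.Dg.hy (H4.DgS1.s1 H94.DgVl.pl H94.DgVl.zero witt)
    (H92.Dg62.sp62 levi sd witt desc)) H29.DgBr.br h hr hs hrs

end Cfsg.Agent.S4984
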