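import Cfsg.Statements.S4989
import Cfsg.Agent.H23.Zeros

set_option autoImplicit false
open Cfsg

namespace Cfsg.Agent.S4989

/-- Let H be a subgroup of the finite group G and χ an irreducible complex character of G. Then the inner product of the restriction of χ to H with itself, (1/#H)·Σ_{h ∈ H} |χ(h)|², is at most 1 + #(Z ∖ H)/#H, where Z is the set of zeros of χ in G. -/
theorem result {G : Type*} [Group G] [Finite G] (H : Subgroup G) (χ : Cfsg.IrrCharacter G) : (Nat.card ↥H : ℝ)⁻¹ * ∑ᶠ h : ↥H, ‖(χ : G → ℂ) h‖ ^ 2 ≤ 1 + (Set.ncard ({x : G | (χ : G → ℂ) x = 0} \ (H : Set G)) : ℝ) / (Nat.card ↥H : ℝ) := by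
  classical
  haveI := Fintype.ofFinite G
  have h1 := H23.sum_mem_norm_sq_le χ.2 H
  have h2 : ∑ᶠ h : ↥H, ‖(χ : G → ℂ) h‖ ^ 2 =
      ∑ g ∈ Finset.univ.filter (fun g => g ∈ H), ‖(χ : G → ℂ) g‖ ^ 2 := by
    rw [finsum_eq_sum_of_fintype]
    exact (Finset.sum_subtype _ (by simp) (fun g => ‖(χ : G → ℂ) g‖ ^ 2)).symm
  have h3 : (Finset.univ.filter fun g => g ∈ H).card = Nat.card H := by
    rw [Nat.card_eq_fintype_card, Fintype.card_subtype]
  have h4 : Set.ncard ({x : G | (χ : G → ℂ) x = 0} \ (H : Set G)) =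
      (Finset.univ.filter fun g => g ∉ H ∧ (χ : G → ℂ) g = 0).card := by
    rw [← Set.ncard_coe_finset]
    congr 1
    ext g
    simp [and_comm]
  have h5 : (0 : ℝ) < Nat.card H := by exact_mod_cast Nat.card_pos
  rw [h2, h4, inv_mul_le_iff₀ h5]
  rw [h3] at h1
  refine h1.trans (le_of_eq ?_)
  field_simp

end Cfsg.Agent.S4989
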