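import Cfsg.Statements.S4993
import Cfsg.Agent.H18.PrimDeg
import Cfsg.Agent.H21.Feit

set_option autoImplicit false
open Cfsg

namespace Cfsg.Agent.S4993

open Cfsg.Agent.H18 Cfsg.Agent.H19 MonoidAlgebra

/-- Let G be a group of odd order whose order has exactly two prime divisors and whose quotient by its Fitting subgroup is nilpotent (G is metanilpotent), and let χ be a primitive irreducible complex character of G (not induced from a character of any proper subgroup). Then χ(1) divides the size of some conjugacy class of G. -/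
theorem result {G : Type*} [Group G] [Fintype G] (hodd : Odd (Nat.card G)) (h2 : (Nat.card G).primeFactors.card = 2) [hF : (Cfsg.fittingSubgroup G).Normal] (hmeta : Group.IsNilpotent (G ⧸ Cfsg.fittingSubgroup G)) (χ : Cfsg.IrrCharacter G) (hprim : ¬ ∃ (H : Subgroup G), H ≠ ⊤ ∧ ∃ θ : ↥H → ℂ, Cfsg.IsCharacter ↥H θ ∧ Cfsg.indFun H θ = (χ : G → ℂ)) : ∃ g : G, Cfsg.charDegree (χ : G → ℂ) ∣ (Subgroup.centralizer ({g} : Set G)).index := by
  have := H3.fitting_isNilpotent G
  have : Group.IsSolvable G := Group.isSolvable_of_ker_le_range (fittingSubgroup G).subtype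
    (QuotientGroup.mk' (fittingSubgroup G)) (by rw [QuotientGroup.ker_mk', Subgroup.range_subtype])
  obtain ⟨p, q, -, hpq⟩ := Finset.card_eq_two.1 h2
  have hp : Fact p.Prime := ⟨Nat.prime_of_mem_primeFactors (hpq.ge (by simp))⟩
  have hq : Fact q.Prime := ⟨Nat.prime_of_mem_primeFactors (hpq.ge (by simp))⟩
  have key : ∀ (r : ℕ) [Fact r.Prime], ∃ g : G, ∀ x ∈ (pCore r (G ⧸ fittingSubgroup G)).comap
      (QuotientGroup.mk' _), (charDegree χ.1).factorization r ≤
      (Subgroup.centralizer {g * x}).index.factorization r := fun r _ =>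
    exists_factorization_deg_le _ (fun x hx => by
      obtain ⟨n, hn⟩ := H3.pCore_isPGroup r _ ⟨_, hx⟩
      exact ⟨n, (QuotientGroup.eq_one_iff _).1 (congrArg Subtype.val hn)⟩) χ hprim
  obtain ⟨g, hg⟩ := key p
  obtain ⟨g', hg'⟩ := key q
  have hl : ∀ r : ℕ, r.Prime → r ∣ Nat.card G → r = p ∨ r = q := fun r hr h => by
    simpa using hpq.le (Nat.mem_primeFactors.2 ⟨hr, h, Nat.card_pos.ne'⟩)
  have h1 : pCore p (G ⧸ fittingSubgroup G) ⊔ pCore q (G ⧸ fittingSubgroup G) = ⊤ := by
    rw [← Subgroup.index_eq_one]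
    by_contra h
    obtain ⟨r, hr, hd⟩ := Nat.exists_prime_and_dvd h
    rcases hl r hr ((hd.trans (Subgroup.index_dvd_card _)).trans
      (Subgroup.card_quotient_dvd_card _)) with rfl | rfl
    · exact H3.isNilpotent_iff_not_dvd_index_pCore.1 hmeta r hr
        (hd.trans (Subgroup.index_dvd_of_le le_sup_left))
    · exact H3.isNilpotent_iff_not_dvd_index_pCore.1 hmeta r hr
        (hd.trans (Subgroup.index_dvd_of_le le_sup_right))
  have h3 : g⁻¹ * g' ∈ (pCore p (G ⧸ fittingSubgroup G)).comap (QuotientGroup.mk' _) ⊔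
      (pCore q (G ⧸ fittingSubgroup G)).comap (QuotientGroup.mk' _) := by
    rw [Subgroup.comap_sup_eq _ _ _ (QuotientGroup.mk'_surjective _), h1]; trivial
  obtain ⟨x, hx, y, hy, hxy⟩ := Subgroup.mem_sup_of_normal_right.1 h3
  refine ⟨g * x, (Nat.factorization_prime_le_iff_dvd (H21.deg_ne_zero χ)
    Subgroup.index_ne_zero_of_finite).1 fun r hr => ?_⟩
  by_cases h : r ∣ Nat.card G
  · rcases hl r hr h with rfl | rfl
    · exact hg x hx
    · rw [show g * x = g' * y⁻¹ by rw [eq_mul_inv_iff_mul_eq, mul_assoc, hxy, mul_inv_cancel_left]]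
      exact hg' _ (inv_mem hy)
  · rw [Nat.factorization_eq_zero_of_not_dvd fun h' => h (h'.trans (H21.deg_dvd_card χ))]
    exact Nat.zero_le _

end Cfsg.Agent.S4993
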