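import Cfsg.Statements.S5001
import Cfsg.Agent.H21.Feit
import Cfsg.Agent.H17.Center
import Cfsg.Agent.H11.PermChar

set_option autoImplicit false
open Cfsg

namespace Cfsg.Agent.S5001

open Cfsg Cfsg.Agent.H21 Cfsg.Agent.H19

/-- Let p be a prime, G a finite group and B a p-block of G (relative to a maximal ideal M of the algebraic integers containing p) with defect group D. Let Z be a central p-subgroup of G contained in D and λ a linear character of Z (a homomorphism to the nonzero complex numbers). Say an irreducible character χ of G lies over λ when χ(z) = χ(1)λ(z) for all z ∈ Z. If some irreducible character in B lying over λ has height zero, then λ extends to a linear character of D. -/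
theorem result {G : Type*} [Group G] [Finite G] (p : ℕ) [Fact p.Prime] (M : Ideal Cfsg.AlgInt) (hM : Cfsg.IsPModular p M) (B : Set (Cfsg.IrrCharacter G)) (hB : Cfsg.IsPBlock M B) (D : Subgroup G) (hD : Cfsg.IsDefectGroup p M B D) (Z : Subgroup G) (hZc : Z ≤ Subgroup.center G) (hZp : IsPGroup p ↥Z) (hZD : Z ≤ D) (lam : ↥Z →* ℂˣ) (χ : Cfsg.IrrCharacter G) (hχ : χ ∈ B) (hover : (∀ z : ↥Z, (χ : G → ℂ) z = (χ : G → ℂ) 1 * (lam z : ℂ))) (h0 : Cfsg.blockHeight p B (χ : G → ℂ) = 0) : (∃ μ : ↥D →* ℂˣ, ∀ z : ↥Z, μ ⟨(z : G), hZD z.2⟩ = lam z) := by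
  classical
  obtain ⟨x, hx, hDx⟩ := (H17.isDefectGroup_iff_isSylowIn B D).1 hD
  have h1 := H17.val_apply_of_isDefectClass hM hB hχ h0 hx
  have hle : D ≤ H17.Cg x := hDx.le
  have := Fintype.ofFinite G
  set f : D × Subgroup.zpowers x →* G :=
    MonoidHom.noncommCoprod D.subtype (Subgroup.zpowers x).subtype (by
      rintro ⟨d, hd⟩ ⟨_, k, rfl⟩
      exact (Commute.zpow_right (H17.mem_Cg.1 (hle hd)) k)) with hf
  have hfa : ∀ (d : D) (y : Subgroup.zpowers x), f (d, y) = d * y := fun _ _ => rfl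
  have := Fintype.ofFinite (D × Subgroup.zpowers x)
  have := Fintype.ofFinite (IrrCharacter (D × Subgroup.zpowers x))
  have hθ := H11.isCharacter_comp (H11.irr_isCharacter χ) f
  obtain ⟨m, hm, hsum⟩ := H11.exists_eq_sum_nat hθ
  have h2 : ∃ ξ : IrrCharacter (D × Subgroup.zpowers x), m ξ ≠ 0 ∧
      ¬ val M (ξ.1 (1, ⟨x, Subgroup.mem_zpowers x⟩)) < 1 := by
    by_contra hcon
    push Not at hcon
    have h3 := congrFun hsum (1, ⟨x, Subgroup.mem_zpowers x⟩)
    simp only [hfa, Finset.sum_apply, Pi.smul_apply, smul_eq_mul, OneMemClass.coe_one,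
      one_mul] at h3
    rw [h3] at h1
    refine (val_sum_lt_one fun ξ _ => ?_).ne h1
    by_cases h4 : m ξ = 0
    · simp [h4]
    · exact val_mul_lt_one_right (natCast_mem_Vr _) (hcon ξ h4)
  obtain ⟨ξ, hξ, hv⟩ := h2
  obtain ⟨φ, ψ, hφ, hψ, hξe⟩ := H11.exists_eq_prod_mul ξ.2
  have hφ1 : φ 1 = 1 := by
    obtain ⟨n, -, hn⟩ := H11.exists_pos_degree hφ
    have h3 := H12.irr_degree_dvd_card hφ hn
    rw [H17.dg_card hM hB hD] at h3
    obtain ⟨k, -, rfl⟩ := (Nat.dvd_prime_pow hM.1).1 h3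
    rcases Nat.eq_zero_or_pos k with rfl | hk
    · simpa using hn
    · exfalso
      apply hv
      rw [hξe]
      simp only
      refine val_mul_lt_one_left ?_ (H21.char_mem_Vr (H11.isCharacter_of_irr hψ) _)
      rw [hn, val_natCast_lt_one_iff hM]
      exact dvd_pow_self p hk.ne'
  obtain ⟨μ, hμ⟩ := H11.exists_monoidHom_of_apply_one_eq_one (H11.isCharacter_of_irr hφ) hφ1
  refine ⟨μ, fun z => ?_⟩
  -- compare the action of the central element `z` on `ξ` and on `χ`
  set w : D × Subgroup.zpowers x := (⟨z, hZD z.2⟩, 1) with hw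
  have hwc : ∀ a, a * w = w * a := by
    rintro ⟨d, y⟩
    refine Prod.ext (Subtype.ext ?_) (by simp [hw])
    exact Subgroup.mem_center_iff.1 (hZc z.2) d
  have hzc : ∀ a : G, a * z = z * a := fun a => Subgroup.mem_center_iff.1 (hZc z.2) a
  have h3 : ∀ a, χ.1 (f (a * w)) = lam z * χ.1 (f a) := by
    intro a
    have h4 : f (a * w) = f a * z := by rw [map_mul]; simp [hw, hfa]
    rw [h4, H17.irr_mul_central χ hzc]
    have h5 := H17.irr_mul_central χ hzc 1
    rw [one_mul, hover z, mul_comm] at h5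
    rw [← mul_right_cancel₀ (H11.irr_apply_one_ne_zero χ.2) h5]
  have h4 : ∀ a, ξ.1 (a * w) = μ ⟨z, hZD z.2⟩ * ξ.1 a := by
    rintro ⟨d, y⟩
    rw [hξe, hμ]
    simp [hw]
    ring
  have h5 : classInner (fun a => χ.1 (f (a * w))) (fun a => ξ.1 (a * w)) =
      classInner (fun a => χ.1 (f a)) ξ.1 :=
    H11.classInner_comp_equiv (Equiv.mulRight w) (fun a => χ.1 (f a)) ξ.1
  have h6 : (fun a => χ.1 (f (a * w))) = (lam z : ℂ) • fun a => χ.1 (f a) := funext h3
  have h7 : (fun a => ξ.1 (a * w)) = (μ ⟨z, hZD z.2⟩ : ℂ) • ξ.1 := funext h4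
  rw [h6, h7, H11.classInner_smul_left, H11.classInner_smul_right, hm, ← mul_assoc,
    mul_eq_right₀ (Nat.cast_ne_zero.2 hξ), H11.conj_monoidHom_apply, map_inv] at h5
  ext
  rw [Units.val_inv_eq_inv_val, mul_inv_eq_one₀ (Units.ne_zero _)] at h5
  exact h5.symm

end Cfsg.Agent.S5001
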