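import Mathlib
import Cfsg.Statements.S5011

set_option autoImplicit false
open Cfsg

namespace Cfsg.Agent.S5011

/-- Let G be a finite non-abelian simple group and ρ an irreducible complex representation of G on a space of dimension greater than one (irreducible in the sense that the only subspaces invariant under every ρ(x) are 0 and the whole space). Then for every non-identity element g of G, the centralizer of g does not act irreducibly: there is a non-zero proper subspace invariant under ρ(c) for every c commuting with g. -/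
theorem result {G : Type*} [Group G] [Finite G] [IsSimpleGroup G]
    (hG : ¬ IsMulCommutative G) {V : Type*} [AddCommGroup V] [Module ℂ V] [FiniteDimensional ℂ V]
    (ρ : Representation ℂ G V)
    (hirr : ∀ W : Submodule ℂ V, (∀ x : G, ∀ v ∈ W, ρ x v ∈ W) → W = ⊥ ∨ W = ⊤)
    (hdim : 1 < Module.finrank ℂ V) (g : G) (hg : g ≠ 1) :
    ∃ W : Submodule ℂ V, W ≠ ⊥ ∧ W ≠ ⊤ ∧ ∀ c ∈ Subgroup.centralizer ({g} : Set G), ∀ v ∈ W, ρ c v ∈ W := by
  have : Nontrivial V := Module.nontrivial_of_finrank_pos (R := ℂ) (by omega)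
  obtain ⟨a, ha⟩ := Module.End.exists_eigenvalue (ρ g)
  refine ⟨Module.End.eigenspace (ρ g) a, ha, fun h => ?_, fun c hc v hv => ?_⟩
  · let K : Subgroup G :=
      { carrier := {x | ∃ c : ℂ, ∀ v, ρ x v = c • v}
        one_mem' := ⟨1, by simp⟩
        mul_mem' := fun ⟨c, hc⟩ ⟨d, hd⟩ => ⟨c * d, fun v => by simp [hc, hd, mul_smul]⟩
        inv_mem' := fun {x} ⟨c, hc⟩ => ⟨c⁻¹, fun v => by
          have h1 := hc (ρ x⁻¹ v)
          rw [ρ.self_inv_apply] at h1
          by_cases h0 : c = 0
          · rw [h1, h0]; simp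
          · rw [eq_inv_smul_iff₀ h0, ← h1]⟩ }
    have hK : K.Normal := ⟨fun x ⟨c, hc⟩ y => ⟨c, fun v => by simp [hc]⟩⟩
    rcases hK.eq_bot_or_eq_top with h1 | h1
    · exact hg (h1.le ⟨a, fun v => Module.End.mem_eigenspace_iff.1 (h.ge trivial)⟩)
    obtain ⟨v, hv⟩ := exists_ne (0 : V)
    rcases hirr (Submodule.span ℂ {v}) fun x w hw => by
      obtain ⟨c, hc⟩ : x ∈ K := h1.ge trivial
      exact hc w ▸ Submodule.smul_mem _ c hw with h2 | h2
    · exact hv (Submodule.span_singleton_eq_bot.1 h2)
    · have := finrank_span_singleton (K := ℂ) hv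
      rw [h2, finrank_top] at this
      omega
  · rw [Module.End.mem_eigenspace_iff] at hv ⊢
    rw [← Module.End.mul_apply, ← map_mul, ← Subgroup.mem_centralizer_singleton_iff.1 hc, map_mul,
      Module.End.mul_apply, hv, map_smul]

end Cfsg.Agent.S5011
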