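import Cfsg.Statements.S5075
import Cfsg.Agent.H36.McL3

set_option autoImplicit false
open Cfsg

namespace Cfsg.Agent.S5075

open H36 Module

theorem exists_classes {k V : Type*} [Field k] [AddCommGroup V] [Module k V] [Finite V] [Finite k]
    {T : V → Dual k V → Prop} (h : TV (ev k V) T) :
    ∃ (n : ℕ) (C : Fin n → V → Dual k V → Prop), 1 ≤ n ∧ (∀ j, TV (ev k V) (C j)) ∧
      (∀ j, Conn (ev k V) (C j)) ∧ (∀ j v φ, C j v φ → T v φ) ∧ (∀ v φ, T v φ → ∃ j, C j v φ) ∧
      ∀ j j', j ≠ j' → ∀ v φ w ψ, C j v φ → C j' w ψ → φ w = 0 := by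
  have : Finite (Dual k V) :=
    Finite.of_injective (fun f : Dual k V => (f : V → k)) DFunLike.coe_injective
  let I := Set.range (Cls (ev k V) T)
  have : Finite I := Set.finite_range _
  have : Nonempty I := ⟨⟨_, (0, 0), rfl⟩⟩
  let e := Finite.equivFin I
  refine ⟨Nat.card I, fun j => (e.symm j).1, Nat.card_pos, fun j => ?_, fun j => ?_,
    fun j v φ hv => ?_, fun v φ hv => ?_, fun j j' hj v φ w ψ hv hw => ?_⟩
  · obtain ⟨a, ha⟩ := (e.symm j).2
    simp only [← ha]
    exact h.cls a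
  · obtain ⟨a, ha⟩ := (e.symm j).2
    simp only [← ha]
    exact h.conn_cls a
  · obtain ⟨a, ha⟩ := (e.symm j).2
    simp only [← ha] at hv
    exact hv.1
  · refine ⟨e ⟨_, (v, φ), rfl⟩, ?_⟩
    simp only [Equiv.symm_apply_apply]
    exact ⟨hv, Relation.ReflTransGen.refl⟩
  · by_contra hn
    obtain ⟨a, ha⟩ := (e.symm j).2
    obtain ⟨b, hb⟩ := (e.symm j').2
    simp only [← ha] at hv
    simp only [← hb] at hw
    have hab : Relation.ReflTransGen (NC (ev k V) T) a b :=
      (hv.2.tail (c := (w, ψ)) ⟨hv.1, hw.1, Or.inl hn⟩).trans (rtg_symm' (fun _ _ => NC.symm) hw.2)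
    refine hj (e.symm.injective (Subtype.ext ?_))
    rw [← ha, ← hb]
    funext x ξ
    exact propext ⟨fun g => ⟨g.1, (rtg_symm' (fun _ _ => NC.symm) hab).trans g.2⟩,
      fun g => ⟨g.1, hab.trans g.2⟩⟩

/-- Let p be an odd prime, V a finite-dimensional vector space over the field with p elements, and H a group of linear automorphisms of V generated by transvections (elements of order p fixing a hyperplane pointwise) and having no nontrivial normal p-subgroup. Then for some n ≥ 1 there are a decomposition V = V₀ ⊕ V₁ ⊕ ⋯ ⊕ Vₙ into H-invariant subspaces and a decomposition of H as the internal direct product of normal subgroups H₁, …, Hₙ such that Hⱼ acts trivially on every Vᵢ with i ≠ j, and Hⱼ induces on Vⱼ exactly the special linear group of Vⱼ or exactly the isometry group of a non-degenerate alternating form on Vⱼ. -/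
theorem result {p : ℕ} [Fact p.Prime] (hp : Odd p) {V : Type*} [AddCommGroup V] [Module (ZMod p) V] [Finite V]
    (H : Subgroup (V ≃ₗ[ZMod p] V)) (T : Set (V ≃ₗ[ZMod p] V)) (hHT : H = Subgroup.closure T)
    (hT : ∀ t ∈ T, orderOf t = p ∧
      Module.finrank (ZMod p) ↥(LinearMap.ker ((t : V →ₗ[ZMod p] V) - LinearMap.id)) + 1 =
        Module.finrank (ZMod p) V)
    (hOp : Cfsg.pCore p ↥H = ⊥) :
    ∃ (n : ℕ) (W : Fin (n + 1) → Submodule (ZMod p) V) (K : Fin n → Subgroup (V ≃ₗ[ZMod p] V)),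
      1 ≤ n ∧ DirectSum.IsInternal W ∧
      (∀ h ∈ H, ∀ i, (W i).map (h : V →ₗ[ZMod p] V) = W i) ∧
      (∀ j, K j ≤ H ∧ ((K j).subgroupOf H).Normal) ∧ ⨆ j, K j = H ∧
      (∀ j, K j ⊓ (⨆ j' ∈ {j' : Fin n | j' ≠ j}, K j') = ⊥) ∧
      (∀ j j', j ≠ j' → ∀ a ∈ K j, ∀ b ∈ K j', a * b = b * a) ∧
      (∀ j, ∀ h ∈ K j, ∀ i : Fin (n + 1), i ≠ j.succ → ∀ v ∈ W i, h v = v) ∧
      (∀ j, ∃ ρ : ↥(K j) →* (↥(W j.succ) ≃ₗ[ZMod p] ↥(W j.succ)),
        (∀ (h : ↥(K j)) (v : ↥(W j.succ)), ((ρ h v : ↥(W j.succ)) : V) = (h : V ≃ₗ[ZMod p] V) (v : V)) ∧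
        ((ρ.range : Set (↥(W j.succ) ≃ₗ[ZMod p] ↥(W j.succ))) =
            {f : ↥(W j.succ) ≃ₗ[ZMod p] ↥(W j.succ) | LinearMap.det (f : ↥(W j.succ) →ₗ[ZMod p] ↥(W j.succ)) = 1} ∨
          ∃ B : LinearMap.BilinForm (ZMod p) ↥(W j.succ), B.IsAlt ∧ B.Nondegenerate ∧
            (ρ.range : Set (↥(W j.succ) ≃ₗ[ZMod p] ↥(W j.succ))) = {f : ↥(W j.succ) ≃ₗ[ZMod p] ↥(W j.succ) | ∀ x y, B (f x) (f y) = B x y})) := by
  classical
  have hTV := tv_TH hp hOp
  obtain ⟨n, C, hn, hC, hcon, hsub, hcov, horth⟩ := exists_classes hTV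
  have hUZ : ∀ j j', j ≠ j' → cenSp (ZMod p) (C j) ≤ kerSp (C j') := fun j j' hj =>
    Submodule.span_le.mpr fun w ⟨ψ, hw⟩ => mem_kerSp.mpr fun v φ hv => horth j' j hj.symm v φ w ψ hv hw
  have hcompl := fun j => (hC j).isCompl (hcon j)
  let W : Fin (n + 1) → Submodule (ZMod p) V :=
    Fin.cons (⨅ j, kerSp (C j)) (fun j => cenSp (ZMod p) (C j))
  have hWZ : ∀ (j : Fin n) (i : Fin (n + 1)), i ≠ j.succ → W i ≤ kerSp (C j) := by
    intro j i hi
    refine Fin.cases (motive := fun i => i ≠ j.succ → W i ≤ kerSp (C j)) (fun _ => iInf_le _ j)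
      (fun i hi => hUZ i j fun e => hi (by rw [e])) i hi
  have hKH : ∀ j, KC (C j) ≤ H := fun j => (Subgroup.closure_le _).mpr fun g ⟨v, φ, e1, e2⟩ => by
    obtain ⟨-, -, -, g', hg', e3⟩ := hsub j v φ e1
    exact e3.ext e2 ▸ hg'
  have hsup : ⨆ j, KC (C j) = H := by
    refine le_antisymm (iSup_le hKH) (hHT.le.trans ((Subgroup.closure_le _).mpr fun t ht => ?_))
    obtain ⟨v, φ, e1, e2⟩ := exists_TH (H := H) (hHT ▸ Subgroup.subset_closure ht) (hT t ht).1 (hT t ht).2
    obtain ⟨j, e3⟩ := hcov v φ e1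
    exact Subgroup.mem_iSup_of_mem j (Subgroup.subset_closure ⟨v, φ, e3, e2⟩)
  have hcomm : ∀ j j', j ≠ j' → ∀ a ∈ KC (C j), ∀ b ∈ KC (C j'), a * b = b * a := by
    intro j j' hj a ha b hb
    ext x
    have e1 := KC_fix ha (hUZ j' j hj.symm (KC_sub_mem hb x))
    have e2 := KC_fix hb (hUZ j j' hj (KC_sub_mem ha x))
    rw [map_sub, sub_eq_iff_eq_add] at e1 e2
    rw [LinearEquiv.mul_apply, LinearEquiv.mul_apply, e1, e2]
    abel
  have hinv : ∀ h ∈ H, ∀ i, ∀ x ∈ W i, h x ∈ W i := by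
    intro h hh i
    rw [← hsup] at hh
    induction hh using Subgroup.iSup_induction' with
    | hp j g hg =>
      intro x hx
      by_cases hi : i = j.succ
      · subst hi; exact KC_mem hg hx
      · rwa [KC_fix hg (hWZ j i hi hx)]
    | h1 => exact fun x hx => hx
    | hmul a b _ _ ha hb => exact fun x hx => ha _ (hb x hx)
  let P : V →ₗ[ZMod p] V := ∑ j, (cenSp (ZMod p) (C j)).projection (kerSp (C j)) (hcompl j)
  refine ⟨n, W, fun j => KC (C j), hn, ?_, ?_, fun j => ⟨hKH j, ⟨fun g hg h => ?_⟩⟩, hsup, ?_, hcomm,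
    fun j h hh i hi v hv => KC_fix hh (hWZ j i hi hv), fun j => ⟨KCres (C j), fun _ _ => rfl, ?_⟩⟩
  · rw [DirectSum.isInternal_submodule_iff_iSupIndep_and_iSup_eq_top]
    constructor
    · intro i
      refine Fin.cases ?_ (fun j => ?_) i
      · rw [Submodule.disjoint_def]
        intro x hx hx'
        have e1 : P x = 0 := by
          rw [LinearMap.sum_apply]
          exact Finset.sum_eq_zero fun j _ => Submodule.projection_apply_of_mem_right _
            ((Submodule.mem_iInf _).mp hx j)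
        have e2 : (⨆ i, ⨆ (_ : i ≠ (0 : Fin (n + 1))), W i) ≤ LinearMap.eqLocus P LinearMap.id := by
          refine iSup_le fun i => Fin.cases ?_ (fun j => iSup_le fun _ y hy => ?_) i
          · simp
          · change P y = y
            rw [LinearMap.sum_apply, Finset.sum_eq_single j (fun j' _ hj =>
              Submodule.projection_apply_of_mem_right _ (hUZ j j' (Ne.symm hj) hy)) (by simp)]
            exact Submodule.projection_apply_of_mem_left _ hy
        exact (e2 hx').symm.trans e1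
      · exact (hcompl j).disjoint.mono_right (iSup₂_le fun i hi => hWZ j i hi)
    · rw [eq_top_iff]
      intro x _
      have e1 : x - P x ∈ W 0 := by
        refine (Submodule.mem_iInf _).mpr fun j => ?_
        rw [LinearMap.sum_apply, ← Finset.add_sum_erase _ _ (Finset.mem_univ j), ← sub_sub]
        refine Submodule.sub_mem _ (Submodule.sub_projection_mem _ _) (Submodule.sum_mem _ ?_)
        intro j' hj'
        exact hUZ j' j (Finset.ne_of_mem_erase hj') (Submodule.projection_apply_mem _ _)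
      have e2 : P x ∈ ⨆ i, W i := by
        rw [LinearMap.sum_apply]
        exact Submodule.sum_mem _ fun j _ => Submodule.mem_iSup_of_mem j.succ
          (Submodule.projection_apply_mem (hcompl j) x)
      simpa using Submodule.add_mem _ (Submodule.mem_iSup_of_mem 0 e1) e2
  · intro h hh i
    apply le_antisymm
    · rintro _ ⟨x, hx, rfl⟩; exact hinv h hh i x hx
    · intro x hx
      exact ⟨h⁻¹ x, hinv _ (H.inv_mem hh) i x hx, by simp⟩
  · obtain ⟨h, hh⟩ := h
    rw [Subgroup.mem_subgroupOf] at hg ⊢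
    change h * g * h⁻¹ ∈ KC (C j)
    generalize (g : V ≃ₗ[ZMod p] V) = g' at hg
    rw [← hsup] at hh
    induction hh using Subgroup.iSup_induction' generalizing g' with
    | hp j' a ha =>
      by_cases hj : j' = j
      · subst hj; exact Subgroup.mul_mem _ (Subgroup.mul_mem _ ha hg) (Subgroup.inv_mem _ ha)
      · rwa [hcomm j' j hj a ha g' hg, mul_inv_cancel_right]
    | h1 => simpa using hg
    | hmul a b _ _ ha hb =>
      have := ha _ (hb _ hg)
      simpa [mul_assoc] using this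
  · intro j
    rw [eq_bot_iff]
    rintro g ⟨h1, h2⟩
    have e : (⨆ j' ∈ {j' : Fin n | j' ≠ j}, KC (C j')) ≤
        fixingSubgroup (V ≃ₗ[ZMod p] V) (cenSp (ZMod p) (C j) : Set V) :=
      iSup₂_le fun j' hj' a ha => (mem_fixingSubgroup_iff _).mpr fun y hy =>
        KC_fix ha (hUZ j j' (Ne.symm hj') hy)
    have e' := (mem_fixingSubgroup_iff _).mp (e h2)
    rw [Subgroup.mem_bot]
    ext x
    obtain ⟨y, hy, z, hz, rfl⟩ := Submodule.mem_sup.mp ((hcompl j).sup_eq_top.ge (Submodule.mem_top (x := x)))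
    rw [map_add, KC_fix h1 hz]
    exact congrArg (· + z) (e' y hy)
  · by_cases h2 : ∃ u, Two (ZMod p) (C j) u
    · obtain ⟨u, h2⟩ := h2
      exact Or.inl ((hC j).range_SL (hcon j) h2)
    · exact Or.inr ((hC j).range_Sp (hcon j) (not_exists.mp h2))

end Cfsg.Agent.S5075
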