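import Cfsg.Statements.S5088
import Cfsg.Agent.H96.NormalCrit

set_option autoImplicit false
open Cfsg

namespace Cfsg.Agent.S5088

open Cfsg.FusionSystem Cfsg.Agent.H97 Cfsg.Agent.H98 Cfsg.Agent.H96


/-- In a saturated fusion system over a finite p-group, a subgroup Q is normal in the system if and only if there is a chain of subgroups 1 = Q₀ ≤ Q₁ ≤ ⋯ ≤ Qₙ = Q such that each Qᵢ with i ≥ 1 is strongly closed in the system and [Q, Qᵢ] ≤ Qᵢ₋₁. -/
theorem result {Ω : Type*} [Group Ω] {S : Subgroup Ω} [Finite S] (p : ℕ) [Fact p.Prime] (hS : IsPGroup p S) (F : Cfsg.FusionSystem S) (hF : F.IsSaturated p) (Q : Subgroup Ω) : F.IsNormal Q ↔ ∃ (n : ℕ) (Qs : Fin (n + 1) → Subgroup Ω), Qs 0 = ⊥ ∧ Qs (Fin.last n) = Q ∧ Monotone Qs ∧ ∀ i : Fin n, F.StronglyClosed (Qs i.succ) ∧ ⁅Q, Qs i.succ⁆ ≤ Qs (Fin.castSucc i) := by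
  constructor
  · intro h
    haveI := finite_of_le_S h.1
    obtain ⟨n, hn⟩ := exists_ucs_eq (hS.to_le h.1)
    refine ⟨n, fun i => ucs Q i, ucs_zero, hn, fun i j hij => ucs_mono hij,
      fun i => ⟨stronglyClosed_ucs_of_isNormal h _, ?_⟩⟩
    rw [Subgroup.commutator_comm, Subgroup.commutator_le]
    intro x hx y hy
    exact (mem_ucs_succ.1 hx).2 y hy
  · rintro ⟨n, Qs, h0, hn, hmono, h⟩
    refine sat_isNormal_of_chain hS hF (fun i => if hi : i < n + 1 then Qs ⟨i, hi⟩ else Q) n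
      (by simpa using h0) (by rw [dif_pos (by omega)]; exact hn) ?_ ?_ ?_
    · intro i hi
      rw [dif_pos (by omega), dif_pos (by omega)]
      exact hmono (Fin.mk_le_mk.2 (by omega))
    · intro i hi
      rw [dif_pos (by omega)]
      rcases i with _ | i
      · have : Qs ⟨0, by omega⟩ = ⊥ := h0
        rw [this]
        exact stronglyClosed_bot F
      · exact (h ⟨i, by omega⟩).1
    · intro s hs i hi x hx
      rw [dif_pos (by omega)] at hx ⊢
      have h1 := (h ⟨i, hi⟩).2 (Subgroup.commutator_mem_commutator hs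
        ((Qs (Fin.succ ⟨i, hi⟩)).inv_mem hx))
      have h2 := (Qs _).inv_mem h1
      simpa [commutatorElement_def, mul_assoc] using h2

end Cfsg.Agent.S5088
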