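import Cfsg.Statements.S5102
import Cfsg.Agent.H98.GroupFusion

set_option autoImplicit false
open Cfsg

namespace Cfsg.Agent.S5102

/-- A normal p-subgroup of a finite group G is normal in the fusion system of G on a Sylow p-subgroup. -/
theorem result {G : Type*} [Group G] [Finite G] (p : ℕ) [Fact p.Prime] (S : Sylow p G) (R : Subgroup G) [R.Normal] (hR : IsPGroup p R) : (Cfsg.groupFusionSystem (S : Subgroup G)).IsNormal R := by
  have hRS : R ≤ S := hR.le_sylow_of_normal S
  refine ⟨hRS, ?_⟩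
  rintro P φ ⟨hP, hφ, g, hg⟩
  have hRg : R.map (MulAut.conj g).toMonoidHom = R :=
    H98.map_conj_eq_iff_mem_normalizer.mpr (Subgroup.le_normalizer_of_normal (Subgroup.mem_top g))
  have hle : (P ⊔ R).map (MulAut.conj g).toMonoidHom ≤ S := by
    rw [Subgroup.map_sup, hRg, ← H98.range_eq_map_conj hg]
    refine sup_le ?_ hRS
    rintro _ ⟨x, rfl⟩
    exact hφ x
  refine ⟨conjHom _ g, ⟨sup_le hP hRS, fun x => hle (H98.conj_mem_map_conj x.2), g, fun _ => rfl⟩,
    fun x => (hg x).symm, ?_⟩
  rw [conjHom, ← Subgroup.map_map, Subgroup.subgroupOf_map_subtype, inf_eq_left.mpr le_sup_right,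
    hRg]

end Cfsg.Agent.S5102
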