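import Cfsg.Statements.S5163
import Cfsg.Agent.H98.SLChar

set_option autoImplicit false
open Cfsg

namespace Cfsg.Agent.S5163

/-- For a finite field K of characteristic p and n ≥ 3, the p-fusion system of the projective special linear group PSL_n(K) on a Sylow p-subgroup is simple. -/
theorem result {K : Type*} [Field K] [Fintype K] (p : ℕ) [Fact p.Prime] [CharP K p] (n : ℕ) (hn : 3 ≤ n) (S : Sylow p (Matrix.ProjectiveSpecialLinearGroup (Fin n) K)) : (Cfsg.groupFusionSystem (S : Subgroup (Matrix.ProjectiveSpecialLinearGroup (Fin n) K))).IsSimple p := by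
  haveI : Nonempty (Fin n) := ⟨⟨0, by omega⟩⟩
  obtain ⟨R⟩ : Nonempty (Sylow p (Matrix.SpecialLinearGroup (Fin n) K)) := inferInstance
  refine H98.group_isSimple_quotient_of_coprime _ ?_ R (H98.SLC.sl_isSimple hn R) S
  rw [H26.card_center_sl]
  refine Nat.Coprime.coprime_dvd_left (Nat.gcd_dvd_right _ _) ?_
  obtain ⟨k, -, hk⟩ := FiniteField.card K p
  rw [Nat.card_eq_fintype_card, hk]
  refine Nat.Coprime.coprime_dvd_right (dvd_pow_self p k.ne_zero) ?_
  exact (Nat.coprime_self_sub_left (Nat.one_le_pow _ _ (Fact.out : p.Prime).pos)).2 (by simp)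

end Cfsg.Agent.S5163
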