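import Cfsg.Statements.S5171
import Cfsg.Agent.H98.PFChar
import Cfsg.Agent.H27.SympSimple

set_option autoImplicit false
open Cfsg

namespace Cfsg.Agent.S5171

/-- For a finite field K of characteristic p and m ≥ 2, excluding the case m = 2 with K of two elements, the p-fusion system of the projective symplectic group PSp_{2m}(K) on a Sylow p-subgroup is simple. -/
theorem result {K : Type*} [Field K] [Fintype K] (p : ℕ) [Fact p.Prime] [CharP K p] (m : ℕ) (hm : 2 ≤ m) (hex : m = 2 → 3 ≤ Fintype.card K) (S : Sylow p (Cfsg.PSp m K)) : (Cfsg.groupFusionSystem (S : Subgroup (Cfsg.PSp m K))).IsSimple p := by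
  classical
  haveI : Nonempty (Fin m) := ⟨⟨0, by omega⟩⟩
  obtain ⟨R⟩ : Nonempty (Sylow p (Matrix.symplecticGroup (Fin m) K)) := inferInstance
  have hn : Module.finrank K (Fin m ⊕ Fin m → K) = m + m := by simp
  obtain ⟨k, -, hk⟩ := FiniteField.card K p
  refine H98.group_isSimple_quotient_of_coprime _ ?_ R
    ((H98.PFC.max_sympP (H27.isSymplecticForm_sympForm (F := K) m)).group_isSimple (by omega) ?_
      (H26.gl.toMonoidHom.comp (H27.spToGL m K)) (H26.gl.injective.comp H27.spToGL_injective) ?_ R) S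
  · rw [H27.card_center_sp_gcd]
    refine Nat.Coprime.coprime_dvd_left (Nat.gcd_dvd_right _ _) ?_
    rw [hk]
    refine Nat.Coprime.coprime_dvd_right (dvd_pow_self p k.ne_zero) ?_
    exact (Nat.coprime_self_sub_left (Nat.one_le_pow _ _ (Fact.out : p.Prime).pos)).2 (by simp)
  · refine Or.inr ⟨rfl, ?_⟩
    by_cases h2 : m = 2
    · obtain ⟨c, h0, h1⟩ := Finset.exists_mem_notMem_of_card_lt_card (s := ({0, 1} : Finset K))
        (t := Finset.univ) (lt_of_le_of_lt Finset.card_le_two (hex h2))
      exact Or.inl ⟨c, by simpa using h1⟩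
    · exact Or.inr (by omega)
  · rw [MonoidHom.range_comp, H27.range_spToGL]
    ext x
    obtain ⟨g, rfl⟩ := H26.gl.surjective x
    exact (Subgroup.mem_map_iff_mem (f := H26.gl.toMonoidHom) H26.gl.injective).trans
      (H26.mem_spGL_iff g)

end Cfsg.Agent.S5171
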