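import Cfsg.Statements.S5172
import Cfsg.Agent.H98.PFChar
import Cfsg.Agent.H31.HermSU
import Cfsg.Agent.H26.SLBasic

set_option autoImplicit false
open Cfsg

namespace Cfsg.Agent.S5172

/-- For a finite field K with q² elements of characteristic p and n ≥ 4, the p-fusion system of the projective special unitary group PSU_n(q) (realised over K) on a Sylow p-subgroup is simple. -/
theorem result {K : Type*} [Field K] [Fintype K] (p q : ℕ) [Fact p.Prime] [CharP K p] (hK : Fintype.card K = q ^ 2) (n : ℕ) (hn : 4 ≤ n) (S : Sylow p (Cfsg.PSU n K q)) : (Cfsg.groupFusionSystem (S : Subgroup (Cfsg.PSU n K q))).IsSimple p := by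
  obtain ⟨R⟩ : Nonempty (Sylow p (Cfsg.SU n K q)) := inferInstance
  have hf := H26.isUnitaryForm_hermForm hK n
  obtain ⟨l, hl⟩ := H26.exists_trace_one hf
  refine H98.group_isSimple_quotient_of_coprime _ ?_ R
    ((H98.PFC.max_unitP hf l hl).group_isSimple (by simpa using hn) ?_
      (H26.gl.toMonoidHom.comp (Matrix.SpecialLinearGroup.toGL.comp (Cfsg.SU n K q).subtype))
      (H26.gl.injective.comp (Matrix.SpecialLinearGroup.toGL_injective.comp
        Subtype.val_injective)) ?_ R) S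
  · rw [H31.card_center_SU hK (by omega)]
    refine Nat.Coprime.coprime_dvd_left (Nat.gcd_dvd_right _ _) ?_
    obtain ⟨k, hp, hk⟩ := FiniteField.card K p
    have h1 : p ∣ q := hp.dvd_of_dvd_pow (by rw [← hK, hk]; exact dvd_pow_self p k.ne_zero)
    exact Nat.Coprime.coprime_dvd_right h1 (by simp)
  · obtain ⟨a, ha⟩ := H26.exists_ne_of_ne_refl hf.ne_refl
    exact Or.inl ⟨a, fun h => ha (h.trans (one_mul _)).symm⟩
  · ext x
    obtain ⟨g, rfl⟩ := H26.gl.surjective x
    rw [MonoidHom.range_comp, ← H26.mem_GU_inf_iff hK (by omega) l hl]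
    refine (Subgroup.mem_map_iff_mem (f := H26.gl.toMonoidHom) H26.gl.injective).trans
      ⟨?_, fun h => ?_⟩
    · rintro ⟨a, rfl⟩
      exact ⟨a.2, H26.range_toGL_eq_ker_det.le ⟨a.1, rfl⟩⟩
    · obtain ⟨a, rfl⟩ := H26.range_toGL_eq_ker_det.ge h.2
      exact ⟨⟨a, h.1⟩, rfl⟩

end Cfsg.Agent.S5172
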