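import Cfsg.Statements.S5196
import Cfsg.Agent.H99.Control

set_option autoImplicit false
universe u
open Cfsg

namespace Cfsg.Agent.S5196

/-- Let p be an odd prime and W a positive characteristic p-functor: W assigns to every finite p-group Q (in a fixed universe) a subgroup W(Q), nontrivial when Q is, carried to W(R) by every isomorphism Q ≅ R; assume also Z(Q) ≤ W(Q) for every finite p-group Q. Suppose W satisfies the local condition: for every finite group G with Sylow p-subgroup P, O_p(G) ∩ Z(G) = O_p(G) ∩ Z(N_G(W(P))). Then W controls weak closure of elements in every saturated fusion system F over a finite p-group S: the centre of the normalizer fusion system of W(S) in F equals the centre of F. (For p = 2 no functor satisfies the local condition, so p is taken odd.) -/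
theorem result {p : ℕ} [Fact p.Prime] (hp : p ≠ 2) (W : ∀ (Q : Type u) [Group Q], Subgroup Q) (hW1 : ∀ (Q : Type u) [Group Q] [Finite Q], IsPGroup p Q → Nontrivial Q → W Q ≠ ⊥) (hW2 : ∀ (Q R : Type u) [Group Q] [Group R] [Finite Q], IsPGroup p Q → ∀ φ : Q ≃* R, (W Q).map φ.toMonoidHom = W R) (hWZ : ∀ (Q : Type u) [Group Q] [Finite Q], IsPGroup p Q → Subgroup.center Q ≤ W Q) (hC : ∀ (G : Type u) [Group G] [Finite G] (P : Sylow p G), Cfsg.pCore p G ⊓ Subgroup.center G = Cfsg.pCore p G ⊓ (Subgroup.center ↥(Subgroup.normalizer (((W ↥(P : Subgroup G)).map (P : Subgroup G).subtype : Subgroup G) : Set G))).map (Subgroup.normalizer (((W ↥(P : Subgroup G)).map (P : Subgroup G).subtype : Subgroup G) : Set G)).subtype) {Ω : Type u} [Group Ω] {S : Subgroup Ω} [Finite S] (hS : IsPGroup p S) (F : Cfsg.FusionSystem S) (hF : F.IsSaturated p) (N : Cfsg.FusionSystem (Cfsg.FusionSystem.normalizerIn S ((W ↥S).map S.subtype))) (hN : F.IsNormalizerSystem ((W ↥S).map S.subtype) N) : N.center = F.center := by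
  have hn := H99.le_normalizer_wf hW2 hS
  refine le_antisymm ?_ (H99.center_le_nsys_center hS hF hN (H99.wf_le W S) hn)
  have hZ : N.center ≤ S := (H99.center_le_S N).trans H97.normalizerIn_le
  refine H99.FixAll.le_center hS hF (H99.fixAll_of_fixN hW1 hW2 (fun _ _ _ _ => True)
    (by intros; trivial) (by intros; trivial) ?_ F hS hF trivial _ hZ (H99.fixN_center hN hn)) hZ
  intro Ω _ S _ F hS hF _ hc Z hZ hfix
  obtain ⟨G, _, ι, hG⟩ := H99.exists_model_of_centralizerIn_le hS hF hc
  have := hG.1
  obtain ⟨T, hT⟩ := hG.2.2.1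
  have hw := H99.img_wf_range hW2 hS hG.2.1.1 hT
  have hQ := H99.IsModel.pCore_eq_img_core hS hG
  refine H99.fixAll_of_realized hG.2.1 fun z hz g _ => ?_
  have hzS : z ∈ S := (H97.isNormal_core F).1 (hZ hz)
  have h1 : H97.fn ι z ∈ pCore p G := hQ ▸ H97.mem_img_of_mem _ (hZ hz)
  have h2 : H97.fn ι z ∈ pCore p G ⊓ Subgroup.center G := by
    rw [hC G T]
    refine ⟨h1, ⟨H97.fn ι z, ?_⟩, Subgroup.mem_center_iff.2 fun n => Subtype.ext ?_, rfl⟩
    · have := H99.fn_mem_normalizer_img ι (H99.wf_le W S) hzS (H99.le_normalizer_wf hW2 hS hzS)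
      rw [hw] at this
      exact this
    · have h3 : (n : G) ∈ Subgroup.normalizer
          ((H97.img (H99.wf W S) (H97.fn ι) : Subgroup G) : Set G) := by
        rw [hw]; exact n.2
      have := hfix.conj_eq hG.2.1 (H99.wf_le W S) h3 hz hzS
        (H99.IsModel.pCore_le_range hG ((inferInstance : (pCore p G).Normal).conj_mem _ h1 n))
      rw [mul_inv_eq_iff_eq_mul] at this
      exact this
  rw [Subgroup.mem_center_iff.1 h2.2 g, mul_inv_cancel_right]

end Cfsg.Agent.S5196
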