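import Cfsg.Statements.S5222
import Cfsg.Agent.H96.Nilp

set_option autoImplicit false
open Cfsg

namespace Cfsg.Agent.S5222

open Cfsg.FusionSystem Cfsg.Agent.H97 Cfsg.Agent.H98 Cfsg.Agent.H96


/-- Let F be a saturated fusion system over a finite p-group S whose normalizer fusion system of S is the inner fusion system of S (Aut_F(S) is a p-group). Then for every subgroup Q of S with [S, S] ≤ Q ≤ Φ(S), the normalizer fusion system of Q in F is the inner fusion system of N_S(Q) = S. -/
theorem result {Ω : Type*} [Group Ω] {S : Subgroup Ω} [Finite S] (p : ℕ) [Fact p.Prime] (hS : IsPGroup p S) (F : Cfsg.FusionSystem S) (hF : F.IsSaturated p) (hN : ∀ N : Cfsg.FusionSystem (Cfsg.FusionSystem.normalizerIn S S), F.IsNormalizerSystem S N → ∀ P : Subgroup Ω, N.Hom P = (Cfsg.innerFusionSystem (Cfsg.FusionSystem.normalizerIn S S)).Hom P) (Q : Subgroup Ω) (h1 : (commutator ↥S).map S.subtype ≤ Q) (h2 : Q ≤ (frattini ↥S).map S.subtype) : ∀ N : Cfsg.FusionSystem (Cfsg.FusionSystem.normalizerIn S Q), F.IsNormalizerSystem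 Q N → ∀ P : Subgroup Ω, N.Hom P = (Cfsg.innerFusionSystem (Cfsg.FusionSystem.normalizerIn S Q)).Hom P := by
  have hQ : Q ≤ S := h2.trans (Subgroup.map_subtype_le _)
  rw [Subgroup.map_subtype_commutator] at h1
  rw [← nNil_iff_forall le_rfl] at hN
  rw [← nNil_iff_forall hQ]
  haveI := finite_of_le_S hQ
  have hn : S ≤ Subgroup.normalizer (Q : Set Ω) := fun s hs => mem_normalizer_of_conj_mem fun x hx => by
    have := Q.mul_mem (h1 (Subgroup.commutator_mem_commutator hs (hQ hx))) hx
    simpa [commutatorElement_def, mul_assoc] using this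
  exact nNil_of_forall hS hF hQ hn fun N n1 n2 n3 =>
    nil_of_stronglyClosed_le_frattini hS n1 (stronglyClosed_of_isNormal n3) h1 h2 (hN.of_sub n2)

end Cfsg.Agent.S5222
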