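import Cfsg.Statements.S5225
import Cfsg.Agent.H98.Tate

set_option autoImplicit false
open Cfsg

namespace Cfsg.Agent.S5225

/-- Yoshida's Theorem for fusion systems. Let F be a saturated fusion system over a finite p-group S and N the normalizer fusion system of S in F. If the focal subgroups of F and N differ (N does not control transfer in F), then S has a quotient isomorphic to the wreath product C_p ≀ C_p (realised as a Sylow p-subgroup of the symmetric group of degree p²). -/
theorem result {Ω : Type*} [Group Ω] {S : Subgroup Ω} [Finite S] (p : ℕ) [Fact p.Prime] (hS : IsPGroup p S) (F : Cfsg.FusionSystem S) (hF : F.IsSaturated p) (N : Cfsg.FusionSystem (Cfsg.FusionSystem.normalizerIn S S)) (hN : F.IsNormalizerSystem S N) (hne : N.focalSubgroup ≠ F.focalSubgroup) : ∃ (W : Sylow p (Equiv.Perm (Fin (p ^ 2)))) (f : ↥S →* ↥(W : Subgroup (Equiv.Perm (Fin (p ^ 2))))), Function.Surjective f := by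
  have hT : Cfsg.FusionSystem.normalizerIn S S = S := inf_eq_left.2 Subgroup.le_normalizer
  refine Cfsg.Agent.H98.yoshida hS hF hT
    (H97.normalizerSystem_saturated hS hF (H96.fullyNormalized_top F) hN)
    (H97.isSubsystemOf_iff.2 fun P f hf => ((H97.isNormalizerSystem_iff.1 hN P f).1 hf).mor)
    (fun f hf => (H97.mor_normalizerSystem_iff hN).2 ⟨hT.ge, f, by rwa [sup_idem], fun _ _ => rfl,
      (H96.iso_top hf).img_eq⟩) hne

end Cfsg.Agent.S5225
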