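import Cfsg.Statements.S5226
import Cfsg.Agent.H96.NormalCrit

set_option autoImplicit false
open Cfsg

namespace Cfsg.Agent.S5226

open Cfsg.FusionSystem Cfsg.Agent.H97 Cfsg.Agent.H98 Cfsg.Agent.H96


/-- Let F be a saturated fusion system over a finite p-group S and Q a subgroup of S. Then Q is normal in F (F equals the normalizer system of Q) if and only if Q is strongly closed in F and admits a central series 1 = Q₀ ≤ Q₁ ≤ ⋯ ≤ Qₙ = Q ([Qᵢ₊₁, Q] ≤ Qᵢ) all of whose proper terms are weakly closed in F. -/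
theorem result {Ω : Type*} [Group Ω] {S : Subgroup Ω} [Finite S] (p : ℕ) [Fact p.Prime] (hS : IsPGroup p S) (F : Cfsg.FusionSystem S) (hF : F.IsSaturated p) (Q : Subgroup Ω) : F.IsNormal Q ↔ F.StronglyClosed Q ∧ ∃ (n : ℕ) (C : Fin (n + 1) → Subgroup Ω), C 0 = ⊥ ∧ C (Fin.last n) = Q ∧ Monotone C ∧ (∀ i : Fin n, ⁅C i.succ, Q⁆ ≤ C i.castSucc) ∧ ∀ i : Fin n, F.WeaklyClosed (C i.castSucc) := by
  constructor
  · intro h
    haveI := finite_of_le_S h.1
    obtain ⟨n, hn⟩ := exists_ucs_eq (hS.to_le h.1)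
    refine ⟨stronglyClosed_of_isNormal h, n, fun i => ucs Q i, ucs_zero, hn,
      fun i j hij => ucs_mono hij, fun i => ?_, fun i => ?_⟩
    · rw [Subgroup.commutator_le]
      intro x hx y hy
      exact (mem_ucs_succ.1 hx).2 y hy
    · haveI := finite_of_le_S ((ucs_le (Q := Q) i.castSucc).trans h.1)
      exact weaklyClosed_of_stronglyClosed (stronglyClosed_ucs_of_isNormal h _)
  · rintro ⟨hQ, n, C, h0, hn, hmono, h1, h2⟩
    refine sat_isNormal_of_weak_chain hS hF hQ (fun i => if hi : i < n + 1 then C ⟨i, hi⟩ else Q) n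
      (by simpa using h0) (by rw [dif_pos (by omega)]; exact hn) ?_ ?_ ?_
    · intro i j hij hj
      rw [dif_pos (by omega), dif_pos (by omega)]
      exact hmono (Fin.mk_le_mk.2 hij)
    · intro i hi
      rw [dif_pos (by omega)]
      exact h2 ⟨i, hi⟩
    · intro i hi x hx s hs
      rw [dif_pos (by omega)] at hx ⊢
      exact h1 ⟨i, hi⟩ (Subgroup.commutator_mem_commutator hx hs)

end Cfsg.Agent.S5226
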