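import Cfsg.Statements.S5236
import Cfsg.Agent.H96.SubEq

set_option autoImplicit false
open Cfsg

namespace Cfsg.Agent.S5236

open Cfsg.FusionSystem Cfsg.Agent.H97 Cfsg.Agent.H98 Cfsg.Agent.H96


/-- Let p be an odd prime, F a saturated fusion system over a finite p-group S and P a subgroup of S strongly closed in F. Then P is normal in F if and only if Ω₁(P) (the subgroup generated by the elements of order p of P) has a chain of subgroups 1 = Q₀ ≤ Q₁ ≤ ⋯ ≤ Qₙ = Ω₁(P), each strongly closed in F, with [Qᵢ₊₁, P] ≤ Qᵢ for all i. -/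
theorem result {Ω : Type*} [Group Ω] {S : Subgroup Ω} [Finite S] (p : ℕ) [Fact p.Prime] (hS : IsPGroup p S) (F : Cfsg.FusionSystem S) (hF : F.IsSaturated p) (hp : p ≠ 2) (P : Subgroup Ω) (hP : F.StronglyClosed P) : F.IsNormal P ↔ ∃ (n : ℕ) (Q : Fin (n + 1) → Subgroup Ω), Q 0 = ⊥ ∧ Q (Fin.last n) = Cfsg.omegaOne p P ∧ Monotone Q ∧ (∀ i : Fin (n + 1), F.StronglyClosed (Q i)) ∧ ∀ i : Fin n, ⁅Q i.succ, P⁆ ≤ Q i.castSucc := by
  constructor
  · intro h
    haveI := finite_of_le_S h.1
    obtain ⟨n, hn⟩ := exists_ucs_eq (hS.to_le h.1)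
    refine ⟨n, fun i => omegaOne p P ⊓ ucs P i, ?_, ?_,
      fun i j hij => inf_le_inf_left _ (ucs_mono hij), fun i => ?_, fun i => ?_⟩
    · show omegaOne p P ⊓ ucs P 0 = ⊥
      rw [ucs_zero, inf_bot_eq]
    · show omegaOne p P ⊓ ucs P n = _
      rw [hn, inf_eq_left.2 (omegaOne_le p P)]
    · exact stronglyClosed_inf (stronglyClosed_of_isNormal (isNormal_omegaOne h))
        (stronglyClosed_ucs_of_isNormal h _)
    · rw [Subgroup.commutator_le]
      intro x hx y hy
      refine ⟨?_, (mem_ucs_succ.1 hx.2).2 y hy⟩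
      have h1 := conj_mem_of_stronglyClosed (stronglyClosed_of_isNormal (isNormal_omegaOne (p := p) h))
        (h.1 hy) ((omegaOne p P).inv_mem hx.1)
      have h2 := (omegaOne p P).mul_mem hx.1 h1
      simpa [commutatorElement_def, mul_assoc] using h2
  · rintro ⟨n, Q, h0, hn, hmono, h1, h2⟩
    refine sat_isNormal_of_omega_chain hS hF hp hP (fun i => if hi : i < n + 1 then Q ⟨i, hi⟩ else ⊥)
      n (by simpa using h0) (by rw [dif_pos (by omega)]; exact hn.ge) ?_ ?_ ?_
    · intro i hi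
      rw [dif_pos (by omega), dif_pos (by omega)]
      exact hmono (Fin.mk_le_mk.2 (by omega))
    · intro i hi
      rw [dif_pos (by omega)]
      exact h1 _
    · intro s hs i hi x hx
      rw [dif_pos (by omega)] at hx ⊢
      have h3 := h2 ⟨i, hi⟩ (Subgroup.commutator_mem_commutator
        ((Q (Fin.succ ⟨i, hi⟩)).inv_mem hx) hs)
      simpa [commutatorElement_def, mul_assoc] using h3

end Cfsg.Agent.S5236
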