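import Cfsg.Statements.S5243
import Cfsg.Agent.H95.Resid

set_option autoImplicit false
open Cfsg
open Cfsg.Agent.H95 Cfsg.Agent.H96 Cfsg.Agent.H97 Cfsg.Agent.H98

namespace Cfsg.Agent.S5243

/-- Let F be a saturated fusion system over a finite p-group S, E a normal subsystem of F over T ≤ S, and χ a surjective homomorphism from Aut_F(T) onto a nontrivial finite group Δ of order prime to p whose kernel contains Aut_E(T). Then there is a proper normal subsystem F₀ of F over S containing E such that Aut_{F₀}(S) consists of those α ∈ Aut_F(S) whose restriction to T is an element of Aut_F(T) in the kernel of χ; moreover every p'-residual subsystem O^{p'}(F) of F is contained in F₀. -/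
theorem result {Ω : Type*} [Group Ω] {S : Subgroup Ω} [Finite S] (p : ℕ) [Fact p.Prime] (hS : IsPGroup p S) (F : Cfsg.FusionSystem S) (hF : F.IsSaturated p) {T : Subgroup Ω} (hTS : T ≤ S) (E : Cfsg.FusionSystem T) (hE : E.IsNormalIn F p) {Δ : Type*} [Group Δ] [Finite Δ] [Nontrivial Δ] (hΔ : (Nat.card Δ).Coprime p) (χ : ↥(F.autGroup T) →* Δ) (hχ : Function.Surjective χ) (hker : (E.autGroup T).subgroupOf (F.autGroup T) ≤ χ.ker) : ∃ F₀ : Cfsg.FusionSystem S, F₀.IsNormalIn F p ∧ ¬ (∀ P : Subgroup Ω, F₀.Hom P = F.Hom P) ∧ E.IsSubsystemOf F₀ ∧ (∀ α : MulAut ↥S, α ∈ F₀.autGroup S ↔ α ∈ F.autGroup S ∧ ∃ β : ↥(F.autGroup T), χ β = 1 ∧ ∀ t : ↥T, (((β : MulAut ↥T) t : ↥T) : Ω) = ((α ⟨(t : Ω), hTS t.2⟩ : ↥S) : Ω)) ∧ ∀ R : Cfsg.FusionSystem S, F.IsPPrimeResidual p R → R.IsSubsystemOf F₀ := by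
  have hK : ∀ α, α ∈ χ.ker.map (F.autGroup T).subtype ↔ ∃ β : F.autGroup T, χ β = 1 ∧ β = α :=
    fun α => Iff.rfl
  obtain ⟨D, k1, -, k3, k4, k5⟩ := exists_pPrime_step hS hE.1 (isNormalIn_refl hF).1 (normalIn_sub hE)
    (K := χ.ker.map (F.autGroup T).subtype) (Subgroup.map_subtype_le _)
    (by rintro α hα _ ⟨κ, hκ, rfl⟩; exact ⟨_, (MonoidHom.normal_ker χ).conj_mem κ hκ ⟨α, hα⟩, rfl⟩)
    (fun α hα => ⟨⟨α, autGroup_mono (normalIn_sub hE) hα⟩, hker hα, rfl⟩)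
    fun α hα ⟨k, hk⟩ => ⟨⟨α, hα⟩, eq_one_of_pow_of_coprime (p := p) (k := k)
      (by rw [← map_pow, show (⟨α, hα⟩ : F.autGroup T) ^ p ^ k = 1 from Subtype.ext hk, map_one])
      (hΔ.coprime_dvd_left (orderOf_dvd_natCard _)), rfl⟩
  refine ⟨D, k1, fun h => ?_, k3, fun α => ⟨fun hα => ?_, fun ⟨hα, β, h1, e⟩ => ?_⟩,
    fun R hR => eq_opPrime hS hF hR ▸ opPrime_le_of_saturated hS hF (normalIn_sub k1)
      (normalIn_sat k1) k4⟩
  · obtain ⟨d, hd⟩ := exists_ne (1 : Δ)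
    obtain ⟨β, rfl⟩ := hχ d
    have h1 := mor_of_mem_autGroup hTS β.2
    obtain ⟨_, ⟨κ, hκ, rfl⟩, e⟩ := (k5 T _ le_rfl h1).1 ((mor_iff_of_hom_eq (h T) _).2 h1)
    exact hd ((Subtype.ext (aut_ext e) : β = κ) ▸ hκ)
  · have h1 := mor_of_mem_autGroup le_rfl hα
    obtain ⟨_, ⟨κ, hκ, rfl⟩, e⟩ := (k5 S _ hTS (h1.of_sub (normalIn_sub k1))).1 h1
    exact ⟨autGroup_mono (normalIn_sub k1) hα, κ, hκ, fun t => by
      rw [← ext_apply _ (hTS t.2), e t t.2, ext_coe]; rfl⟩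
  · exact mem_autGroup_of_mor ((k5 S _ hTS (mor_of_mem_autGroup le_rfl hα)).2
      ⟨β, ⟨β, h1, rfl⟩, fun x hx => by rw [ext_apply _ (hTS hx), ← e ⟨x, hx⟩, ext_apply _ hx]⟩)

end Cfsg.Agent.S5243
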