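import Cfsg.Statements.S5276
import Cfsg.Agent.H96.Nilp
import Cfsg.Agent.H3.Frattini

set_option autoImplicit false
open Cfsg

namespace Cfsg.Agent.S5276

open Cfsg.FusionSystem Cfsg.Agent.H97 Cfsg.Agent.H98 Cfsg.Agent.H96


/-- Let p be a prime and F a saturated fusion system over a finite p-group S. Then F is the inner fusion system of S if and only if the normalizer fusion system of S itself in F is the inner fusion system (equivalently, Aut_F(S) is induced by S) and the Frattini subgroup Φ(S) is strongly closed in F. -/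
theorem result {Ω : Type*} [Group Ω] {S : Subgroup Ω} [Finite S] (p : ℕ) [Fact p.Prime] (hS : IsPGroup p ↥S) (F : Cfsg.FusionSystem S) (hF : F.IsSaturated p) : (∀ P : Subgroup Ω, F.Hom P = (Cfsg.innerFusionSystem S).Hom P) ↔ (∀ N : Cfsg.FusionSystem (Cfsg.FusionSystem.normalizerIn S S), F.IsNormalizerSystem S N → ∀ P : Subgroup Ω, N.Hom P = (Cfsg.innerFusionSystem (Cfsg.FusionSystem.normalizerIn S S)).Hom P) ∧ F.StronglyClosed ((frattini ↥S).map S.subtype) := by
  rw [← nil_iff_hom, ← nNil_iff_forall le_rfl]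
  constructor
  · intro h
    refine ⟨h.nNil _, stronglyClosed_iff.2 ⟨Subgroup.map_subtype_le _, fun P f hf x hx hxQ => ?_⟩⟩
    obtain ⟨s, hs, e⟩ := h P f hf
    obtain ⟨y, hy, rfl⟩ := hxQ
    rw [e _ hx]
    exact ⟨⟨s, hs⟩ * y * ⟨s, hs⟩⁻¹, (inferInstance : (frattini S).Normal).conj_mem y hy _, rfl⟩
  · rintro ⟨h1, h2⟩
    refine nil_of_stronglyClosed_le_frattini hS hF h2 ?_ le_rfl h1
    rw [← Subgroup.map_subtype_commutator]
    exact Subgroup.map_mono (H3.commutator_le_frattini hS)

end Cfsg.Agent.S5276
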