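import Cfsg.Statements.S5286
import Cfsg.Agent.H98.Tree
import Cfsg.Agent.H97.Factor

set_option autoImplicit false
universe u
open Cfsg

namespace Cfsg.Agent.S5286

open H97 H98.Tree

theorem exists_perm {S : Type*} [Group S] [Finite S] {A : Subgroup S} (ψ : A →* S)
    (h : Function.Injective ψ) : ∃ σ : Equiv.Perm S, ∀ x : A,
      σ * MulAction.toPermHom S S x = MulAction.toPermHom S S (ψ x) * σ := by
  obtain ⟨T, hT, -⟩ := A.exists_isComplement_right 1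
  obtain ⟨T', hT', -⟩ := ψ.range.exists_isComplement_right 1
  obtain ⟨τ⟩ : Nonempty (T ≃ T') := by
    rw [← Finite.card_eq, hT.card_right, hT'.card_right]
    exact Nat.eq_of_mul_eq_mul_left Nat.card_pos ((A.card_mul_index.trans
      ψ.range.card_mul_index.symm).trans (congrArg (· * _)
        (Nat.card_congr (MonoidHom.ofInjective h).toEquiv).symm))
  refine ⟨hT.equiv.trans ((Equiv.prodCongr (MonoidHom.ofInjective h).toEquiv τ).trans
    hT'.equiv.symm), fun x => Equiv.ext fun y => ?_⟩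
  simp only [Equiv.Perm.mul_apply, MulAction.toPermHom_apply, MulAction.toPerm_apply, smul_eq_mul,
    Equiv.trans_apply, hT.equiv_mul_left_of_mem x.2]
  exact (congrArg (· * _) (ψ.map_mul _ _)).trans (mul_assoc _ _ _)

variable {Ω : Type u} [Group Ω] {S : Subgroup Ω} (F : FusionSystem S)

/-- left multiplication -/
noncomputable abbrev L (S : Subgroup Ω) : Ω → Equiv.Perm S := fn (MulAction.toPermHom S S)

theorem L_inj {x y : Ω} (hx : x ∈ S) (hy : y ∈ S) (h : L S x = L S y) : x = y := by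
  rw [L, fn_apply _ hx, fn_apply _ hy] at h
  exact congrArg Subtype.val (MulAction.toPerm_injective h)

/-- conjugation by `δ⁻¹` is a map of the system on `P` -/
def Gd (P : Subgroup Ω) (δ : Equiv.Perm S) : Prop :=
  ∃ f, Mor F P f ∧ ∀ x ∈ P, L S x * δ = δ * L S (f x)

variable {F}

theorem Gd.mul {P : Subgroup Ω} {δ ε : Equiv.Perm S} (h : Gd F P δ)
    (e : δ⁻¹ * ε ∈ (MulAction.toPermHom S S).range) : Gd F P ε := by
  obtain ⟨f, hf, h⟩ := h
  obtain ⟨s, hs⟩ := e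
  rw [← fn_coe, eq_inv_mul_iff_mul_eq] at hs
  refine ⟨_, hf.comp (mor_conj' F le_rfl s.2) fun x hx => hf.mem hx, fun x hx => ?_⟩
  rw [← hs, ← mul_assoc, h x hx, L, (homOn_fn _).map_conj' s.2 (hf.mem hx)]
  group

theorem Gd.edge {P Q : Subgroup Ω} {δ σ : Equiv.Perm S} {g : Ω → Ω} (hg : Mor F Q g)
    (hσ : ∀ y ∈ Q, σ * L S y = L S (g y) * σ) (hP : ∀ x ∈ P, ∃ y ∈ Q, L S x * δ = δ * L S y) :
    Gd F P δ ↔ Gd F P (δ * σ⁻¹) := by
  constructor
  · rintro ⟨f, hf, h⟩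
    have h1 : ∀ x ∈ P, f x ∈ Q := fun x hx => by
      obtain ⟨y, hy, e⟩ := hP x hx
      rwa [L_inj (hf.mem hx) (hg.le hy) (mul_left_cancel ((h x hx).symm.trans e))]
    refine ⟨_, hf.comp hg h1, fun x hx => ?_⟩
    rw [← mul_assoc, h x hx, eq_mul_inv_iff_mul_eq.2 (hσ _ (h1 x hx)).symm]
    group
  · rintro ⟨f, hf, h⟩
    obtain ⟨k, hk, h1, -⟩ := hg.inv
    have h2 : ∀ x ∈ P, ∃ y ∈ Q, f x = g y ∧ L S x * δ = δ * L S y := fun x hx => by
      obtain ⟨y, hy, e⟩ := hP x hx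
      refine ⟨y, hy, L_inj (hf.mem hx) (hg.mem hy) (mul_left_cancel (a := δ * σ⁻¹) ?_), e⟩
      rw [← h x hx, ← mul_assoc, e, eq_mul_inv_iff_mul_eq.2 (hσ _ hy).symm]
      group
    refine ⟨_, hf.comp hk fun x hx => ?_, fun x hx => ?_⟩ <;> obtain ⟨y, hy, e, e'⟩ := h2 x hx
    · exact e ▸ mem_img_of_mem g hy
    · rw [e, h1 y hy, e']

/-- Every fusion system F over a finite p-group S, saturated or not, is realized by a possibly infinite group: there are a group G and an injective homomorphism ι of S into G such that the maps of F are exactly the conjugations by elements of G between subgroups of ι(S), every finite subgroup of G is conjugate to a subgroup of ι(S), and G has a free normal subgroup whose index divides (#S)!. -/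
theorem result {Ω : Type u} [Group Ω] {S : Subgroup Ω} [Finite S] (p : ℕ) [Fact p.Prime] (hS : IsPGroup p ↥S) (F : Cfsg.FusionSystem S) : ∃ (G : Type u) (_ : Group G) (ι : ↥S →* G), F.IsRealizedBy ι ∧ (∀ H : Subgroup G, Finite ↥H → ∃ g : G, ∀ h ∈ H, g * h * g⁻¹ ∈ ι.range) ∧ ∃ N : Subgroup G, N.Normal ∧ IsFreeGroup ↥N ∧ N.index ∣ (Nat.card ↥S).factorial := by
  classical
  let l := MulAction.toPermHom S S
  have hl : Function.Injective l := MulAction.toPerm_injective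
  let I := {i : Subgroup Ω × (Ω → Ω) // Mor F i.1 i.2}
  have h0 : ∀ i : I, ∃ σ : Equiv.Perm S, ∀ y ∈ i.1.1, σ * L S y = L S (i.1.2 y) * σ := fun i => by
    obtain ⟨σ, h⟩ := exists_perm (A := i.1.1.subgroupOf S) (MonoidHom.mk'
      (fun x => ⟨i.1.2 x.1, i.2.mem x.2⟩) fun x y => Subtype.ext (i.2.map_mul x.2 y.2))
      fun x y e => Subtype.ext (Subtype.ext (i.2.inj x.2 y.2 (congrArg Subtype.val e)))
    exact ⟨σ, fun y hy => by
      rw [L, fn_apply _ (i.2.le hy), fn_apply _ (i.2.mem hy)]; exact h ⟨⟨y, i.2.le hy⟩, hy⟩⟩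
  choose σ hσ using h0
  let K : I → Subgroup (Equiv.Perm S) := fun i => (i.1.1.subgroupOf S).map l
  have hK : ∀ i x, x ∈ K i → ∃ y ∈ i.1.1, x = L S y := by
    rintro i _ ⟨y, hy, rfl⟩
    exact ⟨y, hy, (fn_coe _ y).symm⟩
  let X : Gr (Equiv.Perm S) (Σ i, Equiv.Perm S ⧸ K i) (Equiv.Perm S ⧸ l.range) :=
    { src := fun e => Subgroup.quotientMapOfLE (Subgroup.map_le_range _ _) e.2
      tgt := fun e => e.2.liftOn' (fun γ => (γ * (σ e.1)⁻¹ : Equiv.Perm S)) fun a b h => by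
        obtain ⟨y, hy, h⟩ := hK _ _ (QuotientGroup.leftRel_apply.1 h)
        refine QuotientGroup.eq.2 ⟨⟨_, e.1.2.mem hy⟩, ?_⟩
        rw [← fn_apply]
        change L S _ = _
        rw [eq_mul_inv_iff_mul_eq.2 (hσ _ y hy).symm, ← h]
        group
      v0 := (1 : Equiv.Perm S)
      smul_src := by rintro γ ⟨i, ⟨a⟩⟩; rfl
      smul_tgt := by rintro γ ⟨i, ⟨a⟩⟩; exact congrArg QuotientGroup.mk (mul_assoc γ a _)
      trans := by rintro ⟨a⟩; exact ⟨a, congrArg _ (mul_one a)⟩ }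
  have h1 : ∀ γ : Equiv.Perm S, γ • X.v0 = γ := fun γ => congrArg _ (mul_one γ)
  let ι : S →* X.G := (SemidirectProduct.inr.comp l).codRestrict _ fun s =>
    (QuotientGroup.eq.2 ⟨s, by simp⟩ : X.v0 = l s).trans (h1 _).symm
  refine ⟨X.G, inferInstance, ι, ⟨fun x y e => hl (congrArg (·.1.right) e), fun P hP φ hφ =>
    ⟨fun h => ?_, fun ⟨g, h⟩ => ?_⟩⟩, fun H _ => ?_, by simpa [Nat.card_perm] using X.exists_free⟩
  · let i : I := ⟨(P, fn φ), mor_of_mem h⟩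
    refine ⟨(⟨_, X.letter_mem (x := (⟨i, (1 : Equiv.Perm S)⟩, true)) (γ := (σ i)⁻¹) rfl
      ((h1 _).trans (congrArg _ (one_mul _).symm))⟩ : X.G)⁻¹, fun x => ?_⟩
    rw [inv_inv, mul_assoc, eq_inv_mul_iff_mul_eq]
    refine Subtype.ext (SemidirectProduct.ext ?_ ?_)
    · change FreeGroup.mk _ * act _ _ _ 1 = 1 * act _ _ _ (FreeGroup.mk _)
      rw [map_one, mul_one, one_mul, act_mk]
      exact congrArg (fun z : _ ⧸ K i => FreeGroup.mk [((⟨i, z⟩ : Σ i, _ ⧸ K i), true)])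
        (QuotientGroup.eq.2 (Subgroup.mem_map.2 ⟨⟨x, hP x.2⟩, x.2, by simp; rfl⟩))
    · have := hσ i x x.2
      rw [L, fn_apply _ (hP x.2), show i.1.2 x = φ x from fn_coe φ x, fn_apply _ (hφ x)] at this
      exact inv_mul_eq_iff_eq_mul.2 ((eq_mul_inv_iff_mul_eq.2 this.symm).trans (mul_assoc _ _ _))
  · have h2 : ∀ x : P, (SemidirectProduct.inr (l ⟨x, hP x.2⟩)) * (g⁻¹).1 =
        (g⁻¹).1 * SemidirectProduct.inr (l ⟨φ x, hφ x⟩) := fun x =>
      congrArg Subtype.val (show ι _ * g⁻¹ = g⁻¹ * ι _ by rw [h x]; group)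
    obtain ⟨δ, h3, h4⟩ := Gr.good (g⁻¹).2 (Q := L S '' P) (P := fun v => ∃ δ : Equiv.Perm S,
      δ = v ∧ Gd F P δ) (by
        rintro _ ⟨x, hx, rfl⟩
        rw [L, fn_apply _ (hP hx)]
        exact ((one_mul _).symm.trans (congrArg (·.left) (h2 ⟨x, hx⟩))).trans (by simp)) (by
        rintro ⟨i, ⟨δ⟩⟩ h3
        have h4 := Gd.edge (P := P) (δ := δ) i.2 (hσ i) fun x hx => by
          obtain ⟨y, hy, e⟩ := hK i _ (QuotientGroup.eq.1
            (eq_of_heq (Sigma.mk.inj (h3 _ ⟨x, hx, rfl⟩)).2).symm)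
          exact ⟨y, hy, by rw [← e, mul_inv_cancel_left]; rfl⟩
        exact ⟨fun ⟨_, e, h⟩ => ⟨_, rfl, h4.1 (h.mul (QuotientGroup.eq.1 e))⟩,
          fun ⟨_, e, h⟩ => ⟨_, rfl, h4.2 (h.mul (QuotientGroup.eq.1 e))⟩⟩)
      ⟨1, rfl, _, mor_id F hP, by simp⟩
    obtain ⟨f, hf, h5⟩ := h4.mul (QuotientGroup.eq.1 (h3.trans (h1 _)))
    refine hf.mem_hom fun x => L_inj (hφ x) (hf.mem x.2) (mul_left_cancel (a := (g⁻¹).1.right) ?_)
    rw [← h5 x x.2, L, fn_apply _ (hφ x), fn_apply _ (hP x.2)]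
    exact (congrArg (·.right) (h2 x)).symm
  · obtain ⟨g, hg⟩ := Gr.exists_conj_of_finite H
    refine ⟨g, fun h hh => ?_⟩
    have h2 := Gr.mem_G.1 (g * h * g⁻¹).2
    rw [hg h hh, h1] at h2
    obtain ⟨s, hs⟩ := QuotientGroup.eq.1 h2
    exact ⟨s, Subtype.ext (SemidirectProduct.ext (hg h hh).symm (hs.trans (by simp)))⟩

end Cfsg.Agent.S5286
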