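import Cfsg.Statements.S5297
import Cfsg.Agent.H97.BGH

set_option autoImplicit false
universe u
open Cfsg

namespace Cfsg.Agent.S5297

open Cfsg.FusionSystem Cfsg.Agent.H97

/-- Let F be a saturated fusion system over a finite p-group S. If every map of F between cyclic subgroups of the hyperfocal subgroup of F of order p or 4 is a map of the normalizer system of S (it extends to a map of F defined on all of S), then S is normal in F. -/
theorem result {Ω : Type u} [Group Ω] {S : Subgroup Ω} [Finite S] (p : ℕ) [Fact p.Prime] (hS : IsPGroup p S)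
    (F : Cfsg.FusionSystem S) (hF : F.IsSaturated p)
    (h : ∀ A B : Subgroup Ω, A ≤ (F.hyperfocalSubgroup p) → B ≤ (F.hyperfocalSubgroup p) → IsCyclic ↥A → (Nat.card ↥A = p ∨ Nat.card ↥A = 4) → IsCyclic ↥B → (Nat.card ↥B = p ∨ Nat.card ↥B = 4) →
      F.homSet A B ⊆ F.normalizerHom S A) :
    F.IsNormal S := by
  refine isNormal_top_of_small hS hF fun x hx hs h1 f hf => ?_
  have hx' := Subgroup.mem_zpowers x
  have hfx := H96.mem_of_stronglyClosed (H98.stronglyClosed_hyp hS hF) hf hx' hx
  obtain ⟨-, g, hg, e, e'⟩ := mem_normalizerHom_iff.1 (h _ _ (Subgroup.zpowers_le.2 hx)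
    (Subgroup.zpowers_le.2 hfx) inferInstance (hs.card_zpowers h1) inferInstance
    ((hs.map hf.homOn hx').card_zpowers (by rwa [Ne, hf.eq_one_iff hx']))
    (a := hf.homOn.toHom) ⟨hf.toHom_mem, by
      rintro ⟨_, n, rfl⟩
      exact ⟨n, (hf.map_zpow hx' n).symm⟩⟩)
  obtain ⟨β, -, e''⟩ := (hg.mono le_sup_right).exists_aut e'
  exact ⟨β, by rw [e'' x (hf.le hx'), e x hx', fn_apply _ hx']; rfl⟩

end Cfsg.Agent.S5297
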