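import Cfsg.Statements.S5331
import Cfsg.Agent.H5.EssAb

set_option autoImplicit false
open Cfsg

namespace Cfsg.Agent.S5331

open Cfsg.Agent.H5 Cfsg.Agent.H96 Cfsg.Agent.H97

/-- Let S be a finite abelian 2-group that is a direct product of cyclic groups of pairwise distinct orders 2^{a_1} < 2^{a_2} < ⋯ < 2^{a_n} (all a_i ≥ 1). Then every saturated fusion system over S is the inner one: its maps are exactly the conjugations by elements of S. -/
theorem result {Ω : Type*} [Group Ω] {S : Subgroup Ω} [Finite S] (n : ℕ) (a : Fin n → ℕ) (ha : StrictMono a) (ha1 : ∀ i, 1 ≤ a i) (e : ↥S ≃* Multiplicative ((i : Fin n) → ZMod (2 ^ a i))) (F : Cfsg.FusionSystem S) (hF : F.IsSaturated 2) (P : Subgroup Ω) : F.Hom P = (Cfsg.innerFusionSystem S).Hom P := by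
  have hS : IsPGroup 2 S := by
    refine IsPGroup.of_equiv (G := Multiplicative ((i : Fin n) → ZMod (2 ^ a i))) (fun x => ?_) e.symm
    refine ⟨∑ i, a i, ?_⟩
    rw [← ofAdd_toAdd x, ← ofAdd_nsmul, ofAdd_eq_one]
    funext i
    obtain ⟨k, hk⟩ := Nat.exists_eq_add_of_le (Finset.single_le_sum (f := a) (fun _ _ => Nat.zero_le _)
      (Finset.mem_univ i))
    rw [Pi.smul_apply, nsmul_eq_mul, hk, pow_add, Nat.cast_mul, ZMod.natCast_self]
    simp
  have hc : ∀ x ∈ S, ∀ y ∈ S, x * y = y * x := fun x hx y hy =>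
    congrArg Subtype.val (e.injective (by rw [map_mul, map_mul, mul_comm]) :
      (⟨x, hx⟩ : S) * ⟨y, hy⟩ = ⟨y, hy⟩ * ⟨x, hx⟩)
  have h1 : IsPGroup 2 (F.autGroup S) := by
    have := (PT.of_Om_steps (X := (F.autGroup S : Set (MulAut S))) hS fun j =>
      PT.of_relIndex_dvd_two (sup_le_sup_left (Om_mono (pow_dvd_pow 2 j.le_succ)) _)
        (inv_Phi_sup_Om _) (inv_Phi_sup_Om _)
        (relIndex_Om_dvd_of_distinct hS (fun i j h _ => ha.injective h) e j)).isPGroup
    rwa [Subgroup.closure_eq] at this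
  rw [sat_eq_inner_of_no_essential hS hF h1 fun Q hQ => (lt_of_isEssential hS hF hQ).not_ge
    fun x hx => ess_centralizerIn_le hQ (mem_centralizerIn_comm.2
      ⟨hx, fun y hy => hc y (ess_le hQ hy) x hx⟩)]

end Cfsg.Agent.S5331
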