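import Cfsg.Statements.S5375
import Cfsg.Agent.H41.Transfer
import Cfsg.Agent.H41.Cent
import Cfsg.Agent.H28.Transport
import Cfsg.Agent.H52.Quasisimple
-- import your own Cfsg.Agent.* helpers here

set_option autoImplicit false
open Cfsg

namespace Cfsg.Agent.S5375

/-- Let G be a finite group with trivial centre generated by a conjugation-invariant set D of 3-transpositions on which it acts primitively, of type M(24). Then the layer of G (its largest semisimple normal subgroup) has index 2, D has exactly 306936 members, G has order 2^22 · 3^16 · 5^2 · 7^3 · 11 · 13 · 17 · 23 · 29, the width of D is 24, and for every d in D the subgroup generated by the members of D other than d commuting with d is the centralizer of d. -/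
theorem result {G : Type*} [Group G] [Finite G] {D : Set G} (hD : Cfsg.IsThreeTranspositionGroup D) (hprim : Cfsg.IsPrimitiveUnderConj D) (ht : Cfsg.IsOfTypeM24 G D) : (Cfsg.layer G).index = 2 ∧ D.ncard = 306936 ∧ Nat.card G = 2 ^ 22 * 3 ^ 16 * 5 ^ 2 * 7 ^ 3 * 11 * 13 * 17 * 23 * 29 ∧ Cfsg.commutingWidth D = 24 ∧ ∀ d ∈ D, Subgroup.closure {y : G | y ∈ D ∧ y ≠ d ∧ Commute d y} = Subgroup.centralizer ({d} : Set G) := by
  obtain ⟨e, rfl⟩ := H41.transfer24 hD hprim ht
  have := H41.simple24
  have h1 : IsSimpleGroup (commutator G) := (H28.commutatorEquiv e).symm.isSimpleGroup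
  have h2 : Nat.card (commutator G) = 1255205709190661721292800 := by
    rw [← Nat.card_congr (H28.commutatorEquiv e).toEquiv, H41.card_commutator24]
  have h3 : ¬ IsMulCommutative (commutator G) := fun h => by
    let _ : CommGroup (commutator G) := { mul_comm := h.is_comm.comm }
    have h4 := IsSimpleGroup.prime_card (α := commutator G)
    rw [h2] at h4
    exact absurd h4 (by norm_num)
  have h4 : layer G = commutator G := by
    refine le_antisymm (sSup_le fun K hK => ?_) (le_sSup ⟨Subgroup.Normal.isSubnormal inferInstance, ?_⟩)
    · rw [← Subgroup.isPerfect_iff.mp hK.2.1]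
      exact Subgroup.commutator_mono le_top le_top
    · exact H52.isQuasisimple_of_isSimpleGroup h3
  refine ⟨by rw [h4, ← H28.map_commutator_equiv e, Subgroup.index_map_equiv, H41.index24], by
    rw [← Set.image_univ, Set.ncard_image_of_injective _ (H41.FS.tau_injective e), Set.ncard_univ]
    simp,
    by rw [← Nat.card_congr e.toEquiv, H41.L24.card_grp]; norm_num, H41.FS.width_tau e H41.L24.width, ?_⟩
  rintro _ ⟨p, rfl⟩
  exact H41.FS.centralizer_tau e fun g hg h => H41.stab24 p hg h

end Cfsg.Agent.S5375
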