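import Cfsg.Statements.S5376
import Cfsg.Agent.H41.Transfer
import Cfsg.Agent.H41.Cent
-- import your own Cfsg.Agent.* helpers here

set_option autoImplicit false
open Cfsg

namespace Cfsg.Agent.S5376

/-- Let G be a finite group with trivial centre generated by a conjugation-invariant set D of 3-transpositions on which it acts primitively, of type M(22), and suppose some finite primitive 3-transposition group of type M(23) exists. Then G is simple, and for every d in D the subgroup generated by the members of D other than d commuting with d contains d and is quasisimple with centre generated by d. -/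
theorem result {G : Type*} [Group G] [Finite G] {D : Set G} (hD : Cfsg.IsThreeTranspositionGroup D) (hprim : Cfsg.IsPrimitiveUnderConj D) (ht : Cfsg.IsOfTypeM22 G D) (hex : ∃ (X : Type) (_ : Group X) (_ : Finite X) (E : Set X), Cfsg.IsThreeTranspositionClass E ∧ Cfsg.IsPrimitiveUnderConj E ∧ Cfsg.IsOfTypeM23 X E) : IsSimpleGroup G ∧ ∀ d ∈ D, d ∈ Subgroup.closure {y : G | y ∈ D ∧ y ≠ d ∧ Commute d y} ∧ Cfsg.IsQuasisimple ↥(Subgroup.closure {y : G | y ∈ D ∧ y ≠ d ∧ Commute d y}) ∧ Subgroup.center ↥(Subgroup.closure {y : G | y ∈ D ∧ y ≠ d ∧ Commute d y}) = (Subgroup.zpowers d).subgroupOf (Subgroup.closure {y : G | y ∈ D ∧ y ≠ d ∧ Commute d y}) := by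
  obtain ⟨e, rfl⟩ := H41.transfer22 hD ht
  have := H41.simple22
  have := H41.simple21
  refine ⟨e.symm.isSimpleGroup, ?_⟩
  rintro _ ⟨p, rfl⟩
  obtain ⟨h1, e0, -⟩ := H41.FS.exists_bar e H41.L22.lm H41.L22.loc p
  refine ⟨?_, ⟨H41.FS.perfect_tau e (H41.L22.r3.at p) (fun g hg h => H41.stab22 p hg h) (H41.L22.oddOn p),
      e0.symm.isSimpleGroup⟩, h1⟩
  exact (H41.FS.centralizer_tau e fun g hg h => H41.stab22 p hg h).ge
    (Subgroup.mem_centralizer_singleton_iff.mpr rfl)

end Cfsg.Agent.S5376
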