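import Cfsg.Statements.S5385
import Cfsg.Agent.H42.Co1P
import Cfsg.Agent.H42.Co1J
import Cfsg.Agent.H48.RecCo1

set_option autoImplicit false
set_option maxRecDepth 1000000
open Cfsg

namespace Cfsg.Agent.S5385

open Cfsg.Agent.H42

open Subgroup in
theorem lc_of {X : Subgroup Spor.Co1} (h5 : Nat.card X = 5) (hz : X ≤ centralizer {H48.Rec.z0})
    {K : Subgroup Spor.Co1} (h32 : Nat.card K = 32) (k1 : K ≤ H48.Rec.Q0)
    (k2 : K ≤ centralizer (X : Set Spor.Co1)) : CT.LC Spor.J2 (alternatingGroup (Fin 5)) X := by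
  obtain ⟨x, hx, h1⟩ := X.bot_or_exists_ne_one.resolve_left fun e => by simp [e] at h5
  obtain ⟨g, hg⟩ := Co1P.five (x := x)
    (congrArg Subtype.val (h5 ▸ pow_card_eq_one' (x := (⟨x, hx⟩ : X)))) (hz hx) (by
      have h := Co1K.cjs_mul H48.Rec.Q0 x
      have := card_le_of_le (le_inf k1 (k2.trans (centralizer_le (Set.singleton_subset_iff.2 hx))))
      rw [H48.Rec.card_Q0] at h
      rw [h32] at this
      nlinarith)
  have : Fact (Nat.Prime 5) := ⟨by norm_num⟩
  have e : ∀ {Y : Subgroup Spor.Co1} {y : Spor.Co1}, Nat.card Y = 5 → y ∈ Y → y ≠ 1 →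
      zpowers y = Y := fun {Y y} h hy h1 => eq_of_le_of_card_ge (zpowers_le.2 hy) (by
    rw [h, Nat.card_zpowers, orderOf_eq_prime
      (congrArg Subtype.val (h ▸ pow_card_eq_one' (x := (⟨y, hy⟩ : Y)))) h1])
  have := Co1J.lc.map (MulAut.conj g⁻¹)
  rwa [← e (by rw [Nat.card_zpowers, Co1J.ord_x]) hg (by simpa using h1), MonoidHom.map_zpowers,
    show (MulAut.conj g⁻¹).toMonoidHom (g * x * g⁻¹) = x by simp [mul_assoc], e h5 hx h1] at this

/-- Let G be a finite group of Conway type (involution z with generalized Fitting subgroup Q of its centralizer C extraspecial of order 2^9, C/Q the commutator subgroup of the isometry group of the hyperbolic quadratic form in dimension 8 over the field with two elements, z not weakly closed in Q), and let B be a subgroup of C of order 5 such that the centralizer of B in Q is extraspecial of order 32 containing no elementary abelian subgroup of order 8 (the quaternion-times-dihedral type). Then the layer L of the centralizer of B in G is isomorphic to the Hall–Janko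 group and the centralizer of L is isomorphic to the alternating group of degree 5. -/
theorem result {G : Type*} [Group G] [Finite G] (z : G) (hz : orderOf z = 2) (Q : Subgroup (Subgroup.centralizer ({z} : Set G))) [Q.Normal] (hF : Cfsg.generalizedFittingSubgroup (Subgroup.centralizer ({z} : Set G)) = Q) (hQ : Cfsg.IsExtraspecial 2 Q) (hcard : Nat.card Q = 2 ^ 9) (e : (Subgroup.centralizer ({z} : Set G)) ⧸ Q ≃* Cfsg.Omega (ZMod 2) (Cfsg.quadFormPlus 4 (ZMod 2))) (hnwc : ∃ g : G, (∃ hq : g * z * g⁻¹ ∈ Subgroup.centralizer ({z} : Set G), (⟨g * z * g⁻¹, hq⟩ : Subgroup.centralizer ({z} : Set G)) ∈ Q) ∧ g * z * g⁻¹ ≠ z) (B : Subgroup (Subgroup.centralizer ({z} : Set G))) (hB : Nat.card B = 5) (hCQ : Cfsg.IsExtraspecial 2 ↥(Q ⊓ Subgroup.centralizer (B : Set (Subgroup.centralizer ({z} : Set G))))) (hCQcard : Nat.card ↥(Q ⊓ Subgroup.centralizer (B : Set (Subgroup.centralizer ({z} : Set G)))) = 32) (hminus : ∀ A : Subgroup (Subgroup.centralizer ({z} : Set G)), A ≤ Q ⊓ Subgroup.centralizer (B : Set (Subgroup.centralizer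 ({z} : Set G))) → Cfsg.IsElementaryAbelian 2 A → Nat.card A ≤ 4) : Cfsg.Spor.IsoJ2 ↥(Cfsg.layer ↥(Subgroup.centralizer ((B.map (Subgroup.subtype (Subgroup.centralizer ({z} : Set G)))) : Set G))) ∧ Nonempty (↥(Subgroup.centralizer (((Cfsg.layer ↥(Subgroup.centralizer ((B.map (Subgroup.subtype (Subgroup.centralizer ({z} : Set G)))) : Set G))).map (Subgroup.subtype _)) : Set G)) ≃* alternatingGroup (Fin 5)) := by
  obtain ⟨γ, ⟨hq, h1⟩, h2⟩ := hnwc
  have h := H48.Rec.exists_CH z hz Q hF hQ hcard e
  obtain ⟨f, hf⟩ := H48.Rec.iso_of_CH h (Subgroup.mem_map_of_mem (Subgroup.subtype _) h1) h2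
  have hi : Function.Injective (f.toMonoidHom.comp (Subgroup.centralizer ({z} : Set G)).subtype) :=
    f.injective.comp (Subgroup.subtype_injective _)
  have := (lc_of (X := (B.map (Subgroup.subtype _)).map f.toMonoidHom)
    (by rw [Subgroup.map_map, Subgroup.card_map_of_injective hi, hB]) (by
      rintro _ ⟨_, ⟨x, -, rfl⟩, rfl⟩
      rw [Subgroup.mem_centralizer_singleton_iff, ← hf, MulEquiv.coe_toMonoidHom, ← map_mul,
        ← map_mul]
      exact congrArg f (Subgroup.mem_centralizer_singleton_iff.1 x.2))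
    ((Subgroup.card_map_of_injective hi).trans hCQcard) (by
      rw [← Co1K.map_eq_Q0 h f hf, Subgroup.map_map]
      exact Subgroup.map_mono inf_le_left) (by
      rw [Subgroup.map_map]
      exact (Subgroup.map_mono inf_le_right).trans
        (Subgroup.map_centralizer_le_centralizer_image _ _))).map f.symm
  rwa [Subgroup.map_map, show f.symm.toMonoidHom.comp f.toMonoidHom = MonoidHom.id G from
    MonoidHom.ext f.symm_apply_apply, Subgroup.map_id] at this

end Cfsg.Agent.S5385
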