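import Cfsg.Statements.S5424
import Cfsg.Agent.H32.Hol
import Cfsg.Agent.H32.TraceConj

set_option autoImplicit false
open Cfsg

namespace Cfsg.Agent.S5424

open Matrix

theorem z2 (a : ZMod 2) (h : a ≠ 0) : a = 1 := by revert a; decide

/-- Embedding of the coordinate space as the hyperplane `x 1 = 0`. -/
def io {n : ℕ} : H32.HV n →ₗ[ZMod 2] (Fin (n + 2) → ZMod 2) where
  toFun v := Fin.cons v.1 (Fin.cons 0 v.2)
  map_add' v w := by
    funext i
    refine Fin.cases ?_ (fun j => Fin.cases ?_ (fun k => ?_) j) i <;> simp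
  map_smul' c v := by
    funext i
    refine Fin.cases ?_ (fun j => Fin.cases ?_ (fun k => ?_) j) i <;> simp

def pr {n : ℕ} : (Fin (n + 2) → ZMod 2) →ₗ[ZMod 2] H32.HV n where
  toFun x := (x 0, fun k => x k.succ.succ)
  map_add' _ _ := rfl
  map_smul' _ _ := rfl

theorem pr_io {n : ℕ} (v : H32.HV n) : pr (io v) = v := rfl

theorem io_one {n : ℕ} (v : H32.HV n) : io v 1 = 0 := rfl

theorem io_pr {n : ℕ} (x : Fin (n + 2) → ZMod 2) : io (pr x) + x 1 • Pi.single 1 1 = x := by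
  funext i
  refine Fin.cases ?_ (fun j => Fin.cases ?_ (fun k => ?_) j) i
  · simp [io, pr]
  · change (0 : ZMod 2) + x 1 • (Pi.single 1 1 : Fin (n + 2) → ZMod 2) 1 = x 1
    simp
  · have : k.succ.succ ≠ (1 : Fin (n + 2)) := fun h => by
      have := congrArg Fin.val h; simp at this
    change x k.succ.succ + x 1 • (Pi.single 1 1 : Fin (n + 2) → ZMod 2) k.succ.succ = x _
    simp [this]

theorem pr_single {n : ℕ} : pr (Pi.single 1 1 : Fin (n + 2) → ZMod 2) = 0 := by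
  ext k
  · simp [pr]
  · have : k.succ.succ ≠ (1 : Fin (n + 2)) := fun h => by
      have := congrArg Fin.val h; simp at this
    simp [pr, this]

def ee {n : ℕ} (v : H32.HV n) : Matrix.SpecialLinearGroup (Fin (n + 2)) (ZMod 2) :=
  H32.tvS (io v) (Pi.single 1 1) (by rw [single_dotProduct, io_one, mul_zero])

theorem ee_mulVec {n : ℕ} (v : H32.HV n) (x : Fin (n + 2) → ZMod 2) :
    (ee v).1 *ᵥ x = x + x 1 • io v := by
  rw [ee, H32.tvS_mulVec, single_dotProduct, one_mul]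

theorem sl_ext {n : ℕ} {g h : Matrix.SpecialLinearGroup (Fin n) (ZMod 2)}
    (e : ∀ x, g.1 *ᵥ x = h.1 *ᵥ x) : g = h :=
  Subtype.ext (Matrix.toLin'.injective (LinearMap.ext e))

theorem comm_ee {n : ℕ} {v : H32.HV n} {g : Matrix.SpecialLinearGroup (Fin (n + 2)) (ZMod 2)}
    (h : g * ee v = ee v * g) (x : Fin (n + 2) → ZMod 2) :
    x 1 • g.1 *ᵥ io v = (g.1 *ᵥ x) 1 • io v := by
  have h1 := congrArg (fun y : Matrix.SpecialLinearGroup (Fin (n + 2)) (ZMod 2) => y.1 *ᵥ x) h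
  simp only [H32.SL_mul_mulVec, ee_mulVec, mulVec_add, mulVec_smul] at h1
  exact add_left_cancel h1

theorem io_ne {n : ℕ} {v : H32.HV n} (hv : v ≠ 0) : io v ≠ 0 := fun h => hv (by
  rw [← pr_io v, h, map_zero])

theorem comm_ee' {n : ℕ} {v : H32.HV n} (hv : v ≠ 0)
    {g : Matrix.SpecialLinearGroup (Fin (n + 2)) (ZMod 2)} (h : g * ee v = ee v * g) :
    g.1 *ᵥ io v = io v ∧ ∀ x, (g.1 *ᵥ x) 1 = x 1 := by
  have h1 := comm_ee h (Pi.single 1 1)
  rw [Pi.single_eq_same, one_smul] at h1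
  have h2 : g.1 *ᵥ io v = io v := by
    rw [h1, z2 ((g.1 *ᵥ Pi.single 1 1) 1), one_smul]
    intro h0
    rw [h0, zero_smul] at h1
    apply io_ne hv
    rw [← H32.SL_inv_mulVec_mulVec g (io v), h1, mulVec_zero]
  refine ⟨h2, fun x => ?_⟩
  have h3 := comm_ee h x
  rw [h2] at h3
  exact (smul_left_injective _ (io_ne hv) h3).symm

def stab (n : ℕ) : Subgroup (Matrix.SpecialLinearGroup (Fin (n + 2)) (ZMod 2)) where
  carrier := {g | g.1 *ᵥ Pi.single 1 1 = Pi.single 1 1}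
  one_mem' := one_mulVec _
  mul_mem' := fun {a b} ha hb => by
    change (a * b).1 *ᵥ _ = _
    rw [H32.SL_mul_mulVec, hb, ha]
  inv_mem' := fun {a} ha => by
    change a⁻¹.1 *ᵥ _ = _
    conv_lhs => rw [← ha]
    rw [H32.SL_inv_mulVec_mulVec]

theorem det_eq_one {n : ℕ} (A B : Matrix (Fin n) (Fin n) (ZMod 2)) (h : A * B = 1) :
    A.det = 1 := by
  apply z2
  intro h0
  have := congrArg det h
  rw [det_mul, h0, zero_mul, det_one] at this
  exact zero_ne_one this

theorem conj_ee {n : ℕ} (g : Matrix.SpecialLinearGroup (Fin (n + 2)) (ZMod 2))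
    (hg : ∀ x, (g.1 *ᵥ x) 1 = x 1) (w w' : H32.HV n) (hw : g.1 *ᵥ io w = io w') :
    g * ee w * g⁻¹ = ee w' := by
  apply sl_ext
  intro x
  rw [H32.SL_mul_mulVec, H32.SL_mul_mulVec, ee_mulVec, mulVec_add, mulVec_smul,
    H32.SL_mulVec_inv_mulVec, ee_mulVec, hw, ← hg (g⁻¹.1 *ᵥ x), H32.SL_mulVec_inv_mulVec]

/-- The extension of an endomorphism of the hyperplane. -/
noncomputable def extL {n : ℕ} (A : H32.HV n →ₗ[ZMod 2] H32.HV n) :
    (Fin (n + 2) → ZMod 2) →ₗ[ZMod 2] (Fin (n + 2) → ZMod 2) :=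
  io ∘ₗ A ∘ₗ pr + (LinearMap.proj 1).smulRight (Pi.single 1 1)

theorem extL_apply {n : ℕ} (A : H32.HV n →ₗ[ZMod 2] H32.HV n) (x : Fin (n + 2) → ZMod 2) :
    extL A x = io (A (pr x)) + x 1 • Pi.single 1 1 := rfl

theorem extL_one {n : ℕ} (A : H32.HV n →ₗ[ZMod 2] H32.HV n) (x : Fin (n + 2) → ZMod 2) :
    extL A x 1 = x 1 := by
  rw [extL_apply, Pi.add_apply, io_one]; simp

theorem pr_extL {n : ℕ} (A : H32.HV n →ₗ[ZMod 2] H32.HV n) (x : Fin (n + 2) → ZMod 2) :
    pr (extL A x) = A (pr x) := by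
  rw [extL_apply, map_add, map_smul, pr_single, pr_io]; simp

theorem hol (n : ℕ) : H32.Hol n ee (stab n) where
  add v w := sl_ext fun x => by
    rw [H32.SL_mul_mulVec, ee_mulVec, ee_mulVec, ee_mulVec, Pi.add_apply, Pi.smul_apply, io_one,
      map_add, smul_add, smul_zero, add_zero]
    abel
  inj v w h := by
    have h1 := ee_mulVec v (Pi.single 1 1)
    rw [h, ee_mulVec, Pi.single_eq_same, one_smul, one_smul] at h1
    rw [← pr_io v, ← add_left_cancel h1, pr_io]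
  norm v hv g hg w := by
    have h2 := (comm_ee' hv hg).2
    refine ⟨pr (g.1 *ᵥ io w), conj_ee g h2 _ _ ?_⟩
    have := io_pr (g.1 *ᵥ io w)
    rw [h2, io_one, zero_smul, add_zero] at this
    exact this.symm
  cen g hg := by
    have h1 : ∀ w, g.1 *ᵥ io w = io w := fun w => by
      by_cases hw : w = 0
      · rw [hw, map_zero, mulVec_zero]
      · exact (comm_ee' hw (hg w)).1
    have h2 := (comm_ee' H32.Hol.one_zero_ne (hg _)).2
    refine ⟨pr (g.1 *ᵥ Pi.single 1 1), sl_ext fun x => ?_⟩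
    have h3 := io_pr (g.1 *ᵥ Pi.single 1 1)
    rw [h2, Pi.single_eq_same, one_smul] at h3
    rw [ee_mulVec]
    conv_lhs => rw [← io_pr x, mulVec_add, mulVec_smul, h1, ← h3, smul_add]
    conv_rhs => rw [← io_pr x]
    have h4 : (io (pr x) + x 1 • (Pi.single 1 1 : Fin (n + 2) → ZMod 2)) 1 = x 1 := by rw [io_pr]
    rw [h4]; abel
  disj v hv := by
    have h1 : (ee v).1 *ᵥ Pi.single 1 1 = Pi.single 1 1 := hv
    rw [ee_mulVec, Pi.single_eq_same, one_smul, add_eq_left] at h1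
    by_contra h
    exact io_ne h h1
  full A := by
    have hd : (LinearMap.toMatrix' (extL A.toLinearMap)).det = 1 := by
      apply det_eq_one _ (LinearMap.toMatrix' (extL A.symm.toLinearMap))
      rw [← LinearMap.toMatrix'_mul, ← LinearMap.toMatrix'_one]
      congr 1
      apply LinearMap.ext; intro x
      rw [Module.End.mul_apply, extL_apply, pr_extL, extL_one]
      simp [io_pr]
    have hm : ∀ x, (LinearMap.toMatrix' (extL A.toLinearMap)) *ᵥ x = extL A.toLinearMap x :=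
      fun x => by rw [← toLin'_apply, toLin'_toMatrix']
    refine ⟨⟨_, hd⟩, ?_, fun w => conj_ee _ (fun x => ?_) _ _ ?_⟩
    · change _ *ᵥ _ = _
      rw [hm, extL_apply, pr_single]; simp
    · change (_ *ᵥ _) 1 = _
      rw [hm, extL_one]
    · change _ *ᵥ _ = _
      rw [hm, extL_apply, pr_io, io_one]; simp

theorem gl_sl (n : ℕ) : Nonempty (Matrix.GeneralLinearGroup (Fin n) (ZMod 2) ≃*
    Matrix.SpecialLinearGroup (Fin n) (ZMod 2)) :=
  ⟨(MulEquiv.ofBijective Matrix.SpecialLinearGroup.toGL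
    ⟨Matrix.SpecialLinearGroup.toGL_injective, fun g =>
      ⟨⟨g.1, det_eq_one _ _ g.val_inv⟩, Units.ext rfl⟩⟩).symm⟩


/-- Let G be the special linear group of degree n + 2 over the field with two elements, n ≥ 2, let z be a transvection, and let Q be the largest normal 2-subgroup of the centralizer C of z. Then Q is extraspecial of order 2^(2n+1) with an elementary abelian subgroup of order 2^(n+1) (plus type), Q is a large extraspecial 2-subgroup of G, and C is the split extension of Q by the special linear group of degree n over the field with two elements. -/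
theorem result (n : ℕ) (hn : 2 ≤ n) (z : Matrix.SpecialLinearGroup (Fin (n + 2)) (ZMod 2)) (hz : (z : Matrix (Fin (n + 2)) (Fin (n + 2)) (ZMod 2)) = Matrix.transvection 0 1 1) (Q : Subgroup (Matrix.SpecialLinearGroup (Fin (n + 2)) (ZMod 2))) (hQ : Q = (Cfsg.pCore 2 ↥(Subgroup.centralizer ({z} : Set (Matrix.SpecialLinearGroup (Fin (n + 2)) (ZMod 2))))).map (Subgroup.centralizer ({z} : Set (Matrix.SpecialLinearGroup (Fin (n + 2)) (ZMod 2)))).subtype) : Cfsg.IsExtraspecial 2 ↥Q ∧ Nat.card ↥Q = 2 ^ (2 * n + 1) ∧ (∃ E : Subgroup (Matrix.SpecialLinearGroup (Fin (n + 2)) (ZMod 2)), E ≤ Q ∧ Cfsg.IsElementaryAbelian 2 E ∧ Nat.card ↥E = 2 ^ (n + 1)) ∧ Cfsg.IsLargeExtraspecial Q ∧ ∃ K : Subgroup (Matrix.SpecialLinearGroup (Fin (n + 2)) (ZMod 2)), K ≤ Subgroup.centralizer ({z} : Set (Matrix.SpecialLinearGroup (Fin (n + 2)) (ZMod 2))) ∧ Q ⊓ K = ⊥ ∧ Q ⊔ K = Subgroup.centralizer ({z} : Set (Matrix.SpecialLinearGroup (Fin (n + 2)) (ZMod 2))) ∧ Nonempty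 (↥K ≃* Matrix.SpecialLinearGroup (Fin n) (ZMod 2)) := by
  have hz' : z = ee (1, 0) := by
    apply sl_ext
    intro x
    rw [ee_mulVec, hz, Matrix.transvection, add_mulVec, one_mulVec, single_mulVec]
    congr 1
    funext i
    refine Fin.cases ?_ (fun j => Fin.cases ?_ (fun k => ?_) j) i <;> simp [io]
  obtain ⟨h1, h2, h3, h4, K, h5, h6, h7, ⟨f⟩⟩ := (hol n).main (by omega) _ (by rw [hz']) Q hQ
  obtain ⟨g⟩ := gl_sl n
  exact ⟨h1, h2, h3, h4, K, h5, h6, h7, ⟨f.trans g⟩⟩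

end Cfsg.Agent.S5424
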