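import Cfsg.Statements.S5466
import Cfsg.Agent.H41.Transfer
import Cfsg.Agent.H60.FitTw

set_option autoImplicit false
open Cfsg

namespace Cfsg.Agent.S5466

/-- Let G be a finite group with trivial centre generated by a conjugation-invariant set D of 3-transpositions on which it acts primitively, such that for some d in D the subgroup generated by the members of D other than d commuting with d has central largest normal 2- and 3-subgroups, and suppose G with D is of type M(24), and let L be the commutator subgroup of G. Let d₁, d₂, d₃ be distinct pairwise commuting members of D, j their product, E the subgroup generated by d₁ d₂ and d₁ d₃ (a four-group lying in L), CL the centralizer of j in L and K its generalized Fitting subgroup. Then K is quasisimple with centre E, K is the centralizer of E in L, K modulo E is isomorphic to the projective special unitary group of dimension 6 over the field with four elements, CL/K is isomorphic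 to the symmetric group of degree 3, and CL modulo E is isomorphic to the full automorphism group of that unitary group. -/
theorem result {G : Type*} [Group G] [Finite G] {D : Set G} (hD : Cfsg.IsThreeTranspositionGroup D) (hprim : Cfsg.IsPrimitiveUnderConj D) (d₀ : G) (hd₀ : d₀ ∈ D) (h3 : Cfsg.pCore 3 ↥(Subgroup.closure {y : G | y ∈ D ∧ y ≠ d₀ ∧ Commute d₀ y}) ≤ Subgroup.center ↥(Subgroup.closure {y : G | y ∈ D ∧ y ≠ d₀ ∧ Commute d₀ y})) (h2 : Cfsg.pCore 2 ↥(Subgroup.closure {y : G | y ∈ D ∧ y ≠ d₀ ∧ Commute d₀ y}) ≤ Subgroup.center ↥(Subgroup.closure {y : G | y ∈ D ∧ y ≠ d₀ ∧ Commute d₀ y})) (h24 : Cfsg.IsOfTypeM24 G D) (L : Subgroup G) (hL : L = commutator G) (d₁ d₂ d₃ : G) (h₁ : d₁ ∈ D) (h₂ : d₂ ∈ D) (h₃ : d₃ ∈ D) (h12 : d₁ ≠ d₂) (h13 : d₁ ≠ d₃) (h23 : d₂ ≠ d₃) (c12 : Commute d₁ d₂) (c13 : Commute d₁ d₃) (c23 : Commute d₂ d₃) (E CL K : Subgroup G) (hE : E = Subgroup.closure ({d₁ * d₂, d₁ * d₃} : Set G)) (hCL : CL = L ⊓ Subgroup.centralizer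 ({d₁ * d₂ * d₃} : Set G)) (hK : K = (Cfsg.generalizedFittingSubgroup ↥CL).map CL.subtype) : Cfsg.IsQuasisimple ↥K ∧ (Subgroup.center ↥K).map K.subtype = E ∧ K = L ⊓ Subgroup.centralizer (E : Set G) ∧ (∃ (_ : (E.subgroupOf K).Normal) (F : Type) (_ : Field F) (_ : Fintype F), Fintype.card F = 4 ∧ Nonempty (↥K ⧸ E.subgroupOf K ≃* Cfsg.PSU 6 F 2)) ∧ ∃ _ : (K.subgroupOf CL).Normal, Nonempty (↥CL ⧸ K.subgroupOf CL ≃* Equiv.Perm (Fin 3)) ∧ E ≤ CL ∧ ∃ (_ : (E.subgroupOf CL).Normal) (F : Type) (_ : Field F) (_ : Fintype F), Fintype.card F = 4 ∧ Nonempty (↥CL ⧸ E.subgroupOf CL ≃* MulAut (Cfsg.PSU 6 F 2)) := by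
  obtain ⟨R⟩ := H60.rep_of (H41.transfer24 hD hprim h24)
  have tr : H60.TrC H41.L24.F [31671, 3510, 693] := H60.all24.2 3 (by simp)
  have t := H60.tw243
  obtain ⟨R, rfl, rfl, rfl⟩ := R.std_three tr h₁ h₂ h₃ h12 h13 h23 c12 c13 c23
  obtain ⟨s, hs, hs'⟩ := R.exists_sign H41.L24.r3 H41.L24.exists_sign
  rw [R.St_three (H60.uf24 le_rfl) t.clq, hL, hs'] at hCL
  rw [hL, hs']
  subst hCL
  have hV := R.V_le_Pt t.clq
  have h0 := R.exists_even hs (l := [31671, 3510, 693]) List.mem_cons_self hV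
  have h1 := R.exists_even hs (l := [31671, 3510, 693]) List.mem_cons_self (hV.trans R.Pt_le_St)
  obtain ⟨σ, h4, h5⟩ := R.exists_sigma t.clq tr inf_le_right fun g hg =>
    (h1 g hg).imp fun v hv => ⟨hV hv.1, hv.2⟩
  have h5' : σ.ker = (s.ker ⊓ R.Pt [31671, 3510, 693]).subgroupOf (s.ker ⊓ R.St [31671, 3510, 693]) := by
    rw [h5]; ext g; simp [Subgroup.mem_subgroupOf, show s g = 1 from g.2.1]
  have n1 : ((s.ker ⊓ R.Pt [31671, 3510, 693]).subgroupOf (s.ker ⊓ R.St [31671, 3510, 693])).Normal :=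
    h5' ▸ σ.normal_ker
  obtain ⟨f, h6, h7, h8, -⟩ := R.exists_quot t H60.hT243 inf_le_right h0
  obtain ⟨e⟩ := H60.quot_of_ker h6 (h7.trans h8.symm)
  have := H41.simple21
  have hq : IsQuasisimple ↥(s.ker ⊓ R.Pt [31671, 3510, 693]) :=
    ⟨R.perfect_ker t H60.hT243 H41.L21.lm hs List.mem_cons_self, e.isSimpleGroup⟩
  have hle : s.ker ⊓ R.Pt [31671, 3510, 693] ≤ s.ker ⊓ R.St [31671, 3510, 693] := inf_le_inf_left _ R.Pt_le_St
  rw [H60.fstar_eq hle hq fun g hg h => ⟨hg.1, hV (R.mem_V_of_commute t H60.hT243 inf_le_right h0 hg.2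
    fun k hk => by simp [h k hk])⟩] at hK
  subst hK
  have m2 : R.τ 31671 * R.τ 3510 ∈ E := hE.ge (Subgroup.subset_closure (by simp))
  have m3 : R.τ 31671 * R.τ 693 ∈ E := hE.ge (Subgroup.subset_closure (by simp))
  have e1 : E ≤ s.ker ⊓ R.V {a | a ∈ [31671, 3510, 693]} := by
    rw [hE, Subgroup.closure_le]
    rintro _ (rfl | rfl) <;> exact ⟨by simp [hs], mul_mem (R.τ_mem_V (by simp)) (R.τ_mem_V (by simp))⟩
  have e2 : E = s.ker ⊓ R.V {a | a ∈ [31671, 3510, 693]} := e1.antisymm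
    (R.even_V t.clq hs List.mem_cons_self (e1.trans inf_le_left) (by simp [R.τ_sq, m2, m3]))
  have e3 : ∀ P : Subgroup G, (R.V {a | a ∈ [31671, 3510, 693]}).subgroupOf (s.ker ⊓ P) = E.subgroupOf (s.ker ⊓ P) :=
    fun P => by rw [e2]; ext g; simp [Subgroup.mem_subgroupOf, show s g = 1 from g.2.1]
  have e4 : E ≤ s.ker ⊓ R.Pt [31671, 3510, 693] := e1.trans (inf_le_inf_left _ hV)
  obtain ⟨φ, h9, h10⟩ := R.exists_quot_aut t H60.hT243 (H60.C3_eq ▸ H41.Amb.autL3) H60.aut24_le inf_le_right h1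
  obtain ⟨a1, -⟩ := H60.exists_autEquiv H60.aut21_t
  obtain ⟨F, _, _, hF, ⟨a2⟩⟩ := H60.exists_u6
  rw [e3] at h7 h8 h10
  have n2 : (E.subgroupOf (s.ker ⊓ R.Pt [31671, 3510, 693])).Normal := h7 ▸ f.normal_ker
  have n3 : (E.subgroupOf (s.ker ⊓ R.St [31671, 3510, 693])).Normal := h10 ▸ φ.normal_ker
  obtain ⟨a3⟩ := H60.quot_of_ker h6 h7
  obtain ⟨a4⟩ := H60.quot_of_ker h9 h10
  refine ⟨hq, by rw [h8, Subgroup.map_subgroupOf_eq_of_le e4], le_antisymm
    (fun g hg => ⟨hg.1, fun v hv => (R.commute_V hg.2 (e1 hv).2).symm⟩) fun g hg => ⟨hg.1, ?_⟩,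
    ⟨n2, F, _, _, hF, ⟨a3.trans a2⟩⟩, n1, H60.quot_of_ker h4 h5', e4.trans hle, n3, F, _, _, hF,
    ⟨(a4.trans a1).trans (MulAut.congr a2)⟩⟩
  have c2 := (R.St_two (H60.uf24 (by norm_num)) (t.clq.take 2)).le
    (Subgroup.mem_centralizer_singleton_iff.mpr (hg.2 _ m2).symm)
  have c3 := (R.St_two (a := 31671) (b := 693) (H60.uf24 (by norm_num))
    ⟨by decide, t.clq.2.mono (by simp)⟩).le (Subgroup.mem_centralizer_singleton_iff.mpr (hg.2 _ m3).symm)
  have c4 := (R.mem_St.mp c2 31671).mpr (by simp)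
  have c5 := (R.mem_St.mp c3 31671).mpr (by simp)
  have c6 : R.a g 31671 = 31671 := by
    simp only [List.mem_cons, List.not_mem_nil, or_false] at c4 c5
    exact c4.elim id fun c4 => c5.elim id fun c5 => absurd (c4.symm.trans c5) (by decide)
  have c7 := R.commute_iff.mpr c6
  have c8 : ∀ p, R.τ 31671 * R.τ p ∈ E → R.a g p = p := fun p hp => R.commute_iff.mp (by
    have := c7.mul_right (show Commute g _ from (hg.2 _ hp).symm)
    rwa [← mul_assoc, R.τ_sq, one_mul] at this)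
  exact R.mem_Pt.mpr (by simp [c6, c8 _ m2, c8 _ m3])

end Cfsg.Agent.S5466
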