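import Cfsg.Statements.S5449
import Cfsg.Agent.H60.FN
import Cfsg.Agent.S5466

set_option autoImplicit false
open Cfsg

namespace Cfsg.Agent.S5449

/-- Let G be a finite group of large Fischer type at the involution z: the generalized Fitting subgroup Q of H = C_G(z) is extraspecial of order 2^13, H has normal subgroups Q ≤ H₁ ≤ H₂ with H₁/Q of order 3, H₂/H₁ the projective special unitary group of dimension 4 over the field with nine elements and H₂ of index 2 in H, and some conjugate of z other than z lies in Q. Then Q contains a four-group E, not containing z and containing an involution not conjugate to z in G, whose centralizer in G is quasisimple with quotient by E isomorphic to the projective special unitary group of dimension 6 over the field with four elements. -/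
theorem result {G : Type*} [Group G] [Finite G] (z : G) (Q : Subgroup (Subgroup.centralizer ({z} : Set G))) [Q.Normal] (hF : Cfsg.IsOfLargeFischerTypeAt z Q) : ∃ E : Subgroup G, E ≤ (Q.map (Subgroup.centralizer ({z} : Set G)).subtype) ∧ Cfsg.IsElementaryAbelian 2 E ∧ Nat.card E = 4 ∧ z ∉ E ∧ (∃ t ∈ E, orderOf t = 2 ∧ ¬ IsConj z t) ∧ Cfsg.IsQuasisimple ↥(Subgroup.centralizer (E : Set G)) ∧ ∃ (_ : (E.subgroupOf (Subgroup.centralizer (E : Set G))).Normal) (K : Type) (_ : Field K) (_ : Fintype K), Fintype.card K = 4 ∧ Nonempty (↥(Subgroup.centralizer (E : Set G)) ⧸ E.subgroupOf (Subgroup.centralizer (E : Set G)) ≃* Cfsg.PSU 6 K 2) := by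
  obtain ⟨e, rfl⟩ := H60.fi24_rec hF
  obtain ⟨z, -, Q0, _, h1, -, h2, -, h3⟩ := H60.large24
  obtain rfl : z = H60.e8 15 := H60.f0_inj (h1.trans (H60.f0_e8 rfl).symm)
  have a3 := H60.f0_e8 (n := 3) rfl
  have a5 := H60.f0_e8 (n := 5) rfl
  have c : ∀ n m, H60.pc n % 2 = 0 ∧ H60.pc m % 2 = 0 ∧ n < 256 ∧ m < 256 ∧ n ^^^ m ≠ 0 ∧ n ^^^ m ≠ 255 →
      e (H60.e8 n) ≠ e (H60.e8 m) := fun n m h h' => by
    have := congrArg H60.f0 (e.injective h')
    rw [H60.f0_e8 h.1, H60.f0_e8 h.2.1, H60.T8_inj h.2.2.1 h.2.2.2.1] at this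
    exact this.elim h.2.2.2.2.1 h.2.2.2.2.2
  have c0 : e (H60.e8 0) = 1 := by rw [show H60.e8 0 = 1 from H60.f0_inj ((H60.f0_e8 rfl).trans (map_one _).symm), map_one]
  have c6 : e (H60.e8 3) * e (H60.e8 5) = e (H60.e8 6) := by rw [← map_mul, ← H60.Em.e8_xor (by decide)]; rfl
  have h4 : H49.Four (e (H60.e8 3)) (e (H60.e8 5)) := ⟨c0 ▸ c 3 0 (by decide), c0 ▸ c 5 0 (by decide),
    by rw [← map_mul, (H60.cp_T8 rfl a3).sq, map_one], by rw [← map_mul, (H60.cp_T8 rfl a5).sq, map_one],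
    c 5 3 (by decide), by rw [c6, ← map_mul, ← H60.Em.e8_xor (by decide)]; rfl⟩
  have b3 : H41.L24.F.t 31671 * H41.L24.F.t 3510 = H60.e8 3 :=
    Subtype.ext (by simpa [H60.f0] using (a3.trans (H60.T8_of (l := [31671, 3510]) (by decide))).symm)
  have b5 : H41.L24.F.t 31671 * H41.L24.F.t 693 = H60.e8 5 :=
    Subtype.ext (by simpa [H60.f0] using (a5.trans (H60.T8_of (l := [31671, 693]) (by decide))).symm)
  have t := H60.tw243.clq.2
  obtain ⟨a1, -, a2, a4, -⟩ := S5466.result (H41.L24.r3.isGroup (.refl _))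
    (H41.L24.r3.isPrimitive (.refl _)) _ ⟨0, rfl⟩ (H60.pCore24 0) (H60.pCore24 0) (H41.type24_of H99.a22 H99.a23 H99.a24 _)
    _ rfl (H41.L24.F.t 31671) (H41.L24.F.t 3510) (H41.L24.F.t 693) ⟨_, rfl⟩ ⟨_, rfl⟩ ⟨_, rfl⟩
    (fun h => absurd (H41.FS.t_inj h) (by decide)) (fun h => absurd (H41.FS.t_inj h) (by decide))
    (fun h => absurd (H41.FS.t_inj h) (by decide)) ((H41.FS.tau_commute (.refl _)).2 (t _ (by simp) _ (by simp)))
    ((H41.FS.tau_commute (.refl _)).2 (t _ (by simp) _ (by simp)))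
    ((H41.FS.tau_commute (.refl _)).2 (t _ (by simp) _ (by simp))) _ _ _ rfl rfl rfl
  rw [a2] at a1 a4
  obtain ⟨_, F, _, _, hF', ⟨u⟩⟩ := a4
  have i : Function.Injective ((commutator _).subtype.comp e.symm.toMonoidHom) :=
    Subtype.val_injective.comp e.symm.injective
  have h5 : Subgroup.closure {H41.L24.F.t 31671 * H41.L24.F.t 3510, H41.L24.F.t 31671 * H41.L24.F.t 693} =
      (Subgroup.closure {e (H60.e8 3), e (H60.e8 5)}).map ((commutator _).subtype.comp e.symm.toMonoidHom) := by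
    simp [MonoidHom.map_closure, Set.image_pair, b3, b5]
  obtain ⟨ε, hε⟩ := H60.cen_equiv e _ (congrArg SetLike.coe h5)
  obtain ⟨n, ⟨v⟩⟩ := H60.quot_equiv ε (E := Subgroup.closure {e (H60.e8 3), e (H60.e8 5)})
    (E' := Subgroup.closure {H41.L24.F.t 31671 * H41.L24.F.t 3510, H41.L24.F.t 31671 * H41.L24.F.t 693}) fun x => by
      rw [hε, h5, ← Subgroup.mem_map_iff_mem i]; rfl
  refine ⟨_, (Subgroup.closure_le _).2 ?_, ⟨Subgroup.isMulCommutative_closure ?_, fun a ha => ?_⟩, h4.card_closure,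
    fun h => ?_, ⟨_, Subgroup.subset_closure (.inl rfl), orderOf_eq_prime ((pow_two _).trans h4.zz) h4.z1, fun h => ?_⟩,
    H52.IsQuasisimple.of_mulEquiv a1 ε.symm, n, F, _, _, hF', ⟨v.trans u⟩⟩
  · rw [← hF.1.2.1]
    rw [← h2.1.2.1] at h3
    rintro _ (rfl | rfl)
    exacts [H60.mem_fstar_cen e (h3 _ _ [] (a3.trans (H60.T8_eq _)) (by decide +kernel)),
      H60.mem_fstar_cen e (h3 _ _ [] (a5.trans (H60.T8_eq _)) (by decide +kernel))]
  · rintro _ (rfl | rfl) _ (rfl | rfl)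
    exacts [rfl, h4.comm, h4.comm.symm, rfl]
  · rcases h4.mem_closure.1 ha with rfl | rfl | rfl | rfl <;> rw [pow_two]
    exacts [mul_one _, h4.zz, h4.xx, h4.zxzx]
  · rw [h4.mem_closure, c6, ← c0] at h
    exact h.elim (c _ _ (by decide)) fun h => h.elim (c _ _ (by decide)) fun h =>
      h.elim (c _ _ (by decide)) (c _ _ (by decide))
  · obtain ⟨g, hg⟩ := isConj_iff.1 (e.symm.toMonoidHom.map_isConj h)
    exact H60.not_conj24 (g := H60.f0 g) (by simpa [h1, a3] using congrArg H60.f0 hg)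

end Cfsg.Agent.S5449
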