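import Cfsg.Statements.S5465
import Cfsg.Agent.H41.Transfer
import Cfsg.Agent.H60.FitTw
import Cfsg.Agent.H60.FitF22

set_option autoImplicit false
open Cfsg

namespace Cfsg.Agent.S5465

/-- Let G be a finite group with trivial centre generated by a conjugation-invariant set D of 3-transpositions on which it acts primitively, such that for some d in D the subgroup generated by the members of D other than d commuting with d has central largest normal 2- and 3-subgroups, and suppose G with D is of type M(24), and let L be the commutator subgroup of G. Let d₁, d₂ be distinct commuting members of D and j = d₁ d₂. Then K, the joint centralizer of d₁ and d₂ in L, is quasisimple, is the generalized Fitting subgroup of the centralizer of j in L, has index 2 in it and contains j, and the centralizer of j in L modulo the subgroup generated by j is isomorphic to the full automorphism group of the Fischer group Fi₂₂ (as presented). -/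
theorem result {G : Type*} [Group G] [Finite G] {D : Set G} (hD : Cfsg.IsThreeTranspositionGroup D) (hprim : Cfsg.IsPrimitiveUnderConj D) (d₀ : G) (hd₀ : d₀ ∈ D) (h3 : Cfsg.pCore 3 ↥(Subgroup.closure {y : G | y ∈ D ∧ y ≠ d₀ ∧ Commute d₀ y}) ≤ Subgroup.center ↥(Subgroup.closure {y : G | y ∈ D ∧ y ≠ d₀ ∧ Commute d₀ y})) (h2 : Cfsg.pCore 2 ↥(Subgroup.closure {y : G | y ∈ D ∧ y ≠ d₀ ∧ Commute d₀ y}) ≤ Subgroup.center ↥(Subgroup.closure {y : G | y ∈ D ∧ y ≠ d₀ ∧ Commute d₀ y})) (h24 : Cfsg.IsOfTypeM24 G D) (L : Subgroup G) (hL : L = commutator G) (d₁ d₂ : G) (h₁ : d₁ ∈ D) (h₂ : d₂ ∈ D) (hne : d₁ ≠ d₂) (hc : Commute d₁ d₂) (K CL : Subgroup G) (hK : K = L ⊓ Subgroup.centralizer ({d₁, d₂} : Set G)) (hCL : CL = L ⊓ Subgroup.centralizer ({d₁ * d₂} : Set G)) [hn : ((Subgroup.zpowers (d₁ * d₂)).subgroupOf CL).Normal] : Cfsg.IsQuasisimple ↥K ∧ K = (Cfsg.generalizedFittingSubgroup ↥CL).map CL.subtype ∧ K ≤ CL ∧ (K.subgroupOf CL).index =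 2 ∧ d₁ * d₂ ∈ K ∧ Nonempty (↥CL ⧸ (Subgroup.zpowers (d₁ * d₂)).subgroupOf CL ≃* MulAut Cfsg.Spor.Fi22) := by
  obtain ⟨R⟩ := H60.rep_of (H41.transfer24 hD hprim h24)
  have tr : H60.TrC H41.L24.F [31671, 3510] := H60.all24.2 2 (by simp)
  have t := H60.tw242
  obtain ⟨R, rfl, rfl⟩ := R.std_two tr h₁ h₂ hne hc
  obtain ⟨s, hs, hs'⟩ := R.exists_sign H41.L24.r3 H41.L24.exists_sign
  rw [R.image_two] at hK
  rw [R.St_two (H60.uf24 (by norm_num)) t.clq] at hCL
  change K = L ⊓ R.Pt _ at hK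
  rw [hL, hs'] at hK hCL
  subst hK hCL
  have hV := R.V_le_Pt t.clq
  have h0 := R.exists_even hs (l := [31671, 3510]) List.mem_cons_self hV
  have h1 := R.exists_even hs (l := [31671, 3510]) List.mem_cons_self (hV.trans R.Pt_le_St)
  obtain ⟨σ, h4, h5⟩ := R.exists_sigma t.clq tr inf_le_right fun g hg =>
    (h1 g hg).imp fun v hv => ⟨hV hv.1, hv.2⟩
  have h5' : σ.ker = (s.ker ⊓ R.Pt [31671, 3510]).subgroupOf (s.ker ⊓ R.St [31671, 3510]) := by
    rw [h5]; ext g; simp [Subgroup.mem_subgroupOf, show s g = 1 from g.2.1]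
  have : ((s.ker ⊓ R.Pt [31671, 3510]).subgroupOf (s.ker ⊓ R.St [31671, 3510])).Normal := h5' ▸ σ.normal_ker
  obtain ⟨f, h6, h7, h8, -⟩ := R.exists_quot t H60.hT242 inf_le_right h0
  obtain ⟨e⟩ := H60.quot_of_ker h6 (h7.trans h8.symm)
  have := H41.simple22
  have hq : IsQuasisimple ↥(s.ker ⊓ R.Pt [31671, 3510]) :=
    ⟨R.perfect_ker t H60.hT242 H41.L22.lm hs List.mem_cons_self, e.isSimpleGroup⟩
  have hle : s.ker ⊓ R.Pt [31671, 3510] ≤ s.ker ⊓ R.St [31671, 3510] := inf_le_inf_left _ R.Pt_le_St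
  have hj : R.τ 31671 * R.τ 3510 ∈ s.ker ⊓ R.V {a | a ∈ [31671, 3510]} :=
    ⟨by simp [hs], mul_mem (R.τ_mem_V (by simp)) (R.τ_mem_V (by simp))⟩
  refine ⟨hq, (H60.fstar_eq hle hq fun g hg h => ⟨hg.1, hV (R.mem_V_of_commute t H60.hT242 inf_le_right h0 hg.2
    fun k hk => by simp [h k hk])⟩).symm, hle, by rw [← h5', H60.index_of_ker h4]; simp [Fintype.card_perm],
    ⟨hj.1, hV hj.2⟩, ?_⟩
  obtain ⟨φ, h9, h10⟩ := R.exists_quot_aut t H60.hT242 (H60.C2_eq ▸ H41.Amb.autL2) H60.aut24_le inf_le_right h1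
  obtain ⟨e1, -⟩ := H60.exists_autEquiv (H60.cls22.aut_t H41.L22.r3)
  obtain ⟨e2⟩ := H60.exists_fi22_equiv
  obtain ⟨e3⟩ := H60.quot_of_ker h9 (N := (Subgroup.zpowers (R.τ 31671 * R.τ 3510)).subgroupOf _) (by
    rw [h10]
    ext g
    refine ⟨fun h => R.even_V t.clq hs List.mem_cons_self (Subgroup.zpowers_le.mpr hj.1) ?_ ⟨g.2.1, h⟩,
      fun h => Subgroup.zpowers_le.mpr hj.2 h⟩
    simp [R.τ_sq])
  exact ⟨(e3.trans e1).trans (MulAut.congr e2)⟩

end Cfsg.Agent.S5465
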