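import Cfsg.Statements.S5450
import Cfsg.Agent.H60.FN
import Cfsg.Agent.S5465

set_option autoImplicit false
open Cfsg

namespace Cfsg.Agent.S5450

/-- Let G be a finite group of large Fischer type at the involution z: the generalized Fitting subgroup Q of H = C_G(z) is extraspecial of order 2^13, H has normal subgroups Q ≤ H₁ ≤ H₂ with H₁/Q of order 3, H₂/H₁ the projective special unitary group of dimension 4 over the field with nine elements and H₂ of index 2 in H, and some conjugate of z other than z lies in Q. Let t be an involution of Q not conjugate to z in G, and K the generalized Fitting subgroup of the centralizer of t. Then K is quasisimple of index 2 in the centralizer of t, contains t, and the centralizer of t modulo the subgroup generated by t is isomorphic to the full automorphism group of the Fischer group Fi₂₂ (as presented). -/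
theorem result {G : Type*} [Group G] [Finite G] (z : G) (Q : Subgroup (Subgroup.centralizer ({z} : Set G))) [Q.Normal] (hF : Cfsg.IsOfLargeFischerTypeAt z Q) (t : G) (htQ : ∃ htc : t ∈ Subgroup.centralizer ({z} : Set G), (⟨t, htc⟩ : Subgroup.centralizer ({z} : Set G)) ∈ Q) (ht2 : orderOf t = 2) (ht : ¬ IsConj z t) (K : Subgroup ↥(Subgroup.centralizer ({t} : Set G))) (hK : K = Cfsg.generalizedFittingSubgroup ↥(Subgroup.centralizer ({t} : Set G))) [hn : ((Subgroup.zpowers t).subgroupOf (Subgroup.centralizer ({t} : Set G))).Normal] : Cfsg.IsQuasisimple ↥K ∧ K.index = 2 ∧ (∃ htc : t ∈ Subgroup.centralizer ({t} : Set G), (⟨t, htc⟩ : ↥(Subgroup.centralizer ({t} : Set G))) ∈ K) ∧ Nonempty (↥(Subgroup.centralizer ({t} : Set G)) ⧸ (Subgroup.zpowers t).subgroupOf (Subgroup.centralizer ({t} : Set G)) ≃* MulAut Cfsg.Spor.Fi22) := by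
  obtain ⟨e, rfl⟩ := H60.fi24_rec hF
  obtain ⟨a, rfl⟩ := e.surjective t
  rw [MulEquiv.orderOf_eq, orderOf_eq_prime_iff, pow_two] at ht2
  obtain ⟨l, h1, h2, h3⟩ := (H60.cp_of ht2.1 ht2.2).resolve_right fun h => ht (e.toMonoidHom.map_isConj
    (isConj_iff.2 ((H60.cp_T8 rfl (H60.f0_e8 (n := 15) rfl)).conj h (by decide))))
  obtain ⟨p, q, rfl⟩ := List.length_eq_two.1 h2
  have h4 : H41.L24.F.t p * H41.L24.F.t q = a := Subtype.ext (by simpa [H60.f0] using h3)
  obtain ⟨ε, hε⟩ := H60.cen_equiv e {e a} (T := {H41.L24.F.t p * H41.L24.F.t q}) (by simp [h4])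
  have := H60.zpowers_normal (inf_le_right (a := commutator _) (b := Subgroup.centralizer {H41.L24.F.t p * H41.L24.F.t q}))
  obtain ⟨a1, a2, -, a3, a4, ⟨u⟩⟩ := S5465.result (H41.L24.r3.isGroup (.refl _)) (H41.L24.r3.isPrimitive (.refl _)) _
    ⟨0, rfl⟩ (H60.pCore24 0) (H60.pCore24 0) (H41.type24_of H99.a22 H99.a23 H99.a24 _) _ rfl (H41.L24.F.t p)
    (H41.L24.F.t q) ⟨p, rfl⟩ ⟨q, rfl⟩ (fun h => by simpa [H41.FS.t_inj h] using h1.1)
    ((H41.FS.tau_commute (.refl _)).2 (h1.2 p (by simp) q (by simp))) _ _ rfl rfl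
  rw [a2, ← H52.map_fstar_equiv ε, ← hK] at a1 a3 a4
  obtain ⟨_, ⟨y, hy, rfl⟩, b⟩ := a4
  obtain ⟨_, ⟨v⟩⟩ := H60.quot_equiv ε (E := Subgroup.zpowers (e a))
    (E' := Subgroup.zpowers (H41.L24.F.t p * H41.L24.F.t q)) fun x => by
      rw [hε, h4, ← Subgroup.mem_map_iff_mem (f := (commutator _).subtype.comp e.symm.toMonoidHom)
        (Subtype.val_injective.comp e.symm.injective), MonoidHom.map_zpowers]
      simp
  refine ⟨(H52.isQuasisimple_map_iff_of_injective ε.injective).1
    ((H52.isQuasisimple_map_iff_of_injective Subtype.val_injective).1 a1), ?_, ?_, ⟨v.trans u⟩⟩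
  · rw [Subgroup.subgroupOf, Subgroup.comap_map_eq_self_of_injective Subtype.val_injective] at a3
    exact (Subgroup.index_map_equiv K ε).symm.trans a3
  · have c : y.1 = e a := e.symm_apply_eq.1 (Subtype.ext ((hε y).symm.trans (b.trans h4)))
    obtain ⟨y, hy'⟩ := y
    obtain rfl : y = e a := c
    exact ⟨hy', hy⟩

end Cfsg.Agent.S5450
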