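import Cfsg.Statements.S5460
import Cfsg.Agent.H60.FN

set_option autoImplicit false
open Cfsg

namespace Cfsg.Agent.S5460

/-- Let X be a finite group with a subgroup G₀ of index 2 that is of large Fischer type at an involution z central in some Sylow 2-subgroup of G₀ (the generalized Fitting subgroup Q of the centralizer C of z in G₀ is extraspecial of order 2^13, C has normal subgroups Q ≤ H₁ ≤ H₂ with H₁/Q of order 3, H₂/H₁ isomorphic to the projective special unitary group of dimension 4 over the field with nine elements and H₂ of index 2 in C, and some G₀-conjugate of z other than z lies in Q), and suppose the generalized Fitting subgroup of the centralizer of z in X is Q as well. Then there is an involution d of X outside G₀ commuting with z, and an involution t of the centralizer Y of d in G₀, such that: the centralizer of t in Y is quasisimple; its quotient by the subgroup generated by t is of type M(22) for some generating conjugacy class of 3-transpositions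 and has an involution whose own centralizer is quasisimple, with quotient by it the projective special unitary group of dimension 6 over the field with four elements, and which is not weakly closed in that centralizer; t is not weakly closed in its centralizer in Y; and the conjugacy class of t in Y is a class of 3-transpositions generating Y with respect to which Y is of type M(23). -/
theorem result {X : Type*} [Group X] [Finite X] (G₀ : Subgroup X) (hidx : G₀.index = 2) (z : ↥G₀) (Q : Subgroup (Subgroup.centralizer ({z} : Set ↥G₀))) [Q.Normal] (hF : Cfsg.IsOfLargeFischerTypeAt z Q) (hcentral : ∃ P : Sylow 2 ↥G₀, z ∈ (P : Subgroup ↥G₀) ∧ ∀ x ∈ (P : Subgroup ↥G₀), Commute x z) (hFX : (Cfsg.generalizedFittingSubgroup ↥(Subgroup.centralizer ({(z : X)} : Set X))).map (Subgroup.subtype _) = ((Q.map (Subgroup.subtype _)).map G₀.subtype)) : ∃ d : X, orderOf d = 2 ∧ d ∉ G₀ ∧ Commute d (z : X) ∧ ∃ t : ↥(G₀ ⊓ Subgroup.centralizer ({d} : Set X)), orderOf t = 2 ∧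 Cfsg.IsQuasisimple ↥(Subgroup.centralizer ({t} : Set ↥(G₀ ⊓ Subgroup.centralizer ({d} : Set X)))) ∧ (∃ (_ : ((Subgroup.zpowers t).subgroupOf (Subgroup.centralizer ({t} : Set ↥(G₀ ⊓ Subgroup.centralizer ({d} : Set X))))).Normal), (∃ E : Set (↥(Subgroup.centralizer ({t} : Set ↥(G₀ ⊓ Subgroup.centralizer ({d} : Set X)))) ⧸ (Subgroup.zpowers t).subgroupOf (Subgroup.centralizer ({t} : Set ↥(G₀ ⊓ Subgroup.centralizer ({d} : Set X))))), Cfsg.IsThreeTranspositionClass E ∧ Cfsg.IsOfTypeM22 _ E) ∧ ∃ d' : ↥(Subgroup.centralizer ({t} : Set ↥(G₀ ⊓ Subgroup.centralizer ({d} : Set X)))) ⧸ (Subgroup.zpowers t).subgroupOf (Subgroup.centralizer ({t} : Set ↥(G₀ ⊓ Subgroup.centralizer ({d} : Set X)))), orderOf d' = 2 ∧ Cfsg.IsQuasisimple ↥(Subgroup.centralizer ({d'} : Set _)) ∧ (∃ (K : Type) (_ : Field K) (_ : Fintype K), Fintype.card K = 4 ∧ ∃ _ : ((Subgroup.zpowers d').subgroupOf (Subgroup.centralizer ({d'} : Set _))).Normal, Nonempty (↥(Subgroup.centralizer ({d'} : Set _))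 ⧸ (Subgroup.zpowers d').subgroupOf (Subgroup.centralizer ({d'} : Set _)) ≃* Cfsg.PSU 6 K 2)) ∧ ∃ g, g * d' * g⁻¹ ∈ Subgroup.centralizer ({d'} : Set _) ∧ g * d' * g⁻¹ ≠ d') ∧ (∃ g : ↥(G₀ ⊓ Subgroup.centralizer ({d} : Set X)), g * t * g⁻¹ ∈ Subgroup.centralizer ({t} : Set ↥(G₀ ⊓ Subgroup.centralizer ({d} : Set X))) ∧ g * t * g⁻¹ ≠ t) ∧ Cfsg.IsThreeTranspositionClass (conjugatesOf t) ∧ Cfsg.IsOfTypeM23 ↥(G₀ ⊓ Subgroup.centralizer ({d} : Set X)) (conjugatesOf t) := by
  obtain ⟨f, h1, h2⟩ := H60.exists_ext' hidx hF hFX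
  let R : H60.Rep H41.L24.F X _ := ⟨H41.L24.F.grp.subtype.comp f.symm.toMonoidHom, fun p => f (H41.L24.F.t p),
    Subtype.val_injective.comp f.symm.injective, by
      rw [MonoidHom.range_comp, MonoidHom.range_eq_top.mpr f.symm.surjective, ← MonoidHom.range_eq_map,
        Subgroup.range_subtype], fun p => by simp, rfl⟩
  obtain ⟨s, hs, hs'⟩ := R.exists_sign H41.L24.r3 H41.L24.exists_sign
  have h3 : G₀ = s.ker := hs' ▸ Subgroup.ext fun g => by
    obtain ⟨g, rfl⟩ := f.surjective g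
    rw [h1, H28.mem_commutator_equiv]
  have t : H60.Tw H41.L23.F H41.L24.F _ [31671] := H60.lv24.tw (H60.tw_nil _)
  have hT : ∀ a ∈ ([31671] : List (Fin 306936)), H41.L24.F.T a ∈ H41.L24.F.gen (Set.range (_ ∘ id)) :=
    fun a ha => by
      rw [List.mem_singleton.1 ha, Function.comp_id, H60.lv24.range]
      exact H41.stab24 _ (H41.FS.T_mem_grp _) (H41.L24.F.self _)
  have h4 : G₀ ⊓ Subgroup.centralizer {R.τ 31671} = s.ker ⊓ R.Pt [31671] := by simp [h3, H60.Rep.Pt]
  obtain ⟨φ, h5, h6, -⟩ := R.exists_quot t hT (h4.le.trans inf_le_right)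
    (h4 ▸ R.exists_even hs (l := [31671]) List.mem_cons_self (R.V_le_Pt t.clq))
  have h7 : Function.Injective φ := (MonoidHom.ker_eq_bot_iff φ).1 (eq_bot_iff.2 fun g hg => Subtype.ext
    (R.even_V t.clq hs List.mem_cons_self (E := ⊥) bot_le (by simp [R.τ_sq]) ⟨h3.le g.2.1, h6.le hg⟩))
  let e := (MulEquiv.ofBijective φ ⟨h7, h5⟩).symm
  have := H41.simple22
  have := H41.simple21
  obtain ⟨a1, a2, ⟨a3, ⟨e'⟩⟩, a4, a5⟩ := H60.lvl e H41.L23.lm H41.L23.loc H41.L23.r3
    (fun g hg h => H41.stab23 _ hg h) (H41.L23.oddOn _)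
  obtain ⟨b1, b2, ⟨b3, ⟨e''⟩⟩, b4, -⟩ := H60.lvl e' H41.L22.lm H41.L22.loc H41.L22.r3
    (fun g hg h => H41.stab22 _ hg h) (H41.L22.oddOn _)
  obtain ⟨K, _, _, hK, ⟨u⟩⟩ := H60.exists_u6
  refine ⟨R.τ 31671, (H41.L24.r3.isClass f).1.1 _ ⟨_, rfl⟩, fun h => by simpa [hs] using h3.le h, ?_, _, a1, a2,
    ⟨a3, ⟨_, H41.L22.r3.isClass e', H41.type22_of H99.a22 e'⟩, _, b1, b2, ⟨K, _, _, hK, b3, ⟨e''.symm.trans u⟩⟩, b4⟩,
    a4, a5 ▸ H41.L23.r3.isClass e, a5 ▸ H41.type23_of H99.a22 H99.a23 e⟩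
  refine h2 ▸ Commute.map (f := f) (Subtype.ext ?_)
  change _ * H60.f0 _ = H60.f0 _ * _
  rw [H60.f0_e8 rfl]
  exact H60.comm_pr (H41.FS.grp_le_aut (H41.FS.T_mem_grp _)) fun p hp =>
    (H60.all24.1.take 4).2 _ List.mem_cons_self p hp

end Cfsg.Agent.S5460
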