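import Cfsg.Statements.S5462
import Cfsg.Agent.H60.FitTower
import Cfsg.Agent.H41.Transfer

set_option autoImplicit false
open Cfsg

namespace Cfsg.Agent.S5462

/-- Let G be a finite group with trivial centre generated by a conjugation-invariant set D of 3-transpositions on which it acts primitively, such that for some d in D the subgroup generated by the members of D other than d commuting with d has central largest normal 2- and 3-subgroups, and suppose G with D is of type M(22). Then every automorphism of G of order 2 fixes some member of D. -/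
theorem result {G : Type*} [Group G] [Finite G] {D : Set G} (hD : Cfsg.IsThreeTranspositionGroup D) (hprim : Cfsg.IsPrimitiveUnderConj D) (d₀ : G) (hd₀ : d₀ ∈ D) (h3 : Cfsg.pCore 3 ↥(Subgroup.closure {y : G | y ∈ D ∧ y ≠ d₀ ∧ Commute d₀ y}) ≤ Subgroup.center ↥(Subgroup.closure {y : G | y ∈ D ∧ y ≠ d₀ ∧ Commute d₀ y})) (h2 : Cfsg.pCore 2 ↥(Subgroup.closure {y : G | y ∈ D ∧ y ≠ d₀ ∧ Commute d₀ y}) ≤ Subgroup.center ↥(Subgroup.closure {y : G | y ∈ D ∧ y ≠ d₀ ∧ Commute d₀ y})) (h22 : Cfsg.IsOfTypeM22 G D) (φ : MulAut G) (hφ : orderOf φ = 2) : ∃ d ∈ D, φ d = d := by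
  obtain ⟨e, rfl⟩ := H41.transfer22 hD h22
  obtain ⟨f, hf⟩ := H60.exists_autEquiv (H60.cls22.aut_t H41.L22.r3)
  obtain ⟨a, ha⟩ := f.surjective (MulAut.congr e.symm φ)
  have h1 : a * a = 1 := f.injective (by
    rw [map_mul, ha, ← map_mul, ← pow_two, ← hφ, pow_orderOf_eq_one, map_one, map_one])
  obtain ⟨p, hp⟩ := H60.aut22_fix a.2 (congrArg Subtype.val h1)
  refine ⟨_, ⟨p, rfl⟩, ?_⟩
  have := hf a p
  rw [ha, hp] at this
  exact e.symm.injective (by simpa using this)

end Cfsg.Agent.S5462
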