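import Cfsg.Statements.S5463
import Cfsg.Agent.H41.Transfer
import Cfsg.Agent.H60.FitFac

set_option autoImplicit false
open Cfsg

namespace Cfsg.Agent.S5463

/-- Let G be a finite group with trivial centre generated by a conjugation-invariant set D of 3-transpositions on which it acts primitively, such that for some d in D the subgroup generated by the members of D other than d commuting with d has central largest normal 2- and 3-subgroups, and suppose G with D is of type M(22). A product j of two distinct commuting members of D determines the pair: any two 2-element sets of commuting members of D with product j coincide. A product j of three distinct pairwise commuting members of D arises from exactly two such 3-element sets. -/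
theorem result {G : Type*} [Group G] [Finite G] {D : Set G} (hD : Cfsg.IsThreeTranspositionGroup D) (hprim : Cfsg.IsPrimitiveUnderConj D) (d₀ : G) (hd₀ : d₀ ∈ D) (h3 : Cfsg.pCore 3 ↥(Subgroup.closure {y : G | y ∈ D ∧ y ≠ d₀ ∧ Commute d₀ y}) ≤ Subgroup.center ↥(Subgroup.closure {y : G | y ∈ D ∧ y ≠ d₀ ∧ Commute d₀ y})) (h2 : Cfsg.pCore 2 ↥(Subgroup.closure {y : G | y ∈ D ∧ y ≠ d₀ ∧ Commute d₀ y}) ≤ Subgroup.center ↥(Subgroup.closure {y : G | y ∈ D ∧ y ≠ d₀ ∧ Commute d₀ y})) (h22 : Cfsg.IsOfTypeM22 G D) : (∀ (j : G) (l l' : List G), (l.Nodup ∧ l.length = 2 ∧ (∀ a ∈ l, a ∈ D) ∧ (∀ a ∈ l, ∀ b ∈ l, Commute a b) ∧ l.prod = j) → (l'.Nodup ∧ l'.length = 2 ∧ (∀ a ∈ l', a ∈ D) ∧ (∀ a ∈ l', ∀ b ∈ l', Commute a b) ∧ l'.prod = j) → (∀ x : G, x ∈ l ↔ x ∈ l')) ∧ ∀ (j : G) (l₀ : List G), (l₀.Nodup ∧ l₀.length = 3 ∧ (∀ a ∈ l₀, a ∈ D) ∧ (∀ a ∈ l₀, ∀ b ∈ l₀, Commute a b) ∧ l₀.prod = j)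 → ∃ l₁ l₂ : List G, (l₁.Nodup ∧ l₁.length = 3 ∧ (∀ a ∈ l₁, a ∈ D) ∧ (∀ a ∈ l₁, ∀ b ∈ l₁, Commute a b) ∧ l₁.prod = j) ∧ (l₂.Nodup ∧ l₂.length = 3 ∧ (∀ a ∈ l₂, a ∈ D) ∧ (∀ a ∈ l₂, ∀ b ∈ l₂, Commute a b) ∧ l₂.prod = j) ∧ ¬ (∀ x : G, x ∈ l₁ ↔ x ∈ l₂) ∧ ∀ l : List G, (l.Nodup ∧ l.length = 3 ∧ (∀ a ∈ l, a ∈ D) ∧ (∀ a ∈ l, ∀ b ∈ l, Commute a b) ∧ l.prod = j) → ((∀ x : G, x ∈ l ↔ x ∈ l₁) ∨ (∀ x : G, x ∈ l ↔ x ∈ l₂)) := by
  obtain ⟨R⟩ := H60.rep_of (H41.transfer22 hD h22)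
  refine ⟨fun j l l' hl hl' => R.uf (H60.uf22 le_rfl) hl hl', fun j l₀ hl => ?_⟩
  obtain ⟨k, rfl, h1, h2', h3'⟩ := R.fac_iff.mp hl
  obtain ⟨k', h4, h5, h6, h7⟩ := H60.fac22 h1 h2'
  have h8 : H60.Clq H41.L22.F k' := ⟨h4.1.of_append_right, h4.2.mono fun a ha => List.mem_append_right _ ha⟩
  refine ⟨_, _, hl, R.fac_iff.mpr ⟨k', rfl, h8, h5, h6.trans h3'⟩, fun h => ?_, fun l hl' => ?_⟩
  · obtain _ | ⟨c, k⟩ := k
    · simp at h2'
    obtain ⟨c', hc', e⟩ := List.mem_map.mp ((h (R.τ c)).mp (by simp))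
    exact List.disjoint_of_nodup_append h4.1 List.mem_cons_self (R.τ_inj e ▸ hc')
  · obtain ⟨m, rfl, g1, g2, g3⟩ := R.fac_iff.mp hl'
    exact (h7 m g1 g2 (g3.trans h3'.symm)).imp (fun h x => by simp only [List.mem_map, h])
      (fun h x => by simp only [List.mem_map, h])

end Cfsg.Agent.S5463
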