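import Cfsg.Statements.S5468
import Cfsg.Agent.H41.Transfer
import Cfsg.Agent.H60.FitTw

set_option autoImplicit false
open Cfsg

namespace Cfsg.Agent.S5468

/-- Let G be a finite group with trivial centre generated by a conjugation-invariant set D of 3-transpositions on which it acts primitively, such that for some d in D the subgroup generated by the members of D other than d commuting with d has central largest normal 2- and 3-subgroups, and suppose G with D is of type M(23). Let d₁, d₂ be distinct commuting members of D, j = d₁ d₂, K the joint centralizer of d₁ and d₂ and C the centralizer of j. Then K has index 2 in C, the centre of K is the subgroup generated by d₁ and d₂, K is quasisimple with K modulo its centre isomorphic to the projective special unitary group of dimension 6 over the field with four elements, and C modulo the subgroup generated by d₁ and d₂ has trivial centre (so it is that unitary group extended by an outer involution). -/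
theorem result {G : Type*} [Group G] [Finite G] {D : Set G} (hD : Cfsg.IsThreeTranspositionGroup D) (hprim : Cfsg.IsPrimitiveUnderConj D) (d₀ : G) (hd₀ : d₀ ∈ D) (h3 : Cfsg.pCore 3 ↥(Subgroup.closure {y : G | y ∈ D ∧ y ≠ d₀ ∧ Commute d₀ y}) ≤ Subgroup.center ↥(Subgroup.closure {y : G | y ∈ D ∧ y ≠ d₀ ∧ Commute d₀ y})) (h2 : Cfsg.pCore 2 ↥(Subgroup.closure {y : G | y ∈ D ∧ y ≠ d₀ ∧ Commute d₀ y}) ≤ Subgroup.center ↥(Subgroup.closure {y : G | y ∈ D ∧ y ≠ d₀ ∧ Commute d₀ y})) (h23 : Cfsg.IsOfTypeM23 G D) (d₁ d₂ : G) (h₁ : d₁ ∈ D) (h₂ : d₂ ∈ D) (hne : d₁ ≠ d₂) (hc : Commute d₁ d₂) (K C V : Subgroup G) (hK : K = Subgroup.centralizer ({d₁, d₂} : Set G)) (hC : C = Subgroup.centralizer ({d₁ * d₂} : Set G)) (hV : V = Subgroup.closure ({d₁, d₂} : Set G)) [hn : (V.subgroupOf C).Normal] : K ≤ C ∧ (K.subgroupOf C).index = 2 ∧ (Subgroup.center ↥K).map K.subtype = V ∧ Cfsg.IsQuasisimple ↥K ∧ (∃ (F : Type) (_ : Field F) (_ : Fintype F), Fintype.card F = 4 ∧ Nonempty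 (↥K ⧸ Subgroup.center ↥K ≃* Cfsg.PSU 6 F 2)) ∧ Subgroup.center (↥C ⧸ V.subgroupOf C) = ⊥ := by
  obtain ⟨R⟩ := H60.rep_of (H41.transfer23 hD h23)
  have tr : H60.TrC H41.L23.F [3510, 693] := H60.all23.2 2 (by simp)
  have t := H60.tw23
  obtain ⟨R, rfl, rfl⟩ := R.std_two tr h₁ h₂ hne hc
  rw [R.image_two] at hK hV
  rw [R.St_two (H60.uf23 (by norm_num)) t.clq] at hC
  change K = R.Pt _ at hK
  change V = R.V _ at hV
  subst hK hC hV
  obtain ⟨σ, h4, h5⟩ := R.exists_sigma t.clq tr le_rfl fun g hg => ⟨1, one_mem _, by simpa using hg⟩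
  have h0 : ∀ g ∈ R.Pt [3510, 693], ∃ v ∈ R.V {a | a ∈ [3510, 693]}, g * v ∈ R.Pt [3510, 693] :=
    fun g hg => ⟨1, one_mem _, by simpa using hg⟩
  obtain ⟨f, h6, h7, h8, -⟩ := R.exists_quot t H60.hT23 le_rfl h0
  obtain ⟨e⟩ := H60.quot_of_ker h6 (h7.trans h8.symm)
  obtain ⟨F, _, _, hF, ⟨e'⟩⟩ := H60.exists_u6
  have := H41.simple21
  refine ⟨R.Pt_le_St, by rw [← h5, H60.index_of_ker h4]; simp [Fintype.card_perm],
    by rw [h8, Subgroup.map_subgroupOf_eq_of_le (R.V_le_Pt t.clq)],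
    ⟨R.perfect_Pt t H60.hT23 H41.L21.lm H60.odd23, e.isSimpleGroup⟩,
    ⟨F, _, _, hF, ⟨e.trans e'⟩⟩, eq_bot_iff.mpr fun x hx => ?_⟩
  obtain ⟨g, rfl⟩ := QuotientGroup.mk_surjective x
  refine (QuotientGroup.eq_one_iff _).mpr (R.mem_V_of_commute t H60.hT23 le_rfl h0 g.2 fun k hk => ?_)
  have := Subgroup.mem_center_iff.mp hx (QuotientGroup.mk ⟨k, R.Pt_le_St hk⟩)
  rw [← mul_inv_eq_one, ← QuotientGroup.mk_mul, ← QuotientGroup.mk_mul, ← QuotientGroup.mk_inv,
    ← QuotientGroup.mk_mul, QuotientGroup.eq_one_iff, Subgroup.mem_subgroupOf] at this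
  simpa [mul_assoc] using this

end Cfsg.Agent.S5468
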