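import Cfsg.Statements.S5469
import Cfsg.Agent.H41.Transfer
import Cfsg.Agent.H45.FiE22

set_option autoImplicit false
open Cfsg

namespace Cfsg.Agent.S5469

open Cfsg.Agent.H41 Cfsg.Agent.H45 Subgroup

/-- Let G be a finite group with trivial centre generated by a conjugation-invariant set D of 3-transpositions on which it acts primitively, such that for some d in D the subgroup generated by the members of D other than d commuting with d has central largest normal 2- and 3-subgroups, and suppose G with D is of type M(22). Let d₁, d₂ be distinct commuting members of D, j = d₁ d₂, K the joint centralizer of d₁ and d₂, C the centralizer of j and V the subgroup generated by d₁ and d₂. Then K has index 2 in C, V is the centre of K, and C has a normal subgroup E containing V with E/V elementary abelian of order 2^8 and C/E isomorphic to the full automorphism group of the projective special unitary group of dimension 4 over the field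 with four elements. -/
theorem result {G : Type*} [Group G] [Finite G] {D : Set G} (hD : Cfsg.IsThreeTranspositionGroup D) (hprim : Cfsg.IsPrimitiveUnderConj D) (d₀ : G) (hd₀ : d₀ ∈ D) (h3 : Cfsg.pCore 3 ↥(Subgroup.closure {y : G | y ∈ D ∧ y ≠ d₀ ∧ Commute d₀ y}) ≤ Subgroup.center ↥(Subgroup.closure {y : G | y ∈ D ∧ y ≠ d₀ ∧ Commute d₀ y})) (h2 : Cfsg.pCore 2 ↥(Subgroup.closure {y : G | y ∈ D ∧ y ≠ d₀ ∧ Commute d₀ y}) ≤ Subgroup.center ↥(Subgroup.closure {y : G | y ∈ D ∧ y ≠ d₀ ∧ Commute d₀ y})) (h22 : Cfsg.IsOfTypeM22 G D) (d₁ d₂ : G) (h₁ : d₁ ∈ D) (h₂ : d₂ ∈ D) (hne : d₁ ≠ d₂) (hc : Commute d₁ d₂) (K C V : Subgroup G) (hK : K = Subgroup.centralizer ({d₁, d₂} : Set G)) (hC : C = Subgroup.centralizer ({d₁ * d₂} : Set G)) (hV : V = Subgroup.closure ({d₁, d₂} : Set G)) : K ≤ C ∧ (K.subgroupOf C).index = 2 ∧ (Subgroup.center ↥K).map K.subtype = V ∧ ∃ E : Subgroup G, V ≤ E ∧ E ≤ C ∧ (∀ c ∈ C, ∀ x ∈ E, c * x * c⁻¹ ∈ E) ∧ Nat.card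 E = 2 ^ 10 ∧ (∀ x ∈ E, ∀ y ∈ E, x * y * x⁻¹ * y⁻¹ ∈ V ∧ x ^ 2 ∈ V) ∧ ∃ (_ : (E.subgroupOf C).Normal) (F : Type) (_ : Field F) (_ : Fintype F), Fintype.card F = 4 ∧ Nonempty (↥C ⧸ E.subgroupOf C ≃* MulAut (Cfsg.PSU 4 F 2)) := by
  obtain ⟨e, he⟩ := transfer22 hD h22
  let R : Rp cf22 N22.π L22.F G D := ⟨md22, mem22, e, he⟩
  obtain ⟨R, rfl, rfl⟩ := R.std2 (H60.all22.2 2 (by simp)) h₁ h₂ hne hc
  subst hK hC hV
  obtain ⟨a1, a2, a3, -⟩ := R.cab
  obtain ⟨E0, E, xs, -, -, -, b1, b2, b3, b4, b5, θ, b6, b7, -⟩ := R.eab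
  have hz : zpowers (R.t 693 * R.t 180) ≤ closure {R.t 693, R.t 180} :=
    zpowers_le.mpr (mul_mem (subset_closure (by simp)) (subset_closure (by simp)))
  have hn : (E.subgroupOf (centralizer {R.t 693 * R.t 180})).Normal := b7 ▸ inferInstance
  obtain ⟨F, _, _, hF, ⟨o⟩⟩ := o6_aut
  refine ⟨a1, a2, a3, E, (closure_le _).mpr ?_, b5, fun c hc x hx => hn.conj_mem ⟨x, b5 hx⟩ hx ⟨c, hc⟩, b3,
    fun x hx y hy => ⟨hz (b4 x hx y hy).1, hz (b4 x hx y hy).2⟩, hn, F, _, _, hF,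
    (H60.quot_of_ker b6 b7.symm).map fun f => f.trans o⟩
  rintro _ (rfl | rfl)
  exacts [b1, (mul_mem_cancel_left b1).mp (b2 xs.mem)]

end Cfsg.Agent.S5469
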