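import Cfsg.Statements.S5470
import Cfsg.Agent.H41.Transfer
import Cfsg.Agent.H45.FiB22

set_option autoImplicit false
open Cfsg

namespace Cfsg.Agent.S5470

set_option maxRecDepth 1000000
set_option Elab.async false

open Cfsg.Agent.H41 Cfsg.Agent.H42 Cfsg.Agent.H45 Cfsg.Agent.H60 Subgroup

/-- A stabiliser chain of the centraliser. -/
def ch : List (ℕ × ℕ × ℕ × List (List ℕ)) := [(693, 2, 6, [[5, 4, 6, 5, 1, 0, 3, 4, 7, 3, 8, 7, 13, 3, 4, 8, 13, 3, 2, 1, 2, 4, 3, 7, 8, 13, 7, 3, 2, 4, 3, 13, 8, 4, 13, 3, 7, 4, 13, 3, 6], [3, 2, 4, 3, 5, 4, 6, 5, 0, 13, 8, 7, 3, 2, 7, 3, 4, 13, 3, 7, 4, 3, 6]]), (180, 1, 2, [[1, 0, 2, 1, 0, 3, 13, 8, 7, 3, 2, 7, 3, 13, 8, 7, 3, 13, 8, 3]]), (1, 4, 128, [[3, 8, 13, 7, 3, 2, 3, 7, 3, 13, 8, 3]]), (3, 3, 24, [[8]]), (181, 4, 24, [[4, 3, 8, 13, 7, 3, 4, 8, 7, 3, 2, 8, 7, 3, 13, 8, 3, 4, 13, 3, 7, 4, 13, 3, 4], [13, 4, 3, 13, 4, 8, 7, 3, 2, 7, 8, 4, 13, 3, 7, 13, 8, 7, 4, 3, 4,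 13]]), (694, 1, 2, [[6]])]

theorem low : 1769472 ≤ Nat.card (closW N22.π (chW ch)) := N22.act.chP_le (d := 8) (l := ch) (by decide +kernel)

theorem cm : allL (fun u => relP cf22 (cct u (cct (cct [6] [0]) [2])) (cct (cct (cct [6] [0]) [2]) u)) (chW ch) = true := by
  decide +kernel

/-- Let G be a finite group with trivial centre generated by a conjugation-invariant set D of 3-transpositions on which it acts primitively, such that for some d in D the subgroup generated by the members of D other than d commuting with d has central largest normal 2- and 3-subgroups, and suppose G with D is of type M(22). Then the centralizer of a product of three distinct pairwise commuting members of D has order 2^16 · 3^3. -/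
theorem result {G : Type*} [Group G] [Finite G] {D : Set G} (hD : Cfsg.IsThreeTranspositionGroup D) (hprim : Cfsg.IsPrimitiveUnderConj D) (d₀ : G) (hd₀ : d₀ ∈ D) (h3 : Cfsg.pCore 3 ↥(Subgroup.closure {y : G | y ∈ D ∧ y ≠ d₀ ∧ Commute d₀ y}) ≤ Subgroup.center ↥(Subgroup.closure {y : G | y ∈ D ∧ y ≠ d₀ ∧ Commute d₀ y})) (h2 : Cfsg.pCore 2 ↥(Subgroup.closure {y : G | y ∈ D ∧ y ≠ d₀ ∧ Commute d₀ y}) ≤ Subgroup.center ↥(Subgroup.closure {y : G | y ∈ D ∧ y ≠ d₀ ∧ Commute d₀ y})) (h22 : Cfsg.IsOfTypeM22 G D) (d₁ d₂ d₃ : G) (h₁ : d₁ ∈ D) (h₂ : d₂ ∈ D) (h₃ : d₃ ∈ D) (h12 : d₁ ≠ d₂) (h13 : d₁ ≠ d₃) (h23 : d₂ ≠ d₃) (c12 : Commute d₁ d₂) (c13 : Commute d₁ d₃) (c23 : Commute d₂ d₃) : Nat.card ↥(Subgroup.centralizer ({d₁ * d₂ * d₃} : Set G)) = 2 ^ 16 * 3 ^ 3 := by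
  obtain ⟨e, he⟩ := transfer22 hD h22
  let R : Rp cf22 N22.π L22.F G D := ⟨md22, mem22, e, he⟩
  obtain ⟨R, rfl, rfl, rfl⟩ := R.std3 (all22.2 3 le_rfl) h₁ h₂ h₃ h12 h13 h23 c12 c13 c23
  have cl := all22.1
  have hz : R.φ (R.t 693 * R.t 180 * R.t 0) = pr L22.F [693, 180, 0] := by simp [mul_assoc]
  have key : ∀ g ∈ centralizer {R.t 693 * R.t 180 * R.t 0},
      pr L22.F (List.map (R.φ g) [693, 180, 0]) = pr L22.F [693, 180, 0] := fun g hg => by
    rw [pr_map (R.φ_aut g), ← hz, ← map_inv, ← map_mul, ← map_mul, mem_centralizer_singleton_iff.mp hg,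
      mul_inv_cancel_right]
  refine le_antisymm ((R.card_orbit 693 (l := [693, 180, 0] ++ [21, 174, 175]) (fun g hg => ?_) (b := 2 * 147456)
    fun K hK => R.card_orbit 180 (l := [180, 0]) (fun g hg => ?_) fun L hL =>
      (R.card_le_gst (E := []) (by simp) fun g hg p hp => ?_).trans g22_abc).trans (by norm_num)) ?_
  · exact List.mem_append.mpr (noCen_hex.mem cl ((clq_map (R.φ_aut g)).mpr cl) le_rfl le_rfl (key g hg).symm _
      List.mem_cons_self)
  · have h := key g (hK g hg).1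
    rw [List.map_cons, pr_cons, pr_cons, (hK g hg).2, mul_right_inj] at h
    exact (uf22 le_rfl _ _ ((clq_map (R.φ_aut g)).mpr cl.tail) cl.tail rfl rfl h _).mp List.mem_cons_self
  · have h := key g (hK g (hL g hg).1).1
    simp only [List.map_cons, List.map_nil, pr_cons, pr_nil, (hK g (hL g hg).1).2, (hL g hg).2, mul_right_inj,
      mul_one] at h
    simp only [List.mem_cons, List.not_mem_nil, or_false] at hp
    rcases hp with hp | hp | hp
    exacts [(Fin.ext hp : p = 0) ▸ L22.F.inj h, (Fin.ext hp : p = 180) ▸ (hL g hg).2,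
      (Fin.ext hp : p = 693) ▸ (hK g (hL g hg).1).2]
  · refine low.trans (R.card_closW_le fun u hu => mem_centralizer_singleton_iff.mpr ?_)
    rw [R.t_a, R.t_b, R.t_c, ← R.w_cct, ← R.w_cct]
    exact R.w_comm (allL_iff.mp cm u hu)

end Cfsg.Agent.S5470
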