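import Cfsg.Statements.S5473
import Cfsg.Agent.H41.Transfer
import Cfsg.Agent.H45.FiE22
import Cfsg.Agent.H45.FiA22

set_option autoImplicit false
open Cfsg

namespace Cfsg.Agent.S5473

set_option maxRecDepth 1000000
set_option Elab.async false

open Cfsg.Agent.H41 Cfsg.Agent.H42 Cfsg.Agent.H45 Subgroup

/-- A symplectic basis. -/
def qw : List (List ℕ) := ew ++ [[6], [9, 1, 0, 2, 1, 3, 2, 4, 3, 5, 4, 6, 5, 3, 2, 1, 0, 4, 3, 2, 1, 0, 2, 3, 4, 7, 8, 13, 7, 3, 2, 3, 13, 8, 4, 3, 7, 4, 3, 13, 8, 3, 7, 4, 3, 4, 13]]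

theorem sbq : SbB cfx [6, 0] qw 5 2616 := by decide +kernel

theorem gw_c : ∀ i < 6, relP cfx (cct (nth gw i) [6, 0]) (cct [6, 0] (nth gw i)) = true := by decide +kernel

theorem qw_c : ∀ u ∈ [6, 0] :: qw, relP cfx (cct u [6, 0]) (cct [6, 0] u) = true := by decide +kernel

theorem gw_b : ∀ i < 6, blkB cfx.ap bk T6 64 (rfC T6 (nthD ws6 0 i)) (nth gw i) = true := by decide +kernel

theorem qw_b : allL (blkB cfx.ap bk T6 64 id) ([6, 0] :: qw) = true := by decide +kernel

theorem main {Γ : Type*} [Group Γ] (A : Ra cfx πx L22.F Γ)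
    (cN : Nat.card (centralizer {A.v [6, 0]}) ≤ 2048 * 51840) : ∃ Q : Subgroup Γ, IsLargeExtraspecial Q ∧
      Nat.card Q = 2 ^ 11 ∧ Q ≤ centralizer {A.v [6, 0]} ∧ ∃ θ : centralizer {A.v [6, 0]} →* O6, Function.Surjective θ ∧
      Q.subgroupOf _ = θ.ker ∧ generalizedFittingSubgroup _ = θ.ker := by
  have := A.finite
  have sb := A.sb (by norm_num) sbq
  have xs := sb.xs
  have c5 := sb.card
  have cm : ∀ {u}, relP cfx (cct u [6, 0]) (cct [6, 0] u) = true → A.v u ∈ centralizer {A.v [6, 0]} :=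
    fun h => mem_centralizer_singleton_iff.mpr (A.v_comm h)
  have m : ∀ i < 10, A.v (nth qw i) ∈ H60.xsG (A.v [6, 0]) (fun i => A.v (nth qw i)) 5 :=
    fun i hi => H60.SB.mem' _ _ hi
  have c7 : H60.xsG (A.v [6, 0]) (fun i => A.v (nth qw i)) 5 ≤ closure (A.v '' {u | u ∈ [6, 0] :: qw}) :=
    xsG_le (subset_closure ⟨_, by simp, rfl⟩) fun i hi => subset_closure
      ⟨_, (by decide : ∀ i < 10, nth qw i ∈ [6, 0] :: qw) i hi, rfl⟩
  generalize H60.xsG (A.v [6, 0]) (fun i => A.v (nth qw i)) 5 = Q at xs c5 m c7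
  obtain ⟨d1, -, θ, d2, d3⟩ := A.blk6 bk_inj (fun i hi => cm (gw_c i hi)) gw_b (fun u hu => cm (qw_c u hu)) qw_b c7
    c5.ge cN
  obtain ⟨e1, e2⟩ := fstar6 d2 d3 (xs.isPGroup.of_equiv (subgroupOfEquivOfLe d1).symm)
    (fun a ha b hb c _ => Subtype.ext (mem_centralizer_iff.mp ((H49.centralizer_zpowers' _).ge c.2) _
      (xs.commutator_mem ha hb))) (y := ⟨A.v [3, 4], cm (by decide +kernel)⟩) (a := ⟨_, d1 (m 0 (by norm_num))⟩)
    (b := ⟨_, d1 (m 1 (by norm_num))⟩) (Subtype.ext (A.v_pow (by decide +kernel))) (m 0 (by norm_num))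
    (m 1 (by norm_num)) fun h => A.not_comm (p := 2616) (by norm_num) (by decide +kernel) (congrArg Subtype.val h)
  have hn : (Q.subgroupOf (centralizer {A.v [6, 0]})).Normal := d3 ▸ inferInstance
  have lx : H49.LX Q (A.v [6, 0]) := ⟨xs, fun g hg => e1 (x := ⟨g, mem_centralizer_singleton_iff.mpr
    (hg _ xs.mem).symm⟩) fun y hy => Subtype.ext (hg y hy), (normal_subgroupOf_iff_le_normalizer d1).mp hn⟩
  have g1 : A.v [5, 6, 4, 1, 2, 0, 1, 5] * A.v [6, 0] * (A.v [5, 6, 4, 1, 2, 0, 1, 5])⁻¹ = A.v (nth qw 0) :=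
    A.v_conj (by decide +kernel)
  have g2 : A.v [5, 6, 4, 1, 2, 0, 1, 5] * A.v (nth qw 0) * (A.v [5, 6, 4, 1, 2, 0, 1, 5])⁻¹ = A.v [6, 0] :=
    A.v_conj (by decide +kernel)
  exact ⟨Q, lx.large_of_mem_cj (g1 ▸ m 0 (by norm_num)) (g1 ▸ A.v_ne (b := 2616) (by norm_num) (by decide +kernel))
    (g2 ▸ H49.conj_mem_cj _ (m 0 (by norm_num))), c5, d1, θ, d2, d3, e2.trans d3⟩

/-- Let G be a finite group with trivial centre generated by a conjugation-invariant set D of 3-transpositions on which it acts primitively, such that for some d in D the subgroup generated by the members of D other than d commuting with d has central largest normal 2- and 3-subgroups, and suppose G with D is of type M(22), and let A be the automorphism group of G. Let d₁, d₂ be distinct commuting members of D and j the inner automorphism of their product. Then the generalized Fitting subgroup Q of the centralizer of j in A is a large extraspecial 2-subgroup of A of order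 2^11 (extraspecial; centralizer equal to its centre; normal in the centralizer of its centre; normalizing no non-trivial odd-order subgroup), and the centralizer of j modulo Q is isomorphic to the full automorphism group of the projective special unitary group of dimension 4 over the field with four elements. -/
theorem result {G : Type*} [Group G] [Finite G] {D : Set G} (hD : Cfsg.IsThreeTranspositionGroup D) (hprim : Cfsg.IsPrimitiveUnderConj D) (d₀ : G) (hd₀ : d₀ ∈ D) (h3 : Cfsg.pCore 3 ↥(Subgroup.closure {y : G | y ∈ D ∧ y ≠ d₀ ∧ Commute d₀ y}) ≤ Subgroup.center ↥(Subgroup.closure {y : G | y ∈ D ∧ y ≠ d₀ ∧ Commute d₀ y})) (h2 : Cfsg.pCore 2 ↥(Subgroup.closure {y : G | y ∈ D ∧ y ≠ d₀ ∧ Commute d₀ y}) ≤ Subgroup.center ↥(Subgroup.closure {y : G | y ∈ D ∧ y ≠ d₀ ∧ Commute d₀ y})) (h22 : Cfsg.IsOfTypeM22 G D) (d₁ d₂ : G) (h₁ : d₁ ∈ D) (h₂ : d₂ ∈ D) (hne : d₁ ≠ d₂) (hc : Commute d₁ d₂) (j : MulAut G) (hj : j = MulAut.conj (d₁ * d₂)) (Q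 : Subgroup (MulAut G)) (hQ : Q = (Cfsg.generalizedFittingSubgroup ↥(Subgroup.centralizer ({j} : Set (MulAut G)))).map (Subgroup.centralizer ({j} : Set (MulAut G))).subtype) : Cfsg.IsLargeExtraspecial Q ∧ Nat.card Q = 2 ^ 11 ∧ Q ≤ Subgroup.centralizer ({j} : Set (MulAut G)) ∧ ∃ (_ : (Q.subgroupOf (Subgroup.centralizer ({j} : Set (MulAut G)))).Normal) (F : Type) (_ : Field F) (_ : Fintype F), Fintype.card F = 4 ∧ Nonempty (↥(Subgroup.centralizer ({j} : Set (MulAut G))) ⧸ Q.subgroupOf (Subgroup.centralizer ({j} : Set (MulAut G))) ≃* MulAut (Cfsg.PSU 4 F 2)) := by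
  obtain ⟨e, he⟩ := transfer22 hD h22
  let R : Rp cf22 N22.π L22.F G D := ⟨md22, mem22, e, he⟩
  obtain ⟨R, rfl, rfl⟩ := R.std2 (H60.all22.2 2 (by simp)) h₁ h₂ hne hc
  have := R.rx.finite
  have cN : Nat.card (centralizer {j}) ≤ 2048 * 51840 := (card_le_two R.index_inn _).trans (by
    refine (Nat.mul_le_mul_left 2 (le_trans ?_ R.cab.2.2.2)).trans (by norm_num)
    rw [← card_map_of_injective R.conj_inj]
    refine card_le_of_le ?_
    rintro _ ⟨⟨g, rfl⟩, hg⟩
    exact ⟨g, mem_centralizer_singleton_iff.mpr (R.conj_inj (by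
      rw [map_mul _ g, map_mul _ _ g, ← hj]; exact mem_centralizer_singleton_iff.mp hg)), rfl⟩)
  rw [R.t_ab, ← R.rx_w (by decide)] at hj
  subst hj
  obtain ⟨Q', a1, a2, a3, θ, a4, a5, a6⟩ := main R.rx cN
  obtain rfl : Q = Q' := by rw [hQ, a6, ← a5, map_subgroupOf_eq_of_le a3]
  obtain ⟨F, _, _, hF, ⟨o⟩⟩ := o6_aut
  have hn : (Q.subgroupOf (centralizer {R.rx.v [6, 0]})).Normal := a5 ▸ inferInstance
  exact ⟨a1, a2, a3, hn, F, _, _, hF, (H60.quot_of_ker a4 a5.symm).map fun f => f.trans o⟩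

end Cfsg.Agent.S5473
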