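import Cfsg.Statements.S5516
import Cfsg.Agent.H99.FiO8C

set_option autoImplicit false
open Cfsg

namespace Cfsg.Agent.S5516

/-- PΩ⁺(8, 3) (the commutator subgroup of the isometry group of the hyperbolic quadratic form in dimension 8 over the field with three elements, modulo its centre) has exactly 13 conjugacy classes of subgroups of order 3; and a finite group G whose generalized Fitting subgroup L is isomorphic to PΩ⁺(8, 3) with G/L the symmetric group of degree 3 has exactly 7 orbits, under conjugation, on the subgroups of L of order 3. -/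
theorem result {G : Type*} [Group G] [Finite G] (L : Subgroup G) (hL : L = Cfsg.generalizedFittingSubgroup G) (hF : Nonempty (↥L ≃* Cfsg.POmega (ZMod 3) (Cfsg.quadFormPlus 4 (ZMod 3)))) [hn : L.Normal] (hq : Nonempty (G ⧸ L ≃* Equiv.Perm (Fin 3))) : (∃ Y : Fin 13 → Subgroup (Cfsg.POmega (ZMod 3) (Cfsg.quadFormPlus 4 (ZMod 3))), (∀ i, Nat.card (Y i) = 3) ∧ (∀ i j, (∃ g : Cfsg.POmega (ZMod 3) (Cfsg.quadFormPlus 4 (ZMod 3)), (Y i).map (MulAut.conj g).toMonoidHom = Y j) → i = j) ∧ (∀ X : Subgroup (Cfsg.POmega (ZMod 3) (Cfsg.quadFormPlus 4 (ZMod 3))), Nat.card X = 3 → ∃ i, ∃ g : Cfsg.POmega (ZMod 3) (Cfsg.quadFormPlus 4 (ZMod 3)), X.map (MulAut.conj g).toMonoidHom = Y i)) ∧ ∃ Y : Fin 7 → Subgroup G, (∀ i, Y i ≤ L ∧ Nat.card (Y i) = 3) ∧ (∀ i j, (∃ g : G, (Y i).map (MulAut.conj g).toMonoidHom = Y j) → i = j) ∧ ∀ X : Subgroup G, X ≤ L → Nat.card X = 3 → ∃ i, ∃ g : G, X.map (MulAut.conj g).toMonoidHom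 = Y i := by
  obtain ⟨e0⟩ := H99.N8_equiv
  refine ⟨⟨_, (H99.cl13.map e0).subgroups⟩, ?_⟩
  subst hL
  obtain ⟨e⟩ := hF
  obtain ⟨hN, ⟨e1⟩, h2, h3⟩ := H99.tri8
  obtain ⟨f, hf⟩ := H99.ext_unique H99.out_PO8 _ _ e1 e h3 (H99.centralizer_fstar_eq_bot H99.center_PO8 e)
    (H99.card_of_equiv_perm_three h2) (H99.card_of_equiv_perm_three hq)
  have hle := H99.N8_le_R8.trans H99.R8_le_L8
  let u : Fin 7 → H99.L8 := fun i => ⟨_, hle (H99.K7_cl.1 i).1⟩
  have ho : ∀ i, orderOf (f (u i)) = 3 := fun i => by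
    rw [f.orderOf_eq, ← Subgroup.orderOf_coe]; exact (H99.K7_cl.1 i).2.1
  refine ⟨fun i => Subgroup.zpowers (f (u i)), fun i => ⟨Subgroup.zpowers_le.2 (hf.le ⟨_, (H99.K7_cl.1 i).1, rfl⟩),
    by rw [Nat.card_zpowers, ho]⟩, fun i j ⟨g, hg⟩ => ?_, fun X hX hc => ?_⟩
  · obtain ⟨g, rfl⟩ := f.surjective g
    rw [H47.map_conj_zpowers, ← map_inv, ← map_mul, ← map_mul] at hg
    rcases H47.eq_or_inv_of_zpowers_eq (ho j) hg with h | h
    · exact H99.nc7 g.2 (congrArg Subtype.val (f.injective h))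
    · obtain ⟨k, hk, h1⟩ := (H99.K7_cl.1 j).2.2
      have h4 : g.1 * (u i).1 * g.1⁻¹ = (u j).1⁻¹ := congrArg Subtype.val (f.injective (h.trans (map_inv f _).symm))
      refine H99.nc7 (mul_mem (inv_mem (hle hk)) g.2) ?_
      change k⁻¹ * g.1 * (u i).1 * (k⁻¹ * g.1)⁻¹ = (u j).1
      rw [show k⁻¹ * g.1 * (u i).1 * (k⁻¹ * g.1)⁻¹ = k⁻¹ * (g.1 * (u i).1 * g.1⁻¹) * k by group, h4,
        ← show k * (u j).1 * k⁻¹ = (u j).1⁻¹ from h1]
      group
  · obtain ⟨y, hy, rfl⟩ := H47.exists_zpowers_of_card_three hc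
    obtain ⟨y, h4, rfl⟩ := hf.ge (hX (Subgroup.mem_zpowers y))
    obtain ⟨i, j, g, hg, h5⟩ := H99.cover21 h4 ((Subgroup.orderOf_coe y).trans ((f.orderOf_eq y).symm.trans hy))
    rw [H99.wp_cw3] at h5
    refine ⟨i, f (⟨_, mul_mem (hle hg) (H99.t3_mem j)⟩ : H99.L8)⁻¹, ?_⟩
    rw [H47.map_conj_zpowers, MulEquiv.coe_toMonoidHom, ← map_inv, ← map_mul, ← map_mul]
    refine congrArg _ (congrArg f (Subtype.ext ?_))
    simp only [Subgroup.coe_mul, Subgroup.coe_inv, ← show _ = y.1 from h5, u]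
    group

end Cfsg.Agent.S5516
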