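import Cfsg.Statements.S5518
import Cfsg.Agent.H41.Transfer
import Cfsg.Agent.H45.FiD24
import Cfsg.Agent.H45.FiG2

set_option autoImplicit false
set_option maxRecDepth 1000000
open Cfsg

namespace Cfsg.Agent.S5518

open Subgroup H45 H41

theorem norm_cent {G : Type*} [Group G] [Finite G] (U : Subgroup G) :
    normalizer (U : Set G) ≤ normalizer (centralizer (U : Set G) : Set G) := fun n hn =>
  mem_normalizer_fintype fun c hc u hu => by
    have := hc _ ((mem_normalizer_iff.mp (inv_mem hn) u).mp hu)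
    calc u * (n * c * n⁻¹) = n * (n⁻¹ * u * n⁻¹⁻¹ * c) * n⁻¹ := by group
      _ = n * c * n⁻¹ * u := by rw [this]; group

theorem inf_bot {G : Type*} [Group G] {F S T : Subgroup G} (e : S ≃* Equiv.Perm (Fin 3)) (e' : T ≃* Equiv.Perm (Fin 3))
    (h : ∀ x ∈ S, ∀ y ∈ T, x * y = y * x) (hc : ∀ x ∈ F, ∀ y ∈ S ⊔ T, x * y = y * x) : F ⊓ (S ⊔ T) = ⊥ := by
  refine eq_bot_iff.mpr fun g hg => ?_
  obtain ⟨a, ha, b, hb, rfl⟩ := (H68.mem_sup_of_le_normalizer (fun y hy => cent_le_norm S fun x hx => h x hx y hy)).mp hg.2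
  have h1 : a ∈ zpowers a ⊓ S := ⟨mem_zpowers a, ha⟩
  have h2 : b ∈ zpowers b ⊓ T := ⟨mem_zpowers b, hb⟩
  rw [inf_eq_bot_of_perm (k := 0) e fun x hx y hy => (mem_cent_zpowers.mpr (by
    have := hc _ hg.1 y (mem_sup_left hy)
    rw [mul_assoc, ← h y hy b hb, ← mul_assoc, ← mul_assoc] at this
    exact (mul_right_cancel this).symm) x hx)] at h1
  rw [inf_eq_bot_of_perm (k := 0) e' fun x hx y hy => (mem_cent_zpowers.mpr (by
    have := hc _ hg.1 y (mem_sup_right hy)
    rw [← mul_assoc y, ← h a ha y hy, mul_assoc, mul_assoc] at this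
    exact (mul_left_cancel this).symm) x hx)] at h2
  rw [mem_bot.mp h1, mem_bot.mp h2, mul_one]
  exact one_mem _

variable {G : Type*} [Group G] {D : Set G} (R : Rp cf24 N24.π L24.F G D)

theorem s3 {p q : Fin 306936} (h : q ∉ L24.F.cl p) :
    Nonempty (closure ({R.t p, R.t q} : Set G) ≃* Equiv.Perm (Fin 3)) := by
  obtain ⟨ψ, h1, h2, -⟩ := exists_perm_equiv (k := 0) (fun i => if i = 0 then R.t p else R.t q)
    (fun i _ => by split_ifs <;> exact R.t_sq _) (fun i hi => by
      obtain rfl : i = 0 := by omega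
      exact R.t_braid h) (fun j hj i hi => by omega)
    (fun h1 => h (by rw [R.t_inj h1]; exact FS.self_mem_cl _)) (by simp)
  refine ⟨(MulEquiv.subgroupCongr (h2.trans (congrArg Subgroup.closure ?_)).symm).trans (MonoidHom.ofInjective h1).symm⟩
  ext x
  constructor
  · rintro ⟨i, -, rfl⟩
    dsimp only
    split_ifs <;> simp
  · rintro (rfl | rfl)
    exacts [⟨0, by simp, rfl⟩, ⟨1, by simp, rfl⟩]

theorem adj {w : List ℕ} {p q : Fin 306936} (h : pW cf24.pp w cf24.O = p) (h' : adjW cf24 w q = true) :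
    Commute (R.t p) (R.t q) := R.t_comm_t.mpr ((R.M.adjW_iff h q).mp h')

theorem nadj {w : List ℕ} {p q : Fin 306936} (h : pW cf24.pp w cf24.O = p) (h' : adjW cf24 w q = false) :
    q ∉ L24.F.cl p := by rw [← md24.adjW_iff h, h']; simp

theorem third {w : List ℕ} {p q r : Fin 306936} (h : pW cf24.pp w cf24.O = p)
    (h' : pW cf24.pp (tw cf24.o w) q = r) : R.t r = R.t p * R.t q * (R.t p)⁻¹ := by
  rw [R.conj_t, R.φ_t, R.M.T_eq h, R.M.apply_eq h']

/-- A word. -/
def wb : List ℕ := [9, 12, 13, 9, 10, 11, 13, 10]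

/-- A word. -/
def wc : List ℕ := [12, 13, 9, 10, 11, 13, 10]

/-- A word. -/
def wn : List ℕ := [9, 12, 13, 9, 10, 11, 13, 10, 9, 12, 13, 9, 2, 8, 7, 3, 4, 13, 3, 2, 1, 8, 13, 3, 2, 7, 8, 13, 3, 4, 5, 0, 2, 3, 7, 3, 13, 3, 4, 8, 7, 3, 2, 1, 0, 2, 3, 13, 7, 3, 4, 8, 13, 3, 2, 13, 3, 7, 4, 3, 13, 8, 7, 13, 6]

theorem nad : (162787 : Fin 306936) ∉ L24.F.cl 31671 := nadj (w := []) rfl (by decide +kernel)
theorem nbc : (17861 : Fin 306936) ∉ L24.F.cl 3510 := nadj (w := wb) (by decide +kernel) (by decide +kernel)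
theorem cab : Commute (R.t 31671) (R.t 3510) := adj R (w := []) rfl (by decide +kernel)
theorem cac : Commute (R.t 31671) (R.t 17861) := adj R (w := []) rfl (by decide +kernel)
theorem cdb : Commute (R.t 162787) (R.t 3510) := (adj R (w := wb) (by decide +kernel) (by decide +kernel)).symm
theorem cdc : Commute (R.t 162787) (R.t 17861) := (adj R (w := wc) (by decide +kernel) (by decide +kernel)).symm

theorem mem_K {g : G} : g ∈ centralizer (closure ({R.t 31671, R.t 3510, R.t 17861, R.t 162787} : Set G) : Set G) ↔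
    ∀ p : Fin 306936, (p : ℕ) ∈ [162787, 31671, 17861, 3510] → R.φ g p = p := by
  simp only [mem_cent_closure, Set.mem_insert_iff, Set.mem_singleton_iff, forall_eq_or_imp, forall_eq, R.comm_t]
  refine ⟨fun h p hp => ?_, fun h => ⟨h _ (by decide), h _ (by decide), h _ (by decide), h _ (by decide)⟩⟩
  simp only [List.mem_cons, List.not_mem_nil, or_false] at hp
  rcases hp with hp | hp | hp | hp
  · rw [(Fin.ext hp : p = 162787)]; exact h.2.2.2
  · rw [(Fin.ext hp : p = 31671)]; exact h.1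
  · rw [(Fin.ext hp : p = 17861)]; exact h.2.2.1
  · rw [(Fin.ext hp : p = 3510)]; exact h.2.1

theorem key {T K B : Subgroup G} (hT : T = closure ({R.t 31671, R.t 3510, R.t 17861, R.t 162787} : Set G))
    (hK : K = centralizer (T : Set G)) (hB : B = zpowers (R.w x13)) :
    normalizer (B : Set G) ≤ normalizer (K : Set G) ∧ Nat.card ↥(K ⊓ normalizer (B : Set G)) = 78 ∧
      K ⊓ centralizer (B : Set G) = B ∧
      (((K ⊓ normalizer (B : Set G)) ⊔ T).subgroupOf (normalizer (B : Set G))).index = 2 := by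
  have := R.finite
  obtain ⟨e1⟩ := s3 R nad
  obtain ⟨e2⟩ := s3 R nbc
  have hc : ∀ x ∈ closure ({R.t 31671, R.t 162787} : Set G), ∀ y ∈ closure ({R.t 3510, R.t 17861} : Set G),
      x * y = y * x := fun x hx y hy => (mem_cent_closure.mpr (by
        rintro _ (rfl | rfl) <;> refine (mem_cent_closure.mpr ?_ y hy) <;> rintro _ (rfl | rfl)
        exacts [cab R, cac R, cdb R, cdc R]) x hx)
  have hT2 : T = closure ({R.t 31671, R.t 162787} : Set G) ⊔ closure ({R.t 3510, R.t 17861} : Set G) := by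
    rw [hT, ← Subgroup.closure_union]
    congr 1
    ext; simp only [Set.mem_insert_iff, Set.mem_singleton_iff, Set.mem_union]; tauto
  have hi := inf_eq_bot_of_perm (k := 0) e2 hc
  have c1 : Nat.card T = 36 := by
    rw [hT2, card_sup_of_comm hi hc, card_of_perm e1, card_of_perm e2]; rfl
  have hT3 : closure (D ∩ (centralizer (B : Set G) : Set G)) = T := by
    have m : ∀ p, R.t p ∈ ({R.t 31671, R.t 3510, R.t 17861, R.t 162787} : Set G) → R.t p ∈ T := fun p hp =>
      hT ▸ subset_closure hp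
    refine le_antisymm ((closure_le _).mpr fun d hd => ?_) (hT ▸ closure_mono ?_)
    · obtain ⟨q, hq, rfl⟩ := (R.mem_D_cent fx24_13).mp (hB ▸ hd)
      simp only [l24_13, List.mem_cons, List.not_mem_nil, or_false] at hq
      rcases hq with hq | hq | hq | hq | hq | hq
      · rw [(Fin.ext hq : q = 3510)]; exact m _ (by simp)
      · rw [(Fin.ext hq : q = 3781), third R (w := wb) (p := 3510) (q := 17861) (by decide +kernel) (by decide +kernel)]
        exact T.mul_mem (T.mul_mem (m _ (by simp)) (m _ (by simp))) (T.inv_mem (m _ (by simp)))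
      · rw [(Fin.ext hq : q = 17861)]; exact m _ (by simp)
      · rw [(Fin.ext hq : q = 31671)]; exact m _ (by simp)
      · rw [(Fin.ext hq : q = 162787)]; exact m _ (by simp)
      · rw [(Fin.ext hq : q = 300419), third R (w := []) (p := 31671) (q := 162787) rfl (by decide +kernel)]
        exact T.mul_mem (T.mul_mem (m _ (by simp)) (m _ (by simp))) (T.inv_mem (m _ (by simp)))
    · rw [hB]
      rintro _ (rfl | rfl | rfl | rfl) <;> exact (R.mem_D_cent fx24_13).mpr ⟨_, by decide, rfl⟩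
  have kx : R.w x13 ∈ K := by
    rw [hK, hT, mem_K]
    exact fun p hp => R.φ_w_apply
      ((by decide +kernel : ∀ p ∈ [162787, 31671, 17861, 3510], pW cf24.pp x13 p = p) p hp)
  have kf : R.w f13 ∈ K := by
    rw [hK, hT, mem_K]
    exact fun p hp => R.φ_w_apply
      ((by decide +kernel : ∀ p ∈ [162787, 31671, 17861, 3510], pW cf24.pp f13 p = p) p hp)
  have kc : ∀ g ∈ K, ∀ y ∈ T, g * y = y * g := fun g hg y hy => ((hK ▸ hg) y hy).symm
  have h := fr24_13 R
  obtain ⟨-, -, a3, a4⟩ := h.rowB (kc _ kx) (kc _ kf) c1 (by norm_num)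
  have a5 := card_norm_le_of_sylow (j := 4) (j0 := 2) h.hp h.card_X (R.card_G.trans L24.card_grp) (by norm_num) a3 a4
    ((card_norm_le h.hp h.card_X ((R.card_cent x13).trans g24_13)).trans (by norm_num)) (by decide)
  have a6 : zpowers (R.w x13) ⊔ zpowers (R.w f13) ≤ K ⊓ normalizer (B : Set G) :=
    le_inf (sup_le (zpowers_le.mpr kx) (zpowers_le.mpr kf)) (hB ▸ h.F_le)
  rw [← hB] at a3 a4 a5 a6
  have a7 : K ⊓ normalizer (B : Set G) ⊓ T = ⊥ :=
    hT2 ▸ inf_bot e1 e2 hc fun x hx y hy => kc x hx.1 y (hT2 ▸ hy)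
  have a8 : R.w wn ∉ (K ⊓ normalizer (B : Set G)) ⊔ T := fun h1 => by
    have h2 : (K ⊓ normalizer (B : Set G)) ⊔ T ≤ normalizer (closure ({R.t 31671, R.t 162787} : Set G) : Set G) :=
      sup_le (fun g hg => cent_le_norm _ fun y hy => (kc g hg.1 y (hT2 ▸ mem_sup_left hy)).symm)
        (hT2 ▸ sup_le le_normalizer fun g hg => cent_le_norm _ fun y hy => hc y hy g hg)
    have h3 := (mem_normalizer_iff.mp (h2 h1) (R.t 31671)).mp (subset_closure (by simp))
    rw [R.conj_t, R.φ_w_apply (q := 3510) (by decide +kernel)] at h3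
    exact R.t_ne_one nbc (mem_bot.mp (hi ▸ mem_inf.mpr ⟨h3, subset_closure (by simp)⟩))
  obtain ⟨b1, b2⟩ := eq_of_index (sup_le_sup_right a6 T) (sup_le inf_le_right (le_sup_right.trans a3))
    a4 a5 (two_le_index (hB ▸ R.nrm1 (r := 2) (by decide +kernel)) a8)
  have b3 := card_sup_of_comm a7 fun x hx => kc x hx.1
  rw [← b1, a4, c1] at b3
  have b4 : Nat.card ↥(K ⊓ normalizer (B : Set G)) = 78 := by omega
  have b5 := eq_of_le_of_card_ge a6 (by rw [b4, hB, h.card_F])
  refine ⟨fun n hn => ?_, b4, ?_, b2⟩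
  · rw [hK, ← hT3]
    refine norm_cent _ (mem_norm_closure ?_)
    rintro x ⟨hx, hx'⟩
    obtain ⟨p, rfl⟩ := R.mem_D.mp hx
    refine subset_closure ⟨R.conj_t n p ▸ R.t_mem _, ?_⟩
    exact (mem_normalizer_iff.mp (norm_cent _ hn) _).mp hx'
  · rw [← inf_eq_right.mpr (cent_le_norm B), ← inf_assoc, ← b5, hB, h.inf_cent]

/-- Let G be a finite group with trivial centre generated by a conjugation-invariant set D of 3-transpositions on which it acts primitively, such that for some d in D the subgroup generated by the members of D other than d commuting with d has central largest normal 2- and 3-subgroups, and suppose G with D is of type M(24). Then any two subgroups of order 13 are conjugate; and there are members a, b, c, d of D generating the direct product T of two symmetric groups of degree 3 (a, d non-commuting; b, c non-commuting; b and c commuting with a and d) whose centralizer K is isomorphic to the Chevalley group G₂(3), such that for every subgroup B of K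 of order 13: the normalizer of B lies in the normalizer of K, the normalizer F of B in K is a Frobenius group of order 78 with kernel B (order 78, centralizer of B in it equal to B), and the subgroup generated by F and T has index 2 in the normalizer of B. -/
theorem result {G : Type*} [Group G] [Finite G] {D : Set G} (hD : Cfsg.IsThreeTranspositionGroup D) (hprim : Cfsg.IsPrimitiveUnderConj D) (d₀ : G) (hd₀ : d₀ ∈ D) (h3 : Cfsg.pCore 3 ↥(Subgroup.closure {y : G | y ∈ D ∧ y ≠ d₀ ∧ Commute d₀ y}) ≤ Subgroup.center ↥(Subgroup.closure {y : G | y ∈ D ∧ y ≠ d₀ ∧ Commute d₀ y})) (h2 : Cfsg.pCore 2 ↥(Subgroup.closure {y : G | y ∈ D ∧ y ≠ d₀ ∧ Commute d₀ y}) ≤ Subgroup.center ↥(Subgroup.closure {y : G | y ∈ D ∧ y ≠ d₀ ∧ Commute d₀ y})) (h24 : Cfsg.IsOfTypeM24 G D) : (∀ X Y : Subgroup G, Nat.card X = 13 → Nat.card Y = 13 → ∃ g : G, X.map (MulAut.conj g).toMonoidHom = Y) ∧ ∃ (a b c d : G) (T K : Subgroup G), (∀ x ∈ [a, b, c, d], x ∈ D) ∧ ¬ Commute a d ∧ ¬ Commute b c ∧ Commute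 a b ∧ Commute a c ∧ Commute d b ∧ Commute d c ∧ T = Subgroup.closure ({a, b, c, d} : Set G) ∧ K = Subgroup.centralizer (T : Set G) ∧ Nonempty (↥K ≃* ↥(Cfsg.Lie.chevG2.group (ZMod 3))) ∧ ∀ B : Subgroup G, B ≤ K → Nat.card B = 13 → Subgroup.normalizer ((B : Subgroup G) : Set G) ≤ Subgroup.normalizer ((K : Subgroup G) : Set G) ∧ Nat.card ↥(K ⊓ Subgroup.normalizer ((B : Subgroup G) : Set G)) = 78 ∧ K ⊓ Subgroup.centralizer ((B : Subgroup G) : Set G) = B ∧ (((K ⊓ Subgroup.normalizer ((B : Subgroup G) : Set G)) ⊔ T).subgroupOf (Subgroup.normalizer ((B : Subgroup G) : Set G))).index = 2 := by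
  obtain ⟨e, he⟩ := H41.transfer24 hD hprim h24
  let R : Rp cf24 N24.π L24.F G D := ⟨md24, mem24, e, he⟩
  refine ⟨R.conj_p (p := 13) (by norm_num) L24.card_grp (by norm_num), R.t 31671, R.t 3510, R.t 17861, R.t 162787,
    _, _, by simp [R.t_mem], fun h => nad (R.t_comm_t.mp h), fun h => nbc (R.t_comm_t.mp h), cab R, cac R, cdb R,
    cdc R, rfl, rfl, R.g2 fun _ => mem_K R, fun B hB hc => ?_⟩
  obtain ⟨e2⟩ := R.g2 fun _ => mem_K R
  have kx := (mem_K R).mpr fun p hp => R.φ_w_apply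
    ((by decide +kernel : ∀ p ∈ [162787, 31671, 17861, 3510], pW cf24.pp x13 p = p) p hp)
  obtain ⟨k, hk⟩ := conj_of_prime (p := 13) (by norm_num)
    (by rw [Nat.card_congr e2.toEquiv, card_g2]; norm_num) ((zpowers (R.w x13)).subgroupOf _) (B.subgroupOf _)
    (by rw [Nat.card_congr (subgroupOfEquivOfLe (zpowers_le.mpr kx)).toEquiv, (fr24_13 R).card_X])
    (by rw [Nat.card_congr (subgroupOfEquivOfLe hB).toEquiv, hc])
  have ht : ∀ p : Fin 306936, (p : ℕ) ∈ [162787, 31671, 17861, 3510] → (R.twist k).t p = R.t p := fun p hp =>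
    (R.conj_t k p).trans (congrArg R.t ((mem_K R).mp k.2 p hp))
  refine key (R.twist k) (by rw [ht _ (by decide), ht _ (by decide), ht _ (by decide), ht _ (by decide)]) rfl ?_
  symm
  refine eq_of_le_of_card_ge (zpowers_le.mpr ?_) (by rw [hc, (fr24_13 _).card_X])
  have : (MulAut.conj k).toMonoidHom ⟨_, kx⟩ ∈ B.subgroupOf _ := hk ▸ mem_map_of_mem _ (mem_zpowers _)
  exact this

end Cfsg.Agent.S5518
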