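import Cfsg.Statements.S5519
import Cfsg.Agent.H41.Transfer
import Cfsg.Agent.H45.FiE22
import Cfsg.Agent.H99.FiGen

set_option autoImplicit false
open Cfsg

namespace Cfsg.Agent.S5519

open Cfsg.Agent.H41 Cfsg.Agent.H45 Subgroup

/-- Let G be a finite group with trivial centre generated by a conjugation-invariant set D of 3-transpositions on which it acts primitively, such that for some d in D the subgroup generated by the members of D other than d commuting with d has central largest normal 2- and 3-subgroups, and suppose G with D is of type M(22). Let d₁, d₂ be distinct commuting members of D and C the centralizer of their product. Then the generalized Fitting subgroup of C is the direct product of a group of order 2 and an extraspecial 2-group of order 2^9, and C modulo it is isomorphic to the full isometry group of the elliptic quadratic form in dimension 6 over the field with two elements. -/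
theorem result {G : Type*} [Group G] [Finite G] {D : Set G} (hD : Cfsg.IsThreeTranspositionGroup D) (hprim : Cfsg.IsPrimitiveUnderConj D) (d₀ : G) (hd₀ : d₀ ∈ D) (h3 : Cfsg.pCore 3 ↥(Subgroup.closure {y : G | y ∈ D ∧ y ≠ d₀ ∧ Commute d₀ y}) ≤ Subgroup.center ↥(Subgroup.closure {y : G | y ∈ D ∧ y ≠ d₀ ∧ Commute d₀ y})) (h2 : Cfsg.pCore 2 ↥(Subgroup.closure {y : G | y ∈ D ∧ y ≠ d₀ ∧ Commute d₀ y}) ≤ Subgroup.center ↥(Subgroup.closure {y : G | y ∈ D ∧ y ≠ d₀ ∧ Commute d₀ y})) (h22 : Cfsg.IsOfTypeM22 G D) (d₁ d₂ : G) (h₁ : d₁ ∈ D) (h₂ : d₂ ∈ D) (hne : d₁ ≠ d₂) (hc : Commute d₁ d₂) (C : Subgroup G) (hC : C = Subgroup.centralizer ({d₁ * d₂} : Set G)) [hn : (Cfsg.generalizedFittingSubgroup ↥C).Normal] : (∃ (E : Type) (_ : Group E) (_ : Finite E), Cfsg.IsExtraspecial 2 E ∧ Nat.card E = 2 ^ 9 ∧ Nonempty (↥(Cfsg.generalizedFittingSubgroup ↥C) ≃* Multiplicative (ZMod 2) × E)) ∧ Nonempty (↥C ⧸ Cfsg.generalizedFittingSubgroup ↥C ≃* Cfsg.isometryGroup (ZMod 2) (Cfsg.quadFormMinus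 2 (ZMod 2) 1 1)) := by
  obtain ⟨e, he⟩ := transfer22 hD h22
  let R : Rp cf22 N22.π L22.F G D := ⟨md22, mem22, e, he⟩
  obtain ⟨R, rfl, rfl⟩ := R.std2 (H60.all22.2 2 (by simp)) h₁ h₂ hne hc
  subst hC
  obtain ⟨E0, E, xs, c1, c2, c3, b1, b2, b3, -, b5, θ, b6, b7, b8⟩ := R.eab
  obtain ⟨f⟩ := H99.equiv_two_prod (R.t_sq 693) c2 c3 b1 b2 (by rw [b3, c1]; norm_num)
  exact ⟨⟨E0.map R.φ, inferInstance, inferInstance, (xs.map R.φ R.φ_inj).isExtraspecial,
    (card_map_of_injective R.φ_inj).trans c1, ⟨(MulEquiv.subgroupCongr (b8.trans b7.symm)).trans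
      ((subgroupOfEquivOfLe b5).trans (f.trans ((MulEquiv.refl _).prodCongr (E0.equivMapOfInjective _ R.φ_inj))))⟩⟩,
    H60.quot_of_ker b6 b8.symm⟩

end Cfsg.Agent.S5519
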