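import Cfsg.Statements.S5521
import Cfsg.Agent.H42.Six

set_option autoImplicit false
set_option maxRecDepth 1000000
open Cfsg

namespace Cfsg.Agent.S5521

open Cfsg.Agent.H42

/-- The Mathieu group M₂₄ in its natural action on the 24 coordinate positions of the binary Golay code has minimal base size exactly 7: every set of at most 6 positions is fixed pointwise by some non-identity element of M₂₄, while some set of 7 positions is fixed pointwise only by the identity. -/
theorem result :
    (∀ B : Finset Cfsg.GolayPt, B.card ≤ 6 → ∃ g ∈ Cfsg.M24, g ≠ 1 ∧ ∀ b ∈ B, g b = b) ∧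
    (∃ B : Finset Cfsg.GolayPt, B.card = 7 ∧ ∀ g ∈ Cfsg.M24, (∀ b ∈ B, g b = b) → g = 1) := by
  constructor
  · intro B hB
    obtain ⟨E, hBE, -, hE⟩ := Finset.exists_subsuperset_card_eq (Finset.subset_univ B) hB
      (by rw [Finset.card_univ, card_pt]; norm_num)
    have h1 : fixingSubgroup M24 (E : Set GolayPt) ≠ ⊥ := fun h => by
      by_cases ho : ∃ o ∈ octads, E ⊆ o
      · have := card_fixing_six_in hE ho
        rw [h, Subgroup.card_bot] at this
        omega
      · have := card_fixing_six_out hE ho
        rw [h, Subgroup.card_bot] at this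
        omega
    obtain ⟨g, hg⟩ := (Subgroup.ne_bot_iff_exists_ne_one).mp h1
    exact ⟨g, g.1.2, fun e => hg (Subtype.ext (Subtype.ext e)), fun b hb => g.2 ⟨b, hBE hb⟩⟩
  · refine ⟨toSet 8388671, by rw [card_toSet (by norm_num)]; decide +kernel, fun g hg h => ?_⟩
    have h1 : Nat.card (fixS 8388671) ≤ 1 := card_le_of_fixBd [] _ (fun _ _ _ h => by simp at h)
      baseSteps 8388671 1 le_rfl one_ne_zero (by decide +kernel)
    have h2 : (⟨g, hg⟩ : M24) ∈ fixS 8388671 := mem_fixS.mpr h
    rw [Subgroup.eq_bot_of_card_le _ h1, Subgroup.mem_bot] at h2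
    exact congrArg Subtype.val h2

end Cfsg.Agent.S5521
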