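import Cfsg.Statements.S5562
import Cfsg.Agent.H50.Width

set_option autoImplicit false
open Cfsg

namespace Cfsg.Agent.S5562

/-- Let G be a finite group, d an involution of G whose conjugates pairwise have products of odd order, and x any involution of G. Then the conjugacy class of d is the disjoint union, over the conjugates a of d commuting with x, of the sets of conjugates of d commuting with ax: every conjugate of d commutes with ax for exactly one conjugate a of d that commutes with x. -/
theorem result {G : Type*} [Group G] [Finite G] (d : G) (hd : orderOf d = 2)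
    (hodd : ∀ a ∈ conjugatesOf d, ∀ b ∈ conjugatesOf d, Odd (orderOf (a * b)))
    (x : G) (hx : orderOf x = 2) :
    ∀ e ∈ conjugatesOf d,
      ∃! a : G, a ∈ conjugatesOf d ∧ Commute a x ∧ Commute e (a * x) := by
  have sq : ∀ a ∈ conjugatesOf d, a * a = 1 := fun a ha => by
    obtain ⟨g, rfl⟩ := isConj_iff.1 ha
    rw [conj_mul, H50.mul_self_of_orderOf_two hd]; simp
  have cj : ∀ g : G, ∀ a ∈ conjugatesOf d, g * a * g⁻¹ ∈ conjugatesOf d := fun g a ha =>
    IsConj.trans ha (isConj_iff.2 ⟨g, rfl⟩)
  have hx2 := H50.mul_self_of_orderOf_two hx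
  have ix := H50.inv_eq_of_mul_self hx2
  have root : ∀ u v : G, Odd (orderOf u) → Odd (orderOf v) → u ^ 2 = v ^ 2 → u = v := by
    intro u v hu hv h
    obtain ⟨k, hk⟩ := hu.mul hv
    have h1 : u ^ (2 * k + 1) = 1 := by rw [← hk, pow_mul, pow_orderOf_eq_one, one_pow]
    have h2 : v ^ (2 * k + 1) = 1 := by rw [← hk, mul_comm, pow_mul, pow_orderOf_eq_one, one_pow]
    rw [pow_succ, pow_mul] at h1 h2
    rw [h] at h1
    exact mul_left_cancel (h1.trans h2.symm)
  have uniq : ∀ e ∈ conjugatesOf d, ∀ a ∈ conjugatesOf d, ∀ b ∈ conjugatesOf d,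
      a * e * a = b * e * b → a = b := by
    intro e he a ha b hb h
    have := root (e * a) (e * b) (hodd e he a ha) (hodd e he b hb) (by
      rw [pow_two, pow_two, mul_assoc, mul_assoc, ← mul_assoc a, ← mul_assoc b, h])
    exact mul_left_cancel this
  intro e he
  have he' : x * e * x ∈ conjugatesOf d := by have := cj x e he; rwa [ix] at this
  have ie := H50.inv_eq_of_mul_self (sq e he)
  obtain ⟨k, hk⟩ := hodd e he _ he'
  set r := e * (x * e * x) with hr
  have hinvert : ∀ n : ℕ, e * r ^ n = (r ^ n)⁻¹ * e := by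
    intro n
    have : e * r * e⁻¹ = r⁻¹ := by
      rw [hr, mul_inv_rev, H50.inv_eq_of_mul_self (sq _ he'), H50.mul_mul_cancel_of_mul_self (sq e he)]
    rw [← inv_pow, ← this, conj_pow, inv_mul_cancel_right]
  have hr1 : r ^ (2 * k + 1) = 1 := by rw [← hk, pow_orderOf_eq_one]
  -- `a = e r^(k+1)`
  have hmem : ∀ n : ℕ, e * r ^ n ∈ conjugatesOf d := by
    intro n
    have := cj (r ^ ((k + 1) * n))⁻¹ e he
    rw [inv_inv, ← hinvert, mul_assoc, ← pow_add] at this
    have e2 : r ^ ((k + 1) * n + (k + 1) * n) = r ^ n := by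
      rw [show (k + 1) * n + (k + 1) * n = (2 * k + 1) * n + n by ring, pow_add, pow_mul, hr1, one_pow,
        one_mul]
    rwa [e2] at this
  have ha : (e * r ^ (k + 1)) * e * (e * r ^ (k + 1)) = x * e * x := by
    rw [mul_assoc, H50.mul_mul_cancel_of_mul_self (sq e he), mul_assoc, ← pow_add,
      show k + 1 + (k + 1) = (2 * k + 1) + 1 by ring, pow_succ, hr1, one_mul, hr,
      H50.mul_mul_cancel_of_mul_self (sq e he)]
  set a := e * r ^ (k + 1) with hadef
  have haD : a ∈ conjugatesOf d := hmem _
  have conv : ∀ b ∈ conjugatesOf d, Commute b x → (Commute e (b * x) ↔ b * e * b = x * e * x) := by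
    intro b hb hbx
    have hbx2 : (b * x) * (b * x) = 1 := by rw [← pow_two]; exact (H50.commute_iff_sq (sq b hb) hx2).1 hbx
    rw [Commute.symm_iff, H50.commute_iff_conj_eq hbx2]
    have : b * x * e * (b * x) = b * (x * e * x) * b := by rw [hbx.eq]; simp only [mul_assoc]; rw [← mul_assoc x b, ← hbx.eq, mul_assoc]
    rw [this, H50.iconj_eq_iff (sq b hb)]
    exact eq_comm
  have hax : Commute a x := by
    have hxa : x * a * x ∈ conjugatesOf d := by have := cj x a haD; rwa [ix] at this
    have h1 : (x * a * x) * (x * e * x) * (x * a * x) = e := by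
      rw [← H50.iconj_distrib hx2, ha, H50.iconj_iconj hx2]
    have h2 : a * (x * e * x) * a = e := by rw [← ha, H50.iconj_iconj (sq a haD)]
    have := uniq _ he' _ hxa _ haD (h1.trans h2.symm)
    exact ((H50.commute_iff_conj_eq hx2).2 this).symm
  refine ⟨a, ⟨haD, hax, (conv a haD hax).2 ha⟩, fun b ⟨hb, hbx, hbe⟩ => ?_⟩
  exact uniq e he b hb a haD (((conv b hb hbx).1 hbe).trans ha.symm)

end Cfsg.Agent.S5562
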