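import Cfsg.Statements.S5579
import Cfsg.Agent.H78.J4T
import Cfsg.Agent.H78.J4F
import Cfsg.Agent.H78.J4S5
import Cfsg.Agent.H33.J4Odd5
import Cfsg.Agent.H12.J5G
import Cfsg.Agent.H83.J4U
import Cfsg.Agent.S5563
import Cfsg.Agent.S5564
import Cfsg.Agent.S5629
import Cfsg.Agent.S5577

set_option autoImplicit false
open Cfsg

namespace Cfsg.Agent.S5579
open Cfsg.Agent.H78.J4C

/-- Let G be a finite non-abelian simple group of Janko-four type (an involution z whose centralizer H has an extraspecial largest normal 2-subgroup E of order 2^13 containing its centralizer in H, a normal subgroup N ≥ E of H with N/E of order 3 and H/N the automorphism group of M₂₂, and a subgroup P ≤ N of order 3 with C_E(P) = ⟨z⟩, N_H(P) ≠ C_H(P) and P ≤ C_H(P)′). Then G has exactly 62 conjugacy classes. -/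
theorem result {G : Type*} [Group G] [Finite G] [IsSimpleGroup G] (hG : ¬ IsMulCommutative G) (hJ : Cfsg.IsOfJankoFourType G) :
    Nat.card (ConjClasses G) = 62 := by
  obtain ⟨D, hi, hc, k, k1, k2⟩ := exists_D hG hJ
  obtain ⟨s23, s29, s31, s37, s43⟩ := S5577.result hG hJ
  obtain ⟨z, hz⟩ := hJ
  obtain ⟨h1, h2⟩ := H33.J4O.card_hna hG ⟨z, hz⟩ (S5629.result hG z hz)
  obtain ⟨L, Γ, -⟩ := H33.J4O.exists_glob hG ⟨z, hz⟩
    (fun z P h => (S5563.result hG z P h).2.2.2.2) (S5564.result hG ⟨z, hz⟩) h1 h2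
  obtain ⟨P, hP⟩ := hz
  obtain ⟨J, -⟩ := H83.J4.exists_JL hG hP
  obtain ⟨s, E, c5, e5⟩ := H12.J4.exists_C5 J J.σ2_B k2
  obtain ⟨f1, f2⟩ := five D hi k1 k2 c5.not_dvd
    (by rw [cc, ← c5.cardC, ← H12.J4.cent_zp, ← e5, H12.J4.cent_zp]) (e5 ▸ c5.cardN)
  have := Fact.mk Nat.prime_seven
  obtain ⟨t, ht⟩ := exists_prime_orderOf_dvd_card' (G := G) 7 (by rw [h1]; norm_num)
  obtain ⟨t1, t2, t3⟩ := H12.J4.cardN7 J ht
  obtain ⟨I, i1, ⟨i2⟩⟩ := H12.J4.h7 J t ht
  have f7 := cov7 t1 ht i1 i2 (by rw [t3, H12.J4.cent_zp, t2])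
  have := Fact.mk (show Nat.Prime 23 by norm_num)
  have := Fact.mk (show Nat.Prime 29 by norm_num)
  have := Fact.mk (show Nat.Prime 31 by norm_num)
  have := Fact.mk (show Nat.Prime 37 by norm_num)
  have := Fact.mk (show Nat.Prime 43 by norm_num)
  have f23 := cov_self (p := 23) (k := 1) (by rw [h1]; norm_num) (by rw [h1]; norm_num) (by norm_num) rfl s23
  have f29 := cov_self (p := 29) (k := 1) (by rw [h1]; norm_num) (by rw [h1]; norm_num) (by norm_num) rfl s29
  have f31 := cov_self (p := 31) (k := 3) (by rw [h1]; norm_num) (by rw [h1]; norm_num) (by norm_num) rfl s31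
  have f37 := cov_self (p := 37) (k := 3) (by rw [h1]; norm_num) (by rw [h1]; norm_num) (by norm_num) rfl s37
  have f43 := cov_self (p := 43) (k := 3) (by rw [h1]; norm_num) (by rw [h1]; norm_num) (by norm_num) rfl s43
  refine classes62 D hi h1 hc (f3 J) f1 ((f2.union (f7.union ((cov11 L Γ).union (f23.union (f29.union
    (f31.union (f37.union f43))))))).mono fun g hg => ?_)
  simp only [Set.mem_setOf_eq, not_forall, not_or] at hg
  obtain ⟨p, hp, hd, n2, n3⟩ := hg
  simp only [Set.mem_union, Set.mem_setOf_eq]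
  rcases H33.J4O.prime_cases hp (h1 ▸ hd.trans (orderOf_dvd_natCard g)) with
    h | h | h | h | h | h | h | h | h | h <;> subst h <;> tauto

end Cfsg.Agent.S5579
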