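import Cfsg.Statements.S5596
import Cfsg.Agent.H49.Sing

set_option autoImplicit false
open Cfsg

namespace Cfsg.Agent.S5596

/-- Setting: `z` is an involution of the finite group `G`; for each element `x`, `Q x` is the largest normal 2-subgroup of the centralizer of `x`; `Q z` is extraspecial and contains its own centralizer in `G`. A subgroup `U` is singular when it is elementary abelian, every non-identity element of `U` is conjugate to `z`, and any two non-identity elements `u`, `v` of `U` are orthogonal (`v ∈ Q u`). Write `QU` for the intersection of the `Q u` and `LU` for the join of the `Q u` over the non-identity `u` in `U`. If `U` is singular of order `2 ^ n` with `n ≥ 2`, then `U ≤ QU ≤ LU`, `LU` normalizes `U`, and `LU` induces on `U` its full automorphism group (the general linear group of dimension `n` over the field with two elements): every automorphism of `U` is conjugation by some element of `LU`. -/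
theorem result {G : Type*} [Group G] [Finite G]
    (Q : G → Subgroup G)
    (hQ : ∀ x : G, Q x = (Cfsg.pCore 2 ↥(Subgroup.centralizer ({x} : Set G))).map (Subgroup.centralizer ({x} : Set G)).subtype)
    (z : G) (hz : orderOf z = 2) (hE : Cfsg.IsExtraspecial 2 ↥(Q z))
    (hC : Subgroup.centralizer ((Q z : Subgroup G) : Set G) ≤ Q z)
    (U : Subgroup G) (hU2 : ∀ u ∈ U, u * u = 1)
    (hS : ∀ u ∈ U, u ≠ 1 → ∃ g : G, g * z * g⁻¹ = u)
    (hO : ∀ u ∈ U, ∀ v ∈ U, u ≠ 1 → v ≠ 1 → v ∈ Q u)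
    (QU LU : Subgroup G) (hQU : QU = ⨅ u ∈ ((U : Set G) \ {1}), Q u) (hLU : LU = ⨆ u ∈ ((U : Set G) \ {1}), Q u)
    (n : ℕ) (hn : 2 ≤ n) (hcard : Nat.card ↥U = 2 ^ n) :
    U ≤ QU ∧ QU ≤ LU ∧ LU ≤ Subgroup.normalizer (U : Set G) ∧
      ∀ φ : ↥U ≃* ↥U, ∃ g ∈ LU, ∀ u : ↥U, g * (u : G) * g⁻¹ = ((φ u : ↥U) : G) := by
  obtain rfl : Q = H49.O2C := funext hQ
  have h := H49.LX.of_O2C (H49.orderOf_two_iff.1 hz).1 hE hC
  have hUQ : ∀ u ∈ U, u ≠ 1 → U ≤ H49.O2C u := by
    intro u hu h1 v hv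
    by_cases e : v = 1
    · rw [e]; exact one_mem _
    · exact hO u hu v hv h1 e
  have hQL : ∀ u ∈ U, u ≠ 1 → H49.O2C u ≤ LU := by
    intro u hu h1
    rw [hLU]
    exact le_iSup₂_of_le (f := fun u (_ : u ∈ (U : Set G) \ {1}) => H49.O2C u) u ⟨hu, h1⟩ le_rfl
  obtain ⟨u, hu, hu1⟩ : ∃ u ∈ U, u ≠ 1 := by
    by_contra hc
    push Not at hc
    have : U = ⊥ := (Subgroup.eq_bot_iff_forall _).2 hc
    rw [this, Subgroup.card_bot] at hcard
    have := Nat.pow_le_pow_right (by decide : 0 < 2) hn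
    omega
  refine ⟨?_, ?_, ?_, ?_⟩
  · rw [hQU]; exact le_iInf₂ fun u hu => hUQ u hu.1 hu.2
  · refine le_trans ?_ (hQL u hu hu1)
    rw [hQU]
    exact iInf₂_le (f := fun u (_ : u ∈ (U : Set G) \ {1}) => H49.O2C u) u ⟨hu, hu1⟩
  · rw [hLU]
    refine iSup₂_le fun u hu g hg => H49.mem_normalizer_of_conj_mem fun y hy => ?_
    exact (h.O2C_conj (hS u hu.1 hu.2)).conj_mem_of_z_mem (hUQ u hu.1 hu.2) hu.1 hg hy
  · exact H49.exists_conj_eq_aut hU2 fun u hu h1 =>
      ⟨_, (h.O2C_conj (hS u hu h1)).toXS, hUQ u hu h1, hQL u hu h1⟩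

end Cfsg.Agent.S5596
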