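import Cfsg.Statements.S5597
import Cfsg.Agent.H49.Sing

set_option autoImplicit false
open Cfsg

namespace Cfsg.Agent.S5597

/-- Setting: `z` is an involution of the finite group `G`; for each element `x`, `Q x` is the largest normal 2-subgroup of the centralizer of `x`; `Q z` is extraspecial and contains its own centralizer in `G`. A subgroup `U` is singular when it is elementary abelian, every non-identity element of `U` is conjugate to `z`, and any two non-identity elements `u`, `v` of `U` are orthogonal (`v ∈ Q u`). Write `QU` for the intersection of the `Q u` and `LU` for the join of the `Q u` over the non-identity `u` in `U`. If `U` is a non-trivial singular subgroup, then `LU` acts trivially on `QU / U` (every commutator of an element of `LU` with an element of `QU` lies in `U`), and for every `x` in `QU` outside `U` the centralizer of `U` in `LU` permutes the coset `x U` transitively: each `x u` with `u ∈ U` is a conjugate of `x` by an element of `LU` centralizing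 `U`. -/
theorem result {G : Type*} [Group G] [Finite G]
    (Q : G → Subgroup G)
    (hQ : ∀ x : G, Q x = (Cfsg.pCore 2 ↥(Subgroup.centralizer ({x} : Set G))).map (Subgroup.centralizer ({x} : Set G)).subtype)
    (z : G) (hz : orderOf z = 2) (hE : Cfsg.IsExtraspecial 2 ↥(Q z))
    (hC : Subgroup.centralizer ((Q z : Subgroup G) : Set G) ≤ Q z)
    (U : Subgroup G) (hU2 : ∀ u ∈ U, u * u = 1)
    (hS : ∀ u ∈ U, u ≠ 1 → ∃ g : G, g * z * g⁻¹ = u)
    (hO : ∀ u ∈ U, ∀ v ∈ U, u ≠ 1 → v ≠ 1 → v ∈ Q u)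
    (QU LU : Subgroup G) (hQU : QU = ⨅ u ∈ ((U : Set G) \ {1}), Q u) (hLU : LU = ⨆ u ∈ ((U : Set G) \ {1}), Q u)
    (hU : U ≠ ⊥) :
    (∀ g ∈ LU, ∀ x ∈ QU, g * x * g⁻¹ * x⁻¹ ∈ U) ∧
      ∀ x ∈ QU, x ∉ U → ∀ u ∈ U, ∃ g ∈ LU ⊓ Subgroup.centralizer (U : Set G), g * x * g⁻¹ = x * u := by
  obtain rfl : Q = H49.O2C := funext hQ
  have h := H49.LX.of_O2C (H49.orderOf_two_iff.1 hz).1 hE hC
  have hUQ : ∀ u ∈ U, u ≠ 1 → U ≤ H49.O2C u := by
    intro u hu h1 v hv
    by_cases e : v = 1
    · rw [e]; exact one_mem _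
    · exact hO u hu v hv h1 e
  have hQL : ∀ u ∈ U, u ≠ 1 → H49.O2C u ≤ LU := by
    intro u hu h1
    rw [hLU]
    exact le_iSup₂_of_le (f := fun u (_ : u ∈ (U : Set G) \ {1}) => H49.O2C u) u ⟨hu, h1⟩ le_rfl
  have hQU' : ∀ u ∈ U, u ≠ 1 → QU ≤ H49.O2C u := by
    intro u hu hu1
    rw [hQU]
    exact iInf₂_le (f := fun u (_ : u ∈ (U : Set G) \ {1}) => H49.O2C u) u ⟨hu, hu1⟩
  constructor
  · have : LU ≤ H49.commMod QU U := by
      rw [hLU]
      refine iSup₂_le fun u hu g hg => ⟨H49.mem_normalizer_of_conj_mem fun y hy => ?_, ?_⟩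
      · exact (h.O2C_conj (hS u hu.1 hu.2)).conj_mem_of_z_mem (hUQ u hu.1 hu.2) hu.1 hg hy
      · intro s hs
        exact Subgroup.zpowers_le.2 hu.1
          ((h.O2C_conj (hS u hu.1 hu.2)).commutator_mem hg (hQU' u hu.1 hu.2 hs))
    exact fun g hg x hx => (this hg).2 x hx
  · intro x hx hxU u hu
    by_cases h1 : u = 1
    · exact ⟨1, one_mem _, by simp [h1]⟩
    obtain ⟨g, hg, e⟩ := (h.O2C_conj (hS u hu h1)).exists_conj_centralizer (hUQ u hu h1) hu
      (hQU' u hu h1 hx) hxU
    exact ⟨g, ⟨hQL u hu h1 hg.1, hg.2⟩, e⟩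

end Cfsg.Agent.S5597
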