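import Cfsg.Statements.S5598
import Cfsg.Agent.H49.Sing

set_option autoImplicit false
open Cfsg

namespace Cfsg.Agent.S5598

/-- Setting: `z` is an involution of the finite group `G`; for each element `x`, `Q x` is the largest normal 2-subgroup of the centralizer of `x`; `Q z` is extraspecial and contains its own centralizer in `G`. A subgroup `U` is singular when it is elementary abelian, every non-identity element of `U` is conjugate to `z`, and any two non-identity elements `u`, `v` of `U` are orthogonal (`v ∈ Q u`). Write `QU` for the intersection of the `Q u` and `LU` for the join of the `Q u` over the non-identity `u` in `U`. If the singular subgroup `U` is generated by a set `T` of non-identity elements, then `QU` is already the intersection of the `Q t` over `t ∈ T`. -/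
theorem result {G : Type*} [Group G] [Finite G]
    (Q : G → Subgroup G)
    (hQ : ∀ x : G, Q x = (Cfsg.pCore 2 ↥(Subgroup.centralizer ({x} : Set G))).map (Subgroup.centralizer ({x} : Set G)).subtype)
    (z : G) (hz : orderOf z = 2) (hE : Cfsg.IsExtraspecial 2 ↥(Q z))
    (hC : Subgroup.centralizer ((Q z : Subgroup G) : Set G) ≤ Q z)
    (U : Subgroup G) (hU2 : ∀ u ∈ U, u * u = 1)
    (hS : ∀ u ∈ U, u ≠ 1 → ∃ g : G, g * z * g⁻¹ = u)
    (hO : ∀ u ∈ U, ∀ v ∈ U, u ≠ 1 → v ≠ 1 → v ∈ Q u)
    (QU LU : Subgroup G) (hQU : QU = ⨅ u ∈ ((U : Set G) \ {1}), Q u) (hLU : LU = ⨆ u ∈ ((U : Set G) \ {1}), Q u)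
    (T : Set G) (hT : Subgroup.closure T = U) (hT1 : (1 : G) ∉ T) :
    QU = ⨅ t ∈ T, Q t := by
  obtain rfl : Q = H49.O2C := funext hQ
  have h := H49.LX.of_O2C (H49.orderOf_two_iff.1 hz).1 hE hC
  rw [hQU]
  apply le_antisymm
  · refine le_iInf₂ fun t ht => ?_
    exact iInf₂_le (f := fun u (_ : u ∈ (U : Set G) \ {1}) => H49.O2C u) t
      ⟨hT ▸ Subgroup.subset_closure ht, fun e => hT1 (e ▸ ht)⟩
  intro y hy
  rw [Subgroup.mem_iInf] at hy
  have key : ∀ u ∈ Subgroup.closure T, u = 1 ∨ y ∈ H49.O2C u := by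
    intro u hu
    induction hu using Subgroup.closure_induction with
    | mem t ht => exact Or.inr (Subgroup.mem_iInf.1 (hy t) ht)
    | one => exact Or.inl rfl
    | inv u hu ih => rwa [inv_eq_of_mul_eq_one_right (hU2 u (hT ▸ hu))]
    | mul u v hu hv ihu ihv =>
      rw [hT] at hu hv
      by_cases h1 : u = 1
      · rwa [h1, one_mul]
      by_cases h2 : v = 1
      · rwa [h2, mul_one]
      by_cases h3 : u = v
      · left; rw [h3]; exact hU2 v hv
      right
      have P := h.pair_O2C (hS v hv h2) (hS u hu h1) (hO v hv u hu h2 h1) (hO u hu v hv h1 h2) h3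
      obtain ⟨q, hq, e⟩ := P.hQ.exists_conj_eq_mul_z P.xQ h1 h3
      rw [← e, ← H49.cj_O2C]
      exact P.E_le_cj hq ⟨ihv.resolve_left h2, ihu.resolve_left h1⟩
  rw [Subgroup.mem_iInf]
  intro u
  rw [Subgroup.mem_iInf]
  intro hu
  exact (key u (hT ▸ hu.1)).resolve_left hu.2

end Cfsg.Agent.S5598
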