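import Cfsg.Statements.S5729
import Cfsg.Agent.H62.Derangement

set_option autoImplicit false
open Cfsg

namespace Cfsg.Agent.S5729

/-- Let a finite group G act faithfully and transitively on a set with n ≥ 3 points. Then either G is a Frobenius permutation group (Frobenius as a permutation group: transitive, some non-identity element fixes a point, and no non-identity element fixes two points) of order n(n − 1) and exactly |G|/n of its elements are derangements (fix no point), or the number of derangements is greater than |G|/n. -/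
theorem result {G Ω : Type*} [Group G] [Finite G] [MulAction G Ω] [FaithfulSMul G Ω] [Fintype Ω] (htr : MulAction.IsPretransitive G Ω) (hn : 3 ≤ Fintype.card Ω) :
    ((MulAction.IsPretransitive G Ω ∧ (∃ g : G, g ≠ 1 ∧ ∃ ω : Ω, g • ω = ω) ∧ ∀ g : G, g ≠ 1 → Nat.card (MulAction.fixedBy Ω g) ≤ 1) ∧ Nat.card G = Fintype.card Ω * (Fintype.card Ω - 1) ∧ Fintype.card Ω * Nat.card {g : G // ∀ ω : Ω, g • ω ≠ ω} = Nat.card G) ∨
    Nat.card G < Fintype.card Ω * Nat.card {g : G // ∀ ω : Ω, g • ω ≠ ω} := by
  classical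
  haveI : Fintype G := Fintype.ofFinite G
  obtain ⟨a, b, hab⟩ := Fintype.exists_pair_of_one_lt_card (by omega : 1 < Fintype.card Ω)
  haveI : Nonempty Ω := ⟨a⟩
  set n := Fintype.card Ω with hndef
  set D := Nat.card {g : G // ∀ ω : Ω, g • ω ≠ ω} with hD
  set N := Nat.card G with hN
  let F : G → ℕ := fun g => Nat.card (MulAction.fixedBy Ω g)
  have h1 : ∑ g : G, F g = N := by
    have := H62.sum_card_fixedBy G Ω
    rwa [H62.card_quotient_eq_one, one_mul] at this
  have h2 : ∑ g : G, F g ^ 2 = Nat.card (MulAction.orbitRel.Quotient G (Ω × Ω)) * N := by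
    rw [← H62.sum_card_fixedBy G (Ω × Ω)]
    exact Finset.sum_congr rfl fun g _ => (H62.card_fixedBy_prod g).symm
  have hr : 2 ≤ Nat.card (MulAction.orbitRel.Quotient G (Ω × Ω)) := by
    have : Nontrivial (MulAction.orbitRel.Quotient G (Ω × Ω)) := by
      refine ⟨Quotient.mk _ (a, a), Quotient.mk _ (a, b), fun h => hab ?_⟩
      obtain ⟨g, hg⟩ : (a, b) ∈ MulAction.orbit G (a, a) := (MulAction.orbitRel G _).symm (Quotient.exact h)
      have h1 : g • a = a := congrArg Prod.fst hg
      have h2 : g • a = b := congrArg Prod.snd hg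
      rw [← h1, h2]
    exact Finite.one_lt_card
  set r := Nat.card (MulAction.orbitRel.Quotient G (Ω × Ω)) with hrdef
  have hFle : ∀ g, F g ≤ n := by
    intro g
    rw [hndef, ← Nat.card_eq_fintype_card]
    exact Nat.card_le_card_of_injective _ Subtype.val_injective
  have hFn : ∀ g, F g = n → g = 1 := by
    intro g hg
    have : MulAction.fixedBy Ω g = Set.univ := by
      apply Set.eq_of_subset_of_ncard_le (Set.subset_univ _) _ (Set.toFinite _)
      rw [Set.ncard_univ, Nat.card_eq_fintype_card, ← Nat.card_coe_set_eq]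
      exact hg.ge
    apply FaithfulSMul.eq_of_smul_eq_smul (α := Ω)
    intro x
    have hx : x ∈ MulAction.fixedBy Ω g := this ▸ Set.mem_univ x
    rw [one_smul]; exact hx
  have hF1 : F 1 = n := by
    simp [F, hndef]
  have hF0 : ∀ g, F g = 0 ↔ ∀ ω : Ω, g • ω ≠ ω := by
    intro g
    simp only [F]
    rw [Nat.card_coe_set_eq, Set.ncard_eq_zero (Set.toFinite _), Set.eq_empty_iff_forall_notMem]
    rfl
  have hDsum : (∑ g : G, if F g = 0 then (1 : ℤ) else 0) = D := by
    rw [Finset.sum_boole, hD, Nat.card_eq_fintype_card, Fintype.card_subtype]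
    simp only [hF0]
  have hNc : Fintype.card G = N := by rw [hN, Nat.card_eq_fintype_card]
  have hsum : ∑ g : G, ((F g : ℤ) - 1) * ((F g : ℤ) - n) = ((r : ℤ) - 1) * N := by
    have e1 : ∑ g : G, (F g : ℤ) = N := by exact_mod_cast h1
    have e2 : ∑ g : G, (F g : ℤ) ^ 2 = r * N := by exact_mod_cast h2
    have : ∀ g : G, ((F g : ℤ) - 1) * ((F g : ℤ) - n) = (F g : ℤ) ^ 2 - (n + 1) * F g + n := by
      intro g; ring
    simp only [this]
    rw [Finset.sum_add_distrib, Finset.sum_sub_distrib, ← Finset.mul_sum, e1, e2, Finset.sum_const,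
      Finset.card_univ, hNc]
    simp only [nsmul_eq_mul]
    ring
  have hle : ∀ g ∈ (Finset.univ : Finset G),
      ((F g : ℤ) - 1) * ((F g : ℤ) - n) ≤ n * (if F g = 0 then (1 : ℤ) else 0) := by
    intro g _
    split_ifs with h
    · simp [h]
    · have h3 : (1 : ℤ) ≤ F g := by exact_mod_cast Nat.pos_of_ne_zero h
      have h4 : (F g : ℤ) ≤ n := by exact_mod_cast hFle g
      nlinarith
  have hsum2 : ∑ g : G, (n : ℤ) * (if F g = 0 then (1 : ℤ) else 0) = n * D := by
    rw [← Finset.mul_sum, hDsum]
  by_cases hlt : N < n * D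
  · exact Or.inr hlt
  left
  have hge : (n : ℤ) * D ≤ N := by exact_mod_cast not_lt.1 hlt
  have hr' : (2 : ℤ) ≤ r := by exact_mod_cast hr
  have hN0 : (0 : ℤ) ≤ N := by positivity
  have hs1 := Finset.sum_le_sum hle
  rw [hsum, hsum2] at hs1
  have hND : (n : ℤ) * D = N := by nlinarith
  have heq := (Finset.sum_eq_sum_iff_of_le hle).1 (by rw [hsum, hsum2]; nlinarith)
  have hone : ∀ g : G, g ≠ 1 → F g ≤ 1 := by
    intro g hg
    have := heq g (Finset.mem_univ g)
    split_ifs at this with h
    · omega
    · rw [mul_zero, mul_eq_zero] at this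
      rcases this with h' | h'
      · omega
      · exact absurd (hFn g (by omega)) hg
  have hD1 : (D : ℤ) = n - 1 := by
    have e1 : ∑ g : G, (F g : ℤ) = N := by exact_mod_cast h1
    have e2 : ∀ g : G, (F g : ℤ) = 1 + (if g = 1 then (n : ℤ) - 1 else 0) -
        (if F g = 0 then (1 : ℤ) else 0) := by
      intro g
      by_cases hg : g = 1
      · subst hg
        rw [if_pos rfl, if_neg (by omega), hF1]; ring
      · have := hone g hg
        rw [if_neg hg]
        split_ifs <;> omega
    rw [Finset.sum_congr rfl fun g _ => e2 g, Finset.sum_sub_distrib, Finset.sum_add_distrib, hDsum,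
      Finset.sum_ite_eq' Finset.univ (1 : G), Finset.sum_const, Finset.card_univ, hNc] at e1
    simp at e1
    omega
  have hD2 : D = n - 1 := by omega
  have hND' : n * D = N := by exact_mod_cast hND
  refine ⟨⟨htr, ?_, hone⟩, by rw [← hND', hD2], hND'⟩
  have hst := H62.card_eq_card_mul_card_stabilizer (G := G) a
  rw [← hN, ← hND', Nat.card_eq_fintype_card (α := Ω), ← hndef] at hst
  have hst' := Nat.eq_of_mul_eq_mul_left (by omega) hst
  have : Nontrivial (MulAction.stabilizer G a) := Finite.one_lt_card_iff_nontrivial.1 (by omega)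
  obtain ⟨g, hg⟩ := exists_ne (1 : MulAction.stabilizer G a)
  exact ⟨g, fun h => hg (Subtype.ext h), a, g.2⟩

end Cfsg.Agent.S5729
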