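import Cfsg.Statements.S5730
import Cfsg.Agent.H33.TwoTrans

set_option autoImplicit false
open Cfsg

namespace Cfsg.Agent.S5730

/-- Let a finite group G act faithfully and transitively on a set with n ≥ 7 points. Then either G is a Frobenius permutation group (Frobenius as a permutation group: transitive, some non-identity element fixes a point, and no non-identity element fixes two points) of order n(n − 1)/a with a ∈ {1, 2}, in which case exactly a|G|/n of its elements are derangements, or the number of derangements is at least 2|G|/n. (Equality does occur: PSL₃(2) acting on the 7 points of the Fano plane has exactly 2|G|/7 derangements.) -/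
theorem result {G Ω : Type*} [Group G] [Finite G] [MulAction G Ω] [FaithfulSMul G Ω] [Fintype Ω] (htr : MulAction.IsPretransitive G Ω) (hn : 7 ≤ Fintype.card Ω) :
    (∃ a : ℕ, (a = 1 ∨ a = 2) ∧ (MulAction.IsPretransitive G Ω ∧ (∃ g : G, g ≠ 1 ∧ ∃ ω : Ω, g • ω = ω) ∧ ∀ g : G, g ≠ 1 → Nat.card (MulAction.fixedBy Ω g) ≤ 1) ∧ a * Nat.card G = Fintype.card Ω * (Fintype.card Ω - 1) ∧ Fintype.card Ω * Nat.card {g : G // ∀ ω : Ω, g • ω ≠ ω} = a * Nat.card G) ∨
    2 * Nat.card G ≤ Fintype.card Ω * Nat.card {g : G // ∀ ω : Ω, g • ω ≠ ω} := by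
  classical
  haveI : Fintype G := Fintype.ofFinite G
  obtain ⟨a, b, hab⟩ := Fintype.exists_pair_of_one_lt_card (by omega : 1 < Fintype.card Ω)
  haveI : Nonempty Ω := ⟨a⟩
  by_cases h2 : H33.TwoTr G Ω
  · by_cases hH : H33.st G a b = ⊥
    swap
    · exact Or.inr (H33.two_mul_card_le_of_twoTr h2 hn hab hH)
    have hN := H33.card_eq_of_twoTr h2 hab
    have hD := H33.card_derangements_eq h2 hab
    rw [hH, Subgroup.card_bot, mul_one] at hN
    have hS : (Finset.univ.filter (· ∈ H33.st G a b)) = {1} := by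
      ext g
      simp [hH]
    rw [hS, Finset.sum_singleton, H33.fx_one] at hD
    refine Or.inl ⟨1, Or.inl rfl, ⟨htr, ?_, fun g hg => ?_⟩, by rw [hN, one_mul], ?_⟩
    · obtain ⟨c, hc⟩ : ∃ c, c ∉ ({a, b} : Finset Ω) := by
        by_contra h
        push Not at h
        have h1 := Finset.card_le_card (fun w _ => h w : Finset.univ ⊆ ({a, b} : Finset Ω))
        rw [Finset.card_univ, Finset.card_pair hab] at h1
        omega
      simp only [Finset.mem_insert, Finset.mem_singleton, not_or] at hc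
      obtain ⟨g, g1, g2⟩ := h2 a b a c hab (Ne.symm hc.1)
      exact ⟨g, fun h => hc.2 (by rw [← g2, h, one_smul]), a, g1⟩
    · rw [Finite.card_le_one_iff_subsingleton]
      refine ⟨fun c d => Subtype.ext ?_⟩
      by_contra hcd
      have h1 := H33.card_st h2 hcd hab
      rw [hH, Subgroup.card_bot, Subgroup.card_eq_one] at h1
      exact hg (Subgroup.mem_bot.1 (h1 ▸ H33.mem_st.2 ⟨c.2, d.2⟩))
    · have h0 : (Fintype.card Ω : ℚ) ≠ 0 := by exact_mod_cast (by omega : Fintype.card Ω ≠ 0)
      have : (Fintype.card Ω * Nat.card {g : G // ∀ ω : Ω, g • ω ≠ ω} : ℚ) = 1 * Nat.card G := by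
        rw [hD, hN]
        push_cast [Nat.cast_sub (by omega : 1 ≤ Fintype.card Ω)]
        field_simp
      exact_mod_cast this
  right
  set n := Fintype.card Ω with hndef
  set D := Nat.card {g : G // ∀ ω : Ω, g • ω ≠ ω} with hD
  set N := Nat.card G with hN
  let F : G → ℕ := fun g => Nat.card (MulAction.fixedBy Ω g)
  have h1 : ∑ g : G, F g = N := by
    have := H62.sum_card_fixedBy G Ω
    rwa [H62.card_quotient_eq_one, one_mul] at this
  have h3 : ∑ g : G, F g ^ 2 = Nat.card (MulAction.orbitRel.Quotient G (Ω × Ω)) * N := by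
    rw [← H62.sum_card_fixedBy G (Ω × Ω)]
    exact Finset.sum_congr rfl fun g _ => (H62.card_fixedBy_prod g).symm
  have hr : 3 ≤ Nat.card (MulAction.orbitRel.Quotient G (Ω × Ω)) := by
    unfold H33.TwoTr at h2
    push Not at h2
    obtain ⟨x, y, z, w, hxy, hzw, h⟩ := h2
    have hd : ∀ u v : Ω, u ≠ v → (Quotient.mk _ (u, v) : MulAction.orbitRel.Quotient G (Ω × Ω)) ≠
        Quotient.mk _ (a, a) := by
      intro u v huv h
      obtain ⟨g, hg⟩ : (u, v) ∈ MulAction.orbit G (a, a) := Quotient.exact h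
      exact huv ((congrArg Prod.fst hg).symm.trans (congrArg Prod.snd hg))
    have he : (Quotient.mk _ (z, w) : MulAction.orbitRel.Quotient G (Ω × Ω)) ≠
        Quotient.mk _ (x, y) := by
      intro h'
      obtain ⟨g, hg⟩ : (z, w) ∈ MulAction.orbit G (x, y) := Quotient.exact h'
      exact h g (congrArg Prod.fst hg) (congrArg Prod.snd hg)
    have := Set.ncard_le_card ({Quotient.mk _ (z, w), Quotient.mk _ (x, y), Quotient.mk _ (a, a)} :
      Set (MulAction.orbitRel.Quotient G (Ω × Ω)))
    rwa [Set.ncard_eq_three.2 ⟨_, _, _, he, hd _ _ hzw, hd _ _ hxy, rfl⟩] at this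
  set r := Nat.card (MulAction.orbitRel.Quotient G (Ω × Ω)) with hrdef
  have hFle : ∀ g, F g ≤ n := by
    intro g
    rw [hndef, ← Nat.card_eq_fintype_card]
    exact Nat.card_le_card_of_injective _ Subtype.val_injective
  have hF0 : ∀ g, F g = 0 ↔ ∀ ω : Ω, g • ω ≠ ω := by
    intro g
    simp only [F]
    rw [Nat.card_coe_set_eq, Set.ncard_eq_zero (Set.toFinite _), Set.eq_empty_iff_forall_notMem]
    rfl
  have hDsum : (∑ g : G, if F g = 0 then (1 : ℤ) else 0) = D := by
    rw [Finset.sum_boole, hD, Nat.card_eq_fintype_card, Fintype.card_subtype]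
    simp only [hF0]
  have hNc : Fintype.card G = N := by rw [hN, Nat.card_eq_fintype_card]
  have hsum : ∑ g : G, ((F g : ℤ) - 1) * ((F g : ℤ) - n) = ((r : ℤ) - 1) * N := by
    have e1 : ∑ g : G, (F g : ℤ) = N := by exact_mod_cast h1
    have e2 : ∑ g : G, (F g : ℤ) ^ 2 = r * N := by exact_mod_cast h3
    have : ∀ g : G, ((F g : ℤ) - 1) * ((F g : ℤ) - n) = (F g : ℤ) ^ 2 - (n + 1) * F g + n := by
      intro g; ring
    simp only [this]
    rw [Finset.sum_add_distrib, Finset.sum_sub_distrib, ← Finset.mul_sum, e1, e2, Finset.sum_const,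
      Finset.card_univ, hNc]
    simp only [nsmul_eq_mul]
    ring
  have hle : ∀ g ∈ (Finset.univ : Finset G),
      ((F g : ℤ) - 1) * ((F g : ℤ) - n) ≤ n * (if F g = 0 then (1 : ℤ) else 0) := by
    intro g _
    split_ifs with h
    · simp [h]
    · have h3 : (1 : ℤ) ≤ F g := by exact_mod_cast Nat.pos_of_ne_zero h
      have h4 : (F g : ℤ) ≤ n := by exact_mod_cast hFle g
      nlinarith
  have hs1 := Finset.sum_le_sum hle
  rw [hsum, ← Finset.mul_sum, hDsum] at hs1
  have hr' : (3 : ℤ) ≤ r := by exact_mod_cast hr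
  have hN0 : (0 : ℤ) ≤ N := by positivity
  have : (2 * N : ℤ) ≤ n * D := by nlinarith
  exact_mod_cast this

end Cfsg.Agent.S5730
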