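import Cfsg.Statements.S5736
import Cfsg.Agent.H29.Binary

set_option autoImplicit false
open Cfsg

namespace Cfsg.Agent.S5736

/-- Let F be a finite field with q ≥ 4 elements, q ≠ 5, let G = PSL₂(F) and let H be a proper subgroup of G. Then the action of G on the cosets of H is binary if and only if H is trivial, or q is a power of 2 and H is a Sylow 2-subgroup, or q = 2^a with a odd and H has order 3. Here an action is binary (relational complexity 2) when, for every n ≥ 2 and all n-tuples I, J of points, if for every pair of positions some group element carries the corresponding pair of entries of I to those of J, then a single group element carries I to J. -/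
theorem result {F : Type*} [Field F] [Fintype F] (h4 : 4 ≤ Fintype.card F) (h5 : Fintype.card F ≠ 5)
    (H : Subgroup (Matrix.ProjectiveSpecialLinearGroup (Fin 2) F)) (hH : H ≠ ⊤) :
    (∀ (n : ℕ) (I J : Fin n → Matrix.ProjectiveSpecialLinearGroup (Fin 2) F ⧸ H), 2 ≤ n →
        (∀ i j : Fin n, i ≠ j → ∃ g : Matrix.ProjectiveSpecialLinearGroup (Fin 2) F, g • I i = J i ∧ g • I j = J j) → ∃ g : Matrix.ProjectiveSpecialLinearGroup (Fin 2) F, ∀ i, g • I i = J i) ↔
      (H = ⊥ ∨ ((∃ a : ℕ, Fintype.card F = 2 ^ a) ∧ ∃ P : Sylow 2 (Matrix.ProjectiveSpecialLinearGroup (Fin 2) F), H = P) ∨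
        ((∃ a : ℕ, Odd a ∧ Fintype.card F = 2 ^ a) ∧ Nat.card H = 3)) := by
  have : Fact (Nat.Prime 2) := Nat.fact_prime_two
  have := H29.finite_PSL2 (F := F)
  rw [← Nat.card_eq_fintype_card] at h4 h5 ⊢
  have h2of : ∀ a : ℕ, Nat.card F = 2 ^ a → (2 : F) = 0 := fun a ha => by
    refine H29.even_card_iff.1 ?_
    rw [ha]
    rcases a with _ | a
    · rw [pow_zero] at ha; omega
    · exact (Nat.even_pow' (by omega)).2 even_two
  have hpow : (2 : F) = 0 → CharP F 2 ∧ ∃ a, Nat.card F = 2 ^ a := fun h2 => by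
    have : CharP F 2 := H29.charP_of_dvd_card F 2 (H29.even_card_iff.2 h2).two_dvd
    obtain ⟨a, -, ha⟩ := H29.exists_card_eq_char_pow F 2
    exact ⟨this, a, ha⟩
  have hmod : ∀ a : ℕ, ¬ 3 ∣ 2 ^ a - 1 ↔ Odd a := fun a => by
    have h1 : 1 ≤ 2 ^ a := Nat.one_le_two_pow
    rcases Nat.even_or_odd' a with ⟨k, rfl | rfl⟩
    · have : 2 ^ (2 * k) % 3 = 1 := by rw [pow_mul, Nat.pow_mod]; simp
      simp only [Nat.odd_iff]
      omega
    · have : 2 ^ (2 * k + 1) % 3 = 2 := by rw [pow_succ, pow_mul, Nat.mul_mod, Nat.pow_mod]; simp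
      simp only [Nat.odd_iff]
      omega
  constructor
  · intro h
    have hne : H.map H29.pslp ≠ H29.Lsub F := fun h' => hH (by
      rw [← H29.map_pslp_inj, h', ← MonoidHom.range_eq_map, H29.range_pslp])
    rcases (H29.binP_of_isBinary h).cases hne h4 h5 with h1 | ⟨h2, z, hz⟩ | ⟨h2, h3, hc⟩
    · exact Or.inl ((Subgroup.map_eq_bot_iff_of_injective _ H29.pslp_injective).1 h1)
    · obtain ⟨_, ha⟩ := hpow h2
      obtain ⟨P, hP⟩ := (H29.isCover_pslp (F := F) (p := 2)).exists_sylow z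
      exact Or.inr (Or.inl ⟨ha, P, by rw [← H29.map_pslp_inj, hz, hP]⟩)
    · obtain ⟨_, a, ha⟩ := hpow h2
      refine Or.inr (Or.inr ⟨⟨a, (hmod a).1 (ha ▸ h3), ha⟩, ?_⟩)
      rw [← hc]; exact Nat.card_congr (H29.pslpEquiv H).toEquiv
  · rintro (rfl | ⟨⟨a, ha⟩, P, rfl⟩ | ⟨⟨a, ho, ha⟩, hc⟩)
    · refine H29.isBinary_psl_of fun x1 x2 x3 s t hs ht a1 a2 a3 g hg => ?_
      rw [Subgroup.map_bot, Subgroup.mem_bot] at a1
      exact absurd (by simpa using (conj_eq_one_iff (a := x1⁻¹) (b := s)).1 (by simpa using a1)) hs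
    · obtain ⟨_, -⟩ := hpow (h2of a ha)
      obtain ⟨z, hz⟩ := (H29.isCover_pslp (F := F) (p := 2)).sylow_map P
      exact H29.isBinary_of_uni (h2of a ha) hz
    · exact H29.isBinary_of_three (h2of a ha) (ha ▸ (hmod a).2 ho) hc

end Cfsg.Agent.S5736
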