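import Cfsg.Statements.S5739
import Cfsg.Agent.H32.Singer

set_option autoImplicit false
open Cfsg

namespace Cfsg.Agent.S5739

/-- Let F ⊆ K be finite fields with |F| = q and [K : F] = n ≥ 2, and let M ≤ GL_F(K) be the Singer group of multiplications by non-zero elements of K. If g ∈ GL_F(K) does not normalise M, then the order of M ∩ gMg⁻¹ divides q^r − 1 for some proper divisor r of n. In particular, when n is prime, that order divides q − 1. -/
theorem result {F K : Type*} [Field F] [Fintype F] [Field K] [Fintype K] [Algebra F K] (n : ℕ) (hn : 2 ≤ n) (hdim : Module.finrank F K = n)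
    (g : (Module.End F K)ˣ) (hg : ((Units.map ((Algebra.lmul F K : K →ₐ[F] Module.End F K) : K →* Module.End F K)).range).map (MulAut.conj g).toMonoidHom ≠ (Units.map ((Algebra.lmul F K : K →ₐ[F] Module.End F K) : K →* Module.End F K)).range) :
    ∃ r : ℕ, 1 ≤ r ∧ r ∣ n ∧ r < n ∧ Nat.card ↥(((Units.map ((Algebra.lmul F K : K →ₐ[F] Module.End F K) : K →* Module.End F K)).range).map (MulAut.conj g).toMonoidHom ⊓ (Units.map ((Algebra.lmul F K : K →ₐ[F] Module.End F K) : K →* Module.End F K)).range) ∣ Fintype.card F ^ r - 1 := by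
  classical
  -- the subfield of the multiplications lying in the conjugate algebra
  let L₀ : Subalgebra F K :=
    { carrier := {a | ∃ b : K, ∀ x, a * (g : Module.End F K) x = (g : Module.End F K) (b * x)}
      mul_mem' := by
        rintro a a' ⟨b, hb⟩ ⟨b', hb'⟩
        exact ⟨b * b', fun x => by rw [mul_assoc, hb', hb, mul_assoc]⟩
      add_mem' := by
        rintro a a' ⟨b, hb⟩ ⟨b', hb'⟩
        exact ⟨b + b', fun x => by rw [add_mul, hb', hb, add_mul, map_add]⟩
      algebraMap_mem' := fun c => ⟨algebraMap F K c, fun x => by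
        rw [← Algebra.smul_def, ← Algebra.smul_def, map_smul]⟩ }
  let L : IntermediateField F K := Subalgebra.IsAlgebraic.toIntermediateField (S := L₀)
    (fun x _ => Algebra.IsAlgebraic.isAlgebraic x)
  have hmem : ∀ a : Kˣ, (H32.singerElt a : (Module.End F K)ˣ) ∈
      (H32.singer F K).map (MulAut.conj g).toMonoidHom ↔ (a : K) ∈ L := by
    intro a
    constructor
    · rintro ⟨h, hh, he⟩
      obtain ⟨b, hb⟩ := H32.mem_singer_iff.1 hh
      refine ⟨b, fun x => ?_⟩
      have := congrArg (fun u : (Module.End F K)ˣ =>
        (u : Module.End F K) ((g : Module.End F K) x)) he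
      simp only [MulEquiv.toMonoidHom_eq_coe, MonoidHom.coe_coe, MulAut.conj_apply, Units.val_mul,
        Module.End.mul_apply, H32.unit_inv_apply_apply, hb, H32.singerElt_apply] at this
      exact this.symm
    · rintro ⟨b, hb⟩
      refine ⟨g⁻¹ * H32.singerElt a * g, H32.mem_singer_iff.2 ⟨b, fun x => ?_⟩, by
        simp [mul_assoc]⟩
      simp only [Units.val_mul, Module.End.mul_apply, H32.singerElt_apply, hb,
        H32.unit_inv_apply_apply]
  have hL : L ≠ ⊤ := by
    intro h
    apply hg
    symm
    have : Finite (Module.End F K) := Finite.of_injective _ DFunLike.coe_injective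
    apply Subgroup.eq_of_le_of_card_ge
    · rintro _ ⟨a, rfl⟩
      exact (hmem a).2 (h ▸ IntermediateField.mem_top)
    · exact (Subgroup.card_map_of_injective (MulAut.conj g).injective).le
  have hmul := Module.finrank_mul_finrank F L K
  have hpos : 0 < Module.finrank F L := Module.finrank_pos
  refine ⟨Module.finrank F L, hpos, ⟨_, by rw [hmul, hdim]⟩, ?_, ?_⟩
  · have h1 : Module.finrank L K ≠ 1 := fun h => hL (IntermediateField.finrank_eq_one_iff_eq_top.1 h)
    have h2 : 0 < Module.finrank L K := Module.finrank_pos
    rw [← hdim, ← hmul]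
    exact lt_mul_of_one_lt_right hpos (by omega)
  · have hcard : Nat.card L = Fintype.card F ^ Module.finrank F L := by
      rw [Module.natCard_eq_pow_finrank (K := F), Nat.card_eq_fintype_card]
    rw [← hcard, ← Nat.card_units]
    let φ : Lˣ → ↥((H32.singer F K).map (MulAut.conj g).toMonoidHom ⊓ H32.singer F K) := fun a =>
      ⟨H32.singerElt (Units.map (algebraMap L K : L →* K) a), (hmem _).2 a.1.2,
        H32.singerElt_mem _⟩
    have hφ : Function.Bijective φ := by
      constructor
      · intro a b h
        have := congrArg (fun u : ↥((H32.singer F K).map (MulAut.conj g).toMonoidHom ⊓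
          H32.singer F K) => ((u : (Module.End F K)ˣ) : Module.End F K) 1) h
        simp only [φ, H32.singerElt_apply, mul_one] at this
        exact Units.ext (Subtype.ext this)
      · rintro ⟨_, h1, a, rfl⟩
        exact ⟨Units.mk0 ⟨a, (hmem a).1 h1⟩ (fun h => a.ne_zero (congrArg Subtype.val h)),
          Subtype.ext (congrArg H32.singerElt (Units.ext rfl))⟩
    rw [Nat.card_eq_of_bijective φ hφ]

end Cfsg.Agent.S5739
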