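import Cfsg.Statements.S5746
import Cfsg.Agent.H44.G24I
import Cfsg.Agent.H44.Glue
import Cfsg.Agent.H47.J2Model
import Cfsg.Agent.H37.TG2
import Cfsg.Agent.H37.Autos

set_option autoImplicit false
open Cfsg

namespace Cfsg.Agent.S5746

open Cfsg.Agent.H44 Cfsg.Agent.H43 MulAction Equiv

set_option maxRecDepth 1000000

section gen
variable {G : Type*} [Group G] {Ω : Type*}

/-- The stabiliser of `b`. -/
def st (φ : G →* Perm Ω) (b : Ω) : Subgroup G := (stabilizer (Perm Ω) b).comap φ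

theorem mem_st {φ : G →* Perm Ω} {b : Ω} {y : G} : y ∈ st φ b ↔ φ y b = b := Iff.rfl

/-- Primitivity on one orbit. -/
theorem coatom_st (φ : G →* Perm Ω) {H S : Subgroup G} {b : Ω} (hS : S ≤ H)
    (hfix : ∀ s ∈ S, φ s b = b) (hne : ∃ y ∈ H, φ y b ≠ b)
    (hc : ∀ y ∈ H, φ y b ≠ b → ∃ t ∈ H, φ y b ∈ orbit (S.map φ) (φ t b) ∧
      ∀ z ∈ H, φ z b ∈ orbit ((Subgroup.closure {t} ⊔ S).map φ) b) :
    IsCoatom ((st φ b).subgroupOf H) := by
  constructor
  · intro ht
    obtain ⟨y, hy, h⟩ := hne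
    have : (⟨y, hy⟩ : H) ∈ (st φ b).subgroupOf H := ht ▸ Subgroup.mem_top _
    exact h this
  · intro L hL
    have hin : ∀ y (hy : y ∈ H), φ y b = b → (⟨y, hy⟩ : H) ∈ L := fun y hy h => hL.le h
    obtain ⟨⟨y, hy⟩, hyL, hyS⟩ := SetLike.exists_of_lt hL
    obtain ⟨t, ht, ⟨⟨_, z, hz, rfl⟩, e⟩, h2⟩ := hc y hy hyS
    have e' : φ z (φ t b) = φ y b := e
    have h3 : φ (y⁻¹ * (z * t)) b = b := by
      rw [map_mul, map_inv, map_mul, Perm.mul_apply, Perm.inv_eq_iff_eq, Perm.mul_apply, e']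
    have h4 : (⟨t, ht⟩ : H) ∈ L := by
      have := L.mul_mem (L.inv_mem (hin z (hS hz) (hfix z hz)))
        (L.mul_mem hyL (hin _ (H.mul_mem (H.inv_mem hy) (H.mul_mem (hS hz) ht)) h3))
      convert this using 1
      ext; simp
    have h5 : Subgroup.closure {t} ⊔ S ≤ L.map H.subtype :=
      sup_le (by simpa using ⟨ht, h4⟩) fun s hs => ⟨⟨s, hS hs⟩, hin s _ (hfix s hs), rfl⟩
    rw [eq_top_iff]
    rintro ⟨w, hw⟩ -
    obtain ⟨⟨_, u, hu, rfl⟩, e⟩ := h2 w hw
    have e' : φ u b = φ w b := e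
    obtain ⟨⟨u, hu'⟩, huL, rfl⟩ := h5 hu
    have h6 : φ (u⁻¹ * w) b = b := by
      rw [map_mul, map_inv, Perm.mul_apply, Perm.inv_eq_iff_eq]; exact e'.symm
    have := L.mul_mem huL (hin _ (H.mul_mem (H.inv_mem hu') hw) h6)
    convert this using 1
    ext; simp

theorem coatom_st_conj (φ : G →* Perm Ω) {H : Subgroup G} {b : Ω}
    (h : IsCoatom ((st φ b).subgroupOf H)) {y : G} (hy : y ∈ H) :
    IsCoatom ((st φ (φ y b)).subgroupOf H) := by
  have e : (st φ (φ y b)).subgroupOf H =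
      (MulAut.conj (⟨y, hy⟩ : H)).mapSubgroup ((st φ b).subgroupOf H) := by
    ext z
    rw [MulEquiv.coe_mapSubgroup, Subgroup.mem_map_equiv, Subgroup.mem_subgroupOf,
      Subgroup.mem_subgroupOf, mem_st, mem_st]
    simp [Equiv.symm_apply_eq]
  rw [e]
  exact (OrderIso.isCoatom_iff _ _).2 h

theorem inf_eq {φ : G →* Perm Ω} {H : Subgroup G} {o : Ω} (h : CosetAct φ H o) (x : G) :
    (H ⊓ H.map (MulAut.conj x).toMonoidHom).subgroupOf H = (st φ (φ x o)).subgroupOf H := by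
  ext z
  rw [Subgroup.mem_subgroupOf, Subgroup.mem_subgroupOf, Subgroup.mem_inf, Subgroup.mem_map_equiv,
    h.stab (_ : G), h.stab, mem_st]
  have := (h.stab z).1 z.2
  simp [Equiv.symm_apply_eq, this]

end gen

section model
variable {G : Type*} [Group G] {g : ℕ → G} {nc n : ℕ} {E : List Net} {code : List ℕ}
  {φ : G →* Perm (Fin n)}

theorem coatom_model (M : Model g nc n E code φ) {T S ts : List (List ℕ)}
    (hT : T.all (lettersIn nc) = true) (hS : S.all (lettersIn nc) = true)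
    (hts : ts.all (lettersIn nc) = true)
    (hST : wgen g S ≤ wgen g T) (htT : wgen g ts ≤ wgen g T) {b : ℕ} (hb : b < n)
    (hfix : fixB E code S b = true) {t : List ℕ} (ht : t ∈ ts) {c : ℕ} (hc : c < n) (hbc : c ≠ b)
    (hpt : ptL E code t b c = true)
    (hcl : closedB (evL F1 E code) T (orbS E code T b) = true)
    (hcov : Nat.beq (covM E code S b ts) (orbS E code T b) = true)
    (htr : ∀ t ∈ ts, Nat.beq (orbS E code (t :: S) b) (orbS E code T b) = true) :
    IsCoatom ((st φ ⟨b, hb⟩).subgroupOf (wgen g T)) := by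
  have hl : ∀ t ∈ ts, lettersIn nc t = true := List.all_eq_true.1 hts
  have horb : ∀ z ∈ wgen g T, φ z ⟨b, hb⟩ ∈ pset n (orbS E code T b) := fun z hz => by
    have := orbit_eq_pset (den_evL (rep_F1 n) M.ok code T) hb hcl
    rw [orbS, ← this, ← wgen_eq_ggrp, ← M.map_wgen hT]
    exact mem_orbit_subgroup_iff.2 ⟨_, ⟨z, hz, rfl⟩, rfl⟩
  refine coatom_st φ hST (fun s hs => ?_) ⟨ev g t, htT (mem_wgen _ _ ht), ?_⟩ fun y hy hne => ?_
  · have := le_stab_of_fixB M.ok hb hfix
    rw [← M.map_wgen hS] at this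
    exact this ⟨s, hs, rfl⟩
  · rw [M.map_ev (hl t ht), apply_of_ptL M.ok hb hc hpt]
    exact fun e => hbc (congrArg Fin.val e)
  · have h1 := horb y hy
    rw [← Nat.eq_of_beq_eq_true hcov] at h1
    rcases covM_spec M.ok hb ts h1 with h3 | ⟨t, ht, h3⟩
    · exact absurd h3 hne
    · refine ⟨ev g t, htT (mem_wgen _ _ ht), by rwa [M.map_wgen hS, M.map_ev (hl t ht)],
        fun z hz => ?_⟩
      rw [← wgen_cons, M.map_wgen (by simp [hl t ht, hS])]
      have h4 := horb z hz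
      rw [← Nat.eq_of_beq_eq_true (htr t ht)] at h4
      exact pset_orb_subset (den_evL (rep_F1 n) M.ok code (t :: S)) hb h4

theorem wgen_le_of (g : ℕ → G) {m : ℕ} {S : List (List ℕ)} (hS : S.all (lettersIn m) = true) :
    wgen g S ≤ gen g m :=
  wgen_le.2 fun s hs => ev_mem fun x hx =>
    let h := lettersIn_iff.1 (List.all_eq_true.1 hS s hs) x hx
    mem_gen g h.1 h.2

end model

/-- The relators in the first five letters. -/
def R5 : List (List ℕ) := G24s.Rm.filter (lettersIn 5)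

theorem card5 {G : Type*} [Group G] {g : ℕ → G} (hg : Sat g R5) :
    Finite (wgen g [[1], [2], [3], [4], [5]]) ∧
      Nat.card (wgen g [[1], [2], [3], [4], [5]]) ≤ 604800 := by
  have h1 : IdxLe (wgen g []) (wgen g [[1], [2]]) 10 :=
    G24sC.ab.checked.step hg [0, 1, 2] (by decide +kernel) (by decide +kernel) (by decide +kernel)
  have h2 : IdxLe (wgen g [[1], [2]]) (wgen g [[1], [2], [3], [4]]) 216 :=
    G24sC.abcd.checked.step hg [0, 1, 2, 3, 4] (by decide +kernel) (by decide +kernel)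
      (by decide +kernel)
  have h3 : IdxLe (wgen g [[1], [2], [3], [4]]) (wgen g [[1], [2], [3], [4], [5]]) 280 :=
    G24sC.J2.checked.step hg [0, 1, 2, 3, 4, 5] (by decide +kernel) (by decide +kernel)
      (by decide +kernel)
  exact h3.wcard (n := 280) (m := 2160) (by decide) (h2.wcard (n := 216) (m := 10) (by decide)
    (h1.wcard (n := 10) (m := 1) (by decide) (wcard_nil g)))

def cJ : List ℕ := [0, 0, 2, 4, 6]

def WJ : List (List ℕ) := [[], [3, 1], [2, 3, 1, 2, 4, 3, 1, 4, 2, 3, 1], [1],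
  [4, 3, 2, 4, 3, 2, 1, 4, 3, 2, 4, 3, 1, 4, 2, 3, 2, 1, 4, 1, 2, 3],
  [4, 3, 2, 4, 3, 1, 4, 1, 2, 3, 1, 4, 1, 2, 3, 4, 3, 1, 2, 4, 3, 2, 4, 2]]

def VJ : List (List ℕ) := [[3],
  [3, 4, 5, 3, 4, 3, 2, 1, 2, 3, 4, 5, 3, 4, 3, 4, 2, 3, 4, 5, 3, 4, 3, 2, 1], [3, 1],
  [2, 1, 2, 3, 4, 5, 3, 4, 1, 2, 3, 4, 5, 2, 3, 4, 3, 1, 2, 1, 2]]

noncomputable def jP : ℕ → Perm (Fin 100) := wt (gp 100 H47.J2P.h_O cJ) WJ

theorem sat_jP : Sat jP R5 :=
  Gl.sat_wt (sat_of_satB (k := 7) (L := lab 100 7) H47.J2P.h_hn (det_lab H47.J2P.h_hk _) H47.J2P.h_O_ok le_rfl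
    (by decide +kernel))

theorem gen_jP : gen jP 5 = grp 100 H47.J2P.h_O := by
  refine le_antisymm (gen_le.2 fun x _ _ => ev_gp_mem _ _ _ _) ?_
  refine (grp_le_wgen H47.J2P.h_hn H47.J2P.h_hk H47.J2P.h_O_ok H47.J2P.h_O_ok (code := cJ)
    (S := VJ.map (Gl.fl WJ)) (ix := [0, 1, 2, 3]) (by decide +kernel)).trans ?_
  refine wgen_le.2 fun s hs => ?_
  obtain ⟨v, hv, rfl⟩ := List.mem_map.1 hs
  rw [← Gl.ev_wt]
  exact wgen_le_of _ (S := VJ) (by decide) (mem_wgen _ _ hv)

theorem isoJ2 {G : Type*} [Group G] {g : ℕ → G} (hg : Sat g R5) (hne : g 1 ≠ 1) :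
    Spor.IsoJ2 (wgen g [[1], [2], [3], [4], [5]]) := by
  have := H47.J2P.h_simple
  have htop : gen (subT (grp 100 H47.J2P.h_O) jP) 5 = ⊤ := gen_subT gen_jP
  obtain ⟨f, hf⟩ := exists_hom_of_pres htop (sat_subT gen_jP.le (by decide +kernel) sat_jP)
    H47.J2P.h_card.ge (by decide) (fun _ h => card5 h) hg
  obtain ⟨e⟩ := equiv_gen_of_simple htop hf (x := 1) (by decide) hne
  exact ⟨(MulEquiv.subgroupCongr (gen_eq_wgen g 5)).symm.trans (e.symm.trans H47.eH.symm)⟩

open G24sM in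
theorem main {G : Type*} [Group G] (e : K ≃* G) :
    ∃ H : Subgroup G, IsCoatom H ∧ Cfsg.Spor.IsoJ2 H ∧
      ∀ x : G, x ∉ H → IsCoatom ((H ⊓ H.map (MulAut.conj x).toMonoidHom).subgroupOf H) := by
  let g : ℕ → G := fun x => e (k x)
  let φ : G →* Perm (Fin 416) := K.subtype.comp e.symm.toMonoidHom
  have M : Model g 6 416 E code φ := by
    refine ⟨?_, m_hn, E_ok, fun x hx => ?_⟩
    · have := map_gen e.toMonoidHom k 6
      rw [top, Subgroup.map_top_of_surjective _ e.surjective] at this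
      exact this.symm
    · rw [← model.map x hx]; simp [φ, g]
  have hs : Sat g G24s.Rm := fun r hr => by
    have := map_ev e.toMonoidHom k r
    rw [sat r hr, map_one] at this
    exact this.symm
  have hA : CosetAct φ (wgen g [[1], [2], [3], [4], [5]]) ⟨0, by decide⟩ :=
    M.cosetAct (by decide) ((G24sC.idx_all hs).of_wgen (by decide)) _ (by decide +kernel)
      (by decide +kernel)
  have h5 : ∀ S : List (List ℕ), S.all (lettersIn 5) = true →
      wgen g S ≤ wgen g [[1], [2], [3], [4], [5]] := fun S h =>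
    (wgen_le_of g h).trans (gen_eq_wgen g 5).le
  have c1 : IsCoatom ((st φ ⟨1, by decide⟩).subgroupOf (wgen g [[1], [2], [3], [4], [5]])) :=
    coatom_model M (S := [[1], [3], [4], [5], [2, 1, 3, 2, 1, 2, 4, 3, 4, 2, 3, 1, 2, 1, 2]])
      (ts := [[2], [2, 1, 2], [2, 3, 1, 2], [2, 3, 4, 3, 2], [2, 3, 1, 2, 1, 2]])
      (by decide) (by decide) (by decide) (h5 _ (by decide)) (h5 _ (by decide)) _
      (by decide +kernel) (t := [2]) (by decide) (c := 2) (by decide) (by decide)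
      (by decide +kernel) (by decide +kernel) (by decide +kernel) (by decide +kernel)
  have c2 : IsCoatom ((st φ ⟨38, by decide⟩).subgroupOf (wgen g [[1], [2], [3], [4], [5]])) :=
    coatom_model M (S := [[2], [3], [1, 2, 3, 4], [5, 4, 3, 2, 1, 2, 3, 4, 5]])
      (ts := [[1], [5]])
      (by decide) (by decide) (by decide) (h5 _ (by decide)) (h5 _ (by decide)) _
      (by decide +kernel) (t := [1]) (by decide) (c := 60) (by decide) (by decide)
      (by decide +kernel) (by decide +kernel) (by decide +kernel) (by decide +kernel)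
  refine ⟨wgen g [[1], [2], [3], [4], [5]], ?_, isoJ2 (hs.mono fun r hr => List.mem_of_mem_filter hr)
    (ev_single g 1 ▸ Gl.ne_one M (l := [1]) (by decide) (a := 38) (b := 60) (by decide) (by decide)
      (by decide) (by decide +kernel)), fun x hx => ?_⟩
  · exact M.isCoatom (by decide) hA (by decide) (ts := [[6], [6, 2, 3, 4, 3, 2, 6]]) (by decide)
      (by decide +kernel) (by decide +kernel)
  · rw [inf_eq hA]
    have h2 : φ x ⟨0, by decide⟩ ∈ pset 416
        (covM E code [[1], [2], [3], [4], [5]] 0 [[6], [6, 2, 3, 4, 3, 2, 6]]) := by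
      rw [Nat.eq_of_beq_eq_true (by decide +kernel : Nat.beq
        (covM E code [[1], [2], [3], [4], [5]] 0 [[6], [6, 2, 3, 4, 3, 2, 6]]) (full 416) = true),
        pset_full]
      trivial
    rcases covM_spec E_ok (by decide) _ h2 with h3 | ⟨t, ht, h3⟩
    · exact absurd ((hA.stab x).2 h3) hx
    · rw [← M.map_wgen (by decide)] at h3
      obtain ⟨_, ⟨y, hy, rfl⟩, h4⟩ := mem_orbit_subgroup_iff.1 h3
      rw [← h4]
      simp only [List.mem_cons, List.not_mem_nil, or_false] at ht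
      rcases ht with rfl | rfl
      · rw [apply_of_ptL E_ok (by decide) (by decide : 1 < 416) (by decide +kernel)]
        exact coatom_st_conj φ c1 hy
      · rw [apply_of_ptL E_ok (by decide) (by decide : 38 < 416) (by decide +kernel)]
        exact coatom_st_conj φ c2 hy


/-- The Chevalley group G₂(4) (over the field with 4 elements) has a maximal subgroup H isomorphic to the Hall–Janko group J₂ such that for every x outside H the intersection H ∩ xHx⁻¹ is a maximal subgroup of H; that is, the action of G₂(4) on the cosets of H is extremely primitive. -/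
theorem result {F : Type*} [Field F] [Fintype F] (hF : Fintype.card F = 4) :
    ∃ H : Subgroup (Cfsg.Lie.chevG2.group F), IsCoatom H ∧ Cfsg.Spor.IsoJ2 H ∧
      ∀ x : Cfsg.Lie.chevG2.group F, x ∉ H → IsCoatom ((H ⊓ H.map (MulAut.conj x).toMonoidHom).subgroupOf H) := by
  have hne : G24sM.k 1 ≠ 1 :=
    ev_single G24sM.k 1 ▸ Gl.ne_one G24sM.model (l := [1]) (by decide) (a := 38) (b := 60)
      (by decide) (by decide) (by decide) (by decide +kernel)
  obtain ⟨e⟩ := G24I.equiv G24sM.sat hne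
  exact main (Subgroup.topEquiv.symm.trans <| (MulEquiv.subgroupCongr G24sM.top.symm).trans <|
    e.trans (open H28 in H37.validG2.fieldEquiv (H28.equivF4 hF).symm))

end Cfsg.Agent.S5746
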