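import Cfsg.Statements.S5747

set_option autoImplicit false
open Cfsg

namespace Cfsg.Agent.S5747

section
variable {G Ω : Type*} [Group G] [MulAction G Ω]

/-- The points `f i` have trivial pointwise stabiliser. -/
def IsBase (G : Type*) [Group G] [MulAction G Ω] {t : ℕ} (f : Fin t → Ω) : Prop :=
  ∀ g : G, (∀ i : Fin t, g • f i = f i) → g = 1

/-- Irredundant sequences. -/
def Irr (G : Type*) [Group G] [MulAction G Ω] {t : ℕ} (f : Fin t → Ω) : Prop :=
  ∀ i : Fin t, ∃ g : G, (∀ j : Fin t, j < i → g • f j = f j) ∧ g • f i ≠ f i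

/-- Independent sequences. -/
def Ind (G : Type*) [Group G] [MulAction G Ω] {t : ℕ} (f : Fin t → Ω) : Prop :=
  ∀ i : Fin t, ∃ g : G, (∀ j : Fin t, j ≠ i → g • f j = f j) ∧ g • f i ≠ f i

theorem exists_shorter {t : ℕ} (f : Fin t → Ω) (hf : IsBase G f) (hn : ¬ Irr G f) :
    ∃ (s : ℕ) (f' : Fin s → Ω), s < t ∧ IsBase G f' := by
  unfold Irr at hn
  push Not at hn
  obtain ⟨i, hi⟩ := hn
  obtain ⟨s, rfl⟩ : ∃ s, t = s + 1 := ⟨t - 1, by have := i.2; omega⟩
  refine ⟨s, f ∘ i.succAbove, Nat.lt_succ_self s, fun g hg => hf g ?_⟩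
  have h1 : ∀ j, j ≠ i → g • f j = f j := by
    intro j hj
    obtain ⟨k, rfl⟩ := Fin.exists_succAbove_eq hj
    exact hg k
  intro j
  by_cases hj : j = i
  · subst hj
    exact hi g fun k hk => h1 k hk.ne
  · exact h1 j hj

theorem exists_irr_base (t : ℕ) : ∀ f : Fin t → Ω, IsBase G f →
    ∃ (s : ℕ) (f' : Fin s → Ω), s ≤ t ∧ IsBase G f' ∧ Irr G f' := by
  induction t using Nat.strong_induction_on with
  | _ t ih =>
    intro f hf
    by_cases h : Irr G f
    · exact ⟨t, f, le_rfl, hf, h⟩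
    · obtain ⟨s, f', hs, hf'⟩ := exists_shorter f hf h
      obtain ⟨s', f'', hs', h'⟩ := ih s hs f' hf'
      exact ⟨s', f'', hs'.trans hs.le, h'⟩

theorem exists_extend [Finite G] (hfaith : ∀ g : G, (∀ x : Ω, g • x = x) → g = 1) (N : ℕ) :
    ∀ (t : ℕ) (f : Fin t → Ω), {g : G | ∀ i, g • f i = f i}.ncard ≤ N → Irr G f →
      ∃ (s : ℕ) (f' : Fin s → Ω) (h : t ≤ s), IsBase G f' ∧ Irr G f' ∧ ∀ i, f' (Fin.castLE h i) = f i := by
  induction N with
  | zero =>
    intro t f hN _
    have : 0 < {g : G | ∀ i, g • f i = f i}.ncard :=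
      (Set.ncard_pos (Set.toFinite _)).2 ⟨1, fun i => one_smul G _⟩
    omega
  | succ N ih =>
    intro t f hN hf
    by_cases hb : IsBase G f
    · exact ⟨t, f, le_rfl, hb, hf, fun i => rfl⟩
    unfold IsBase at hb
    push Not at hb
    obtain ⟨g, hg, hg1⟩ := hb
    obtain ⟨x, hx⟩ : ∃ x : Ω, g • x ≠ x := by
      by_contra hcon
      push Not at hcon
      exact hg1 (hfaith g hcon)
    have h1 : Irr G (Fin.snoc (α := fun _ => Ω) f x) := by
      intro i
      refine Fin.lastCases ?_ (fun i => ?_) i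
      · refine ⟨g, fun j hj => ?_, by simpa using hx⟩
        obtain ⟨k, rfl⟩ := Fin.exists_castSucc_eq.2 hj.ne
        simpa using hg k
      · obtain ⟨h, h2, h3⟩ := hf i
        refine ⟨h, fun j hj => ?_, by simpa using h3⟩
        obtain ⟨k, rfl⟩ := Fin.exists_castSucc_eq.2 (hj.trans (Fin.castSucc_lt_last i)).ne
        simpa using h2 k (Fin.castSucc_lt_castSucc_iff.1 hj)
    have h2 : {g : G | ∀ i, g • (Fin.snoc (α := fun _ => Ω) f x) i =
        (Fin.snoc (α := fun _ => Ω) f x) i}.ncard < {g : G | ∀ i, g • f i = f i}.ncard := by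
      apply Set.ncard_lt_ncard _ (Set.toFinite _)
      refine ⟨fun h hh i => by simpa using hh i.castSucc, fun hsub => hx ?_⟩
      simpa using hsub hg (Fin.last t)
    obtain ⟨s, f', hs, h3, h4, h5⟩ := ih (t + 1) _ (by omega) h1
    refine ⟨s, f', by omega, h3, h4, fun i => ?_⟩
    have := h5 i.castSucc
    rw [Fin.snoc_castSucc] at this
    exact this

theorem ind_of_irr [Finite G] (hfaith : ∀ g : G, (∀ x : Ω, g • x = x) → g = 1)
    (H : ∀ (t : ℕ) (f : Fin t → Ω) (σ : Equiv.Perm (Fin t)), IsBase G f ∧ Irr G f →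
      IsBase G (f ∘ σ) ∧ Irr G (f ∘ σ)) {t : ℕ} (f : Fin t → Ω) (hf : Irr G f) : Ind G f := by
  classical
  intro i
  obtain ⟨s, f', hs, h1, h2, h3⟩ := exists_extend hfaith _ t f le_rfl hf
  have hi := i.2
  let l : Fin t := ⟨t - 1, by omega⟩
  obtain ⟨g, hg1, hg2⟩ :=
    (H s f' (Equiv.swap (Fin.castLE hs i) (Fin.castLE hs l)) ⟨h1, h2⟩).2 (Fin.castLE hs l)
  refine ⟨g, fun j hj => ?_, by simpa [h3] using hg2⟩
  by_cases hjl : j = l
  · have := hg1 (Fin.castLE hs i) (by
      have : i ≠ l := fun h => hj (hjl.trans h.symm)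
      have h4 : i.1 ≠ t - 1 := fun h => this (Fin.ext h)
      change i.1 < t - 1
      omega)
    simpa [h3, hjl] using this
  · have := hg1 (Fin.castLE hs j) (by
      have h4 : j.1 ≠ t - 1 := fun h => hjl (Fin.ext h)
      have := j.2
      change j.1 < t - 1
      omega)
    rw [Function.comp_apply, Equiv.swap_apply_of_ne_of_ne
      (fun h => hj (Fin.castLE_injective hs h)) (fun h => hjl (Fin.castLE_injective hs h)), h3] at this
    exact this

theorem le_of_ind [Finite G] (hfaith : ∀ g : G, (∀ x : Ω, g • x = x) → g = 1)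
    (H : ∀ (t : ℕ) (f : Fin t → Ω) (σ : Equiv.Perm (Fin t)), IsBase G f ∧ Irr G f →
      IsBase G (f ∘ σ) ∧ Irr G (f ∘ σ)) {t t' : ℕ} (f : Fin t → Ω) (hf : IsBase G f) (N : ℕ) :
    ∀ f' : Fin t' → Ω, {i | f' i ∉ Set.range f}.ncard ≤ N → Ind G f' → t' ≤ t := by
  classical
  induction N with
  | zero =>
    intro f' hN hf'
    have h0 : {i | f' i ∉ Set.range f} = ∅ := (Set.ncard_eq_zero (Set.toFinite _)).1 (by omega)
    have h1 : ∀ i, ∃ k, f k = f' i := by
      intro i
      by_contra h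
      have : i ∈ {i | f' i ∉ Set.range f} := h
      rw [h0] at this
      exact this
    choose k hk using h1
    have hinj : Function.Injective k := by
      intro i j hij
      by_contra hne
      obtain ⟨g, hg1, hg2⟩ := hf' i
      apply hg2
      rw [← hk i, hij, hk j]
      exact hg1 j (Ne.symm hne)
    simpa using Fintype.card_le_of_injective k hinj
  | succ N ih =>
    intro f' hN hf'
    by_cases h0 : {i | f' i ∉ Set.range f}.ncard ≤ N
    · exact ih f' h0 hf'
    obtain ⟨i, hi⟩ : {i | f' i ∉ Set.range f}.Nonempty :=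
      (Set.ncard_pos (Set.toFinite _)).1 (by omega)
    obtain ⟨g, hg1, hg2⟩ := hf' i
    obtain ⟨k, hk⟩ : ∃ k, g • f k ≠ f k := by
      by_contra hcon
      push Not at hcon
      apply hg2
      rw [hf g hcon, one_smul]
    have hi' := i.2
    let l : Fin t' := ⟨t' - 1, by omega⟩
    have hl : ∀ j j' : Fin t', j' < j → j' ≠ l := by
      intro j j' h h'
      have h1 : j'.1 = t' - 1 := congrArg Fin.val h'
      have h2 : j'.1 < j.1 := h
      have := j.2
      omega
    have hσ : ∀ j : Fin t', j ≠ l → Equiv.swap i l j ≠ i := by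
      intro j hj h
      apply hj
      rw [Equiv.swap_apply_eq_iff] at h
      simpa using h
    have hirr : Irr G (Function.update f' i (f k) ∘ Equiv.swap i l) := by
      intro j
      by_cases hj : j = l
      · refine ⟨g, fun j' hj' => ?_, by simpa [hj] using hk⟩
        have := hσ j' (hl j j' hj')
        simp only [Function.comp_apply, Function.update_of_ne this]
        exact hg1 _ this
      · obtain ⟨h, hh1, hh2⟩ := hf' (Equiv.swap i l j)
        refine ⟨h, fun j' hj' => ?_, ?_⟩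
        · simp only [Function.comp_apply, Function.update_of_ne (hσ j' (hl j j' hj'))]
          exact hh1 _ fun h' => hj'.ne ((Equiv.swap i l).injective h')
        · simpa only [Function.comp_apply, Function.update_of_ne (hσ j hj)] using hh2
    have hind := ind_of_irr hfaith H _ hirr
    have hind' : Ind G (Function.update f' i (f k)) := by
      intro j
      obtain ⟨h, hh1, hh2⟩ := hind (Equiv.swap i l j)
      refine ⟨h, fun j' hj' => ?_, by simpa using hh2⟩
      simpa using hh1 (Equiv.swap i l j') fun h' => hj' ((Equiv.swap i l).injective h')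
    refine ih _ ?_ hind'
    have : {j | Function.update f' i (f k) j ∉ Set.range f}.ncard < {i | f' i ∉ Set.range f}.ncard := by
      apply Set.ncard_lt_ncard _ (Set.toFinite _)
      refine ⟨fun j hj => ?_, fun hsub => ?_⟩
      · by_cases hji : j = i
        · rw [hji]; exact hi
        · simpa [Function.update_of_ne hji] using hj
      · exact hsub hi ⟨k, by simp⟩
    omega

end

/-- Let a finite group G act on a finite set Ω. An irredundant base is a sequence of points ω₁, …, ω_t whose pointwise stabiliser is trivial and in which each ω_i is moved by some element fixing ω₁, …, ω_{i−1}. Then all irredundant bases have the same length if and only if every reordering of an irredundant base is again an irredundant base. -/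
theorem result {G Ω : Type*} [Group G] [Finite G] [MulAction G Ω] [Fintype Ω] :
    (∀ (t t' : ℕ) (f : Fin t → Ω) (f' : Fin t' → Ω), ((∀ g : G, (∀ i : Fin t, g • f i = f i) → g = 1) ∧ ∀ i : Fin t, ∃ g : G, (∀ j : Fin t, j < i → g • f j = f j) ∧ g • f i ≠ f i) → ((∀ g : G, (∀ i : Fin t', g • f' i = f' i) → g = 1) ∧ ∀ i : Fin t', ∃ g : G, (∀ j : Fin t', j < i → g • f' j = f' j) ∧ g • f' i ≠ f' i) → t = t') ↔
    (∀ (t : ℕ) (f : Fin t → Ω) (σ : Equiv.Perm (Fin t)), ((∀ g : G, (∀ i : Fin t, g • f i = f i) → g = 1) ∧ ∀ i : Fin t, ∃ g : G, (∀ j : Fin t, j < i → g • f j = f j) ∧ g • f i ≠ f i) → ((∀ g : G, (∀ i : Fin t, g • (f ∘ σ) i = (f ∘ σ) i) → g = 1) ∧ ∀ i : Fin t, ∃ g : G, (∀ j : Fin t, j < i → g • (f ∘ σ) j = (f ∘ σ) j) ∧ g • (f ∘ σ) i ≠ (f ∘ σ) i)) := by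
  constructor
  · rintro H t f σ ⟨hb, hi⟩
    have hb' : IsBase G (f ∘ σ) := fun g hg => hb g fun i => by simpa using hg (σ.symm i)
    refine ⟨hb', ?_⟩
    by_contra hn
    obtain ⟨s, f', hs, hf'⟩ := exists_shorter (f ∘ σ) hb' hn
    obtain ⟨s', f'', hs', h1, h2⟩ := exists_irr_base s f' hf'
    have := H t s' f f'' ⟨hb, hi⟩ ⟨h1, h2⟩
    omega
  · rintro H t t' f f' ⟨hb, hi⟩ ⟨hb', hi'⟩
    have hfaith : ∀ g : G, (∀ x : Ω, g • x = x) → g = 1 := fun g hg => hb g fun i => hg _
    exact le_antisymm (le_of_ind hfaith H f' hb' _ f le_rfl (ind_of_irr hfaith H f hi))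
      (le_of_ind hfaith H f hb _ f' le_rfl (ind_of_irr hfaith H f' hi'))

end Cfsg.Agent.S5747
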