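import Cfsg.Statements.S5751
import Cfsg.Agent.H31.E8Core

set_option autoImplicit false
open Cfsg

namespace Cfsg.Agent.S5751

open Cfsg.Agent.H31

/-- An extremal example for iterated cores of conjugate maximal subgroups: there exist a finite group G and two distinct conjugate maximal subgroups M₁, M₂ of G, with M₁ having trivial core in G, such that, if we define two descending sequences of subgroups by A₀ = M₁, B₀ = M₂ and, for every i, A_{i+1} = the core in M₁ of A_i ∩ B_i and B_{i+1} = the core in M₂ of A_i ∩ B_i (the core in M of a subgroup Y ≤ M is the largest normal subgroup of M contained in Y), the subgroup A₆ is trivial while A₅ is not (so the index 6 cannot be lowered to 5). (One example is a maximal parabolic subgroup of the Chevalley group of type E₈ over a finite field and a suitable conjugate of it.) -/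
theorem result :
    ∃ (G : Type) (_ : Group G) (_ : Finite G) (M₁ M₂ : Subgroup G) (g : G) (A B : ℕ → Subgroup G),
      IsCoatom M₁ ∧ M₂ = M₁.map (MulAut.conj g).toMonoidHom ∧ M₁ ≠ M₂ ∧ M₁.normalCore = ⊥ ∧ A 0 = M₁ ∧ B 0 = M₂ ∧
      (∀ i, A (i + 1) = ((A i ⊓ B i).subgroupOf M₁).normalCore.map M₁.subtype) ∧
      (∀ i, B (i + 1) = ((A i ⊓ B i).subgroupOf M₂).normalCore.map M₂.subtype) ∧ A 6 = ⊥ ∧ A 5 ≠ ⊥ := by
  obtain ⟨G, _, _, M, n, h1, h2, h3, h4, h5, h6⟩ := exists_coreSeq_E8
  have e : M.map (MulAut.conj n⁻¹).toMonoidHom = M.comap (MulAut.conj n).toMonoidHom := by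
    ext x
    rw [Subgroup.mem_map_equiv]
    simp [Subgroup.mem_comap]
  refine ⟨G, inferInstance, inferInstance, M, M.comap (MulAut.conj n).toMonoidHom, n⁻¹, coreSeq M n,
    fun i => (coreSeq M n i).comap (MulAut.conj n).toMonoidHom, h1, e.symm, fun h => h2 ?_, ?_,
    rfl, rfl, fun _ => rfl, fun i => coreSeq_comap_succ h3 i, h5, h6⟩
  · rw [← h4]
    exact Subgroup.mem_normalizer_iff.2 fun x => by
      nth_rewrite 1 [h]
      rfl
  · rw [eq_bot_iff, ← h5]
    have : ∀ i, M.normalCore ≤ coreSeq M n i := fun i => by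
      induction i with
      | zero => exact M.normalCore_le
      | succ i ih =>
        intro x hx
        refine mem_coreSeq_succ.2 ⟨M.normalCore_le hx, fun g _ => ?_⟩
        have h7 := M.normalCore_normal.conj_mem x hx g
        exact ⟨ih h7, ih (M.normalCore_normal.conj_mem _ h7 n)⟩
    exact this 6

end Cfsg.Agent.S5751
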