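import Cfsg.Statements.S5753
import Cfsg.Agent.H38.Bin5

set_option autoImplicit false
open Cfsg

namespace Cfsg.Agent.S5753

theorem add_main0 {V H : Type*} [AddCommGroup V] [Finite V] [Nontrivial V] [Group H] [Finite H]
    [DistribMulAction H V] [FaithfulSMul H V] {p : ℕ} [Fact p.Prime] [Module (ZMod p) V]
    (hB : H38.Bin.BinP H V)
    (hirr : ∀ S : AddSubgroup V, (∀ g : H, ∀ v ∈ S, g • v ∈ S) → S = ⊥ ∨ S = ⊤) :
    (Nat.card V = p ∧ Nat.card H ≤ 2) ∨
    ∃ (F E : Type) (_ : Field F) (_ : Fintype F) (_ : Field E) (_ : Fintype E) (_ : Algebra F E)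
      (e : V ≃+ E), Module.finrank F E = 2 ∧
      (∀ g : H, ∃ (a : E) (φ : E ≃ₐ[F] E), Algebra.norm F a = 1 ∧ ∀ v, e (g • v) = a * φ (e v)) ∧
      (∀ (a : E) (φ : E ≃ₐ[F] E), Algebra.norm F a = 1 → ∃ g : H, ∀ v, e (g • v) = a * φ (e v)) := by
  have : SMulCommClass H (ZMod p) V := ⟨fun h k v =>
    ZMod.map_smul (DistribSMul.toAddMonoidHom V h) k v⟩
  refine (H38.Bin.linear_main (K := ZMod p) hB fun S hS => ?_).imp (fun h => ⟨?_, h.2⟩) id
  · refine (hirr S.toAddSubgroup hS).imp (fun h => ?_) (fun h => ?_)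
    · exact Submodule.toAddSubgroup_injective h
    · exact Submodule.toAddSubgroup_injective h
  · rw [Module.natCard_eq_pow_finrank (K := ZMod p), h.1, pow_one, Nat.card_zmod]

theorem add_main {V H : Type*} [AddCommGroup V] [Finite V] [Nontrivial V] [Group H] [Finite H]
    [DistribMulAction H V] [FaithfulSMul H V] {p : ℕ} (hp : p.Prime) (hpv : ∀ v : V, p • v = 0)
    (hB : H38.Bin.BinP H V)
    (hirr : ∀ S : AddSubgroup V, (∀ g : H, ∀ v ∈ S, g • v ∈ S) → S = ⊥ ∨ S = ⊤) :
    (Nat.card V = p ∧ Nat.card H ≤ 2) ∨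
    ∃ (F E : Type) (_ : Field F) (_ : Fintype F) (_ : Field E) (_ : Fintype E) (_ : Algebra F E)
      (e : V ≃+ E), Module.finrank F E = 2 ∧
      (∀ g : H, ∃ (a : E) (φ : E ≃ₐ[F] E), Algebra.norm F a = 1 ∧ ∀ v, e (g • v) = a * φ (e v)) ∧
      (∀ (a : E) (φ : E ≃ₐ[F] E), Algebra.norm F a = 1 → ∃ g : H, ∀ v, e (g • v) = a * φ (e v)) :=
  @add_main0 V H _ _ _ _ _ _ _ p ⟨hp⟩ (AddCommGroup.zmodModule hpv) hB hirr

/-- The binary primitive permutation groups of affine type (the known proof uses the classification of the finite simple groups). Let a finite group G act faithfully and primitively on a finite set Ω, with a non-trivial abelian normal subgroup, and suppose the action is binary: for every n ≥ 2 and all n-tuples I, J of points, if for every pair of positions some element of G carries the corresponding pair of entries of I to those of J, then a single element carries I to J. Then either Ω has a prime number of points and every point stabilizer has order at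 most 2, or Ω can be identified with a field E that is a quadratic extension of a subfield F in such a way that the permutations induced by G are exactly the maps x ↦ a·φ(x) + b with a ∈ E of norm 1 over F, φ an automorphism of E over F and b ∈ E (the affine group of the anisotropic plane orthogonal group). -/
theorem result {G Ω : Type*} [Group G] [Finite G] [MulAction G Ω] [FaithfulSMul G Ω] [Fintype Ω]
    (hprim : MulAction.IsPreprimitive G Ω)
    (haff : ∃ N : Subgroup G, N.Normal ∧ N ≠ ⊥ ∧ IsMulCommutative ↥N)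
    (hbin : ∀ (n : ℕ) (I J : Fin n → Ω), 2 ≤ n →
      (∀ i j : Fin n, i ≠ j → ∃ g : G, g • I i = J i ∧ g • I j = J j) → ∃ g : G, ∀ i, g • I i = J i) :
    ((Fintype.card Ω).Prime ∧ ∀ ω : Ω, Nat.card ↥(MulAction.stabilizer G ω) ≤ 2) ∨
    (∃ (F E : Type) (_ : Field F) (_ : Fintype F) (_ : Field E) (_ : Fintype E) (_ : Algebra F E) (e : Ω ≃ E),
        Module.finrank F E = 2 ∧
        ∀ σ : Equiv.Perm Ω, σ ∈ (MulAction.toPermHom G Ω).range ↔
          ∃ (a b : E) (φ : E ≃ₐ[F] E), Algebra.norm F a = 1 ∧ ∀ ω : Ω, e (σ ω) = a * φ (e ω) + b) := by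
  classical
  obtain ⟨N, hNn, hN1, hNc⟩ := haff
  have htr : ∀ M : Subgroup G, M.Normal → M ≠ ⊥ → MulAction.IsPretransitive M Ω := by
    intro M hM hM1
    refine MulAction.IsQuasiPreprimitive.isPretransitive_of_normal (fun h => hM1 ?_)
    rw [eq_bot_iff]
    intro m hm
    refine eq_of_smul_eq_smul (α := Ω) fun ω => ?_
    have : ω ∈ MulAction.fixedPoints M Ω := h ▸ Set.mem_univ ω
    rw [one_smul]; exact this ⟨m, hm⟩
  have hcm : ∀ a ∈ N, ∀ b ∈ N, a * b = b * a := fun a ha b hb =>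
    congrArg Subtype.val (hNc.is_comm.comm ⟨a, ha⟩ ⟨b, hb⟩)
  have hreg : ∀ a ∈ N, ∀ ω : Ω, a • ω = ω → a = 1 := by
    intro a ha ω h
    refine eq_of_smul_eq_smul (α := Ω) fun ω' => ?_
    obtain ⟨m, rfl⟩ := (htr N hNn hN1).exists_smul_eq ω ω'
    rw [one_smul, Subgroup.smul_def, ← mul_smul, hcm a ha m m.2, mul_smul, h]
  have hnorm : ∀ M : Subgroup G, M.Normal → M ≠ ⊥ → M ≤ N → ∀ ω : Ω, N ≤ M := by
    intro M hM hM1 hle ω a ha
    obtain ⟨m, hm⟩ := (htr M hM hM1).exists_smul_eq ω (a • ω)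
    have : (m : G)⁻¹ * a = 1 := hreg _ (N.mul_mem (N.inv_mem (hle m.2)) ha) ω (by
      rw [mul_smul, ← hm, Subgroup.smul_def, inv_smul_smul])
    rw [← inv_mul_eq_one.1 this]; exact m.2
  obtain ⟨⟨n0, hn0⟩, hn01⟩ := Subgroup.ne_bot_iff_exists_ne_one.1 hN1
  replace hn01 : n0 ≠ 1 := fun h => hn01 (Subtype.ext h)
  obtain ⟨ω0, -⟩ : ∃ ω : Ω, n0 • ω ≠ ω := by
    by_contra hc
    push Not at hc
    exact hn01 (eq_of_smul_eq_smul (α := Ω) fun ω => by rw [hc, one_smul])
  have hcard : Nat.card N ≠ 1 := fun h => hN1 (Subgroup.card_eq_one.1 h)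
  obtain ⟨p, hp, hpd⟩ := Nat.exists_prime_and_dvd hcard
  have := Fact.mk hp
  obtain ⟨x, hx⟩ := exists_prime_orderOf_dvd_card' p hpd
  have hexp : ∀ a ∈ N, a ^ p = 1 := by
    let M : Subgroup G :=
      { carrier := {a | a ∈ N ∧ a ^ p = 1}
        mul_mem' := fun {a b} ha hb => ⟨N.mul_mem ha.1 hb.1, by
          rw [Commute.mul_pow (hcm a ha.1 b hb.1), ha.2, hb.2, one_mul]⟩
        one_mem' := ⟨N.one_mem, one_pow _⟩
        inv_mem' := fun {a} ha => ⟨N.inv_mem ha.1, by rw [inv_pow, ha.2, inv_one]⟩ }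
    have hM : M.Normal := ⟨fun a ha g => ⟨hNn.conj_mem a ha.1 g, by
      rw [conj_pow, ha.2, mul_one, mul_inv_cancel]⟩⟩
    have hM1 : M ≠ ⊥ := by
      intro h
      have h1 : (x : G) ∈ M := ⟨x.2, by
        rw [← Subgroup.coe_pow, ← hx, pow_orderOf_eq_one]; rfl⟩
      rw [h, Subgroup.mem_bot] at h1
      have : x = 1 := Subtype.ext h1
      rw [this, orderOf_one] at hx
      exact hp.one_lt.ne hx
    exact fun a ha => (hnorm M hM hM1 (fun a ha => ha.1) ω0 ha).2
  letI : CommGroup N := { (inferInstance : Group N) with mul_comm := hNc.is_comm.comm }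
  let V := Additive N
  have hpv : ∀ v : V, p • v = 0 := fun v => by
    change Additive.ofMul (v.toMul ^ p) = 0
    have : v.toMul ^ p = 1 := Subtype.ext (hexp _ v.toMul.2)
    rw [this]; rfl
  let H := MulAction.stabilizer G ω0
  letI : DistribMulAction H V :=
    { smul := fun h v => Additive.ofMul (MulAut.conjNormal (h : G) v.toMul)
      one_smul := fun v => by
        change Additive.ofMul (MulAut.conjNormal (1 : G) v.toMul) = v
        rw [map_one]; rfl
      mul_smul := fun a b v => by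
        change Additive.ofMul (MulAut.conjNormal ((a : G) * b) v.toMul) = _
        rw [map_mul]; rfl
      smul_zero := fun a => by
        change Additive.ofMul (MulAut.conjNormal (a : G) 1) = 0
        rw [map_one]; rfl
      smul_add := fun a v w => by
        change Additive.ofMul (MulAut.conjNormal (a : G) (v.toMul * w.toMul)) = _
        rw [map_mul]; rfl }
  let c : V → G := fun v => (v.toMul : N)
  have hcs : ∀ (h : H) (v : V), c (h • v) = h * c v * (h : G)⁻¹ := fun h v => rfl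
  have hca : ∀ v w : V, c (v + w) = c v * c w := fun v w => rfl
  have hcN : ∀ v, c v ∈ N := fun v => v.toMul.2
  have hci : ∀ v w, c v = c w → v = w := fun v w h => Subtype.ext h
  let φ0 : V → Ω := fun v => c v • ω0
  have hφ0 : Function.Bijective φ0 := by
    constructor
    · intro v w h
      refine hci _ _ (inv_mul_eq_one.1 (hreg _ (N.mul_mem (N.inv_mem (hcN v)) (hcN w)) ω0 ?_))
      rw [mul_smul, inv_smul_eq_iff]; exact h.symm
    · intro ω
      obtain ⟨m, hm⟩ := (htr N hNn hN1).exists_smul_eq ω0 ω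
      exact ⟨Additive.ofMul m, hm⟩
  let φ : V ≃ Ω := Equiv.ofBijective φ0 hφ0
  have hφ : ∀ v, φ v = c v • ω0 := fun v => rfl
  have haff : ∀ (h : H) (b v : V), (c b * h) • φ v = φ (h • v + b) := by
    intro h b v
    rw [add_comm, hφ, hφ, hca, hcs, mul_smul, mul_smul, mul_smul, mul_smul]
    have : (h : G)⁻¹ • ω0 = ω0 := (h⁻¹).2
    rw [this]
  have hdec : ∀ g : G, ∃ (h : H) (b : V), g = c b * h := by
    intro g
    obtain ⟨b, hb⟩ := φ.surjective (g • ω0)
    refine ⟨⟨(c b)⁻¹ * g, ?_⟩, b, by simp⟩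
    rw [MulAction.mem_stabilizer_iff, mul_smul, ← hb, hφ, inv_smul_smul]
  have hc0 : c 0 = 1 := rfl
  have : FaithfulSMul H V := ⟨fun {a b} h => Subtype.ext (eq_of_smul_eq_smul (α := Ω) fun ω => by
    obtain ⟨v, rfl⟩ := φ.surjective ω
    have h1 := haff a 0 v
    have h2 := haff b 0 v
    rw [hc0, one_mul] at h1 h2
    rw [h1, h2, h v])⟩
  have : Finite V := inferInstanceAs (Finite N)
  have : Nontrivial V := ⟨⟨Additive.ofMul ⟨n0, hn0⟩, 0, fun h => hn01 (congrArg c h)⟩⟩
  have hB : H38.Bin.BinP H V := by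
    intro X f hf
    rcases X.eq_empty_or_nonempty with rfl | ⟨x0, hx0⟩
    · exact ⟨1, 0, fun x hx => hx.elim⟩
    have : Nonempty X := ⟨⟨x0, hx0⟩⟩
    have : Fintype X := Fintype.ofFinite X
    obtain ⟨j⟩ : Nonempty (X ↪ Fin (Fintype.card X + 2)) :=
      Function.Embedding.nonempty_of_card_le (by simp)
    have hs := Function.invFun_surjective j.injective
    obtain ⟨g, hg⟩ := hbin _ (fun i => φ (Function.invFun j i).1)
      (fun i => φ (f (Function.invFun j i).1)) (by omega) (fun i k _ => by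
        obtain ⟨h, hh⟩ := hf _ (Function.invFun j i).2 _ (Function.invFun j k).2
        refine ⟨c (f (Function.invFun j k).1 - h • (Function.invFun j k).1) * h, ?_, ?_⟩
        · rw [haff]; congr 1
          rw [smul_sub] at hh
          rw [eq_add_of_sub_eq hh]; abel
        · rw [haff]; congr 1; abel)
    obtain ⟨h, b, rfl⟩ := hdec g
    refine ⟨h, b, fun x hx => ?_⟩
    obtain ⟨i, hi⟩ := hs ⟨x, hx⟩
    have := hg i
    simp only [hi, haff] at this
    exact (φ.injective this).symm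
  have hirr : ∀ S : AddSubgroup V, (∀ g : H, ∀ v ∈ S, g • v ∈ S) → S = ⊥ ∨ S = ⊤ := by
    intro S hS
    let M : Subgroup G :=
      { carrier := {a | ∃ v ∈ S, c v = a}
        mul_mem' := by
          rintro _ _ ⟨v, hv, rfl⟩ ⟨w, hw, rfl⟩
          exact ⟨v + w, S.add_mem hv hw, rfl⟩
        one_mem' := ⟨0, S.zero_mem, rfl⟩
        inv_mem' := by
          rintro _ ⟨v, hv, rfl⟩
          exact ⟨-v, neg_mem hv, rfl⟩ }
    have hM : M.Normal := ⟨by
      rintro _ ⟨v, hv, rfl⟩ g
      obtain ⟨h, b, rfl⟩ := hdec g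
      refine ⟨h • v, hS h v hv, ?_⟩
      rw [mul_inv_rev, show c b * h * c v * ((h : G)⁻¹ * (c b)⁻¹) =
        c b * (h * c v * (h : G)⁻¹) * (c b)⁻¹ by group, ← hcs, hcm _ (hcN b) _ (hcN _),
        mul_inv_cancel_right]⟩
    by_cases hM1 : M = ⊥
    · left
      rw [eq_bot_iff]
      intro v hv
      have : c v ∈ M := ⟨v, hv, rfl⟩
      rw [hM1] at this
      exact hci _ _ this
    · right
      rw [eq_top_iff]
      intro v _
      obtain ⟨w, hw, h⟩ := hnorm M hM hM1 (by rintro _ ⟨v, -, rfl⟩; exact hcN v) ω0 (hcN v)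
      rw [← hci _ _ h]; exact hw
  rcases add_main hp hpv hB hirr with ⟨h1, h2⟩ | ⟨F, E, _, _, _, _, _, e, hF, h1, h2⟩
  · left
    constructor
    · rw [← Nat.card_eq_fintype_card, ← Nat.card_congr φ, h1]; exact hp
    · intro ω
      obtain ⟨g, rfl⟩ := hprim.exists_smul_eq ω0 ω
      rw [← Nat.card_congr (MulAction.stabilizerEquivStabilizer (g := g) (a := ω0) rfl).toEquiv]
      exact h2
  · right
    refine ⟨F, E, inferInstance, inferInstance, inferInstance, inferInstance, inferInstance,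
      φ.symm.trans e.toEquiv, hF, fun σ => ⟨?_, ?_⟩⟩
    · rintro ⟨g, rfl⟩
      obtain ⟨h, b, rfl⟩ := hdec g
      obtain ⟨a, ψ, ha, hh⟩ := h1 h
      refine ⟨a, e b, ψ, ha, fun ω => ?_⟩
      obtain ⟨v, rfl⟩ := φ.surjective ω
      change e (φ.symm ((c b * h) • φ v)) = a * ψ (e (φ.symm (φ v))) + e b
      rw [haff, φ.symm_apply_apply, φ.symm_apply_apply, map_add, hh]
    · rintro ⟨a, b, ψ, ha, hσ⟩
      obtain ⟨h, hh⟩ := h2 a ψ ha
      refine ⟨c (e.symm b) * h, Equiv.ext fun ω => ?_⟩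
      obtain ⟨v, rfl⟩ := φ.surjective ω
      refine (φ.symm.trans e.toEquiv).injective ?_
      rw [hσ]
      change e (φ.symm ((c (e.symm b) * h) • φ v)) = a * ψ (e (φ.symm (φ v))) + b
      rw [haff, φ.symm_apply_apply, φ.symm_apply_apply, map_add, hh, e.apply_symm_apply]

end Cfsg.Agent.S5753
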