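import Cfsg.Statements.S5754

set_option autoImplicit false
open Cfsg

namespace Cfsg.Agent.S5754

/-- The reflection in a vector of non-zero norm, as an isometry. -/
theorem exists_reflection {F V : Type*} [Field F] [AddCommGroup V] [Module F V]
    (Q : QuadraticForm F V) (w : V) (hw : Q w ≠ 0) :
    ∃ φ : Q.IsometryEquiv Q, ∀ x, φ x = x - ((Q w)⁻¹ * QuadraticMap.polar Q x w) • w := by
  let r : V →ₗ[F] V := LinearMap.id -
    (LinearMap.smulRight ((Q w)⁻¹ • (QuadraticMap.polarBilin Q).flip w) w)
  have hr : ∀ x, r x = x - ((Q w)⁻¹ * QuadraticMap.polar Q x w) • w := by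
    intro x; simp [r]
  have hrr : ∀ x, r (r x) = x := by
    intro x
    rw [hr (r x), hr x, QuadraticMap.polar_sub_left, QuadraticMap.polar_smul_left,
      QuadraticMap.polar_self, sub_sub, ← add_smul]
    have : (Q w)⁻¹ * QuadraticMap.polar Q x w + (Q w)⁻¹ * (QuadraticMap.polar Q x w -
        ((Q w)⁻¹ * QuadraticMap.polar Q x w) • 2 • Q w) = 0 := by
      simp only [smul_eq_mul, nsmul_eq_mul]
      field_simp
      ring
    rw [this, zero_smul, sub_zero]
  refine ⟨{ LinearEquiv.ofInvolutive r hrr with map_app' := fun x => ?_ }, hr⟩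
  change Q (r x) = Q x
  rw [hr, sub_eq_add_neg, ← neg_smul, QuadraticMap.map_add Q, QuadraticMap.map_smul,
    QuadraticMap.polar_smul_right]
  simp only [smul_eq_mul]
  field_simp
  ring

theorem polar_isometry {F V : Type*} [Field F] [AddCommGroup V] [Module F V]
    (Q : QuadraticForm F V) (φ : Q.IsometryEquiv Q) (x y : V) :
    QuadraticMap.polar Q (φ x) (φ y) = QuadraticMap.polar Q x y := by
  simp only [QuadraticMap.polar, ← map_add, QuadraticMap.IsometryEquiv.map_app]

theorem witt_anisotropic {F V : Type*} [Field F] [AddCommGroup V] [Module F V]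
    (Q : QuadraticForm F V) (hQ : Q.Anisotropic) {ι : Type*} (v v' : ι → V)
    (h1 : ∀ i, Q (v i) = Q (v' i))
    (h2 : ∀ i j, QuadraticMap.polar Q (v i) (v j) = QuadraticMap.polar Q (v' i) (v' j))
    (s : Finset ι) : ∃ φ : Q.IsometryEquiv Q, ∀ i ∈ s, φ (v i) = v' i := by
  classical
  induction s using Finset.induction_on with
  | empty => exact ⟨QuadraticMap.IsometryEquiv.refl Q, by simp⟩
  | insert a s ha ih =>
    obtain ⟨φ, hφ⟩ := ih
    by_cases h : φ (v a) = v' a
    · refine ⟨φ, fun i hi => ?_⟩
      rcases Finset.mem_insert.1 hi with rfl | hi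
      · exact h
      · exact hφ i hi
    have hw : Q (φ (v a) - v' a) ≠ 0 := fun h0 => h (sub_eq_zero.1 (hQ _ h0))
    obtain ⟨ρ, hρ⟩ := exists_reflection Q _ hw
    refine ⟨φ.trans ρ, fun i hi => ?_⟩
    change ρ (φ (v i)) = v' i
    rcases Finset.mem_insert.1 hi with rfl | hi
    · have h3 : QuadraticMap.polar Q (φ (v i)) (φ (v i) - v' i) = Q (φ (v i) - v' i) := by
        rw [QuadraticMap.polar_sub_right, QuadraticMap.polar_self, sub_eq_add_neg (φ (v i)),
          QuadraticMap.map_add Q, QuadraticMap.map_neg, QuadraticMap.polar_neg_right,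
          QuadraticMap.IsometryEquiv.map_app, ← h1 i, two_smul]
        ring
      rw [hρ, h3, inv_mul_cancel₀ hw, one_smul, sub_sub_cancel]
    · have h3 : QuadraticMap.polar Q (φ (v i)) (φ (v a) - v' a) = 0 := by
        rw [QuadraticMap.polar_sub_right, polar_isometry, h2, hφ i hi, sub_self]
      rw [hρ, h3, mul_zero, zero_smul, sub_zero, hφ i hi]

/-- Let V be a finite-dimensional vector space over a finite field F carrying an anisotropic quadratic form Q (Q(v) = 0 only for v = 0). Then the group of all maps v ↦ φ(v) + c, with φ an isometry of Q and c ∈ V, acts on V as a binary permutation group: given n ≥ 2 and two n-tuples u, u' of vectors such that every pair of corresponding entries of u is carried to that of u' by such a map, one such map carries u to u'. -/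
theorem result {F V : Type*} [Field F] [Finite F] [AddCommGroup V] [Module F V] [Module.Finite F V]
    (Q : QuadraticForm F V) (hQ : Q.Anisotropic) (n : ℕ) (hn : 2 ≤ n) (u u' : Fin n → V)
    (h2 : ∀ i j : Fin n, i ≠ j → ∃ (φ : Q.IsometryEquiv Q) (c : V), φ (u i) + c = u' i ∧ φ (u j) + c = u' j) :
    ∃ (φ : Q.IsometryEquiv Q) (c : V), ∀ i, φ (u i) + c = u' i := by
  let o : Fin n := ⟨0, by omega⟩
  have hd : ∀ i j, Q (u i - u j) = Q (u' i - u' j) := by
    intro i j
    by_cases hij : i = j
    · simp [hij]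
    obtain ⟨φ, c, h1, h2⟩ := h2 i j hij
    rw [← h1, ← h2, add_sub_add_right_eq_sub, ← map_sub, QuadraticMap.IsometryEquiv.map_app]
  have hp : ∀ x y : V, QuadraticMap.polar Q x y = Q x + Q y - Q (x - y) := by
    intro x y
    rw [sub_eq_add_neg x y, QuadraticMap.map_add Q, QuadraticMap.map_neg, QuadraticMap.polar_neg_right]
    ring
  obtain ⟨φ, hφ⟩ := witt_anisotropic Q hQ (fun i => u i - u o) (fun i => u' i - u' o)
    (fun i => hd i o) (fun i j => by
      rw [hp, hp, hd i o, hd j o, sub_sub_sub_cancel_right, sub_sub_sub_cancel_right, hd]) Finset.univ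
  refine ⟨φ, u' o - φ (u o), fun i => ?_⟩
  have := hφ i (Finset.mem_univ i)
  rw [map_sub] at this
  rw [← sub_add_cancel (u' i) (u' o), ← this]
  abel

end Cfsg.Agent.S5754
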