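import Cfsg.Statements.S5763

set_option autoImplicit false
open Cfsg

namespace Cfsg.Agent.S5763

/-- Base-4 digits. -/
def cf (n x : ℕ) : ℕ := Nat.mod (Nat.shiftRight n (Nat.mul 2 x)) 4
/-- Base-8 digits. -/
def tf (t x : ℕ) : ℕ := Nat.mod (Nat.shiftRight t (Nat.mul 3 x)) 8
/-- Equality of booleans. -/
def bq (a b : Bool) : Bool := cond a b (cond b false true)
/-- The map coded by `t` preserves the pairs and quads coded by `n`. -/
def pres (n t : ℕ) : Bool := [0, 1, 2, 3, 4, 5, 6, 7].all fun x => [0, 1, 2, 3, 4, 5, 6, 7].all fun y =>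
  cond (Nat.ble x y) true
    (cond (bq (Nat.beq (cf n x) (cf n y)) (Nat.beq (cf n (tf t x)) (cf n (tf t y))))
      (bq (Nat.beq (Nat.div (cf n x) 2) (Nat.div (cf n y) 2))
        (Nat.beq (Nat.div (cf n (tf t x)) 2) (Nat.div (cf n (tf t y)) 2))) false)
/-- Weight of four labels. -/
def w (n : ℕ) : ℕ := Nat.add (Nat.add (Nat.pow 16 (cf n 0)) (Nat.pow 16 (cf n 1)))
  (Nat.add (Nat.pow 16 (cf n 2)) (Nat.pow 16 (cf n 3)))
/-- Fifteen involutions. -/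
def L : List ℕ := [14570689, 11789505, 9925825, 14599816, 16406152, 16434376, 16434817, 6852524,
  5017068, 6823845, 4988389, 2206526, 2177406, 371511, 342391]
/-- The check for one lower half. -/
def chk (a : ℕ) : Bool := (List.range 256).all fun b =>
  cond (Nat.beq (Nat.add (w a) (w b)) 8738) (L.any (pres (Nat.add a (Nat.mul 256 b)))) true

theorem key : (List.range 64).all (fun a => chk (Nat.mul 4 a)) = true := by
  decide +kernel

theorem bq_iff {a b c d : ℕ} (h : bq (Nat.beq a b) (Nat.beq c d) = true) : a = b ↔ c = d := by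
  rw [← Nat.beq_eq, ← Nat.beq_eq]
  revert h
  cases Nat.beq a b <;> cases Nat.beq c d <;> simp [bq]

/-- The map on `Fin 8` coded by `t`. -/
def tm (t : ℕ) (x : Fin 8) : Fin 8 := ⟨tf t x, Nat.mod_lt _ (by norm_num)⟩

theorem hL : ∀ t ∈ L, (∀ x, tm t (tm t x) = x) ∧ (∃ x, tm t x ≠ x) ∧
    ∀ x y : Fin 8, (x.1 / 2 = y.1 / 2 ↔ (tm t x).1 / 2 = (tm t y).1 / 2) ∧
      (x.1 / 4 = y.1 / 4 ↔ (tm t x).1 / 4 = (tm t y).1 / 4) := by
  decide +kernel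

/-- The automorphism group of the binary tree with eight leaves. -/
def P₀ : Subgroup (Equiv.Perm (Fin 8)) where
  carrier := {g | ∀ x y : Fin 8, (x.1 / 2 = y.1 / 2 ↔ (g x).1 / 2 = (g y).1 / 2) ∧
    (x.1 / 4 = y.1 / 4 ↔ (g x).1 / 4 = (g y).1 / 4)}
  one_mem' := fun _ _ => ⟨Iff.rfl, Iff.rfl⟩
  mul_mem' := fun {g h} hg hh x y =>
    ⟨(hh x y).1.trans (hg _ _).1, (hh x y).2.trans (hg _ _).2⟩
  inv_mem' := fun {g} hg x y => by
    have := hg (g⁻¹ x) (g⁻¹ y)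
    simp only [Equiv.Perm.coe_inv, Equiv.apply_symm_apply] at this ⊢
    exact ⟨this.1.symm, this.2.symm⟩

theorem isPGroup_P₀ : IsPGroup 2 P₀ := by
  intro g
  refine ⟨3, Subtype.ext (Equiv.ext fun x => ?_)⟩
  have h1 : ∀ g ∈ P₀, ∀ x, (g (g x)).1 / 4 = x.1 / 4 := fun g hg x => by
    have := (hg x (g x)).2
    omega
  have h2 : ∀ g ∈ P₀, (∀ x, (g x).1 / 4 = x.1 / 4) → ∀ x, (g (g x)).1 / 2 = x.1 / 2 :=
    fun g hg h x => by
      have e1 := (hg x (g x)).1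
      have e2 := h x
      have e3 := h (g x)
      omega
  have h3 : ∀ g : Equiv.Perm (Fin 8), (∀ x, (g x).1 / 2 = x.1 / 2) → ∀ x, g (g x) = x :=
    fun g h x => by
      have e1 : g x = x ↔ g (g x) = g x := g.injective.eq_iff.symm
      have e2 := h x
      have e3 := h (g x)
      simp only [Fin.ext_iff] at e1 ⊢
      omega
  have h4 := h3 (g * g * (g * g)) (h2 (g * g) (P₀.mul_mem g.2 g.2) (h1 g g.2)) x
  have h5 : (g : Equiv.Perm (Fin 8)) ^ 2 ^ 3 = g * g * (g * g) * (g * g * (g * g)) := by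
    simp only [show 2 ^ 3 = 8 from rfl, pow_succ, pow_zero, one_mul, mul_assoc]
  change ((g : Equiv.Perm (Fin 8)) ^ 2 ^ 3) x = x
  rw [h5]
  exact h4

theorem exists_mem₀ (z : Equiv.Perm (Fin 8)) (hz : z 0 = 0) :
    ∃ t ∈ P₀, t ≠ 1 ∧ z * t * z⁻¹ ∈ P₀ := by
  let a : ℕ := (z 1).1 / 2 + 4 * ((z 2).1 / 2) + 16 * ((z 3).1 / 2)
  let b : ℕ := (z 4).1 / 2 + 4 * ((z 5).1 / 2) + 16 * ((z 6).1 / 2) + 64 * ((z 7).1 / 2)
  have hcf : ∀ n x, cf n x = n / 2 ^ (2 * x) % 4 := fun n x => by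
    rw [← Nat.shiftRight_eq_div_pow]; rfl
  have hz' : (z 0).1 = 0 := by rw [hz]; rfl
  have hc : ∀ x : Fin 8, cf (4 * a + 256 * b) x = (z x).1 / 2 := by
    have : cf (4 * a + 256 * b) 0 = (z 0).1 / 2 ∧ cf (4 * a + 256 * b) 1 = (z 1).1 / 2 ∧
        cf (4 * a + 256 * b) 2 = (z 2).1 / 2 ∧ cf (4 * a + 256 * b) 3 = (z 3).1 / 2 ∧
        cf (4 * a + 256 * b) 4 = (z 4).1 / 2 ∧ cf (4 * a + 256 * b) 5 = (z 5).1 / 2 ∧
        cf (4 * a + 256 * b) 6 = (z 6).1 / 2 ∧ cf (4 * a + 256 * b) 7 = (z 7).1 / 2 := by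
      simp only [hcf, a, b, Nat.reducePow, Nat.reduceMul]
      omega
    obtain ⟨h0, h1, h2, h3, h4, h5, h6, h7⟩ := this
    intro x
    fin_cases x
    exacts [h0, h1, h2, h3, h4, h5, h6, h7]
  have hb : w (4 * a) + w b = 8738 := by
    have h1 := Equiv.sum_comp z fun y : Fin 8 => 16 ^ (y.1 / 2)
    rw [Fin.sum_univ_eight, Fin.sum_univ_eight] at h1
    have : cf (4 * a) 0 = (z 0).1 / 2 ∧ cf (4 * a) 1 = (z 1).1 / 2 ∧
        cf (4 * a) 2 = (z 2).1 / 2 ∧ cf (4 * a) 3 = (z 3).1 / 2 ∧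
        cf b 0 = (z 4).1 / 2 ∧ cf b 1 = (z 5).1 / 2 ∧
        cf b 2 = (z 6).1 / 2 ∧ cf b 3 = (z 7).1 / 2 := by
      simp only [hcf, a, b, Nat.reducePow, Nat.reduceMul]
      omega
    obtain ⟨h0, h1', h2, h3, h4, h5, h6, h7⟩ := this
    simp only [w, h0, h1', h2, h3, h4, h5, h6, h7, Nat.add_eq, Nat.pow_eq]
    rw [← show _ = 8738 from h1]
    ring
  have h := List.all_eq_true.1 (List.all_eq_true.1 key a (List.mem_range.2 (by omega))) b
    (List.mem_range.2 (by omega))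
  change cond (Nat.beq (w (4 * a) + w b) 8738) (L.any (pres (4 * a + 256 * b))) true = true at h
  rw [hb, Nat.beq_refl, cond_true, List.any_eq_true] at h
  obtain ⟨t, ht, h⟩ := h
  obtain ⟨h1, ⟨x₀, h2⟩, h3⟩ := hL t ht
  refine ⟨Function.Involutive.toPerm (tm t) h1, h3, fun e => h2 (DFunLike.congr_fun e x₀),
    fun x y => ?_⟩
  obtain ⟨x, rfl⟩ := z.surjective x
  obtain ⟨y, rfl⟩ := z.surjective y
  have hm : ∀ x : Fin 8, x.1 ∈ [0, 1, 2, 3, 4, 5, 6, 7] := by decide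
  have h5 : ∀ x y : Fin 8, y < x → ((z x).1 / 2 = (z y).1 / 2 ↔
      (z (tm t x)).1 / 2 = (z (tm t y)).1 / 2) ∧ ((z x).1 / 4 = (z y).1 / 4 ↔
      (z (tm t x)).1 / 4 = (z (tm t y)).1 / 4) := by
    intro x y hxy
    have h4 := List.all_eq_true.1 (List.all_eq_true.1 h x (hm x)) y (hm y)
    have e1 : cf _ (tf t x) = _ := hc (tm t x)
    have e2 : cf _ (tf t y) = _ := hc (tm t y)
    have e3 : Nat.ble x y = false := by
      rw [← Bool.not_eq_true, Nat.ble_eq]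
      exact not_le.2 hxy
    rw [e3, cond_false, hc, hc, e1, e2, Bool.cond_false_right, Bool.and_eq_true] at h4
    refine ⟨bq_iff h4.1, ?_⟩
    have : (z x).1 / 2 / 2 = (z y).1 / 2 / 2 ↔ (z (tm t x)).1 / 2 / 2 = (z (tm t y)).1 / 2 / 2 :=
      bq_iff h4.2
    simpa only [Nat.div_div_eq_div_mul] using this
  simp only [Equiv.Perm.coe_mul, Function.comp, Equiv.Perm.coe_inv, Equiv.symm_apply_apply]
  rcases lt_trichotomy x y with hxy | rfl | hxy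
  · have := h5 y x hxy
    exact ⟨eq_comm.trans (this.1.trans eq_comm), eq_comm.trans (this.2.trans eq_comm)⟩
  · exact ⟨iff_of_true rfl rfl, iff_of_true rfl rfl⟩
  · exact h5 x y hxy

theorem exists_mem (z : Equiv.Perm (Fin 8)) : ∃ t ∈ P₀, t ≠ 1 ∧ z * t * z⁻¹ ∈ P₀ := by
  have h : ∀ v : Fin 8, (∀ x : Fin 8, (x ^^^ v) ^^^ v = x) ∧ v ^^^ v = 0 ∧
      ∀ x y : Fin 8, (x.1 / 2 = y.1 / 2 ↔ (x ^^^ v).1 / 2 = (y ^^^ v).1 / 2) ∧
        (x.1 / 4 = y.1 / 4 ↔ (x ^^^ v).1 / 4 = (y ^^^ v).1 / 4) := by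
    decide +kernel
  obtain ⟨h1, h2, h3⟩ := h (z 0)
  let a := Function.Involutive.toPerm (fun x => x ^^^ z 0) h1
  have ha : a ∈ P₀ := h3
  obtain ⟨t, t1, t2, t3⟩ := exists_mem₀ (a * z) h2
  refine ⟨t, t1, t2, ?_⟩
  simpa [mul_assoc] using P₀.mul_mem (P₀.mul_mem (P₀.inv_mem ha) t3) ha

/-- In the symmetric group on 8 letters any two Sylow 2-subgroups have non-trivial intersection: for a Sylow 2-subgroup H and every element x, H ∩ xHx⁻¹ ≠ 1. -/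
theorem result (H : Sylow 2 (Equiv.Perm (Fin 8))) (x : Equiv.Perm (Fin 8)) :
    (H : Subgroup (Equiv.Perm (Fin 8))) ⊓ (H : Subgroup (Equiv.Perm (Fin 8))).map (MulAut.conj x).toMonoidHom ≠ ⊥ := by
  obtain ⟨Q, hQ⟩ := isPGroup_P₀.exists_le_sylow
  obtain ⟨y, rfl⟩ := MulAction.exists_smul_eq (Equiv.Perm (Fin 8)) Q H
  obtain ⟨t, h1, h2, h3⟩ := exists_mem (y⁻¹ * x⁻¹ * y)
  have hm : ∀ s ∈ P₀, y * s * y⁻¹ ∈ ((y • Q : Sylow 2 _) : Subgroup (Equiv.Perm (Fin 8))) :=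
    fun s hs => ⟨s, hQ hs, rfl⟩
  refine Subgroup.ne_bot_iff_exists_ne_one.2 ⟨⟨y * t * y⁻¹, hm t h1, _, hm _ h3, ?_⟩, fun e => h2 ?_⟩
  · simp [mul_assoc]
  · simpa using congrArg Subtype.val e

end Cfsg.Agent.S5763
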