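import Cfsg.Statements.S5769
import Cfsg.Agent.H34.E7Two
import Cfsg.Agent.H76.SpSpec
import Cfsg.Agent.H76.SpecLin2
import Cfsg.Agent.H76.Unitary
import Cfsg.Agent.H76.SpData

set_option autoImplicit false
open Cfsg

namespace Cfsg.Agent.S5769

/-- The Chevalley group of type E₇ over the field with two elements (generated by its root elements in the adjoint representation) has no subgroup isomorphic to any of PSL₂(64), PSp₄(8), PSL₄(8), PSU₄(8) or PSp₆(8). Here F₈ and F₆₄ denote fields with 8 and 64 elements. -/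
theorem result {F₈ F₆₄ : Type*} [Field F₈] [Fintype F₈] (h8 : Fintype.card F₈ = 8) [Field F₆₄] [Fintype F₆₄] (h64 : Fintype.card F₆₄ = 64)
    (H : Subgroup ↥(Cfsg.Lie.chevE7.group (ZMod 2))) :
    IsEmpty (↥H ≃* Matrix.ProjectiveSpecialLinearGroup (Fin 2) F₆₄) ∧ IsEmpty (↥H ≃* Cfsg.PSp 2 F₈) ∧
    IsEmpty (↥H ≃* Matrix.ProjectiveSpecialLinearGroup (Fin 4) F₈) ∧ IsEmpty (↥H ≃* Cfsg.PSU 4 F₆₄ 8) ∧ IsEmpty (↥H ≃* Cfsg.PSp 3 F₈) := by
  have key : ∀ {K : Type _} [Group K], (∃ g : K, 65 ∣ orderOf g) → IsEmpty (H ≃* K) :=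
    fun ⟨g, hg⟩ => ⟨fun e => H34.E7_two_no_65 (e.symm g) (by
      rwa [Subgroup.orderOf_coe, MulEquiv.orderOf_eq])⟩
  have key' : ∀ {K : Type _} [Group K], (∃ g : K, 65 ∣ orderOf g) → IsEmpty (H ≃* K) :=
    fun ⟨g, hg⟩ => ⟨fun e => H34.E7_two_no_65 (e.symm g) (by
      rwa [Subgroup.orderOf_coe, MulEquiv.orderOf_eq])⟩
  have c8 : CharP F₈ 2 := H76.charP_of_card_eq_pow (k := 3) Nat.prime_two (by norm_num) h8
  have c64 : CharP F₆₄ 2 := H76.charP_of_card_eq_pow (k := 6) Nat.prime_two (by norm_num) h64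
  have : CharP (AlgebraicClosure F₈) 2 := charP_of_injective_algebraMap (algebraMap F₈ _).injective 2
  have : CharP (AlgebraicClosure F₆₄) 2 :=
    charP_of_injective_algebraMap (algebraMap F₆₄ _).injective 2
  have hsp : ∀ m, 2 ≤ m → ∃ g : PSp m F₈, 65 ∣ orderOf g := fun m hm => by
    have hG := H76.models_psp F₈ (AlgebraicClosure F₈) 2 m
    rw [h8] at hG
    obtain ⟨α, a, h2, h3, h4, h5, -⟩ := H76.exists_fadm_torus (L := AlgebraicClosure F₈) (p := 2)
      (good := Even) (Q := ((8 : ℕ) : ℤ)) (by norm_num) (D := 2) two_pos (ε := -1) (Or.inr rfl)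
      (c := 65) (by norm_num)
    refine hG.exists_dvd ((h3.add (H76.fadm_replicate_one (m - 2))).cast (by omega)) fun j hj => ?_
    exact (by norm_num : Nat.Coprime 65 2).dvd_of_dvd_mul_left
      (h2 ▸ hj.dvd_two_mul (e := 1) (e' := 1) (by simp [h4]) (by simp [h5]))
  refine ⟨key ?_, key' (hsp 2 le_rfl), key' ?_, key ?_, key' (hsp 3 (by norm_num))⟩
  · have hG := H76.models_psl (F := F₆₄) (AlgebraicClosure F₆₄) (n := Fin 2) 2
    rw [Fintype.card_fin, h64] at hG
    exact (hG.exists_torus (by norm_num) (D := 2) (c := 65) le_rfl (by decide) (by decide)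
      (H76.sadm_replicate_one _ 0) rfl).imp fun _ h => h.1
  · have hG := H76.models_psl (F := F₈) (AlgebraicClosure F₈) (n := Fin 4) 2
    rw [Fintype.card_fin, h8] at hG
    exact (hG.exists_torus (by norm_num) (D := 4) (c := 65) (by norm_num) (by decide) (by decide)
      (H76.sadm_replicate_one _ 0) rfl).imp fun _ h => h.1
  · have hG := H76.models_psu (F := F₆₄) (q := 8) (AlgebraicClosure F₆₄) 2 h64 (n := 4) (by norm_num)
    exact (hG.exists_torus (by norm_num) (D := 4) (c := 65) (by norm_num) (by decide) (by decide)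
      (H76.sadm_replicate_one _ 0) rfl).imp fun _ h => h.1

end Cfsg.Agent.S5769
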