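import Cfsg.Statements.S5885
import Cfsg.Agent.H33.MinDegree
import Cfsg.Agent.H33.PermBasic

set_option autoImplicit false
open Cfsg

namespace Cfsg.Agent.S5885

theorem exists_action_fin {G : Type*} [Group G] [Finite G] (M : Subgroup G) (n : ℕ)
    (hn : M.index = n) : ∃ (_ : MulAction G (Fin n)) (a : Fin n),
      MulAction.IsPretransitive G (Fin n) ∧ MulAction.stabilizer G a = M := by
  let e : Fin n ≃ G ⧸ M := (Finite.equivFinOfCardEq hn).symm
  letI : MulAction G (Fin n) := e.mulAction G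
  have h : ∀ (g : G) (x : Fin n), g • x = e.symm (g • e x) := fun _ _ => rfl
  refine ⟨inferInstance, e.symm ((1 : G) : G ⧸ M), ⟨fun x y => ?_⟩, ?_⟩
  · obtain ⟨g, hg⟩ := MulAction.exists_smul_eq G (e x) (e y)
    exact ⟨g, by rw [h, hg, e.symm_apply_apply]⟩
  · ext g
    rw [MulAction.mem_stabilizer_iff, h, e.apply_symm_apply, e.symm.apply_eq_iff_eq,
      ← MulAction.mem_stabilizer_iff, MulAction.stabilizer_quotient]

/-- Let n be an odd positive integer such that every primitive permutation group of degree n contains the alternating group (so the symmetric and alternating groups are the only primitive groups of degree n). Let G be a finite group, M a maximal subgroup of G of index n, and H a maximal subgroup of M. Then H is a second maximal subgroup of G: H is maximal in every maximal subgroup K of G containing H. -/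
theorem result {G : Type*} [Group G]
    [Finite G] (n : ℕ) (hodd : Odd n)
    (hA : ∀ P : Subgroup (Equiv.Perm (Fin n)), MulAction.IsPreprimitive P (Fin n) → alternatingGroup (Fin n) ≤ P)
    (M : Subgroup G) (hM : IsCoatom M) (hn : M.index = n) (H : Subgroup G) (hHM : H ≤ M)
    (hmax : IsCoatom (H.subgroupOf M)) (K : Subgroup G) (hK : IsCoatom K) (hHK : H ≤ K) :
    IsCoatom (H.subgroupOf K) := by
  classical
  by_cases hKM : K = M
  · rw [hKM]; exact hmax
  obtain ⟨_, a, htr, ha⟩ := exists_action_fin M n hn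
  have hmem : ∀ g : G, g ∈ M ↔ g • a = a := fun g => by rw [← ha]; rfl
  obtain ⟨hHM', hmax0⟩ := (H33.isCoatom_subgroupOf_iff hHM).1 hmax
  have hmax' : ∀ L : Subgroup G, H ≤ L → L ≤ M → L = H ∨ L = M := fun L h1 h2 =>
    h1.eq_or_lt.imp Eq.symm fun h => hmax0 L h h2
  have hMK : M ⊓ K = H := by
    refine (hmax' _ (le_inf hHM hHK) inf_le_left).resolve_right fun h => hKM ?_
    rcases (inf_eq_left.1 h).eq_or_lt with h1 | h1
    · exact h1.symm
    · exact absurd (hM.2 _ h1) hK.1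
  refine (H33.isCoatom_subgroupOf_iff hHK).2 ⟨fun h => ?_, fun L hHL' hLK => ?_⟩
  · exact hM.1 (hK.2 _ (h ▸ lt_of_le_of_ne hHM hHM'))
  by_contra hcon
  have hHL := hHL'.le
  obtain ⟨l₀, hl₀, hl₀H⟩ := SetLike.exists_of_lt hHL'
  obtain ⟨k₀, hk₀, hk₀L⟩ := SetLike.exists_of_lt (lt_of_le_of_ne hLK hcon)
  let B : Set (Fin n) := {x | ∃ l ∈ L, l • a = x}
  have hblock : ∀ k ∈ K, ∀ x ∈ B, k • x ∈ B → k ∈ L := by
    rintro k hk _ ⟨l, hl, rfl⟩ ⟨l', hl', h⟩
    have h1 : l'⁻¹ * k * l ∈ M ⊓ K := by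
      refine ⟨(hmem _).2 ?_, K.mul_mem (K.mul_mem (K.inv_mem (hLK hl')) hk) (hLK hl)⟩
      rw [mul_smul, mul_smul, ← h, inv_smul_smul]
    rw [hMK] at h1
    simpa [mul_assoc] using L.mul_mem (L.mul_mem hl' (hHL h1)) (L.inv_mem hl)
  have hLB : ∀ l ∈ L, ∀ x ∈ B, l • x ∈ B := by
    rintro l hl _ ⟨l', hl', rfl⟩
    exact ⟨l * l', L.mul_mem hl hl', mul_smul _ _ _⟩
  have haB : a ∈ B := ⟨1, L.one_mem, one_smul _ _⟩
  have hbB : l₀ • a ∈ B := ⟨l₀, hl₀, rfl⟩
  have hba : l₀ • a ≠ a := fun h => hl₀H (hMK ▸ ⟨(hmem _).2 h, hLK hl₀⟩)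
  have hout : ∀ x ∈ B, k₀ • x ∉ B := fun x hx h => hk₀L (hblock _ hk₀ x hx h)
  have hxy : k₀ • a ≠ k₀ • l₀ • a := fun h => hba (MulAction.injective k₀ h).symm
  haveI : Nontrivial (Fin n) := ⟨⟨_, _, hba⟩⟩
  haveI : MulAction.IsPreprimitive G (Fin n) :=
    (MulAction.isCoatom_stabilizer_iff_preprimitive G a).1 (ha ▸ hM)
  have hAlt := hA _ (H33.isPreprimitive_range (G := G) (Ω := Fin n))
  have h3 : ∀ u v w : Fin n, u ≠ v → u ≠ w → v ≠ w →
      ∃ g : G, g • u = w ∧ g • w = v ∧ ∀ t, t ≠ u → t ≠ v → t ≠ w → g • t = t := by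
    intro u v w h1 h2 h3
    obtain ⟨g, hg⟩ := hAlt (Equiv.Perm.isThreeCycle_swap_mul_swap_same h1 h2 h3).mem_alternatingGroup
    have hg' : ∀ t, g • t = Equiv.swap u v (Equiv.swap u w t) := fun t => DFunLike.congr_fun hg t
    refine ⟨g, ?_, ?_, fun t t1 t2 t3 => ?_⟩
    · rw [hg', Equiv.swap_apply_left, Equiv.swap_apply_of_ne_of_ne h2.symm h3.symm]
    · rw [hg', Equiv.swap_apply_right, Equiv.swap_apply_left]
    · rw [hg', Equiv.swap_apply_of_ne_of_ne t1 t3, Equiv.swap_apply_of_ne_of_ne t1 t2]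
  let S : Subgroup G :=
    { carrier := {g | g ∈ M ∧ ∀ x, x ∈ B ↔ g • x ∈ B}
      one_mem' := ⟨M.one_mem, fun x => by rw [one_smul]⟩
      mul_mem' := fun {g h} hg hh => ⟨M.mul_mem hg.1 hh.1, fun x => by
        rw [mul_smul, ← hg.2, ← hh.2]⟩
      inv_mem' := fun {g} hg => ⟨M.inv_mem hg.1, fun x => by
        rw [hg.2 (g⁻¹ • x), smul_inv_smul]⟩ }
  have hHS : H ≤ S := fun h hh => ⟨hHM hh, fun x => ⟨hLB h (hHL hh) x, fun hx => by
    simpa using hLB h⁻¹ (L.inv_mem (hHL hh)) _ hx⟩⟩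
  rcases hmax' S hHS (fun g hg => hg.1) with hS | hS
  · obtain ⟨z, hz1, hz2⟩ : ∃ z, z ∉ B ∧ k₀⁻¹ • z ∉ B := by
      by_contra hz
      push Not at hz
      let f : B ≃ (Bᶜ : Set (Fin n)) :=
        { toFun := fun x => ⟨k₀ • x.1, hout _ x.2⟩
          invFun := fun y => ⟨k₀⁻¹ • y.1, hz _ y.2⟩
          left_inv := fun x => by simp
          right_inv := fun y => by simp }
      have h1 := Nat.card_congr f
      have h2 := Set.ncard_add_ncard_compl B
      rw [Nat.card_coe_set_eq, Nat.card_coe_set_eq] at h1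
      rw [Nat.card_eq_fintype_card, Fintype.card_fin] at h2
      obtain ⟨m, hm⟩ := hodd
      omega
    have hz3 : ∀ x ∈ B, k₀ • x ≠ z := fun x hx h => hz2 (by rw [← h, inv_smul_smul]; exact hx)
    obtain ⟨g, g1, g2, g3⟩ := h3 (k₀ • a) z (k₀ • l₀ • a) (hz3 _ haB) hxy (hz3 _ hbB).symm
    have g4 : ∀ t ∈ B, g • t = t := fun t ht => g3 t (fun h => hout _ haB (h ▸ ht))
      (fun h => hz1 (h ▸ ht)) (fun h => hout _ hbB (h ▸ ht))
    have hgS : g ∈ S := ⟨(hmem _).2 (g4 a haB), fun x => ⟨fun hx => by rwa [g4 x hx], fun hx => by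
      have := g4 _ hx
      rwa [MulAction.injective g this] at hx⟩⟩
    have hgK : g ∈ K := hHK (hS ▸ hgS)
    have h1 : k₀⁻¹ * g * k₀ ∈ L := hblock _ (K.mul_mem (K.mul_mem (K.inv_mem hk₀) hgK) hk₀) a haB
      (by rw [mul_smul, mul_smul, g1, inv_smul_smul]; exact hbB)
    have h2 := hLB _ h1 _ hbB
    rw [mul_smul, mul_smul, g2] at h2
    exact hz2 h2
  · obtain ⟨g, g1, -, g3⟩ := h3 (l₀ • a) (k₀ • l₀ • a) (k₀ • a) (fun h => hout _ hbB (h ▸ hbB))
      (fun h => hout _ haB (h ▸ hbB)) hxy.symm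
    have hg : g ∈ S := hS ▸ (hmem g).2 (g3 a hba.symm (fun h => hout _ hbB (h ▸ haB))
      (fun h => hout _ haB (h ▸ haB)))
    exact hout _ haB (g1 ▸ (hg.2 _).1 hbB)

end Cfsg.Agent.S5885
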