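import Cfsg.Statements.S5887
import Cfsg.Agent.H32.LowStrict

set_option autoImplicit false
open Cfsg

namespace Cfsg.Agent.S5887

/-- Let F be a finite field, n a positive integer and r a composite number (r > 1, not prime) that divides n with r < n. Let K be a subalgebra of the algebra of n × n matrices over F which is a field of degree r over F (commutative, every non-zero element invertible, of dimension r over F). Then the normaliser N of K in GL_n(F) (a group of type ΓL_{n/r}(F_{q^r})) is not a maximal subgroup of GL_n(F), and N ∩ SL_n(F) is not a maximal subgroup of SL_n(F): both lie properly inside the normaliser of an intermediate subfield of prime degree over F. -/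
theorem result {F : Type*} [Field F]
    [Fintype F] (n r : ℕ) (hr1 : 1 < r) (hrp : ¬ r.Prime) (hrn : r ∣ n) (hlt : r < n)
    (K : Subalgebra F (Matrix (Fin n) (Fin n) F)) (hK : Cfsg.Geo.IsFieldSubalgebra r K) :
    ¬ IsCoatom (Cfsg.Geo.subalgebraNormalizer K) ∧
      ¬ Cfsg.Geo.IsMaximalIn (Cfsg.Geo.specialLinear (Fin n) F)
        (Cfsg.Geo.subalgebraNormalizer K ⊓ Cfsg.Geo.specialLinear (Fin n) F) := by
  obtain ⟨M, h1, h2, g, h3, h4, h5⟩ :=
    Cfsg.Agent.H32.exists_lt_normalizer hr1 hrp (by simpa using hlt) hK
  constructor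
  · intro h
    exact h2 (h.2 M (SetLike.lt_iff_le_and_exists.2 ⟨h1, g, h3, h5⟩) ▸ le_top)
  · obtain ⟨N, h6, h7⟩ := Cfsg.Agent.H32.exists_lt_lt_of_le (inf_le_left.trans h1) h2 h3 h4 h5
    exact Cfsg.Agent.H32.not_isMaximalIn_of_lt_lt h6 h7

end Cfsg.Agent.S5887
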