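import Cfsg.Statements.S5890
import Cfsg.Agent.H29.Maximal

set_option autoImplicit false
open Cfsg

namespace Cfsg.Agent.S5890

/-- Let F be a finite field with q ≥ 4 elements, let L ≤ PGL₂(F) be the image of SL₂(F) (a copy of PSL₂(F), of index gcd(2, q − 1)), and let M be a maximal subgroup of PGL₂(F) that does not contain L. Suppose q ∉ {7, 9, 11} and that q is not a prime congruent to ±11 or ±19 modulo 40. Then M ∩ L is a maximal subgroup of L. (For the excluded q there are maximal subgroups of PGL₂(q) — dihedral groups of order 12 and 16 at q = 7, of order 20 and 16 at q = 9, of order 20 at q = 11, and S₄ at the excluded primes — whose intersection with L is not maximal in L.) -/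
theorem result {F : Type*} [Field F]
    [Fintype F] (h4 : 4 ≤ Fintype.card F) (h7 : Fintype.card F ≠ 7) (h9 : Fintype.card F ≠ 9) (h11 : Fintype.card F ≠ 11)
    (h40 : (Fintype.card F).Prime → Fintype.card F % 40 ∉ ({11, 19, 21, 29} : Finset ℕ))
    (M : Subgroup (Matrix.ProjGenLinGroup (Fin 2) F)) (hM : IsCoatom M)
    (hML : ¬ (Matrix.ProjGenLinGroup.mk.comp Matrix.SpecialLinearGroup.toGL).range ≤ M) :
    IsCoatom ((M ⊓ (Matrix.ProjGenLinGroup.mk.comp Matrix.SpecialLinearGroup.toGL).range).subgroupOf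
      (Matrix.ProjGenLinGroup.mk.comp Matrix.SpecialLinearGroup.toGL).range) := by
  rw [← Nat.card_eq_fintype_card] at h4 h7 h9 h11 h40
  change IsCoatom ((M ⊓ H29.Lsub F).subgroupOf (H29.Lsub F))
  rw [H29.isCoatom_subgroupOf_iff inf_le_right]
  rcases Nat.even_or_odd (Nat.card F) with he | ho
  · rw [H29.L_eq_top_of_even he, inf_top_eq]
    exact hM.covBy_top
  have hL : ¬ M ≤ H29.Lsub F := fun h => by
    rcases hM.le_iff.1 h with e | e
    · exact H29.L_ne_top_of_odd ho e.ge
    · exact hML e.le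
  rcases H29.coatom_PGL_cases ho (by omega) hM hML with ⟨x, rfl⟩ | ⟨T, h, h5⟩ | ⟨T, h⟩ |
    ⟨h1, h2, ⟨e⟩⟩ | ⟨c, k, r, h1, h2, -, h3, h5⟩
  · exact H29.stab_inf_L_covBy x
  · exact h.covBy h4 h5 h7 h9 h11
  · exact h.covBy (by omega) h7 h9
  · obtain ⟨a, b, hab, ha, hb, rfl⟩ := H29.S4_eq_normalizer ho e
    obtain ⟨e'⟩ := hab.A4_of_card ho inf_le_left (hab.card_normalizer_inf_L ho ha hb hL)
    have := h40 h1
    simp only [Finset.mem_insert, Finset.mem_singleton, not_or] at this
    exact H29.A4_covBy h1 (by omega) h2 (by omega) e'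
  · rw [← H29.covBy_map_conj_iff c, H29.map_conj_inf, H29.map_conj_L, h5]
    exact H29.PGLsub_inf_L_covBy k h1 h2 h3

end Cfsg.Agent.S5890
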