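import Cfsg.Statements.S5895
import Cfsg.Agent.H33.PermBasic
import Cfsg.Agent.H62.PermBasic

set_option autoImplicit false
open Cfsg

namespace Cfsg.Agent.S5895

theorem isCoatom_of_doubleCoset {G : Type*} [Group G] (S : Subgroup G) (hS : S ≠ ⊤)
    (h : ∀ g h : G, g ∉ S → h ∉ S → ∃ s ∈ S, h⁻¹ * s * g ∈ S) : IsCoatom S := by
  refine ⟨hS, fun K hK => ?_⟩
  obtain ⟨g, hgK, hgS⟩ := SetLike.exists_of_lt hK
  rw [eq_top_iff]
  intro x _
  by_cases hx : x ∈ S
  · exact hK.le hx
  obtain ⟨s, hs, h1⟩ := h g x hgS hx
  have h2 := K.mul_mem (K.mul_mem (hK.le hs) hgK) (K.inv_mem (hK.le h1))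
  simpa [mul_assoc] using h2

theorem main (F V : Type) [Field F] [AddCommGroup V] [Module F V] [Finite V] (w u : V) (hw : w ≠ 0)
    (hu : u ∉ Submodule.span F {w}) :
    ∃ (G : Type) (_ : Group G) (_ : Finite G) (M H K : Subgroup G), IsCoatom M ∧ M.index = Nat.card V ∧
      H ≤ M ∧ IsCoatom (H.subgroupOf M) ∧ IsCoatom K ∧ H ≤ K ∧ ¬ IsCoatom (H.subgroupOf K) := by
  classical
  have hpair : ∀ x, x ∉ Submodule.span F {w} → LinearIndependent F ![w, x] := by
    intro x hx
    rw [LinearIndependent.pair_symm_iff, linearIndependent_fin2]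
    refine ⟨hw, fun a h => hx ?_⟩
    rw [Submodule.mem_span_singleton]
    exact ⟨a, h⟩
  have hone : ∀ x : V, x ≠ 0 → LinearIndependent F ![x] := fun x hx => by simpa using hx
  -- the stabiliser of the line in the general linear group
  let S : Subgroup (V ≃ₗ[F] V) :=
    { carrier := {g | g w ∈ Submodule.span F {w}}
      one_mem' := Submodule.mem_span_singleton_self w
      mul_mem' := by
        intro a b ha hb
        obtain ⟨c, hc⟩ := Submodule.mem_span_singleton.1 hb
        change a (b w) ∈ Submodule.span F {w}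
        rw [← hc, map_smul]
        exact Submodule.smul_mem _ _ ha
      inv_mem' := by
        intro a ha
        obtain ⟨c, hc⟩ := Submodule.mem_span_singleton.1 ha
        have hc0 : c ≠ 0 := by
          rintro rfl
          rw [zero_smul, eq_comm, LinearEquiv.map_eq_zero_iff] at hc
          exact hw hc
        refine Submodule.mem_span_singleton.2 ⟨c⁻¹, ?_⟩
        change _ = a.symm w
        rw [LinearEquiv.eq_symm_apply, map_smul, ← hc, smul_smul, inv_mul_cancel₀ hc0, one_smul] }
  have hu0 : u ≠ 0 := fun h => hu (h ▸ Submodule.zero_mem _)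
  have hS : IsCoatom S := by
    apply isCoatom_of_doubleCoset
    · intro h
      obtain ⟨A, hA⟩ := H62.exists_linearEquiv_of_linearIndependent (hone w hw) (hone u hu0)
      have h1 : A ∈ S := h ▸ Subgroup.mem_top A
      have h2 : A w = u := hA 0
      exact hu (h2 ▸ h1)
    · intro g h hg hh
      obtain ⟨A, hA⟩ := H62.exists_linearEquiv_of_linearIndependent (hpair _ hg) (hpair _ hh)
      have h1 : A w = w := hA 0
      have h2 : A (g w) = h w := hA 1
      refine ⟨A, ?_, ?_⟩
      · change A w ∈ Submodule.span F {w}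
        rw [h1]; exact Submodule.mem_span_singleton_self w
      · change h.symm (A (g w)) ∈ Submodule.span F {w}
        rw [h2, LinearEquiv.symm_apply_apply]; exact Submodule.mem_span_singleton_self w
  let M : Subgroup (V ≃ᵃ[F] V) :=
    { carrier := {g | g 0 = 0}
      one_mem' := rfl
      mul_mem' := by
        intro a b ha hb
        change a (b 0) = 0
        rw [hb, ha]
      inv_mem' := by
        intro a ha
        change a.symm 0 = 0
        rw [AffineEquiv.symm_apply_eq]
        exact ha.symm }
  have hMmem : ∀ g, g ∈ M ↔ g 0 = 0 := fun g => Iff.rfl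
  have happ : ∀ (g : V ≃ᵃ[F] V) (x : V), g x = g.linear x + g 0 := fun g x => by
    have := g.map_vadd 0 x
    simpa using this
  have hsurj : Function.Surjective ((AffineEquiv.linearHom (k := F) (P₁ := V)).comp M.subtype) :=
    fun A => ⟨⟨A.toAffineEquiv, by simp [hMmem]⟩, rfl⟩
  have hsurj' : Function.Surjective (AffineEquiv.linearHom (k := F) (P₁ := V)) :=
    fun A => ⟨A.toAffineEquiv, rfl⟩
  let K : Subgroup (V ≃ᵃ[F] V) := S.comap AffineEquiv.linearHom
  haveI : Finite (V ≃ᵃ[F] V) := Finite.of_injective _ AffineEquiv.toEquiv_injective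
  refine ⟨V ≃ᵃ[F] V, inferInstance, inferInstance, M, M ⊓ K, K, ?_, ?_, inf_le_left, ?_,
    Subgroup.isCoatom_comap_of_surjective hsurj' hS, inf_le_right, ?_⟩
  · apply isCoatom_of_doubleCoset
    · intro h
      have h1 : AffineEquiv.constVAdd F V w ∈ M := h ▸ Subgroup.mem_top _
      exact hw (by simpa [hMmem] using h1)
    · intro g h hg hh
      obtain ⟨A, hA⟩ := H62.exists_linearEquiv_of_linearIndependent (hone _ hg) (hone _ hh)
      have h2 : A (g 0) = h 0 := hA 0
      refine ⟨A.toAffineEquiv, by simp [hMmem], ?_⟩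
      change h.symm (A (g 0)) = 0
      rw [h2, AffineEquiv.symm_apply_apply]
  · letI : MulAction (V ≃ᵃ[F] V) V :=
      { smul := fun g x => g x
        one_smul := fun _ => rfl
        mul_smul := fun _ _ _ => rfl }
    haveI : MulAction.IsPretransitive (V ≃ᵃ[F] V) V :=
      ⟨fun x y => ⟨AffineEquiv.constVAdd F V (y - x), by
        change AffineEquiv.constVAdd F V (y - x) x = y
        simp⟩⟩
    exact MulAction.index_stabilizer_of_transitive (V ≃ᵃ[F] V) (0 : V)
  · have : (M ⊓ K).subgroupOf M = S.comap ((AffineEquiv.linearHom (k := F) (P₁ := V)).comp M.subtype) := by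
      ext g
      simp [Subgroup.mem_subgroupOf, K]
    rw [this]
    exact Subgroup.isCoatom_comap_of_surjective hsurj hS
  · rw [H33.isCoatom_subgroupOf_iff inf_le_right]
    rintro ⟨-, h⟩
    have hK : ∀ g ∈ K, ∀ x ∈ Submodule.span F {w}, g.linear x ∈ Submodule.span F {w} := by
      intro g hg x hx
      obtain ⟨c, rfl⟩ := Submodule.mem_span_singleton.1 hx
      rw [map_smul]
      exact Submodule.smul_mem _ _ hg
    let L : Subgroup (V ≃ᵃ[F] V) :=
      { carrier := {g | g ∈ K ∧ g 0 ∈ Submodule.span F {w}}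
        one_mem' := ⟨K.one_mem, Submodule.zero_mem _⟩
        mul_mem' := by
          rintro a b ⟨ha, ha'⟩ ⟨hb, hb'⟩
          refine ⟨K.mul_mem ha hb, ?_⟩
          change a (b 0) ∈ Submodule.span F {w}
          rw [happ]
          exact Submodule.add_mem _ (hK a ha _ hb') ha'
        inv_mem' := by
          rintro a ⟨ha, ha'⟩
          refine ⟨K.inv_mem ha, ?_⟩
          have h1 := happ a⁻¹ (a 0)
          have h2 : a⁻¹ (a 0) = 0 := a.symm_apply_apply 0
          rw [h2, eq_comm, add_eq_zero_iff_neg_eq] at h1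
          rw [← h1]
          exact Submodule.neg_mem _ (hK _ (K.inv_mem ha) _ ha') }
    have htr : ∀ x : V, AffineEquiv.constVAdd F V x ∈ K := fun x => Submodule.mem_span_singleton_self w
    have h1 : M ⊓ K < L := by
      refine lt_of_le_of_ne (fun g hg => ⟨hg.2, ?_⟩) fun h2 => ?_
      · rw [(hMmem g).1 hg.1]; exact Submodule.zero_mem _
      · have h3 : AffineEquiv.constVAdd F V w ∈ L :=
          ⟨htr w, by simp⟩
        rw [← h2] at h3
        exact hw (by simpa [hMmem] using h3.1)
    have h2 := h L h1 fun g hg => hg.1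
    have h3 : AffineEquiv.constVAdd F V u ∈ L := h2 ▸ htr u
    exact hu (by simpa using h3.2)

/-- For every prime p and every d ≥ 2 there is a finite group G with a maximal subgroup M of index p^d and a maximal subgroup H of M that is not second maximal in G: some maximal subgroup K of G contains H without H being maximal in K. (One may take G the affine group V ⋊ GL(V) of V = 𝔽_p^d, M = GL(V), H the stabiliser in M of a line W of V, and K = V ⋊ H, with H < W ⋊ H < K.) So the prime-index hypothesis in the second-maximality criterion cannot be relaxed to prime-power index. -/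
theorem result (p d : ℕ) (hp : p.Prime)
    (hd : 2 ≤ d) :
    ∃ (G : Type) (_ : Group G) (_ : Finite G) (M H K : Subgroup G), IsCoatom M ∧ M.index = p ^ d ∧ H ≤ M ∧
      IsCoatom (H.subgroupOf M) ∧ IsCoatom K ∧ H ≤ K ∧ ¬ IsCoatom (H.subgroupOf K) := by
  haveI : Fact p.Prime := ⟨hp⟩
  let i : Fin d := ⟨0, by omega⟩
  let j : Fin d := ⟨1, by omega⟩
  have hij : j ≠ i := by simp [i, j, Fin.ext_iff]
  have := main (ZMod p) (Fin d → ZMod p) (Pi.single i 1) (Pi.single j 1) (by simp) (by
    rw [Submodule.mem_span_singleton]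
    rintro ⟨c, hc⟩
    have := congrFun hc j
    simp [Pi.single_eq_of_ne hij] at this)
  simpa using this

end Cfsg.Agent.S5895
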