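import Cfsg.Statements.S5896
import Cfsg.Agent.H12.Burnside

set_option autoImplicit false
open Cfsg

namespace Cfsg.Agent.S5896

theorem ds_ne_bot_of_injective {A B : Type*} [Group A] [Group B] (f : A →* B)
    (hf : Function.Injective f) {d : ℕ} (h : derivedSeries A d ≠ ⊥) : derivedSeries B d ≠ ⊥ := by
  intro h1
  apply h
  have := map_derivedSeries_le_derivedSeries f d
  rw [h1, le_bot_iff, Subgroup.map_eq_bot_iff_of_injective _ hf] at this
  exact this

theorem isSolvable_pi {D Q : Type*} [Group D] [Group.IsSolvable D] : Group.IsSolvable (Q → D) := by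
  obtain ⟨n, hn⟩ := Group.IsSolvable.solvable (G := D)
  refine ⟨n, ?_⟩
  rw [eq_bot_iff]
  intro x hx
  rw [Subgroup.mem_bot]
  ext q
  have := map_derivedSeries_le_derivedSeries (Pi.evalMonoidHom (fun _ : Q => D) q) n ⟨x, hx, rfl⟩
  rw [hn] at this
  exact this

/-- The base group of a regular wreath product. -/
def base (D Q : Type*) [Group D] [Group Q] : (Q → D) →* D ≀ᵣ Q where
  toFun x := ⟨x, 1⟩
  map_one' := rfl
  map_mul' _ _ := by ext <;> simp

theorem ker_le_range_base (D Q : Type*) [Group D] [Group Q] :
    (RegularWreathProduct.rightHom : D ≀ᵣ Q →* Q).ker ≤ (base D Q).range := by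
  rintro ⟨x, q⟩ h
  have : q = 1 := h
  exact ⟨x, by rw [this]; rfl⟩

theorem isSolvable_ker (D Q : Type*) [Group D] [Group Q] [Group.IsSolvable D] :
    Group.IsSolvable (RegularWreathProduct.rightHom : D ≀ᵣ Q →* Q).ker := by
  haveI : Group.IsSolvable (Q → D) := isSolvable_pi
  haveI : Group.IsSolvable (base D Q).range :=
    Group.isSolvable_of_surjective (base D Q).rangeRestrict_surjective
  exact Group.isSolvable_of_isSolvable_injective (Subgroup.inclusion_injective (ker_le_range_base D Q))

theorem ds_inf_ker {D Q : Type*} [Group D] [Group Q] {q : Q} (hq : q ≠ 1) (T : Subgroup (D ≀ᵣ Q))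
    (hT : ∀ x : Q → D, base D Q x * RegularWreathProduct.inl q * (base D Q x)⁻¹ *
      (RegularWreathProduct.inl q)⁻¹ ∈ T) {d : ℕ} (h : derivedSeries D d ≠ ⊥) :
    derivedSeries ↥(T ⊓ (RegularWreathProduct.rightHom : D ≀ᵣ Q →* Q).ker) d ≠ ⊥ := by
  classical
  let ev : ↥(T ⊓ (RegularWreathProduct.rightHom : D ≀ᵣ Q →* Q).ker) →* D :=
    { toFun := fun x => x.1.left 1
      map_one' := rfl
      map_mul' := fun x y => by
        have : x.1.right = 1 := x.2.2
        simp [this] }
  have hev : Function.Surjective ev := by
    intro s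
    refine ⟨⟨_, hT (Pi.mulSingle 1 s), ?_⟩, ?_⟩
    · simp [MonoidHom.mem_ker, base]
    · simp [ev, base, Pi.mulSingle_eq_of_ne (inv_ne_one.2 hq)]
  intro h1
  apply h
  rw [← map_derivedSeries_eq hev, h1, Subgroup.map_bot]

theorem map_ds_commutator (W : Type*) [Group W] (d : ℕ) :
    (derivedSeries (commutator W) d).map (commutator W).subtype ≤ derivedSeries W (d + 1) := by
  induction d with
  | zero => exact Subgroup.map_subtype_le _
  | succ d ih =>
    rw [derivedSeries_succ, Subgroup.map_commutator, derivedSeries_succ W (d + 1)]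
    exact Subgroup.commutator_mono ih ih

theorem exists_solvable (d : ℕ) :
    ∃ (S : Type) (_ : Group S) (_ : Finite S), Group.IsSolvable S ∧ derivedSeries S d ≠ ⊥ := by
  induction d with
  | zero =>
    exact ⟨Multiplicative (ZMod 2), inferInstance, inferInstance, inferInstance, top_ne_bot⟩
  | succ d ih =>
    obtain ⟨S, _, _, _, h⟩ := ih
    refine ⟨S ≀ᵣ Multiplicative (ZMod 2), inferInstance, inferInstance, ?_, ?_⟩
    · haveI : Group.IsSolvable (Multiplicative (ZMod 2) → S) := isSolvable_pi
      exact Group.isSolvable_of_ker_le_range _ _ (ker_le_range_base S _)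
    · obtain ⟨q, hq⟩ := exists_ne (1 : Multiplicative (ZMod 2))
      have h1 := ds_inf_ker hq (commutator _) (fun x =>
        Subgroup.commutator_mem_commutator (Subgroup.mem_top _) (Subgroup.mem_top _)) h
      have h2 := ds_ne_bot_of_injective _ (Subgroup.inclusion_injective inf_le_left) h1
      intro h3
      apply h2
      have := map_ds_commutator (S ≀ᵣ Multiplicative (ZMod 2)) d
      rw [h3, le_bot_iff, Subgroup.map_eq_bot_iff_of_injective _ (Subgroup.subtype_injective _)] at this
      exact this

/-- Finite perfect groups have solvable maximal subgroups of unbounded derived length: for every d there is a finite perfect group G (equal to its commutator subgroup) with a solvable maximal subgroup H whose derived length exceeds d, i.e. the d-th term of the derived series of H is non-trivial. (Take the derived subgroup of a wreath product S ≀ A₅ with S solvable of large derived length, and H the preimage of a maximal subgroup of A₅.) -/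
theorem result (d : ℕ) :
    ∃ (G : Type) (_ : Group G) (_ : Finite G) (H : Subgroup G), commutator G = ⊤ ∧ IsCoatom H ∧ Group.IsSolvable H ∧
      derivedSeries H d ≠ ⊥ := by
  obtain ⟨S, _, _, _, h⟩ := exists_solvable d
  let Q := alternatingGroup (Fin 5)
  let G : Subgroup (S ≀ᵣ Q) :=
    Subgroup.normalClosure (RegularWreathProduct.inl : Q →* S ≀ᵣ Q).range
  have hle : (RegularWreathProduct.inl : Q →* S ≀ᵣ Q).range ≤ G := Subgroup.le_normalClosure
  let π : G →* Q := RegularWreathProduct.rightHom.comp G.subtype
  have hπ : Function.Surjective π := fun q => ⟨⟨_, hle ⟨q, rfl⟩⟩, rfl⟩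
  haveI : MulAction.IsPreprimitive Q (Fin 5) := alternatingGroup.isPreprimitive_of_three_le_card _ (by simp)
  let M : Subgroup Q := MulAction.stabilizer Q (0 : Fin 5)
  have hM : IsCoatom M := MulAction.IsPreprimitive.isCoatom_stabilizer_of_isPreprimitive Q 0
  have hMcard : Nat.card M = 12 := by
    have h1 := M.card_mul_index
    rw [MulAction.index_stabilizer_of_transitive] at h1
    have h2 := two_mul_nat_card_alternatingGroup (α := Fin 5)
    rw [Nat.card_perm] at h2
    simp only [Nat.card_eq_fintype_card (α := Fin 5), Fintype.card_fin, Nat.factorial] at h1 h2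
    change _ = Nat.card (alternatingGroup (Fin 5)) at h1
    omega
  haveI : Group.IsSolvable M :=
    H12.isSolvable_of_card_dvd_pow_mul_pow Nat.prime_two Nat.prime_three (a := 2) (b := 1)
      (by rw [hMcard]; rfl)
  refine ⟨G, inferInstance, inferInstance, M.comap π, ?_, Subgroup.isCoatom_comap_of_surjective hπ hM,
    ?_, ?_⟩
  · apply Subgroup.map_injective G.subtype_injective
    rw [Subgroup.map_subtype_commutator, ← MonoidHom.range_eq_map, Subgroup.range_subtype]
    refine le_antisymm (Subgroup.commutator_le_self G) ?_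
    apply Subgroup.normalClosure_le_normal
    refine le_trans ?_ (Subgroup.commutator_mono hle hle)
    rw [MonoidHom.range_eq_map, ← Subgroup.map_commutator, ← commutator_def,
      commutator_alternatingGroup_eq_top (by simp)]
  · haveI := isSolvable_ker S Q
    let f : (M.comap π) →* M := (π.comp (M.comap π).subtype).codRestrict M fun x => x.2
    let j : f.ker →* (RegularWreathProduct.rightHom : S ≀ᵣ Q →* Q).ker :=
      ((G.subtype.comp (M.comap π).subtype).comp f.ker.subtype).codRestrict _
        fun x => congrArg Subtype.val x.2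
    haveI : Group.IsSolvable f.ker := Group.isSolvable_of_isSolvable_injective (f := j)
      fun x y hxy => by
        have h0 : (j x).1 = (j y).1 := congrArg Subtype.val hxy
        have : ((x.1.1 : G) : S ≀ᵣ Q) = ((y.1.1 : G) : S ≀ᵣ Q) := h0
        exact Subtype.ext (Subtype.ext (Subtype.ext this))
    exact Group.isSolvable_of_ker_le_range f.ker.subtype f (by simp)
  · obtain ⟨q, hq⟩ := exists_ne (1 : Q)
    have h1 := ds_inf_ker hq G (fun x => G.mul_mem
      (Subgroup.normalClosure_normal.conj_mem _ (hle ⟨q, rfl⟩) _) (G.inv_mem (hle ⟨q, rfl⟩))) h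
    let j : ↥(G ⊓ (RegularWreathProduct.rightHom : S ≀ᵣ Q →* Q).ker) →* (M.comap π) :=
      (Subgroup.inclusion inf_le_left).codRestrict _ fun x => by
        have : π (Subgroup.inclusion inf_le_left x) = 1 := x.2.2
        rw [Subgroup.mem_comap, this]
        exact M.one_mem
    exact ds_ne_bot_of_injective j
      (fun x y hxy => Subgroup.inclusion_injective _ (congrArg Subtype.val hxy)) h1

end Cfsg.Agent.S5896
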