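import Cfsg.Statements.S5902
import Cfsg.Agent.H33.ComplLattice

set_option autoImplicit false
open Cfsg

namespace Cfsg.Agent.S5902

open scoped Pointwise in
theorem exists_conj_not_le {G : Type*} [Group G] (M H : Subgroup G) (hH : ¬ H ≤ M.normalCore) :
    ∃ g : G, ¬ MulAut.conj g • H ≤ M := by
  by_contra hcon
  push Not at hcon
  apply hH
  intro h hh b
  exact hcon b (Subgroup.smul_mem_pointwise_smul h (MulAut.conj b) H hh)

/-- Let G be a finite group, X a subgroup whose own subgroup lattice is complemented, and suppose X lies in exactly one maximal subgroup M of G. Then every subgroup H of G not contained in the normal core of M has a complement in the subgroup lattice of G (some C with H ⊔ C = G and H ⊓ C = 1); in particular the subgroup lattice of G modulo the normal core of M is complemented. -/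
theorem result {G : Type*} [Group G] [Finite G] (X M : Subgroup G)
    (hK : ComplementedLattice (Subgroup X))
    (hM : IsCoatom M) (hXM : X ≤ M) (huniq : ∀ M' : Subgroup G, IsCoatom M' → X ≤ M' → M' = M) :
    (∀ H : Subgroup G, ¬ H ≤ M.normalCore → ∃ C : Subgroup G, H ⊔ C = ⊤ ∧ H ⊓ C = ⊥) ∧
    ComplementedLattice (Subgroup (G ⧸ M.normalCore)) := by
  open scoped Pointwise in
  have main : ∀ N : Subgroup G, N.Normal → N ≤ M → ∀ H : Subgroup G, ¬ H ≤ M.normalCore →
      ∃ C : Subgroup G, N ≤ C ∧ H ⊔ C = ⊤ ∧ H ⊓ C ≤ N := by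
    intro N hN hNM H hH
    obtain ⟨g, hg⟩ := exists_conj_not_le M H hH
    have hint : ∀ Y : Subgroup G, N ≤ Y → Y ≤ X ⊔ N →
        ∃ C : Subgroup G, N ≤ C ∧ C ≤ X ⊔ N ∧ Y ⊔ C = X ⊔ N ∧ Y ⊓ C = N := by
      intro Y hNY hY
      obtain ⟨C, hCX, hsup, hinf⟩ :=
        H33.exists_compl_of_complementedLattice X hK (Y ⊓ X) inf_le_right
      refine ⟨C ⊔ N, le_sup_right, sup_le_sup_right hCX N, ?_, ?_⟩
      · apply le_antisymm (sup_le hY (sup_le_sup_right hCX N))
        refine sup_le ?_ (le_sup_right.trans le_sup_right)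
        rw [← hsup]
        exact sup_le (inf_le_left.trans le_sup_left) (le_sup_left.trans le_sup_right)
      · apply le_antisymm _ (le_inf hNY le_sup_right)
        rintro y ⟨hyY, hyC⟩
        have hy' : y ∈ ((C ⊔ N : Subgroup G) : Set G) := hyC
        rw [Subgroup.mul_normal] at hy'
        obtain ⟨c, hc, n, hn, rfl⟩ := hy'
        have hcY : c ∈ Y := by
          have := Y.mul_mem hyY (Y.inv_mem (hNY hn))
          simpa using this
        have hc1 : c ∈ (Y ⊓ X) ⊓ C := ⟨⟨hcY, hCX hc⟩, hc⟩
        rw [hinf, Subgroup.mem_bot] at hc1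
        simpa [hc1] using hn
    obtain ⟨C, h1, h2, h3⟩ := H33.exists_compl_rel_conj N (X ⊔ N) M le_sup_right hint
      (fun M' hM' h => huniq M' hM' (le_sup_left.trans h)) H g hg
    have hNg : MulAut.conj g⁻¹ • N = N := hN.conj_smul_eq_self g⁻¹ N
    rw [hNg] at h1 h3
    exact ⟨C, h1, h2, h3⟩
  refine ⟨fun H hH => ?_, ⟨fun Hq => ?_⟩⟩
  · obtain ⟨C, -, h2, h3⟩ := main ⊥ inferInstance bot_le H hH
    exact ⟨C, h2, le_bot_iff.1 h3⟩
  · by_cases hb : Hq = ⊥
    · exact ⟨⊤, hb ▸ isCompl_bot_top⟩
    have hsurj : Function.Surjective (QuotientGroup.mk' M.normalCore) := QuotientGroup.mk'_surjective _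
    set f := QuotientGroup.mk' M.normalCore with hf
    have hker : f.ker = M.normalCore := QuotientGroup.ker_mk' _
    have hH : ¬ Hq.comap f ≤ M.normalCore := by
      intro h
      apply hb
      rw [← Subgroup.map_comap_eq_self_of_surjective hsurj Hq, Subgroup.map_eq_bot_iff, hker]
      exact h
    obtain ⟨C, h1, h2, h3⟩ := main M.normalCore inferInstance M.normalCore_le _ hH
    refine ⟨C.map f, ?_, ?_⟩
    · rw [disjoint_iff, eq_bot_iff]
      rintro y ⟨hy, c, hc, rfl⟩
      have : c ∈ f.ker := by rw [hker]; exact h3 ⟨hy, hc⟩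
      simpa using this
    · rw [codisjoint_iff, ← Subgroup.map_comap_eq_self_of_surjective hsurj Hq, ← Subgroup.map_sup, h2,
        Subgroup.map_top_of_surjective f hsurj]

end Cfsg.Agent.S5902
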