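import Cfsg.Statements.S5903
import Cfsg.Agent.H33.ComplLattice

set_option autoImplicit false
open Cfsg

namespace Cfsg.Agent.S5903

/-- Let G be a finite simple group, X a subgroup lying in exactly one maximal subgroup M of G, and N a subgroup of prime order with N ≤ X that is central in M. If the subgroup lattice of X/N is complemented, then the subgroup lattice of G is complemented. -/
theorem result {G : Type*} [Group G] [Finite G] [IsSimpleGroup G] (X M N : Subgroup G)
    (hM : IsCoatom M) (hXM : X ≤ M) (huniq : ∀ M' : Subgroup G, IsCoatom M' → X ≤ M' → M' = M)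
    (hNX : N ≤ X) (hN : (Nat.card N).Prime) (hcen : ∀ n ∈ N, ∀ m ∈ M, m * n = n * m)
    [(N.subgroupOf X).Normal] (hK : ComplementedLattice (Subgroup (X ⧸ N.subgroupOf X))) :
    ComplementedLattice (Subgroup G) := by
  open scoped Pointwise in
  have hint : ∀ Y : Subgroup G, N ≤ Y → Y ≤ X →
      ∃ C : Subgroup G, N ≤ C ∧ C ≤ X ∧ Y ⊔ C = X ∧ Y ⊓ C = N := by
    intro Y hNY hYX
    set f := QuotientGroup.mk' (N.subgroupOf X) with hf
    have hsurj : Function.Surjective f := QuotientGroup.mk'_surjective _
    have hker : f.ker = N.subgroupOf X := QuotientGroup.ker_mk' _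
    obtain ⟨D, hD⟩ := hK.exists_isCompl ((Y.subgroupOf X).map f)
    have hYm : (Y.subgroupOf X).map X.subtype = Y := by
      rw [Subgroup.subgroupOf_map_subtype, inf_eq_left.2 hYX]
    have hNm : (N.subgroupOf X).map X.subtype = N := by
      rw [Subgroup.subgroupOf_map_subtype, inf_eq_left.2 hNX]
    have hkY : f.ker ≤ Y.subgroupOf X := by
      rw [hker]; exact Subgroup.subgroupOf_mono X hNY
    have hYc : ((Y.subgroupOf X).map f).comap f = Y.subgroupOf X := by
      rw [Subgroup.comap_map_eq, sup_eq_left.2 hkY]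
    refine ⟨(D.comap f).map X.subtype, ?_, Subgroup.map_subtype_le _, ?_, ?_⟩
    · refine hNm.symm.le.trans (Subgroup.map_mono ?_)
      exact hker.symm.le.trans (Subgroup.ker_le_comap f D)
    · rw [← hYm, ← Subgroup.map_sup, ← hYc, Subgroup.comap_sup_eq f _ _ hsurj, hD.sup_eq_top,
        Subgroup.comap_top, ← MonoidHom.range_eq_map, Subgroup.range_subtype]
    · rw [← hYm, ← Subgroup.map_inf_eq _ _ _ X.subtype_injective, ← hYc, ← Subgroup.comap_inf,
        hD.inf_eq_bot, MonoidHom.comap_bot, hker, hNm]
  haveI : Fact (Nat.card N).Prime := ⟨hN⟩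
  have hNbot : N ≠ ⊥ := by
    intro h
    rw [h, Subgroup.card_bot] at hN
    exact Nat.not_prime_one hN
  refine ⟨fun H => ?_⟩
  by_cases hnorm : H.Normal
  · rcases hnorm.eq_bot_or_eq_top with h | h
    · exact ⟨⊤, h ▸ isCompl_bot_top⟩
    · exact ⟨⊥, h ▸ isCompl_top_bot⟩
  -- some conjugate of `N` does not normalise `H`
  open scoped Pointwise in
  have hex : ∃ g : G, ¬ N ≤ Subgroup.normalizer ((MulAut.conj g • H : Subgroup G) : Set G) := by
    by_contra hcon
    push Not at hcon
    apply hnorm
    rw [← Subgroup.normalizer_eq_top_iff]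
    have h1 : N ≤ (Subgroup.normalizer (H : Set G)).normalCore := by
      intro n hn b
      have h2 := hcon b⁻¹ hn
      rw [Subgroup.mem_normalizer_iff] at h2 ⊢
      intro h
      have h3 := h2 (b⁻¹ * h * b)
      simp only [Subgroup.mem_pointwise_smul_iff_inv_smul_mem, ← map_inv, inv_inv, MulAut.smul_def,
        MulAut.conj_apply] at h3
      convert h3 using 2 <;> group
    rcases (Subgroup.normalCore_normal (Subgroup.normalizer (H : Set G))).eq_bot_or_eq_top with h | h
    · exact absurd (le_bot_iff.1 (h ▸ h1)) hNbot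
    · exact top_le_iff.1 (h ▸ Subgroup.normalCore_le _)
  obtain ⟨g, hg⟩ := hex
  open scoped Pointwise in
  have hgM : ¬ MulAut.conj g • H ≤ M := by
    intro h
    apply hg
    intro n hn
    rw [Subgroup.mem_normalizer_iff]
    intro x
    constructor
    · intro hx
      rw [← hcen n hn x (h hx)]
      simpa using hx
    · intro hx
      have h2 := hcen n hn _ (h hx)
      have h3 : x = n * x * n⁻¹ := by
        have : n * x = n * (n * x * n⁻¹) := by rw [← h2]; group
        exact mul_left_cancel this
      rw [h3]; exact hx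
  open scoped Pointwise in
  have hgN : MulAut.conj g • H ⊓ N = ⊥ := by
    have hle : ((MulAut.conj g • H ⊓ N).subgroupOf N) = ⊥ ∨ ((MulAut.conj g • H ⊓ N).subgroupOf N) = ⊤ :=
      Subgroup.eq_bot_or_eq_top_of_prime_card _
    rcases hle with h | h
    · rw [Subgroup.subgroupOf_eq_bot, disjoint_iff, inf_assoc, inf_idem] at h
      exact h
    · rw [Subgroup.subgroupOf_eq_top] at h
      exact absurd ((h.trans inf_le_left).trans Subgroup.le_normalizer) hg
  obtain ⟨C, -, h2, h3⟩ := H33.exists_compl_rel_conj N X M hNX hint huniq H g hgM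
  refine ⟨C, ?_, codisjoint_iff.2 h2⟩
  rw [disjoint_iff, eq_bot_iff]
  intro y hy
  have h4 := h3 hy
  rw [Subgroup.mem_pointwise_smul_iff_inv_smul_mem, ← map_inv, inv_inv] at h4
  open scoped Pointwise in
  have h5 : MulAut.conj g • y ∈ MulAut.conj g • H ⊓ N :=
    ⟨Subgroup.smul_mem_pointwise_smul y _ H hy.1, h4⟩
  rw [hgN, Subgroup.mem_bot] at h5
  simpa using h5

end Cfsg.Agent.S5903
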