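import Cfsg.Statements.S5908
import Cfsg.Agent.S0827

set_option autoImplicit false
open Cfsg

namespace Cfsg.Agent.S5908

/-- The subgroup lattice of PSU₃(2) (the solvable group of order 72, realised over the field with 4 elements) is not complemented: some subgroup H has no subgroup X with H ⊔ X = ⊤ and H ⊓ X = ⊥. -/
theorem result {F : Type*} [Field F] [Fintype F] (hF : Fintype.card F = 4) :
    ¬ ComplementedLattice (Subgroup (Cfsg.PSU 3 F 2)) := by
  intro hK
  obtain ⟨N, _, -, -, ⟨e⟩⟩ := S0827.result hF
  let f : Cfsg.PSU 3 F 2 →* QuaternionGroup 2 := e.toMonoidHom.comp (QuotientGroup.mk' N)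
  have hf : Function.Surjective f := e.surjective.comp (QuotientGroup.mk'_surjective N)
  obtain ⟨C, hC⟩ := hK.exists_isCompl ((Subgroup.center _).comap f)
  have h1 : ∀ x g : QuaternionGroup 2, g * (x * x) = x * x * g := by decide
  have h2 : ∀ x : QuaternionGroup 2, x * x = 1 → ∀ g, g * x = x * g := by decide
  have h3 : ¬ ∀ x g : QuaternionGroup 2, g * x = x * g := by decide
  have h4 : C ≤ (Subgroup.center _).comap f := by
    intro c hc
    have h5 : c * c ∈ (Subgroup.center _).comap f ⊓ C := by
      refine ⟨?_, C.mul_mem hc hc⟩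
      change f (c * c) ∈ Subgroup.center _
      rw [map_mul, Subgroup.mem_center_iff]
      exact h1 _
    rw [hC.inf_eq_bot, Subgroup.mem_bot] at h5
    change f c ∈ Subgroup.center _
    rw [Subgroup.mem_center_iff]
    exact h2 _ (by rw [← map_mul, h5, map_one])
  have h6 := hC.sup_eq_top
  rw [sup_eq_left.2 h4] at h6
  refine h3 fun x => ?_
  obtain ⟨y, rfl⟩ := hf x
  have : y ∈ (Subgroup.center _).comap f := h6 ▸ Subgroup.mem_top y
  exact Subgroup.mem_center_iff.1 this

end Cfsg.Agent.S5908
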