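import Cfsg.Statements.S5909
import Cfsg.Agent.H33.Partition
import Cfsg.Agent.H33.PermBasic

set_option autoImplicit false
open Cfsg

namespace Cfsg.Agent.S5909

open Equiv in
theorem swap_fix {Ω ι : Type*} [DecidableEq Ω] (f : Ω → ι) {a b x : Ω} (h1 : f x ≠ f a) (h2 : f x ≠ f b) :
    swap a b x = x :=
  swap_apply_of_ne_of_ne (fun h => h1 (by rw [h])) (fun h => h2 (by rw [h]))

open Equiv in
theorem swap_mul_swap_mem {Ω ι : Type*} [Fintype Ω] [DecidableEq Ω] {f : Ω → ι} {x y s t : Ω}
    (hxy : x ≠ y) (hst : s ≠ t) (h1 : f x = f y) (h2 : f s = f t) :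
    swap x y * swap s t ∈ H33.partStab f ⊓ alternatingGroup Ω :=
  ⟨(H33.partStab f).mul_mem (H33.swap_mem_partStab h1) (H33.swap_mem_partStab h2), by
    simp [Perm.mem_alternatingGroup, Perm.sign_swap hxy, Perm.sign_swap hst]⟩

open Equiv in
theorem exists_threeCycle {Ω : Type*} [Fintype Ω] [DecidableEq Ω] {b : ℕ} (hb : 3 ≤ b) (hb4 : b ≠ 4)
    {f : Ω → Fin b} (hf : ∀ i : Fin b, Nat.card {x : Ω // f x = i} = 2) {L : Subgroup (Perm Ω)}
    (hL : H33.partStab f ⊓ alternatingGroup Ω ≤ L) (hL' : ¬ L ≤ H33.partStab f) :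
    ∃ c ∈ L, c.IsThreeCycle := by
  obtain ⟨g, hg, x, y, hxy, hne⟩ : ∃ g ∈ L, ∃ x y, f x = f y ∧ f (g x) ≠ f (g y) := by
    by_contra hcon
    push Not at hcon
    exact hL' (H33.mem_partStab_of_imp hcon)
  have hxy' : x ≠ y := fun h => hne (by rw [h])
  have hstar : ∀ s t, s ≠ t → f s = f t → swap (g x) (g y) * swap (g s) (g t) ∈ L := by
    intro s t hst hfst
    have := L.mul_mem (L.mul_mem hg (hL (swap_mul_swap_mem hxy' hst hxy hfst))) (L.inv_mem hg)
    convert this using 1
    rw [swap_apply_apply, swap_apply_apply]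
    group
  set u := g x with hu
  set v := g y with hv
  obtain ⟨u', hu', hfu'⟩ := H33.exists_partner hf le_rfl u
  obtain ⟨v', hv', hfv'⟩ := H33.exists_partner hf le_rfl v
  have huv : u ≠ v := fun h => hne (by rw [h])
  have hu'v : u' ≠ v := fun h => hne (by rw [← hfu', h])
  have huv' : u ≠ v' := fun h => hne (by rw [← hfv', h])
  have hu'v' : u' ≠ v' := fun h => hne (by rw [← hfv', ← hfu', h])
  have hpair : swap u v * swap u' v' ∈ L := by
    refine hL ⟨H33.mem_partStab_of_apply (swap (f u) (f v)) (swap (f u) (f v)).injective fun z => ?_, ?_⟩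
    · by_cases h1 : f z = f u
      · rcases H33.eq_or_eq_of_fiber_two hf hu' hfu' h1 with rfl | rfl
        · rw [Perm.mul_apply, swap_apply_of_ne_of_ne hu'.symm huv', swap_apply_left, swap_apply_left]
        · rw [Perm.mul_apply, swap_apply_left, swap_apply_of_ne_of_ne huv'.symm hv', hfu',
            swap_apply_left, hfv']
      by_cases h2 : f z = f v
      · rcases H33.eq_or_eq_of_fiber_two hf hv' hfv' h2 with rfl | rfl
        · rw [Perm.mul_apply, swap_apply_of_ne_of_ne hu'v.symm hv'.symm, swap_apply_right,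
            swap_apply_right]
        · rw [Perm.mul_apply, swap_apply_right, swap_apply_of_ne_of_ne hu' hu'v, hfv',
            swap_apply_right, hfu']
      · rw [Perm.mul_apply, swap_fix f (a := u') (hfu' ▸ h1) (hfv' ▸ h2), swap_fix f h1 h2,
          swap_apply_of_ne_of_ne h1 h2]
    · simp [Perm.mem_alternatingGroup, Perm.sign_swap huv, Perm.sign_swap hu'v']
  obtain ⟨t, ht, hft⟩ := H33.exists_partner hf le_rfl (g⁻¹ u')
  have hgs : g (g⁻¹ u') = u' := by simp
  by_cases hz : g t = v'
  swap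
  · have h1 := hstar _ _ ht.symm hft.symm
    rw [hgs] at h1
    have h2 := L.mul_mem (L.inv_mem h1) hpair
    refine ⟨swap u' (g t) * swap u' v', ?_, ?_⟩
    · convert h2 using 1
      rw [mul_inv_rev, swap_inv, swap_inv, mul_assoc, swap_mul_self_mul]
    · refine Perm.isThreeCycle_swap_mul_swap_same ?_ hu'v' hz
      intro h
      exact ht (g.injective (h.symm.trans hgs.symm))
  obtain ⟨l, hl1, hl2⟩ : ∃ l : Fin b, l ≠ f x ∧ l ≠ f t := by
    obtain ⟨l, -, hl⟩ := Finset.exists_mem_notMem_of_card_lt_card (s := {f x, f t}) (t := Finset.univ)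
      (lt_of_le_of_lt Finset.card_le_two (by simp; omega))
    simp only [Finset.mem_insert, Finset.mem_singleton, not_or] at hl
    exact ⟨l, hl⟩
  obtain ⟨s₂, t₂, hst₂, hs₂, ht₂⟩ := H33.exists_fiber_two hf le_rfl l
  have hout : ∀ r, f r = l → f (g r) ≠ f u ∧ f (g r) ≠ f v := by
    intro r hr
    constructor
    · intro h
      rcases H33.eq_or_eq_of_fiber_two hf hu' hfu' h with h' | h'
      · exact hl1 (by rw [← hr, g.injective h'])
      · exact hl2 (by rw [← hr, g.injective (h'.trans hgs.symm), hft])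
    · intro h
      rcases H33.eq_or_eq_of_fiber_two hf hv' hfv' h with h' | h'
      · exact hl1 (by rw [← hr, g.injective h', hxy])
      · exact hl2 (by rw [← hr, g.injective (h'.trans hz.symm)])
  have hτ := hstar s₂ t₂ hst₂ (hs₂.trans ht₂.symm)
  obtain ⟨hw1, hw2⟩ := hout s₂ hs₂
  obtain ⟨hz1, hz2⟩ := hout t₂ ht₂
  set w := g s₂ with hw
  set z := g t₂ with hz'
  have hwz : w ≠ z := fun h => hst₂ (g.injective h)
  by_cases hfwz : f w = f z
  · have h1 := hL (swap_mul_swap_mem hu'.symm hwz hfu'.symm hfwz)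
    have h2 := L.mul_mem hτ (L.inv_mem h1)
    refine ⟨swap u v * swap u u', ?_, Perm.isThreeCycle_swap_mul_swap_same huv hu'.symm hu'v.symm⟩
    convert h2 using 1
    rw [mul_inv_rev, swap_inv, swap_inv, mul_assoc, swap_mul_self_mul]
  have hb5 : 5 ≤ b := by
    by_contra hlt
    have hb3 : b = 3 := by omega
    subst hb3
    revert hne hw1 hw2 hz1 hz2 hfwz
    generalize f u = i
    generalize f v = j
    generalize f w = k
    generalize f z = m
    omega
  obtain ⟨k, -, hk⟩ := Finset.exists_mem_notMem_of_card_lt_card (s := {f u, f v, f w, f z})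
    (t := Finset.univ) (lt_of_le_of_lt Finset.card_le_four (by simp; omega))
  simp only [Finset.mem_insert, Finset.mem_singleton, not_or] at hk
  obtain ⟨hk1, hk2, hk3, hk4⟩ := hk
  obtain ⟨r, r', hrr, hr, hr'⟩ := H33.exists_fiber_two hf le_rfl k
  have hc := hL (swap_mul_swap_mem hu'.symm hrr hfu'.symm (hr.trans hr'.symm))
  have hfix : ∀ s, f s = k → (swap u v * swap w z) s = s := by
    intro s hs
    rw [Perm.mul_apply, swap_fix f (a := w) (hs ▸ hk3) (hs ▸ hk4), swap_fix f (hs ▸ hk1) (hs ▸ hk2)]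
  have hτu : (swap u v * swap w z) u = v := by
    rw [Perm.mul_apply, swap_fix f hw1.symm hz1.symm, swap_apply_left]
  have hτu' : (swap u v * swap w z) u' = u' := by
    rw [Perm.mul_apply, swap_fix f (a := w) (hfu' ▸ hw1.symm) (hfu' ▸ hz1.symm),
      swap_apply_of_ne_of_ne hu' hu'v]
  have h1 : swap v u' * swap r r' ∈ L := by
    have := L.mul_mem (L.mul_mem hτ hc) (L.inv_mem hτ)
    convert this using 1
    conv_lhs => rw [← hτu, ← hτu', ← hfix r hr, ← hfix r' hr']
    rw [swap_apply_apply, swap_apply_apply (swap u v * swap w z) r r']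
    group
  have h2 := L.mul_mem hc (L.inv_mem h1)
  refine ⟨swap u' u * swap u' v, ?_, Perm.isThreeCycle_swap_mul_swap_same hu' hu'v huv⟩
  convert h2 using 1
  rw [mul_inv_rev, swap_inv, swap_inv, mul_assoc, swap_mul_self_mul, swap_comm u u', swap_comm v u']

/-- Let Ω be a finite set whose size is not 8, and f : Ω → Fin b a labelling with b ≥ 2 whose fibres all have the same size a ≥ 2 (a partition into b blocks of size a). Then the even permutations preserving the partition — the intersection of the imprimitive wreath product S_a ≀ S_b with the alternating group — form a maximal subgroup of the alternating group on Ω. -/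
theorem result {Ω : Type*} [Fintype Ω] [DecidableEq Ω] (h8 : Fintype.card Ω ≠ 8) (a b : ℕ) (ha : 2 ≤ a) (hb : 2 ≤ b)
    (f : Ω → Fin b) (hf : ∀ i : Fin b, Nat.card {x : Ω // f x = i} = a) :
    IsCoatom ((Subgroup.closure {g : Equiv.Perm Ω | ∀ x y : Ω, f x = f y ↔ f (g x) = f (g y)} ⊓ alternatingGroup Ω).subgroupOf (alternatingGroup Ω)) := by
  classical
  haveI : Nontrivial (Fin b) := Fin.nontrivial_iff_two_le.2 hb
  rw [H33.closure_partStab, H33.isCoatom_subgroupOf_iff inf_le_right]
  have hcard : Fintype.card Ω = b * a := by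
    have := H33.card_eq_mul_of_fibers hf
    simpa using this
  constructor
  · intro h
    obtain ⟨i, j, hij⟩ := exists_pair_ne (Fin b)
    obtain ⟨u, v, huv, hu, hv⟩ := H33.exists_fiber_two hf ha i
    obtain ⟨w, w', hww, hw, hw'⟩ := H33.exists_fiber_two hf ha j
    have huw : u ≠ w := fun h => hij (by rw [← hu, h, hw])
    have huw' : u ≠ w' := fun h => hij (by rw [← hu, h, hw'])
    have hvw : v ≠ w := fun h => hij (by rw [← hv, h, hw])
    have hvw' : v ≠ w' := fun h => hij (by rw [← hv, h, hw'])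
    have h1 : Equiv.swap u w * Equiv.swap w w' ∈ alternatingGroup Ω := by
      simp [Equiv.Perm.mem_alternatingGroup, Equiv.Perm.sign_swap huw, Equiv.Perm.sign_swap hww]
    rw [← h] at h1
    have h2 := (h1.1 u v).1 (hu.trans hv.symm)
    rw [Equiv.Perm.mul_apply, Equiv.Perm.mul_apply, Equiv.swap_apply_of_ne_of_ne huw huw',
      Equiv.swap_apply_of_ne_of_ne hvw hvw', Equiv.swap_apply_left,
      Equiv.swap_apply_of_ne_of_ne huv.symm hvw, hw, hv] at h2
    exact hij h2.symm
  intro L hL hLA
  have hL' : ¬ L ≤ H33.partStab f := fun h => hL.not_ge (le_inf h hLA)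
  refine le_antisymm hLA ?_
  by_cases ha3 : 3 ≤ a
  · obtain ⟨x, -, -, -, -⟩ := H33.exists_fiber_two hf ha ⟨0, by omega⟩
    obtain ⟨u, v, huv, hu, hv, hfu, hfv⟩ := H33.exists_fiber_three hf ha3 x
    exact Equiv.Perm.alternatingGroup_le_of_isPreprimitive_of_isThreeCycle_mem
      (H33.isPreprimitive_of_partStab_le hf ha (Or.inl ha3) hL.le hL')
      (Equiv.Perm.isThreeCycle_swap_mul_swap_same hu.symm hv.symm huv)
      (hL.le (swap_mul_swap_mem hu.symm hv.symm hfu.symm hfv.symm))
  obtain rfl : a = 2 := by omega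
  by_cases hb3 : 3 ≤ b
  · obtain ⟨c, hc, hc3⟩ := exists_threeCycle hb3 (by omega) hf hL.le hL'
    refine Equiv.Perm.alternatingGroup_le_of_isPreprimitive_of_isThreeCycle_mem
      (H33.isPreprimitive_of_partStab_le hf ha (Or.inr fun i j => ?_) hL.le hL') hc3 hc
    obtain ⟨l, -, hl⟩ := Finset.exists_mem_notMem_of_card_lt_card (s := {i, j}) (t := Finset.univ)
      (lt_of_le_of_lt Finset.card_le_two (by simp; omega))
    simp only [Finset.mem_insert, Finset.mem_singleton, not_or] at hl
    exact ⟨l, hl⟩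
  obtain rfl : b = 2 := by omega
  haveI : Nontrivial Ω := Fintype.one_lt_card_iff_nontrivial.1 (by omega)
  have hA : Nat.card (alternatingGroup Ω) = 12 := by
    have := two_mul_nat_card_alternatingGroup (α := Ω)
    rw [Nat.card_perm, Nat.card_eq_fintype_card (α := Ω), hcard] at this
    have h24 : (2 * 2).factorial = 24 := rfl
    omega
  haveI : MulAction.IsPretransitive ↥(H33.partStab f ⊓ alternatingGroup Ω) Ω := ⟨fun x y => by
    obtain ⟨h, hh, h1⟩ := H33.exists_even_partStab_apply hf ha x y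
    exact ⟨⟨h, hh⟩, h1⟩⟩
  have h4 : 4 ∣ Nat.card ↥(H33.partStab f ⊓ alternatingGroup Ω) := by
    have := (MulAction.stabilizer ↥(H33.partStab f ⊓ alternatingGroup Ω) (Classical.arbitrary Ω)).index_dvd_card
    rwa [MulAction.index_stabilizer_of_transitive, Nat.card_eq_fintype_card (α := Ω), hcard] at this
  have h5 := Subgroup.card_dvd_of_le hL.le
  have h6 := Subgroup.card_dvd_of_le hLA
  have h7 : Nat.card ↥(H33.partStab f ⊓ alternatingGroup Ω) ≠ Nat.card L :=
    fun h => hL.ne (Subgroup.eq_of_le_of_card_ge hL.le h.ge)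
  rw [hA] at h6
  have h8 : Nat.card L = 12 := by
    have h9 := Nat.le_of_dvd (by norm_num) h6
    have h10 := h4.trans h5
    have h11 := Nat.le_of_dvd Nat.card_pos h5
    have h12 := Nat.le_of_dvd Nat.card_pos h4
    generalize Nat.card L = m at *
    interval_cases m <;> omega
  exact (Subgroup.eq_of_le_of_card_ge hLA (by rw [hA, h8])).ge

end Cfsg.Agent.S5909
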