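import Cfsg.Statements.S5910
import Cfsg.Agent.H33.Partition
import Cfsg.Agent.H33.PermBasic

set_option autoImplicit false
open Cfsg

namespace Cfsg.Agent.S5910

open Equiv

/-- Four points of the affine plane over the field of two elements with sum zero. -/
def R4 (i j k l : Fin 4) : Prop :=
  (i = j ∧ k = l) ∨ (i = k ∧ j = l) ∨ (i = l ∧ j = k) ∨
    (i ≠ j ∧ i ≠ k ∧ i ≠ l ∧ j ≠ k ∧ j ≠ l ∧ k ≠ l)

instance decR4 (i j k l : Fin 4) : Decidable (R4 i j k l) := by unfold R4; infer_instance

/-- Four points of the affine space of dimension three with sum zero. -/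
def R8 (x y z w : Fin 4 × Fin 2) : Prop := R4 x.1 y.1 z.1 w.1 ∧ x.2 + y.2 + z.2 + w.2 = 0

instance decR8 (x y z w : Fin 4 × Fin 2) : Decidable (R8 x y z w) := by unfold R8; infer_instance

theorem eps_sum : ∀ ε : Fin 4 → Fin 2, (∏ i, Perm.sign (Equiv.addRight (ε i))) = 1 →
    ∀ i j k l, R4 i j k l → ε i + ε j + ε k + ε l = 0 := by
  decide +kernel

theorem core (g : Perm (Fin 4 × Fin 2)) (hg : ∀ x y, x.1 = y.1 ↔ (g x).1 = (g y).1)
    (hs : Perm.sign g = 1) (x y z w : Fin 4 × Fin 2) (h : R8 x y z w) : R8 (g x) (g y) (g z) (g w) := by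
  let σ0 : Fin 4 → Fin 4 := fun i => (g (i, 0)).1
  let ε : Fin 4 → Fin 2 := fun i => (g (i, 0)).2
  have hσ0 : Function.Injective σ0 := fun i j hij => (hg (i, 0) (j, 0)).2 hij
  let σ : Perm (Fin 4) := Equiv.ofBijective σ0 (Finite.injective_iff_bijective.1 hσ0)
  have hgx : ∀ x, g x = (σ x.1, x.2 + ε x.1) := by
    rintro ⟨i, s⟩
    have h1 : (g (i, s)).1 = σ i := (hg (i, s) (i, 0)).1 rfl
    refine Prod.ext h1 ?_
    have hs : s = 0 ∨ s = 1 := by omega
    rcases hs with rfl | rfl
    · simp [ε]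
    · have h2 : (g (i, 1)).2 ≠ (g (i, 0)).2 := by
        intro h3
        have : g (i, 1) = g (i, 0) := Prod.ext ((hg (i, 1) (i, 0)).1 rfl) h3
        simpa using g.injective this
      change (g (i, 1)).2 = 1 + (g (i, 0)).2
      revert h2
      generalize (g (i, 1)).2 = a
      generalize (g (i, 0)).2 = b
      revert a b
      decide
  have hdec : g = (Equiv.prodCongrLeft fun _ : Fin 2 => σ) *
      (Equiv.prodCongrRight fun i => Equiv.addRight (ε i)) := by
    ext1 x
    rw [hgx]
    rfl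
  have hsign : (∏ i, Perm.sign (Equiv.addRight (ε i))) = 1 := by
    rw [hdec, map_mul, Perm.sign_prodCongrLeft, Perm.sign_prodCongrRight, Fin.prod_univ_two,
      Int.units_mul_self, one_mul] at hs
    exact hs
  have h1 := eps_sum ε hsign _ _ _ _ h.1
  rw [hgx, hgx, hgx, hgx]
  refine ⟨?_, ?_⟩
  · simpa [R4] using h.1
  · have h2 := h.2
    change x.2 + ε x.1 + (y.2 + ε y.1) + (z.2 + ε z.1) + (w.2 + ε w.1) = 0
    revert h1 h2
    generalize ε x.1 = a, ε y.1 = b, ε z.1 = c, ε w.1 = d, x.2 = a', y.2 = b', z.2 = c', w.2 = d'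
    revert a b c d a' b' c' d'
    decide +kernel

/-- The affine group of dimension three over the field of two elements. -/
def AGL : Subgroup (Perm (Fin 4 × Fin 2)) where
  carrier := {g | ∀ x y z w, R8 x y z w ↔ R8 (g x) (g y) (g z) (g w)}
  one_mem' := fun _ _ _ _ => Iff.rfl
  mul_mem' := fun {a b} ha hb x y z w => (hb x y z w).trans (ha _ _ _ _)
  inv_mem' := fun {a} ha x y z w => by
    have := ha (a⁻¹ x) (a⁻¹ y) (a⁻¹ z) (a⁻¹ w)
    simpa using this.symm

/-- An affine map which does not preserve the partition. -/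
def g1 : Perm (Fin 4 × Fin 2) := swap (0, 1) (1, 0) * swap (2, 1) (3, 0)

theorem g1_mem : g1 ∈ AGL := by
  change ∀ x y z w, R8 x y z w ↔ R8 (g1 x) (g1 y) (g1 z) (g1 w)
  decide +kernel

theorem g1_sign : Perm.sign g1 = 1 := by decide +kernel

/-- An even permutation which is not affine. -/
def g2 : Perm (Fin 4 × Fin 2) := swap (0, 0) (0, 1) * swap (0, 0) (1, 0)

theorem g2_notMem : g2 ∉ AGL := by
  intro h
  have := h (0, 0) (0, 1) (2, 0) (2, 1)
  revert this
  decide +kernel

theorem g2_sign : Perm.sign g2 = 1 := by decide +kernel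

/-- Let Ω be a set with 8 elements and f : Ω → Fin 4 a labelling whose four fibres all have size 2 (a partition of the 8 points into 4 pairs). Then the group of even permutations preserving this partition, (S₂ ≀ S₄) ∩ A₈, is not a maximal subgroup of the alternating group A₈ (it lies in a subgroup isomorphic to the affine group AGL₃(2)). -/
theorem result {Ω : Type*} [Fintype Ω] [DecidableEq Ω] (h8 : Fintype.card Ω = 8)
    (f : Ω → Fin 4) (hf : ∀ i : Fin 4, Nat.card {x : Ω // f x = i} = 2) :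
    ¬ IsCoatom ((Subgroup.closure {g : Equiv.Perm Ω | ∀ x y : Ω, f x = f y ↔ f (g x) = f (g y)} ⊓ alternatingGroup Ω).subgroupOf (alternatingGroup Ω)) := by
  classical
  obtain ⟨e, he⟩ := H33.exists_equiv_prod hf
  rw [H33.closure_partStab, H33.isCoatom_subgroupOf_iff inf_le_right]
  rintro ⟨-, h⟩
  let φ : Perm Ω ≃* Perm (Fin 4 × Fin 2) := e.permCongrHom
  have hφ : ∀ g x, φ g x = e (g (e.symm x)) := fun g x => rfl
  have hsign : ∀ g, Perm.sign (φ g) = Perm.sign g := fun g => Perm.sign_permCongr e g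
  have hle : H33.partStab f ⊓ alternatingGroup Ω ≤ AGL.comap φ.toMonoidHom ⊓ alternatingGroup Ω := by
    have key : ∀ g ∈ H33.partStab f ⊓ alternatingGroup Ω, ∀ x y z w, R8 x y z w →
        R8 (φ g x) (φ g y) (φ g z) (φ g w) := by
      intro g hg
      apply core
      · intro x y
        rw [hφ, hφ, he, he, ← hg.1 (e.symm x) (e.symm y), ← he, ← he]
        simp
      · rw [hsign]; exact hg.2
    intro g hg
    refine ⟨fun x y z w => ⟨key g hg x y z w, fun h1 => ?_⟩, hg.2⟩
    have := key g⁻¹ (Subgroup.inv_mem _ hg) _ _ _ _ h1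
    simpa using this
  have hlt : H33.partStab f ⊓ alternatingGroup Ω < AGL.comap φ.toMonoidHom ⊓ alternatingGroup Ω := by
    refine lt_of_le_of_ne hle fun heq => ?_
    have h1 : φ.symm g1 ∈ AGL.comap φ.toMonoidHom ⊓ alternatingGroup Ω := by
      refine ⟨?_, ?_⟩
      · change φ (φ.symm g1) ∈ AGL
        rw [MulEquiv.apply_symm_apply]; exact g1_mem
      · change Perm.sign _ = 1
        rw [← hsign, MulEquiv.apply_symm_apply, g1_sign]
    rw [← heq] at h1
    have h2 := h1.1 (e.symm (0, 0)) (e.symm (0, 1))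
    rw [← he, ← he, ← he, ← he, ← hφ, ← hφ, MulEquiv.apply_symm_apply, e.apply_symm_apply,
      e.apply_symm_apply] at h2
    revert h2
    decide +kernel
  have h3 := h _ hlt inf_le_right
  have h4 : φ.symm g2 ∈ alternatingGroup Ω := by
    change Perm.sign _ = 1
    rw [← hsign, MulEquiv.apply_symm_apply, g2_sign]
  rw [← h3] at h4
  have h5 : φ (φ.symm g2) ∈ AGL := h4.1
  rw [MulEquiv.apply_symm_apply] at h5
  exact g2_notMem h5

end Cfsg.Agent.S5910
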