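import Cfsg.Statements.S5915
import Cfsg.Agent.H6.E82All
import Cfsg.Agent.H55.E82Rf
import Cfsg.Agent.H81.E82R3a
import Cfsg.Agent.H13.E82Fr

set_option autoImplicit false
open Cfsg

namespace Cfsg.Agent.S5915

/-- Let G be the Chevalley group of type E₈ over the field with two elements (generated by its root elements in the 248-dimensional adjoint representation; it is the simple group E₈(2)), and let H be a subgroup of G whose generalized Fitting subgroup F*(H) is isomorphic to PSL₂(64). Then H is not a maximal subgroup of G. Here F denotes a field with 64 elements. -/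
theorem result
    {F : Type*} [Field F] [Fintype F] (hF : Fintype.card F = 64) (H : Subgroup ↥(Cfsg.Lie.chevE8.group (ZMod 2)))
    (hH : Nonempty (↥(Cfsg.generalizedFittingSubgroup ↥H) ≃* Matrix.ProjectiveSpecialLinearGroup (Fin 2) F)) :
    ¬ IsCoatom H := by
  exact H6.E82.all_of Cfsg.Agent.H55.E82R.rf H81.E82R3a.r3a
    (H13.E82Fr.frS H34.E82Par.par H20.E82Uni.uni) F hF H hH

end Cfsg.Agent.S5915
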